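import Cfsg.Statements.S1528
import Cfsg.Agent.Lib.CharLinear
import Cfsg.Agent.Lib.CharPerm

set_option autoImplicit false
set_option linter.style.haveILetI false
set_option linter.unusedVariables false
open scoped ComplexConjugate
open Cfsg

namespace Cfsg.Agent.S1528

/-- Let N be a normal subgroup of the finite group G such that every element of G commuting with a non-identity element of N lies in N. If χ is an irreducible character of G with χ n ≠ χ 1 for some n ∈ N, then χ is the function induced from some irreducible character of N. -/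
theorem result {G : Type*} [Group G] [Fintype G] (N : Subgroup G) [N.Normal] (hC : ∀ n ∈ N, n ≠ 1 → Subgroup.centralizer ({n} : Set G) ≤ N) (χ : G → ℂ) (hχ : Cfsg.IsIrrCharacter G χ) (hker : ∃ n ∈ N, χ n ≠ χ 1) : ∃ φ : N → ℂ, Cfsg.IsIrrCharacter N φ ∧ χ = Cfsg.indFun N φ := by
  classical
  letI : Fintype N := Fintype.ofFinite _
  open Cfsg.Agent.Lib.CharCliff Cfsg.Agent.Lib.CharNormal Cfsg.Agent.Lib.CharOps Cfsg.Agent.Lib.CharIrr Cfsg.Agent.Lib.CharGen Cfsg.Agent.Lib.CharAb Cfsg.Agent.Lib.CharKernel Cfsg.Agent.Lib.CharLinear Cfsg.Agent.Lib.CharPerm in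
    obtain ⟨n₀, hn₀, hne⟩ := hker
    -- a nonprincipal constituent
    have hres := isCharacter_restrict N (IsIrrCharacter.isCharacter' hχ)
    have hexp := classFunction_expand (IsCharacter.isClassFunction' hres)
    obtain ⟨φ, hφ0, hφn⟩ : ∃ φ : IrrCharacter N, classInner (fun n : N => χ n) (φ : N → ℂ) ≠ 0 ∧
        (φ : N → ℂ) ⟨n₀, hn₀⟩ ≠ (φ : N → ℂ) 1 := by
      by_contra hcon
      push Not at hcon
      apply hne
      have h1 := congrFun hexp ⟨n₀, hn₀⟩
      have h2 := congrFun hexp 1
      simp only [Finset.sum_apply, Pi.smul_apply, smul_eq_mul] at h1 h2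
      have h3 : (χ 1) = χ ((1 : N) : G) := by simp
      rw [h3]
      refine h1.trans (Eq.trans ?_ h2.symm)
      refine Finset.sum_congr rfl fun φ _ => ?_
      by_cases h0 : classInner (fun n : N => χ n) (φ : N → ℂ) = 0
      · rw [h0]
        simp
      · rw [hcon φ h0]
    have hφirr := φ.2
    -- `φ` is not fixed by an outside element
    have hfix : ∀ x : G, x ∉ N → Cfsg.Agent.Lib.CharNormal.conjFun N (φ : N → ℂ) x ≠ (φ : N → ℂ) := by
      intro x hx hfx
      let α : N ≃* N := MulAut.conjNormal x
      have hcard := card_fixed_aut α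
      -- two fixed characters
      let one : IrrCharacter N := ⟨fun _ => 1, Cfsg.Agent.Lib.CharIso.isIrr_one⟩
      have hone : ((one : IrrCharacter N) : N → ℂ) ∘ α = (one : N → ℂ) := rfl
      have hφfix : (φ : N → ℂ) ∘ α = (φ : N → ℂ) := hfx
      have hneone : φ ≠ one := by
        intro h
        apply hφn
        rw [h]
      have h2 : 1 < Nat.card {χ : IrrCharacter N // (χ : N → ℂ) ∘ α = (χ : N → ℂ)} := by
        rw [Finite.one_lt_card_iff_nontrivial]
        exact ⟨⟨⟨φ, hφfix⟩, ⟨one, hone⟩, fun h => hneone (congrArg Subtype.val h)⟩⟩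
      rw [← hcard, Finite.one_lt_card_iff_nontrivial] at h2
      obtain ⟨⟨c, hc⟩, hc1⟩ : ∃ c : {C : ConjClasses N // ConjClasses.map α.toMonoidHom C = C}, c.1 ≠ ConjClasses.mk 1 := by
        by_contra hall
        push Not at hall
        obtain ⟨a, b, hab⟩ := h2
        exact hab (Subtype.ext ((hall a).trans (hall b).symm))
      obtain ⟨n, rfl⟩ := ConjClasses.exists_rep c
      · have hn1 : n ≠ 1 := fun h => hc1 (by show ConjClasses.mk n = _; rw [h])
        have h3 : IsConj (α n) n := ConjClasses.mk_eq_mk_iff_isConj.mp hc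
        obtain ⟨m, hm⟩ := isConj_iff.mp h3
        have h4 : (m : G) * (x * n * x⁻¹) * (m : G)⁻¹ = n := congrArg Subtype.val hm
        have h5 : (m : G) * x ∈ Subgroup.centralizer ({(n : G)} : Set G) := by
          rw [Subgroup.mem_centralizer_singleton_iff]
          have : (m : G) * x * n = n * ((m : G) * x) := by
            calc (m : G) * x * n = ((m : G) * (x * n * x⁻¹) * (m : G)⁻¹) * ((m : G) * x) := by group
              _ = n * ((m : G) * x) := by rw [h4]
          exact this
        have h6 := hC n n.2 (fun h => hn1 (Subtype.ext h)) h5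
        apply hx
        have h7 := N.mul_mem (N.inv_mem m.2) h6
        simpa using h7
    have hset : ∀ g : G, (∀ h : N, (φ : N → ℂ) ⟨g * h * g⁻¹, ‹N.Normal›.conj_mem h h.2 g⟩ = (φ : N → ℂ) h) ↔ g ∈ N := by
      intro g
      constructor
      · intro h
        by_contra hg
        apply hfix g hg
        funext n
        exact h n
      · intro hg h
        have := Cfsg.Agent.Lib.CharNormal.conjFun_of_mem N (θ := (φ : N → ℂ)) (IsCharacter.isClassFunction' (IsIrrCharacter.isCharacter' hφirr)) ⟨g, hg⟩
        exact congrFun this h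
    have hnorm := card_mul_norm_ind N hφirr
    have hcard2 : Nat.card {g : G // ∀ h : N, (φ : N → ℂ) ⟨g * h * g⁻¹, ‹N.Normal›.conj_mem h h.2 g⟩ = (φ : N → ℂ) h} = Nat.card N :=
      Nat.card_congr (Equiv.subtypeEquivRight hset)
    rw [hcard2] at hnorm
    have hK : (Nat.card N : ℂ) ≠ 0 := by exact_mod_cast Nat.card_pos.ne'
    have hone : classInner (indFun N (φ : N → ℂ)) (indFun N (φ : N → ℂ)) = 1 := by
      apply mul_left_cancel₀ hK
      rw [hnorm, mul_one]
    have hirr := isIrr_of_norm_one (isCharacter_indFun N (IsIrrCharacter.isCharacter' hφirr)) hone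
    refine ⟨φ, hφirr, ?_⟩
    by_contra hne2
    have h8 : classInner (indFun N (φ : N → ℂ)) χ = 0 := by
      rw [classInner_irr hirr hχ, if_neg (fun h => hne2 h.symm)]
    rw [frobenius_reciprocity N _ (IsCharacter.isClassFunction' (IsIrrCharacter.isCharacter' hχ))] at h8
    apply hφ0
    rw [← classInner_conj, h8]
    simp

end Cfsg.Agent.S1528
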