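import Cfsg.Statements.S1514
import Mathlib
import Cfsg.Agent.Lib.CharIso
import Cfsg.Agent.Lib.CharIrr
import Cfsg.Agent.Lib.CharOps
import Cfsg.Agent.Lib.CharGen
-- import your own Cfsg.Agent.* helpers here

set_option autoImplicit false
set_option linter.all false
open Cfsg

namespace Cfsg.Agent.S1514

open Cfsg.Agent.Lib.CharIrr Cfsg.Agent.Lib.CharIso Cfsg.Agent.Lib.CharOps in
theorem inner_sub {G : Type*} [Group G] [Fintype G] (a b c d : G → ℂ) :
    Cfsg.classInner (a - b) (c - d) =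
      Cfsg.classInner a c - Cfsg.classInner a d - Cfsg.classInner b c + Cfsg.classInner b d := by
  simp only [Cfsg.classInner, Pi.sub_apply, map_sub, sub_mul, mul_sub, Finset.sum_sub_distrib]
  ring

open Classical in
theorem distinct {G : Type*} [Group G] [Fintype G] {a₁ b₁ a₂ b₂ : G → ℂ}
    (h1 : Cfsg.IsIrrCharacter G a₁) (h2 : Cfsg.IsIrrCharacter G b₁) (h3 : Cfsg.IsIrrCharacter G a₂)
    (h4 : Cfsg.IsIrrCharacter G b₂) (h12 : a₁ ≠ b₁) (h34 : a₂ ≠ b₂)
    (h : Cfsg.classInner (a₁ - b₁) (a₂ - b₂) = 0) : a₁ ≠ a₂ ∧ a₁ ≠ b₂ ∧ b₁ ≠ a₂ ∧ b₁ ≠ b₂ := by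
  rw [inner_sub, Cfsg.Agent.Lib.CharIrr.classInner_irr h1 h3, Cfsg.Agent.Lib.CharIrr.classInner_irr h1 h4,
    Cfsg.Agent.Lib.CharIrr.classInner_irr h2 h3, Cfsg.Agent.Lib.CharIrr.classInner_irr h2 h4] at h
  by_cases e1 : a₁ = a₂
  · subst e1
    rw [if_pos rfl, if_neg h34, if_neg h12.symm] at h
    split_ifs at h <;> norm_num at h
  by_cases e2 : a₁ = b₂
  · subst e2
    rw [if_pos rfl, if_neg e1, if_neg h12.symm] at h
    split_ifs at h <;> norm_num at h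
  by_cases e3 : b₁ = a₂
  · subst e3
    rw [if_pos rfl, if_neg e1, if_neg e2, if_neg h34] at h
    norm_num at h
  by_cases e4 : b₁ = b₂
  · subst e4
    rw [if_pos rfl, if_neg e1, if_neg e2, if_neg e3] at h
    norm_num at h
  exact ⟨e1, e2, e3, e4⟩

theorem inner_neg_right {G : Type*} [Group G] [Fintype G] (a b : G → ℂ) :
    Cfsg.classInner a (-b) = -Cfsg.classInner a b := by
  simp [Cfsg.classInner, Finset.mul_sum]

theorem inner_neg_left {G : Type*} [Group G] [Fintype G] (a b : G → ℂ) :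
    Cfsg.classInner (-a) b = -Cfsg.classInner a b := by
  simp [Cfsg.classInner, Finset.mul_sum]



/-- Let S be a nonempty set of irreducible characters of the finite group L, closed under complex conjugation and containing no real-valued member, and τ a linear isometry on the integer combinations of S vanishing at 1, with values virtual characters of G vanishing at 1. Then there is a choice R making (S, τ, R) a coherence system. -/
theorem result {L : Type*} [Group L] [Fintype L] {G : Type*} [Group G] [Fintype G] (S : Set (L → ℂ)) (hS : S.Nonempty) (hirr : ∀ χ ∈ S, Cfsg.IsIrrCharacter L χ) (hconj : ∀ χ ∈ S, Cfsg.conjFun χ ∈ S ∧ Cfsg.conjFun χ ≠ χ) (τ : (L → ℂ) → (G → ℂ)) (hτ : Cfsg.IsLinearIsometryOn (Cfsg.zspanOn S {1}ᶜ) τ) (hτ1 : ∀ α ∈ Cfsg.zspanOn S {1}ᶜ, τ α 1 = 0) : ∃ R : (L → ℂ) → Finset (G → ℂ), Cfsg.IsCoherenceSystem S τ R := by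
  classical
  have hconj2 : ∀ χ : L → ℂ, Cfsg.conjFun (Cfsg.conjFun χ) = χ := by
    intro χ
    funext x
    simp [Cfsg.conjFun]
  have hmem : ∀ χ ∈ S, χ - Cfsg.conjFun χ ∈ Cfsg.zspanOn S {1}ᶜ := by
    intro χ hχ
    refine ⟨Submodule.sub_mem _ (Submodule.subset_span hχ) (Submodule.subset_span (hconj χ hχ).1), ?_⟩
    intro x hx
    have hx1 : x = 1 := by simpa using hx
    subst hx1
    obtain ⟨n, hn⟩ := Cfsg.Agent.Lib.CharOps.exists_degree (Cfsg.Agent.Lib.CharOps.IsIrrCharacter.isCharacter' (hirr χ hχ))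
    simp [Cfsg.conjFun, hn]
  have hnorm : ∀ χ ∈ S, Cfsg.classInner (χ - Cfsg.conjFun χ) (χ - Cfsg.conjFun χ) = 2 := by
    intro χ hχ
    obtain ⟨hc, hne⟩ := hconj χ hχ
    rw [inner_sub, Cfsg.Agent.Lib.CharIrr.classInner_irr (hirr χ hχ) (hirr χ hχ), Cfsg.Agent.Lib.CharIrr.classInner_irr (hirr χ hχ) (hirr _ hc),
      Cfsg.Agent.Lib.CharIrr.classInner_irr (hirr _ hc) (hirr χ hχ), Cfsg.Agent.Lib.CharIrr.classInner_irr (hirr _ hc) (hirr _ hc),
      if_pos rfl, if_pos rfl, if_neg hne, if_neg hne.symm]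
    norm_num
  have hex : ∀ χ ∈ S, ∃ α β : G → ℂ, Cfsg.IsIrrCharacter G α ∧ Cfsg.IsIrrCharacter G β ∧ α ≠ β ∧ τ (χ - Cfsg.conjFun χ) = α - β := by
    intro χ hχ
    apply Cfsg.Agent.Lib.CharIso.exists_irr_sub_of_norm_two (hτ.2.2.2 _ (hmem χ hχ)) _ (hτ1 _ (hmem χ hχ))
    rw [hτ.2.2.1 _ (hmem χ hχ) _ (hmem χ hχ), hnorm χ hχ]
  choose! a b ha hb hab hτe using hex
  have hgenirr : ∀ μ : G → ℂ, Cfsg.IsIrrCharacter G μ → Cfsg.IsGeneralizedCharacter G μ := by
    intro μ hμ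
    exact Cfsg.Agent.Lib.CharGen.isGen_of_char (Cfsg.Agent.Lib.CharOps.IsIrrCharacter.isCharacter' hμ)
  have hgenneg : ∀ μ : G → ℂ, Cfsg.IsIrrCharacter G μ → Cfsg.IsGeneralizedCharacter G (-μ) := by
    intro μ hμ
    exact Cfsg.Agent.Lib.CharGen.isGen_neg (hgenirr μ hμ)
  have hne : ∀ χ ∈ S, a χ ≠ -b χ := by
    intro χ hχ e
    have h1 : Cfsg.classInner (a χ) (a χ) = 1 := by
      rw [Cfsg.Agent.Lib.CharIrr.classInner_irr (ha χ hχ) (ha χ hχ), if_pos rfl]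
    have h2 : Cfsg.classInner (a χ) (b χ) = 0 := by
      rw [Cfsg.Agent.Lib.CharIrr.classInner_irr (ha χ hχ) (hb χ hχ), if_neg (hab χ hχ)]
    have h3 : Cfsg.classInner (a χ) (-b χ) = -Cfsg.classInner (a χ) (b χ) := inner_neg_right _ _
    rw [← e] at h3
    rw [h1, h2] at h3
    norm_num at h3
  refine ⟨fun χ => {a χ, -b χ}, ?_⟩
  refine ⟨hS, fun χ hχ => Cfsg.Agent.Lib.CharOps.IsIrrCharacter.isCharacter' (hirr χ hχ), fun χ hχ => (hconj χ hχ).1, fun χ hχ => (hconj χ hχ).2, hτ, hτ1, ?_, ?_, ?_, ?_, ?_⟩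
  · intro χ hχ φ hφ hne
    rw [Cfsg.Agent.Lib.CharIrr.classInner_irr (hirr χ hχ) (hirr φ hφ), if_neg hne]
  · intro χ hχ α hα β hβ
    have hne' := hne χ hχ
    have e1 : Cfsg.classInner (a χ) (a χ) = 1 := by
      rw [Cfsg.Agent.Lib.CharIrr.classInner_irr (ha χ hχ) (ha χ hχ), if_pos rfl]
    have e2 : Cfsg.classInner (a χ) (b χ) = 0 := by
      rw [Cfsg.Agent.Lib.CharIrr.classInner_irr (ha χ hχ) (hb χ hχ), if_neg (hab χ hχ)]
    have e3 : Cfsg.classInner (b χ) (a χ) = 0 := by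
      rw [Cfsg.Agent.Lib.CharIrr.classInner_irr (hb χ hχ) (ha χ hχ), if_neg (hab χ hχ).symm]
    have e4 : Cfsg.classInner (b χ) (b χ) = 1 := by
      rw [Cfsg.Agent.Lib.CharIrr.classInner_irr (hb χ hχ) (hb χ hχ), if_pos rfl]
    simp only [Finset.mem_insert, Finset.mem_singleton] at hα hβ
    rcases hα with rfl | rfl <;> rcases hβ with rfl | rfl
    · rw [if_pos rfl, e1]
    · rw [if_neg hne', inner_neg_right, e2, neg_zero]
    · rw [if_neg hne'.symm, inner_neg_left, e3, neg_zero]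
    · rw [if_pos rfl, inner_neg_right, inner_neg_left, e4, neg_neg]
  · intro χ hχ α hα
    simp only [Finset.mem_insert, Finset.mem_singleton] at hα
    rcases hα with rfl | rfl
    · exact hgenirr _ (ha χ hχ)
    · exact hgenneg _ (hb χ hχ)
  · intro χ hχ
    rw [hτe χ hχ, Finset.sum_pair (hne χ hχ), sub_eq_add_neg]
  · intro χ hχ φ hφ h1 h2 α hα β hβ
    have hc1 := (hconj χ hχ).1
    have hc2 := (hconj φ hφ).1
    have n1 : φ ≠ χ := by
      rintro rfl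
      rw [Cfsg.Agent.Lib.CharIrr.classInner_irr (hirr φ hφ) (hirr φ hφ), if_pos rfl] at h1
      exact one_ne_zero h1
    have n2 : φ ≠ Cfsg.conjFun χ := by
      intro e
      rw [← e, Cfsg.Agent.Lib.CharIrr.classInner_irr (hirr φ hφ) (hirr φ hφ), if_pos rfl] at h2
      exact one_ne_zero h2
    have n3 : Cfsg.conjFun φ ≠ χ := by
      intro e
      apply n2
      rw [← e, hconj2]
    have n4 : Cfsg.conjFun φ ≠ Cfsg.conjFun χ := by
      intro e
      apply n1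
      have := congrArg Cfsg.conjFun e
      rwa [hconj2, hconj2] at this
    have hi : Cfsg.classInner (φ - Cfsg.conjFun φ) (χ - Cfsg.conjFun χ) = 0 := by
      rw [inner_sub, h1, h2, Cfsg.Agent.Lib.CharIrr.classInner_irr (hirr _ hc2) (hirr _ hχ), Cfsg.Agent.Lib.CharIrr.classInner_irr (hirr _ hc2) (hirr _ hc1), if_neg n3, if_neg n4]
      ring
    have hi2 : Cfsg.classInner (a φ - b φ) (a χ - b χ) = 0 := by
      rw [← hτe φ hφ, ← hτe χ hχ, hτ.2.2.1 _ (hmem φ hφ) _ (hmem χ hχ), hi]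
    obtain ⟨d1, d2, d3, d4⟩ := distinct (ha φ hφ) (hb φ hφ) (ha χ hχ) (hb χ hχ) (hab φ hφ) (hab χ hχ) hi2
    simp only [Finset.mem_insert, Finset.mem_singleton] at hα hβ
    rcases hα with rfl | rfl <;> rcases hβ with rfl | rfl
    · rw [Cfsg.Agent.Lib.CharIrr.classInner_irr (ha φ hφ) (ha χ hχ), if_neg d1]
    · rw [inner_neg_right, Cfsg.Agent.Lib.CharIrr.classInner_irr (ha φ hφ) (hb χ hχ), if_neg d2, neg_zero]
    · rw [inner_neg_left, Cfsg.Agent.Lib.CharIrr.classInner_irr (hb φ hφ) (ha χ hχ), if_neg d3, neg_zero]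
    · rw [inner_neg_left, inner_neg_right, Cfsg.Agent.Lib.CharIrr.classInner_irr (hb φ hφ) (hb χ hχ), if_neg d4, neg_zero, neg_zero]

end Cfsg.Agent.S1514
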