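import Cfsg.Statements.S0769
-- import your own Cfsg.Agent.* helpers here

set_option autoImplicit false
open Cfsg

namespace Cfsg.Agent.S0769

/-- Order of the Borel subgroup of GL_n(q): the invertible lower-triangular n × n matrices over a field with q elements number q^(n(n-1)/2) (q-1)^n (unitriangular part times the diagonal torus). -/
theorem result {F : Type*} [Field F] [Fintype F] {q : ℕ} (hF : Fintype.card F = q) (n : ℕ) : Nat.card {g : Matrix.GeneralLinearGroup (Fin n) F // ∀ i j : Fin n, i < j → (g : Matrix (Fin n) (Fin n) F) i j = 0} = q ^ (n * (n - 1) / 2) * (q - 1) ^ n := by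
  classical
  subst hF
  let T := Σ i : Fin n, Fin (i : ℕ)
  have hT : Nat.card T = n * (n - 1) / 2 := by
    rw [Nat.card_eq_fintype_card, Fintype.card_sigma]
    simp only [Fintype.card_fin]
    rw [Fin.sum_univ_eq_sum_range (fun i => i) n, Finset.sum_range_id]
  let lt' : ∀ t : T, ((⟨(t.2 : ℕ), t.2.2.trans t.1.2⟩ : Fin n)) < t.1 := fun t => t.2.2
  let M : (Fin n → Fˣ) → (T → F) → Matrix (Fin n) (Fin n) F := fun d e i j =>
    if h : (j : ℕ) < (i : ℕ) then e ⟨i, ⟨j, h⟩⟩ else if i = j then (d i : F) else 0
  have hMlow : ∀ d e (i j : Fin n), i < j → M d e i j = 0 := by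
    intro d e i j hij
    have h1 : ¬ ((j : ℕ) < (i : ℕ)) := by
      have : (i : ℕ) < j := hij
      omega
    simp only [M, dif_neg h1]
    rw [if_neg hij.ne]
  have hMdiag : ∀ d e (i : Fin n), M d e i i = d i := by
    intro d e i
    simp [M]
  have hMdet : ∀ d e, (M d e).det ≠ 0 := by
    intro d e
    have h1 : (M d e).BlockTriangular OrderDual.toDual := by
      intro i j hij
      exact hMlow d e i j hij
    rw [Matrix.det_of_isLowerTriangular _ h1]
    rw [Finset.prod_ne_zero_iff]
    intro i _
    rw [hMdiag]
    exact Units.ne_zero _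
  have hgdiag : ∀ g : {g : Matrix.GeneralLinearGroup (Fin n) F // ∀ i j : Fin n, i < j → (g : Matrix (Fin n) (Fin n) F) i j = 0}, ∀ i,
      (g.1 : Matrix (Fin n) (Fin n) F) i i ≠ 0 := by
    intro g i
    have h1 : (g.1 : Matrix (Fin n) (Fin n) F).BlockTriangular OrderDual.toDual := by
      intro a b hab
      exact g.2 a b hab
    have h2 : (g.1 : Matrix (Fin n) (Fin n) F).det ≠ 0 := by
      have h3 := (Matrix.isUnit_iff_isUnit_det _).1 g.1.isUnit
      exact h3.ne_zero
    rw [Matrix.det_of_isLowerTriangular _ h1, Finset.prod_ne_zero_iff] at h2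
    exact h2 i (Finset.mem_univ i)
  let E : {g : Matrix.GeneralLinearGroup (Fin n) F // ∀ i j : Fin n, i < j → (g : Matrix (Fin n) (Fin n) F) i j = 0} ≃
      (Fin n → Fˣ) × (T → F) :=
    { toFun := fun g => (fun i => Units.mk0 ((g.1 : Matrix (Fin n) (Fin n) F) i i) (hgdiag g i),
        fun t => (g.1 : Matrix (Fin n) (Fin n) F) t.1 ⟨t.2, t.2.2.trans t.1.2⟩)
      invFun := fun p => ⟨Matrix.GeneralLinearGroup.mkOfDetNeZero (M p.1 p.2) (hMdet p.1 p.2), fun i j hij => hMlow p.1 p.2 i j hij⟩
      left_inv := by
        intro g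
        apply Subtype.ext
        apply Units.ext
        ext i j
        show M _ _ i j = _
        simp only [M]
        by_cases h : (j : ℕ) < (i : ℕ)
        · simp [dif_pos h]
        · rw [dif_neg h]
          by_cases hij : i = j
          · subst hij
            simp
          · rw [if_neg hij]
            have : i < j := by
              have h1 : (i : ℕ) ≠ j := fun h2 => hij (Fin.ext h2)
              exact Fin.lt_def.2 (by omega)
            exact (g.2 i j this).symm
      right_inv := by
        rintro ⟨d, e⟩
        refine Prod.ext ?_ ?_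
        · funext i
          apply Units.ext
          exact hMdiag d e i
        · funext t
          show M d e t.1 ⟨t.2, t.2.2.trans t.1.2⟩ = e t
          simp only [M]
          rw [dif_pos t.2.2]  }
  rw [Nat.card_congr E, Nat.card_prod, Nat.card_fun, Nat.card_fun, hT]
  simp only [Nat.card_eq_fintype_card, Fintype.card_units, Fintype.card_fin]
  ring

end Cfsg.Agent.S0769
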