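import Cfsg.Statements.S1227
import Cfsg.Agent.Lib.CitAbelian
-- import your own Cfsg.Agent.* helpers here

set_option autoImplicit false
set_option linter.all false
open Cfsg

namespace Cfsg.Agent.S1227

/-- Let G be a finite group with a Sylow 2-subgroup T that is neither cyclic nor normal, such that the centralizer of every involution is an elementary abelian 2-group; put H = N_G(T), let u be an involution outside H and D = H ∩ uHu⁻¹. Then u inverts every element of D, |H| = |T|·(|T| − 1), and D is a complement to T in H. -/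
theorem result {G : Type*} [Group G] [Finite G] (T : Sylow 2 G) (hnc : ¬ IsCyclic (T : Subgroup G)) (hnn : ¬ (T : Subgroup G).Normal) (hC : ∀ t : G, orderOf t = 2 → IsMulCommutative (Subgroup.centralizer ({t} : Set G)) ∧ ∀ c ∈ Subgroup.centralizer ({t} : Set G), c ^ 2 = 1) (u : G) (hu : orderOf u = 2) (huH : u ∉ Subgroup.normalizer ((T : Subgroup G) : Set G)) : (∀ d ∈ Subgroup.normalizer ((T : Subgroup G) : Set G) ⊓ (Subgroup.normalizer ((T : Subgroup G) : Set G)).map (MulAut.conj u).toMonoidHom, u * d * u⁻¹ = d⁻¹) ∧ Nat.card (Subgroup.normalizer ((T : Subgroup G) : Set G)) = Nat.card T * (Nat.card T - 1) ∧ Subgroup.IsComplement' ((Subgroup.normalizer ((T : Subgroup G) : Set G) ⊓ (Subgroup.normalizer ((T : Subgroup G) : Set G)).map (MulAut.conj u).toMonoidHom).subgroupOf (Subgroup.normalizer ((T : Subgroup G) : Set G))) ((T : Subgroup G).subgroupOf (Subgroup.normalizer ((T : Subgroup G) : Set G))) := by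
  classical
  open Cfsg.Agent.Lib.CitAbelian in
  have hne := ne_bot_of_not_cyclic hnc
  have huu : u * u = 1 := by rw [← pow_two, ← hu]; exact pow_orderOf_eq_one u
  have hux : u • Cfsg.Agent.Lib.CitAbelian.x₀ T ≠ Cfsg.Agent.Lib.CitAbelian.x₀ T := fun h => huH (Cfsg.Agent.Lib.CitAbelian.fix_x0_iff.1 h)
  have hDD := Cfsg.Agent.Lib.CitAbelian.DD_eq (T := T) u
  have hinv := fun {d : G} (hd : d ∈ MulAction.stabilizer G (Cfsg.Agent.Lib.CitAbelian.x₀ T) ⊓ MulAction.stabilizer G (u • Cfsg.Agent.Lib.CitAbelian.x₀ T)) =>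
    Cfsg.Agent.Lib.CitAbelian.DD_inv hne hC hnn huu hux hd
  have hcardD := Cfsg.Agent.Lib.CitAbelian.DD_card hne hC hnn huu hux
  rw [← hDD] at hcardD
  have hcompl : Subgroup.IsComplement' ((Subgroup.normalizer ((T : Subgroup G) : Set G) ⊓ (Subgroup.normalizer ((T : Subgroup G) : Set G)).map (MulAut.conj u).toMonoidHom).subgroupOf (Subgroup.normalizer ((T : Subgroup G) : Set G))) ((T : Subgroup G).subgroupOf (Subgroup.normalizer ((T : Subgroup G) : Set G))) := by
    apply Subgroup.isComplement'_of_disjoint_and_mul_eq_univ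
    · rw [Subgroup.disjoint_def]
      rintro ⟨x, hx⟩ h1 h2
      have h1' : x ∈ Subgroup.normalizer ((T : Subgroup G) : Set G) ⊓ (Subgroup.normalizer ((T : Subgroup G) : Set G)).map (MulAut.conj u).toMonoidHom := h1
      have h2' : x ∈ (T : Subgroup G) := h2
      have h3 : x ∈ MulAction.stabilizer G (Cfsg.Agent.Lib.CitAbelian.x₀ T) ⊓ MulAction.stabilizer G (u • Cfsg.Agent.Lib.CitAbelian.x₀ T) := by
        rw [← hDD]; exact h1'
      have h4 := Cfsg.Agent.Lib.CitAbelian.DD_inf_T hne hC hnn huu hux h3 h2'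
      exact Subtype.ext h4
    · ext ⟨h, hh⟩
      simp only [Set.mem_univ, iff_true]
      obtain ⟨d, hd, τ, hτ, rfl⟩ := Cfsg.Agent.Lib.CitAbelian.H_factor hne hC hnn huu hux hh
      refine Set.mem_mul.2 ⟨⟨d, ?_⟩, ?_, ⟨τ, Cfsg.Agent.Lib.CitAbelian.T_le_H hτ⟩, ?_, rfl⟩
      · exact Cfsg.Agent.Lib.CitAbelian.DD_le_H hne hC hnn huu hux hd
      · show d ∈ Subgroup.normalizer ((T : Subgroup G) : Set G) ⊓ (Subgroup.normalizer ((T : Subgroup G) : Set G)).map (MulAut.conj u).toMonoidHom
        rw [hDD]; exact hd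
      · exact hτ
  refine ⟨?_, ?_, hcompl⟩
  · intro d hd
    rw [hDD] at hd
    exact hinv hd
  · have h1 := hcompl.card_mul
    have h2 : Nat.card ↥((Subgroup.normalizer ((T : Subgroup G) : Set G) ⊓ (Subgroup.normalizer ((T : Subgroup G) : Set G)).map (MulAut.conj u).toMonoidHom).subgroupOf (Subgroup.normalizer ((T : Subgroup G) : Set G))) = Nat.card ↥(Subgroup.normalizer ((T : Subgroup G) : Set G) ⊓ (Subgroup.normalizer ((T : Subgroup G) : Set G)).map (MulAut.conj u).toMonoidHom) :=
      Nat.card_congr (Subgroup.subgroupOfEquivOfLe inf_le_left).toEquiv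
    have h3 : Nat.card ↥((T : Subgroup G).subgroupOf (Subgroup.normalizer ((T : Subgroup G) : Set G))) = Nat.card (T : Subgroup G) :=
      Nat.card_congr (Subgroup.subgroupOfEquivOfLe Cfsg.Agent.Lib.CitAbelian.T_le_H).toEquiv
    rw [h2, h3, hcardD] at h1
    rw [← h1, mul_comm]

end Cfsg.Agent.S1227
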