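import Cfsg.Statements.S1229
import Cfsg.Agent.Lib.CitAbelian
-- import your own Cfsg.Agent.* helpers here

set_option autoImplicit false
set_option linter.all false
open Cfsg

namespace Cfsg.Agent.S1229

/-- Let G be a finite group with a Sylow 2-subgroup T that is neither cyclic nor normal, such that the centralizer of every involution is an elementary abelian 2-group; put H = N_G(T) and X = G/H. Then G is triply transitive on X, an element fixing three distinct points of X is the identity, and T acts regularly on X minus the point H. -/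
theorem result {G : Type*} [Group G] [Finite G] (T : Sylow 2 G) (hnc : ¬ IsCyclic (T : Subgroup G)) (hnn : ¬ (T : Subgroup G).Normal) (hC : ∀ t : G, orderOf t = 2 → IsMulCommutative (Subgroup.centralizer ({t} : Set G)) ∧ ∀ c ∈ Subgroup.centralizer ({t} : Set G), c ^ 2 = 1) : (∀ x₁ x₂ x₃ y₁ y₂ y₃ : G ⧸ Subgroup.normalizer ((T : Subgroup G) : Set G), x₁ ≠ x₂ → x₁ ≠ x₃ → x₂ ≠ x₃ → y₁ ≠ y₂ → y₁ ≠ y₃ → y₂ ≠ y₃ → ∃ g : G, g • x₁ = y₁ ∧ g • x₂ = y₂ ∧ g • x₃ = y₃) ∧ (∀ g : G, ∀ x₁ x₂ x₃ : G ⧸ Subgroup.normalizer ((T : Subgroup G) : Set G), x₁ ≠ x₂ → x₁ ≠ x₃ → x₂ ≠ x₃ → g • x₁ = x₁ → g • x₂ = x₂ → g • x₃ = x₃ → g = 1) ∧ (∀ x y : G ⧸ Subgroup.normalizer ((T : Subgroup G) : Set G), x ≠ QuotientGroup.mk 1 → y ≠ QuotientGroup.mk 1 → ∃! t : G, t ∈ T ∧ t • x = y) := by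
  classical
  have hne := Cfsg.Agent.Lib.CitAbelian.ne_bot_of_not_cyclic hnc
  have hSE := Cfsg.Agent.Lib.CitAbelian.stronglyEmbedded hne hC hnn
  have hO := Cfsg.Agent.Lib.CitAbelian.oddStabH hne hC hnn
  -- an involution outside `H`
  obtain ⟨g₀, hg₀⟩ : ∃ g₀ : G, g₀ ∉ Cfsg.Agent.Lib.CitAbelian.HH T := by
    by_contra h
    push Not at h
    exact hSE.1 ((Subgroup.eq_top_iff' _).2 h)
  have hg₀x : g₀ • Cfsg.Agent.Lib.CitAbelian.x₀ T ≠ Cfsg.Agent.Lib.CitAbelian.x₀ T := fun h => hg₀ (Cfsg.Agent.Lib.CitAbelian.fix_x0_iff.1 h)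
  obtain ⟨u, huu, hu1, hux', huy⟩ := Cfsg.Agent.Lib.CitAbelian.exists_swap_to hne hC hnn hg₀x
  have hux : u • Cfsg.Agent.Lib.CitAbelian.x₀ T ≠ Cfsg.Agent.Lib.CitAbelian.x₀ T := by rw [hux']; exact hg₀x
  have hD1 := Cfsg.Agent.Lib.CitAbelian.DD_ne_one hnn hne hC hnc huu hux
  obtain ⟨z₀, hz₀T, hz₀1, hz₀z₀, -⟩ := Cfsg.Agent.Lib.CitAbelian.exists_central_invol hne hC
  have hTfix : ∀ τ ∈ (T : Subgroup G), τ • Cfsg.Agent.Lib.CitAbelian.x₀ T = Cfsg.Agent.Lib.CitAbelian.x₀ T :=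
    fun τ hτ => Cfsg.Agent.Lib.CitAbelian.fix_x0_iff.2 (Cfsg.Agent.Lib.CitAbelian.T_le_H hτ)
  -- the third standard point
  obtain ⟨p₀, hp₀⟩ : ∃ p₀, p₀ = z₀ • u • Cfsg.Agent.Lib.CitAbelian.x₀ T := ⟨_, rfl⟩
  have hp₀1 : p₀ ≠ Cfsg.Agent.Lib.CitAbelian.x₀ T := by
    rw [hp₀]
    intro h
    apply hux
    have h2 : z₀ • u • Cfsg.Agent.Lib.CitAbelian.x₀ T = z₀ • Cfsg.Agent.Lib.CitAbelian.x₀ T := by rw [h, hTfix z₀ hz₀T]
    exact smul_left_cancel z₀ h2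
  have hp₀2 : p₀ ≠ u • Cfsg.Agent.Lib.CitAbelian.x₀ T := by
    rw [hp₀]
    intro h
    exact Cfsg.Agent.Lib.OddTwoPoint.fix_unique hO hz₀z₀ hz₀1 h (hTfix z₀ hz₀T) |> hux
  -- normal form of triples
  have hnorm : ∀ x₁ x₂ x₃ : G ⧸ Cfsg.Agent.Lib.CitAbelian.HH T, x₁ ≠ x₂ → x₁ ≠ x₃ → x₂ ≠ x₃ →
      ∃ g : G, g • x₁ = Cfsg.Agent.Lib.CitAbelian.x₀ T ∧ g • x₂ = u • Cfsg.Agent.Lib.CitAbelian.x₀ T ∧ g • x₃ = p₀ := by
    intro x₁ x₂ x₃ h12 h13 h23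
    -- move `x₁` to the base point
    obtain ⟨g₁, hg₁⟩ : ∃ g₁ : G, g₁ • x₁ = Cfsg.Agent.Lib.CitAbelian.x₀ T := by
      induction x₁ using QuotientGroup.induction_on with
      | H g =>
      refine ⟨g⁻¹, ?_⟩
      show (QuotientGroup.mk (g⁻¹ * g) : G ⧸ Cfsg.Agent.Lib.CitAbelian.HH T) = QuotientGroup.mk 1
      rw [inv_mul_cancel]
    have h2ne : g₁ • x₂ ≠ Cfsg.Agent.Lib.CitAbelian.x₀ T := by
      rw [← hg₁]
      intro h
      exact h12 (smul_left_cancel g₁ h).symm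
    obtain ⟨τ, hτ, hτe⟩ := Cfsg.Agent.Lib.CitAbelian.exists_T_smul hne hC hnn huu hux hD1 h2ne
    have hτi : τ⁻¹ ∈ (T : Subgroup G) := Subgroup.inv_mem _ hτ
    have h3ne : τ⁻¹ • g₁ • x₃ ≠ Cfsg.Agent.Lib.CitAbelian.x₀ T := by
      rw [← hTfix τ⁻¹ hτi, ← hg₁]
      intro h
      exact h13 (smul_left_cancel g₁ (smul_left_cancel τ⁻¹ h)).symm
    have h3ne' : τ⁻¹ • g₁ • x₃ ≠ u • Cfsg.Agent.Lib.CitAbelian.x₀ T := by
      intro h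
      have h5 : g₁ • x₃ = τ • u • Cfsg.Agent.Lib.CitAbelian.x₀ T := by rw [← h, smul_inv_smul]
      rw [hτe] at h5
      exact h23 (smul_left_cancel g₁ h5).symm
    obtain ⟨d, hd, hde⟩ := Cfsg.Agent.Lib.CitAbelian.exists_D_smul hne hC hnn huu hux hD1 h3ne h3ne' hp₀1 hp₀2
    refine ⟨d * τ⁻¹ * g₁, ?_, ?_, ?_⟩
    · rw [mul_smul, mul_smul, hg₁, hTfix τ⁻¹ hτi]
      exact hd.1
    · rw [mul_smul, mul_smul, ← hτe, inv_smul_smul]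
      exact hd.2
    · rw [mul_smul, mul_smul]
      exact hde
  refine ⟨?_, ?_, ?_⟩
  · intro x₁ x₂ x₃ y₁ y₂ y₃ h12 h13 h23 k12 k13 k23
    obtain ⟨g, h1, h2, h3⟩ := hnorm x₁ x₂ x₃ h12 h13 h23
    obtain ⟨g', k1, k2, k3⟩ := hnorm y₁ y₂ y₃ k12 k13 k23
    refine ⟨g'⁻¹ * g, ?_, ?_, ?_⟩
    · rw [mul_smul, h1, ← k1, inv_smul_smul]
    · rw [mul_smul, h2, ← k2, inv_smul_smul]
    · rw [mul_smul, h3, ← k3, inv_smul_smul]
  · intro g x₁ x₂ x₃ h12 h13 h23 h1 h2 h3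
    obtain ⟨f, f1, f2, f3⟩ := hnorm x₁ x₂ x₃ h12 h13 h23
    have hfg : f * g * f⁻¹ = 1 := by
      apply Cfsg.Agent.Lib.CitAbelian.fix_three hne hC hnn huu hux hD1 (p := p₀)
      · rw [← f1, mul_smul, mul_smul, inv_smul_smul, h1]
      · rw [← f2, mul_smul, mul_smul, inv_smul_smul, h2]
      · rw [← f3, mul_smul, mul_smul, inv_smul_smul, h3]
      · exact hp₀1
      · exact hp₀2
    have : g = f⁻¹ * (f * g * f⁻¹) * f := by group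
    rw [this, hfg]
    group
  · intro x y hx hy
    obtain ⟨τ, hτ, hτe⟩ := Cfsg.Agent.Lib.CitAbelian.exists_T_smul hne hC hnn huu hux hD1 hx
    obtain ⟨τ', hτ', hτe'⟩ := Cfsg.Agent.Lib.CitAbelian.exists_T_smul hne hC hnn huu hux hD1 hy
    refine ⟨τ' * τ⁻¹, ⟨Subgroup.mul_mem _ hτ' (Subgroup.inv_mem _ hτ), ?_⟩, ?_⟩
    · rw [mul_smul, ← hτe, inv_smul_smul, hτe']
    · rintro t ⟨ht, hte⟩
      -- uniqueness
      have h1 : (τ' * τ⁻¹)⁻¹ * t ∈ (T : Subgroup G) := Subgroup.mul_mem _ (Subgroup.inv_mem _ (Subgroup.mul_mem _ hτ' (Subgroup.inv_mem _ hτ))) ht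
      have h2 : ((τ' * τ⁻¹)⁻¹ * t) • x = x := by
        have h3 : (τ' * τ⁻¹) • x = y := by
          rw [mul_smul, ← hτe, inv_smul_smul, hτe']
        rw [mul_smul, hte, ← h3, inv_smul_smul]
      by_contra hne'
      have hne1 : (τ' * τ⁻¹)⁻¹ * t ≠ 1 := by
        intro h
        apply hne'
        have h4 : t = (τ' * τ⁻¹) * ((τ' * τ⁻¹)⁻¹ * t) := by group
        rw [h4, h, mul_one]
      have h5 := Cfsg.Agent.Lib.OddTwoPoint.fix_unique hO (Cfsg.Agent.Lib.CitAbelian.T_sq hne hC h1) hne1 h2 (hTfix _ h1)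
      exact hx h5

end Cfsg.Agent.S1229
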