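import Cfsg.Agent.Lib.FormCount
import Cfsg.Statements.S0290
-- import your own Cfsg.Agent.* helpers here

set_option autoImplicit false
open Cfsg

namespace Cfsg.Agent.S0290

/-- The minus-type quadratic form on F^(2m), m at least 1, has q^(2m-1) + q^(m-1) - q^m zeros (that is, (q^m + 1)(q^(m-1) - 1) non-zero isotropic vectors). -/
theorem result {F : Type*} [Field F] [Fintype F] {q : ℕ} (hF : Fintype.card F = q) (m : ℕ) (hm : 1 ≤ m) (a b : F) (hab : ∀ z₁ z₂ : F, z₁ ^ 2 + a * z₁ * z₂ + b * z₂ ^ 2 = 0 → z₁ = 0 ∧ z₂ = 0) : Nat.card {v : (Fin (m - 1) ⊕ Fin (m - 1)) ⊕ Fin 2 → F // Cfsg.quadFormMinus (m - 1) F a b v = 0} = q ^ (2 * m - 1) + q ^ (m - 1) - q ^ m := by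
  classical
  have h := Cfsg.Agent.Lib.FormCount.count_dot (F := F) (m - 1) (fun z : F × F ↦ z.1 ^ 2 + a * z.1 * z.2 + b * z.2 ^ 2)
  have e : Nat.card {v : (Fin (m - 1) ⊕ Fin (m - 1)) ⊕ Fin 2 → F // Cfsg.quadFormMinus (m - 1) F a b v = 0} =
      Nat.card {p : ((Fin (m - 1) → F) × (Fin (m - 1) → F)) × (F × F) //
        ∑ i, p.1.1 i * p.1.2 i + (fun z : F × F ↦ z.1 ^ 2 + a * z.1 * z.2 + b * z.2 ^ 2) p.2 = 0} := by
    refine Nat.card_congr ?_
    exact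
      { toFun := fun v ↦ ⟨((fun i ↦ v.1 (.inl (.inl i)), fun i ↦ v.1 (.inl (.inr i))), (v.1 (.inr 0), v.1 (.inr 1))), by
          have := v.2
          simpa [Cfsg.quadFormMinus] using this⟩
        invFun := fun p ↦ ⟨Sum.elim (Sum.elim p.1.1.1 p.1.1.2) ![p.1.2.1, p.1.2.2], by
          have := p.2
          simpa [Cfsg.quadFormMinus] using this⟩
        left_inv := by
          rintro ⟨v, hv⟩
          apply Subtype.ext
          funext i
          rcases i with (i | i) | i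
          · rfl
          · rfl
          · fin_cases i <;> rfl
        right_inv := by
          rintro ⟨⟨⟨x, y⟩, u⟩, hp⟩
          rfl }
  rw [e]
  have hz : Nat.card {z : F × F // (fun z : F × F ↦ z.1 ^ 2 + a * z.1 * z.2 + b * z.2 ^ 2) z = 0} = 1 := by
    rw [Nat.card_eq_one_iff_unique]
    refine ⟨⟨?_⟩, ⟨⟨(0, 0), by simp⟩⟩⟩
    rintro ⟨⟨u, v⟩, h1⟩ ⟨⟨u', v'⟩, h2⟩
    obtain ⟨rfl, rfl⟩ := hab _ _ h1
    obtain ⟨rfl, rfl⟩ := hab _ _ h2
    rfl
  rw [hF, hz, Nat.card_prod, Nat.card_eq_fintype_card (α := F), hF, mul_one] at h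
  have hq0 : 0 < q := by rw [← hF]; exact Fintype.card_pos
  obtain ⟨k, rfl⟩ : ∃ k, m = k + 1 := ⟨m - 1, by omega⟩
  simp only [Nat.add_sub_cancel] at h ⊢
  have h1 : 1 ≤ q ^ k := Nat.one_le_pow _ _ hq0
  have h3 : q ^ (k + 1) ≤ q ^ (2 * (k + 1) - 1) + q ^ k := by
    have : q ^ (k + 1) ≤ q ^ (2 * (k + 1) - 1) := Nat.pow_le_pow_right hq0 (by omega)
    omega
  apply Nat.eq_of_mul_eq_mul_left hq0
  rw [h]
  zify [h1, h3]
  have e1 : 2 * (k + 1) - 1 = 2 * k + 1 := by omega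
  rw [e1]
  ring

end Cfsg.Agent.S0290
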