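import Mathlib
import Cfsg.Statements.S3864
import Cfsg.Agent.S0111
import Cfsg.Agent.Lib.PNilp
import Cfsg.Agent.Lib.Tate
import Cfsg.Agent.Lib.PResidual
import Cfsg.Agent.Lib.H6PGroup
-- import your own Cfsg.Agent.* helpers here

set_option autoImplicit false
open Cfsg

namespace Cfsg.Agent.S3864


section
open DihedralGroup Subgroup

/-- Homs from the dihedral group to `Z/2`. -/
def chi {N : ℕ} (h2 : 2 ∣ N) (a b : ZMod 2) : DihedralGroup N →* Multiplicative (ZMod 2) where
  toFun
    | r i => Multiplicative.ofAdd (a * ZMod.castHom h2 (ZMod 2) i)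
    | sr i => Multiplicative.ofAdd (a * ZMod.castHom h2 (ZMod 2) i + b)
  map_one' := by
    show Multiplicative.ofAdd (a * ZMod.castHom h2 (ZMod 2) 0) = 1
    simp
  map_mul' := by
    have h1 : ∀ a b x y : ZMod 2, a * (y - x) + b = a * x + (a * y + b) := by decide
    have h3 : ∀ a b x y : ZMod 2, a * (y - x) = a * x + b + (a * y + b) := by decide
    have h4 : ∀ a b x y : ZMod 2, a * (x + y) + b = a * x + b + a * y := by decide
    have h5 : ∀ a x y : ZMod 2, a * (x + y) = a * x + a * y := by decide
    rintro (i | i) (j | j)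
    · show Multiplicative.ofAdd (a * ZMod.castHom h2 (ZMod 2) (i + j)) =
        Multiplicative.ofAdd (a * ZMod.castHom h2 (ZMod 2) i) * Multiplicative.ofAdd (a * ZMod.castHom h2 (ZMod 2) j)
      rw [← ofAdd_add]; exact congrArg _ (by rw [map_add, h5])
    · show Multiplicative.ofAdd (a * ZMod.castHom h2 (ZMod 2) (j - i) + b) =
        Multiplicative.ofAdd (a * ZMod.castHom h2 (ZMod 2) i) * Multiplicative.ofAdd (a * ZMod.castHom h2 (ZMod 2) j + b)
      rw [← ofAdd_add]; exact congrArg _ (by rw [map_sub, h1])
    · show Multiplicative.ofAdd (a * ZMod.castHom h2 (ZMod 2) (i + j) + b) =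
        Multiplicative.ofAdd (a * ZMod.castHom h2 (ZMod 2) i + b) * Multiplicative.ofAdd (a * ZMod.castHom h2 (ZMod 2) j)
      rw [← ofAdd_add]; exact congrArg _ (by rw [map_add, h4])
    · show Multiplicative.ofAdd (a * ZMod.castHom h2 (ZMod 2) (j - i)) =
        Multiplicative.ofAdd (a * ZMod.castHom h2 (ZMod 2) i + b) * Multiplicative.ofAdd (a * ZMod.castHom h2 (ZMod 2) j + b)
      rw [← ofAdd_add]; exact congrArg _ (by rw [map_sub, h3 a b])

theorem chi_r {N : ℕ} (h2 : 2 ∣ N) (a b : ZMod 2) (i : ZMod N) :
    chi h2 a b (r i) = Multiplicative.ofAdd (a * ZMod.castHom h2 (ZMod 2) i) := rfl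

theorem chi_sr {N : ℕ} (h2 : 2 ∣ N) (a b : ZMod 2) (i : ZMod N) :
    chi h2 a b (sr i) = Multiplicative.ofAdd (a * ZMod.castHom h2 (ZMod 2) i + b) := rfl

variable {N k : ℕ} (hN : N = 2 ^ (k + 2))

include hN in
theorem two_dvd : 2 ∣ N := by
  rw [hN, pow_succ']; exact dvd_mul_right _ _

theorem cast_eq_val {N : ℕ} [NeZero N] (h2 : 2 ∣ N) (i : ZMod N) :
    ZMod.castHom h2 (ZMod 2) i = (i.val : ZMod 2) := by
  rw [ZMod.castHom_apply, ZMod.natCast_val]

theorem even_form {N : ℕ} [NeZero N] (h2 : 2 ∣ N) (i : ZMod N)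
    (h : ZMod.castHom h2 (ZMod 2) i = 0) : ∃ j : ZMod N, i = j + j := by
  rw [cast_eq_val, ZMod.natCast_eq_zero_iff] at h
  obtain ⟨v, hv⟩ := h
  refine ⟨(v : ZMod N), ?_⟩
  have : (i.val : ZMod N) = i := ZMod.natCast_zmod_val i
  rw [← this, hv]
  push_cast
  ring

theorem odd_form {N : ℕ} [NeZero N] (h2 : 2 ∣ N) (i : ZMod N)
    (h : ZMod.castHom h2 (ZMod 2) i ≠ 0) : ∃ j : ZMod N, i = 1 + (j + j) := by
  have h3 : ZMod.castHom h2 (ZMod 2) (i - 1) = 0 := by
    have h4 : ∀ x : ZMod 2, x ≠ 0 → x - 1 = 0 := by decide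
    rw [map_sub, map_one]
    exact h4 _ h
  obtain ⟨j, hj⟩ := even_form h2 _ h3
  exact ⟨j, by rw [← hj]; ring⟩

include hN in
theorem order_odd [NeZero N] (i : ZMod N) (h : ZMod.castHom (two_dvd hN) (ZMod 2) i ≠ 0) :
    orderOf (r i : DihedralGroup N) = N := by
  rw [orderOf_r]
  have h3 : Nat.gcd N i.val = 1 := by
    have h4 : Nat.Coprime (2 ^ (k + 2)) i.val := by
      apply Nat.Coprime.pow_left
      rw [Nat.prime_two.coprime_iff_not_dvd]
      intro hd
      apply h
      rw [cast_eq_val, ZMod.natCast_eq_zero_iff]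
      exact hd
    have h5 := h4
    rw [← hN] at h5
    exact h5
  rw [h3, Nat.div_one]

include hN in
theorem order_even [NeZero N] (i : ZMod N) (h : ZMod.castHom (two_dvd hN) (ZMod 2) i = 0) :
    orderOf (r i : DihedralGroup N) ≠ N := by
  rw [orderOf_r]
  rw [cast_eq_val, ZMod.natCast_eq_zero_iff] at h
  have hpos : 0 < N := Nat.pos_of_ne_zero (NeZero.ne N)
  have h3 : 2 ∣ Nat.gcd N i.val := Nat.dvd_gcd (two_dvd hN) h
  have h4 : 1 < Nat.gcd N i.val := by
    have := Nat.le_of_dvd (Nat.gcd_pos_of_pos_left _ hpos) h3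
    omega
  exact (Nat.div_lt_self hpos h4).ne

/-- The central involution. -/
def mz (N k : ℕ) : ZMod N := ((2 ^ (k + 1) : ℕ) : ZMod N)

include hN in
theorem mz_add : mz N k + mz N k = 0 := by
  unfold mz
  rw [← Nat.cast_add, ZMod.natCast_eq_zero_iff, hN]
  rw [← two_mul, ← pow_succ']

include hN in
theorem mz_ne : mz N k ≠ 0 := by
  unfold mz
  rw [Ne, ZMod.natCast_eq_zero_iff, hN]
  intro h
  have := Nat.pow_dvd_pow_iff_le_right (by norm_num : 1 < 2) |>.mp h
  omega

include hN in
theorem mz_half : mz N k = ((2 ^ k : ℕ) : ZMod N) + ((2 ^ k : ℕ) : ZMod N) := by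
  unfold mz
  rw [← Nat.cast_add, ← two_mul, ← pow_succ']

include hN in
theorem mz_even [NeZero N] : ZMod.castHom (two_dvd hN) (ZMod 2) (mz N k) = 0 := by
  rw [mz_half hN, map_add]
  have : ∀ x : ZMod 2, x + x = 0 := by decide
  exact this _

include hN in
theorem invol_r [NeZero N] (i : ZMod N) (h : orderOf (r i : DihedralGroup N) = 2) : i = mz N k := by
  have h1 : (r i : DihedralGroup N) ^ 2 = 1 := by rw [← h]; exact pow_orderOf_eq_one _
  rw [pow_two, r_mul_r] at h1
  have h2 : i + i = 0 := by
    have : (r (i + i) : DihedralGroup N) = r 0 := h1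
    exact r.inj this
  have hval : ((2 * i.val : ℕ) : ZMod N) = 0 := by
    push_cast
    rw [ZMod.natCast_zmod_val, two_mul]; exact h2
  rw [ZMod.natCast_eq_zero_iff] at hval
  have h00 : 2 * 2 ^ (k + 1) ∣ N := by rw [hN, pow_succ' 2 (k + 1)]
  have hd : 2 ^ (k + 1) ∣ i.val := Nat.dvd_of_mul_dvd_mul_left (by norm_num) (h00.trans hval)
  obtain ⟨t, ht⟩ := hd
  have hlt : i.val < N := ZMod.val_lt i
  have ht2 : t < 2 := by
    by_contra hge
    have h3 : 2 ^ (k + 1) * 2 ≤ 2 ^ (k + 1) * t := Nat.mul_le_mul_left _ (by omega)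
    have h4 : N = 2 ^ (k + 1) * 2 := by rw [hN]; ring
    omega
  have hval2 : (i.val : ZMod N) = i := ZMod.natCast_zmod_val i
  interval_cases t
  · exfalso
    have h5 : i = 0 := by rw [← hval2, ht]; simp
    rw [h5] at h
    have h6 : (r (0 : ZMod N) : DihedralGroup N) = 1 := rfl
    rw [h6, orderOf_one] at h
    omega
  · unfold mz
    rw [← hval2, ht, mul_one]

include hN in
theorem invol_cases [NeZero N] (d : DihedralGroup N) (h : orderOf d = 2) :
    d = r (mz N k) ∨ ∃ i, d = sr i := by
  cases d with
  | r i => exact Or.inl (by rw [invol_r hN i h])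
  | sr i => exact Or.inr ⟨i, rfl⟩

include hN in
theorem order_mz [NeZero N] : orderOf (r (mz N k) : DihedralGroup N) = 2 := by
  haveI : Fact (Nat.Prime 2) := ⟨Nat.prime_two⟩
  apply orderOf_eq_prime
  · rw [pow_two, r_mul_r, mz_add hN]; rfl
  · intro h
    exact mz_ne hN (r.inj h)

variable {G : Type*} [Group G] [Finite G]

theorem sr_conj_even {N : ℕ} [NeZero N] (j : ZMod N) :
    IsConj (sr 0 : DihedralGroup N) (sr (j + j)) := by
  rw [isConj_iff]
  refine ⟨r (-j), ?_⟩
  rw [r_mul_sr, inv_r, sr_mul_r]
  congr 1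
  ring

theorem sr_conj_odd {N : ℕ} [NeZero N] (j : ZMod N) :
    IsConj (sr 1 : DihedralGroup N) (sr (1 + (j + j))) := by
  rw [isConj_iff]
  refine ⟨r (-j), ?_⟩
  rw [r_mul_sr, inv_r, sr_mul_r]
  congr 1
  ring

/-- Thompson transfer in the dihedral form -/
theorem index_two_of (P : Sylow 2 G) {N : ℕ} [NeZero N] (h2 : 2 ∣ N) (ι : DihedralGroup N →* G)
    (hinj : Function.Injective ι) (hrange : ι.range = (P : Subgroup G)) (a b : ZMod 2) (i₀ : ZMod N)
    (hT : chi h2 a b (sr i₀) ≠ 1)
    (hneq : ∀ d, orderOf d = 2 → chi h2 a b d = 1 → ¬ IsConj (ι d) (ι (sr i₀))) :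
    ∃ M : Subgroup G, M.Normal ∧ M.index = 2 := by
  classical
  set K := (chi h2 a b).ker with hK
  have hidx : K.index = 2 := by
    refine Subgroup.index_eq_two_iff.mpr ⟨sr i₀, fun x => ?_⟩
    have hdec : ∀ x y : Multiplicative (ZMod 2), y ≠ 1 → Xor (x * y = 1) (x = 1) := by decide
    have := hdec (chi h2 a b x) (chi h2 a b (sr i₀)) hT
    simp only [hK, MonoidHom.mem_ker, map_mul]
    exact this
  have hQP : K.map ι ≤ (P : Subgroup G) := by
    rw [← hrange]
    exact map_le_range ι K
  have hQi : (K.map ι).relIndex (P : Subgroup G) = 2 := by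
    rw [← hrange, MonoidHom.range_eq_map, Subgroup.relIndex_map_map_of_injective _ _ hinj,
      relIndex_top_right, hidx]
  have hu : orderOf (ι (sr i₀)) = 2 := by
    rw [orderOf_injective ι hinj, orderOf_sr]
  have huP : ι (sr i₀) ∈ (P : Subgroup G) := by
    rw [← hrange]; exact ⟨_, rfl⟩
  have huQ : ι (sr i₀) ∉ K.map ι := by
    rintro ⟨d, hd, hde⟩
    have := hinj hde
    rw [this] at hd
    exact hT hd
  rcases Cfsg.Agent.S0111.result P (K.map ι) hQP hQi (ι (sr i₀)) hu huP huQ with ⟨M, hM, hMi, -⟩ | ⟨g, hg⟩
  · exact ⟨M, hM, hMi⟩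
  · exfalso
    obtain ⟨d, hd, hde⟩ := hg
    have hod : orderOf d = 2 := by
      rw [← orderOf_injective ι hinj, hde, ← hu]
      have := orderOf_injective (MulAut.conj g).toMonoidHom (MulEquiv.injective _) (ι (sr i₀))
      simpa [MulAut.conj_apply] using this
    refine hneq d hod hd ?_
    rw [hde]
    apply IsConj.symm
    rw [isConj_iff]
    exact ⟨g, rfl⟩


theorem resid_le {x : G} (hx : x ∈ Cfsg.pResidual 2 G) {k : ℕ} (hk : x ^ 2 ^ k = 1) :
    x ∈ commutator G := by
  classical
  obtain ⟨a, m, hm, hcard⟩ := Nat.exists_eq_two_pow_mul_odd (n := Nat.card G) Nat.card_pos.ne'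
  let f : G →* Abelianization G := (powMonoidHom m).comp Abelianization.of
  have hle : Cfsg.pResidual 2 G ≤ f.ker := by
    refine (Subgroup.closure_le _).mpr ?_
    intro g hg
    have hc : Nat.Coprime (orderOf g) 2 := hg
    have h1 : orderOf g ∣ 2 ^ a * m := hcard ▸ orderOf_dvd_natCard g
    have h2 : orderOf g ∣ m := (hc.pow_right a).dvd_of_dvd_mul_left h1
    have h3 : g ^ m = 1 := orderOf_dvd_iff_pow_eq_one.mp h2
    show f g = 1
    show (Abelianization.of g) ^ m = 1
    rw [← map_pow, h3, map_one]
  have h1 : (Abelianization.of x) ^ m = 1 := hle hx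
  have h2 : (Abelianization.of x) ^ 2 ^ k = 1 := by rw [← map_pow, hk, map_one]
  have h3 : orderOf (Abelianization.of x) ∣ Nat.gcd m (2 ^ k) :=
    Nat.dvd_gcd (orderOf_dvd_of_pow_eq_one h1) (orderOf_dvd_of_pow_eq_one h2)
  have hco : Nat.gcd m (2 ^ k) = 1 := by
    apply Nat.Coprime.pow_right
    exact Nat.coprime_two_right.mpr hm
  rw [hco, Nat.dvd_one, orderOf_eq_one_iff] at h3
  exact (QuotientGroup.eq_one_iff x).mp h3

theorem main_thm (P : Sylow 2 G) {N k : ℕ} (hN : N = 2 ^ (k + 2)) [NeZero N]
    (ι : DihedralGroup N →* G) (hinj : Function.Injective ι) (hrange : ι.range = (P : Subgroup G)) :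
    (Nat.card {C : ConjClasses G // ∃ g : G, ConjClasses.mk g = C ∧ orderOf g = 2} = 1 ∧ ∀ N : Subgroup G, N.Normal → N.index ≠ 2) ∨ (Nat.card {C : ConjClasses G // ∃ g : G, ConjClasses.mk g = C ∧ orderOf g = 2} = 2 ∧ (∃ N : Subgroup G, N.Normal ∧ N.index = 2) ∧ ∀ N : Subgroup G, N.Normal → N.index ≠ 4) ∨ (Nat.card {C : ConjClasses G // ∃ g : G, ConjClasses.mk g = C ∧ orderOf g = 2} = 3 ∧ Cfsg.HasNormalPComplement 2 G) := by
  classical
  have h2 := two_dvd hN
  set c := ZMod.castHom h2 (ZMod 2) with hc
  set zz := ι (r (mz N k)) with hzz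
  set t0 := ι (sr 0) with ht0
  set t1 := ι (sr 1) with ht1
  have hmemP : ∀ d, ι d ∈ (P : Subgroup G) := fun d => by rw [← hrange]; exact ⟨d, rfl⟩
  have hconjmem : ∀ x ∈ (P : Subgroup G), ∃ d, ι d = x := fun x hx => by
    rw [← hrange] at hx; exact hx
  have hB : ∀ i, c i = 0 → IsConj t0 (ι (sr i)) := by
    intro i hi
    obtain ⟨j, rfl⟩ := even_form h2 i hi
    exact MonoidHom.map_isConj ι (sr_conj_even j)
  have hC : ∀ i, c i ≠ 0 → IsConj t1 (ι (sr i)) := by
    intro i hi
    obtain ⟨j, rfl⟩ := odd_form h2 i hi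
    exact MonoidHom.map_isConj ι (sr_conj_odd j)
  have hordι : ∀ d, orderOf (ι d) = orderOf d := orderOf_injective ι hinj
  have hordconj : ∀ (g u : G), orderOf (g * u * g⁻¹) = orderOf u := by
    intro g u
    have := orderOf_injective (MulAut.conj g).toMonoidHom (MulEquiv.injective _) u
    simpa [MulAut.conj_apply] using this
  have hinv : ∀ g : G, orderOf g = 2 → IsConj g zz ∨ IsConj g t0 ∨ IsConj g t1 := by
    intro g hg
    have hT : IsPGroup 2 (zpowers g) := by
      rw [IsPGroup.iff_card]
      exact ⟨1, by rw [Nat.card_zpowers, hg, pow_one]⟩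
    obtain ⟨x, hx⟩ := Cfsg.Agent.Lib.SylowIn.exists_conj_mem_sylow P hT
    have h1 := hx g (mem_zpowers g)
    obtain ⟨d, hd⟩ := hconjmem _ h1
    have hcg : IsConj g (ι d) := by
      rw [hd, isConj_iff]; exact ⟨x, rfl⟩
    have hod : orderOf d = 2 := by
      rw [← hordι, hd, hordconj, hg]
    rcases invol_cases hN d hod with rfl | ⟨i, rfl⟩
    · exact Or.inl hcg
    · by_cases hi : c i = 0
      · exact Or.inr (Or.inl (hcg.trans (hB i hi).symm))
      · exact Or.inr (Or.inr (hcg.trans (hC i hi).symm))
  have hozz : orderOf zz = 2 := by rw [hzz, hordι, order_mz hN]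
  have hot0 : orderOf t0 = 2 := by rw [ht0, hordι, orderOf_sr]
  have hot1 : orderOf t1 = 2 := by rw [ht1, hordι, orderOf_sr]
  have hSet : {C : ConjClasses G | ∃ g : G, ConjClasses.mk g = C ∧ orderOf g = 2} =
      {ConjClasses.mk zz, ConjClasses.mk t0, ConjClasses.mk t1} := by
    ext C
    constructor
    · rintro ⟨g, rfl, hg⟩
      simp only [Set.mem_insert_iff, Set.mem_singleton_iff, ConjClasses.mk_eq_mk_iff_isConj]
      exact hinv g hg
    · intro h
      simp only [Set.mem_insert_iff, Set.mem_singleton_iff] at h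
      rcases h with rfl | rfl | rfl
      · exact ⟨_, rfl, hozz⟩
      · exact ⟨_, rfl, hot0⟩
      · exact ⟨_, rfl, hot1⟩
  have hcardEq : Nat.card {C : ConjClasses G // ∃ g : G, ConjClasses.mk g = C ∧ orderOf g = 2} =
      Set.ncard ({ConjClasses.mk zz, ConjClasses.mk t0, ConjClasses.mk t1} : Set (ConjClasses G)) := by
    rw [← hSet, ← Nat.card_coe_set_eq]; rfl
  have hzsq : ∀ j : ZMod N, ι (r (j + j)) = ι (r j) * ι (r j) := by
    intro j; rw [← map_mul, r_mul_r]
  have hzz2 : zz = ι (r ((2 ^ k : ℕ) : ZMod N)) * ι (r ((2 ^ k : ℕ) : ZMod N)) := by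
    rw [hzz, mz_half hN, hzsq]
  have hr1 : ι (r 1) = t0 * t1 := by
    rw [ht0, ht1, ← map_mul, sr_mul_sr, sub_zero]
  rw [hcardEq]
  -- no index two if all conjugate
  have hno2 : IsConj zz t0 → IsConj zz t1 → ∀ M : Subgroup G, M.Normal → M.index ≠ 2 := by
    intro h1 h3 M hM hidx
    have hzM : zz ∈ M := by
      rw [hzz2]
      exact Subgroup.mul_self_mem_of_index_two hidx _
    have ht0M : t0 ∈ M := by
      obtain ⟨x, hx⟩ := isConj_iff.mp h1
      rw [← hx]; exact hM.conj_mem _ hzM x
    have ht1M : t1 ∈ M := by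
      obtain ⟨x, hx⟩ := isConj_iff.mp h3
      rw [← hx]; exact hM.conj_mem _ hzM x
    have hr : ∀ i, ι (r i) ∈ M := by
      intro i
      have e : (r i : DihedralGroup N) = (r 1) ^ i.val := by
        rw [r_one_pow, ZMod.natCast_zmod_val]
      rw [e, map_pow, hr1]
      exact M.pow_mem (M.mul_mem ht0M ht1M) _
    have hPM : (P : Subgroup G) ≤ M := by
      intro x hx
      obtain ⟨d, rfl⟩ := hconjmem x hx
      cases d with
      | r i => exact hr i
      | sr i =>
        have e : (sr i : DihedralGroup N) = sr 0 * r i := by rw [sr_mul_r, zero_add]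
        rw [e, map_mul]
        exact M.mul_mem ht0M (hr i)
    have hd := Subgroup.index_dvd_of_le hPM
    rw [hidx] at hd
    exact P.not_dvd_index hd
  -- no index four unless three classes
  have hno4 : ∀ M : Subgroup G, M.Normal → M.index = 4 →
      ¬ IsConj zz t0 ∧ ¬ IsConj zz t1 ∧ ¬ IsConj t0 t1 := by
    intro M hM hidx
    haveI := hM
    have hcardQ : Nat.card (G ⧸ M) = 2 ^ 2 := by
      rw [← Subgroup.index_eq_card, hidx]; norm_num
    have hcomm : ∀ a b : G ⧸ M, a * b = b * a := IsPGroup.commutative_of_card_eq_prime_sq hcardQ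
    let π : G →* G ⧸ M := QuotientGroup.mk' M
    have hπconj : ∀ a b : G, IsConj a b → π a = π b := by
      intro a b h
      obtain ⟨x, rfl⟩ := isConj_iff.mp h
      rw [map_mul, map_mul, map_inv, hcomm (π x) (π a), mul_inv_cancel_right]
    have hdbl : ∀ j : ZMod N, π (ι (r (j + j))) = 1 := by
      intro j
      have h1 : IsConj (ι (r j)) (ι (r (-j))) := by
        apply MonoidHom.map_isConj
        rw [isConj_iff]
        refine ⟨sr 0, ?_⟩
        rw [inv_sr, sr_mul_r, sr_mul_sr]
        congr 1
        ring
      have h3 := hπconj _ _ h1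
      have e : (r (-j) : DihedralGroup N) = (r j)⁻¹ := by rw [inv_r]
      rw [e, map_inv, map_inv] at h3
      rw [hzsq, map_mul]
      nth_rewrite 1 [h3]
      rw [inv_mul_cancel]
    have hπz : π zz = 1 := by
      rw [hzz, mz_half hN]; exact hdbl _
    set u := π t0 with hu
    set v := π t1 with hv
    have hsup := Cfsg.Agent.Lib.PResidual.sup_sylow_eq_top_of_isPGroup_quotient
      (N := M) (IsPGroup.of_card hcardQ) P
    have hcover : ∀ q : G ⧸ M, q = 1 ∨ q = u ∨ q = v ∨ q = u * v := by
      intro q
      obtain ⟨g, rfl⟩ := QuotientGroup.mk_surjective q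
      have hg : g ∈ M ⊔ (P : Subgroup G) := by rw [hsup]; exact Subgroup.mem_top g
      obtain ⟨m, hm, x, hx, rfl⟩ := mem_sup_of_normal_left.mp hg
      have e : ((m * x : G) : G ⧸ M) = π x := by
        show π (m * x) = π x
        rw [map_mul, show π m = 1 from (QuotientGroup.eq_one_iff m).mpr hm, one_mul]
      rw [e]
      obtain ⟨d, rfl⟩ := hconjmem x hx
      cases d with
      | r i =>
        by_cases hi : c i = 0
        · obtain ⟨j, rfl⟩ := even_form h2 i hi
          exact Or.inl (hdbl j)
        · obtain ⟨j, rfl⟩ := odd_form h2 i hi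
          right; right; right
          have e2 : (r (1 + (j + j)) : DihedralGroup N) = r 1 * r (j + j) := by rw [r_mul_r]
          rw [e2, map_mul, map_mul, hdbl, mul_one, hr1, map_mul]
      | sr i =>
        by_cases hi : c i = 0
        · exact Or.inr (Or.inl (hπconj _ _ (hB i hi).symm))
        · exact Or.inr (Or.inr (Or.inl (hπconj _ _ (hC i hi).symm)))
    have hF : ∀ F : Finset (G ⧸ M), (∀ q, q ∈ F) → 4 ≤ F.card := by
      intro F hF
      haveI : Fintype (G ⧸ M) := Fintype.ofFinite _
      have h4 : F = Finset.univ := Finset.eq_univ_iff_forall.mpr hF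
      rw [h4, Finset.card_univ, ← Nat.card_eq_fintype_card, hcardQ]
      norm_num
    have hu1 : u ≠ 1 := by
      intro h
      have := hF {1, v} (by
        intro q
        have h5 := hcover q
        rw [h, one_mul] at h5
        simp only [Finset.mem_insert, Finset.mem_singleton]
        tauto)
      have h6 := Finset.card_le_two (a := (1 : G ⧸ M)) (b := v)
      omega
    have hv1 : v ≠ 1 := by
      intro h
      have := hF {1, u} (by
        intro q
        have h5 := hcover q
        rw [h, mul_one] at h5
        simp only [Finset.mem_insert, Finset.mem_singleton]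
        tauto)
      have h6 := Finset.card_le_two (a := (1 : G ⧸ M)) (b := u)
      omega
    have huv : u ≠ v := by
      intro h
      have := hF {1, u, u * v} (by
        intro q
        have h5 := hcover q
        rw [← h] at h5
        simp only [Finset.mem_insert, Finset.mem_singleton]
        rw [← h]
        tauto)
      have h6 := Finset.card_le_three (a := (1 : G ⧸ M)) (b := u) (c := u * v)
      omega
    refine ⟨fun h => hu1 ?_, fun h => hv1 ?_, fun h => huv (hπconj _ _ h)⟩
    · rw [hu, ← hπconj _ _ h, hπz]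
    · rw [hv, ← hπconj _ _ h, hπz]
  have hne01 : Multiplicative.ofAdd (1 : ZMod 2) ≠ 1 := by decide
  by_cases h1 : IsConj zz t0
  · by_cases h3 : IsConj zz t1
    · -- all conjugate
      left
      refine ⟨?_, hno2 h1 h3⟩
      have e1 : ConjClasses.mk zz = ConjClasses.mk t0 := ConjClasses.mk_eq_mk_iff_isConj.mpr h1
      have e2 : ConjClasses.mk zz = ConjClasses.mk t1 := ConjClasses.mk_eq_mk_iff_isConj.mpr h3
      rw [← e1, ← e2]
      simp
    · -- z ~ t0, t1 apart
      right; left
      have h4 : ¬ IsConj t0 t1 := fun h => h3 (h1.trans h)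
      refine ⟨?_, ?_, ?_⟩
      · have e1 : ConjClasses.mk zz = ConjClasses.mk t0 := ConjClasses.mk_eq_mk_iff_isConj.mpr h1
        rw [← e1]
        simp only [Set.insert_eq_of_mem, Set.mem_insert_iff, true_or]
        rw [Set.ncard_pair]
        rwa [Ne, ConjClasses.mk_eq_mk_iff_isConj]
      · refine index_two_of P h2 ι hinj hrange 1 0 1 ?_ ?_
        · rw [chi_sr, map_one]; decide
        · intro d hd hχ hcon
          rcases invol_cases hN d hd with rfl | ⟨i, rfl⟩
          · exact h3 hcon
          · rw [chi_sr] at hχ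
            have hi : c i = 0 := by
              have h5 : (1 : ZMod 2) * c i + 0 = 0 := Multiplicative.ofAdd.injective hχ
              simpa using h5
            exact h3 (h1.trans ((hB i hi).trans hcon))
      · intro M hM hidx
        exact (hno4 M hM hidx).1 h1
  · by_cases h3 : IsConj zz t1
    · -- z ~ t1, t0 apart
      right; left
      have h4 : ¬ IsConj t1 t0 := fun h => h1 (h3.trans h)
      refine ⟨?_, ?_, ?_⟩
      · have e1 : ConjClasses.mk zz = ConjClasses.mk t1 := ConjClasses.mk_eq_mk_iff_isConj.mpr h3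
        rw [← e1]
        have e2 : ({ConjClasses.mk zz, ConjClasses.mk t0, ConjClasses.mk zz} : Set (ConjClasses G)) =
            {ConjClasses.mk zz, ConjClasses.mk t0} := by
          ext C; simp only [Set.mem_insert_iff, Set.mem_singleton_iff]; tauto
        rw [e2, Set.ncard_pair]
        rwa [Ne, ConjClasses.mk_eq_mk_iff_isConj]
      · refine index_two_of P h2 ι hinj hrange 1 1 0 ?_ ?_
        · rw [chi_sr, map_zero]; decide
        · intro d hd hχ hcon
          rcases invol_cases hN d hd with rfl | ⟨i, rfl⟩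
          · exact h1 hcon
          · rw [chi_sr] at hχ
            have hi : c i ≠ 0 := by
              intro h0
              have h5 : (1 : ZMod 2) * c i + 1 = 0 := Multiplicative.ofAdd.injective hχ
              rw [h0] at h5
              exact absurd h5 (by decide)
            exact h1 (h3.trans ((hC i hi).trans hcon))
      · intro M hM hidx
        exact (hno4 M hM hidx).2.1 h3
    · by_cases h4 : IsConj t0 t1
      · -- t0 ~ t1, z apart
        right; left
        refine ⟨?_, ?_, ?_⟩
        · have e1 : ConjClasses.mk t0 = ConjClasses.mk t1 := ConjClasses.mk_eq_mk_iff_isConj.mpr h4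
          rw [← e1]
          have e2 : ({ConjClasses.mk zz, ConjClasses.mk t0, ConjClasses.mk t0} : Set (ConjClasses G)) =
              {ConjClasses.mk zz, ConjClasses.mk t0} := by
            ext C; simp only [Set.mem_insert_iff, Set.mem_singleton_iff]; tauto
          rw [e2, Set.ncard_pair]
          rwa [Ne, ConjClasses.mk_eq_mk_iff_isConj]
        · refine index_two_of P h2 ι hinj hrange 0 1 0 ?_ ?_
          · rw [chi_sr, map_zero]; decide
          · intro d hd hχ hcon
            rcases invol_cases hN d hd with rfl | ⟨i, rfl⟩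
            · exact h1 hcon
            · rw [chi_sr] at hχ
              exfalso
              have h5 : (0 : ZMod 2) * c i + 1 = 0 := Multiplicative.ofAdd.injective hχ
              rw [zero_mul, zero_add] at h5
              exact absurd h5 (by decide)
        · intro M hM hidx
          exact (hno4 M hM hidx).2.2 h4
      · -- three classes
        right; right
        refine ⟨?_, ?_⟩
        · rw [Set.ncard_eq_three]
          refine ⟨_, _, _, ?_, ?_, ?_, rfl⟩
          · rwa [Ne, ConjClasses.mk_eq_mk_iff_isConj]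
          · rwa [Ne, ConjClasses.mk_eq_mk_iff_isConj]
          · rwa [Ne, ConjClasses.mk_eq_mk_iff_isConj]
        · set E := (chi h2 1 0).ker ⊓ (chi h2 0 1).ker with hE
          have hfoc : ∀ x ∈ (P : Subgroup G), ∀ g : G, g * x * g⁻¹ ∈ (P : Subgroup G) →
              x⁻¹ * (g * x * g⁻¹) ∈ E.map ι := by
            intro x hx g hg
            obtain ⟨d, rfl⟩ := hconjmem x hx
            obtain ⟨d', hd'⟩ := hconjmem _ hg
            have hcon : IsConj (ι d) (ι d') := by
              rw [hd', isConj_iff]; exact ⟨g, rfl⟩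
            have hoo : orderOf d' = orderOf d := by
              rw [← hordι, ← hordι, hd', hordconj]
            have hχ : chi h2 1 0 d = chi h2 1 0 d' ∧ chi h2 0 1 d = chi h2 0 1 d' := by
              have hdec : ∀ x y : ZMod 2, (x = 0 ↔ y = 0) → x = y := by decide
              cases d with
              | r i =>
                cases d' with
                | r j =>
                  have hij : c i = c j := by
                    apply hdec
                    constructor
                    · intro h0
                      by_contra h5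
                      have h6 := order_odd hN j h5
                      exact order_even hN i h0 (hoo.symm.trans h6)
                    · intro h0
                      by_contra h5
                      have h6 := order_odd hN i h5
                      exact order_even hN j h0 (hoo.trans h6)
                  simp only [chi_r]
                  exact ⟨by rw [← hc, hij], by simp⟩
                | sr j =>
                  exfalso
                  have h5 : orderOf (r i : DihedralGroup N) = 2 := by rw [← hoo, orderOf_sr]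
                  have h6 := invol_r hN i h5
                  rw [h6] at hcon
                  by_cases h7 : c j = 0
                  · exact h1 (hcon.trans (hB j h7).symm)
                  · exact h3 (hcon.trans (hC j h7).symm)
              | sr i =>
                cases d' with
                | r j =>
                  exfalso
                  have h5 : orderOf (r j : DihedralGroup N) = 2 := by rw [hoo, orderOf_sr]
                  have h6 := invol_r hN j h5
                  rw [h6] at hcon
                  by_cases h7 : c i = 0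
                  · exact h1 (hcon.symm.trans (hB i h7).symm)
                  · exact h3 (hcon.symm.trans (hC i h7).symm)
                | sr j =>
                  have hij : c i = c j := by
                    apply hdec
                    constructor
                    · intro h0
                      by_contra h5
                      exact h4 ((hB i h0).trans (hcon.trans (hC j h5).symm))
                    · intro h0
                      by_contra h5
                      exact h4 ((hB j h0).trans (hcon.symm.trans (hC i h5).symm))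
                  simp only [chi_sr]
                  exact ⟨by rw [← hc, hij], by simp⟩
            refine ⟨d⁻¹ * d', ⟨?_, ?_⟩, ?_⟩
            · show chi h2 1 0 (d⁻¹ * d') = 1
              rw [map_mul, map_inv, hχ.1, inv_mul_cancel]
            · show chi h2 0 1 (d⁻¹ * d') = 1
              rw [map_mul, map_inv, hχ.2, inv_mul_cancel]
            · rw [map_mul, map_inv, hd']
          have hle := Cfsg.Agent.Lib.Focal.inf_commutator_le_of P (E.map ι) hfoc
          haveI hNres := Cfsg.Agent.Lib.PResidual.pResidual_normal 2 G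
          have hmain : Cfsg.pResidual 2 G ⊓ (P : Subgroup G) ≤
              (frattini ↥(P : Subgroup G)).map (P : Subgroup G).subtype := by
            rintro x ⟨hx1, hx2⟩
            obtain ⟨K, hK⟩ := (P.isPGroup' : IsPGroup 2 (P : Subgroup G)) ⟨x, hx2⟩
            have hxK : x ^ 2 ^ K = 1 := congrArg Subtype.val hK
            have hxc := resid_le hx1 hxK
            obtain ⟨d, ⟨hd1, hd2⟩, rfl⟩ := hle ⟨hx2, hxc⟩
            cases d with
            | sr i =>
              exfalso
              have h5 : (0 : ZMod 2) * c i + 1 = 0 := Multiplicative.ofAdd.injective hd2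
              rw [zero_mul, zero_add] at h5
              exact absurd h5 (by decide)
            | r i =>
              have h5 : (1 : ZMod 2) * c i = 0 := Multiplicative.ofAdd.injective hd1
              rw [one_mul] at h5
              obtain ⟨j, rfl⟩ := even_form h2 i h5
              let y : (P : Subgroup G) := ⟨ι (r j), hmemP _⟩
              refine ⟨y ^ 2, Cfsg.Agent.Lib.H6PGroup.pow_mem_frattini P.isPGroup' y, ?_⟩
              show ((y ^ 2 : (P : Subgroup G)) : G) = _
              rw [hzsq, pow_two]
              rfl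
          have htate := Cfsg.Agent.Lib.Tate.tate P (Cfsg.pResidual 2 G) hmain
          refine Cfsg.Agent.Lib.PNilp.npc_of_normal_pquot (Cfsg.pResidual 2 G) (fun g => ?_) htate
          have hq := Cfsg.Agent.Lib.PResidual.isPGroup_quotient_pResidual (p := 2) (G := G)
          obtain ⟨K, hK⟩ := hq (g : G ⧸ Cfsg.pResidual 2 G)
          refine ⟨K, ?_⟩
          rw [← QuotientGroup.eq_one_iff, QuotientGroup.mk_pow]
          exact hK

end

/-- Let G be a finite group whose Sylow 2-subgroups are dihedral of order 2 ^ n with n ≥ 3, and count the conjugacy classes of involutions of G. Then exactly one of the following holds: there is one class of involutions and no normal subgroup of index 2; there are two classes of involutions, a normal subgroup of index 2 and none of index 4; there are three classes of involutions and G has a normal 2-complement. -/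
theorem result {G : Type*} [Group G] [Finite G] (P : Sylow 2 G) (n : ℕ) (hn : 3 ≤ n) (hdih : Nonempty (↥(P : Subgroup G) ≃* DihedralGroup (2 ^ (n - 1)))) : (Nat.card {C : ConjClasses G // ∃ g : G, ConjClasses.mk g = C ∧ orderOf g = 2} = 1 ∧ ∀ N : Subgroup G, N.Normal → N.index ≠ 2) ∨ (Nat.card {C : ConjClasses G // ∃ g : G, ConjClasses.mk g = C ∧ orderOf g = 2} = 2 ∧ (∃ N : Subgroup G, N.Normal ∧ N.index = 2) ∧ ∀ N : Subgroup G, N.Normal → N.index ≠ 4) ∨ (Nat.card {C : ConjClasses G // ∃ g : G, ConjClasses.mk g = C ∧ orderOf g = 2} = 3 ∧ Cfsg.HasNormalPComplement 2 G) := by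
  obtain ⟨e⟩ := hdih
  obtain ⟨k, rfl⟩ : ∃ k, n = k + 3 := ⟨n - 3, by omega⟩
  have hN : 2 ^ (k + 3 - 1) = 2 ^ (k + 2) := rfl
  refine main_thm P hN ((P : Subgroup G).subtype.comp e.symm.toMonoidHom) ?_ ?_
  · exact (Subgroup.subtype_injective _).comp e.symm.injective
  · apply le_antisymm
    · rintro _ ⟨d, rfl⟩
      exact (e.symm d).2
    · intro x hx
      exact ⟨e ⟨x, hx⟩, by simp⟩

end Cfsg.Agent.S3864
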