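import Cfsg.Agent.Lib.FormCount
import Cfsg.Statements.S0289
-- import your own Cfsg.Agent.* helpers here

set_option autoImplicit false
open Cfsg

namespace Cfsg.Agent.S0289

/-- The hyperbolic quadratic form on F^(2m), m at least 1, has q^(2m-1) + q^m - q^(m-1) zeros (that is, (q^m - 1)(q^(m-1) + 1) non-zero isotropic vectors). -/
theorem result {F : Type*} [Field F] [Fintype F] {q : ℕ} (hF : Fintype.card F = q) (m : ℕ) (hm : 1 ≤ m) : Nat.card {v : Fin m ⊕ Fin m → F // Cfsg.quadFormPlus m F v = 0} = q ^ (2 * m - 1) + q ^ m - q ^ (m - 1) := by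
  classical
  have h := Cfsg.Agent.Lib.FormCount.count_dot (F := F) m (fun _ : Unit ↦ (0 : F))
  have e : Nat.card {v : Fin m ⊕ Fin m → F // Cfsg.quadFormPlus m F v = 0} =
      Nat.card {p : ((Fin m → F) × (Fin m → F)) × Unit // ∑ i, p.1.1 i * p.1.2 i + (fun _ : Unit ↦ (0 : F)) p.2 = 0} := by
    refine Nat.card_congr ?_
    exact
      { toFun := fun v ↦ ⟨((fun i ↦ v.1 (.inl i), fun i ↦ v.1 (.inr i)), ()), by
          have := v.2
          simpa [Cfsg.quadFormPlus] using this⟩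
        invFun := fun p ↦ ⟨Sum.elim p.1.1.1 p.1.1.2, by
          have := p.2
          simpa [Cfsg.quadFormPlus] using this⟩
        left_inv := by
          rintro ⟨v, hv⟩
          apply Subtype.ext
          funext i
          rcases i with i | i <;> rfl
        right_inv := by
          rintro ⟨⟨⟨x, y⟩, u⟩, hp⟩
          rfl }
  rw [e]
  have hz : Nat.card {z : Unit // (fun _ : Unit ↦ (0 : F)) z = 0} = 1 := by simp
  have hu : Nat.card Unit = 1 := Nat.card_unique
  rw [hF, hz, hu, mul_one] at h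
  have hq0 : 0 < q := by rw [← hF]; exact Fintype.card_pos
  obtain ⟨k, rfl⟩ : ∃ k, m = k + 1 := ⟨m - 1, by omega⟩
  simp only [Nat.add_sub_cancel]
  have h1 : 1 ≤ q ^ k := Nat.one_le_pow _ _ hq0
  have h2 : 1 ≤ q ^ (k + 1) := Nat.one_le_pow _ _ hq0
  have h3 : q ^ k ≤ q ^ (2 * (k + 1) - 1) + q ^ (k + 1) := by
    have : q ^ k ≤ q ^ (k + 1) := Nat.pow_le_pow_right hq0 (by omega)
    omega
  apply Nat.eq_of_mul_eq_mul_left hq0
  rw [h]
  zify [h1, h2, h3]
  have e1 : 2 * (k + 1) - 1 = 2 * k + 1 := by omega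
  rw [e1]
  ring

end Cfsg.Agent.S0289
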