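import Cfsg.Agent.Lib.FormCount
import Cfsg.Statements.S0291
-- import your own Cfsg.Agent.* helpers here

set_option autoImplicit false
open Cfsg

namespace Cfsg.Agent.S0291

/-- For q odd, the form x_0^2 + sum_{i<m} x_i y_i on F^(2m+1) has exactly q^(2m) zeros. -/
theorem result {F : Type*} [Field F] [Fintype F] {q : ℕ} (hF : Fintype.card F = q) (hodd : Odd q) (m : ℕ) : Nat.card {v : Unit ⊕ (Fin m ⊕ Fin m) → F // Cfsg.quadFormOdd m F v = 0} = q ^ (2 * m) := by
  classical
  have h := Cfsg.Agent.Lib.FormCount.count_dot (F := F) m (fun z : F ↦ z ^ 2)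
  have e : Nat.card {v : Unit ⊕ (Fin m ⊕ Fin m) → F // Cfsg.quadFormOdd m F v = 0} =
      Nat.card {p : ((Fin m → F) × (Fin m → F)) × F //
        ∑ i, p.1.1 i * p.1.2 i + (fun z : F ↦ z ^ 2) p.2 = 0} := by
    refine Nat.card_congr ?_
    exact
      { toFun := fun v ↦ ⟨((fun i ↦ v.1 (.inr (.inl i)), fun i ↦ v.1 (.inr (.inr i))), v.1 (.inl ())), by
          have := v.2
          simp only [Cfsg.quadFormOdd] at this
          simp only
          rw [add_comm]; exact this⟩
        invFun := fun p ↦ ⟨Sum.elim (fun _ ↦ p.1.2) (Sum.elim p.1.1.1 p.1.1.2), by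
          have := p.2
          simp only [Cfsg.quadFormOdd, Sum.elim_inl, Sum.elim_inr]
          rw [add_comm]; exact this⟩
        left_inv := by
          rintro ⟨v, hv⟩
          apply Subtype.ext
          funext i
          rcases i with i | i | i <;> rfl
        right_inv := by
          rintro ⟨⟨⟨x, y⟩, u⟩, hp⟩
          rfl }
  rw [e]
  have hz : Nat.card {z : F // (fun z : F ↦ z ^ 2) z = 0} = 1 := by
    rw [Nat.card_eq_one_iff_unique]
    refine ⟨⟨?_⟩, ⟨⟨0, by simp⟩⟩⟩
    rintro ⟨u, h1⟩ ⟨v, h2⟩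
    have h1' : u = 0 := by simpa using h1
    have h2' : v = 0 := by simpa using h2
    subst h1' h2'
    rfl
  rw [hF, hz, Nat.card_eq_fintype_card (α := F), hF, mul_one] at h
  have hq0 : 0 < q := by rw [← hF]; exact Fintype.card_pos
  have h1 : 1 ≤ q ^ m := Nat.one_le_pow _ _ hq0
  apply Nat.eq_of_mul_eq_mul_left hq0
  rw [h]
  zify [h1]
  rw [pow_mul']
  ring

end Cfsg.Agent.S0291
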