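import Cfsg.Statements.S0041
import Cfsg.Agent.Lib.FrobC
import Cfsg.Agent.Lib.H7Basic

set_option autoImplicit false
open Cfsg

namespace Cfsg.Agent.S0041


open Cfsg.Agent.Lib.FrobC in
theorem abelian_case {G : Type*} [Group G] [Finite G] (A V : Subgroup G) [hVc : IsMulCommutative V]
    (hV : V ≠ ⊥) (hAV : A ≤ Subgroup.normalizer (V : Set G))
    (hfpf : ∀ a ∈ A, a ≠ 1 → V ⊓ Subgroup.centralizer {a} = ⊥)
    (hA : ∀ a b : A, a * b = b * a) : IsCyclic A := by
  classical
  by_contra hnc
  obtain ⟨s, x, y, hs, hx, hy, hy1, hxY⟩ := Cfsg.Agent.Lib.CoprimeGen4.exists_rank_two hA hnc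
  letI : CommGroup V := { (inferInstance : Group V) with mul_comm := fun a b => hVc.is_comm.comm a b }
  haveI : Fact s.Prime := ⟨hs⟩
  have hvs : ∀ v : V, v ^ s = 1 := by
    intro v
    have := Cfsg.Agent.Lib.CoprimeGen4.abelian_key
      (fun a : A => (Cfsg.Agent.Lib.PReduced.actHom V hAV a).toMonoidHom)
      (fun a b w => by simp only [map_mul]; rfl) (fun w => by simp only [map_one]; rfl)
      hs x y (hA x y) hx hy hy1 hxY ⊥ (by
        intro a _ ha w hw
        exact Subgroup.mem_bot.mpr (act_fixed hAV hfpf a ha w hw)) v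
    exact Subgroup.mem_bot.mp this
  -- `y` acts on an `s`-group
  have hVs : IsPGroup s V := fun v => ⟨1, by rw [pow_one]; exact hvs v⟩
  let T : Subgroup G := Subgroup.zpowers (y : G)
  have hTA : T ≤ A := Subgroup.zpowers_le.mpr y.2
  have hT : IsPGroup s T := by
    intro g
    refine ⟨1, ?_⟩
    rw [pow_one]
    have hg : (g : G) ^ s = 1 := by
      obtain ⟨k, hk⟩ := g.2
      have hy' : (y : G) ^ s = 1 := by exact_mod_cast congrArg Subtype.val hy
      rw [← hk]
      show ((y : G) ^ k) ^ s = 1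
      rw [← zpow_natCast, ← zpow_mul, mul_comm, zpow_mul, zpow_natCast, hy', one_zpow]
    exact Subtype.ext (by simpa using hg)
  have hT1 : T ≠ ⊥ := by
    intro e
    have : (y : G) ∈ T := Subgroup.mem_zpowers _
    rw [e] at this
    exact hy1 (Subtype.ext (Subgroup.mem_bot.mp this))
  exact fixed_contra hV hAV hfpf hTA hT1 hT hVs

open Cfsg.Agent.Lib.FrobC in
theorem pq_case {G : Type*} [Group G] [Finite G] (A V : Subgroup G) [hVc : IsMulCommutative V]
    (hV : V ≠ ⊥) (hAV : A ≤ Subgroup.normalizer (V : Set G))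
    (hfpf : ∀ a ∈ A, a ≠ 1 → V ⊓ Subgroup.centralizer {a} = ⊥)
    {p q : ℕ} (hp : p.Prime) (hq : q.Prime) (hc : Nat.card A = p * q) (hpq : p < q) : IsCyclic A := by
  classical
  by_contra hnc
  haveI : Fact q.Prime := ⟨hq⟩
  haveI : Fact p.Prime := ⟨hp⟩
  obtain ⟨Q, hQc⟩ := Sylow.exists_subgroup_card_pow_prime (G := A) q (n := 1)
    (by rw [hc, pow_one]; exact Dvd.intro_left _ rfl)
  rw [pow_one] at hQc
  have hidx : Q.index = p := by
    have := Subgroup.card_mul_index Q
    rw [hQc, hc] at this
    exact Nat.eq_of_mul_eq_mul_left hq.pos (by rw [this, mul_comm])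
  have hmf : (Nat.card A).minFac = p := by
    rw [hc]
    have h1 : (p * q).minFac ∣ p * q := Nat.minFac_dvd _
    have h2 : (p * q).minFac ≤ p := Nat.minFac_le_of_dvd hp.two_le (Dvd.intro _ rfl)
    have h3 : (p * q).Prime → False := fun h => Nat.not_prime_mul hp.ne_one hq.ne_one h
    have h4 : ((p * q).minFac).Prime := Nat.minFac_prime (by
      have := Nat.mul_lt_mul'' hp.one_lt hq.one_lt
      omega)
    rcases (h4.dvd_mul).mp h1 with h5 | h5
    · exact (Nat.prime_dvd_prime_iff_eq h4 hp).mp h5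
    · have := (Nat.prime_dvd_prime_iff_eq h4 hq).mp h5
      omega
  haveI hQn : Q.Normal := Subgroup.normal_of_index_eq_minFac_card (by rw [hidx, hmf])
  have hQne : Q ≠ ⊤ := by
    intro e
    rw [e, Subgroup.index_top] at hidx
    exact hp.ne_one hidx.symm
  obtain ⟨z, hz⟩ : ∃ z, z ∉ Q := by
    by_contra h
    push_neg at h
    exact hQne (Subgroup.eq_top_iff' _ |>.mpr h)
  have hQ1 : Q ≠ ⊥ := by
    intro e
    rw [e, Subgroup.card_bot] at hQc
    exact hq.ne_one hQc.symm
  have hord : ∀ u ∈ Q, (z * u) ^ p = 1 := by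
    intro u hu
    set w := z * u with hw
    have hwQ : w ∉ Q := fun h => hz (by
      have : z = w * u⁻¹ := by rw [hw]; group
      rw [this]
      exact Q.mul_mem h (Q.inv_mem hu))
    have hd : orderOf w ∣ p * q := hc ▸ orderOf_dvd_natCard w
    obtain ⟨y, t, hy, ht, hyt⟩ := Nat.dvd_mul.mp hd
    have hqne : w ^ q ≠ 1 := by
      intro e
      have h1 : w ^ p ∈ Q := by
        have := Subgroup.pow_index_mem Q w
        rwa [hidx] at this
      have hcop : (orderOf w).Coprime p := by
        have h2 : orderOf w ∣ q := orderOf_dvd_of_pow_eq_one e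
        exact Nat.Coprime.coprime_dvd_left h2 ((Nat.coprime_primes hq hp).mpr (by omega))
      exact hwQ (Cfsg.Agent.Lib.H7Basic.mem_of_pow_mem_of_coprime Q w p hcop h1)
    rcases (Nat.dvd_prime hp).mp hy with rfl | rfl
    · rcases (Nat.dvd_prime hq).mp ht with rfl | rfl
      · rw [one_mul] at hyt
        have : orderOf w ∣ p := by rw [← hyt]; exact one_dvd _
        exact orderOf_dvd_iff_pow_eq_one.mp this
      · rw [one_mul] at hyt
        exact absurd (by rw [hyt]; exact pow_orderOf_eq_one w) hqne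
    · rcases (Nat.dvd_prime hq).mp ht with rfl | rfl
      · rw [mul_one] at hyt
        rw [hyt]; exact pow_orderOf_eq_one w
      · exact absurd (isCyclic_of_orderOf_eq_card w (by rw [hc, hyt])) hnc
  letI : CommGroup V := { (inferInstance : Group V) with mul_comm := fun a b => hVc.is_comm.comm a b }
  have hvs : ∀ v : V, v ^ q = 1 := by
    intro v
    have := pq_key (Cfsg.Agent.Lib.PReduced.actHom V hAV) (act_fixed hAV hfpf) Q hQ1 hp z hz hord v
    rwa [hQc] at this
  have hVs : IsPGroup q V := fun v => ⟨1, by rw [pow_one]; exact hvs v⟩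
  let T : Subgroup G := Q.map A.subtype
  have hTA : T ≤ A := by
    rintro _ ⟨a, _, rfl⟩
    exact a.2
  have hTc : Nat.card T = q := by
    rw [show T = Q.map A.subtype from rfl, Subgroup.card_map_of_injective A.subtype_injective, hQc]
  have hT : IsPGroup q T := IsPGroup.of_card (n := 1) (by rw [hTc, pow_one])
  have hT1 : T ≠ ⊥ := by
    intro e
    rw [e, Subgroup.card_bot] at hTc
    exact hq.ne_one hTc.symm
  exact fixed_contra hV hAV hfpf hTA hT1 hT hVs


/-- A group acting on a nontrivial abelian group so that no nonidentity element has a nonidentity fixed point is cyclic, provided it is abelian or its order is a product of two (possibly equal) primes. -/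
theorem result {G : Type*} [Group G] [Finite G] (A V : Subgroup G) [IsMulCommutative V]
    (hV : V ≠ ⊥) (hAV : A ≤ Subgroup.normalizer (V : Set G)) (hfpf : ∀ a ∈ A, a ≠ 1 → V ⊓ Subgroup.centralizer {a} = ⊥)
    (hA : IsMulCommutative A ∨ ∃ p q : ℕ, p.Prime ∧ q.Prime ∧ Nat.card A = p * q) : IsCyclic A := by
  classical
  rcases hA with hab | ⟨p, q, hp, hq, hc⟩
  · exact abelian_case A V hV hAV hfpf (fun a b => hab.is_comm.comm a b)
  · rcases lt_trichotomy p q with h | h | h
    · exact pq_case A V hV hAV hfpf hp hq hc h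
    · subst h
      haveI : Fact p.Prime := ⟨hp⟩
      exact abelian_case A V hV hAV hfpf
        (IsPGroup.commutative_of_card_eq_prime_sq (p := p) (by rw [hc, sq]))
    · exact pq_case A V hV hAV hfpf hq hp (by rw [hc, mul_comm]) h

end Cfsg.Agent.S0041
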