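import Cfsg.Statements.S0136
import Cfsg.Agent.Lib.CharIrr

set_option autoImplicit false
open Cfsg

namespace Cfsg.Agent.S0136

/-- Two elements of a finite group are conjugate if and only if no irreducible complex character separates them. -/
theorem result {G : Type*} [Group G] [Finite G] (g h : G) : IsConj g h ↔ ∀ χ : Cfsg.IrrCharacter G, (χ : G → ℂ) g = (χ : G → ℂ) h := by
  classical
  cases nonempty_fintype G
  constructor
  · intro hc χ
    exact Cfsg.Agent.Lib.CharIrr.classFun_eq_of_isConj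
      (Cfsg.Agent.Lib.CharIrr.irr_isClassFunction (by
        obtain ⟨n, ρ, _, hρ⟩ := χ.2
        exact ⟨n, ρ, hρ⟩)) hc
  · intro h1
    by_contra hnc
    have h2 := Cfsg.Agent.Lib.CharIrr.column_orthogonality g h
    rw [if_neg hnc] at h2
    have h3 := Cfsg.Agent.Lib.CharIrr.column_orthogonality h h
    rw [if_pos (IsConj.refl h)] at h3
    have h4 : ∑ χ : Cfsg.IrrCharacter G, (χ : G → ℂ) g * (starRingEnd ℂ) ((χ : G → ℂ) h) =
        ∑ χ : Cfsg.IrrCharacter G, (χ : G → ℂ) h * (starRingEnd ℂ) ((χ : G → ℂ) h) :=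
      Finset.sum_congr rfl fun χ _ => by rw [h1 χ]
    rw [h2, h3] at h4
    have : (Nat.card (Subgroup.centralizer ({h} : Set G)) : ℂ) ≠ 0 := by
      exact_mod_cast Nat.card_pos.ne'
    exact this h4.symm

end Cfsg.Agent.S0136
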