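import Mathlib
import Cfsg.Agent.Lib.SylowCount
import Cfsg.Statements.S0228
-- import your own Cfsg.Agent.* helpers here

set_option autoImplicit false
open Cfsg

namespace Cfsg.Agent.S0228

/-- A group of order 12 in which no involution is central is isomorphic to the alternating group on four letters. -/
theorem result {G : Type*} [Group G] [Finite G] (hG : Nat.card G = 12) (hz : ∀ z : G, orderOf z = 2 → z ∉ Subgroup.center G) : Nonempty (G ≃* alternatingGroup (Fin 4)) := by
  classical
  haveI : Fact (Nat.Prime 3) := ⟨Nat.prime_three⟩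
  haveI : Fact (Nat.Prime 2) := ⟨Nat.prime_two⟩
  obtain ⟨P⟩ : Nonempty (Sylow 3 G) := inferInstance
  have hP : Nat.card P = 3 := by
    simpa using Cfsg.Agent.Lib.SylowCount.card_sylow_of_factor P 1 4 (by rw [hG]; norm_num) (by norm_num)
  have hn1 : Nat.card (Sylow 3 G) ∣ 4 :=
    Cfsg.Agent.Lib.SylowCount.card_sylow_dvd_cofactor 1 4 (by rw [hG]; norm_num) (by norm_num)
  have hn2 := Cfsg.Agent.Lib.SylowCount.card_sylow_mod (G := G) 3
  have hn : Nat.card (Sylow 3 G) = 1 ∨ Nat.card (Sylow 3 G) = 4 := by
    have h1 : Nat.card (Sylow 3 G) ≤ 4 := Nat.le_of_dvd (by norm_num) hn1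
    interval_cases hh : Nat.card (Sylow 3 G)
    all_goals first | omega | simp
  rcases hn with h1 | h4
  · exfalso
    have hPn : (P : Subgroup G).Normal := by
      haveI : Subsingleton (Sylow 3 G) := (Nat.card_eq_one_iff_unique.1 h1).1
      exact Sylow.normal_of_subsingleton P
    haveI := hPn
    obtain ⟨Q⟩ : Nonempty (Sylow 2 G) := inferInstance
    have hQ : Nat.card Q = 4 := by
      have := Cfsg.Agent.Lib.SylowCount.card_sylow_of_factor Q 2 3 (by rw [hG]; norm_num) (by norm_num)
      simpa using this
    have hQc : ∀ a b : (Q : Subgroup G), a * b = b * a := by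
      have h5 : Nat.card (Q : Subgroup G) = 2 ^ 2 := by rw [hQ]; norm_num
      have := IsPGroup.isMulCommutative_of_card_eq_prime_sq h5
      exact this.is_comm.comm
    let f : (Q : Subgroup G) →* MulAut (P : Subgroup G) :=
      (MulAut.conjNormal (H := (P : Subgroup G))).comp (Q : Subgroup G).subtype
    haveI hPcyc : IsCyclic (P : Subgroup G) := by
      haveI : Fact (Nat.card (P : Subgroup G)).Prime := ⟨by rw [hP]; exact Nat.prime_three⟩
      exact isCyclic_of_prime_card rfl
    have hcAut : Nat.card (MulAut (P : Subgroup G)) = 2 := by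
      rw [IsCyclic.card_mulAut, hP]
      decide
    have hrange : Nat.card f.range ∣ 2 := by
      have := Subgroup.card_subgroup_dvd_card f.range
      rwa [hcAut] at this
    have hker : Nat.card f.ker * Nat.card f.range = 4 := by
      rw [← Subgroup.index_ker f, mul_comm, Subgroup.index_mul_card, hQ]
    have h2ker : 2 ∣ Nat.card f.ker := by
      have h3 : Nat.card f.range ≤ 2 := Nat.le_of_dvd (by norm_num) hrange
      have h4 : Nat.card f.range ≠ 0 := Nat.card_pos.ne'
      interval_cases hh : Nat.card f.range
      · omega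
      · rw [mul_one] at hker
        omega
      · have : Nat.card f.ker = 2 := by omega
        omega
    obtain ⟨⟨t, htk⟩, hto⟩ := exists_prime_orderOf_dvd_card' 2 h2ker
    rw [Subgroup.orderOf_mk, ← Subgroup.orderOf_coe] at hto
    have htP : ∀ y ∈ (P : Subgroup G), t.1 * y = y * t.1 := by
      intro y hy
      have h3 : f t = 1 := htk
      have h4 := congrArg (fun φ : MulAut (P : Subgroup G) => ((φ ⟨y, hy⟩ : (P : Subgroup G)) : G)) h3
      simp only [f, MonoidHom.comp_apply, Subgroup.subtype_apply, MulAut.conjNormal_apply,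
        MulAut.one_apply] at h4
      exact mul_inv_eq_iff_eq_mul.1 h4
    have htQ : ∀ y ∈ (Q : Subgroup G), t.1 * y = y * t.1 := by
      intro y hy
      exact congrArg Subtype.val (hQc t ⟨y, hy⟩)
    apply hz t.1 hto
    rw [Subgroup.mem_center_iff]
    intro g
    have hcop : Nat.Coprime (Nat.card (P : Subgroup G)) (Nat.card (Q : Subgroup G)) := by
      rw [hP, hQ]; norm_num
    have hcompl := Subgroup.isComplement'_of_coprime (by
      rw [hP, hQ, hG]) hcop
    have hsup : (P : Subgroup G) ⊔ (Q : Subgroup G) = ⊤ := hcompl.sup_eq_top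
    have hg : g ∈ (((P : Subgroup G) ⊔ (Q : Subgroup G) : Subgroup G) : Set G) := by
      rw [hsup]; trivial
    rw [Subgroup.normal_mul] at hg
    obtain ⟨p, hp, q, hq, rfl⟩ := Set.mem_mul.1 hg
    calc p * q * t.1 = p * (q * t.1) := by group
      _ = p * (t.1 * q) := by rw [htQ q hq]
      _ = (p * t.1) * q := by group
      _ = (t.1 * p) * q := by rw [htP p hp]
      _ = t.1 * (p * q) := by group
  · let φ := MulAction.toPermHom G (Sylow 3 G)
    have hcardN : Nat.card (Subgroup.normalizer ((P : Subgroup G) : Set G)) = 3 := by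
      have h5 : Nat.card (Sylow 3 G) = (Subgroup.normalizer ((P : Subgroup G) : Set G)).index :=
        Sylow.card_eq_index_normalizer P
      rw [h4] at h5
      have h6 := Subgroup.index_mul_card (Subgroup.normalizer ((P : Subgroup G) : Set G))
      rw [← h5, hG] at h6
      omega
    have hker : φ.ker = ⊥ := by
      by_contra hne
      have hNP : Subgroup.normalizer ((P : Subgroup G) : Set G) = (P : Subgroup G) := by
        symm
        apply Subgroup.eq_of_le_of_card_ge (Subgroup.le_normalizer)
        rw [hcardN, hP]
      have hkle : φ.ker ≤ (P : Subgroup G) := by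
        intro k hk
        rw [← hNP]
        have h1 : φ k = 1 := hk
        have h2 : k • P = P := by
          have := congrArg (fun σ : Equiv.Perm (Sylow 3 G) => σ P) h1
          exact this
        exact Sylow.smul_eq_iff_mem_normalizer.1 h2
      have hdvd : Nat.card φ.ker ∣ Nat.card (P : Subgroup G) := Subgroup.card_dvd_of_le hkle
      rw [hP] at hdvd
      rcases (Nat.dvd_prime Nat.prime_three).1 hdvd with h1 | h1
      · exact hne (Subgroup.eq_bot_of_card_eq _ h1)
      · have hkP : φ.ker = (P : Subgroup G) := by
          apply Subgroup.eq_of_le_of_card_ge hkle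
          rw [h1, hP]
        have hPn : (P : Subgroup G).Normal := by
          rw [← hkP]
          exact MonoidHom.normal_ker φ
        have := Sylow.unique_of_normal P hPn
        have hc1 : Nat.card (Sylow 3 G) = 1 := Nat.card_unique
        omega
    have hinj : Function.Injective φ := (MonoidHom.ker_eq_bot_iff φ).1 hker
    let e : Sylow 3 G ≃ Fin 4 := Finite.equivFinOfCardEq h4
    let ψ : G →* Equiv.Perm (Fin 4) := (Equiv.permCongrHom e).toMonoidHom.comp φ
    have hψ : Function.Injective ψ := by
      intro a b h
      exact hinj ((Equiv.permCongrHom e).injective h)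
    have hidx : ψ.range.index = 2 := by
      have h1 := Subgroup.index_mul_card ψ.range
      rw [Nat.card_congr (MonoidHom.ofInjective hψ).toEquiv.symm, hG, Nat.card_eq_fintype_card,
        Fintype.card_perm, Fintype.card_fin] at h1
      have : Nat.factorial 4 = 24 := rfl
      omega
    have hal := Equiv.Perm.eq_alternatingGroup_of_index_eq_two hidx
    exact ⟨(MonoidHom.ofInjective hψ).trans (MulEquiv.subgroupCongr hal)⟩

end Cfsg.Agent.S0228
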