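import Cfsg.Statements.S0540
import Cfsg.Agent.Lib.SubnormalJoin

set_option autoImplicit false
open Pointwise
open Cfsg

namespace Cfsg.Agent.S0540

open Cfsg.Agent.Lib.SubnormalJoin Subgroup in
theorem conj_closed {G : Type*} [Group G] [Finite G] (A : Subgroup G)
    (S : Subgroup G → Set (Subgroup G))
    (hS : ∀ V B : Subgroup G, B ∈ S V ↔ (∃ g : G, B = MulAut.conj g • A) ∧ B ≤ V ∧ (B.subgroupOf V).IsSubnormal)
    (Z B : Subgroup G) (hB : B ∈ S Z) (g : G) (hg : g ∈ Z) : cj g B ∈ S Z := by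
  obtain ⟨⟨a, ha⟩, h4, h5⟩ := (hS Z B).mp hB
  refine (hS Z _).mpr ⟨⟨g * a, ?_⟩, ?_, ?_⟩
  · rw [ha]
    show cj g (cj a A) = cj (g * a) A
    rw [cj_mul]
  · have h6 := cj_mono (g := g) h4
    rwa [cj_eq_self hg] at h6
  · have h6 : cj g B ≤ Z := by
      have h7 := cj_mono (g := g) h4
      rwa [cj_eq_self hg] at h7
    rw [subgroupOf_isSubnormal_iff h6]
    exact ((subgroupOf_isSubnormal_iff h4).mp h5).cj_of_mem hg

open Cfsg.Agent.Lib.SubnormalJoin Subgroup in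
theorem aux {G : Type*} [Group G] [Finite G] (A : Subgroup G) (U : Set (Subgroup G))
    (S : Subgroup G → Set (Subgroup G))
    (hS : ∀ V B : Subgroup G, B ∈ S V ↔ (∃ g : G, B = MulAut.conj g • A) ∧ B ≤ V ∧ (B.subgroupOf V).IsSubnormal)
    (h2 : ∀ V ∈ U, ∀ W ∈ U, ∀ B ∈ S W, B ≤ V → B ∈ S V)
    (h3 : ∀ V ∈ U, ∀ W ∈ U, ∃ X ∈ U, Subgroup.normalizer ((sSup (S V ∩ S W) : Subgroup G) : Set G) ≤ X)
    (V W : Subgroup G) (hV : Maximal (· ∈ U) V) (hW : Maximal (· ∈ U) W) (hne : V ≠ W)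
    (hmax : ∀ V' W', Maximal (· ∈ U) V' → Maximal (· ∈ U) W' → V' ≠ W' →
      (S V' ∩ S W').ncard ≤ (S V ∩ S W).ncard) :
    Subgroup.normalizer ((sSup (S V ∩ S W) : Subgroup G) : Set G) ≤ V ∧
      (S V ⊆ S W ∨ ∃ X ∈ S V, X ∉ S W ∧ X ≤ Subgroup.normalizer ((sSup (S V ∩ S W) : Subgroup G) : Set G)) := by
  have hfin : ∀ T : Set (Subgroup G), T.Finite := fun T => Set.toFinite T
  have hconjS : ∀ Z, ∀ B ∈ S Z, ∀ g ∈ Z, cj g B ∈ S Z := fun Z B hB g hg => conj_closed A S hS Z B hB g hg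
  have hSN : ∀ Z, ∀ B ∈ S Z, SN Z B := by
    intro Z B hB
    obtain ⟨_, h4, h5⟩ := (hS Z B).mp hB
    exact (subgroupOf_isSubnormal_iff h4).mp h5
  by_cases hsub : S V ⊆ S W
  · refine ⟨?_, Or.inl hsub⟩
    obtain ⟨Y, hY, hNY⟩ := h3 V hV.prop W hW.prop
    obtain ⟨Y', hYY', hY'⟩ := (hfin U).exists_le_maximal hY
    have hVN : V ≤ normalizer ((sSup (S V ∩ S W) : Subgroup G) : Set G) := by
      rw [Set.inter_eq_left.mpr hsub]
      apply le_normalizer_of_conj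
      intro y hy x hx
      have h4 : sSup (S V) ≤ (sSup (S V)).comap (MulAut.conj y).toMonoidHom := by
        apply sSup_le
        intro B hB z hz
        exact (le_sSup (hconjS V B hB y hy)) (conj_mem_cj hz)
      exact h4 hx
    have h5 : V ≤ Y' := hVN.trans (hNY.trans hYY')
    have h6 : Y' ≤ V := hV.2 hY'.prop h5
    exact hNY.trans (hYY'.trans h6)
  · obtain ⟨J, hJ⟩ : ∃ J, J = sSup (S V ∩ S W) := ⟨_, rfl⟩
    have hss : S V ∩ S W ⊂ S V := by
      refine ⟨Set.inter_subset_left, fun h => hsub fun B hB => (h hB).2⟩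
    obtain ⟨X, hX, hXT, hXN⟩ := fam_normalizer _ V rfl (S V) (S V ∩ S W) (hSN V)
      (fun B hB g hg => hconjS V B hB g hg) hss
    obtain ⟨Y, hY, hNY⟩ := h3 V hV.prop W hW.prop
    obtain ⟨Y', hYY', hY'⟩ := (hfin U).exists_le_maximal hY
    have hNY' := hNY.trans hYY'
    refine ⟨?_, Or.inr ⟨X, hX, fun hXW => hXT ⟨hX, hXW⟩, hXN⟩⟩
    by_cases hVY : V = Y'
    · exact hNY'.trans (le_of_eq hVY.symm)
    · exfalso
      have hlt : (S V ∩ S W) ⊂ (S V ∩ S Y') := by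
        refine ⟨?_, fun h => ?_⟩
        · rintro B ⟨hB1, hB2⟩
          refine ⟨hB1, h2 Y' hY'.prop V hV.prop B hB1 ?_⟩
          exact (le_sSup (show B ∈ S V ∩ S W from ⟨hB1, hB2⟩)).trans
            (Subgroup.le_normalizer.trans hNY')
        · have hXY : X ∈ S V ∩ S Y' := ⟨hX, h2 Y' hY'.prop V hV.prop X hX (hXN.trans hNY')⟩
          exact hXT (h hXY)
      have h7 := Set.ncard_lt_ncard hlt (hfin _)
      have h8 := hmax V Y' hV hY' hVY
      omega

open Cfsg.Agent.Lib.SubnormalJoin Subgroup in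
/-- Wielandt's zipper-type uniqueness lemma: a nonempty family of subgroups satisfying three closure conditions on the subnormal conjugates of a fixed subgroup A has a greatest element. -/
theorem result {G : Type*} [Group G] [Finite G] (A : Subgroup G) (U : Set (Subgroup G)) (hU : U.Nonempty) (S : Subgroup G → Set (Subgroup G)) (hS : ∀ V B : Subgroup G, B ∈ S V ↔ (∃ g : G, B = MulAut.conj g • A) ∧ B ≤ V ∧ (B.subgroupOf V).IsSubnormal) (h1 : ∀ V ∈ U, A ∈ S V) (h2 : ∀ V ∈ U, ∀ W ∈ U, ∀ B ∈ S W, B ≤ V → B ∈ S V) (h3 : ∀ V ∈ U, ∀ W ∈ U, ∃ X ∈ U, Subgroup.normalizer ((sSup (S V ∩ S W) : Subgroup G) : Set G) ≤ X) : ∃ M ∈ U, ∀ V ∈ U, V ≤ M := by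
  have hfin : ∀ T : Set (Subgroup G), T.Finite := fun T => Set.toFinite T
  -- all maximal elements agree
  have huniq : ∀ V W, Maximal (· ∈ U) V → Maximal (· ∈ U) W → V = W := by
    by_contra hcon
    push Not at hcon
    let P : Set (Subgroup G × Subgroup G) := {p | Maximal (· ∈ U) p.1 ∧ Maximal (· ∈ U) p.2 ∧ p.1 ≠ p.2}
    obtain ⟨V0, W0, hV0, hW0, hne0⟩ := hcon
    have hP : P.Nonempty := ⟨(V0, W0), hV0, hW0, hne0⟩
    obtain ⟨⟨V, W⟩, ⟨hV, hW, hne⟩, hpmax⟩ := Set.exists_max_image P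
      (fun p => (S p.1 ∩ S p.2).ncard) (Set.toFinite P) hP
    have hm1 : ∀ V' W', Maximal (· ∈ U) V' → Maximal (· ∈ U) W' → V' ≠ W' →
        (S V' ∩ S W').ncard ≤ (S V ∩ S W).ncard :=
      fun V' W' a b c => hpmax (V', W') ⟨a, b, c⟩
    have hm2 : ∀ V' W', Maximal (· ∈ U) V' → Maximal (· ∈ U) W' → V' ≠ W' →
        (S V' ∩ S W').ncard ≤ (S W ∩ S V).ncard := by
      intro V' W' a b c
      rw [Set.inter_comm (S W)]
      exact hm1 V' W' a b c
    obtain ⟨hN1, hC1⟩ := aux A U S hS h2 h3 V W hV hW hne hm1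
    obtain ⟨hN2, hC2⟩ := aux A U S hS h2 h3 W V hW hV hne.symm hm2
    rw [Set.inter_comm (S W)] at hN2 hC2
    rcases hC1 with hC1 | ⟨X, hX, hXW, hXN⟩
    · rcases hC2 with hC2 | ⟨X, hX, hXV, hXN⟩
      · -- both inclusions
        have heq : S V = S W := Set.Subset.antisymm hC1 hC2
        have hVN : V ≤ normalizer ((sSup (S V ∩ S W) : Subgroup G) : Set G) := by
          rw [Set.inter_eq_left.mpr hC1]
          apply le_normalizer_of_conj
          intro y hy x hx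
          have h4 : sSup (S V) ≤ (sSup (S V)).comap (MulAut.conj y).toMonoidHom := by
            apply sSup_le
            intro B hB z hz
            exact (le_sSup (conj_closed A S hS V B hB y hy)) (conj_mem_cj hz)
          exact h4 hx
        exact hne (le_antisymm (hVN.trans hN2) (hV.2 hW.prop (hVN.trans hN2)))
      · exact hXV (h2 V hV.prop W hW.prop X hX (hXN.trans hN1))
    · exact hXW (h2 W hW.prop V hV.prop X hX (hXN.trans hN2))
  obtain ⟨V0, hV0⟩ := hU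
  obtain ⟨M, _, hM⟩ := (hfin U).exists_le_maximal hV0
  refine ⟨M, hM.prop, fun V hV => ?_⟩
  obtain ⟨V', hVV', hV'⟩ := (hfin U).exists_le_maximal hV
  rw [huniq M V' hM hV']
  exact hVV'

end Cfsg.Agent.S0540
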