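import Cfsg.Statements.S0721
import Mathlib

set_option autoImplicit false
open Cfsg

namespace Cfsg.Agent.S0721

section Core

variable {Γ : Type*} [Group Γ]

def powSucc (T : Type*) [Group T] (m : ℕ) : (Fin m → T) × T ≃* (Fin (m + 1) → T) where
  toFun x := Fin.snoc (α := fun _ => T) x.1 x.2
  invFun f := (Fin.init (α := fun _ => T) f, f (Fin.last m))
  left_inv x := by simp
  right_inv f := by simp [Fin.snoc_init_self]
  map_mul' x y := by
    funext i
    refine Fin.lastCases ?_ (fun j => ?_) i <;> simp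

/-- minimal normal -/
def IsMinN (M : Subgroup Γ) : Prop :=
  M ≠ ⊥ ∧ M.Normal ∧ ∀ K : Subgroup Γ, K.Normal → K ≤ M → K = ⊥ ∨ K = M

theorem IsMinN.map_aut {S : Subgroup Γ} (hS : IsMinN S) (a : MulAut Γ) :
    IsMinN (S.map (a : Γ →* Γ)) := by
  obtain ⟨h1, h2, h3⟩ := hS
  have hsurj : Function.Surjective (a : Γ →* Γ) := a.surjective
  refine ⟨?_, h2.map _ hsurj, ?_⟩
  · intro h
    apply h1
    exact (Subgroup.map_eq_bot_iff_of_injective _ a.injective).1 h
  · intro K hK hKS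
    have hKn : (K.map ((a⁻¹ : MulAut Γ) : Γ →* Γ)).Normal := hK.map _ (a⁻¹ : MulAut Γ).surjective
    have hle : K.map ((a⁻¹ : MulAut Γ) : Γ →* Γ) ≤ S := by
      rintro _ ⟨k, hk, rfl⟩
      obtain ⟨s, hs, rfl⟩ := hKS hk
      have e : ((a⁻¹ : MulAut Γ) : Γ →* Γ) ((a : Γ →* Γ) s) = s := by
        show (a⁻¹ : MulAut Γ) (a s) = s
        simp
      rw [e]; exact hs
    have hback : ∀ L : Subgroup Γ, (L.map ((a⁻¹ : MulAut Γ) : Γ →* Γ)).map (a : Γ →* Γ) = L := by
      intro L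
      ext x
      constructor
      · rintro ⟨_, ⟨l, hl, rfl⟩, rfl⟩
        have e : (a : Γ →* Γ) (((a⁻¹ : MulAut Γ) : Γ →* Γ) l) = l := by
          show a ((a⁻¹ : MulAut Γ) l) = l
          simp
        rw [e]; exact hl
      · intro hx
        refine ⟨((a⁻¹ : MulAut Γ) : Γ →* Γ) x, ⟨x, hx, rfl⟩, ?_⟩
        show a ((a⁻¹ : MulAut Γ) x) = x
        simp
    rcases h3 _ hKn hle with h | h
    · left
      rw [← hback K, h, Subgroup.map_bot]
    · right
      rw [← hback K, h]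

theorem map_iSup_le' {ι κ : Type*} (K : ι → Subgroup Γ) (L : κ → Subgroup Γ) (f : Γ →* Γ)
    (h : ∀ i, ∃ j, (K i).map f ≤ L j) : (⨆ i, K i).map f ≤ ⨆ j, L j := by
  rw [Subgroup.map_iSup]
  refine iSup_le fun i => ?_
  obtain ⟨j, hj⟩ := h i
  exact hj.trans (le_iSup L j)

theorem core [Finite Γ] [Nontrivial Γ] (A : Subgroup (MulAut Γ))
    (hA : ∀ K : Subgroup Γ, K.Normal → K ≠ ⊥ → (∀ a ∈ A, K.map (a : Γ →* Γ) ≤ K) → K = ⊤) :
    ∃ (S : Subgroup Γ) (m : ℕ), IsSimpleGroup S ∧ 0 < m ∧ Nonempty (Γ ≃* (Fin m → S)) := by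
  classical
  -- a minimal normal subgroup
  obtain ⟨S, hSm⟩ := (Set.toFinite {M : Subgroup Γ | M ≠ ⊥ ∧ M.Normal}).exists_minimal
    ⟨⊤, top_ne_bot, inferInstance⟩
  have hS : IsMinN S := by
    refine ⟨hSm.1.1, hSm.1.2, ?_⟩
    intro K hK hKS
    by_cases hb : K = ⊥
    · exact Or.inl hb
    · right
      exact le_antisymm hKS (hSm.2 ⟨hb, hK⟩ hKS)
  have hSn := hS.2.1
  -- the closure under `A`
  have hW : (⨆ a : A, S.map ((a : MulAut Γ) : Γ →* Γ)) = ⊤ := by
    apply hA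
    · constructor
      intro x hx g
      have h1 : (⨆ a : A, S.map ((a : MulAut Γ) : Γ →* Γ)).map ((MulAut.conj g : MulAut Γ) : Γ →* Γ) ≤
          ⨆ a : A, S.map ((a : MulAut Γ) : Γ →* Γ) := by
        apply map_iSup_le'
        intro a
        refine ⟨a, ?_⟩
        rintro _ ⟨_, ⟨s, hs, rfl⟩, rfl⟩
        have hn := (hS.map_aut (a : MulAut Γ)).2.1
        exact hn.conj_mem _ ⟨s, hs, rfl⟩ g
      exact h1 ⟨x, hx, rfl⟩
    · intro h
      have h1 : S.map (((1 : A) : MulAut Γ) : Γ →* Γ) ≤ ⨆ a : A, S.map ((a : MulAut Γ) : Γ →* Γ) :=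
        le_iSup (fun a : A => S.map ((a : MulAut Γ) : Γ →* Γ)) 1
      rw [h] at h1
      apply hS.1
      rw [eq_bot_iff]
      intro s hs
      have h2 := h1 ⟨s, hs, rfl⟩
      simpa using h2
    · intro b hb
      apply map_iSup_le'
      intro a
      refine ⟨⟨b * a, A.mul_mem hb a.2⟩, ?_⟩
      rintro _ ⟨_, ⟨s, hs, rfl⟩, rfl⟩
      exact ⟨s, hs, rfl⟩
  let Pr : Subgroup Γ → Prop := fun P => P.Normal ∧ S ≤ P ∧ P ≤ S ⊔ Subgroup.centralizer (S : Set Γ) ∧
    ∃ m : ℕ, 0 < m ∧ Nonempty (P ≃* (Fin m → S))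
  have hbase : Pr S := ⟨hSn, le_rfl, le_sup_left, 1, one_pos, ⟨(MulEquiv.piUnique (fun _ : Fin 1 => S)).symm⟩⟩
  obtain ⟨P, hPm⟩ := (Set.toFinite {P : Subgroup Γ | Pr P}).exists_maximal ⟨S, hbase⟩
  obtain ⟨hPn, hSP, hPC, m, hm, ⟨eP⟩⟩ := id hPm.1
  have hPtop : P = ⊤ := by
    by_contra hne
    obtain ⟨a, hle⟩ : ∃ a : A, ¬ S.map ((a : MulAut Γ) : Γ →* Γ) ≤ P := by
      by_contra hcon
      push Not at hcon
      apply hne
      rw [eq_top_iff, ← hW]
      exact iSup_le hcon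
    have hS' := hS.map_aut (a : MulAut Γ)
    obtain ⟨S', hS'e⟩ : ∃ S', S' = S.map ((a : MulAut Γ) : Γ →* Γ) := ⟨_, rfl⟩
    rw [← hS'e] at hle hS'
    have hS'n := hS'.2.1
    have hdisj : Disjoint P S' := by
      rw [disjoint_iff]
      rcases hS'.2.2 (P ⊓ S') (Subgroup.normal_inf_normal _ _) inf_le_right with h | h
      · exact h
      · exact absurd (inf_eq_right.1 h) hle
    have hcomm : ∀ (x : P) (y : S'), Commute (P.subtype x) (S'.subtype y) := fun x y =>
      Subgroup.commute_of_normal_of_disjoint P S' hPn hS'n hdisj x y x.2 y.2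
    let f := MonoidHom.noncommCoprod P.subtype S'.subtype hcomm
    have hfinj : Function.Injective f := (MonoidHom.noncommCoprod_injective _ _ hcomm).2
      ⟨P.subtype_injective, S'.subtype_injective, by simpa using hdisj⟩
    have hrange : f.range = P ⊔ S' := by
      rw [MonoidHom.noncommCoprod_range]; simp
    have eS' : S' ≃* S := by
      rw [hS'e]
      exact (S.equivMapOfInjective _ (a : MulAut Γ).injective).symm
    have eNew : (P ⊔ S' : Subgroup Γ) ≃* (Fin (m + 1) → S) :=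
      (MulEquiv.subgroupCongr hrange.symm).trans ((MonoidHom.ofInjective hfinj).symm.trans
        ((MulEquiv.prodCongr eP eS').trans (powSucc S m)))
    have hnew : Pr (P ⊔ S') := by
      refine ⟨inferInstance, hSP.trans le_sup_left, sup_le hPC ?_, m + 1, Nat.succ_pos m, ⟨eNew⟩⟩
      refine le_trans ?_ le_sup_right
      intro y hy
      rw [Subgroup.mem_centralizer_iff]
      intro s hs
      exact (Subgroup.commute_of_normal_of_disjoint P S' hPn hS'n hdisj s y (hSP hs) hy)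
    have := hPm.2 hnew le_sup_left
    exact hle (le_sup_right.trans this)
  subst hPtop
  have heΓ : Γ ≃* (Fin m → S) := Subgroup.topEquiv.symm.trans eP
  refine ⟨S, m, ?_, hm, ⟨heΓ⟩⟩
  haveI : Nontrivial S := (Subgroup.nontrivial_iff_ne_bot S).2 hS.1
  refine ⟨fun K hK => ?_⟩
  have hK' : (K.map S.subtype).Normal := by
    constructor
    rintro _ ⟨k, hk, rfl⟩ g
    have hg : g ∈ S ⊔ Subgroup.centralizer (S : Set Γ) := hPC (Subgroup.mem_top g)
    have hg' : g ∈ ((S ⊔ Subgroup.centralizer (S : Set Γ) : Subgroup Γ) : Set Γ) := hg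
    rw [Subgroup.normal_mul] at hg'
    obtain ⟨s, hs, c, hc, rfl⟩ := hg'
    have hc' : (k : Γ) * c = c * k := Subgroup.mem_centralizer_iff.1 hc k k.2
    have e : s * c * (k : Γ) * (s * c)⁻¹ = s * k * s⁻¹ := by
      calc s * c * (k : Γ) * (s * c)⁻¹ = s * (c * k) * c⁻¹ * s⁻¹ := by group
        _ = s * (k * c) * c⁻¹ * s⁻¹ := by rw [hc']
        _ = _ := by group
    simp only [Subgroup.coe_subtype]
    rw [e]
    refine ⟨⟨s, hs⟩ * k * (⟨s, hs⟩ : S)⁻¹, hK.conj_mem k hk _, rfl⟩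
  rcases hS.2.2 _ hK' (Subgroup.map_subtype_le K) with h | h
  · left
    exact (Subgroup.map_eq_bot_iff_of_injective _ S.subtype_injective).1 h
  · right
    rw [eq_top_iff]
    intro x _
    have : (x : Γ) ∈ K.map S.subtype := by rw [h]; exact x.2
    obtain ⟨k, hk, hkx⟩ := this
    have : k = x := Subtype.ext hkx
    rwa [← this]

end Core

/-- a bare copy of `Fin n` -/
def Carrier (n : ℕ) : Type := Fin n

/-- A minimal normal subgroup of a finite group is isomorphic to a direct power `T ^ m` of a simple group `T` (possibly of prime order). -/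
theorem result {H : Type*} [Group H] [Finite H] (N : Subgroup H) [N.Normal] (hN : N ≠ ⊥) (hmin : ∀ M : Subgroup H, M.Normal → M ≤ N → M = ⊥ ∨ M = N) : ∃ (T : Type) (_ : Group T) (m : ℕ), IsSimpleGroup T ∧ 0 < m ∧ Nonempty (N ≃* (Fin m → T)) := by
  classical
  haveI : Nontrivial N := (Subgroup.nontrivial_iff_ne_bot N).2 hN
  obtain ⟨S, m, hSs, hm, ⟨e⟩⟩ := core (MulAut.conjNormal : H →* MulAut N).range (by
    intro K hK hKb hinv
    have hM : (K.map N.subtype).Normal := by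
      constructor
      rintro _ ⟨k, hk, rfl⟩ g
      have h1 := hinv (MulAut.conjNormal g) ⟨g, rfl⟩ ⟨k, hk, rfl⟩
      exact ⟨_, h1, rfl⟩
    rcases hmin _ hM (Subgroup.map_subtype_le K) with h | h
    · exact absurd ((Subgroup.map_eq_bot_iff_of_injective _ N.subtype_injective).1 h) hKb
    · rw [eq_top_iff]
      intro x _
      have : (x : H) ∈ K.map N.subtype := by rw [h]; exact x.2
      obtain ⟨k, hk, hkx⟩ := this
      have : k = x := Subtype.ext hkx
      rwa [← this])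
  let e₀ : Carrier (Nat.card S) ≃ S := (Finite.equivFin S).symm
  letI gT : Group (Carrier (Nat.card S)) := e₀.group
  let e₁ : Carrier (Nat.card S) ≃* S := e₀.mulEquiv
  exact ⟨Carrier (Nat.card S), gT, m, e₁.isSimpleGroup, hm, ⟨e.trans (MulEquiv.piCongrRight (fun _ => e₁.symm))⟩⟩

end Cfsg.Agent.S0721
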