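import Cfsg.Statements.S0974
import Cfsg.Agent.Lib.BrauerRel
import Cfsg.Agent.Lib.SylowCount
-- import your own Cfsg.Agent.* helpers here

set_option autoImplicit false
set_option linter.all false
open Cfsg

namespace Cfsg.Agent.S0974

/-- No finite simple group has order 3648 = 2^6 * 3 * 19. -/
theorem result {G : Type*} [Group G] [Finite G] [IsSimpleGroup G] : Nat.card G ≠ 3648 := by
  intro h
  classical
  letI : Fintype G := Fintype.ofFinite G
  have hnc : ¬ IsMulCommutative G :=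
    Cfsg.Agent.Lib.SylowCount.not_comm_of_not_prime (by rw [h]; norm_num)
  haveI hpf : Fact (Nat.Prime 19) := ⟨by norm_num⟩
  obtain ⟨P⟩ : Nonempty (Sylow 19 G) := inferInstance
  have hfac : Nat.card G = 19 ^ 1 * 192 := by rw [h]; norm_num
  have hcardP := Cfsg.Agent.Lib.SylowCount.card_sylow_of_factor P 1 192 hfac (by norm_num)
  rw [pow_one] at hcardP
  have h1 := Cfsg.Agent.Lib.SylowCount.card_sylow_dvd_cofactor (G := G) (p := 19) 1 192 hfac (by norm_num)
  have h2 := Cfsg.Agent.Lib.SylowCount.card_sylow_mod (G := G) 19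
  have h3 := Cfsg.Agent.Lib.SylowCount.card_sylow_ne_one_of_simple (G := G) (p := 19) hnc (by rw [h]; norm_num)
  generalize hn : Nat.card (Sylow 19 G) = n at h1 h2 h3
  have hle : n ≤ 192 := Nat.le_of_dvd (by norm_num) h1
  have hn' : n = 96 := by
    have key : ∀ k ∈ Nat.divisors 192, k % 19 = 1 → k ≠ 1 → k = 96 := by decide +kernel
    exact key n (Nat.mem_divisors.2 ⟨h1, by norm_num⟩) h2 h3
  subst hn'
  have hN : Nat.card (Subgroup.normalizer ((P : Subgroup G) : Set G)) = 38 :=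
    Cfsg.Agent.Lib.SylowCount.card_normalizer_of_card_sylow P 96 38 hn (by rw [h]) (by norm_num)
  obtain ⟨d, u, hd1, hdd, hud, hcase⟩ := Cfsg.Agent.Lib.BrauerRel.rel_two hnc P hcardP (by rw [hN]) (by norm_num)
  rw [h] at hdd hud
  have key : ∀ d ∈ Nat.divisors 3648, 1 < d → (19 ∣ d - 1 → ¬ (d + 1) ∣ 3648) ∧ (19 ∣ d + 1 → ¬ (d - 1) ∣ 3648) := by
    decide +kernel
  obtain ⟨k1, k2⟩ := key d (Nat.mem_divisors.2 ⟨hdd, by norm_num⟩) hd1
  rcases hcase with ⟨h4, h5⟩ | ⟨h4, h5⟩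
  · exact k1 h4 (h5 ▸ hud)
  · have h6 : u = d - 1 := by omega
    exact k2 h4 (h6 ▸ hud)

end Cfsg.Agent.S0974
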