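import Cfsg.Statements.S1256
import Mathlib
import Cfsg.Agent.Lib.KleinDih

set_option autoImplicit false
set_option linter.style.haveILetI false
set_option linter.unusedVariables false
open scoped Pointwise
open Cfsg

namespace Cfsg.Agent.S1256

/-- Let X be a finite group whose Sylow 2-subgroup S is dihedral of order 2m ≥ 4. If |S| = 4, any two Klein four-subgroups of X are conjugate; if |S| > 4, there are Klein four-subgroups U₁, U₂ of X that are not conjugate, and every Klein four-subgroup of X is conjugate to U₁ or to U₂. -/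
theorem result {X : Type*} [Group X] [Finite X] (S : Sylow 2 X) (m : ℕ) (hm : 2 ≤ m) (eS : (S : Subgroup X) ≃* DihedralGroup m) : (Nat.card S = 4 → ∀ U V : Subgroup X, IsKleinFour U → IsKleinFour V → (∃ x : X, U.map (MulAut.conj x).toMonoidHom = V)) ∧ (4 < Nat.card S → ∃ U₁ U₂ : Subgroup X, IsKleinFour U₁ ∧ IsKleinFour U₂ ∧ ¬ (∃ x : X, U₁.map (MulAut.conj x).toMonoidHom = U₂) ∧ ∀ V : Subgroup X, IsKleinFour V → (∃ x : X, V.map (MulAut.conj x).toMonoidHom = U₁) ∨ (∃ x : X, V.map (MulAut.conj x).toMonoidHom = U₂)) := by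
    classical
    haveI : Fact (Nat.Prime 2) := ⟨Nat.prime_two⟩
    refine ⟨fun h4 U V hU hV => Cfsg.Agent.Lib.KleinDih.part_a S h4 U V hU hV, fun h4 => ?_⟩
    haveI : NeZero m := ⟨by omega⟩
    have hc : Nat.card (S : Subgroup X) = 2 * m :=
      (Nat.card_congr eS.toEquiv).trans DihedralGroup.nat_card
    obtain ⟨n, hn⟩ := S.isPGroup'.exists_card_eq
    have h1 : 2 * m = 2 ^ n := by rw [← hc]; exact hn
    have h4' : 4 < 2 * m := by
      have : Nat.card S = 2 * m := hc
      omega
    have hn3 : 3 ≤ n := by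
      by_contra hlt
      have : n ≤ 2 := by omega
      have h2 : 2 ^ n ≤ 2 ^ 2 := Nat.pow_le_pow_right (by norm_num) this
      omega
    obtain ⟨k, rfl⟩ : ∃ k, n = k + 3 := ⟨n - 3, by omega⟩
    have hN : m = 2 ^ (k + 2) := by
      have h2 : 2 ^ (k + 3) = 2 * 2 ^ (k + 2) := by ring
      omega
    let ι : DihedralGroup m →* X := (S : Subgroup X).subtype.comp eS.symm.toMonoidHom
    have hinj : Function.Injective ι :=
      (Subgroup.subtype_injective _).comp eS.symm.injective
    have hrange : ι.range = (S : Subgroup X) := by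
      ext y
      constructor
      · rintro ⟨d, rfl⟩
        exact (eS.symm d).2
      · intro hy
        exact ⟨eS ⟨y, hy⟩, by simp [ι]⟩
    exact Cfsg.Agent.Lib.KleinDih.part_b S hN ι hinj hrange

end Cfsg.Agent.S1256
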