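import Cfsg.Statements.S1313
import Cfsg.Agent.Lib.Comps
import Cfsg.Agent.Lib.SylowCount
-- import your own Cfsg.Agent.* helpers here

set_option autoImplicit false
set_option linter.all false
open Cfsg

namespace Cfsg.Agent.S1313

/-- For a finite group H, |H| ≤ |F*(H)|!. -/
theorem result {H : Type*} [Group H] [Finite H] : Nat.card H ≤ Nat.factorial (Nat.card ↥(Cfsg.generalizedFittingSubgroup H)) := by
  classical
  haveI := Fintype.ofFinite H
  set Fs := Cfsg.generalizedFittingSubgroup H with hFs
  haveI hFsn : Fs.Normal := Cfsg.Agent.Lib.Layer.genFitting_normal H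
  have hC := Cfsg.Agent.Lib.Comps.bender (G := H)
  rw [← hFs] at hC
  have h1 : (Subgroup.centralizer (Fs : Set H)).relIndex (Subgroup.normalizer (Fs : Set H)) ∣ Nat.card (MulAut Fs) :=
    Cfsg.Agent.Lib.SylowCount.relIndex_centralizer_dvd_card_mulAut Fs
  rw [Subgroup.normalizer_eq_top_iff.2 hFsn, Subgroup.relIndex_top_right] at h1
  -- the automorphism group embeds in permutations of the non-identity elements
  let ι : MulAut Fs →* Equiv.Perm {a : Fs // a ≠ 1} :=
    { toFun := fun σ =>
        { toFun := fun a => ⟨σ a.1, fun h => a.2 (by simpa using h)⟩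
          invFun := fun a => ⟨σ⁻¹ a.1, fun h => a.2 (by simpa using h)⟩
          left_inv := fun a => Subtype.ext (by simp)
          right_inv := fun a => Subtype.ext (by simp) }
      map_one' := by ext a; rfl
      map_mul' := fun σ τ => by ext a; rfl }
  have hι : Function.Injective ι := by
    intro σ τ h
    ext a
    by_cases ha : a = 1
    · subst ha
      simp
    · have := congrArg (fun π => ((π ⟨a, ha⟩ : {a : Fs // a ≠ 1}) : Fs)) h
      exact congrArg _ this
  have h2 : Nat.card (MulAut Fs) ≤ Nat.card (Equiv.Perm {a : Fs // a ≠ 1}) :=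
    Nat.card_le_card_of_injective ι hι
  have hcard : Nat.card {a : Fs // a ≠ 1} + 1 = Nat.card Fs := by
    rw [Nat.card_eq_fintype_card, Nat.card_eq_fintype_card, Fintype.card_subtype_compl]
    simp
    have : 0 < Fintype.card Fs := Fintype.card_pos
    omega
  have h3 : Nat.card (Equiv.Perm {a : Fs // a ≠ 1}) = Nat.factorial (Nat.card {a : Fs // a ≠ 1}) := by
    rw [Nat.card_eq_fintype_card, Nat.card_eq_fintype_card, Fintype.card_perm]
  have h4 : (Subgroup.centralizer (Fs : Set H)).index ≤ Nat.factorial (Nat.card {a : Fs // a ≠ 1}) := by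
    rw [← h3]
    exact (Nat.le_of_dvd Nat.card_pos h1).trans h2
  have h5 : Nat.card (Subgroup.centralizer (Fs : Set H)) ≤ Nat.card Fs := Subgroup.card_le_of_le hC
  have h6 := Subgroup.card_mul_index (Subgroup.centralizer (Fs : Set H))
  rw [← h6, ← hcard, Nat.factorial_succ]
  apply Nat.mul_le_mul
  · rw [hcard]; exact h5
  · exact h4

end Cfsg.Agent.S1313
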