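import Cfsg.Statements.S1453
import Cfsg.Agent.Lib.NormalPP
import Cfsg.Agent.Lib.PGroupBasic

set_option autoImplicit false
set_option linter.all false
open Cfsg

namespace Cfsg.Agent.S1453


open Subgroup

variable {R : Type*} [Group R] [Finite R] {p : ℕ} [hp : Fact p.Prime]

theorem mem_of_comm (E : Subgroup R) (hE : IsElementaryAbelian p E)
    (hEmax : ∀ B : Subgroup R, IsElementaryAbelian p B → E ≤ B → B = E)
    {x : R} (hx : x ^ p = 1) (hc : ∀ e ∈ E, x * e = e * x) : x ∈ E := by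
  classical
  set S : Set R := (E : Set R) ∪ {x} with hSdef
  have hEc : ∀ a ∈ E, ∀ b ∈ E, a * b = b * a := by
    intro a ha b hb
    have := hE.1.is_comm.comm (⟨a, ha⟩ : E) ⟨b, hb⟩
    exact congrArg Subtype.val this
  have hS : ∀ a ∈ S, ∀ b ∈ S, a * b = b * a := by
    rintro a (ha | rfl) b (hb | rfl)
    · exact hEc a ha b hb
    · exact (hc a ha).symm
    · exact hc b hb
    · rfl
  have hS1 : ∀ a ∈ S, ∀ b ∈ closure S, a * b = b * a := by
    intro a ha b hb
    induction hb using Subgroup.closure_induction with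
    | mem y hy => exact hS a ha y hy
    | one => simp
    | mul u v _ _ hu hv => rw [← mul_assoc, hu, mul_assoc, hv, mul_assoc]
    | inv u _ hu =>
      have : Commute a u := hu
      exact (this.inv_right)
  have hcomm : ∀ a ∈ closure S, ∀ b ∈ closure S, a * b = b * a := by
    intro a ha b hb
    induction ha using Subgroup.closure_induction with
    | mem y hy => exact hS1 y hy b hb
    | one => simp
    | mul u v _ _ hu hv => rw [mul_assoc, hv, ← mul_assoc, hu, mul_assoc]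
    | inv u _ hu =>
      have : Commute u b := hu
      exact (this.inv_left)
  have hpow : ∀ a ∈ closure S, a ^ p = 1 := by
    intro a ha
    induction ha using Subgroup.closure_induction with
    | mem y hy =>
      rcases hy with hy | rfl
      · exact hE.2 y hy
      · exact hx
    | one => simp
    | mul u v hu' hv' hu hv =>
      have : Commute u v := hcomm u hu' v hv'
      rw [this.mul_pow, hu, hv, one_mul]
    | inv u _ hu => rw [inv_pow, hu, inv_one]
  have hB := hEmax (closure S) ⟨⟨⟨by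
      rintro ⟨a, ha⟩ ⟨b, hb⟩
      exact Subtype.ext (hcomm a ha b hb)⟩⟩, hpow⟩
      (fun e he => subset_closure (Or.inl he))
  rw [← hB]
  exact subset_closure (Or.inr rfl)

theorem exists_not_mem (A : Subgroup R) (hA : Nat.card A = p ^ 2) {z : R} (hzp : orderOf z = p) :
    ∃ a ∈ A, a ∉ zpowers z := by
  by_contra hh
  push_neg at hh
  have h1 : Nat.card A ≤ Nat.card (zpowers z) := Nat.card_mono (Set.toFinite _) (fun a ha => hh a ha)
  rw [hA, Nat.card_zpowers, hzp] at h1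
  have hp2 := hp.out.two_le
  nlinarith

theorem zpowers_central {z : R} (hz : z ∈ center R) : ∀ x ∈ zpowers z, x ∈ center R := by
  intro x hx
  obtain ⟨k, rfl⟩ := Subgroup.mem_zpowers_iff.1 hx
  exact zpow_mem hz k

theorem zpowers_normal' {z : R} (hz : z ∈ center R) : (zpowers z).Normal := by
  constructor
  intro x hx g
  have := (Subgroup.mem_center_iff.1 (zpowers_central hz x hx)) g
  rw [this, mul_assoc, mul_inv_cancel, mul_one]
  exact hx

theorem gen_of (A : Subgroup R) (hA : Nat.card A = p ^ 2) {z y : R} (hzA : z ∈ A) (hyA : y ∈ A)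
    (hz : z ∈ center R) (hzp : orderOf z = p) (hy : y ∉ zpowers z) :
    ∀ e ∈ A, ∃ (i j : ℤ), e = y ^ j * z ^ i := by
  intro e he
  haveI := zpowers_normal' hz
  have hle : zpowers y ⊔ zpowers z ≤ A := sup_le (Subgroup.zpowers_le.2 hyA) (Subgroup.zpowers_le.2 hzA)
  have hB : zpowers y ⊔ zpowers z = A := by
    apply Subgroup.eq_of_le_of_card_ge hle
    have hdvd : Nat.card ↥(zpowers y ⊔ zpowers z) ∣ p ^ 2 := hA ▸ Subgroup.card_dvd_of_le hle
    obtain ⟨k, hk, hk2⟩ := (Nat.dvd_prime_pow hp.out).1 hdvd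
    have h1 : zpowers z ≤ zpowers y ⊔ zpowers z := le_sup_right
    have h2 : orderOf z ∣ Nat.card ↥(zpowers y ⊔ zpowers z) := by
      have := Subgroup.card_dvd_of_le h1
      rwa [Nat.card_zpowers] at this
    rw [hzp, hk2] at h2
    rw [hk2, hA]
    have hk1 : k ≠ 0 := by
      rintro rfl
      simp at h2
      exact hp.out.one_lt.ne' h2
    have hk3 : k ≠ 1 := by
      rintro rfl
      apply hy
      have : zpowers z = zpowers y ⊔ zpowers z := by
        apply Subgroup.eq_of_le_of_card_ge h1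
        rw [hk2, Nat.card_zpowers, hzp, pow_one]
      rw [this]
      exact Subgroup.mem_sup_left (Subgroup.mem_zpowers y)
    have : k = 2 := by omega
    rw [this]
  rw [← hB] at he
  obtain ⟨a, ha, b, hb, rfl⟩ := Subgroup.mem_sup_of_normal_right.1 he
  obtain ⟨j, rfl⟩ := Subgroup.mem_zpowers_iff.1 ha
  obtain ⟨i, rfl⟩ := Subgroup.mem_zpowers_iff.1 hb
  exact ⟨i, j, rfl⟩

theorem comm_mem (hR : IsPGroup p R) (A : Subgroup R) [hAn : A.Normal] (hA : Nat.card A = p ^ 2) {z : R}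
    (hzA : z ∈ A) (hz : z ∈ center R) (hzp : orderOf z = p) :
    ∀ g, ∀ a ∈ A, g * a * g⁻¹ * a⁻¹ ∈ zpowers z := by
  classical
  haveI hN : (zpowers z).Normal := zpowers_normal' hz
  let π := QuotientGroup.mk' (zpowers z)
  have hQ : IsPGroup p (R ⧸ zpowers z) := hR.to_quotient _
  haveI : (A.map π).Normal := hAn.map _ (QuotientGroup.mk'_surjective _)
  have hne : A.map π ≠ ⊥ := by
    obtain ⟨a, ha, hna⟩ := exists_not_mem A hA hzp
    intro hbot
    have : π a ∈ A.map π := Subgroup.mem_map_of_mem _ ha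
    rw [hbot, Subgroup.mem_bot] at this
    exact hna ((QuotientGroup.eq_one_iff a).1 this)
  obtain ⟨c, hcA, hc1, hcc⟩ := Cfsg.Agent.Lib.PGroupBasic.exists_ne_one_mem_center_of_normal hQ (A.map π) hne
  obtain ⟨y, hyA, rfl⟩ := Subgroup.mem_map.1 hcA
  have hy : y ∉ zpowers z := fun h => hc1 ((QuotientGroup.eq_one_iff y).2 h)
  intro g a ha
  obtain ⟨i, j, rfl⟩ := gen_of A hA hzA hyA hz hzp hy a ha
  have hπz : π z = 1 := (QuotientGroup.eq_one_iff z).2 (Subgroup.mem_zpowers z)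
  have hcj : (π y) ^ j ∈ center (R ⧸ zpowers z) := zpow_mem hcc j
  rw [← QuotientGroup.eq_one_iff]
  change π (g * (y ^ j * z ^ i) * g⁻¹ * (y ^ j * z ^ i)⁻¹) = 1
  simp only [map_mul, map_inv, map_zpow, hπz, one_zpow, mul_one]
  rw [Subgroup.mem_center_iff.1 hcj (π g)]
  group

theorem cent_facts {z e : R} (hz : z ∈ center R) (hzp : orderOf z = p)
    (h : ∀ g, g * e * g⁻¹ * e⁻¹ ∈ zpowers z) :
    (centralizer ({e} : Set R)).Normal ∧ (centralizer ({e} : Set R)).index ∣ p := by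
  have hzc := zpowers_central hz
  let φ : R →* zpowers z := MonoidHom.mk' (fun g => ⟨g * e * g⁻¹ * e⁻¹, h g⟩) (by
    intro a b
    apply Subtype.ext
    change (a * b) * e * (a * b)⁻¹ * e⁻¹ = (a * e * a⁻¹ * e⁻¹) * (b * e * b⁻¹ * e⁻¹)
    have h1 := Subgroup.mem_center_iff.1 (hzc _ (h b)) a
    calc (a * b) * e * (a * b)⁻¹ * e⁻¹ = a * (b * e * b⁻¹ * e⁻¹) * e * a⁻¹ * e⁻¹ := by group
      _ = (b * e * b⁻¹ * e⁻¹) * a * e * a⁻¹ * e⁻¹ := by rw [← h1]
      _ = (b * e * b⁻¹ * e⁻¹) * (a * e * a⁻¹ * e⁻¹) := by group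
      _ = _ := (Subgroup.mem_center_iff.1 (hzc _ (h b)) _).symm ▸ rfl)
  have hker : centralizer ({e} : Set R) = φ.ker := by
    ext g
    rw [Subgroup.mem_centralizer_singleton_iff, MonoidHom.mem_ker]
    constructor
    · intro hg
      apply Subtype.ext
      change g * e * g⁻¹ * e⁻¹ = 1
      rw [hg]
      group
    · intro hg
      have h2 : g * e * g⁻¹ * e⁻¹ = 1 := congrArg Subtype.val hg
      have h3 : g * e * g⁻¹ = e := mul_inv_eq_one.1 h2
      exact mul_inv_eq_iff_eq_mul.1 h3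
  rw [hker]
  refine ⟨φ.normal_ker, ?_⟩
  rw [Subgroup.index_ker]
  have := Subgroup.card_subgroup_dvd_card φ.range
  rwa [Nat.card_zpowers, hzp] at this

theorem comm_pow_one {g e : R} (hc : g * e * g⁻¹ * e⁻¹ ∈ center R) (he : e ^ p = 1) :
    (g * e * g⁻¹ * e⁻¹) ^ p = 1 := by
  set c := g * e * g⁻¹ * e⁻¹ with hcdef
  have h1 : g * e * g⁻¹ = c * e := by rw [hcdef]; group
  have hcomm : Commute c e := (Subgroup.mem_center_iff.1 hc e).symm
  have h2 : (c * e) ^ p = c ^ p * e ^ p := hcomm.mul_pow p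
  have h3 : (g * e * g⁻¹) ^ p = g * e ^ p * g⁻¹ := conj_pow
  rw [h1, h2, he] at h3
  simpa using h3

theorem mem_zpowers_of_ne {z c d : R} (hz : orderOf z = p) (hc : c ∈ zpowers z) (hc1 : c ≠ 1)
    (hd : d ∈ zpowers z) : d ∈ zpowers c := by
  have hcard : Nat.card (zpowers z) = p := by rw [Nat.card_zpowers, hz]
  have h1 : (⟨c, hc⟩ : zpowers z) ≠ 1 := fun h => hc1 (congrArg Subtype.val h)
  obtain ⟨k, hk⟩ := Subgroup.mem_zpowers_iff.1 (mem_zpowers_of_prime_card hcard (g' := (⟨d, hd⟩ : zpowers z)) h1)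
  refine Subgroup.mem_zpowers_iff.2 ⟨k, ?_⟩
  have := congrArg Subtype.val hk
  simpa using this

theorem exists_hom (S : Subgroup R) {z e : R} (hz : z ∈ center R)
    (h : ∀ g ∈ S, g * e * g⁻¹ * e⁻¹ ∈ zpowers z) :
    ∃ φ : S →* zpowers z, ∀ g : S, ((φ g : zpowers z) : R) = g * e * g⁻¹ * e⁻¹ := by
  have hzc := zpowers_central hz
  refine ⟨MonoidHom.mk' (fun g => ⟨(g : R) * e * (g : R)⁻¹ * e⁻¹, h g g.2⟩) ?_, fun g => rfl⟩
  rintro ⟨a, ha⟩ ⟨b, hb⟩
  apply Subtype.ext
  change (a * b) * e * (a * b)⁻¹ * e⁻¹ = (a * e * a⁻¹ * e⁻¹) * (b * e * b⁻¹ * e⁻¹)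
  have h1 := Subgroup.mem_center_iff.1 (hzc _ (h b hb)) a
  calc (a * b) * e * (a * b)⁻¹ * e⁻¹ = a * (b * e * b⁻¹ * e⁻¹) * e * a⁻¹ * e⁻¹ := by group
    _ = (b * e * b⁻¹ * e⁻¹) * a * e * a⁻¹ * e⁻¹ := by rw [← h1]
    _ = (b * e * b⁻¹ * e⁻¹) * (a * e * a⁻¹ * e⁻¹) := by group
    _ = _ := (Subgroup.mem_center_iff.1 (hzc _ (h b hb)) _).symm ▸ rfl


/-- Let p be an odd prime and R a finite p-group with an elementary abelian subgroup of order p ^ 3 and an elementary abelian subgroup E of order p ^ 2 contained in no larger elementary abelian subgroup. Let Z₂ be the second centre of R, W the subgroup generated by the elements of Z₂ of order dividing p, and T = C_R(W). Then E is not contained in T; the elements of order dividing p of the centre of R generate a group of order p; W is elementary abelian of order p ^ 2; and T is characteristic in R of index p. -/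
theorem result {R : Type*} [Group R] [Finite R] (p : ℕ) [Fact p.Prime] (hp : p ≠ 2) (hR : IsPGroup p R) (hr : ¬ Cfsg.PRankLE p 2 R)
    (E : Subgroup R) (hE : Cfsg.IsElementaryAbelian p E) (hE2 : Nat.card E = p ^ 2)
    (hEmax : ∀ B : Subgroup R, Cfsg.IsElementaryAbelian p B → E ≤ B → B = E) :
    ¬ E ≤ Subgroup.centralizer ((Subgroup.closure {x : R | x ∈ Subgroup.upperCentralSeries R 2 ∧ x ^ p = 1} : Subgroup R) : Set R) ∧
      Nat.card ↥(Subgroup.closure {x : R | x ∈ Subgroup.center R ∧ x ^ p = 1}) = p ∧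
      (Cfsg.IsElementaryAbelian p (Subgroup.closure {x : R | x ∈ Subgroup.upperCentralSeries R 2 ∧ x ^ p = 1}) ∧
        Nat.card ↥(Subgroup.closure {x : R | x ∈ Subgroup.upperCentralSeries R 2 ∧ x ^ p = 1}) = p ^ 2) ∧
      (Subgroup.centralizer ((Subgroup.closure {x : R | x ∈ Subgroup.upperCentralSeries R 2 ∧ x ^ p = 1} : Subgroup R) : Set R)).Characteristic ∧
      (Subgroup.centralizer ((Subgroup.closure {x : R | x ∈ Subgroup.upperCentralSeries R 2 ∧ x ^ p = 1} : Subgroup R) : Set R)).index = p := by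

  classical
  have hpp : p.Prime := Fact.out
  have hp3 : 3 ≤ p := by
    have := hpp.two_le
    omega
  obtain ⟨F, hFc, hFe, hFcard⟩ : ∃ F : Subgroup R, IsMulCommutative F ∧ (∀ a ∈ F, a ^ p = 1) ∧ p ^ 2 < Nat.card F := by
    unfold PRankLE at hr
    push_neg at hr
    exact hr
  have hmem : ∀ x : R, x ^ p = 1 → (∀ e ∈ E, x * e = e * x) → x ∈ E :=
    fun x hx hc => mem_of_comm E hE hEmax hx hc
  have hFc' : ∀ a ∈ F, ∀ b ∈ F, a * b = b * a := by
    intro a ha b hb
    exact congrArg Subtype.val (hFc.is_comm.comm (⟨a, ha⟩ : F) ⟨b, hb⟩)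
  have hnc : ¬ IsCyclic (⊤ : Subgroup R) := by
    intro hcyc
    haveI : IsCyclic R := isCyclic_of_surjective (⊤ : Subgroup R).subtype (fun x => ⟨⟨x, trivial⟩, rfl⟩)
    obtain ⟨g, hg⟩ := IsCyclic.exists_generator (α := E)
    have h1 : orderOf g = Nat.card E := orderOf_eq_card_of_forall_mem_zpowers hg
    have h2 : g ^ p = 1 := Subtype.ext (hE.2 g g.2)
    have h3 := orderOf_dvd_of_pow_eq_one h2
    rw [h1, hE2] at h3
    have h4 := Nat.le_of_dvd hpp.pos h3
    have := hpp.two_le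
    nlinarith
  obtain ⟨W₀, -, hW₀n, hW₀e, hW₀c⟩ := Cfsg.Agent.Lib.NormalPP.main hp hR ⊤ hnc
  haveI := hW₀n
  have hW₀bot : W₀ ≠ ⊥ := by
    rintro rfl
    simp at hW₀c
    have := hpp.one_lt
    nlinarith
  obtain ⟨z, hzW, hz1, hzc⟩ := Cfsg.Agent.Lib.PGroupBasic.exists_ne_one_mem_center_of_normal hR W₀ hW₀bot
  have hzpow : z ^ p = 1 := hW₀e.2 z hzW
  have hzo : orderOf z = p := orderOf_eq_prime hzpow hz1
  have hcE : ∀ x, x ∈ center R → x ^ p = 1 → x ∈ E :=
    fun x hx hxp => hmem x hxp (fun e _ => (Subgroup.mem_center_iff.1 hx e).symm)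
  have hzE : z ∈ E := hcE z hzc hzpow
  have hF_not : ¬ F ≤ E := by
    intro hle
    have h1 : Nat.card F ≤ Nat.card E := Nat.card_mono (Set.toFinite _) hle
    omega
  have hzz := zpowers_central hzc
  have hcz : ∀ x, x ∈ center R → x ^ p = 1 → x ∈ zpowers z := by
    intro x hx hxp
    by_contra hnot
    have hgen := gen_of E hE2 hzE (hcE x hx hxp) hzc hzo hnot
    apply hF_not
    intro f hf
    apply hmem f (hFe f hf)
    intro e he
    obtain ⟨i, j, rfl⟩ := hgen e he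
    exact (Subgroup.mem_center_iff.1 (mul_mem (zpow_mem hx j) (zpow_mem hzc i)) f)
  have hEnn : ¬ E.Normal := by
    intro hn
    obtain ⟨e₀, he₀E, he₀⟩ := exists_not_mem E hE2 hzo
    have hL1 := comm_mem hR E hE2 hzE hzc hzo
    obtain ⟨hCn, hCi⟩ := cent_facts hzc hzo (fun g => hL1 g e₀ he₀E)
    have hgen := gen_of E hE2 hzE he₀E hzc hzo he₀
    haveI := hCn
    set C := centralizer ({e₀} : Set R) with hCdef
    let K' : Subgroup F := C.subgroupOf F
    let K : Subgroup R := K'.map F.subtype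
    have hKF : K ≤ F := by
      rintro _ ⟨x, -, rfl⟩
      exact x.2
    have hKC : K ≤ C := by
      rintro _ ⟨x, hx, rfl⟩
      exact hx
    have hKE : K ≤ E := by
      intro x hx
      apply hmem x (hFe x (hKF hx))
      intro e he
      obtain ⟨i, j, rfl⟩ := hgen e he
      have h1 : Commute x e₀ := Subgroup.mem_centralizer_singleton_iff.1 (hKC hx)
      have h2 : Commute x (z ^ i) := ((Subgroup.mem_center_iff.1 (zpow_mem hzc i) x))
      exact ((h1.zpow_right j).mul_right h2)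
    have hKcard : Nat.card K = Nat.card K' := Subgroup.card_map_of_injective F.subtype_injective
    have hK1 : Nat.card K' * K'.index = Nat.card F := Subgroup.card_mul_index K'
    have hK2 : K'.index ∣ p := (Subgroup.relIndex_dvd_index_of_normal C F).trans hCi
    have hK3 : K'.index ≤ p := Nat.le_of_dvd hpp.pos hK2
    have hFp : IsPGroup p F := hR.to_subgroup F
    obtain ⟨k, hk⟩ := IsPGroup.iff_card.1 hFp
    have hk3 : 3 ≤ k := by
      by_contra hlt
      have : k ≤ 2 := by omega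
      have h5 : p ^ k ≤ p ^ 2 := Nat.pow_le_pow_right hpp.pos this
      omega
    have h6 : p ^ 3 ≤ Nat.card F := by
      rw [hk]
      exact Nat.pow_le_pow_right hpp.pos hk3
    have h7 : p ^ 2 ≤ Nat.card K := by
      rw [hKcard]
      have h8 : p ^ 3 ≤ Nat.card K' * p := by
        calc p ^ 3 ≤ Nat.card F := h6
          _ = Nat.card K' * K'.index := hK1.symm
          _ ≤ Nat.card K' * p := Nat.mul_le_mul_left _ hK3
      have h9 : p ^ 2 * p ≤ Nat.card K' * p := by
        rw [← pow_succ]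
        exact h8
      exact Nat.le_of_mul_le_mul_right h9 hpp.pos
    have hKeq : K = E := Subgroup.eq_of_le_of_card_ge hKE (by rw [hE2]; exact h7)
    apply hF_not
    intro f hf
    apply hmem f (hFe f hf)
    intro e he
    have : e ∈ F := hKF (hKeq ▸ he)
    exact hFc' f hf e this
  have hEZ2 : ∀ e ∈ E, (∀ y, e * y * e⁻¹ * y⁻¹ ∈ center R) → e ∈ zpowers z := by
    intro e he hZ
    by_contra hnot
    apply hEnn
    have hgen := gen_of E hE2 hzE he hzc hzo hnot
    have hge : ∀ g, g * e * g⁻¹ ∈ E := by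
      intro g
      have h1 : g * e * g⁻¹ * e⁻¹ ∈ center R := by
        have := inv_mem (hZ g)
        have h2 : (e * g * e⁻¹ * g⁻¹)⁻¹ = g * e * g⁻¹ * e⁻¹ := by group
        rwa [h2] at this
      have h3 := comm_pow_one h1 (hE.2 e he)
      have h4 := hcz _ h1 h3
      have h5 : g * e * g⁻¹ * e⁻¹ ∈ E := (Subgroup.zpowers_le.2 hzE) h4
      have h6 : g * e * g⁻¹ = (g * e * g⁻¹ * e⁻¹) * e := by group
      rw [h6]
      exact mul_mem h5 he
    constructor
    intro x hx g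
    obtain ⟨i, j, rfl⟩ := hgen x hx
    have h7 : g * (e ^ j * z ^ i) * g⁻¹ = (g * e * g⁻¹) ^ j * (g * z ^ i * g⁻¹) := by
      rw [conj_zpow]
      group
    rw [h7]
    have h8 : g * z ^ i * g⁻¹ = z ^ i := by
      rw [Subgroup.mem_center_iff.1 (zpow_mem hzc i) g]
      group
    rw [h8]
    exact mul_mem (zpow_mem (hge g) j) (zpow_mem hzE i)
  have hZ2 : ∀ x, x ∈ Subgroup.upperCentralSeries R 2 ↔ ∀ y, x * y * x⁻¹ * y⁻¹ ∈ center R := by
    intro x
    have h := Subgroup.mem_upperCentralSeries_succ_iff (G := R) (n := 1) (x := x)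
    rw [Subgroup.upperCentralSeries_one] at h
    exact h
  have hL1 := comm_mem hR W₀ hW₀c hzW hzc hzo
  have hW₀Z2 : ∀ a ∈ W₀, ∀ y, a * y * a⁻¹ * y⁻¹ ∈ center R := by
    intro a ha y
    have h1 := hzz _ (hL1 y a ha)
    have h2 := inv_mem h1
    have h3 : (y * a * y⁻¹ * a⁻¹)⁻¹ = a * y * a⁻¹ * y⁻¹ := by group
    rwa [h3] at h2
  obtain ⟨w₀, hw₀W, hw₀⟩ := exists_not_mem W₀ hW₀c hzo
  have hw₀p : w₀ ^ p = 1 := hW₀e.2 w₀ hw₀W
  have hw₀E : w₀ ∉ E := fun h => hw₀ (hEZ2 w₀ h (hW₀Z2 w₀ hw₀W))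
  obtain ⟨e₀, he₀E, he₀⟩ : ∃ e₀ ∈ E, w₀ * e₀ ≠ e₀ * w₀ := by
    by_contra hh
    push_neg at hh
    exact hw₀E (hmem w₀ hw₀p hh)
  have he₀z : e₀ ∉ zpowers z := fun h => he₀ (Subgroup.mem_center_iff.1 (hzz _ h) w₀)
  have hgenE := gen_of E hE2 hzE he₀E hzc hzo he₀z
  have hdZ : ∀ x ∈ Subgroup.upperCentralSeries R 2, x * e₀ * x⁻¹ * e₀⁻¹ ∈ zpowers z := fun x hx =>
    hcz _ ((hZ2 x).1 hx e₀) (comm_pow_one ((hZ2 x).1 hx e₀) (hE.2 e₀ he₀E))
  obtain ⟨ψ, hψ⟩ := exists_hom (Subgroup.upperCentralSeries R 2) hzc hdZ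
  have hw₀Z : w₀ ∈ Subgroup.upperCentralSeries R 2 := (hZ2 w₀).2 (hW₀Z2 w₀ hw₀W)
  have hdw1 : w₀ * e₀ * w₀⁻¹ * e₀⁻¹ ≠ 1 := by
    intro h
    have h3 : w₀ * e₀ * w₀⁻¹ = e₀ := mul_inv_eq_one.1 h
    exact he₀ (mul_inv_eq_iff_eq_mul.1 h3)
  have hZ2W : ∀ x ∈ Subgroup.upperCentralSeries R 2, x ^ p = 1 → x ∈ W₀ := by
    intro x hxZ hxp
    obtain ⟨k, hk⟩ := Subgroup.mem_zpowers_iff.1 (mem_zpowers_of_ne hzo (hdZ w₀ hw₀Z) hdw1 (hdZ x hxZ))
    set b := w₀ ^ (-k) with hb
    have hbZ : b ∈ Subgroup.upperCentralSeries R 2 := zpow_mem hw₀Z _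
    have hbp : b ^ p = 1 := by
      rw [hb, ← zpow_natCast, ← zpow_mul, mul_comm, zpow_mul, zpow_natCast, hw₀p, one_zpow]
    set y := x * b with hy
    have hyZ : y ∈ Subgroup.upperCentralSeries R 2 := mul_mem hxZ hbZ
    have hyd : y * e₀ * y⁻¹ * e₀⁻¹ = 1 := by
      have h2 : (⟨y, hyZ⟩ : Subgroup.upperCentralSeries R 2) = ⟨x, hxZ⟩ * (⟨w₀, hw₀Z⟩ : Subgroup.upperCentralSeries R 2) ^ (-k) := rfl
      have e1 : ((ψ ⟨x, hxZ⟩ : zpowers z) : R) = x * e₀ * x⁻¹ * e₀⁻¹ := hψ _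
      have e2 : ((ψ ⟨w₀, hw₀Z⟩ : zpowers z) : R) = w₀ * e₀ * w₀⁻¹ * e₀⁻¹ := hψ _
      have e3 : ((ψ ⟨y, hyZ⟩ : zpowers z) : R) = y * e₀ * y⁻¹ * e₀⁻¹ := hψ _
      rw [← e3, h2, map_mul, map_zpow, Subgroup.coe_mul, Subgroup.coe_zpow, e1, e2, ← hk, zpow_neg, mul_inv_cancel]
    have hyc : y * e₀ = e₀ * y := by
      have h3 : y * e₀ * y⁻¹ = e₀ := mul_inv_eq_one.1 hyd
      exact mul_inv_eq_iff_eq_mul.1 h3
    have hyp : y ^ p = 1 := by
      set c := b * x * b⁻¹ * x⁻¹ with hc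
      have hcc : c ∈ center R := (hZ2 b).1 hbZ x
      have hcp : c ^ p = 1 := comm_pow_one hcc hxp
      have hba : b * x = c * x * b := by rw [hc]; group
      have h1 := Cfsg.Agent.Lib.NormalPP.mul_pow_aux hba ((Subgroup.mem_center_iff.1 hcc x).symm) ((Subgroup.mem_center_iff.1 hcc b).symm) p
      rw [hy, h1, hxp, hbp]
      obtain ⟨m, hm⟩ := hpp.dvd_choose_self (k := 2) (by norm_num) (by omega)
      rw [hm, pow_mul, hcp, one_pow]
      simp
    have hyE : y ∈ E := by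
      apply hmem y hyp
      intro e he
      obtain ⟨i, j, rfl⟩ := hgenE e he
      have h1 : Commute y e₀ := hyc
      have h2 : Commute y (z ^ i) := ((Subgroup.mem_center_iff.1 (zpow_mem hzc i) y))
      exact ((h1.zpow_right j).mul_right h2)
    have hyz : y ∈ zpowers z := hEZ2 y hyE ((hZ2 y).1 hyZ)
    have hyW : y ∈ W₀ := (Subgroup.zpowers_le.2 hzW) hyz
    have hxy : x = y * b⁻¹ := by rw [hy]; group
    rw [hxy, hb]
    apply mul_mem hyW
    apply inv_mem
    exact zpow_mem hw₀W _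
  have hWeq : closure {x : R | x ∈ Subgroup.upperCentralSeries R 2 ∧ x ^ p = 1} = W₀ := by
    apply le_antisymm
    · rw [Subgroup.closure_le]
      rintro x ⟨hx, hxp⟩
      exact hZ2W x hx hxp
    · intro x hx
      exact Subgroup.subset_closure ⟨(hZ2 x).2 (hW₀Z2 x hx), hW₀e.2 x hx⟩
  have hchar : (closure {x : R | x ∈ Subgroup.upperCentralSeries R 2 ∧ x ^ p = 1}).Characteristic := by
    rw [Subgroup.characteristic_iff_le_comap]
    intro φ
    rw [Subgroup.closure_le]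
    rintro x ⟨hx, hxp⟩
    apply Subgroup.subset_closure
    constructor
    · have h1 : (Subgroup.upperCentralSeries R 2).comap φ.toMonoidHom = Subgroup.upperCentralSeries R 2 :=
        (inferInstance : (Subgroup.upperCentralSeries R 2).Characteristic).fixed φ
      rw [← h1] at hx
      exact hx
    · change (φ x) ^ p = 1
      rw [← map_pow, hxp, map_one]
  have hT : centralizer ((W₀ : Subgroup R) : Set R) = centralizer ({w₀} : Set R) := by
    apply le_antisymm
    · exact Subgroup.centralizer_le (by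
        rintro x rfl
        exact hw₀W)
    · intro x hx
      rw [Subgroup.mem_centralizer_iff]
      intro a ha
      have hcomm : Commute x w₀ := Subgroup.mem_centralizer_singleton_iff.1 hx
      obtain ⟨i, j, rfl⟩ := gen_of W₀ hW₀c hzW hw₀W hzc hzo hw₀ a ha
      have h2 : Commute x (z ^ i) := ((Subgroup.mem_center_iff.1 (zpow_mem hzc i) x))
      exact ((hcomm.zpow_right j).mul_right h2).symm
  have hcharT : (centralizer ((closure {x : R | x ∈ Subgroup.upperCentralSeries R 2 ∧ x ^ p = 1} : Subgroup R) : Set R)).Characteristic :=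
    inferInstance
  refine ⟨?_, ?_, ?_, hcharT, ?_⟩
  · rw [hWeq]
    intro hle
    apply hw₀E
    apply hmem w₀ hw₀p
    intro e he
    have := Subgroup.mem_centralizer_iff.1 (hle he) w₀ hw₀W
    exact this
  · have h1 : closure {x : R | x ∈ center R ∧ x ^ p = 1} = zpowers z := by
      apply le_antisymm
      · rw [Subgroup.closure_le]
        rintro x ⟨hx, hxp⟩
        exact hcz x hx hxp
      · rw [Subgroup.zpowers_le]
        exact Subgroup.subset_closure ⟨hzc, hzpow⟩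
    rw [h1, Nat.card_zpowers, hzo]
  · rw [hWeq]
    exact ⟨hW₀e, hW₀c⟩
  · rw [hWeq, hT]
    obtain ⟨_, hi⟩ := cent_facts hzc hzo (fun g => hL1 g w₀ hw₀W)
    rcases (Nat.dvd_prime hpp).1 hi with h1 | h1
    · exfalso
      rw [Subgroup.index_eq_one] at h1
      apply hw₀
      apply hcz w₀ _ hw₀p
      rw [Subgroup.mem_center_iff]
      intro g
      have : g ∈ centralizer ({w₀} : Set R) := h1 ▸ Subgroup.mem_top g
      exact Subgroup.mem_centralizer_singleton_iff.1 this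
    · exact h1

end Cfsg.Agent.S1453
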