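import Cfsg.Statements.S1892
import Mathlib
import Cfsg.Agent.Lib.CharBlockPSolv
import Cfsg.Agent.Lib.SecTransfer
import Cfsg.Agent.Lib.FitCore

set_option autoImplicit false
open Cfsg

namespace Cfsg.Agent.S1892

open scoped commutatorElement

/-- Let S be a finite p-solvable group with no nontrivial normal subgroup of order prime to p, A a p-subgroup of S, and Q a nontrivial A-invariant subgroup of order prime to p with [A, Q] = Q. Then the commutator [O_p(S), A, Q] is nontrivial. -/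
theorem result {S : Type*} [Group S] [Finite S] {p : ℕ} [Fact p.Prime]
    (hS : Cfsg.IsPSolvable p S) (hred : Cfsg.pPrimeCore p S = ⊥)
    (A Q : Subgroup S) (hA : IsPGroup p A) (hQ : ¬ p ∣ Nat.card Q) (hQ1 : Q ≠ ⊥)
    (hinv : ∀ a ∈ A, ∀ x ∈ Q, a * x * a⁻¹ ∈ Q) (hAQ : ⁅A, Q⁆ = Q) :
    ⁅⁅Cfsg.pCore p S, A⁆, Q⁆ ≠ ⊥ := by
  classical
  intro hbot
  have hQc : ∀ w ∈ ⁅Cfsg.pCore p S, A⁆, ∀ q ∈ Q, q * w = w * q := by
    intro w hw q hq
    have h1 := (Subgroup.commutator_eq_bot_iff_le_centralizer).1 hbot hw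
    exact Subgroup.mem_centralizer_iff.1 h1 q hq
  have hVn : (Cfsg.pCore p S).Normal := Cfsg.Agent.Lib.FitCore.pCore_normal p
  have hVp : IsPGroup p (Cfsg.pCore p S) := Cfsg.Agent.Lib.FitCore.pCore_isPGroup p
  have hcent := Cfsg.Agent.Lib.CharBlockPSolv.centralizer_pCore_le_of_pSolvable hS hred
  have key : ∀ a ∈ A, ∀ q ∈ Q, a * q * a⁻¹ = q := by
    intro a ha q hq
    have hq' : a * q * a⁻¹ ∈ Q := hinv a ha q hq
    have hy : q⁻¹ * (a * q * a⁻¹) ∈ Q := Q.mul_mem (Q.inv_mem hq) hq'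
    have hyc : q⁻¹ * (a * q * a⁻¹) ∈ Subgroup.centralizer (Cfsg.pCore p S : Set S) := by
      rw [Subgroup.mem_centralizer_iff]
      intro v hv
      -- the elements c₁, c₂, c₃
      have hc₁ : v⁻¹ * a⁻¹ * v * a ∈ ⁅Cfsg.pCore p S, A⁆ := by
        have := Subgroup.commutator_mem_commutator ((Cfsg.pCore p S).inv_mem hv) (A.inv_mem ha)
        rw [commutatorElement_def] at this
        simpa using this
      have hv₂ : q * v * q⁻¹ ∈ Cfsg.pCore p S := hVn.conj_mem v hv q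
      have hc₂ : (q * v * q⁻¹)⁻¹ * a * (q * v * q⁻¹) * a⁻¹ ∈ ⁅Cfsg.pCore p S, A⁆ := by
        have := Subgroup.commutator_mem_commutator ((Cfsg.pCore p S).inv_mem hv₂) ha
        rw [commutatorElement_def] at this
        simpa using this
      obtain ⟨c₁, hc₁e⟩ : ∃ c₁, c₁ = v⁻¹ * a⁻¹ * v * a := ⟨_, rfl⟩
      obtain ⟨c₂, hc₂e⟩ : ∃ c₂, c₂ = (q * v * q⁻¹)⁻¹ * a * (q * v * q⁻¹) * a⁻¹ := ⟨_, rfl⟩
      rw [← hc₁e] at hc₁
      rw [← hc₂e] at hc₂
      have hWV : ⁅Cfsg.pCore p S, A⁆ ≤ Cfsg.pCore p S := by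
        rw [Subgroup.commutator_le]
        intro v' hv' a' _
        rw [commutatorElement_def]
        have := hVn.conj_mem _ ((Cfsg.pCore p S).inv_mem hv') a'
        have e : v' * a' * v'⁻¹ * a'⁻¹ = v' * (a' * v'⁻¹ * a'⁻¹) := by group
        rw [e]
        exact (Cfsg.pCore p S).mul_mem hv' this
      obtain ⟨c₃, hc₃e⟩ : ∃ c₃, c₃ = c₂ * (a * c₁ * a⁻¹) := ⟨_, rfl⟩
      have hc₃V : c₃ ∈ Cfsg.pCore p S := by
        rw [hc₃e]
        exact (Cfsg.pCore p S).mul_mem (hWV hc₂) (hVn.conj_mem _ (hWV hc₁) a)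
      have hc₃Q : ∀ r ∈ Q, r * c₃ = c₃ * r := by
        intro r hr
        have h1 : r * (a * c₁ * a⁻¹) = (a * c₁ * a⁻¹) * r := by
          have hr' : a⁻¹ * r * a ∈ Q := by
            have := hinv a⁻¹ (A.inv_mem ha) r hr
            simpa using this
          have h2 := hQc c₁ hc₁ _ hr'
          calc r * (a * c₁ * a⁻¹) = a * ((a⁻¹ * r * a) * c₁) * a⁻¹ := by group
            _ = a * (c₁ * (a⁻¹ * r * a)) * a⁻¹ := by rw [h2]
            _ = _ := by group
        rw [hc₃e]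
        calc r * (c₂ * (a * c₁ * a⁻¹)) = (r * c₂) * (a * c₁ * a⁻¹) := by group
          _ = (c₂ * r) * (a * c₁ * a⁻¹) := by rw [hQc c₂ hc₂ r hr]
          _ = c₂ * (r * (a * c₁ * a⁻¹)) := by group
          _ = c₂ * ((a * c₁ * a⁻¹) * r) := by rw [h1]
          _ = _ := by group
      -- the key relation
      obtain ⟨y, hye⟩ : ∃ y, y = q⁻¹ * (a * q * a⁻¹) := ⟨_, rfl⟩
      rw [← hye] at hy ⊢
      have hrel : y * v * y⁻¹ = v * c₃ := by
        have e1 : a⁻¹ * v * a = v * c₁ := by rw [hc₁e]; group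
        have e2 : a * (q * v * q⁻¹) * a⁻¹ = (q * v * q⁻¹) * c₂ := by rw [hc₂e]; group
        have e3 : q * c₁ = c₁ * q := hQc c₁ hc₁ q hq
        have hqc₃ := hc₃Q q⁻¹ (Q.inv_mem hq)
        calc y * v * y⁻¹ = q⁻¹ * (a * (q * (a⁻¹ * v * a) * q⁻¹) * a⁻¹) * q := by rw [hye]; group
          _ = q⁻¹ * (a * (q * (v * c₁) * q⁻¹) * a⁻¹) * q := by rw [e1]
          _ = q⁻¹ * (a * ((q * v * q⁻¹) * (q * c₁ * q⁻¹)) * a⁻¹) * q := by group
          _ = q⁻¹ * (a * ((q * v * q⁻¹) * c₁) * a⁻¹) * q := by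
            rw [e3]; group
          _ = q⁻¹ * ((a * (q * v * q⁻¹) * a⁻¹) * (a * c₁ * a⁻¹)) * q := by group
          _ = q⁻¹ * (((q * v * q⁻¹) * c₂) * (a * c₁ * a⁻¹)) * q := by rw [e2]
          _ = q⁻¹ * (q * v * q⁻¹ * c₃) * q := by rw [hc₃e]; group
          _ = v * (q⁻¹ * c₃) * q := by group
          _ = v * (c₃ * q⁻¹) * q := by rw [hqc₃]
          _ = v * c₃ := by group
      have hyc₃ : y * c₃ = c₃ * y := hc₃Q y hy
      have hpow : ∀ k : ℕ, y ^ k * v * (y ^ k)⁻¹ = v * c₃ ^ k := by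
        intro k
        induction k with
        | zero => simp
        | succ k ih =>
          have hcomm : Commute y (c₃ ^ k) := Commute.pow_right hyc₃ k
          have hcomm' : y * c₃ ^ k = c₃ ^ k * y := hcomm
          calc y ^ (k + 1) * v * (y ^ (k + 1))⁻¹ = y * (y ^ k * v * (y ^ k)⁻¹) * y⁻¹ := by
                rw [pow_succ']; group
            _ = y * (v * c₃ ^ k) * y⁻¹ := by rw [ih]
            _ = (y * v * y⁻¹) * (y * c₃ ^ k * y⁻¹) := by group
            _ = (v * c₃) * (c₃ ^ k * y * y⁻¹) := by rw [hrel, hcomm']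
            _ = v * c₃ ^ (k + 1) := by rw [pow_succ']; group
      have h1 := hpow (orderOf y)
      rw [pow_orderOf_eq_one] at h1
      simp only [one_mul, inv_one, mul_one] at h1
      have h2 : c₃ ^ orderOf y = 1 := mul_left_cancel (a := v) (by rw [mul_one]; exact h1.symm)
      have h3 : c₃ = 1 := by
        obtain ⟨m, hm⟩ := IsPGroup.iff_orderOf.1 hVp ⟨c₃, hc₃V⟩
        have hm' : orderOf c₃ = p ^ m := by rw [← hm, Subgroup.orderOf_mk]
        have hd : orderOf c₃ ∣ orderOf y := orderOf_dvd_of_pow_eq_one h2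
        have hd2 : orderOf y ∣ Nat.card Q := by
          have := Subgroup.orderOf_dvd_natCard Q hy
          exact this
        have hcop : Nat.Coprime (p ^ m) (Nat.card Q) :=
          Nat.Coprime.pow_left m ((Nat.Prime.coprime_iff_not_dvd (Fact.out)).2 hQ)
        have hd3 : p ^ m ∣ Nat.card Q := hm' ▸ (hd.trans hd2)
        have := Nat.Coprime.eq_one_of_dvd hcop hd3
        rw [← hm'] at this
        exact orderOf_eq_one_iff.1 this
      rw [h3, mul_one] at hrel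
      calc v * y = (y * v * y⁻¹) * y := by rw [hrel]; 
        _ = y * v := by group
    have hyV := hcent hyc
    have hy1 := Cfsg.Agent.Lib.SecTransfer.eq_one_of_mem_coprime hVp hQ hyV hy
    have : a * q * a⁻¹ = q := by
      have h2 : q * (q⁻¹ * (a * q * a⁻¹)) = q := by rw [hy1, mul_one]
      rwa [mul_inv_cancel_left] at h2
    exact this
  have hAQb : ⁅A, Q⁆ = ⊥ := by
    rw [Subgroup.commutator_eq_bot_iff_le_centralizer]
    intro a ha
    rw [Subgroup.mem_centralizer_iff]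
    intro q hq
    have := key a ha q hq
    calc q * a = (a * q * a⁻¹) * a := by rw [this]
      _ = a * q := by group
  rw [hAQ] at hAQb
  exact hQ1 hAQb

end Cfsg.Agent.S1892
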