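import Cfsg.Statements.S1894
import Cfsg.Agent.Lib.PGroupBasic
-- import your own Cfsg.Agent.* helpers here

set_option autoImplicit false
open Cfsg

namespace Cfsg.Agent.S1894

/-- Let P be a finite p-group, A a normal subgroup of P and B an abelian subgroup of A that is normal in P. Then some subgroup C of A containing B is normal in P and is self-centralizing and normal in A (C ∈ SCN(A)). -/
theorem result {P : Type*} [Group P] [Finite P] {p : ℕ} [Fact p.Prime] (hP : IsPGroup p P)
    (A : Subgroup P) [A.Normal] (B : Subgroup P) [B.Normal] (hBA : B ≤ A) (hB : IsMulCommutative B) :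
    ∃ C : Subgroup P, C.Normal ∧ B ≤ C ∧ Cfsg.IsSCN A C := by
  classical
  let 𝒮 : Set (Subgroup P) := {C | C.Normal ∧ B ≤ C ∧ C ≤ A ∧ ∀ a ∈ C, ∀ b ∈ C, a * b = b * a}
  have hB' : B ∈ 𝒮 := by
    refine ⟨inferInstance, le_rfl, hBA, ?_⟩
    intro a ha b hb
    have := hB.is_comm.comm ⟨a, ha⟩ ⟨b, hb⟩
    exact congrArg Subtype.val this
  obtain ⟨C, hCmax⟩ := (Set.toFinite 𝒮).exists_maximal ⟨B, hB'⟩
  obtain ⟨hCn, hBC, hCA, hCc⟩ := hCmax.1
  haveI := hCn
  refine ⟨C, hCn, hBC, hCA, ?_, ?_⟩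
  · rw [Subgroup.normalizer_eq_top C]; exact le_top
  apply le_antisymm
  swap
  · intro c hc
    refine ⟨hCA hc, ?_⟩
    refine Subgroup.mem_centralizer_iff.2 ?_
    intro d hd
    exact hCc d hd c hc
  -- now the maximality argument
  by_contra hne
  set D := A ⊓ Subgroup.centralizer (C : Set P) with hD
  have hCD : C ≤ D := by
    intro c hc
    refine ⟨hCA hc, ?_⟩
    refine Subgroup.mem_centralizer_iff.2 ?_
    intro d hd
    exact hCc d hd c hc
  have hDn : D.Normal := by
    refine ⟨fun x hx g => ⟨(inferInstance : A.Normal).conj_mem x hx.1 g, ?_⟩⟩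
    refine Subgroup.mem_centralizer_iff.2 ?_
    intro c hc
    have h1 : g⁻¹ * c * g ∈ C := by
      have := hCn.conj_mem c hc g⁻¹
      simpa using this
    have h2 := (Subgroup.mem_centralizer_iff.1 hx.2) _ h1
    calc c * (g * x * g⁻¹) = g * ((g⁻¹ * c * g) * x) * g⁻¹ := by group
      _ = g * (x * (g⁻¹ * c * g)) * g⁻¹ := by rw [h2]
      _ = g * x * g⁻¹ * c := by group
  haveI := hDn
  -- image of D in the quotient
  set Db := D.map (QuotientGroup.mk' C) with hDb
  have hDbn : Db.Normal := hDn.map _ (QuotientGroup.mk'_surjective C)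
  haveI := hDbn
  have hDb1 : Db ≠ ⊥ := by
    intro h
    apply hne
    intro x hx
    have : (QuotientGroup.mk' C) x ∈ Db := ⟨x, hx, rfl⟩
    rw [h, Subgroup.mem_bot] at this
    exact (QuotientGroup.eq_one_iff x).1 this
  obtain ⟨xb, hxb, hxb1, hxbZ⟩ := Cfsg.Agent.Lib.PGroupBasic.exists_ne_one_mem_center_of_normal (hP.to_quotient C) Db hDb1
  obtain ⟨x, hxD, rfl⟩ := hxb
  have hxC : x ∉ C := fun h => hxb1 ((QuotientGroup.eq_one_iff x).2 h)
  -- the new subgroup
  set C' := (Subgroup.zpowers ((QuotientGroup.mk' C) x)).comap (QuotientGroup.mk' C) with hC'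
  have hmem : ∀ y, y ∈ C' ↔ ∃ k : ℤ, ∃ c ∈ C, y = x ^ k * c := by
    intro y
    constructor
    · intro hy
      obtain ⟨k, hk⟩ := Subgroup.mem_zpowers_iff.1 hy
      refine ⟨k, (x ^ k)⁻¹ * y, ?_, by group⟩
      rw [← QuotientGroup.eq]
      show QuotientGroup.mk' C (x ^ k) = QuotientGroup.mk' C y
      rw [map_zpow]
      exact hk
    · rintro ⟨k, c, hc, rfl⟩
      rw [hC', Subgroup.mem_comap, map_mul, map_zpow]
      have : (QuotientGroup.mk' C) c = 1 := (QuotientGroup.eq_one_iff c).2 hc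
      rw [this, mul_one]
      exact Subgroup.zpow_mem_zpowers _ _
  have hC'n : C'.Normal := by
    have h0 : (Subgroup.zpowers ((QuotientGroup.mk' C) x)).Normal := by
      refine ⟨fun y hy g => ?_⟩
      have hcomm : ∀ z ∈ Subgroup.zpowers ((QuotientGroup.mk' C) x), z ∈ Subgroup.center (P ⧸ C) := by
        intro z hz
        obtain ⟨k, rfl⟩ := Subgroup.mem_zpowers_iff.1 hz
        exact Subgroup.zpow_mem _ hxbZ k
      have := (Subgroup.mem_center_iff.1 (hcomm y hy)) g
      rw [this]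
      simpa using hy
    exact h0.comap _
  have hxcomm : ∀ c ∈ C, x * c = c * x := by
    intro c hc
    exact ((Subgroup.mem_centralizer_iff.1 hxD.2) c hc).symm
  have hxkcomm : ∀ (k : ℤ), ∀ c ∈ C, x ^ k * c = c * x ^ k := by
    intro k c hc
    exact (Commute.zpow_left (hxcomm c hc) k)
  have hC'mem : C' ∈ 𝒮 := by
    refine ⟨hC'n, ?_, ?_, ?_⟩
    · intro b hb
      exact (hmem b).2 ⟨0, b, hBC hb, by simp⟩
    · intro y hy
      obtain ⟨k, c, hc, rfl⟩ := (hmem y).1 hy
      exact A.mul_mem (A.zpow_mem hxD.1 k) (hCA hc)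
    · intro a ha b hb
      obtain ⟨k, c, hc, rfl⟩ := (hmem a).1 ha
      obtain ⟨l, d, hd, rfl⟩ := (hmem b).1 hb
      have h1 := hxkcomm l c hc
      have h2 := hxkcomm k d hd
      have h3 : x ^ k * x ^ l = x ^ l * x ^ k := by rw [← zpow_add, ← zpow_add, add_comm]
      have h4 := hCc c hc d hd
      calc x ^ k * c * (x ^ l * d) = x ^ k * (c * x ^ l) * d := by group
        _ = x ^ k * (x ^ l * c) * d := by rw [h1]
        _ = (x ^ k * x ^ l) * (c * d) := by group
        _ = (x ^ l * x ^ k) * (d * c) := by rw [h3, h4]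
        _ = x ^ l * (x ^ k * d) * c := by group
        _ = x ^ l * (d * x ^ k) * c := by rw [h2]
        _ = x ^ l * d * (x ^ k * c) := by group
  have hle : C ≤ C' := by
    intro c hc
    exact (hmem c).2 ⟨0, c, hc, by simp⟩
  have := hCmax.2 hC'mem hle
  apply hxC
  apply this
  exact (hmem x).2 ⟨1, 1, C.one_mem, by simp⟩

end Cfsg.Agent.S1894
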