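import Cfsg.Statements.S1896
import Mathlib
import Cfsg.Agent.Lib.H6Q8

set_option autoImplicit false
open Cfsg

namespace Cfsg.Agent.S1896

open Subgroup
open scoped commutatorElement

theorem count_le {Y : Type*} [Group Y] [Finite Y] (a g : Y) (m : ℕ) (hm : 0 < m)
    (hgen : ∀ y : Y, ∃ i j : ℤ, y = a ^ i * g ^ j) (ha : a ^ m = 1) (hg : g ^ m = 1) :
    Nat.card Y ≤ m ^ 2 := by
  have key : ∀ (t : Y), t ^ m = 1 → ∀ i : ℤ, ∃ k : Fin m, t ^ i = t ^ (k : ℕ) := by
    intro t ht i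
    have hm' : (0 : ℤ) < (m : ℤ) := by exact_mod_cast hm
    have h0 := Int.emod_nonneg i hm'.ne'
    have h1 := Int.emod_lt_of_pos i hm'
    refine ⟨⟨(i % (m : ℤ)).toNat, by omega⟩, ?_⟩
    show t ^ i = t ^ (i % (m : ℤ)).toNat
    rw [← zpow_natCast, Int.toNat_of_nonneg h0]
    exact zpow_eq_zpow_emod' i ht
  have hs : Function.Surjective (fun p : Fin m × Fin m => a ^ (p.1 : ℕ) * g ^ (p.2 : ℕ)) := by
    intro y
    obtain ⟨i, j, rfl⟩ := hgen y
    obtain ⟨k, hk⟩ := key a ha i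
    obtain ⟨l, hl⟩ := key g hg j
    exact ⟨(k, l), by simp only [hk, hl]⟩
  have := Nat.card_le_card_of_surjective _ hs
  simpa [Nat.card_prod, sq] using this

theorem no_inv_index_two {X : Type*} [Group X] [Finite X] (hX : IsPGroup 2 X) (a g : X)
    (hgen : ∀ x : X, ∃ i j : ℤ, x = a ^ i * g ^ j) {q : ℕ} [hq : Fact q.Prime] (hq2 : q ≠ 2)
    (σ : MulAut X) (hσ : orderOf σ = q)
    (M : Subgroup X) (hM : M.index = 2) (hinv : ∀ x, x ∈ M ↔ σ x ∈ M) : False := by
  classical
  haveI f2 : Fact (Nat.Prime 2) := ⟨Nat.prime_two⟩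
  set Φ := frattini X with hΦ
  haveI hMn : M.Normal := Subgroup.normal_of_index_eq_two hM
  have hΦM : Φ ≤ M := by
    have hco : IsCoatom M := by
      refine ⟨fun h => by rw [h, Subgroup.index_top] at hM; omega, fun K hK => ?_⟩
      have h1 := Subgroup.relIndex_mul_index hK.le
      rw [hM] at h1
      have h2 : K.index ∣ 2 := ⟨_, by rw [← h1, mul_comm]⟩
      rcases (Nat.dvd_prime Nat.prime_two).mp h2 with h3 | h3
      · exact Subgroup.index_eq_one.mp h3
      · rw [h3] at h1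
        have h4 : M.relIndex K = 1 := by omega
        exact absurd (Subgroup.relIndex_eq_one.mp h4) (not_le_of_gt hK)
    exact frattini_le_coatom hco
  -- the index of the Frattini subgroup
  have hsq : ∀ x : X, QuotientGroup.mk' Φ x ^ 2 = 1 := by
    intro x
    rw [← map_pow]
    exact (QuotientGroup.eq_one_iff _).mpr (Cfsg.Agent.Lib.H6PGroup.pow_mem_frattini hX x)
  have hidx : Φ.index ≤ 4 := by
    have h1 := count_le (QuotientGroup.mk' Φ a) (QuotientGroup.mk' Φ g) 2 (by norm_num)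
      (by
        intro y
        obtain ⟨x, rfl⟩ := QuotientGroup.mk'_surjective Φ y
        obtain ⟨i, j, rfl⟩ := hgen x
        exact ⟨i, j, by simp only [map_mul, map_zpow]⟩) (hsq a) (hsq g)
    have h2 : Φ.index = Nat.card (X ⧸ Φ) := rfl
    omega
  have hrel : Φ.relIndex M ≤ 2 := by
    have h1 := Subgroup.relIndex_mul_index hΦM
    rw [hM] at h1
    omega
  have hstar : ∀ u ∈ M, ∀ v ∈ M, u ∉ Φ → v ∉ Φ → u * v⁻¹ ∈ Φ := by
    intro u hu v hv hu' hv'
    have hr0 : Φ.relIndex M ≠ 0 := Subgroup.FiniteIndex.index_ne_zero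
    have hr1 : Φ.relIndex M ≠ 1 := by
      intro h
      exact hu' (Subgroup.relIndex_eq_one.mp h hu)
    have hr2 : (Φ.subgroupOf M).index = 2 := by
      show Φ.relIndex M = 2
      omega
    have h1 := Subgroup.mul_mem_iff_of_index_two hr2 (a := ⟨u, hu⟩) (b := (⟨v, hv⟩ : M)⁻¹)
    have h2 : ((⟨u, hu⟩ : M) * (⟨v, hv⟩ : M)⁻¹) ∈ Φ.subgroupOf M := by
      rw [h1]
      constructor
      · intro h
        exact absurd (Subgroup.mem_subgroupOf.mp h) hu'
      · intro h
        have h3 := Subgroup.mem_subgroupOf.mp h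
        have h4 : v⁻¹ ∈ Φ := h3
        exact absurd (by simpa using Φ.inv_mem h4) hv'
    exact Subgroup.mem_subgroupOf.mp h2
  have hchar : Φ.Characteristic := inferInstance
  have hΦσ : ∀ z, σ z ∈ Φ ↔ z ∈ Φ := by
    intro z
    have h3 : z ∈ Φ.comap (σ : X ≃* X).toMonoidHom ↔ z ∈ Φ := by rw [hchar.fixed σ]
    exact h3
  -- σ acts trivially on the quotient
  let τ : MulAut (X ⧸ Φ) := Cfsg.Agent.Lib.H6PGroup.frattiniAct X σ
  have hτ : ∀ x, τ (QuotientGroup.mk x) = QuotientGroup.mk (σ x) := fun x => rfl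
  have hτq : τ ^ q = 1 := by
    show (Cfsg.Agent.Lib.H6PGroup.frattiniAct X σ) ^ q = 1
    rw [← map_pow, ← hσ, pow_orderOf_eq_one, map_one]
  have hodd : Odd q := hq.out.odd_of_ne_two hq2
  have htriv : ∀ x : X, σ x * x⁻¹ ∈ Φ := by
    intro x
    by_contra hcon
    have hux : (σ x * x⁻¹) ∉ Φ := hcon
    by_cases hxM : x ∈ M
    · have hsx : σ x ∈ M := (hinv x).mp hxM
      by_cases hxΦ : x ∈ Φ
      · exact hcon (Φ.mul_mem ((hΦσ x).mpr hxΦ) (Φ.inv_mem hxΦ))
      · exact hcon (hstar _ hsx _ hxM (fun h => hxΦ ((hΦσ x).mp h)) hxΦ)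
    · have h1 : σ x ∉ M := fun h => hxM ((hinv x).mpr h)
      have h2 : σ (σ x) ∉ M := fun h => h1 ((hinv _).mpr h)
      have hu : σ x * x⁻¹ ∈ M := by
        have := (Subgroup.mul_mem_iff_of_index_two hM (a := σ x) (b := x⁻¹)).mpr
          (by
            constructor
            · intro h; exact absurd h h1
            · intro h; exact absurd (by simpa using M.inv_mem h) hxM)
        exact this
      have hv : σ (σ x) * x⁻¹ ∈ M := by
        have := (Subgroup.mul_mem_iff_of_index_two hM (a := σ (σ x)) (b := x⁻¹)).mpr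
          (by
            constructor
            · intro h; exact absurd h h2
            · intro h; exact absurd (by simpa using M.inv_mem h) hxM)
        exact this
      by_cases hvΦ : σ (σ x) * x⁻¹ ∈ Φ
      · -- the square of τ fixes the coset
        have hc : (τ ^ 2) (QuotientGroup.mk x) = QuotientGroup.mk x := by
          rw [pow_two]
          show τ (τ (QuotientGroup.mk x)) = _
          rw [hτ, hτ]
          have : (QuotientGroup.mk (σ (σ x)) : X ⧸ Φ) = QuotientGroup.mk x := by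
            rw [QuotientGroup.eq]
            have h5 := Φ.inv_mem hvΦ
            have h6 : (σ (σ x))⁻¹ * x = x⁻¹ * (x * (σ (σ x))⁻¹) * x := by group
            rw [h6]
            have h7 : x * (σ (σ x))⁻¹ = (σ (σ x) * x⁻¹)⁻¹ := by group
            rw [h7]
            exact (Subgroup.normal_of_characteristic Φ).conj_mem' _ h5 x
          exact this
        obtain ⟨k, hk⟩ := hodd
        have hck : ∀ l : ℕ, (τ ^ (2 * l)) (QuotientGroup.mk x) = QuotientGroup.mk x := by
          intro l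
          induction l with
          | zero => simp
          | succ l ih =>
            rw [mul_add, mul_one, pow_add]
            show (τ ^ (2 * l)) ((τ ^ 2) (QuotientGroup.mk x)) = _
            rw [hc, ih]
        have hfix : τ (QuotientGroup.mk x) = QuotientGroup.mk x := by
          have h8 : (τ ^ q) (QuotientGroup.mk x) = QuotientGroup.mk x := by rw [hτq]; rfl
          rw [hk, pow_succ'] at h8
          have h9 : τ ((τ ^ (2 * k)) (QuotientGroup.mk x)) = QuotientGroup.mk x := h8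
          rwa [hck] at h9
        rw [hτ] at hfix
        have h10 : (QuotientGroup.mk x : X ⧸ Φ) = QuotientGroup.mk (σ x) := hfix.symm
        rw [QuotientGroup.eq] at h10
        apply hcon
        have h11 : σ x * x⁻¹ = x * (x⁻¹ * σ x) * x⁻¹ := by group
        rw [h11]
        exact (Subgroup.normal_of_characteristic Φ).conj_mem _ h10 x
      · have h3 := hstar _ hu _ hv hcon hvΦ
        have h4 : σ x * x⁻¹ * (σ (σ x) * x⁻¹)⁻¹ = σ (x * (σ x)⁻¹) := by
          rw [map_mul, map_inv]; group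
        rw [h4, hΦσ] at h3
        apply hcon
        have h5 := Φ.inv_mem h3
        have h6 : (x * (σ x)⁻¹)⁻¹ = σ x * x⁻¹ := by group
        rwa [h6] at h5
  -- conclusion by the counting lemma
  have hker : Subgroup.zpowers σ ≤ (Cfsg.Agent.Lib.H6PGroup.frattiniAct X).ker := by
    rw [Subgroup.zpowers_le, MonoidHom.mem_ker]
    apply MulEquiv.ext
    intro y
    obtain ⟨x, rfl⟩ := QuotientGroup.mk'_surjective Φ y
    show τ (QuotientGroup.mk x) = QuotientGroup.mk x
    rw [hτ, eq_comm, QuotientGroup.eq]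
    have h11 : x⁻¹ * σ x = x⁻¹ * (σ x * x⁻¹) * x := by group
    rw [h11]
    exact (Subgroup.normal_of_characteristic Φ).conj_mem' _ (htriv x) x
  have hA : ∀ α ∈ Subgroup.zpowers σ, ∀ x : X, α x * x⁻¹ ∈ Φ := by
    intro α hα x
    have h1 := hker hα
    rw [MonoidHom.mem_ker] at h1
    have h2 : (Cfsg.Agent.Lib.H6PGroup.frattiniAct X α) (QuotientGroup.mk x) = QuotientGroup.mk x := by
      rw [h1]; rfl
    have h3 : (QuotientGroup.mk (α x) : X ⧸ Φ) = QuotientGroup.mk x := h2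
    rw [eq_comm, QuotientGroup.eq] at h3
    have h11 : α x * x⁻¹ = x * (x⁻¹ * α x) * x⁻¹ := by group
    rw [h11]
    exact (Subgroup.normal_of_characteristic Φ).conj_mem _ h3 x
  obtain ⟨n, hn⟩ := IsPGroup.iff_card.mp hX
  obtain ⟨r, hr⟩ := IsPGroup.iff_card.mp (hX.to_quotient Φ)
  have hdvd := Cfsg.Agent.Lib.H6PGroup.card_dvd_main hn (r := r) hr (Subgroup.zpowers σ) hA
  rw [Nat.card_zpowers, hσ] at hdvd
  have := (Nat.prime_dvd_prime_iff_eq hq.out Nat.prime_two).mp (hq.out.dvd_of_dvd_pow hdvd)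
  exact hq2 this

theorem ab_lemma {A : Type*} [CommGroup A] [Finite A] (hA : IsPGroup 2 A) (a g : A)
    (hgen : ∀ x : A, ∃ i j : ℤ, x = a ^ i * g ^ j) (τ : MulAut A)
    (hno : ∀ M : Subgroup A, M.index = 2 → (∀ x, x ∈ M ↔ τ x ∈ M) → False) :
    ∃ n : ℕ, orderOf a = 2 ^ n ∧ orderOf g = 2 ^ n ∧ (∀ x : A, x ^ (2 ^ n) = 1) ∧
      Subgroup.zpowers a ⊓ Subgroup.zpowers g = ⊥ := by
  classical
  haveI f2 : Fact (Nat.Prime 2) := ⟨Nat.prime_two⟩
  have hex : ∃ n : ℕ, ∀ x : A, x ^ (2 ^ n) = 1 := by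
    obtain ⟨n, hn⟩ := IsPGroup.iff_card.mp hA
    exact ⟨n, fun x => by rw [← hn]; exact pow_card_eq_one'⟩
  obtain ⟨hfind, hmin⟩ := And.intro (Nat.find_spec hex) (fun m => Nat.find_min hex (m := m))
  generalize Nat.find hex = n at hfind hmin
  rcases n with _ | m
  · have h1 : ∀ x : A, x = 1 := fun x => by simpa using hfind x
    refine ⟨0, ?_, ?_, hfind, ?_⟩
    · rw [h1 a]; simp
    · rw [h1 g]; simp
    · rw [h1 a]; simp
  have hnm : ¬ ∀ x : A, x ^ (2 ^ m) = 1 := hmin m (Nat.lt_succ_self m)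
  let φ : A →* A := powMonoidHom (2 ^ m)
  have hφ : ∀ x, φ x = x ^ (2 ^ m) := fun x => rfl
  have hφ2 : ∀ x, (φ x) ^ 2 = 1 := by
    intro x
    rw [hφ, ← pow_mul, ← pow_succ]
    exact hfind x
  have hz : ∀ t : A, t ^ 2 = 1 → ∀ j : ℤ, t ^ j = 1 ∨ t ^ j = t := by
    intro t ht j
    rcases Int.even_or_odd' j with ⟨k, rfl | rfl⟩
    · left
      rw [zpow_mul]
      have : t ^ (2 : ℤ) = 1 := by exact_mod_cast ht
      rw [this, one_zpow]
    · right
      rw [zpow_add, zpow_mul]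
      have : t ^ (2 : ℤ) = 1 := by exact_mod_cast ht
      rw [this, one_zpow]; simp
  have hbad : ∀ t : A, t ^ 2 = 1 → (∀ x, φ x = 1 ∨ φ x = t) → False := by
    intro t ht hall
    have hne : φ.ker ≠ ⊤ := by
      intro h
      apply hnm
      intro x
      have : x ∈ φ.ker := h ▸ Subgroup.mem_top x
      exact this
    have hle : φ.range ≤ Subgroup.zpowers t := by
      rintro _ ⟨x, rfl⟩
      rcases hall x with h | h
      · rw [h]; exact Subgroup.one_mem _
      · rw [h]; exact Subgroup.mem_zpowers t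
    have h1 : φ.ker.index ≤ 2 := by
      rw [Subgroup.index_ker]
      have h2 := Subgroup.card_le_of_le hle
      rw [Nat.card_zpowers] at h2
      exact h2.trans (orderOf_le_of_pow_eq_one (by norm_num) ht)
    have h2 : φ.ker.index ≠ 0 := Subgroup.FiniteIndex.index_ne_zero
    have h3 : φ.ker.index ≠ 1 := fun h => hne (Subgroup.index_eq_one.mp h)
    refine hno φ.ker (by omega) (fun x => ?_)
    rw [MonoidHom.mem_ker, MonoidHom.mem_ker, hφ, hφ, ← map_pow]
    exact (map_eq_one_iff τ τ.injective).symm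
  have hφgen : ∀ x, ∃ i j : ℤ, φ x = (φ a) ^ i * (φ g) ^ j := by
    intro x
    obtain ⟨i, j, rfl⟩ := hgen x
    exact ⟨i, j, by simp only [map_mul, map_zpow]⟩
  have h1 : φ a ≠ 1 := by
    intro h
    refine hbad (φ g) (hφ2 g) (fun x => ?_)
    obtain ⟨i, j, hij⟩ := hφgen x
    rw [hij, h, one_zpow, one_mul]
    exact hz _ (hφ2 g) j
  have h2 : φ g ≠ 1 := by
    intro h
    refine hbad (φ a) (hφ2 a) (fun x => ?_)
    obtain ⟨i, j, hij⟩ := hφgen x
    rw [hij, h, one_zpow, mul_one]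
    exact hz _ (hφ2 a) i
  have h3 : φ a ≠ φ g := by
    intro h
    refine hbad (φ a) (hφ2 a) (fun x => ?_)
    obtain ⟨i, j, hij⟩ := hφgen x
    rw [hij, ← h, ← zpow_add]
    exact hz _ (hφ2 a) (i + j)
  have hexp2 : ∀ x : A, x ^ 2 ^ (m + 1) = 1 := hfind
  have oa : orderOf a = 2 ^ (m + 1) := orderOf_eq_prime_pow h1 (hexp2 a)
  have og : orderOf g = 2 ^ (m + 1) := orderOf_eq_prime_pow h2 (hexp2 g)
  have huniq : ∀ b : A, orderOf b = 2 ^ (m + 1) → ∀ y ∈ Subgroup.zpowers b, y ^ 2 = 1 → y ≠ 1 →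
      y = b ^ (2 ^ m) := by
    intro b hb y hy hy2 hy1
    obtain ⟨i, rfl⟩ := Subgroup.mem_zpowers_iff.mp hy
    have h4 : b ^ (i * 2) = 1 := by
      rw [zpow_mul]
      exact_mod_cast hy2
    rw [← orderOf_dvd_iff_zpow_eq_one, hb] at h4
    have h5 : ((2 : ℤ) ^ m) ∣ i := by
      have h6 : ((2 : ℤ) ^ m * 2) ∣ i * 2 := by
        have : (((2 ^ (m + 1) : ℕ)) : ℤ) = (2 : ℤ) ^ m * 2 := by push_cast; ring
        rwa [this] at h4
      exact Int.dvd_of_mul_dvd_mul_right (by norm_num) h6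
    obtain ⟨k, rfl⟩ := h5
    have h7 : b ^ ((2 : ℤ) ^ m * k) = (b ^ (2 ^ m)) ^ k := by
      rw [zpow_mul]; norm_cast
    rw [h7] at hy1 hy2 ⊢
    have h8 : (b ^ 2 ^ m) ^ 2 = 1 := by
      rw [← pow_mul, ← pow_succ, ← hb]; exact pow_orderOf_eq_one b
    rcases hz _ h8 k with h9 | h9
    · exact absurd h9 hy1
    · exact h9
  refine ⟨m + 1, oa, og, hfind, ?_⟩
  rw [eq_bot_iff]
  intro x hx
  rw [Subgroup.mem_bot]
  by_contra hx1
  obtain ⟨s, hs⟩ := IsPGroup.iff_orderOf.mp hA x
  have hs0 : s ≠ 0 := by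
    rintro rfl
    rw [pow_zero, orderOf_eq_one_iff] at hs
    exact hx1 hs
  obtain ⟨s, rfl⟩ := Nat.exists_eq_succ_of_ne_zero hs0
  set y := x ^ 2 ^ s with hy
  have hy2 : y ^ 2 = 1 := by
    rw [hy, ← pow_mul, ← pow_succ, ← hs]; exact pow_orderOf_eq_one x
  have hy1 : y ≠ 1 := by
    apply pow_ne_one_of_lt_orderOf (by positivity)
    rw [hs]
    exact Nat.pow_lt_pow_succ (by norm_num)
  have hya : y ∈ Subgroup.zpowers a := Subgroup.pow_mem _ hx.1 _
  have hyg : y ∈ Subgroup.zpowers g := Subgroup.pow_mem _ hx.2 _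
  have h4 := huniq a oa y hya hy2 hy1
  have h5 := huniq g og y hyg hy2 hy1
  exact h3 (by rw [hφ, hφ, ← h4, ← h5])

theorem iso_of {A : Type*} [CommGroup A] [Finite A] (a g : A) (n : ℕ) (ha : orderOf a = 2 ^ n)
    (hg : orderOf g = 2 ^ n) (hinf : Subgroup.zpowers a ⊓ Subgroup.zpowers g = ⊥)
    (hgen : ∀ x : A, ∃ i j : ℤ, x = a ^ i * g ^ j) :
    Nonempty (A ≃* Multiplicative (ZMod (2 ^ n)) × Multiplicative (ZMod (2 ^ n))) := by
  haveI : NeZero (2 ^ n) := ⟨by positivity⟩
  have hc : Nat.card (Multiplicative (ZMod (2 ^ n))) = 2 ^ n := by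
    show Nat.card (ZMod (2 ^ n)) = 2 ^ n
    exact Nat.card_zmod _
  let ea : Multiplicative (ZMod (2 ^ n)) ≃* Subgroup.zpowers a :=
    mulEquivOfCyclicCardEq (by rw [hc, Nat.card_zpowers, ha])
  let eg : Multiplicative (ZMod (2 ^ n)) ≃* Subgroup.zpowers g :=
    mulEquivOfCyclicCardEq (by rw [hc, Nat.card_zpowers, hg])
  let f : Subgroup.zpowers a × Subgroup.zpowers g →* A :=
    MonoidHom.coprod (Subgroup.zpowers a).subtype (Subgroup.zpowers g).subtype
  have hf : Function.Bijective f := by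
    constructor
    · rw [injective_iff_map_eq_one]
      rintro ⟨⟨x, hx⟩, ⟨y, hy⟩⟩ h
      have h1 : x * y = 1 := h
      have h2 : x = y⁻¹ := eq_inv_of_mul_eq_one_left h1
      have h3 : x ∈ Subgroup.zpowers a ⊓ Subgroup.zpowers g :=
        ⟨hx, by rw [h2]; exact Subgroup.inv_mem _ hy⟩
      rw [hinf, Subgroup.mem_bot] at h3
      subst h3
      have h4 : y = 1 := by simpa using h1
      subst h4
      rfl
    · intro x
      obtain ⟨i, j, rfl⟩ := hgen x
      refine ⟨(⟨a ^ i, Subgroup.zpow_mem _ (Subgroup.mem_zpowers a) i⟩,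
        ⟨g ^ j, Subgroup.zpow_mem _ (Subgroup.mem_zpowers g) j⟩), rfl⟩
  exact ⟨((ea.prodCongr eg).trans (MulEquiv.ofBijective f hf)).symm⟩

theorem class2_pow {Y : Type*} [Group Y] (z : Y) (hz : z ^ 2 = 1)
    (h : ∀ x y : Y, ⁅x, y⁆ = 1 ∨ ⁅x, y⁆ = z) :
    ∀ n : ℕ, ∀ x y : Y, (x * y) ^ (2 ^ (n + 2)) = x ^ (2 ^ (n + 2)) * y ^ (2 ^ (n + 2)) := by
  have hzz : z * z = 1 := by rw [← pow_two]; exact hz
  have hcz : ∀ x, x * z = z * x := by
    intro x
    rcases h x z with h1 | h1
    · exact commutatorElement_eq_one_iff_mul_comm.mp h1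
    · have h2 : x * z * x⁻¹ * z⁻¹ = z := h1
      have h3 : x * z * x⁻¹ = z * z := by
        have := congrArg (· * z) h2
        simpa [mul_assoc] using this
      rw [hzz] at h3
      have h4 : z = 1 := by
        have h5 : x * z = x := by
          have : x * z * x⁻¹ * x = 1 * x := by rw [h3]
          simpa using this
        simpa using h5
      rw [h4]; simp
  have hrel : ∀ x y : Y, x * y = y * x ∨ x * y = z * (y * x) := by
    intro x y
    rcases h x y with h1 | h1
    · exact Or.inl (commutatorElement_eq_one_iff_mul_comm.mp h1)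
    · right
      have h2 : x * y * x⁻¹ * y⁻¹ = z := h1
      rw [← h2]; group
  have hsq : ∀ x y : Y, x ^ 2 * y = y * x ^ 2 := by
    intro x y
    rw [pow_two]
    rcases hrel x y with h1 | h1
    · rw [mul_assoc, h1, ← mul_assoc, h1, mul_assoc]
    · calc x * x * y = x * (x * y) := by group
        _ = x * (z * (y * x)) := by rw [h1]
        _ = z * (x * y) * x := by rw [← mul_assoc x z, hcz]; group
        _ = z * (z * (y * x)) * x := by rw [h1]
        _ = (z * z) * (y * x) * x := by group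
        _ = y * (x * x) := by rw [hzz]; group
  have hcen : ∀ (n : ℕ) (x y : Y), x ^ (2 ^ (n + 1)) * y = y * x ^ (2 ^ (n + 1)) := by
    intro n x y
    have h1 : x ^ (2 ^ (n + 1)) = (x ^ 2) ^ (2 ^ n) := by rw [← pow_mul]; congr 1; ring
    rw [h1]
    exact ((show Commute (x ^ 2) y from hsq x y).pow_left _)
  have hfour : ∀ x y : Y, (x * y) ^ 4 = x ^ 4 * y ^ 4 := by
    intro x y
    have h0 : (x * y) ^ 2 = x ^ 2 * y ^ 2 ∨ (x * y) ^ 2 = z * (x ^ 2 * y ^ 2) := by
      rcases hrel y x with h1 | h1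
      · left
        calc (x * y) ^ 2 = x * (y * x) * y := by simp only [pow_two, mul_assoc]
          _ = x * (x * y) * y := by rw [h1]
          _ = x ^ 2 * y ^ 2 := by simp only [pow_two, mul_assoc]
      · right
        calc (x * y) ^ 2 = x * (y * x) * y := by simp only [pow_two, mul_assoc]
          _ = x * (z * (x * y)) * y := by rw [h1]
          _ = (x * z) * (x * y) * y := by simp only [mul_assoc]
          _ = z * x * (x * y) * y := by rw [hcz]
          _ = z * (x ^ 2 * y ^ 2) := by simp only [pow_two, mul_assoc]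
    have h2 : (x ^ 2 * y ^ 2) ^ 2 = x ^ 4 * y ^ 4 := by
      have h3 := hsq y (x ^ 2)
      have h44 : ∀ w : Y, w ^ 4 = w ^ 2 * w ^ 2 := fun w => by rw [← pow_add]
      calc (x ^ 2 * y ^ 2) ^ 2 = x ^ 2 * (y ^ 2 * x ^ 2) * y ^ 2 := by
            rw [pow_two (x ^ 2 * y ^ 2)]; simp only [mul_assoc]
        _ = x ^ 2 * (x ^ 2 * y ^ 2) * y ^ 2 := by rw [h3]
        _ = x ^ 4 * y ^ 4 := by rw [h44, h44]; simp only [mul_assoc]
    have h4 : (x * y) ^ 4 = ((x * y) ^ 2) ^ 2 := by rw [← pow_mul]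
    rw [h4]
    rcases h0 with h5 | h5
    · rw [h5, h2]
    · rw [h5]
      have h6 : ∀ w : Y, (z * w) ^ 2 = w ^ 2 := by
        intro w
        calc (z * w) ^ 2 = z * (w * z) * w := by simp only [pow_two, mul_assoc]
          _ = z * (z * w) * w := by rw [hcz]
          _ = (z * z) * w ^ 2 := by simp only [pow_two, mul_assoc]
          _ = w ^ 2 := by rw [hzz, one_mul]
      rw [h6, h2]
  intro n
  induction n with
  | zero =>
    intro x y
    simpa using hfour x y
  | succ n ih =>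
    intro x y
    have h1 : ∀ w : Y, w ^ (2 ^ (n + 1 + 2)) = (w ^ (2 ^ (n + 2))) ^ 2 := by
      intro w; rw [← pow_mul]; rfl
    rw [h1, h1, h1, ih]
    have h3 := hcen (n + 1) y (x ^ (2 ^ (n + 2)))
    have h4 : y ^ (2 ^ (n + 2)) * x ^ (2 ^ (n + 2)) = x ^ (2 ^ (n + 2)) * y ^ (2 ^ (n + 2)) := h3
    calc (x ^ (2 ^ (n + 2)) * y ^ (2 ^ (n + 2))) ^ 2
        = x ^ (2 ^ (n + 2)) * (y ^ (2 ^ (n + 2)) * x ^ (2 ^ (n + 2))) * y ^ (2 ^ (n + 2)) := by
          rw [pow_two (x ^ (2 ^ (n + 2)) * y ^ (2 ^ (n + 2)))]; simp only [mul_assoc]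
      _ = x ^ (2 ^ (n + 2)) * (x ^ (2 ^ (n + 2)) * y ^ (2 ^ (n + 2))) * y ^ (2 ^ (n + 2)) := by rw [h4]
      _ = (x ^ (2 ^ (n + 2))) ^ 2 * (y ^ (2 ^ (n + 2))) ^ 2 := by
          rw [pow_two (x ^ (2 ^ (n + 2))), pow_two (y ^ (2 ^ (n + 2)))]; simp only [mul_assoc]

theorem nonab_contra {X : Type*} [Group X] [Finite X] (hX : IsPGroup 2 X) (a g : X)
    (hgen : ∀ x : X, ∃ i j : ℤ, x = a ^ i * g ^ j) (σ : MulAut X)
    (hno : ∀ M : Subgroup X, M.index = 2 → (∀ x, x ∈ M ↔ σ x ∈ M) → False)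
    (N : Subgroup X) (hNn : N.Normal) (hNc : IsCyclic N) (hQc : IsCyclic (X ⧸ N))
    (hne : commutator X ≠ ⊥) (n : ℕ)
    (hexp : ∀ x : X, x ^ (2 ^ (n + 2)) ∈ commutator X)
    (hidx : (commutator X).index = (2 ^ (n + 2)) ^ 2) : False := by
  classical
  haveI f2 : Fact (Nat.Prime 2) := ⟨Nat.prime_two⟩
  set D := commutator X with hD
  have hDN : D ≤ N := by
    rw [hD, commutator_def, Subgroup.commutator_le]
    intro x _ y _
    letI : CommGroup (X ⧸ N) := IsCyclic.commGroup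
    have h1 : (QuotientGroup.mk' N) ⁅x, y⁆ = 1 := by
      rw [map_commutatorElement, commutatorElement_eq_one_iff_mul_comm]
      exact mul_comm _ _
    exact (QuotientGroup.eq_one_iff _).mp h1
  haveI hDc : IsCyclic D := isCyclic_of_injective (Subgroup.inclusion hDN) (Subgroup.inclusion_injective hDN)
  obtain ⟨⟨d, hdD⟩, hdgen⟩ := hDc.exists_generator
  have hdk : ∀ x ∈ D, ∃ k : ℤ, x = d ^ k := by
    intro x hx
    obtain ⟨k, hk⟩ := Subgroup.mem_zpowers_iff.mp (hdgen ⟨x, hx⟩)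
    refine ⟨k, ?_⟩
    have := congrArg Subtype.val hk
    simpa using this.symm
  have hd1 : d ≠ 1 := by
    rintro rfl
    apply hne
    rw [eq_bot_iff]
    intro x hx
    obtain ⟨k, rfl⟩ := hdk x hx
    simp
  set E := Subgroup.zpowers (d ^ 2) with hE
  have hDchar : D.Characteristic := inferInstance
  have hαE : ∀ α : MulAut X, ∀ e ∈ E, α e ∈ E := by
    intro α e he
    have h1 : α d ∈ D := by
      have h3 : d ∈ D.comap (α : X ≃* X).toMonoidHom := by rw [hDchar.fixed α]; exact hdD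
      exact h3
    obtain ⟨k, hk⟩ := hdk _ h1
    obtain ⟨l, rfl⟩ := Subgroup.mem_zpowers_iff.mp he
    refine Subgroup.mem_zpowers_iff.mpr ⟨k * l, ?_⟩
    rw [map_zpow, map_pow, hk, zpow_mul]
    congr 1
    rw [← zpow_natCast, ← zpow_natCast, ← zpow_mul, ← zpow_mul, mul_comm]
    try rfl
  haveI hEn : E.Normal := ⟨fun e he x => hαE (MulAut.conj x) e he⟩
  have hdE : d ∉ E := by
    intro h
    obtain ⟨k, hk⟩ := Subgroup.mem_zpowers_iff.mp h
    have h1 : d ^ (2 * k - 1) = 1 := by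
      rw [zpow_sub, zpow_one, zpow_mul]
      have : (d ^ (2 : ℤ)) ^ k = d := by exact_mod_cast hk
      rw [this, mul_inv_cancel]
    rw [← orderOf_dvd_iff_zpow_eq_one] at h1
    obtain ⟨s, hs⟩ := IsPGroup.iff_orderOf.mp hX d
    have hs0 : s ≠ 0 := by
      rintro rfl
      rw [pow_zero, orderOf_eq_one_iff] at hs
      exact hd1 hs
    have h2 : (2 : ℤ) ∣ (orderOf d : ℤ) := by
      rw [hs]
      obtain ⟨s', rfl⟩ := Nat.exists_eq_succ_of_ne_zero hs0
      refine ⟨(2 ^ s' : ℤ), ?_⟩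
      push_cast
      rw [pow_succ]
      ring
    have h3 := h2.trans h1
    omega
  have hED : E ≤ D := by
    rw [hE, Subgroup.zpowers_le]
    exact D.pow_mem hdD 2
  let π := QuotientGroup.mk' E
  have hπs : Function.Surjective π := QuotientGroup.mk'_surjective E
  set z : X ⧸ E := π d with hz
  have hz2 : z ^ 2 = 1 := by
    rw [hz, ← map_pow]
    exact (QuotientGroup.eq_one_iff _).mpr (Subgroup.mem_zpowers _)
  have hzk : ∀ k : ℤ, z ^ k = 1 ∨ z ^ k = z := by
    intro j
    rcases Int.even_or_odd' j with ⟨k, rfl | rfl⟩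
    · left
      rw [zpow_mul]
      have : z ^ (2 : ℤ) = 1 := by exact_mod_cast hz2
      rw [this, one_zpow]
    · right
      rw [zpow_add, zpow_mul]
      have : z ^ (2 : ℤ) = 1 := by exact_mod_cast hz2
      rw [this, one_zpow]; simp
  have hDz : ∀ x ∈ D, π x = 1 ∨ π x = z := by
    intro x hx
    obtain ⟨k, rfl⟩ := hdk x hx
    rw [map_zpow]
    exact hzk k
  have hcomm : ∀ x y : X ⧸ E, ⁅x, y⁆ = 1 ∨ ⁅x, y⁆ = z := by
    intro x y
    obtain ⟨x, rfl⟩ := hπs x
    obtain ⟨y, rfl⟩ := hπs y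
    rw [← map_commutatorElement]
    exact hDz _ (Subgroup.commutator_mem_commutator (Subgroup.mem_top x) (Subgroup.mem_top y))
  have hpow := class2_pow z hz2 hcomm n
  let φ : (X ⧸ E) →* (X ⧸ E) := MonoidHom.mk' (fun y => y ^ (2 ^ (n + 2))) hpow
  have hφ : ∀ x : X, φ (π x) = π (x ^ (2 ^ (n + 2))) := fun x => by
    rw [map_pow]; rfl
  let M : Subgroup X := φ.ker.comap π
  have hMmem : ∀ x, x ∈ M ↔ x ^ (2 ^ (n + 2)) ∈ E := by
    intro x
    show φ (π x) = 1 ↔ _
    rw [hφ]
    exact QuotientGroup.eq_one_iff _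
  have hMtop : M = ⊤ := by
    by_contra hne'
    have hle : φ.range ≤ Subgroup.zpowers z := by
      rintro _ ⟨y, rfl⟩
      obtain ⟨x, rfl⟩ := hπs y
      rw [hφ]
      rcases hDz _ (hexp x) with h | h
      · rw [h]; exact Subgroup.one_mem _
      · rw [h]; exact Subgroup.mem_zpowers z
    have h1 : M.index ≤ 2 := by
      show (φ.ker.comap π).index ≤ 2
      rw [Subgroup.index_comap_of_surjective _ hπs, Subgroup.index_ker]
      have h2 := Subgroup.card_le_of_le hle
      rw [Nat.card_zpowers] at h2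
      exact h2.trans (orderOf_le_of_pow_eq_one (by norm_num) hz2)
    have h2 : M.index ≠ 0 := Subgroup.FiniteIndex.index_ne_zero
    have h3 : M.index ≠ 1 := fun h => hne' (Subgroup.index_eq_one.mp h)
    refine hno M (by omega) (fun x => ?_)
    rw [hMmem, hMmem, ← map_pow]
    constructor
    · exact hαE σ _
    · intro h
      have := hαE σ⁻¹ _ h
      simpa using this
  have hall : ∀ x : X, π (x ^ (2 ^ (n + 2))) = 1 := by
    intro x
    refine (QuotientGroup.eq_one_iff _).mpr ((hMmem x).mp ?_)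
    rw [hMtop]; exact Subgroup.mem_top x
  have hcard := count_le (π a) (π g) (2 ^ (n + 2)) (by positivity)
    (by
      intro y
      obtain ⟨x, rfl⟩ := hπs y
      obtain ⟨i, j, rfl⟩ := hgen x
      exact ⟨i, j, by simp only [map_mul, map_zpow]⟩)
    (by rw [← map_pow]; exact hall a) (by rw [← map_pow]; exact hall g)
  have h1 : E.index ≤ (2 ^ (n + 2)) ^ 2 := hcard
  have h2 := Subgroup.relIndex_mul_index hED
  rw [hidx] at h2
  have h3 : E.relIndex D ≠ 1 := fun h => hdE (Subgroup.relIndex_eq_one.mp h hdD)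
  have h4 : E.index ≠ 0 := Subgroup.FiniteIndex.index_ne_zero
  have h5 : E.relIndex D ≠ 0 := by
    intro h
    rw [h, zero_mul] at h2
    exact h4 h2.symm
  have h6 : 0 < ((2 : ℕ) ^ (n + 2)) ^ 2 := by positivity
  have h7 : 2 ≤ E.relIndex D := by omega
  nlinarith

/-- A finite metacyclic 2-group whose automorphism group is not a 2-group is isomorphic to the quaternion group of order 8 or to a homocyclic abelian group Z_{2^n} × Z_{2^n}. -/
theorem result {X : Type*} [Group X] [Finite X] (hX : IsPGroup 2 X)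
    (hm : Cfsg.IsMetacyclic X) (hA : ¬ IsPGroup 2 (MulAut X)) :
    Nonempty (X ≃* QuaternionGroup 2) ∨
      ∃ n : ℕ, Nonempty (X ≃* Multiplicative (ZMod (2 ^ n)) × Multiplicative (ZMod (2 ^ n))) := by
  classical
  haveI f2 : Fact (Nat.Prime 2) := ⟨Nat.prime_two⟩
  obtain ⟨N, hNn, hNc, hQc⟩ := hm
  obtain ⟨⟨a, ha⟩, hagen⟩ := hNc.exists_generator
  obtain ⟨gbar, hggen⟩ := hQc.exists_generator
  obtain ⟨g, rfl⟩ := QuotientGroup.mk'_surjective N gbar
  have hgen : ∀ x : X, ∃ i j : ℤ, x = a ^ i * g ^ j := by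
    intro x
    obtain ⟨j, hj⟩ := Subgroup.mem_zpowers_iff.mp (hggen (QuotientGroup.mk' N x))
    have h1 : x * (g ^ j)⁻¹ ∈ N := by
      have h0 : QuotientGroup.mk' N (g ^ j) = QuotientGroup.mk' N x := by
        rw [map_zpow]; exact hj
      have h2 : QuotientGroup.mk' N (x * (g ^ j)⁻¹) = 1 := by
        rw [map_mul, map_inv, h0, mul_inv_cancel]
      exact (QuotientGroup.eq_one_iff _).mp h2
    obtain ⟨i, hi⟩ := Subgroup.mem_zpowers_iff.mp (hagen ⟨_, h1⟩)
    refine ⟨i, j, ?_⟩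
    have h2 : a ^ i = x * (g ^ j)⁻¹ := by
      have := congrArg Subtype.val hi
      simpa using this
    rw [h2]; group
  haveI hfinA : Finite (MulAut X) :=
    Finite.of_injective (fun α : MulAut X => (α : X → X)) DFunLike.coe_injective
  obtain ⟨r, hr, hr2, hrd⟩ : ∃ r : ℕ, r.Prime ∧ r ≠ 2 ∧ r ∣ Nat.card (MulAut X) := by
    by_contra hcon
    push Not at hcon
    apply hA
    have hne : Nat.card (MulAut X) ≠ 0 := Nat.card_pos.ne'
    have := Nat.eq_prime_pow_of_unique_prime_dvd hne (p := 2) (fun {d} hd hdvd => by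
      by_contra h2
      exact hcon d hd h2 hdvd)
    exact IsPGroup.of_card this
  haveI fr : Fact r.Prime := ⟨hr⟩
  obtain ⟨σ, hσ⟩ := exists_prime_orderOf_dvd_card' (G := MulAut X) r hrd
  have hno := no_inv_index_two hX a g hgen hr2 σ hσ
  by_cases hab : ∀ x y : X, x * y = y * x
  · right
    letI : CommGroup X := { ‹Group X› with mul_comm := hab }
    obtain ⟨n, h1, h2, h3, h4⟩ := ab_lemma hX a g hgen σ hno
    exact ⟨n, iso_of a g n h1 h2 h4 hgen⟩
  · left
    have hna : ¬ IsMulCommutative X := by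
      intro h
      exact hab (fun x y => h.is_comm.comm x y)
    let τ : MulAut (Abelianization X) := MulEquiv.abelianizationCongr σ
    have hτ : ∀ x, τ (Abelianization.of x) = Abelianization.of (σ x) := fun x => rfl
    let π : X →* Abelianization X := Abelianization.of
    have hπs : Function.Surjective π := QuotientGroup.mk'_surjective _
    have hAb : IsPGroup 2 (Abelianization X) := hX.to_quotient _
    have hgenA : ∀ x : Abelianization X, ∃ i j : ℤ, x = (π a) ^ i * (π g) ^ j := by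
      intro y
      obtain ⟨x, rfl⟩ := hπs y
      obtain ⟨i, j, rfl⟩ := hgen x
      exact ⟨i, j, by simp only [map_mul, map_zpow]⟩
    have hnoA : ∀ M : Subgroup (Abelianization X), M.index = 2 → (∀ x, x ∈ M ↔ τ x ∈ M) → False := by
      intro M hM hinv
      refine hno (M.comap π) (by rw [Subgroup.index_comap_of_surjective _ hπs]; exact hM) (fun x => ?_)
      exact hinv (π x)
    obtain ⟨n, h1, h2, h3, h4⟩ := ab_lemma hAb (π a) (π g) hgenA τ hnoA
    obtain ⟨e⟩ := iso_of (π a) (π g) n h1 h2 h4 hgenA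
    haveI : NeZero (2 ^ n) := ⟨by positivity⟩
    have hcard : Nat.card (Abelianization X) = (2 ^ n) ^ 2 := by
      rw [Nat.card_congr e.toEquiv, Nat.card_prod, sq]
      show Nat.card (ZMod (2 ^ n)) * Nat.card (ZMod (2 ^ n)) = _
      rw [Nat.card_zmod]
    have hidx : (commutator X).index = (2 ^ n) ^ 2 := hcard
    have hne : commutator X ≠ ⊥ := by
      intro h
      apply hab
      intro x y
      have h5 : ⁅x, y⁆ ∈ commutator X :=
        Subgroup.commutator_mem_commutator (Subgroup.mem_top x) (Subgroup.mem_top y)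
      rw [h, Subgroup.mem_bot] at h5
      exact commutatorElement_eq_one_iff_mul_comm.mp h5
    have hexp : ∀ x : X, x ^ (2 ^ n) ∈ commutator X := by
      intro x
      have h5 := h3 (π x)
      rw [← map_pow] at h5
      exact (QuotientGroup.eq_one_iff _).mp h5
    rcases n with _ | _ | n
    · exfalso
      have htop : commutator X = ⊤ := by
        apply Subgroup.index_eq_one.mp
        simpa using hidx
      haveI hnil : Group.IsNilpotent X := hX.isNilpotent
      have := Cfsg.Agent.Lib.H6Q8.bot_of_le_comm (⊤ : Subgroup X) (by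
        have h5 : (⊤ : Subgroup X) = ⁅(⊤ : Subgroup X), ⊤⁆ := by
          rw [← commutator_def, htop]
        exact h5.le)
      apply hne
      rw [htop, this]
    · exact Cfsg.Agent.Lib.H6Q8.main hX hna (by simpa using hidx) hA
    · exact (nonab_contra hX a g hgen σ hno N hNn hNc hQc hne n hexp hidx).elim

end Cfsg.Agent.S1896
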