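import Cfsg.Statements.S1898
-- import your own Cfsg.Agent.* helpers here

set_option autoImplicit false
open Cfsg

namespace Cfsg.Agent.S1898

/-- Let X be a finite 2-group whose derived subgroup is elementary abelian and central. Then the subgroup generated by the elements of order dividing 4 has exponent dividing 4, and every automorphism of X fixing each element of order dividing 4 has 2-power order. -/
theorem result {X : Type*} [Group X] [Finite X] (hX : IsPGroup 2 X)
    (hel : Cfsg.IsElementaryAbelian 2 (commutator X)) (hcen : commutator X ≤ Subgroup.center X) :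
    (∀ x ∈ Subgroup.closure {g : X | g ^ 4 = 1}, x ^ 4 = 1) ∧
      ∀ φ : MulAut X, (∀ g : X, g ^ 4 = 1 → φ g = g) → ∃ k : ℕ, φ ^ (2 ^ k) = 1 := by
  classical
  have hc : ∀ x y : X, x * y * x⁻¹ * y⁻¹ ∈ commutator X := by
    intro x y
    have := Subgroup.commutator_mem_commutator (Subgroup.mem_top x) (Subgroup.mem_top y)
    rw [commutatorElement_def] at this
    rw [commutator_def]
    exact this
  have hcc : ∀ x y z : X, z * (x * y * x⁻¹ * y⁻¹) = (x * y * x⁻¹ * y⁻¹) * z := by
    intro x y z
    exact (Subgroup.mem_center_iff.1 (hcen (hc x y))) z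
  have hc2 : ∀ x y : X, (x * y * x⁻¹ * y⁻¹) ^ 2 = 1 := fun x y => hel.2 _ (hc x y)
  -- squares are central
  have hsqc : ∀ y x : X, x * y ^ 2 = y ^ 2 * x := by
    intro y x
    set c := y * x * y⁻¹ * x⁻¹ with hcdef
    have h1 : y * x = c * x * y := by rw [hcdef]; group
    have hcz := hcc y x
    have h2 : y ^ 2 * x = c ^ 2 * x * y ^ 2 := by
      calc y ^ 2 * x = y * (y * x) := by rw [pow_two, mul_assoc]
        _ = y * (c * x * y) := by rw [h1]
        _ = (y * c) * x * y := by group
        _ = (c * y) * x * y := by rw [hcz y]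
        _ = c * (y * x) * y := by group
        _ = c * (c * x * y) * y := by rw [h1]
        _ = c ^ 2 * x * y ^ 2 := by rw [pow_two, pow_two]; group
    rw [h2, hc2 y x, one_mul]
  -- the formula for the square of a product
  have hprod2 : ∀ x y : X, (x * y) ^ 2 = (y * x * y⁻¹ * x⁻¹) * x ^ 2 * y ^ 2 := by
    intro x y
    set c := y * x * y⁻¹ * x⁻¹ with hcdef
    have h1 : y * x = c * x * y := by rw [hcdef]; group
    have hcz := hcc y x
    calc (x * y) ^ 2 = x * (y * x) * y := by rw [pow_two]; group
      _ = x * (c * x * y) * y := by rw [h1]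
      _ = (x * c) * x * y * y := by group
      _ = (c * x) * x * y * y := by rw [hcz x]
      _ = c * x ^ 2 * y ^ 2 := by rw [pow_two, pow_two]; group
  have hprod4 : ∀ x y : X, (x * y) ^ 4 = x ^ 4 * y ^ 4 := by
    intro x y
    have e4 : ∀ z : X, z ^ 4 = z ^ 2 * z ^ 2 := fun z => by rw [← pow_add]
    rw [e4, hprod2]
    set c := y * x * y⁻¹ * x⁻¹ with hcdef
    have hcz := hcc y x
    have hx2 := hsqc x
    have hy2 := hsqc y
    calc c * x ^ 2 * y ^ 2 * (c * x ^ 2 * y ^ 2)
        = c * x ^ 2 * (y ^ 2 * c) * x ^ 2 * y ^ 2 := by group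
      _ = c * x ^ 2 * (c * y ^ 2) * x ^ 2 * y ^ 2 := by rw [hy2 c]
      _ = c * (x ^ 2 * c) * y ^ 2 * x ^ 2 * y ^ 2 := by group
      _ = c * (c * x ^ 2) * y ^ 2 * x ^ 2 * y ^ 2 := by rw [hx2 c]
      _ = c ^ 2 * x ^ 2 * y ^ 2 * x ^ 2 * y ^ 2 := by rw [pow_two c]; group
      _ = x ^ 2 * (y ^ 2 * x ^ 2) * y ^ 2 := by rw [hc2 y x]; group
      _ = x ^ 2 * (x ^ 2 * y ^ 2) * y ^ 2 := by rw [hx2 (y ^ 2)] 
      _ = x ^ 4 * y ^ 4 := by rw [e4 x, e4 y]; group
  constructor
  · intro x hx
    induction hx using Subgroup.closure_induction with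
    | mem x hx => exact hx
    | one => simp
    | mul x y _ _ hx hy => rw [hprod4, hx, hy, one_mul]
    | inv x _ hx => rw [inv_pow, hx, inv_one]
  · intro φ hφ
    have hpos : orderOf φ ≠ 0 := (orderOf_pos φ).ne'
    obtain ⟨a, r, hr, har⟩ := Nat.exists_eq_two_pow_mul_odd hpos
    set ψ := φ ^ (2 ^ a) with hψ
    have hψr : ψ ^ r = 1 := by
      rw [hψ, ← pow_mul, ← har]; exact pow_orderOf_eq_one φ
    have hψfix : ∀ g : X, g ^ 4 = 1 → ψ g = g := by
      intro g hg
      have h : ∀ k : ℕ, (φ ^ k) g = g := by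
        intro k
        induction k with
        | zero => rfl
        | succ k ih => rw [pow_succ, MulAut.mul_apply, hφ g hg, ih]
      exact h _
    refine ⟨a, ?_⟩
    rw [← hψ]
    ext g
    show ψ g = g
    -- strong induction on the order of g
    generalize hn : orderOf g = n
    induction n using Nat.strong_induction_on generalizing g with
    | _ n ih =>
      by_cases hg4 : g ^ 4 = 1
      · exact hψfix g hg4
      obtain ⟨k, hk⟩ := IsPGroup.iff_orderOf.1 hX g
      have hk0 : k ≠ 0 := by
        rintro rfl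
        rw [pow_zero, orderOf_eq_one_iff] at hk
        apply hg4; rw [hk]; simp
      have hd : 2 ∣ orderOf g := by rw [hk]; exact dvd_pow_self 2 hk0
      have hg2 : ψ (g ^ 2) = g ^ 2 := by
        refine ih (orderOf (g ^ 2)) ?_ (g ^ 2) rfl
        rw [orderOf_pow_of_dvd (by norm_num) hd, ← hn]
        have : 0 < orderOf g := by rw [hk]; positivity
        omega
      set h := g⁻¹ * ψ g with hh
      have hgh : ψ g = g * h := by rw [hh]; group
      have h1 : (g * h) ^ 2 = g ^ 2 := by
        rw [← hgh, ← map_pow, hg2]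
      rw [hprod2] at h1
      set c := h * g * h⁻¹ * g⁻¹ with hcdef
      -- so c * h ^ 2 = 1
      have h2 : c * h ^ 2 = 1 := by
        have hz : c * g ^ 2 * h ^ 2 = g ^ 2 * (c * h ^ 2) := by
          have := hsqc g c
          calc c * g ^ 2 * h ^ 2 = g ^ 2 * c * h ^ 2 := by rw [this]
            _ = _ := by group
        rw [hz] at h1
        exact mul_left_cancel (a := g ^ 2) (by rw [h1, mul_one])
      have hh4 : h ^ 4 = 1 := by
        have e : h ^ 2 = c⁻¹ := eq_inv_of_mul_eq_one_right h2
        have e4 : h ^ 4 = h ^ 2 * h ^ 2 := by rw [← pow_add]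
        rw [e4, e, ← mul_inv_rev, ← pow_two, hc2 h g, inv_one]
      have hψh : ψ h = h := hψfix h hh4
      have hiter : ∀ i : ℕ, (ψ ^ i) g = g * h ^ i := by
        intro i
        induction i with
        | zero => simp
        | succ i ih2 =>
          rw [pow_succ', MulAut.mul_apply, ih2, map_mul, map_pow, hψh, hgh, pow_succ']
          group
      have hr1 : g * h ^ r = g := by
        rw [← hiter, hψr]; rfl
      have hhr : h ^ r = 1 := by
        simpa using hr1
      -- h is a 2-element with odd exponent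
      obtain ⟨l, hl⟩ := IsPGroup.iff_orderOf.1 hX h
      have hdvd : orderOf h ∣ r := orderOf_dvd_of_pow_eq_one hhr
      have hco : Nat.Coprime (orderOf h) r := by
        rw [hl]
        apply Nat.Coprime.pow_left
        exact (Nat.coprime_two_left).2 hr
      have h1' : orderOf h = 1 := Nat.Coprime.eq_one_of_dvd hco hdvd
      have : h = 1 := orderOf_eq_one_iff.1 h1'
      rw [hgh, this, mul_one]

end Cfsg.Agent.S1898
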