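import Cfsg.Statements.S1899
-- import your own Cfsg.Agent.* helpers here

set_option autoImplicit false
open Cfsg

namespace Cfsg.Agent.S1899

/-- Let a dihedral group of order 2n, n odd and n > 1, act on a finite abelian 2-group A through automorphisms d and t with d^n = 1, t² = 1 and t d t⁻¹ = d⁻¹, and suppose that d fixes only the identity. Then A is the internal direct product of C_A(t) and its image under d. -/
theorem result {A : Type*} [CommGroup A] [Finite A] (hA : IsPGroup 2 A)
    {n : ℕ} (hn : Odd n) (hn1 : 1 < n) (d t : MulAut A) (hd : d ^ n = 1) (ht : t ^ 2 = 1) (hdt : t * d * t⁻¹ = d⁻¹)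
    (hfix : ∀ a : A, d a = a → a = 1) :
    (MulEquiv.toMonoidHom t).eqLocus (MonoidHom.id A) ⊓ ((MulEquiv.toMonoidHom t).eqLocus (MonoidHom.id A)).map d.toMonoidHom = ⊥ ∧
      (MulEquiv.toMonoidHom t).eqLocus (MonoidHom.id A) ⊔ ((MulEquiv.toMonoidHom t).eqLocus (MonoidHom.id A)).map d.toMonoidHom = ⊤ := by
  classical
  set E := (MulEquiv.toMonoidHom t).eqLocus (MonoidHom.id A) with hE
  have hEmem : ∀ x, x ∈ E ↔ t x = x := fun x => Iff.rfl
  have htt : ∀ a, t (t a) = a := by
    intro a
    have : (t ^ 2) a = a := by rw [ht]; rfl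
    rwa [pow_two] at this
  have htinv : t⁻¹ = t := by
    have h1 : t * t = 1 := by rw [← pow_two, ht]
    exact inv_eq_of_mul_eq_one_left h1
  have h1' : ∀ a, t (d (t a)) = d⁻¹ a := by
    intro a
    have := congrArg (fun f : MulAut A => f a) hdt
    simp only [MulAut.mul_apply] at this
    rw [htinv] at this
    exact this
  have h2' : ∀ a, t (d⁻¹ (t a)) = d a := by
    intro a
    have h : t * d⁻¹ * t⁻¹ = d := by
      have h3 : t * d⁻¹ * t⁻¹ = (t * d * t⁻¹)⁻¹ := by simp [mul_assoc]
      rw [h3, hdt, inv_inv]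
    have := congrArg (fun f : MulAut A => f a) h
    simp only [MulAut.mul_apply] at this
    rw [htinv] at this
    exact this
  have hdd : ∀ a, d (d⁻¹ a) = a := fun a => by
    rw [← MulAut.mul_apply, mul_inv_cancel]; rfl
  have hdd' : ∀ a, d⁻¹ (d a) = a := fun a => by
    rw [← MulAut.mul_apply, inv_mul_cancel]; rfl
  obtain ⟨m, hm⟩ := hn
  -- d ^ (n+1) = d, n + 1 = 2 * (m + 1)
  have hdn : ∀ a, (d ^ (2 * (m + 1))) a = d a := by
    intro a
    have e : 2 * (m + 1) = n + 1 := by omega
    rw [e, pow_succ, hd, one_mul]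
  have hpow2 : ∀ (k : ℕ) a, (d ^ (2 * (k + 1))) a = d (d ((d ^ (2 * k)) a)) := by
    intro k a
    have e : 2 * (k + 1) = 2 + 2 * k := by ring
    rw [e, pow_add, pow_two]
    rfl
  constructor
  · -- trivial intersection
    rw [eq_bot_iff]
    rintro x ⟨hx1, ⟨y, hy, rfl⟩⟩
    have hy' : t y = y := hy
    have hx1' : t (d y) = d y := hx1
    -- t (d y) = t (d (t y)) = d⁻¹ y
    have h3 : d⁻¹ y = d y := by
      rw [← h1' y, hy']; exact hx1'
    have h4 : d (d y) = y := by
      rw [← h3, hdd]
    have h5 : ∀ k, (d ^ (2 * k)) y = y := by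
      intro k
      induction k with
      | zero => simp
      | succ k ih => rw [hpow2, ih, h4]
    have h6 : d y = y := by
      rw [← hdn y, h5]
    have := hfix y h6
    rw [this]
    simp
  · -- generation
    set S := E ⊔ E.map d.toMonoidHom with hS
    have hES : E ≤ S := le_sup_left
    have hdES : E.map d.toMonoidHom ≤ S := le_sup_right
    have h1 : ∀ a, a * t a ∈ S := by
      intro a
      apply hES
      show t (a * t a) = a * t a
      rw [map_mul, htt, mul_comm]
    have h2 : ∀ a, a * d (t (d⁻¹ a)) ∈ S := by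
      intro a
      apply hdES
      refine ⟨d⁻¹ a * t (d⁻¹ a), ?_, ?_⟩
      · show t (d⁻¹ a * t (d⁻¹ a)) = d⁻¹ a * t (d⁻¹ a)
        rw [map_mul, htt, mul_comm]
      · show d (d⁻¹ a * t (d⁻¹ a)) = a * d (t (d⁻¹ a))
        rw [map_mul, hdd]
    have h3 : ∀ a, d (d a) * a⁻¹ ∈ S := by
      intro a
      -- apply h2 to t a
      have h := h2 (t a)
      have e : d (t (d⁻¹ (t a))) = d (d a) := by rw [h2']
      rw [e] at h
      have h' := S.mul_mem h (S.inv_mem (h1 a))
      have e2 : t a * d (d a) * (a * t a)⁻¹ = d (d a) * a⁻¹ := by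
        simp [mul_comm, mul_left_comm, mul_assoc]
      rwa [e2] at h'
    have h4 : ∀ (k : ℕ) a, (d ^ (2 * k)) a * a⁻¹ ∈ S := by
      intro k a
      induction k with
      | zero => simp
      | succ k ih =>
        rw [hpow2]
        have h := S.mul_mem (h3 ((d ^ (2 * k)) a)) ih
        have e : d (d ((d ^ (2 * k)) a)) * ((d ^ (2 * k)) a)⁻¹ * ((d ^ (2 * k)) a * a⁻¹) = d (d ((d ^ (2 * k)) a)) * a⁻¹ := by
          simp [mul_assoc]
        rwa [e] at h
    have h5 : ∀ a, d a * a⁻¹ ∈ S := by
      intro a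
      rw [← hdn a]
      exact h4 (m + 1) a
    have h6 : ∀ (i : ℕ) a, (d ^ i) a * a⁻¹ ∈ S := by
      intro i a
      induction i with
      | zero => simp
      | succ i ih =>
        rw [pow_succ', MulAut.mul_apply]
        have h := S.mul_mem (h5 ((d ^ i) a)) ih
        have e : d ((d ^ i) a) * ((d ^ i) a)⁻¹ * ((d ^ i) a * a⁻¹) = d ((d ^ i) a) * a⁻¹ := by
          simp [mul_assoc]
        rwa [e] at h
    have h7 : ∀ a, ∏ i ∈ Finset.range n, (d ^ i) a = 1 := by
      intro a
      apply hfix
      rw [map_prod]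
      have e : ∀ i, d ((d ^ i) a) = (d ^ (i + 1)) a := fun i => by rw [pow_succ', MulAut.mul_apply]
      simp only [e]
      have e1 := Finset.prod_range_succ (fun i => (d ^ i) a) n
      have e2 := Finset.prod_range_succ' (fun i => (d ^ i) a) n
      rw [e1] at e2
      simp only [hd, pow_zero] at e2
      exact (mul_right_cancel e2).symm
    have h8 : ∀ a, a ^ n ∈ S := by
      intro a
      have e : a ^ n = (∏ i ∈ Finset.range n, a * ((d ^ i) a)⁻¹) * (∏ i ∈ Finset.range n, (d ^ i) a) := by
        rw [← Finset.prod_mul_distrib]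
        simp
      rw [e, h7, mul_one]
      refine Subgroup.prod_mem _ fun i _ => ?_
      have := S.inv_mem (h6 i a)
      simpa using this
    rw [eq_top_iff]
    intro a _
    obtain ⟨k, hk⟩ := IsPGroup.iff_orderOf.1 hA a
    have hcop : Nat.Coprime n (orderOf a) := by
      rw [hk]
      apply Nat.Coprime.pow_right
      rw [hm]
      simp
    have hpowEq := exists_pow_eq_self_of_coprime hcop
    obtain ⟨l, hl⟩ := hpowEq
    rw [← hl]
    exact S.pow_mem (h8 a) l

end Cfsg.Agent.S1899
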