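import Cfsg.Statements.S1900
import Mathlib
import Cfsg.Agent.Lib.AutTwoGroup

set_option autoImplicit false
open Cfsg

namespace Cfsg.Agent.S1900

open scoped commutatorElement
universe u

theorem fix_pow {Z : Type*} [Monoid Z] (c : MulAut Z) (z : Z) (h : c z = z) (k : ℕ) : (c ^ k) z = z := by
  induction k with
  | zero => rfl
  | succ k ih =>
    rw [pow_succ]
    show (c ^ k) (c z) = z
    rw [h, ih]

theorem norm_one {Z : Type*} [CommGroup Z] (c : MulAut Z) (q : ℕ) (hc : c ^ q = 1)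
    (hf : ∀ z, c z = z → z = 1) (z : Z) : ∏ j ∈ Finset.range q, (c ^ j) z = 1 := by
  apply hf
  rw [map_prod]
  have h1 : ∀ j, c ((c ^ j) z) = (c ^ (j + 1)) z := by
    intro j
    rw [pow_succ']; rfl
  simp_rw [h1]
  have h2 := Finset.prod_range_succ (fun j => (c ^ j) z) q
  have h3 := Finset.prod_range_succ' (fun j => (c ^ j) z) q
  rw [h2] at h3
  have h4 : (c ^ q) z = z := by rw [hc]; rfl
  simp only [h4, pow_zero] at h3
  exact (mul_right_cancel h3).symm

theorem no_semireg {Z : Type*} [CommGroup Z] (q : ℕ) [hq : Fact q.Prime] (σ τ : MulAut Z)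
    (hcomm : σ * τ = τ * σ) (hσ : σ ^ q = 1) (hτ : τ ^ q = 1)
    (hfpf : ∀ i, i < q → ∀ z, (σ * τ ^ i) z = z → z = 1) (hfpf' : ∀ z, τ z = z → z = 1) (z : Z) :
    z ^ q = 1 := by
  have hq1 := hq.out.one_lt
  have hC : Commute σ τ := hcomm
  have h1 : ∀ i, i < q → ∏ j ∈ Finset.range q, ((σ ^ j) (((τ ^ j) ^ i) z)) = 1 := by
    intro i hi
    have h2 := norm_one (σ * τ ^ i) q (by
      rw [(hC.pow_right i).mul_pow, hσ, ← pow_mul, mul_comm, pow_mul, hτ, one_pow, one_mul]) (hfpf i hi) z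
    rw [← h2]
    refine Finset.prod_congr rfl (fun j _ => ?_)
    rw [(hC.pow_right i).mul_pow, ← pow_mul, ← pow_mul, mul_comm i j]
    rfl
  have h2 : ∏ i ∈ Finset.range q, ∏ j ∈ Finset.range q, ((σ ^ j) (((τ ^ j) ^ i) z)) = 1 :=
    Finset.prod_eq_one (fun i hi => h1 i (Finset.mem_range.mp hi))
  rw [Finset.prod_comm] at h2
  obtain ⟨q', rfl⟩ : ∃ q', q = q' + 1 := ⟨q - 1, by omega⟩
  rw [Finset.prod_range_succ'] at h2
  have h3 : ∀ j, j < q' → ∏ i ∈ Finset.range (q' + 1), ((σ ^ (j + 1)) (((τ ^ (j + 1)) ^ i) z)) = 1 := by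
    intro j hj
    rw [← map_prod]
    have hcop : Nat.Coprime (j + 1) (q' + 1) := by
      apply Nat.Coprime.symm
      exact (Nat.Prime.coprime_iff_not_dvd hq.out).mpr (fun h => by
        have := Nat.le_of_dvd (by omega) h
        omega)
    obtain ⟨m, -, hm⟩ := Nat.exists_mul_mod_eq_one_of_coprime hcop hq1
    have h4 := norm_one (τ ^ (j + 1)) (q' + 1) (by rw [← pow_mul, mul_comm, pow_mul, hτ, one_pow]) (by
      intro w hw
      apply hfpf'
      have h5 := fix_pow _ w hw m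
      rw [← pow_mul, pow_eq_pow_mod _ hτ, hm, pow_one] at h5
      exact h5) z
    rw [h4, map_one]
  rw [Finset.prod_eq_one (fun j hj => h3 j (Finset.mem_range.mp hj)), one_mul] at h2
  simpa using h2

def fixS {P : Type*} [Group P] (ρ : MulAut P) : Subgroup P where
  carrier := {x | ρ x = x}
  mul_mem' := fun {a b} ha hb => by
    simp only [Set.mem_ofPred_eq] at *
    rw [map_mul, ha, hb]
  one_mem' := map_one ρ
  inv_mem' := fun {a} ha => by
    simp only [Set.mem_ofPred_eq] at *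
    rw [map_inv, ha]

theorem comm_aux {P : Type*} [Group P] (ρ : MulAut P) (a c : P) (ha : ρ a = a)
    (hw : ρ ⁅a, c⁆ = ⁅a, c⁆) : a * (c⁻¹ * ρ c) = (c⁻¹ * ρ c) * a := by
  rw [map_commutatorElement, ha] at hw
  simp only [commutatorElement_def] at hw
  have h1 : (a * c * a⁻¹)⁻¹ * (a * ρ c * a⁻¹) = c⁻¹ * ρ c := by
    have h2 : a * ρ c * a⁻¹ = a * c * a⁻¹ * c⁻¹ * ρ c := by
      rw [← hw]; group
    rw [h2]; group
  have h3 : a * (c⁻¹ * ρ c) * a⁻¹ = c⁻¹ * ρ c := by
    have h4 : a * (c⁻¹ * ρ c) * a⁻¹ = (a * c * a⁻¹)⁻¹ * (a * ρ c * a⁻¹) := by group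
    rw [h4, h1]
  calc a * (c⁻¹ * ρ c) = (a * (c⁻¹ * ρ c) * a⁻¹) * a := by group
    _ = _ := by rw [h3]

theorem fpf_surj {P : Type*} [Group P] [Finite P] (ρ : MulAut P) (B : Subgroup P)
    (hB : ∀ b ∈ B, ρ b ∈ B) (hf : ∀ b ∈ B, ρ b = b → b = 1) (b : P) (hb : b ∈ B) :
    ∃ c ∈ B, b = c⁻¹ * ρ c := by
  let f : B → B := fun c => ⟨c.1⁻¹ * ρ c.1, B.mul_mem (B.inv_mem c.2) (hB _ c.2)⟩
  have hinj : Function.Injective f := by
    rintro ⟨c, hc⟩ ⟨d, hd⟩ h
    have h1 : c⁻¹ * ρ c = d⁻¹ * ρ d := congrArg Subtype.val h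
    have h2 : ρ (d * c⁻¹) = d * c⁻¹ := by
      rw [map_mul, map_inv]
      have h3 : ρ d = d * (c⁻¹ * ρ c) := by rw [h1]; group
      rw [h3]; group
    have h3 := hf _ (B.mul_mem hd (B.inv_mem hc)) h2
    have h4 : d = c := by
      have := eq_of_mul_inv_eq_one h3
      exact this
    exact Subtype.ext h4.symm
  obtain ⟨⟨c, hc⟩, h⟩ := (Finite.injective_iff_surjective.mp hinj) ⟨b, hb⟩
  exact ⟨c, hc, (congrArg Subtype.val h).symm⟩

theorem lift_fix {P : Type*} [Group P] [Finite P] {p q : ℕ} [hp : Fact p.Prime] [hq : Fact q.Prime]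
    (hpq : p ≠ q) (hP : IsPGroup p P) (c : MulAut P) (hc : c ^ q = 1) (R : Subgroup P)
    (hR : ∀ r, r ∈ R ↔ c r ∈ R) (x : P) (hx : x⁻¹ * c x ∈ R) : ∃ y, x⁻¹ * y ∈ R ∧ c y = y := by
  classical
  haveI : Fintype P := Fintype.ofFinite P
  have hcard : ¬ q ∣ Fintype.card {y // x⁻¹ * y ∈ R} := by
    have h1 : Fintype.card {y // x⁻¹ * y ∈ R} = Nat.card R := by
      rw [← Nat.card_eq_fintype_card]
      exact Nat.card_congr
        { toFun := fun y => ⟨x⁻¹ * y.1, y.2⟩
          invFun := fun r => ⟨x * r.1, by simpa using r.2⟩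
          left_inv := fun y => Subtype.ext (by simp)
          right_inv := fun r => Subtype.ext (by simp) }
    rw [h1]
    obtain ⟨k, hk⟩ := IsPGroup.iff_card.mp (hP.to_subgroup R)
    rw [hk]
    intro h
    exact hpq ((Nat.prime_dvd_prime_iff_eq hq.out hp.out).mp (hq.out.dvd_of_dvd_pow h)).symm
  refine Cfsg.Agent.Lib.AutTwoGroup.exists_fixed_of_invariant c q hc (fun y => x⁻¹ * y ∈ R) (fun y => ?_) hcard
  have h2 : x⁻¹ * c y = (x⁻¹ * c x) * c (x⁻¹ * y) := by
    rw [map_mul, map_inv]; group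
  rw [h2]
  constructor
  · intro h
    exact R.mul_mem hx ((hR _).mp h)
  · intro h
    have h3 := R.mul_mem (R.inv_mem hx) h
    rw [inv_mul_cancel_left] at h3
    exact (hR _).mpr h3

theorem exists_R {P : Type*} [Group P] [Finite P] [Nontrivial P] {p q : ℕ} [hp : Fact p.Prime]
    [hq : Fact q.Prime] (hpq : p ≠ q) (hP : IsPGroup p P) (σ τ : MulAut P) (hcomm : σ * τ = τ * σ)
    (hσ : σ ^ q = 1) (hτ : τ ^ q = 1)
    (hfpf : ∀ i, 0 < i → i < q → ∀ x, (σ * τ ^ i) x = x → x = 1) :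
    (Subgroup.center P ⊓ fixS σ ≠ ⊥) ∨ (Subgroup.center P ⊓ fixS τ ≠ ⊥) := by
  classical
  by_contra hcon
  push Not at hcon
  obtain ⟨h1, h2⟩ := hcon
  have hσ0 : ∀ z ∈ Subgroup.center P, σ z = z → z = 1 := by
    intro z hz hf
    have : z ∈ Subgroup.center P ⊓ fixS σ := ⟨hz, hf⟩
    rwa [h1, Subgroup.mem_bot] at this
  have hτ0 : ∀ z ∈ Subgroup.center P, τ z = z → z = 1 := by
    intro z hz hf
    have : z ∈ Subgroup.center P ⊓ fixS τ := ⟨hz, hf⟩
    rwa [h2, Subgroup.mem_bot] at this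
  let C := Subgroup.center P
  have hchar : ∀ (ρ : MulAut P), ∀ z ∈ C, ρ z ∈ C := by
    intro ρ z hz
    have h3 : z ∈ C.comap (ρ : P ≃* P).toMonoidHom := by
      rw [(inferInstance : C.Characteristic).fixed ρ]; exact hz
    exact h3
  let res : MulAut P →* MulAut C := MonoidHom.mk'
    (fun ρ => 
      { toFun := fun z => ⟨ρ z.1, hchar ρ z.1 z.2⟩
        invFun := fun z => ⟨ρ⁻¹ z.1, hchar ρ⁻¹ z.1 z.2⟩
        left_inv := fun z => Subtype.ext (by simp)
        right_inv := fun z => Subtype.ext (by simp)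
        map_mul' := fun z w => Subtype.ext (by simp) })
    (fun ρ ρ' => by
      ext z
      rfl)
  have hres : ∀ (ρ : MulAut P) (z : C), ((res ρ) z).1 = ρ z.1 := fun ρ z => rfl
  letI iC : CommGroup C := { (inferInstance : Group C) with
    mul_comm := fun a b => Subtype.ext (by
      show a.1 * b.1 = b.1 * a.1
      exact (Subgroup.mem_center_iff.mp a.2 b.1).symm) }
  have hall : ∀ z : C, z ^ q = 1 := by
    intro z
    refine no_semireg q (res σ) (res τ) (by rw [← map_mul, hcomm, map_mul]) (by rw [← map_pow, hσ, map_one])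
      (by rw [← map_pow, hτ, map_one]) ?_ ?_ z
    · intro i hi w hw
      rw [← map_pow, ← map_mul, ] at hw
      have hw' := congrArg Subtype.val hw
      rw [hres] at hw'
      apply Subtype.ext
      rcases Nat.eq_zero_or_pos i with rfl | hi0
      · simp only [pow_zero, mul_one] at hw'
        exact hσ0 _ w.2 hw'
      · exact hfpf i hi0 hi _ hw'
    · intro w hw
      have hw' := congrArg Subtype.val hw
      rw [hres] at hw'
      exact Subtype.ext (hτ0 _ w.2 hw')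
  haveI hnt := hP.center_nontrivial
  obtain ⟨z, hz⟩ := exists_ne (1 : Subgroup.center P)
  have hz1 := hall z
  have hz2 : z.1 ^ q = 1 := congrArg Subtype.val hz1
  obtain ⟨k, hk⟩ := IsPGroup.iff_orderOf.mp hP z.1
  have h3 : orderOf z.1 ∣ q := orderOf_dvd_of_pow_eq_one hz2
  rw [hk] at h3
  have h4 : k = 0 := by
    by_contra h5
    have h6 : p ∣ q := (dvd_pow_self p h5).trans h3
    exact hpq ((Nat.prime_dvd_prime_iff_eq hp.out hq.out).mp h6)
  rw [h4, pow_zero, orderOf_eq_one_iff] at hk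
  exact hz (Subtype.ext hk)

theorem main_abs {p q : ℕ} [hp : Fact p.Prime] [hq : Fact q.Prime] (hpq : p ≠ q) :
    ∀ (n : ℕ) (P : Type u) [Group P] [Finite P], Nat.card P = n → IsPGroup p P →
    ∀ σ τ : MulAut P, σ * τ = τ * σ → σ ^ q = 1 → τ ^ q = 1 →
    (∀ i, 0 < i → i < q → ∀ x, (σ * τ ^ i) x = x → x = 1) →
    (∀ a b, σ a = a → τ b = b → a * b = b * a) ∧ (∀ x, ∃ a b, σ a = a ∧ τ b = b ∧ x = a * b) := by
  intro n
  induction n using Nat.strong_induction_on with
  | _ n ih =>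
  intro P _ _ hcard hP σ τ hcomm hσ hτ hfpf
  classical
  have hq1 := hq.out.one_lt
  by_cases hnt : Nontrivial P
  swap
  · rw [not_nontrivial_iff_subsingleton] at hnt
    exact ⟨fun a b _ _ => Subsingleton.elim _ _,
      fun x => ⟨1, 1, map_one _, map_one _, Subsingleton.elim _ _⟩⟩
  -- the central subgroup
  obtain ⟨R, hRne, hRc, hRσ, hRτ, hRfix⟩ : ∃ R : Subgroup P, R ≠ ⊥ ∧ R ≤ Subgroup.center P ∧
      (∀ r, r ∈ R ↔ σ r ∈ R) ∧ (∀ r, r ∈ R ↔ τ r ∈ R) ∧
      ((∀ r ∈ R, σ r = r) ∨ (∀ r ∈ R, τ r = r)) := by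
    have hcen : ∀ (ρ : MulAut P) (z : P), z ∈ Subgroup.center P ↔ ρ z ∈ Subgroup.center P := by
      intro ρ z
      have h3 : z ∈ (Subgroup.center P).comap (ρ : P ≃* P).toMonoidHom ↔ z ∈ Subgroup.center P := by
        rw [(inferInstance : (Subgroup.center P).Characteristic).fixed ρ]
      exact h3.symm
    have hfixσ : ∀ z, τ z ∈ fixS σ ↔ z ∈ fixS σ := by
      intro z
      show σ (τ z) = τ z ↔ σ z = z
      have : σ (τ z) = τ (σ z) := by
        have := congrArg (fun f : MulAut P => f z) hcomm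
        exact this
      rw [this]
      exact τ.injective.eq_iff
    have hfixτ : ∀ z, σ z ∈ fixS τ ↔ z ∈ fixS τ := by
      intro z
      show τ (σ z) = σ z ↔ τ z = z
      have : τ (σ z) = σ (τ z) := by
        have := congrArg (fun f : MulAut P => f z) hcomm
        exact this.symm
      rw [this]
      exact σ.injective.eq_iff
    rcases exists_R hpq hP σ τ hcomm hσ hτ hfpf with h | h
    · refine ⟨_, h, inf_le_left, fun r => ?_, fun r => ?_, Or.inl (fun r hr => hr.2)⟩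
      · constructor
        · rintro ⟨h1, h2⟩
          refine ⟨(hcen σ r).mp h1, ?_⟩
          show σ (σ r) = σ r
          rw [show σ r = r from h2]; exact h2
        · rintro ⟨h1, h2⟩
          refine ⟨(hcen σ r).mpr h1, σ.injective h2⟩
      · exact and_congr (hcen τ r) (hfixσ r).symm
    · refine ⟨_, h, inf_le_left, fun r => ?_, fun r => ?_, Or.inr (fun r hr => hr.2)⟩
      · exact and_congr (hcen σ r) (hfixτ r).symm
      · constructor
        · rintro ⟨h1, h2⟩
          refine ⟨(hcen τ r).mp h1, ?_⟩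
          show τ (τ r) = τ r
          rw [show τ r = r from h2]; exact h2
        · rintro ⟨h1, h2⟩
          refine ⟨(hcen τ r).mpr h1, τ.injective h2⟩
  have hcent : ∀ r ∈ R, ∀ x, r * x = x * r := by
    intro r hr x
    exact (Subgroup.mem_center_iff.mp (hRc hr) x).symm
  haveI hRn : R.Normal := ⟨fun r hr x => by
    have : x * r * x⁻¹ = r := by rw [← hcent r hr x]; group
    rwa [this]⟩
  have hmap : ∀ (ρ : MulAut P), (∀ r, r ∈ R ↔ ρ r ∈ R) → R.map (ρ : P ≃* P).toMonoidHom = R := by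
    intro ρ h
    apply le_antisymm
    · rintro _ ⟨r, hr, rfl⟩
      exact (h r).mp hr
    · intro r hr
      refine ⟨ρ.symm r, ?_, by simp⟩
      apply (h _).mpr
      simpa using hr
  let σb : MulAut (P ⧸ R) := QuotientGroup.congr R R σ (hmap σ hRσ)
  let τb : MulAut (P ⧸ R) := QuotientGroup.congr R R τ (hmap τ hRτ)
  have hσb : ∀ x : P, σb (x : P ⧸ R) = ((σ x : P) : P ⧸ R) := fun x => rfl
  have hτb : ∀ x : P, τb (x : P ⧸ R) = ((τ x : P) : P ⧸ R) := fun x => rfl
  have hpowb : ∀ (k : ℕ) (x : P), (σb ^ k) (x : P ⧸ R) = (((σ ^ k) x : P) : P ⧸ R) := by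
    intro k x
    induction k generalizing x with
    | zero => rfl
    | succ k ih =>
      rw [pow_succ, pow_succ]
      show (σb ^ k) (σb (x : P ⧸ R)) = (((σ ^ k) (σ x) : P) : P ⧸ R)
      rw [hσb, ih]
  have hpowb' : ∀ (k : ℕ) (x : P), (τb ^ k) (x : P ⧸ R) = (((τ ^ k) x : P) : P ⧸ R) := by
    intro k x
    induction k generalizing x with
    | zero => rfl
    | succ k ih =>
      rw [pow_succ, pow_succ]
      show (τb ^ k) (τb (x : P ⧸ R)) = (((τ ^ k) (τ x) : P) : P ⧸ R)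
      rw [hτb, ih]
  have hcard' : Nat.card (P ⧸ R) < n := by
    have h1 := R.card_mul_index
    have h2 : 1 < Nat.card R := by
      have : Nontrivial R := (Subgroup.nontrivial_iff_ne_bot R).mpr hRne
      exact Finite.one_lt_card
    have h3 : 0 < R.index := Nat.pos_of_ne_zero Subgroup.FiniteIndex.index_ne_zero
    have h4 : R.index = Nat.card (P ⧸ R) := rfl
    rw [← hcard, ← h4, ← h1]
    nlinarith
  have hcomb : σb * τb = τb * σb := by
    ext y
    obtain ⟨x, rfl⟩ := QuotientGroup.mk_surjective y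
    show σb (τb (x : P ⧸ R)) = τb (σb (x : P ⧸ R))
    rw [hτb, hσb, hσb, hτb]
    have := congrArg (fun f : MulAut P => f x) hcomm
    show ((σ (τ x) : P) : P ⧸ R) = ((τ (σ x) : P) : P ⧸ R)
    rw [show σ (τ x) = τ (σ x) from this]
  have hσbq : σb ^ q = 1 := by
    ext y
    obtain ⟨x, rfl⟩ := QuotientGroup.mk_surjective y
    rw [hpowb, hσ]; rfl
  have hτbq : τb ^ q = 1 := by
    ext y
    obtain ⟨x, rfl⟩ := QuotientGroup.mk_surjective y
    rw [hpowb', hτ]; rfl
  have hCσ : Commute σ τ := hcomm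
  have hinvc : ∀ (i : ℕ) (r : P), r ∈ R ↔ (τ ^ i) r ∈ R := by
    intro i r
    induction i generalizing r with
    | zero => rfl
    | succ i ih =>
      rw [pow_succ]
      show r ∈ R ↔ (τ ^ i) (τ r) ∈ R
      rw [← ih]
      exact hRτ r
  have hfpfb : ∀ i, 0 < i → i < q → ∀ x, (σb * τb ^ i) x = x → x = 1 := by
    intro i hi hiq y hy
    obtain ⟨x, rfl⟩ := QuotientGroup.mk_surjective y
    set c : MulAut P := σ * τ ^ i with hc
    have hcq : c ^ q = 1 := by
      rw [hc, (hCσ.pow_right i).mul_pow, hσ, ← pow_mul, mul_comm, pow_mul, hτ, one_pow, one_mul]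
    have hy' : ((c x : P) : P ⧸ R) = (x : P ⧸ R) := by
      have h1 : (σb * τb ^ i) (x : P ⧸ R) = σb ((τb ^ i) (x : P ⧸ R)) := rfl
      rw [h1, hpowb', hσb] at hy
      exact hy
    have hx1 : x⁻¹ * c x ∈ R := QuotientGroup.eq.mp hy'.symm
    have hRc' : ∀ r, r ∈ R ↔ c r ∈ R := by
      intro r
      show r ∈ R ↔ σ ((τ ^ i) r) ∈ R
      rw [← hRσ, ← hinvc]
    obtain ⟨w, hw, hwf⟩ := lift_fix hpq hP c hcq R hRc' x hx1
    have hw1 := hfpf i hi hiq w hwf
    subst hw1
    have h3 : (x : P ⧸ R) = ((1 : P) : P ⧸ R) := QuotientGroup.eq.mpr hw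
    exact h3
  obtain ⟨hb1, hb2⟩ := ih _ hcard' (P ⧸ R) rfl (hP.to_quotient R) σb τb hcomb hσbq hτbq hfpfb
  -- lifting of fixed cosets
  have hliftσ : ∀ x : P, σb (x : P ⧸ R) = (x : P ⧸ R) → ∃ y, x⁻¹ * y ∈ R ∧ σ y = y := by
    intro x hx
    rw [hσb] at hx
    exact lift_fix hpq hP σ hσ R hRσ x (QuotientGroup.eq.mp hx.symm)
  have hliftτ : ∀ x : P, τb (x : P ⧸ R) = (x : P ⧸ R) → ∃ y, x⁻¹ * y ∈ R ∧ τ y = y := by
    intro x hx
    rw [hτb] at hx
    exact lift_fix hpq hP τ hτ R hRτ x (QuotientGroup.eq.mp hx.symm)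
  have hcommR : ∀ a b, σ a = a → τ b = b → ⁅a, b⁆ ∈ R := by
    intro a b ha hb
    have h1 := hb1 (a : P ⧸ R) (b : P ⧸ R) (by rw [hσb, ha]) (by rw [hτb, hb])
    have h2 : (((⁅a, b⁆ : P)) : P ⧸ R) = 1 := by
      show QuotientGroup.mk' R ⁅a, b⁆ = 1
      rw [map_commutatorElement, commutatorElement_eq_one_iff_mul_comm]
      exact h1
    exact (QuotientGroup.eq_one_iff _).mp h2
  have hστ1 : ∀ x, σ x = x → τ x = x → x = 1 := by
    intro x h1 h2
    apply hfpf 1 one_pos hq1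
    show σ ((τ ^ 1) x) = x
    rw [pow_one, h2, h1]
  constructor
  · intro a b ha hb
    rcases hRfix with hf | hf
    · -- `σ` fixes `R`
      obtain ⟨c, hc, rfl⟩ := fpf_surj σ (fixS τ) (by
        intro y hy
        show τ (σ y) = σ y
        have := congrArg (fun f : MulAut P => f y) hcomm
        have h2 : σ (τ y) = τ (σ y) := this
        rw [← h2, show τ y = y from hy]) (fun y hy h => hστ1 y h hy) b hb
      exact comm_aux σ a c ha (hf _ (hcommR a c ha hc))
    · -- `τ` fixes `R`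
      obtain ⟨c, hc, rfl⟩ := fpf_surj τ (fixS σ) (by
        intro y hy
        show σ (τ y) = τ y
        have := congrArg (fun f : MulAut P => f y) hcomm
        have h2 : σ (τ y) = τ (σ y) := this
        rw [h2, show σ y = y from hy]) (fun y hy h => hστ1 y hy h) a ha
      have h1 : ⁅b, c⁆ ∈ R := by
        have := R.inv_mem (hcommR c b hc hb)
        rwa [commutatorElement_inv] at this
      exact (comm_aux τ b c hb (hf _ h1)).symm
  · intro x
    obtain ⟨u, v, hu, hv, huv⟩ := hb2 (x : P ⧸ R)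
    obtain ⟨a₀, rfl⟩ := QuotientGroup.mk_surjective u
    obtain ⟨b₀, rfl⟩ := QuotientGroup.mk_surjective v
    obtain ⟨a, ha, haf⟩ := hliftσ a₀ hu
    obtain ⟨b, hb, hbf⟩ := hliftτ b₀ hv
    have hma : (a : P ⧸ R) = a₀ := (QuotientGroup.eq.mpr ha).symm
    have hmb : (b : P ⧸ R) = b₀ := (QuotientGroup.eq.mpr hb).symm
    have hx : (x : P ⧸ R) = ((a * b : P) : P ⧸ R) := by
      rw [huv, ← hma, ← hmb]; rfl
    have hr : x⁻¹ * (a * b) ∈ R := QuotientGroup.eq.mp hx
    set r := x⁻¹ * (a * b) with hrdef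
    have hxe : x = a * b * r⁻¹ := by rw [hrdef]; group
    have hr' : r⁻¹ ∈ R := R.inv_mem hr
    rcases hRfix with hf | hf
    · refine ⟨a * r⁻¹, b, ?_, hbf, ?_⟩
      · rw [map_mul, haf, hf _ hr']
      · rw [hxe, mul_assoc, mul_assoc, hcent _ hr' b]
    · refine ⟨a, b * r⁻¹, haf, ?_, ?_⟩
      · rw [map_mul, hbf, hf _ hr']
      · rw [hxe, mul_assoc]

/-- Let S = PQ be a finite group with P a normal Sylow p-subgroup and Q elementary abelian of order q², q a prime different from p. If exactly two subgroups X₁, X₂ of order q in Q have a nontrivial centralizer in P, then P is the internal direct product of C_P(X₁) and C_P(X₂): they commute elementwise, meet trivially and generate P. -/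
theorem result {S : Type*} [Group S] [Finite S] {p q : ℕ} [Fact p.Prime] [Fact q.Prime] (hpq : p ≠ q)
    (P : Sylow p S) [(P : Subgroup S).Normal] (Q : Subgroup S) (hQ : Cfsg.IsElementaryAbelian q Q) (hQc : Nat.card Q = q ^ 2)
    (hS : (P : Subgroup S) ⊔ Q = ⊤)
    (X₁ X₂ : Subgroup S) (h₁ : X₁ ≤ Q) (h₂ : X₂ ≤ Q) (h₁₂ : X₁ ≠ X₂) (hc₁ : Nat.card X₁ = q) (hc₂ : Nat.card X₂ = q)
    (hf₁ : (P : Subgroup S) ⊓ Subgroup.centralizer (X₁ : Set S) ≠ ⊥)
    (hf₂ : (P : Subgroup S) ⊓ Subgroup.centralizer (X₂ : Set S) ≠ ⊥)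
    (honly : ∀ X : Subgroup S, X ≤ Q → Nat.card X = q →
      (P : Subgroup S) ⊓ Subgroup.centralizer (X : Set S) ≠ ⊥ → X = X₁ ∨ X = X₂) :
    ⁅(P : Subgroup S) ⊓ Subgroup.centralizer (X₁ : Set S), (P : Subgroup S) ⊓ Subgroup.centralizer (X₂ : Set S)⁆ = ⊥ ∧
      ((P : Subgroup S) ⊓ Subgroup.centralizer (X₁ : Set S)) ⊓ ((P : Subgroup S) ⊓ Subgroup.centralizer (X₂ : Set S)) = ⊥ ∧
      ((P : Subgroup S) ⊓ Subgroup.centralizer (X₁ : Set S)) ⊔ ((P : Subgroup S) ⊓ Subgroup.centralizer (X₂ : Set S)) = P := by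
  classical
  have hq1 := (Fact.out : q.Prime).one_lt
  have hqp : q.Prime := Fact.out
  obtain ⟨hQcomm, hQexp⟩ := hQ
  have hQc2 : ∀ x ∈ Q, ∀ y ∈ Q, x * y = y * x := by
    intro x hx y hy
    have := hQcomm.is_comm.comm (⟨x, hx⟩ : Q) ⟨y, hy⟩
    exact congrArg Subtype.val this
  -- generators
  have hgen : ∀ X : Subgroup S, Nat.card X = q → ∃ x ∈ X, orderOf x = q ∧ X = Subgroup.zpowers x := by
    intro X hX
    haveI : Fact (Nat.card X).Prime := ⟨by rw [hX]; exact hqp⟩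
    obtain ⟨⟨x, hx⟩, hgx⟩ := (isCyclic_of_prime_card (α := X) rfl).exists_generator
    have hle : X ≤ Subgroup.zpowers x := by
      intro y hy
      obtain ⟨k, hk⟩ := Subgroup.mem_zpowers_iff.mp (hgx ⟨y, hy⟩)
      refine Subgroup.mem_zpowers_iff.mpr ⟨k, ?_⟩
      have := congrArg Subtype.val hk
      simpa using this
    have hge : Subgroup.zpowers x ≤ X := Subgroup.zpowers_le.mpr hx
    have heq : X = Subgroup.zpowers x := le_antisymm hle hge
    refine ⟨x, hx, ?_, heq⟩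
    rw [← Nat.card_zpowers, ← heq, hX]
  obtain ⟨x₁, hx₁, ho₁, he₁⟩ := hgen X₁ hc₁
  obtain ⟨x₂, hx₂, ho₂, he₂⟩ := hgen X₂ hc₂
  have hx₁Q := h₁ hx₁
  have hx₂Q := h₂ hx₂
  have hcent : ∀ (X : Subgroup S) (x : S), X = Subgroup.zpowers x → ∀ y : S,
      y ∈ Subgroup.centralizer (X : Set S) ↔ x * y * x⁻¹ = y := by
    intro X x hX y
    rw [Subgroup.mem_centralizer_iff]
    constructor
    · intro h
      have h1 := h x (by rw [hX]; exact Subgroup.mem_zpowers x)
      rw [h1]; group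
    · intro h z hz
      rw [SetLike.mem_coe, hX] at hz
      obtain ⟨k, rfl⟩ := Subgroup.mem_zpowers_iff.mp hz
      have h2 : Commute x y := by
        show x * y = y * x
        calc x * y = x * y * x⁻¹ * x := by group
          _ = y * x := by rw [h]
      exact (h2.zpow_left k).eq
  have hne : ∀ (X X' : Subgroup S) (x : S), X' = Subgroup.zpowers x → x ∈ X → Nat.card X = q →
      Nat.card X' = q → X ≠ X' → False := by
    intro X X' x hX' hxX hcX hcX' hn
    have hle : X' ≤ X := by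
      rw [hX', Subgroup.zpowers_le]; exact hxX
    exact hn (Subgroup.eq_of_le_of_card_ge hle (by rw [hcX, hcX'])).symm
  let σ : MulAut (P : Subgroup S) := MulAut.conjNormal x₁
  let τ : MulAut (P : Subgroup S) := MulAut.conjNormal x₂
  have hconj : ∀ (x : S) (y : (P : Subgroup S)),
      ((MulAut.conjNormal x : MulAut (P : Subgroup S)) y : S) = x * y * x⁻¹ :=
    fun x y => MulAut.conjNormal_apply x y
  have hστ : σ * τ = τ * σ := by
    show MulAut.conjNormal x₁ * MulAut.conjNormal x₂ = MulAut.conjNormal x₂ * MulAut.conjNormal x₁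
    rw [← map_mul, ← map_mul, hQc2 _ hx₁Q _ hx₂Q]
  have hσq : σ ^ q = 1 := by
    show (MulAut.conjNormal x₁) ^ q = 1
    rw [← map_pow, hQexp _ hx₁Q, map_one]
  have hτq : τ ^ q = 1 := by
    show (MulAut.conjNormal x₂) ^ q = 1
    rw [← map_pow, hQexp _ hx₂Q, map_one]
  have hfpf : ∀ i, 0 < i → i < q → ∀ x, (σ * τ ^ i) x = x → x = 1 := by
    intro i hi hiq y hy
    by_contra hy1
    set c := x₁ * x₂ ^ i with hc
    have hcQ : c ∈ Q := Q.mul_mem hx₁Q (Q.pow_mem hx₂Q i)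
    have hcc : (σ * τ ^ i) = MulAut.conjNormal c := by
      show MulAut.conjNormal x₁ * (MulAut.conjNormal x₂) ^ i = MulAut.conjNormal c
      rw [← map_pow, ← map_mul]
    have hy2 : c * (y : S) * c⁻¹ = y := by
      rw [hcc] at hy
      have := congrArg Subtype.val hy
      rwa [hconj] at this
    have hc2 : c ∉ X₂ := by
      intro h
      have h1 : x₁ ∈ X₂ := by
        have h3 : x₁ = c * (x₂ ^ i)⁻¹ := by rw [hc]; group
        rw [h3]
        exact X₂.mul_mem h (X₂.inv_mem (X₂.pow_mem hx₂ i))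
      exact hne X₂ X₁ x₁ he₁ h1 hc₂ hc₁ h₁₂.symm
    have hc1 : c ∉ X₁ := by
      intro h
      have h1 : x₂ ^ i ∈ X₁ := by
        have h3 : x₂ ^ i = x₁⁻¹ * c := by rw [hc]; group
        rw [h3]
        exact X₁.mul_mem (X₁.inv_mem hx₁) h
      have hcop : Nat.Coprime i q := by
        apply Nat.Coprime.symm
        exact (Nat.Prime.coprime_iff_not_dvd hqp).mpr (fun h => by
          have := Nat.le_of_dvd hi h
          omega)
      obtain ⟨m, -, hm⟩ := Nat.exists_mul_mod_eq_one_of_coprime hcop hq1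
      have h4 : x₂ ∈ X₁ := by
        have h5 := X₁.pow_mem h1 m
        rw [← pow_mul, pow_eq_pow_mod _ (hQexp _ hx₂Q), hm, pow_one] at h5
        exact h5
      exact hne X₁ X₂ x₂ he₂ h4 hc₁ hc₂ h₁₂
    have hc1' : c ≠ 1 := fun h => hc2 (h ▸ X₂.one_mem)
    have hoc : orderOf c = q := orderOf_eq_prime (hQexp c hcQ) hc1'
    have hX : Subgroup.zpowers c ≤ Q := Subgroup.zpowers_le.mpr hcQ
    have hXc : Nat.card (Subgroup.zpowers c) = q := by rw [Nat.card_zpowers, hoc]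
    have hnb : (P : Subgroup S) ⊓ Subgroup.centralizer ((Subgroup.zpowers c : Subgroup S) : Set S) ≠ ⊥ := by
      intro h
      have h1 : (y : S) ∈ (P : Subgroup S) ⊓ Subgroup.centralizer ((Subgroup.zpowers c : Subgroup S) : Set S) :=
        ⟨y.2, (hcent _ c rfl y).mpr hy2⟩
      rw [h, Subgroup.mem_bot] at h1
      exact hy1 (Subtype.ext h1)
    rcases honly _ hX hXc hnb with h | h
    · exact hc1 (h ▸ Subgroup.mem_zpowers c)
    · exact hc2 (h ▸ Subgroup.mem_zpowers c)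
  obtain ⟨hm1, hm2⟩ := main_abs (p := p) (q := q) hpq _ (P : Subgroup S) rfl P.isPGroup' σ τ hστ hσq hτq hfpf
  have hσf : ∀ y : (P : Subgroup S), σ y = y ↔ (y : S) ∈ Subgroup.centralizer (X₁ : Set S) := by
    intro y
    rw [hcent X₁ x₁ he₁]
    constructor
    · intro h
      have := congrArg Subtype.val h
      rwa [hconj] at this
    · intro h
      apply Subtype.ext
      rw [hconj]; exact h
  have hτf : ∀ y : (P : Subgroup S), τ y = y ↔ (y : S) ∈ Subgroup.centralizer (X₂ : Set S) := by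
    intro y
    rw [hcent X₂ x₂ he₂]
    constructor
    · intro h
      have := congrArg Subtype.val h
      rwa [hconj] at this
    · intro h
      apply Subtype.ext
      rw [hconj]; exact h
  refine ⟨?_, ?_, ?_⟩
  · rw [Subgroup.commutator_eq_bot_iff_le_centralizer]
    intro a ha
    rw [Subgroup.mem_centralizer_iff]
    intro b hb
    have h1 := hm1 ⟨a, ha.1⟩ ⟨b, hb.1⟩ ((hσf _).mpr ha.2) ((hτf _).mpr hb.2)
    have h2 := congrArg Subtype.val h1
    exact h2.symm
  · rw [eq_bot_iff]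
    intro x hx
    rw [Subgroup.mem_bot]
    obtain ⟨⟨hxP, hx1⟩, ⟨-, hx2⟩⟩ := hx
    have h1 := hfpf 1 one_pos hq1 ⟨x, hxP⟩ (by
      show σ ((τ ^ 1) ⟨x, hxP⟩) = ⟨x, hxP⟩
      rw [pow_one, (hτf _).mpr hx2, (hσf _).mpr hx1])
    exact congrArg Subtype.val h1
  · apply le_antisymm (sup_le inf_le_left inf_le_left)
    intro x hx
    obtain ⟨a, b, ha, hb, hab⟩ := hm2 ⟨x, hx⟩
    have h2 : x = (a : S) * (b : S) := congrArg Subtype.val hab
    rw [h2]
    exact Subgroup.mul_mem_sup ⟨a.2, (hσf a).mp ha⟩ ⟨b.2, (hτf b).mp hb⟩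

end Cfsg.Agent.S1900
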