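import Cfsg.Statements.S1901
import Mathlib
import Cfsg.Agent.Lib.CharBlockPSolv
import Cfsg.Agent.Lib.SecTransfer
import Cfsg.Agent.Lib.FitCore
import Cfsg.Agent.Lib.UpperP
import Cfsg.Agent.Lib.StrongEmb

set_option autoImplicit false
open Cfsg

namespace Cfsg.Agent.S1901

open Cfsg Cfsg.Agent.Lib Cfsg.Agent.Lib.SylowIn

universe u

theorem red_step {p : ℕ} [Fact p.Prime]
    {G : Type u} [Group G] [Finite G] (N : Subgroup G) [N.Normal]
    (IH : IsPSolvable p (G ⧸ N) → ∀ (Q : Subgroup (G ⧸ N)) (P : Sylow p (G ⧸ N)), ¬ p ∣ Nat.card Q →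
        Q ≤ Subgroup.normalizer ((P : Subgroup (G ⧸ N)) : Set (G ⧸ N)) →
        ∀ x, x ∈ Subgroup.normalizer (Q : Set (G ⧸ N)) → (∃ k : ℕ, x ^ p ^ k = 1) → ∀ q ∈ Q, x * q * x⁻¹ = q)
    (hs : IsPSolvable p G) (Q : Subgroup G) (P : Sylow p G) (hQ : ¬ p ∣ Nat.card Q)
    (hQP : Q ≤ Subgroup.normalizer ((P : Subgroup G) : Set G))
    (x : G) (hx : x ∈ Subgroup.normalizer (Q : Set G)) (hxp : ∃ k : ℕ, x ^ p ^ k = 1) :
    ∀ q ∈ Q, x * q * x⁻¹ * q⁻¹ ∈ N := by
  intro q hq
  let mk := QuotientGroup.mk' N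
  have hmk : Function.Surjective mk := QuotientGroup.mk'_surjective N
  have hQb : ¬ p ∣ Nat.card (Q.map mk) := by
    intro h
    apply hQ
    exact h.trans (Subgroup.card_dvd_of_surjective (mk.subgroupMap Q) (mk.subgroupMap_surjective Q))
  let Pb : Sylow p (G ⧸ N) := P.mapSurjective hmk
  have hPb : ((Pb : Sylow p (G ⧸ N)) : Subgroup (G ⧸ N)) = (P : Subgroup G).map mk := Sylow.coe_mapSurjective hmk P
  have hQPb : Q.map mk ≤ Subgroup.normalizer ((Pb : Subgroup (G ⧸ N)) : Set (G ⧸ N)) := by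
    rw [hPb]
    rintro _ ⟨q', hq', rfl⟩
    exact Subgroup.le_normalizer_map mk ⟨q', hQP hq', rfl⟩
  have hxb : mk x ∈ Subgroup.normalizer ((Q.map mk : Subgroup (G ⧸ N)) : Set (G ⧸ N)) :=
    Subgroup.le_normalizer_map mk ⟨x, hx, rfl⟩
  have hxbp : ∃ k : ℕ, (mk x) ^ p ^ k = 1 := by
    obtain ⟨k, hk⟩ := hxp
    exact ⟨k, by rw [← map_pow, hk, map_one]⟩
  have h1 := IH (UpperP.isPSolvable_quotient hs N) (Q.map mk) Pb hQb hQPb (mk x) hxb hxbp (mk q) ⟨q, hq, rfl⟩
  have h2 : mk (x * q * x⁻¹ * q⁻¹) = 1 := by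
    rw [map_mul, map_mul, map_mul, map_inv, map_inv, h1]
    group
  exact (QuotientGroup.eq_one_iff _).1 h2

theorem comm_final {G : Type u} [Group G] [Finite G] {p : ℕ} [Fact p.Prime] (Q : Subgroup G)
    (hQ : ¬ p ∣ Nat.card Q) (x q : G) (hq : x * q * x⁻¹ * q⁻¹ ∈ Q)
    (hxc : x * (x * q * x⁻¹ * q⁻¹) * x⁻¹ = x * q * x⁻¹ * q⁻¹) (k : ℕ) (hk : x ^ p ^ k = 1) :
    x * q * x⁻¹ = q := by
  have hpp : p.Prime := Fact.out
  set c := x * q * x⁻¹ * q⁻¹ with hc
  have hxq : x * q * x⁻¹ = c * q := by rw [hc]; group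
  have hpow : ∀ m : ℕ, x * c ^ m * x⁻¹ = c ^ m := by
    intro m
    have := conj_pow (a := x) (b := c) (i := m)
    rw [← this, hxc]
  have h : ∀ m : ℕ, x ^ m * q * (x ^ m)⁻¹ = c ^ m * q := by
    intro m
    induction m with
    | zero => simp
    | succ m ih =>
      have e1 : x ^ (m + 1) * q * (x ^ (m + 1))⁻¹ = x * (x ^ m * q * (x ^ m)⁻¹) * x⁻¹ := by
        rw [pow_succ']; group
      rw [e1, ih]
      have e2 : x * (c ^ m * q) * x⁻¹ = (x * c ^ m * x⁻¹) * (x * q * x⁻¹) := by group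
      rw [e2, hpow, hxq, ← mul_assoc, ← pow_succ]
  have h1 := h (p ^ k)
  rw [hk] at h1
  have h2 : c ^ p ^ k = 1 := by
    have : (1 : G) * q * (1 : G)⁻¹ = q := by group
    rw [this] at h1
    exact (mul_eq_right.1 h1.symm)
  have h3 : orderOf c ∣ p ^ k := orderOf_dvd_of_pow_eq_one h2
  have h4 : orderOf c ∣ Nat.card Q := Subgroup.orderOf_dvd_natCard Q hq
  have h5 : Nat.Coprime (p ^ k) (Nat.card Q) :=
    Nat.Coprime.pow_left k ((Nat.Prime.coprime_iff_not_dvd hpp).2 hQ)
  have h6 : orderOf c = 1 := Nat.eq_one_of_dvd_coprimes h5 h3 h4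
  have h7 : c = 1 := orderOf_eq_one_iff.1 h6
  rw [hxq, h7, one_mul]

theorem H_aux {p : ℕ} [Fact p.Prime] : ∀ (n : ℕ) (G : Type u) [Group G] [Finite G], Nat.card G = n →
    IsPSolvable p G → ∀ (Q : Subgroup G) (P : Sylow p G), ¬ p ∣ Nat.card Q →
    Q ≤ Subgroup.normalizer ((P : Subgroup G) : Set G) →
    ∀ x, x ∈ Subgroup.normalizer (Q : Set G) → (∃ k : ℕ, x ^ p ^ k = 1) → ∀ q ∈ Q, x * q * x⁻¹ = q := by
  intro n
  induction n using Nat.strong_induction_on with
  | _ n ih =>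
  intro G _ _ hn hs Q P hQ hQP x hx hxp q hq
  have hpp : p.Prime := Fact.out
  have IH : ∀ (N : Subgroup G) [N.Normal], N ≠ ⊥ → ∀ q ∈ Q, x * q * x⁻¹ * q⁻¹ ∈ N := by
    intro N _ hN
    refine red_step N ?_ hs Q P hQ hQP x hx hxp
    have hlt : Nat.card (G ⧸ N) < n := by
      rw [← hn]
      have h1 := Subgroup.card_mul_index N
      have h2 : 1 < Nat.card N := by
        haveI : Nontrivial N := (Subgroup.nontrivial_iff_ne_bot N).2 hN
        exact Finite.one_lt_card
      have h3 : 0 < N.index := Nat.pos_of_ne_zero Subgroup.index_ne_zero_of_finite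
      rw [← h1]
      have e : Nat.card (G ⧸ N) = N.index := rfl
      rw [e]
      nlinarith
    exact ih _ hlt (G ⧸ N) rfl
  have hcomm_mem : x * q * x⁻¹ * q⁻¹ ∈ Q := by
    have h1 : x * q * x⁻¹ ∈ Q := (Subgroup.mem_normalizer_iff.1 hx q).1 hq
    exact Q.mul_mem h1 (Q.inv_mem hq)
  by_cases hV : pCore p G = ⊥
  · by_cases hL : pPrimeCore p G = ⊥
    · -- `G` trivial
      have h1 := CharBlockPSolv.centralizer_pCore_le_of_pSolvable hs hL
      rw [hV] at h1
      have hc : Subgroup.centralizer (((⊥ : Subgroup G)) : Set G) = ⊤ := by simp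
      rw [hc] at h1
      have hx1 : x = 1 := by
        have := h1 (Subgroup.mem_top x)
        simpa using this
      rw [hx1]; group
    · -- the `p'`-core
      haveI hLn : (pPrimeCore p G).Normal := FitCore.pPrimeCore_normal p
      have hLc : ¬ p ∣ Nat.card (pPrimeCore p G) := FitCore.not_dvd_card_pPrimeCore p hpp
      have hred := IH (pPrimeCore p G) hL
      -- `Q₀ = Q ∩ L` is centralised by `P`
      let Q₀ : Subgroup G := Q ⊓ pPrimeCore p G
      have hQ₀P : ∀ c ∈ Q₀, ∀ u ∈ (P : Subgroup G), u * c = c * u := by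
        intro c hc u hu
        have h1 : c * u * c⁻¹ ∈ (P : Subgroup G) := (Subgroup.mem_normalizer_iff.1 (hQP hc.1) u).1 hu
        have h2 : c * u * c⁻¹ * u⁻¹ ∈ (P : Subgroup G) := Subgroup.mul_mem _ h1 (Subgroup.inv_mem _ hu)
        have h3 : c * u * c⁻¹ * u⁻¹ ∈ pPrimeCore p G := by
          have h4 := hLn.conj_mem _ ((pPrimeCore p G).inv_mem hc.2) u
          have e : c * u * c⁻¹ * u⁻¹ = c * (u * c⁻¹ * u⁻¹) := by group
          rw [e]
          exact (pPrimeCore p G).mul_mem hc.2 h4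
        have h5 := SecTransfer.eq_one_of_mem_coprime P.isPGroup' hLc h2 h3
        have h6 : c * u * c⁻¹ = u := mul_inv_eq_one.1 h5
        calc u * c = (c * u * c⁻¹) * c := by rw [h6]
          _ = c * u := by group
      -- `x` normalises `Q₀` and therefore centralises it
      have hxQ₀ : x ∈ Subgroup.normalizer (Q₀ : Set G) := by
        rw [Subgroup.mem_normalizer_iff]
        intro c
        constructor
        · intro hc
          exact ⟨(Subgroup.mem_normalizer_iff.1 hx c).1 hc.1, hLn.conj_mem c hc.2 x⟩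
        · intro hc
          refine ⟨(Subgroup.mem_normalizer_iff.1 hx c).2 hc.1, ?_⟩
          have := hLn.conj_mem _ hc.2 x⁻¹
          have e : x⁻¹ * (x * c * x⁻¹) * x⁻¹⁻¹ = c := by group
          rwa [e] at this
      have hPN : (P : Subgroup G) ≤ Subgroup.normalizer (Q₀ : Set G) := by
        intro u hu
        rw [Subgroup.mem_normalizer_iff]
        intro c
        have hcomm : ∀ c ∈ Q₀, u * c * u⁻¹ = c := by
          intro c hc
          rw [hQ₀P c hc u hu]; group
        constructor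
        · intro hc
          rw [hcomm c hc]; exact hc
        · intro hc
          have h1 := hcomm _ hc
          have h2 : u * c * u⁻¹ = u * (u * c * u⁻¹) * u⁻¹ := h1.symm
          have h3 : c = u * c * u⁻¹ := mul_left_cancel (mul_right_cancel h2)
          rw [h3]; exact hc
      have hPS : IsSylowIn p (P : Subgroup G) (Subgroup.normalizer (Q₀ : Set G)) := by
        refine isSylowIn_of_card hPN P.isPGroup' ?_
        intro T _ hTp
        obtain ⟨S, hS⟩ := hTp.exists_le_sylow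
        have h1 := Subgroup.card_le_of_le hS
        have h2 : Nat.card (S : Subgroup G) = Nat.card (P : Subgroup G) := by
          rw [Sylow.card_eq_multiplicity, Sylow.card_eq_multiplicity]
        omega
      have hzp : IsPGroup p (Subgroup.zpowers x) := by
        obtain ⟨k, hk⟩ := hxp
        have h1 : orderOf x ∣ p ^ k := orderOf_dvd_of_pow_eq_one hk
        obtain ⟨j, -, hj⟩ := (Nat.dvd_prime_pow hpp).1 h1
        apply IsPGroup.of_card (n := j)
        rw [Nat.card_zpowers, hj]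
      have hzle : Subgroup.zpowers x ≤ Subgroup.normalizer (Q₀ : Set G) := by
        rw [Subgroup.zpowers_le]; exact hxQ₀
      obtain ⟨T, hzT, hTN, hTS⟩ := exists_isSylowIn_ge hzle hzp
      obtain ⟨k, hkN, hk⟩ := StrongEmb.IsSylowIn.exists_conj hPS hTS hPN hTN
      have hxT : x ∈ T := hzT (Subgroup.mem_zpowers x)
      rw [hk, mem_map_conj] at hxT
      have hxQ₀c : ∀ c ∈ Q₀, x * c * x⁻¹ = c := by
        intro c hc
        have h1 : k⁻¹ * c * k ∈ Q₀ := by
          have := (Subgroup.mem_normalizer_iff.1 (Subgroup.inv_mem _ hkN) c).1 hc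
          simpa using this
        have h2 := hQ₀P _ h1 _ hxT
        have e : x = k * (k⁻¹ * x * k) * k⁻¹ := by group
        calc x * c * x⁻¹ = k * ((k⁻¹ * x * k) * (k⁻¹ * c * k)) * (k⁻¹ * x * k)⁻¹ * k⁻¹ := by group
          _ = k * ((k⁻¹ * c * k) * (k⁻¹ * x * k)) * (k⁻¹ * x * k)⁻¹ * k⁻¹ := by rw [h2]
          _ = c := by group
      -- final
      have hc0 : x * q * x⁻¹ * q⁻¹ ∈ Q₀ := ⟨hcomm_mem, hred q hq⟩
      obtain ⟨k, hk⟩ := hxp
      exact comm_final Q hQ x q hcomm_mem (hxQ₀c _ hc0) k hk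
  · haveI hVn : (pCore p G).Normal := FitCore.pCore_normal p
    have h1 := IH (pCore p G) hV q hq
    have h2 := SecTransfer.eq_one_of_mem_coprime (FitCore.pCore_isPGroup p) hQ h1 hcomm_mem
    exact mul_inv_eq_one.1 h2

/-- Let G be a finite p-solvable group and Q a subgroup of order prime to p such that p divides the index of C_G(Q) in N_G(Q). Then Q normalizes no Sylow p-subgroup of G. -/
theorem result {G : Type*} [Group G] [Finite G] {p : ℕ} [Fact p.Prime]
    (hG : Cfsg.IsPSolvable p G) (Q : Subgroup G) (hQ : ¬ p ∣ Nat.card Q)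
    (hA : p ∣ (Subgroup.centralizer (Q : Set G)).relIndex (Subgroup.normalizer (Q : Set G)))
    (P : Sylow p G) : ¬ Q ≤ Subgroup.normalizer ((P : Subgroup G) : Set G) := by
  intro hle
  have hpp : p.Prime := Fact.out
  have hall := H_aux _ G rfl hG Q P hQ hle
  set N := Subgroup.normalizer (Q : Set G) with hN
  set C := Subgroup.centralizer (Q : Set G) with hC
  haveI hn : (C.subgroupOf N).Normal := by
    constructor
    intro n hn g
    rw [Subgroup.mem_subgroupOf] at hn ⊢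
    rw [hC, Subgroup.mem_centralizer_iff] at hn ⊢
    intro h hh
    have hg : (g : G) ∈ Subgroup.normalizer (Q : Set G) := g.2
    have h1 : (g : G)⁻¹ * h * g ∈ Q := by
      have := (Subgroup.mem_normalizer_iff.1 (Subgroup.inv_mem _ hg) h).1 hh
      simpa using this
    have h2 := hn _ h1
    have e : ((g * n * g⁻¹ : N) : G) = g * n * (g : G)⁻¹ := by simp
    rw [e]
    calc h * (g * n * (g : G)⁻¹) = g * (((g : G)⁻¹ * h * g) * n) * (g : G)⁻¹ := by group
      _ = g * (n * ((g : G)⁻¹ * h * g)) * (g : G)⁻¹ := by rw [h2]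
      _ = g * n * (g : G)⁻¹ * h := by group
  have hcard : p ∣ Nat.card (N ⧸ C.subgroupOf N) := hA
  obtain ⟨z, hz⟩ := exists_prime_orderOf_dvd_card' p hcard
  obtain ⟨y, rfl⟩ := QuotientGroup.mk_surjective z
  have hord : orderOf (y : G) ≠ 0 := (orderOf_pos (y : G)).ne'
  obtain ⟨a, m, hm, hy⟩ := Nat.exists_eq_pow_mul_and_not_dvd hord p hpp.ne_one
  have hxp : ((y : G) ^ m) ^ p ^ a = 1 := by
    rw [← pow_mul, mul_comm, ← hy, pow_orderOf_eq_one]
  have hxN : (y : G) ^ m ∈ N := Subgroup.pow_mem _ y.2 m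
  have hcent := hall _ hxN ⟨a, hxp⟩
  have hxC : (y ^ m : N) ∈ C.subgroupOf N := by
    rw [Subgroup.mem_subgroupOf, hC, Subgroup.mem_centralizer_iff]
    intro q hq
    have h1 := hcent q hq
    have e : ((y ^ m : N) : G) = (y : G) ^ m := by simp
    rw [e]
    calc q * (y : G) ^ m = (y : G) ^ m * q * ((y : G) ^ m)⁻¹ * (y : G) ^ m := by rw [h1]
      _ = (y : G) ^ m * q := by group
  have h2 : ((y : N ⧸ C.subgroupOf N)) ^ m = 1 := by
    rw [← QuotientGroup.mk_pow]
    exact (QuotientGroup.eq_one_iff _).2 hxC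
  have h3 := orderOf_dvd_of_pow_eq_one h2
  rw [hz] at h3
  exact hm h3

end Cfsg.Agent.S1901
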