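import Cfsg.Statements.S1905
import Cfsg.Agent.Lib.StrongEmb2New
-- import your own Cfsg.Agent.* helpers here

set_option autoImplicit false
open Cfsg

namespace Cfsg.Agent.S1905

/-- Let M be a subgroup of even order of a finite group S such that M contains the centralizer in S of each of its involutions and the normal core of M in S has odd order. Then all involutions of S are conjugate. If moreover N_S(X) ≤ M for a Sylow 2-subgroup X of M and I is an involution in the centre of X, then all involutions of M are conjugate in M and M = M₀ C_M(I) for some subgroup M₀ of M of odd order. -/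
theorem result {S : Type*} [Group S] [Finite S] (M : Subgroup S) (hM : Even (Nat.card M))
    (hC : ∀ i ∈ M, orderOf i = 2 → Subgroup.centralizer ({i} : Set S) ≤ M) (hcore : Odd (Nat.card M.normalCore)) :
    (∀ x y : S, orderOf x = 2 → orderOf y = 2 → IsConj x y) ∧
      ∀ (X : Sylow 2 M) (I : M), I ∈ (Subgroup.center ↥(X : Subgroup ↥M)).map (X : Subgroup ↥M).subtype → orderOf I = 2 →
        Subgroup.normalizer (((X : Subgroup M).map M.subtype : Subgroup S) : Set S) ≤ M →
        (∀ x y : M, orderOf x = 2 → orderOf y = 2 → IsConj x y) ∧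
          ∃ M₀ : Subgroup M, Odd (Nat.card M₀) ∧
            ∀ m : M, ∃ a ∈ M₀, ∃ c ∈ Subgroup.centralizer ({I} : Set M), m = a * c := by
  have hall := Cfsg.Agent.Lib.StrongEmb2.all_conj M hM hC hcore
  refine ⟨hall, ?_⟩
  intro X I _ hI2 hN
  haveI : Fact (Nat.Prime 2) := ⟨Nat.prime_two⟩
  set X' : Subgroup S := (X : Subgroup M).map M.subtype with hX'
  have hX'M : X' ≤ M := by
    rw [hX']; exact Subgroup.map_subtype_le _
  have hX : Cfsg.Agent.Lib.SylowIn.IsSylowIn 2 X' M :=
    ⟨X, by rw [hX']; ext x; simp [Subgroup.mem_subgroupOf]⟩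
  have hI2' : orderOf (I : S) = 2 := by
    rw [Subgroup.orderOf_coe]; exact hI2
  obtain ⟨h1, M₀, hM₀, hodd, h2⟩ :=
    Cfsg.Agent.Lib.StrongEmb2.main_two M X' hM hC hcore hX hX'M hN I.2 hI2'
  refine ⟨?_, M₀.subgroupOf M, ?_, ?_⟩
  · intro x y hx hy
    obtain ⟨c, hcM, hc⟩ := h1 x y x.2 y.2 (by rw [Subgroup.orderOf_coe]; exact hx)
      (by rw [Subgroup.orderOf_coe]; exact hy)
    rw [isConj_iff]
    exact ⟨⟨c, hcM⟩, Subtype.ext hc⟩
  · have : Nat.card (M₀.subgroupOf M) = Nat.card M₀ :=
      Nat.card_congr (Subgroup.subgroupOfEquivOfLe hM₀).toEquiv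
    rw [this]; exact hodd
  · intro m
    obtain ⟨a, ha, c, hcM, hcI, hm⟩ := h2 m m.2
    refine ⟨⟨a, hM₀ ha⟩, ?_, ⟨c, hcM⟩, ?_, Subtype.ext hm⟩
    · simpa [Subgroup.mem_subgroupOf] using ha
    · rw [Subgroup.mem_centralizer_singleton_iff]
      exact Subtype.ext hcI

end Cfsg.Agent.S1905
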