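import Cfsg.Statements.S1907
import Mathlib
import Cfsg.Agent.Lib.PComps2
import Cfsg.Agent.Lib.SecTransfer
import Cfsg.Agent.Lib.StrongEmb
import Cfsg.Agent.Lib.SylowIn
import Cfsg.Agent.Lib.FitCore
import Cfsg.Agent.Lib.ExtLayer

set_option autoImplicit false
open Cfsg

namespace Cfsg.Agent.S1907

open Cfsg Cfsg.Agent.Lib Cfsg.Agent.Lib.SylowIn

theorem fix_coset {G : Type*} [Group G] [Finite G] {p : ℕ} [Fact p.Prime] (C : Subgroup G)
    (hC : ¬ p ∣ Nat.card C) (y : G) (k : ℕ) (hy : y ^ p ^ k = 1) (d : G)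
    (hstep : ∀ z : G, d⁻¹ * z ∈ C → d⁻¹ * (y * z * y⁻¹) ∈ C) :
    ∃ z, y * z * y⁻¹ = z ∧ d⁻¹ * z ∈ C := by
  classical
  haveI : Fintype G := Fintype.ofFinite G
  let S := {z : G // d⁻¹ * z ∈ C}
  let f : Function.End S := fun z => ⟨y * z.1 * y⁻¹, hstep z.1 z.2⟩
  have hfn : ∀ (n : ℕ) (z : S), ((f ^ n) z).1 = y ^ n * z.1 * (y ^ n)⁻¹ := by
    intro n z
    induction n with
    | zero =>
      simp
      rfl
    | succ n ih =>
      rw [pow_succ', Function.End.mul_def]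
      show y * ((f ^ n) z).1 * y⁻¹ = _
      rw [ih, pow_succ']; group
  have hf : f ^ p ^ k = 1 := by
    funext z
    apply Subtype.ext
    rw [hfn, hy]
    simp
    rfl
  have hmod := Equiv.Perm.card_fixedPoints_modEq (p := p) (n := k) hf
  have hcardS : Fintype.card S = Nat.card C := by
    rw [← Nat.card_eq_fintype_card]
    exact Nat.card_congr
      { toFun := fun z => ⟨d⁻¹ * z.1, z.2⟩
        invFun := fun o => ⟨d * o.1, by simpa using o.2⟩
        left_inv := fun z => Subtype.ext (by simp)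
        right_inv := fun o => Subtype.ext (by simp) }
  have hne : 0 < Fintype.card f.fixedPoints := by
    by_contra h0
    have h00 : Fintype.card f.fixedPoints = 0 := by omega
    rw [h00] at hmod
    apply hC
    rw [← hcardS]
    exact (Nat.modEq_zero_iff_dvd).1 hmod
  obtain ⟨⟨z, hz⟩⟩ := Fintype.card_pos_iff.1 hne
  exact ⟨z.1, congrArg Subtype.val hz, z.2⟩

theorem part_a {G : Type*} [Group G] [Finite G] {p : ℕ} [Fact p.Prime] (D H : Subgroup G) [hDn : D.Normal]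
    (hDc : ¬ p ∣ Nat.card D) (hH : IsPGroup p H)
    (y : G) (hyN : y ∈ Subgroup.normalizer (H : Set G)) (hy : ∃ k : ℕ, orderOf y = p ^ k)
    (d : G) (hd : d ∈ D) (hdy : d⁻¹ * y * d ∈ Subgroup.normalizer (H : Set G)) :
    ∃ d₁ ∈ D ⊓ Subgroup.centralizer ({y} : Set G), ∃ d₂ ∈ D ⊓ Subgroup.centralizer (H : Set G), d = d₁ * d₂ := by
  classical
  set N := Subgroup.normalizer (H : Set G) with hN
  have hfact : ∀ c ∈ D, c ∈ N → c ∈ Subgroup.centralizer (H : Set G) := by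
    intro c hcD hcN
    refine Subgroup.mem_centralizer_iff.2 ?_
    intro u hu
    have h1 : c * u * c⁻¹ ∈ H := (Subgroup.mem_normalizer_iff.1 hcN u).1 hu
    have h2 : c * u * c⁻¹ * u⁻¹ ∈ H := H.mul_mem h1 (H.inv_mem hu)
    have h3 : c * u * c⁻¹ * u⁻¹ ∈ D := by
      have h4 := hDn.conj_mem _ (D.inv_mem hcD) u
      have e : c * u * c⁻¹ * u⁻¹ = c * (u * c⁻¹ * u⁻¹) := by group
      rw [e]
      exact D.mul_mem hcD h4
    have h5 := SecTransfer.eq_one_of_mem_coprime hH hDc h2 h3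
    have h6 : c * u * c⁻¹ = u := mul_inv_eq_one.1 h5
    calc u * c = (c * u * c⁻¹) * c := by rw [h6]
      _ = c * u := by group
  obtain ⟨k, hk⟩ := hy
  have hyk : y ^ p ^ k = 1 := by rw [← hk]; exact pow_orderOf_eq_one y
  set C := D ⊓ Subgroup.centralizer (H : Set G) with hC
  have hCc : ¬ p ∣ Nat.card C := fun h => hDc (h.trans (Subgroup.card_dvd_of_le inf_le_left))
  have hyC : ∀ c ∈ C, y * c * y⁻¹ ∈ C := by
    intro c hc
    refine ⟨hDn.conj_mem c hc.1 y, Subgroup.mem_centralizer_iff.2 ?_⟩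
    intro u hu
    have h1 : y⁻¹ * u * y ∈ H := by
      have := (Subgroup.mem_normalizer_iff.1 (Subgroup.inv_mem _ hyN) u).1 hu
      simpa using this
    have h2 := Subgroup.mem_centralizer_iff.1 hc.2 _ h1
    calc u * (y * c * y⁻¹) = y * ((y⁻¹ * u * y) * c) * y⁻¹ := by group
      _ = y * (c * (y⁻¹ * u * y)) * y⁻¹ := by rw [h2]
      _ = (y * c * y⁻¹) * u := by group
  obtain ⟨z, hzf, hz⟩ := fix_coset C hCc y k hyk d (by
    intro z hz
    set c := d⁻¹ * z with hc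
    have hzd : z = d * c := by rw [hc]; group
    have e : d⁻¹ * (y * z * y⁻¹) = (d⁻¹ * y * d * y⁻¹) * (y * c * y⁻¹) := by
      rw [hzd]; group
    rw [e]
    refine C.mul_mem ?_ (hyC c hz)
    have hD : d⁻¹ * y * d * y⁻¹ ∈ D := by
      have e2 : d⁻¹ * y * d * y⁻¹ = d⁻¹ * (y * d * y⁻¹) := by group
      rw [e2]
      exact D.mul_mem (D.inv_mem hd) (hDn.conj_mem d hd y)
    have hNm : d⁻¹ * y * d * y⁻¹ ∈ N := N.mul_mem hdy (N.inv_mem hyN)
    exact ⟨hD, hfact _ hD hNm⟩)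
  have hzD : z ∈ D := by
    have := D.mul_mem hd hz.1
    have e : d * (d⁻¹ * z) = z := by group
    rwa [e] at this
  have hzc : z ∈ Subgroup.centralizer ({y} : Set G) := by
    refine Subgroup.mem_centralizer_iff.2 ?_
    intro h hh
    have hh' : h = y := hh
    rw [hh']
    calc y * z = y * z * y⁻¹ * y := by group
      _ = z * y := by rw [hzf]
  refine ⟨z, ⟨hzD, hzc⟩, z⁻¹ * d, ?_, by group⟩
  have := C.inv_mem hz
  have e : (d⁻¹ * z)⁻¹ = z⁻¹ * d := by group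
  rwa [e] at this

/-- Let P be a Sylow p-subgroup of a finite group G, H = P ∩ O_{p',p}(G), N = N_G(H) and D = O_{p'}(G). (a) If y is an element of p-power order of N and d ∈ D with d⁻¹ y d ∈ N, then d = d₁ d₂ with d₁ ∈ C_D(y) and d₂ ∈ C_D(H). (b) Two elements of P that are conjugate in G are conjugate in N. -/
theorem result {G : Type*} [Group G] [Finite G] {p : ℕ} [Fact p.Prime] (P : Sylow p G) :
    (∀ y ∈ Subgroup.normalizer (((P : Subgroup G) ⊓ Cfsg.pPrimePCore p G : Subgroup G) : Set G), (∃ k : ℕ, orderOf y = p ^ k) →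
      ∀ d ∈ Cfsg.pPrimeCore p G, d⁻¹ * y * d ∈ Subgroup.normalizer (((P : Subgroup G) ⊓ Cfsg.pPrimePCore p G : Subgroup G) : Set G) →
        ∃ d₁ ∈ Cfsg.pPrimeCore p G ⊓ Subgroup.centralizer ({y} : Set G),
          ∃ d₂ ∈ Cfsg.pPrimeCore p G ⊓ Subgroup.centralizer (((P : Subgroup G) ⊓ Cfsg.pPrimePCore p G : Subgroup G) : Set G), d = d₁ * d₂) ∧
    ∀ x y : G, x ∈ (P : Subgroup G) → y ∈ (P : Subgroup G) → IsConj x y →
      ∃ n ∈ Subgroup.normalizer (((P : Subgroup G) ⊓ Cfsg.pPrimePCore p G : Subgroup G) : Set G), n * x * n⁻¹ = y := by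
  classical
  have hpp : p.Prime := Fact.out
  set D := Cfsg.pPrimeCore p G with hD
  set O := Cfsg.pPrimePCore p G with hO
  haveI hDn : D.Normal := FitCore.pPrimeCore_normal p
  haveI hOn : O.Normal := ExtLayer.pPrimePCore_normal p
  have hDc : ¬ p ∣ Nat.card D := FitCore.not_dvd_card_pPrimeCore p hpp
  set H := (P : Subgroup G) ⊓ O with hH
  have hHp : IsPGroup p H := P.isPGroup'.to_le inf_le_left
  set N := Subgroup.normalizer (H : Set G) with hN
  have hA : ∀ y ∈ N, (∃ k : ℕ, orderOf y = p ^ k) →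
      ∀ d ∈ D, d⁻¹ * y * d ∈ N →
        ∃ d₁ ∈ D ⊓ Subgroup.centralizer ({y} : Set G), ∃ d₂ ∈ D ⊓ Subgroup.centralizer (H : Set G), d = d₁ * d₂ :=
    fun y hy hk d hd hdy => part_a D H hDc hHp y hy hk d hd hdy
  refine ⟨hA, ?_⟩
  -- `P` normalizes `H`
  have hPN : (P : Subgroup G) ≤ N := by
    intro u hu
    rw [hN, Subgroup.mem_normalizer_iff]
    intro c
    constructor
    · intro hc
      exact ⟨Subgroup.mul_mem _ (Subgroup.mul_mem _ hu hc.1) (Subgroup.inv_mem _ hu), hOn.conj_mem c hc.2 u⟩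
    · intro hc
      have h1 : u⁻¹ * (u * c * u⁻¹) * u ∈ (P : Subgroup G) :=
        Subgroup.mul_mem _ (Subgroup.mul_mem _ (Subgroup.inv_mem _ hu) hc.1) hu
      have h2 := hOn.conj_mem _ hc.2 u⁻¹
      have e : u⁻¹ * (u * c * u⁻¹) * u = c := by group
      have e' : u⁻¹ * (u * c * u⁻¹) * u⁻¹⁻¹ = c := by group
      rw [e] at h1
      rw [e'] at h2
      exact ⟨h1, h2⟩
  -- `H` is Sylow in `O`
  have hPS : IsSylowIn p (P : Subgroup G) ⊤ := by
    refine isSylowIn_of_card le_top P.isPGroup' ?_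
    intro T _ hTp
    obtain ⟨S, hS⟩ := hTp.exists_le_sylow
    have h1 := Subgroup.card_le_of_le hS
    have h2 : Nat.card (S : Subgroup G) = Nat.card (P : Subgroup G) := by
      rw [Sylow.card_eq_multiplicity, Sylow.card_eq_multiplicity]
    omega
  have hHO : IsSylowIn p H O := hPS.inf_of_normal le_top le_top (fun x _ m hm => hOn.conj_mem m hm x)
  have hHleO : H ≤ O := inf_le_right
  -- `O = H D`
  have hdec : ∀ o ∈ O, ∃ u ∈ H, u⁻¹ * o ∈ D := by
    intro o ho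
    let π := QuotientGroup.mk' D
    have hπ : Function.Surjective π := QuotientGroup.mk'_surjective D
    let Pb : Sylow p (G ⧸ D) := P.mapSurjective hπ
    have hPb : ((Pb : Sylow p (G ⧸ D)) : Subgroup (G ⧸ D)) = (P : Subgroup G).map π := Sylow.coe_mapSurjective hπ P
    have h1 : π o ∈ (Pb : Subgroup (G ⧸ D)) := FitCore.pCore_le_sylow p Pb ho
    rw [hPb] at h1
    obtain ⟨u, hu, hue⟩ := h1
    have h2 : u⁻¹ * o ∈ D := by
      have : π (u⁻¹ * o) = 1 := by rw [map_mul, map_inv, hue]; group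
      exact (QuotientGroup.eq_one_iff _).1 this
    have hDO : D ≤ O := by
      intro z hz
      have : π z = 1 := (QuotientGroup.eq_one_iff _).2 hz
      show π z ∈ pCore p (G ⧸ D)
      rw [this]; exact Subgroup.one_mem _
    have h3 : u ∈ O := by
      have := O.mul_mem ho (O.inv_mem (hDO h2))
      have e : o * (u⁻¹ * o)⁻¹ = u := by group
      rwa [e] at this
    exact ⟨u, ⟨hu, h3⟩, h2⟩
  -- Frattini
  have hfrat : ∀ g : G, ∃ n ∈ N, ∃ d ∈ D, g = n * d := by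
    intro g
    have hg : IsSylowIn p (H.map (MulAut.conj g).toMonoidHom) O := by
      refine isSylowIn_of_card ?_ (isPGroup_map_conj hHp g) ?_
      · rintro _ ⟨u, hu, rfl⟩
        exact hOn.conj_mem u (hHleO hu) g
      · intro T hT hTp
        rw [card_map_conj]
        exact hHO.card_le hHleO hT hTp
    obtain ⟨k, hkO, hk⟩ := StrongEmb.IsSylowIn.exists_conj hHO hg hHleO (by
      rintro _ ⟨u, hu, rfl⟩
      exact hOn.conj_mem u (hHleO hu) g)
    have hkg : k⁻¹ * g ∈ N := by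
      rw [hN, Subgroup.mem_normalizer_iff]
      intro c
      constructor
      · intro hc
        have h1 : g * c * g⁻¹ ∈ H.map (MulAut.conj g).toMonoidHom := ⟨c, hc, rfl⟩
        rw [hk, mem_map_conj] at h1
        have e : k⁻¹ * g * c * (k⁻¹ * g)⁻¹ = k⁻¹ * (g * c * g⁻¹) * k := by group
        rw [e]; exact h1
      · intro hc
        have e : k⁻¹ * g * c * (k⁻¹ * g)⁻¹ = k⁻¹ * (g * c * g⁻¹) * k := by group
        rw [e, ← mem_map_conj, ← hk, mem_map_conj] at hc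
        have e2 : g⁻¹ * (g * c * g⁻¹) * g = c := by group
        rwa [e2] at hc
    obtain ⟨u, hu, hud⟩ := hdec k hkO
    have huN : u ∈ N := hPN hu.1
    set n := k⁻¹ * g with hn
    refine ⟨u * n, N.mul_mem huN hkg, n⁻¹ * (u⁻¹ * k) * n, ?_, ?_⟩
    · have := hDn.conj_mem _ hud n⁻¹
      simpa using this
    · rw [hn]; group
  intro x y hx hy hconj
  obtain ⟨g, hg⟩ := isConj_iff.1 hconj
  obtain ⟨n', hn', d, hd, hge⟩ := hfrat g
  have hxN : x ∈ N := hPN hx
  have hyN : y ∈ N := hPN hy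
  have hk : ∃ k : ℕ, orderOf x = p ^ k := by
    obtain ⟨k, hk⟩ := (IsPGroup.iff_orderOf.1 P.isPGroup') ⟨x, hx⟩
    exact ⟨k, by rwa [Subgroup.orderOf_mk] at hk⟩
  have hdx : (d⁻¹)⁻¹ * x * d⁻¹ ∈ N := by
    have e : (d⁻¹)⁻¹ * x * d⁻¹ = n'⁻¹ * y * n' := by
      rw [← hg, hge]; group
    rw [e]
    exact N.mul_mem (N.mul_mem (N.inv_mem hn') hyN) hn'
  obtain ⟨d₁, hd₁, d₂, hd₂, hde⟩ := hA x hxN hk d⁻¹ (D.inv_mem hd) hdx
  have hd₂N : d₂ ∈ N := by
    rw [hN, Subgroup.mem_normalizer_iff]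
    intro c
    have hcomm : ∀ c ∈ H, d₂ * c * d₂⁻¹ = c := by
      intro c hc
      have := Subgroup.mem_centralizer_iff.1 hd₂.2 c hc
      rw [← this]; group
    constructor
    · intro hc
      rw [hcomm c hc]; exact hc
    · intro hc
      have h1 := hcomm _ hc
      have h2 : d₂ * c * d₂⁻¹ = d₂ * (d₂ * c * d₂⁻¹) * d₂⁻¹ := h1.symm
      have h3 : c = d₂ * c * d₂⁻¹ := mul_left_cancel (mul_right_cancel h2)
      rw [h3]; exact hc
  have hd₁c : d₁ * x = x * d₁ := by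
    have := Subgroup.mem_centralizer_iff.1 hd₁.2 x rfl
    exact this.symm
  refine ⟨n' * d₂⁻¹, N.mul_mem hn' (N.inv_mem hd₂N), ?_⟩
  have hdinv : d = d₂⁻¹ * d₁⁻¹ := by
    have := congrArg (·⁻¹) hde
    simpa using this
  rw [← hg, hge, hdinv]
  have h1 : d₁⁻¹ * x * d₁ = x := by
    rw [mul_assoc, ← hd₁c]; group
  calc n' * d₂⁻¹ * x * (n' * d₂⁻¹)⁻¹ = n' * d₂⁻¹ * (d₁⁻¹ * x * d₁) * (n' * d₂⁻¹)⁻¹ := by rw [h1]
    _ = _ := by group

end Cfsg.Agent.S1907
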