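import Cfsg.Statements.S1939
-- import your own Cfsg.Agent.* helpers here

set_option autoImplicit false
open Cfsg

namespace Cfsg.Agent.S1939

/-- Let S be a Sylow p-subgroup of the finite group G and a an element of S that is the only G-conjugate of a lying in S. Then every power of a has the same property: for every n, the only G-conjugate of a^n lying in S is a^n. -/
theorem result {G : Type*} [Group G] [Finite G] {p : ℕ} [Fact p.Prime] (S : Sylow p G) (a : G)
    (haS : a ∈ (S : Subgroup G)) (hwc : ∀ g : G, g * a * g⁻¹ ∈ (S : Subgroup G) → g * a * g⁻¹ = a) (n : ℕ) :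
    ∀ g : G, g * a ^ n * g⁻¹ ∈ (S : Subgroup G) → g * a ^ n * g⁻¹ = a ^ n := by
  classical
  -- weak closure on the level of a `p`-subgroup
  have key : ∀ H : Subgroup G, IsPGroup p H → a ∈ H → ∀ y : G, y * a * y⁻¹ ∈ H → y * a * y⁻¹ = a := by
    intro H hH haH y hy
    obtain ⟨R, hR⟩ := hH.exists_le_sylow
    obtain ⟨x, hx⟩ := MulAction.exists_smul_eq G S R
    have hmem : ∀ z, z ∈ (R : Subgroup G) → x⁻¹ * z * x ∈ (S : Subgroup G) := by
      intro z hz
      rw [← hx] at hz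
      rw [Sylow.smul_def, Sylow.pointwise_smul_def] at hz
      obtain ⟨s, hs, rfl⟩ := hz
      show x⁻¹ * (x * s * x⁻¹) * x ∈ (S : Subgroup G)
      have e : x⁻¹ * (x * s * x⁻¹) * x = s := by group
      rw [e]
      exact hs
    have h1 := hwc x⁻¹ (by simpa using hmem a (hR haH))
    have h2 := hwc (x⁻¹ * y) (by
      have := hmem _ (hR hy)
      simpa [mul_assoc] using this)
    have h1' : x⁻¹ * a * x = a := by simpa using h1
    have h2' : x⁻¹ * (y * a * y⁻¹) * x = a := by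
      have e : x⁻¹ * (y * a * y⁻¹) * x = x⁻¹ * y * a * (x⁻¹ * y)⁻¹ := by group
      rw [e]; exact h2
    calc y * a * y⁻¹ = x * (x⁻¹ * (y * a * y⁻¹) * x) * x⁻¹ := by group
      _ = x * (x⁻¹ * a * x) * x⁻¹ := by rw [h2', h1']
      _ = a := by group
  intro g hg
  set b := g * a ^ n * g⁻¹ with hb
  have ha1 : g * a * g⁻¹ ∈ Subgroup.centralizer ({b} : Set G) := by
    rw [Subgroup.mem_centralizer_singleton_iff]
    show (g * a * g⁻¹) * b = b * (g * a * g⁻¹)
    rw [hb, ← conj_pow]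
    exact (Commute.pow_left (Commute.refl _) n).symm.eq
  have hacen : ∀ y ∈ (S : Subgroup G), y * a = a * y := by
    intro y hy
    have := hwc y (S.mul_mem (S.mul_mem hy haS) (S.inv_mem hy))
    calc y * a = (y * a * y⁻¹) * y := by group
      _ = a * y := by rw [this]
  have ha2 : a ∈ Subgroup.centralizer ({b} : Set G) := by
    rw [Subgroup.mem_centralizer_singleton_iff]
    exact (hacen b hg).symm
  set C := Subgroup.centralizer ({b} : Set G) with hC
  have hzp : ∀ (u : C) (k : ℕ), u ^ (p ^ k) = 1 → IsPGroup p (Subgroup.zpowers u) := by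
    rintro u k hk ⟨_, m, rfl⟩
    refine ⟨k, ?_⟩
    apply Subtype.ext
    show ((u ^ m) ^ p ^ k : C) = 1
    rw [← zpow_natCast, ← zpow_mul, mul_comm, zpow_mul, zpow_natCast, hk, one_zpow]
  obtain ⟨k, hk⟩ := (S.isPGroup') ⟨a, haS⟩
  have hk' : a ^ (p ^ k) = 1 := congrArg Subtype.val hk
  have hk2 : (⟨a, ha2⟩ : C) ^ (p ^ k) = 1 := Subtype.ext hk'
  have hk3 : (⟨g * a * g⁻¹, ha1⟩ : C) ^ (p ^ k) = 1 := by
    apply Subtype.ext
    show (g * a * g⁻¹) ^ (p ^ k) = 1
    rw [conj_pow, hk']; simp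
  obtain ⟨T₁, hT₁⟩ := (hzp _ k hk2).exists_le_sylow
  obtain ⟨T₂, hT₂⟩ := (hzp _ k hk3).exists_le_sylow
  obtain ⟨c, hc⟩ := MulAction.exists_smul_eq C T₂ T₁
  have haT₁ : (⟨a, ha2⟩ : C) ∈ (T₁ : Subgroup C) := hT₁ (Subgroup.mem_zpowers _)
  have haT₂ : (⟨g * a * g⁻¹, ha1⟩ : C) ∈ (T₂ : Subgroup C) := hT₂ (Subgroup.mem_zpowers _)
  have hcT : c * ⟨g * a * g⁻¹, ha1⟩ * c⁻¹ ∈ (T₁ : Subgroup C) := by
    rw [← hc, Sylow.smul_def, Sylow.pointwise_smul_def]
    exact ⟨_, haT₂, rfl⟩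
  have hH : IsPGroup p ((T₁ : Subgroup C).map C.subtype) := T₁.isPGroup'.map _
  have h3 := key _ hH ⟨_, haT₁, rfl⟩ ((c : G) * g) (by
    refine ⟨_, hcT, ?_⟩
    show (c : G) * (g * a * g⁻¹) * (c : G)⁻¹ = _
    group)
  have hcb : (c : G) * b = b * (c : G) :=
    (Subgroup.mem_centralizer_singleton_iff.1 c.2)
  have h4 : a ^ n = (c : G) * b * (c : G)⁻¹ := by
    rw [hb]
    nth_rewrite 1 [← h3]
    rw [conj_pow]
    group
  rw [h4, hcb]
  group
end Cfsg.Agent.S1939
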