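import Cfsg.Statements.S1940
-- import your own Cfsg.Agent.* helpers here

set_option autoImplicit false
open Cfsg

namespace Cfsg.Agent.S1940

/-- Let the finite group L act by automorphisms on the finite abelian group M, and let N be an L-invariant subgroup of M such that M/N is a p-group on which L acts trivially (every l • m lies in the coset mN). If every element of M is a product of an element of N and an element fixed by a Sylow p-subgroup T of L, then every element of M is a product of an element of N and an element fixed by all of L. -/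
theorem result {L : Type*} [Group L] [Finite L] {M : Type*} [CommGroup M] [Finite M] [MulDistribMulAction L M]
    {p : ℕ} [Fact p.Prime] (N : Subgroup M) (hN : ∀ (l : L) (m : M), m ∈ N → l • m ∈ N)
    (hquot : IsPGroup p (M ⧸ N)) (htriv : ∀ (l : L) (m : M), (l • m) * m⁻¹ ∈ N) (T : Sylow p L)
    (hT : ∀ m : M, ∃ n ∈ N, ∃ c : M, (∀ t ∈ (T : Subgroup L), t • c = c) ∧ m = n * c) :
    ∀ m : M, ∃ n ∈ N, ∃ c : M, (∀ l : L, l • c = c) ∧ m = n * c := by
  classical
  haveI := Fintype.ofFinite (L ⧸ (T : Subgroup L))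
  intro m
  obtain ⟨n, hn, c, hc, rfl⟩ := hT m
  set d : M := ∏ q : L ⧸ (T : Subgroup L), (q.out • c) with hd
  have hfix : ∀ l : L, l • d = d := by
    intro l
    have h1 : l • d = ∏ q : L ⧸ (T : Subgroup L), (l • (q.out • c)) :=
      map_prod (MulDistribMulAction.toMonoidHom M l) _ _
    have h2 : ∀ q : L ⧸ (T : Subgroup L), l • (q.out • c) = (l • q).out • c := by
      intro q
      have hq : l • q = ((l * q.out : L) : L ⧸ (T : Subgroup L)) := by
        conv_lhs => rw [← QuotientGroup.out_eq' q]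
        rfl
      obtain ⟨h, hh⟩ := QuotientGroup.mk_out_eq_mul (T : Subgroup L) (l * q.out)
      rw [hq, hh, mul_smul, mul_smul, hc _ h.2]
    rw [h1, hd]
    simp_rw [h2]
    exact Equiv.prod_comp (MulAction.toPerm l) (fun q : L ⧸ (T : Subgroup L) => q.out • c)
  have hmk : ∀ l : L, ((l • c : M) : M ⧸ N) = (c : M ⧸ N) := by
    intro l
    apply QuotientGroup.eq.2
    have := N.inv_mem (htriv l c)
    have e : (l • c)⁻¹ * c = ((l • c) * c⁻¹)⁻¹ := by
      rw [mul_inv_rev, inv_inv, mul_comm]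
    rw [e]; exact this
  have hdmk : ((d : M) : M ⧸ N) = (c : M ⧸ N) ^ (T : Subgroup L).index := by
    have : ((d : M) : M ⧸ N) = ∏ q : L ⧸ (T : Subgroup L), ((q.out • c : M) : M ⧸ N) :=
      map_prod (QuotientGroup.mk' N) _ _
    rw [this]
    simp_rw [hmk]
    rw [Finset.prod_const, Finset.card_univ, Subgroup.index, Fintype.card_eq_nat_card]
  obtain ⟨e, he⟩ := hquot (c : M ⧸ N)
  have hcop : Nat.Coprime (T : Subgroup L).index (p ^ e) :=
    Nat.Coprime.pow_right _ ((Nat.Prime.coprime_iff_not_dvd (Fact.out : p.Prime)).2 T.not_dvd_index).symm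
  have hbez := Nat.gcd_eq_gcd_ab (T : Subgroup L).index (p ^ e)
  rw [hcop] at hbez
  set u := Nat.gcdA (T : Subgroup L).index (p ^ e) with hu
  set v := Nat.gcdB (T : Subgroup L).index (p ^ e) with hv
  have h1 : ((d ^ u : M) : M ⧸ N) = (c : M ⧸ N) := by
    have e1 : ((d ^ u : M) : M ⧸ N) = ((d : M) : M ⧸ N) ^ u := by
      exact map_zpow (QuotientGroup.mk' N) d u
    rw [e1, hdmk]
    have e2 : (c : M ⧸ N) = (c : M ⧸ N) ^ ((1 : ℕ) : ℤ) := by simp
    conv_rhs => rw [e2, hbez, zpow_add, zpow_mul, mul_comm]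
    have e3 : (c : M ⧸ N) ^ ((p ^ e : ℕ) : ℤ) = 1 := by
      rw [zpow_natCast]; exact he
    rw [zpow_mul, e3, one_zpow, one_mul]
    simp
  refine ⟨n * (c * (d ^ u)⁻¹), N.mul_mem hn ?_, d ^ u, ?_, ?_⟩
  · have := QuotientGroup.eq.1 h1.symm
    have e4 : (c : M)⁻¹ * d ^ u = (c * (d ^ u)⁻¹)⁻¹ := by
      rw [mul_inv_rev, inv_inv, mul_comm]
    rw [e4] at this
    simpa using N.inv_mem this
  · intro l
    have : l • (d ^ u) = (l • d) ^ u := map_zpow (MulDistribMulAction.toMonoidHom M l) d u
    rw [this, hfix]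
  · simp [mul_assoc]

end Cfsg.Agent.S1940
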