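import Cfsg.Statements.S1941
import Mathlib
import Cfsg.Agent.Lib.Comps
import Cfsg.Agent.Lib.FitSolv
import Cfsg.Agent.Lib.FitCore

set_option autoImplicit false
open Cfsg

namespace Cfsg.Agent.S1941

open Cfsg Cfsg.Agent.Lib

/-- Let G be a finite group with no nontrivial normal subgroup of order prime to p, T a Sylow p-subgroup of G and E(G) the layer of G (the subgroup generated by its components). An automorphism of G of p-power order that fixes T and E(G) elementwise is inner. -/
theorem result {G : Type*} [Group G] [Finite G] {p : ℕ} [Fact p.Prime] (hcore : Cfsg.pPrimeCore p G = ⊥)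
    (T : Sylow p G) (α : MulAut G) (hα : ∃ j : ℕ, orderOf α = p ^ j) (hfixT : ∀ x ∈ (T : Subgroup G), α x = x)
    (hfixE : ∀ x ∈ Cfsg.layer G, α x = x) : ∃ g : G, ∀ x : G, α x = g * x * g⁻¹ := by
  classical
  haveI hFsn : (generalizedFittingSubgroup G).Normal := Cfsg.Agent.Lib.Layer.genFitting_normal G
  have hFit : fittingSubgroup G = pCore p G := FitSolv.fitting_eq_pCore p hcore
  -- `α` fixes `F*(G)`
  have hfixF : ∀ x ∈ generalizedFittingSubgroup G, α x = x := by
    let Fx : Subgroup G := MonoidHom.eqLocus (α : G →* G) (MonoidHom.id G)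
    have hle : generalizedFittingSubgroup G ≤ Fx := by
      unfold generalizedFittingSubgroup
      apply sup_le
      · intro x hx; exact hfixE x hx
      · rw [hFit]
        intro x hx
        exact hfixT x (FitCore.pCore_le_sylow p T hx)
    intro x hx
    exact hle hx
  obtain ⟨C, hCdef⟩ : ∃ C : Subgroup G, C = Subgroup.centralizer (generalizedFittingSubgroup G : Set G) := ⟨_, rfl⟩
  haveI hCn : C.Normal := by rw [hCdef]; exact Subgroup.normal_centralizer
  have hCF : C ≤ generalizedFittingSubgroup G := by rw [hCdef]; exact Comps.bender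
  have hCc : ∀ a ∈ C, ∀ b ∈ C, a * b = b * a := by
    intro a ha b hb
    have h1 : b ∈ Subgroup.centralizer (generalizedFittingSubgroup G : Set G) := hCdef ▸ hb
    exact Subgroup.mem_centralizer_iff.1 h1 a (hCF ha)
  letI : CommGroup C := { (inferInstance : Group C) with
    mul_comm := fun a b => Subtype.ext (hCc a a.2 b b.2) }
  have hCnil : Group.IsNilpotent C := CommGroup.isNilpotent
  have hCp : IsPGroup p C := by
    have h1 : C ≤ pCore p G := by
      rw [← hFit]
      exact FitCore.le_fitting C hCn hCnil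
    exact (FitCore.pCore_isPGroup p).to_le h1
  -- the cocycle
  let d : G → G := fun g => α g * g⁻¹
  have hd : ∀ g, d g ∈ C := by
    intro g
    rw [hCdef, Subgroup.mem_centralizer_iff]
    intro y hy
    have h1 : g⁻¹ * y * g ∈ generalizedFittingSubgroup G := by
      have := hFsn.conj_mem y hy g⁻¹
      simpa using this
    have h2 := hfixF _ h1
    rw [map_mul, map_mul, map_inv, hfixF y hy] at h2
    show y * (α g * g⁻¹) = (α g * g⁻¹) * y
    have h3 : y * α g = α g * (g⁻¹ * y * g) := by
      rw [← h2]; group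
    calc y * (α g * g⁻¹) = (y * α g) * g⁻¹ := by group
      _ = (α g * (g⁻¹ * y * g)) * g⁻¹ := by rw [h3]
      _ = _ := by group
  have hdT : ∀ g t, t ∈ (T : Subgroup G) → d (g * t) = d g := by
    intro g t ht
    show α (g * t) * (g * t)⁻¹ = α g * g⁻¹
    rw [map_mul, hfixT t ht]
    group
  have hdmul : ∀ h g, d (h * g) = d h * (h * d g * h⁻¹) := by
    intro h g
    show α (h * g) * (h * g)⁻¹ = (α h * h⁻¹) * (h * (α g * g⁻¹) * h⁻¹)
    rw [map_mul]
    group
  haveI : Fintype (G ⧸ (T : Subgroup G)) := Fintype.ofFinite _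
  let f : G ⧸ (T : Subgroup G) → C := fun x => ⟨d x.out, hd _⟩
  have hf : ∀ g : G, f (g : G ⧸ (T : Subgroup G)) = ⟨d g, hd g⟩ := by
    intro g
    apply Subtype.ext
    obtain ⟨t, ht⟩ := QuotientGroup.mk_out_eq_mul (T : Subgroup G) g
    show d _ = d g
    rw [ht]
    exact hdT g t t.2
  obtain ⟨D, hDe⟩ : ∃ D : C, D = ∏ x : G ⧸ (T : Subgroup G), f x := ⟨_, rfl⟩
  have hrel : ∀ h : G, D = (⟨d h, hd h⟩ : C) ^ (T : Subgroup G).index * (MulAut.conjNormal h) D := by
    intro h
    have h1 : D = ∏ x : G ⧸ (T : Subgroup G), f (h • x) := by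
      rw [hDe]
      exact (Equiv.prod_comp (MulAction.toPerm h) f).symm
    have h2 : ∀ x : G ⧸ (T : Subgroup G), f (h • x) = (⟨d h, hd h⟩ : C) * (MulAut.conjNormal h) (f x) := by
      intro x
      induction x using QuotientGroup.induction_on with
      | H g =>
      have e : h • (g : G ⧸ (T : Subgroup G)) = ((h * g : G) : G ⧸ (T : Subgroup G)) := rfl
      rw [e, hf, hf]
      apply Subtype.ext
      show d (h * g) = d h * (((MulAut.conjNormal h) (⟨d g, hd g⟩ : C) : C) : G)
      rw [MulAut.conjNormal_apply, hdmul]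
    have h3 : D = ∏ x : G ⧸ (T : Subgroup G), ((⟨d h, hd h⟩ : C) * (MulAut.conjNormal h) (f x)) := by
      rw [h1]
      exact Finset.prod_congr rfl (fun x _ => h2 x)
    rw [Finset.prod_mul_distrib, Finset.prod_const, ← map_prod, ← hDe] at h3
    rw [Finset.card_univ, ← Nat.card_eq_fintype_card] at h3
    exact h3
  have hcop : (Nat.card C).Coprime (T : Subgroup G).index := by
    obtain ⟨k, hk⟩ := IsPGroup.iff_card.1 hCp
    rw [hk]
    exact Nat.Coprime.pow_left k ((Nat.Prime.coprime_iff_not_dvd (Fact.out)).2 T.not_dvd_index)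
  obtain ⟨z, hz⟩ := (powCoprime hcop).surjective D
  have hz' : z ^ (T : Subgroup G).index = D := hz
  refine ⟨z, fun h => ?_⟩
  have h1 := hrel h
  rw [← hz', map_pow, ← mul_pow] at h1
  have hinj := (powCoprime hcop).injective (a₁ := z) (a₂ := (⟨d h, hd h⟩ : C) * (MulAut.conjNormal h) z) h1
  have h2 := congrArg Subtype.val hinj
  have h3 : (z : G) = d h * (h * z * h⁻¹) := h2
  have h4 : d h = z * (h * z * h⁻¹)⁻¹ := eq_mul_inv_of_mul_eq h3.symm
  show α h = z * h * (z : G)⁻¹
  have h5 : α h * h⁻¹ = z * (h * z * h⁻¹)⁻¹ := h4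
  calc α h = (α h * h⁻¹) * h := by group
    _ = (z * (h * z * h⁻¹)⁻¹) * h := by rw [h5]
    _ = _ := by group

end Cfsg.Agent.S1941
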