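import Cfsg.Statements.S1944
import Mathlib
import Cfsg.Agent.Lib.PLength
import Cfsg.Agent.Lib.PIrreducible
import Cfsg.Agent.Lib.PComps
import Cfsg.Agent.Lib.CoprimeAct
import Cfsg.Agent.Lib.FitCore

set_option autoImplicit false
open Cfsg

namespace Cfsg.Agent.S1944

open Cfsg

theorem norm_split {p : ℕ} [Fact p.Prime] {H : Type*} [Group H] [Finite H] (S A : Subgroup H) [A.Normal]
    (hA : ∀ a ∈ A, ∀ b ∈ A, a * b = b * a)
    (hpC : IsPGroup p ↥(A ⊓ Subgroup.centralizer (S : Set H)))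
    (hm : Nat.Coprime S.index p) :
    ∃ K : Subgroup H, K ≤ A ⊓ Subgroup.centralizer (S : Set H) ∧
      (A ⊓ Subgroup.center H) ⊓ K = ⊥ ∧
      (A ⊓ Subgroup.center H) ⊔ K = A ⊓ Subgroup.centralizer (S : Set H) := by
  classical
  letI : CommGroup ↥A :=
    { (inferInstance : Group ↥A) with mul_comm := fun a b => Subtype.ext (hA a a.2 b b.2) }
  letI : Fintype (H ⧸ S) := Fintype.ofFinite _
  let r : H ⧸ S → H := Quotient.out
  let T : ↥A →* ↥A := ∏ q : H ⧸ S, (MulAut.conjNormal (r q)).toMonoidHom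
  have hT : ∀ x : ↥A, T x = ∏ q : H ⧸ S, MulAut.conjNormal (r q) x := by
    intro x
    simp [T, MonoidHom.finsetProd_apply]
  have hTcent : ∀ x : ↥A, (x : H) ∈ Subgroup.centralizer (S : Set H) →
      ((T x : ↥A) : H) ∈ Subgroup.center H := by
    intro x hx
    rw [Subgroup.mem_center_iff]
    intro h
    have e : MulAut.conjNormal h (T x) = T x := by
      rw [hT, map_prod]
      have e1 : ∀ q : H ⧸ S, MulAut.conjNormal h (MulAut.conjNormal (r q) x)
          = MulAut.conjNormal (r (h • q)) x := by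
        intro q
        have e2 : ((r (h • q) : H) : H ⧸ S) = ((h * r q : H) : H ⧸ S) := by
          rw [show ((r (h • q) : H) : H ⧸ S) = h • q from QuotientGroup.out_eq' _]
          conv_lhs => rw [← QuotientGroup.out_eq' q]
          rfl
        have hs := QuotientGroup.eq.1 e2
        have e3 : h * r q = r (h • q) * ((r (h • q))⁻¹ * (h * r q)) := by group
        have e4 : MulAut.conjNormal ((r (h • q))⁻¹ * (h * r q)) x = x := by
          apply Subtype.ext
          rw [MulAut.conjNormal_apply]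
          have := (Subgroup.mem_centralizer_iff.1 hx) _ hs
          rw [this]
          group
        rw [← MulAut.mul_apply, ← map_mul, e3, map_mul, MulAut.mul_apply, e4]
      simp_rw [e1]
      exact Equiv.prod_comp (MulAction.toPerm h) (fun q => MulAut.conjNormal (r q) x)
    have e' := congrArg Subtype.val e
    rw [MulAut.conjNormal_apply] at e'
    have : h * ((T x : ↥A) : H) = ((T x : ↥A) : H) * h := by
      calc h * ((T x : ↥A) : H) = h * ((T x : ↥A) : H) * h⁻¹ * h := by group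
        _ = _ := by rw [e']
    exact this
  have hTpow : ∀ x : ↥A, (x : H) ∈ Subgroup.center H → T x = x ^ S.index := by
    intro x hx
    rw [hT]
    have e1 : ∀ q : H ⧸ S, MulAut.conjNormal (r q) x = x := by
      intro q
      apply Subtype.ext
      rw [MulAut.conjNormal_apply, (Subgroup.mem_center_iff.1 hx) (r q)]
      group
    simp_rw [e1]
    rw [Finset.prod_const, Finset.card_univ, Subgroup.index_eq_card, Nat.card_eq_fintype_card]
  have hDC : A ⊓ Subgroup.center H ≤ A ⊓ Subgroup.centralizer (S : Set H) := by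
    rintro x ⟨hxA, hxc⟩
    refine ⟨hxA, ?_⟩
    show x ∈ Subgroup.centralizer (S : Set H)
    rw [Subgroup.mem_centralizer_iff]
    intro s _
    exact ((Subgroup.mem_center_iff.1 hxc) s)
  refine ⟨(T.ker.map A.subtype) ⊓ (A ⊓ Subgroup.centralizer (S : Set H)), inf_le_right, ?_,
    le_antisymm (sup_le hDC inf_le_right) ?_⟩
  · rw [eq_bot_iff]
    rintro x ⟨⟨hxA, hxc⟩, ⟨y, hy, hyx⟩, hxC⟩
    have hy1 : T y = 1 := hy
    have hyx' : (y : H) = x := hyx
    rw [hTpow y (by rw [hyx']; exact hxc)] at hy1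
    have hxm : x ^ S.index = 1 := by
      have := congrArg Subtype.val hy1
      simpa [hyx'] using this
    obtain ⟨k, hk⟩ := (IsPGroup.iff_orderOf.1 hpC) ⟨x, hxC⟩
    rw [Subgroup.orderOf_mk] at hk
    have hd : orderOf x ∣ S.index := orderOf_dvd_of_pow_eq_one hxm
    have hco : Nat.Coprime (orderOf x) S.index := by
      rw [hk]
      exact (Nat.Coprime.pow_left k hm.symm)
    have h1 : orderOf x = 1 := Nat.Coprime.eq_one_of_dvd hco hd
    rw [Subgroup.mem_bot]
    exact orderOf_eq_one_iff.1 h1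
  · rintro z ⟨hzA, hzC⟩
    let z' : ↥A := ⟨z, hzA⟩
    have hwc := hTcent z' hzC
    have hpD : IsPGroup p ↥(A ⊓ Subgroup.center H) := hpC.to_le hDC
    obtain ⟨k, hk⟩ := IsPGroup.iff_card.1 hpD
    have hcop : Nat.Coprime (Nat.card ↥(A ⊓ Subgroup.center H)) S.index := by
      rw [hk]
      exact Nat.Coprime.pow_left k hm.symm
    obtain ⟨w, hw⟩ := (powCoprime hcop).surjective
      (⟨((T z' : ↥A) : H), (T z').2, hwc⟩ : ↥(A ⊓ Subgroup.center H))
    rw [powCoprime_apply] at hw
    let w' : ↥A := ⟨(w : H), w.2.1⟩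
    have hw1 : T w' = T z' := by
      rw [hTpow w' w.2.2]
      apply Subtype.ext
      have := congrArg Subtype.val hw
      simpa using this
    have hK : ((w'⁻¹ * z' : ↥A) : H) ∈ (T.ker.map A.subtype) ⊓ (A ⊓ Subgroup.centralizer (S : Set H)) := by
      refine ⟨⟨w'⁻¹ * z', ?_, rfl⟩, (w'⁻¹ * z').2, ?_⟩
      · show T (w'⁻¹ * z') = 1
        rw [map_mul, map_inv, hw1, inv_mul_cancel]
      · have hwC : (w : H) ∈ Subgroup.centralizer (S : Set H) := (hDC w.2).2
        show (w : H)⁻¹ * z ∈ Subgroup.centralizer (S : Set H)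
        exact Subgroup.mul_mem _ (Subgroup.inv_mem _ hwC) hzC
    have e : z = (w : H) * ((w'⁻¹ * z' : ↥A) : H) := by
      show z = (w : H) * ((w : H)⁻¹ * z)
      group
    rw [e]
    exact Subgroup.mul_mem_sup w.2 hK

/-- Let S be a Sylow p-subgroup of the finite group G and suppose that the centre Z(S) lies in O_{p',p}(G). The elements of S each of which is its only G-conjugate in S form a subgroup W of Z(S); W is then a direct factor of Z(S): there is a subgroup K of Z(S) with W ∩ K = 1 and WK = Z(S). -/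
theorem result {G : Type*} [Group G] [Finite G] {p : ℕ} [Fact p.Prime] (S : Sylow p G)
    (hZ : ((S : Subgroup G) ⊓ Subgroup.centralizer ((S : Subgroup G) : Set G)) ≤ Cfsg.pPrimePCore p G) :
    ∃ W K : Subgroup G, (∀ x : G, x ∈ W ↔ (x ∈ (S : Subgroup G) ∧ ∀ g : G, g * x * g⁻¹ ∈ (S : Subgroup G) → g * x * g⁻¹ = x)) ∧
      K ≤ ((S : Subgroup G) ⊓ Subgroup.centralizer ((S : Subgroup G) : Set G)) ∧ W ⊓ K = ⊥ ∧ W ⊔ K = ((S : Subgroup G) ⊓ Subgroup.centralizer ((S : Subgroup G) : Set G)) := by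
  classical
  haveI hOn : (pPrimeCore p G).Normal := Cfsg.Agent.Lib.FitCore.pPrimeCore_normal p
  haveI hYn : (pPrimePCore p G).Normal := Cfsg.Agent.Lib.PLength.pPrimePCore_normal
  have hOS : ∀ x, x ∈ pPrimeCore p G → x ∈ (S : Subgroup G) → x = 1 := by
    intro x hx hxS
    have hco : (orderOf x).Coprime p := by
      have h1 := Cfsg.Agent.Lib.PComps.card_coprime_pPrimeCore (p := p) (G := G)
      have h2 : orderOf x ∣ Nat.card (pPrimeCore p G) := Subgroup.orderOf_dvd_natCard _ hx
      exact Nat.Coprime.coprime_dvd_left h2 h1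
    exact Cfsg.Agent.Lib.CoprimeAct.eq_one_of_mem_pgroup_of_coprime S.isPGroup' hxS hco
  have hSH : (S : Subgroup G) ≤ Subgroup.normalizer (((S : Subgroup G) ⊓ pPrimePCore p G : Subgroup G) : Set G) := by
    intro s hs
    rw [Subgroup.mem_normalizer_iff]
    intro h
    constructor
    · rintro ⟨h1, h2⟩
      exact ⟨Subgroup.mul_mem (S : Subgroup G) (Subgroup.mul_mem (S : Subgroup G) hs h1) (Subgroup.inv_mem (S : Subgroup G) hs), hYn.conj_mem h h2 s⟩
    · rintro ⟨h1, h2⟩
      refine ⟨?_, ?_⟩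
      · have := Subgroup.mul_mem (S : Subgroup G) (Subgroup.mul_mem (S : Subgroup G) (Subgroup.inv_mem (S : Subgroup G) hs) h1) hs
        rw [show h = s⁻¹ * (s * h * s⁻¹) * s by group]
        exact this
      · have := hYn.conj_mem _ h2 s⁻¹
        simpa [mul_assoc] using this
  obtain ⟨Q, hQ⟩ := Cfsg.Agent.Lib.PIrreducible.exists_sylow_inf_normal (p := p) S (N := pPrimePCore p G)
  have hfrat := Sylow.normalizer_sup_eq_top Q
  rw [hQ] at hfrat
  have hOY : pPrimeCore p G ≤ pPrimePCore p G := Cfsg.Agent.Lib.PLength.pPrimeCore_le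
  have hfac : ∀ g : G, ∃ o ∈ pPrimeCore p G,
      ∃ h ∈ Subgroup.normalizer (((S : Subgroup G) ⊓ pPrimePCore p G : Subgroup G) : Set G), g = o * h := by
    intro g
    have hg : g⁻¹ ∈ (Subgroup.normalizer (((S : Subgroup G) ⊓ pPrimePCore p G : Subgroup G) : Set G) ⊔ pPrimePCore p G : Subgroup G) := by
      rw [hfrat]
      exact Subgroup.mem_top _
    rw [← SetLike.mem_coe, Subgroup.mul_normal] at hg
    obtain ⟨n, hn, y, hy, e⟩ := hg
    have e : n * y = g⁻¹ := e
    have hy' := Cfsg.Agent.Lib.PLength.pPrimePCore_le_sup S (Subgroup.inv_mem _ hy)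
    rw [← SetLike.mem_coe, Subgroup.normal_mul] at hy'
    obtain ⟨o, ho, s, hs, e2⟩ := hy'
    have e2 : o * s = y⁻¹ := e2
    have hsY : s ∈ pPrimePCore p G := by
      have h1 : s = o⁻¹ * y⁻¹ := by rw [← e2]; group
      rw [h1]
      exact Subgroup.mul_mem _ (Subgroup.inv_mem _ (hOY ho)) (Subgroup.inv_mem _ hy)
    refine ⟨o, ho, s * n⁻¹, Subgroup.mul_mem _ (Subgroup.le_normalizer ⟨hs, hsY⟩) (Subgroup.inv_mem _ hn), ?_⟩
    calc g = (n * y)⁻¹ := by rw [e, inv_inv]
      _ = y⁻¹ * n⁻¹ := by group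
      _ = (o * s) * n⁻¹ := by rw [e2]
      _ = _ := by group
  have hPH : (S : Subgroup G) ⊓ pPrimePCore p G ≤
      Subgroup.normalizer (((S : Subgroup G) ⊓ pPrimePCore p G : Subgroup G) : Set G) := Subgroup.le_normalizer
  -- the abelian normal subgroup
  haveI hAn : ((((S : Subgroup G) ⊓ pPrimePCore p G) ⊓ Subgroup.centralizer (((S : Subgroup G) ⊓ pPrimePCore p G : Subgroup G) : Set G)).subgroupOf
      (Subgroup.normalizer (((S : Subgroup G) ⊓ pPrimePCore p G : Subgroup G) : Set G))).Normal := by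
    constructor
    rintro ⟨x, hx⟩ hxA ⟨h, hh⟩
    rw [Subgroup.mem_subgroupOf] at hxA ⊢
    obtain ⟨hx1, hx2⟩ := hxA
    refine ⟨(Subgroup.mem_normalizer_iff.1 hh _).1 hx1, ?_⟩
    show h * x * h⁻¹ ∈ Subgroup.centralizer _
    rw [Subgroup.mem_centralizer_iff]
    intro y hy
    have hy' : h⁻¹ * y * h ∈ (S : Subgroup G) ⊓ pPrimePCore p G := by
      have := (Subgroup.mem_normalizer_iff''.1 hh y).1 hy
      exact this
    have := (Subgroup.mem_centralizer_iff.1 hx2) _ hy'
    calc y * (h * x * h⁻¹) = h * ((h⁻¹ * y * h) * x) * h⁻¹ := by group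
      _ = h * (x * (h⁻¹ * y * h)) * h⁻¹ := by rw [this]
      _ = _ := by group
  obtain ⟨K₀, hK₀, h₂, h₃⟩ := norm_split (p := p)
    ((S : Subgroup G).subgroupOf (Subgroup.normalizer (((S : Subgroup G) ⊓ pPrimePCore p G : Subgroup G) : Set G)))
    ((((S : Subgroup G) ⊓ pPrimePCore p G) ⊓ Subgroup.centralizer (((S : Subgroup G) ⊓ pPrimePCore p G : Subgroup G) : Set G)).subgroupOf
      (Subgroup.normalizer (((S : Subgroup G) ⊓ pPrimePCore p G : Subgroup G) : Set G)))
    (by
      rintro ⟨a, ha⟩ ha' ⟨b, hb⟩ hb'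
      rw [Subgroup.mem_subgroupOf] at ha' hb'
      apply Subtype.ext
      exact (Subgroup.mem_centralizer_iff.1 hb'.2) a ha'.1)
    (by
      intro x
      have hmem : ((x : ↥(Subgroup.normalizer (((S : Subgroup G) ⊓ pPrimePCore p G : Subgroup G) : Set G))) : G) ∈ (S : Subgroup G) := by
        have := (Subgroup.mem_inf.1 x.2).1
        rw [Subgroup.mem_subgroupOf] at this
        exact this.1.1
      obtain ⟨k, hk⟩ := S.isPGroup' ⟨_, hmem⟩
      refine ⟨k, ?_⟩
      apply Subtype.ext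
      apply Subtype.ext
      simpa using congrArg Subtype.val hk)
    (by
      have h1 := (S.subtype hSH).not_dvd_index
      rw [Sylow.coe_subtype] at h1
      exact ((Nat.Prime.coprime_iff_not_dvd Fact.out).2 h1).symm)
  have hmap : (((((S : Subgroup G) ⊓ pPrimePCore p G) ⊓ Subgroup.centralizer (((S : Subgroup G) ⊓ pPrimePCore p G : Subgroup G) : Set G)).subgroupOf
      (Subgroup.normalizer (((S : Subgroup G) ⊓ pPrimePCore p G : Subgroup G) : Set G))) ⊓
      Subgroup.centralizer (((S : Subgroup G).subgroupOf (Subgroup.normalizer (((S : Subgroup G) ⊓ pPrimePCore p G : Subgroup G) : Set G)) : Subgroup _) : Set _)).map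
      (Subgroup.normalizer (((S : Subgroup G) ⊓ pPrimePCore p G : Subgroup G) : Set G)).subtype =
      (S : Subgroup G) ⊓ Subgroup.centralizer ((S : Subgroup G) : Set G) := by
    ext x
    constructor
    · rintro ⟨k, hk, rfl⟩
      have hk1 := (Subgroup.mem_inf.1 hk).1
      have hk2 := (Subgroup.mem_inf.1 hk).2
      rw [Subgroup.mem_subgroupOf] at hk1
      refine ⟨hk1.1.1, ?_⟩
      show (k : G) ∈ Subgroup.centralizer _
      rw [Subgroup.mem_centralizer_iff]
      intro s hs
      have h5 := (Subgroup.mem_centralizer_iff.1 hk2) ⟨s, hSH hs⟩ (by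
        show _ ∈ (S : Subgroup G).subgroupOf _
        rw [Subgroup.mem_subgroupOf]
        exact hs)
      exact congrArg Subtype.val h5
    · rintro ⟨hx1, hx2⟩
      have hxY := hZ ⟨hx1, hx2⟩
      have hx2' : x ∈ Subgroup.centralizer ((S : Subgroup G) : Set G) := hx2
      have hxP : x ∈ (S : Subgroup G) ⊓ pPrimePCore p G := ⟨hx1, hxY⟩
      refine ⟨⟨x, hPH hxP⟩, Subgroup.mem_inf.2 ⟨?_, ?_⟩, rfl⟩
      · rw [Subgroup.mem_subgroupOf]
        refine Subgroup.mem_inf.2 ⟨hxP, ?_⟩
        rw [Subgroup.mem_centralizer_iff]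
        intro y hy
        exact (Subgroup.mem_centralizer_iff.1 hx2') y hy.1
      · show _ ∈ Subgroup.centralizer _
        rw [Subgroup.mem_centralizer_iff]
        rintro ⟨y, hyH⟩ hy
        apply Subtype.ext
        have hy' : y ∈ (S : Subgroup G) := by
          have : (⟨y, hyH⟩ : ↥(Subgroup.normalizer (((S : Subgroup G) ⊓ pPrimePCore p G : Subgroup G) : Set G))) ∈ (S : Subgroup G).subgroupOf _ := hy
          rw [Subgroup.mem_subgroupOf] at this
          exact this
        exact (Subgroup.mem_centralizer_iff.1 hx2') y hy'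
  refine ⟨((((S : Subgroup G) ⊓ pPrimePCore p G) ⊓ Subgroup.centralizer (((S : Subgroup G) ⊓ pPrimePCore p G : Subgroup G) : Set G)).subgroupOf
      (Subgroup.normalizer (((S : Subgroup G) ⊓ pPrimePCore p G : Subgroup G) : Set G)) ⊓ Subgroup.center _).map
      (Subgroup.normalizer (((S : Subgroup G) ⊓ pPrimePCore p G : Subgroup G) : Set G)).subtype,
    K₀.map (Subgroup.normalizer (((S : Subgroup G) ⊓ pPrimePCore p G : Subgroup G) : Set G)).subtype, ?_, ?_, ?_, ?_⟩
  · intro x
    constructor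
    · rintro ⟨⟨h, hh⟩, hAc, rfl⟩
      have hA := (Subgroup.mem_inf.1 hAc).1
      have hc := (Subgroup.mem_inf.1 hAc).2
      rw [Subgroup.mem_subgroupOf] at hA
      refine ⟨hA.1.1, ?_⟩
      intro g hg
      obtain ⟨o, ho, h', hh', rfl⟩ := hfac g
      have hc' := Subgroup.mem_center_iff.1 hc ⟨h', hh'⟩
      have hc'' : h' * h = h * h' := congrArg Subtype.val hc'
      have e : o * h' * h * (o * h')⁻¹ = o * h * o⁻¹ := by
        calc o * h' * h * (o * h')⁻¹ = o * (h' * h) * h'⁻¹ * o⁻¹ := by group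
          _ = o * (h * h') * h'⁻¹ * o⁻¹ := by rw [hc'']
          _ = _ := by group
      show o * h' * h * (o * h')⁻¹ = h
      rw [e]
      have hg' : o * h * o⁻¹ ∈ (S : Subgroup G) := by
        rw [← e]
        exact hg
      have h1 : (o * h * o⁻¹) * h⁻¹ ∈ (S : Subgroup G) :=
        Subgroup.mul_mem _ hg' (Subgroup.inv_mem _ hA.1.1)
      have h2 : (o * h * o⁻¹) * h⁻¹ ∈ pPrimeCore p G := by
        have : (o * h * o⁻¹) * h⁻¹ = o * (h * o⁻¹ * h⁻¹) := by group
        rw [this]
        exact Subgroup.mul_mem _ ho (hOn.conj_mem _ (Subgroup.inv_mem _ ho) h)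
      have h3 := hOS _ h2 h1
      exact mul_inv_eq_one.1 h3
    · rintro ⟨hxS, hx⟩
      have hxc : x ∈ Subgroup.centralizer ((S : Subgroup G) : Set G) := by
        rw [Subgroup.mem_centralizer_iff]
        intro s hs
        have := hx s (Subgroup.mul_mem _ (Subgroup.mul_mem _ hs hxS) (Subgroup.inv_mem _ hs))
        exact mul_inv_eq_iff_eq_mul.1 this
      have hxY := hZ ⟨hxS, hxc⟩
      have hxP : x ∈ (S : Subgroup G) ⊓ pPrimePCore p G := ⟨hxS, hxY⟩
      refine ⟨⟨x, hPH hxP⟩, Subgroup.mem_inf.2 ⟨?_, ?_⟩, rfl⟩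
      · rw [Subgroup.mem_subgroupOf]
        refine Subgroup.mem_inf.2 ⟨hxP, ?_⟩
        rw [Subgroup.mem_centralizer_iff]
        intro y hy
        exact (Subgroup.mem_centralizer_iff.1 hxc) y hy.1
      · rw [Subgroup.mem_center_iff]
        rintro ⟨h, hh⟩
        apply Subtype.ext
        have h1 : h * x * h⁻¹ ∈ (S : Subgroup G) :=
          ((Subgroup.mem_normalizer_iff.1 hh x).1 hxP).1
        have := hx h h1
        exact mul_inv_eq_iff_eq_mul.1 this
  · rw [← hmap]
    exact Subgroup.map_mono hK₀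
  · rw [← Subgroup.map_inf _ _ _ (Subgroup.subtype_injective _), h₂, Subgroup.map_bot]
  · rw [← Subgroup.map_sup, h₃, hmap]

end Cfsg.Agent.S1944
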