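import Cfsg.Statements.S1948
import Mathlib
import Cfsg.Agent.Lib.PComps2
import Cfsg.Agent.Lib.SecTransfer
import Cfsg.Agent.Lib.StrongEmb
import Cfsg.Agent.Lib.SylowIn
import Cfsg.Agent.Lib.FitCore
import Cfsg.Agent.Lib.ExtLayer

set_option autoImplicit false
open Cfsg

namespace Cfsg.Agent.S1948

open Cfsg Cfsg.Agent.Lib Cfsg.Agent.Lib.SylowIn
open scoped commutatorElement

theorem part_back {G : Type*} [Group G] [Finite G] {p : ℕ} [Fact p.Prime] (P : Sylow p G)
    (hcon : IsPConstrained p G)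
    (hctrl : ∀ Q : Subgroup G, Q ≤ (P : Subgroup G) → ∀ g : G, Q.map (MulAut.conj g).toMonoidHom ≤ (P : Subgroup G) →
          ∃ n ∈ Subgroup.normalizer ((P : Subgroup G) : Set G), ∃ c ∈ Subgroup.centralizer (Q : Set G), g = n * c) :
    Subgroup.normalizer ((P : Subgroup G) : Set G) ⊔ Cfsg.pPrimeCore p G = ⊤ := by
  classical
  have hpp : p.Prime := Fact.out
  set D := Cfsg.pPrimeCore p G with hD
  set O := Cfsg.pPrimePCore p G with hO
  haveI hDn : D.Normal := FitCore.pPrimeCore_normal p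
  haveI hOn : O.Normal := ExtLayer.pPrimePCore_normal p
  have hDc : ¬ p ∣ Nat.card D := FitCore.not_dvd_card_pPrimeCore p hpp
  set H := (P : Subgroup G) ⊓ O with hH
  have hHp : IsPGroup p H := P.isPGroup'.to_le inf_le_left
  set N := Subgroup.normalizer (H : Set G) with hN
  have hPN : (P : Subgroup G) ≤ N := by
    intro u hu
    rw [hN, Subgroup.mem_normalizer_iff]
    intro c
    constructor
    · intro hc
      exact ⟨Subgroup.mul_mem _ (Subgroup.mul_mem _ hu hc.1) (Subgroup.inv_mem _ hu), hOn.conj_mem c hc.2 u⟩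
    · intro hc
      have h1 : u⁻¹ * (u * c * u⁻¹) * u ∈ (P : Subgroup G) :=
        Subgroup.mul_mem _ (Subgroup.mul_mem _ (Subgroup.inv_mem _ hu) hc.1) hu
      have h2 := hOn.conj_mem _ hc.2 u⁻¹
      have e : u⁻¹ * (u * c * u⁻¹) * u = c := by group
      have e' : u⁻¹ * (u * c * u⁻¹) * u⁻¹⁻¹ = c := by group
      rw [e] at h1
      rw [e'] at h2
      exact ⟨h1, h2⟩
  have hPS : IsSylowIn p (P : Subgroup G) ⊤ := by
    refine isSylowIn_of_card le_top P.isPGroup' ?_
    intro T _ hTp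
    obtain ⟨S, hS⟩ := hTp.exists_le_sylow
    have h1 := Subgroup.card_le_of_le hS
    have h2 : Nat.card (S : Subgroup G) = Nat.card (P : Subgroup G) := by
      rw [Sylow.card_eq_multiplicity, Sylow.card_eq_multiplicity]
    omega
  have hHO : IsSylowIn p H O := hPS.inf_of_normal le_top le_top (fun x _ m hm => hOn.conj_mem m hm x)
  have hHleO : H ≤ O := inf_le_right
  have hdec : ∀ o ∈ O, ∃ u ∈ H, u⁻¹ * o ∈ D := by
    intro o ho
    let π := QuotientGroup.mk' D
    have hπ : Function.Surjective π := QuotientGroup.mk'_surjective D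
    let Pb : Sylow p (G ⧸ D) := P.mapSurjective hπ
    have hPb : ((Pb : Sylow p (G ⧸ D)) : Subgroup (G ⧸ D)) = (P : Subgroup G).map π := Sylow.coe_mapSurjective hπ P
    have h1 : π o ∈ (Pb : Subgroup (G ⧸ D)) := FitCore.pCore_le_sylow p Pb ho
    rw [hPb] at h1
    obtain ⟨u, hu, hue⟩ := h1
    have h2 : u⁻¹ * o ∈ D := by
      have : π (u⁻¹ * o) = 1 := by rw [map_mul, map_inv, hue]; group
      exact (QuotientGroup.eq_one_iff _).1 this
    have hDO : D ≤ O := by
      intro z hz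
      have : π z = 1 := (QuotientGroup.eq_one_iff _).2 hz
      show π z ∈ pCore p (G ⧸ D)
      rw [this]; exact Subgroup.one_mem _
    have h3 : u ∈ O := by
      have := O.mul_mem ho (O.inv_mem (hDO h2))
      have e : o * (u⁻¹ * o)⁻¹ = u := by group
      rwa [e] at this
    exact ⟨u, ⟨hu, h3⟩, h2⟩
  have hfrat : ∀ g : G, ∃ n ∈ N, ∃ d ∈ D, g = n * d := by
    intro g
    have hg : IsSylowIn p (H.map (MulAut.conj g).toMonoidHom) O := by
      refine isSylowIn_of_card ?_ (isPGroup_map_conj hHp g) ?_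
      · rintro _ ⟨u, hu, rfl⟩
        exact hOn.conj_mem u (hHleO hu) g
      · intro T hT hTp
        rw [card_map_conj]
        exact hHO.card_le hHleO hT hTp
    obtain ⟨k, hkO, hk⟩ := StrongEmb.IsSylowIn.exists_conj hHO hg hHleO (by
      rintro _ ⟨u, hu, rfl⟩
      exact hOn.conj_mem u (hHleO hu) g)
    have hkg : k⁻¹ * g ∈ N := by
      rw [hN, Subgroup.mem_normalizer_iff]
      intro c
      constructor
      · intro hc
        have h1 : g * c * g⁻¹ ∈ H.map (MulAut.conj g).toMonoidHom := ⟨c, hc, rfl⟩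
        rw [hk, mem_map_conj] at h1
        have e : k⁻¹ * g * c * (k⁻¹ * g)⁻¹ = k⁻¹ * (g * c * g⁻¹) * k := by group
        rw [e]; exact h1
      · intro hc
        have e : k⁻¹ * g * c * (k⁻¹ * g)⁻¹ = k⁻¹ * (g * c * g⁻¹) * k := by group
        rw [e, ← mem_map_conj, ← hk, mem_map_conj] at hc
        have e2 : g⁻¹ * (g * c * g⁻¹) * g = c := by group
        rwa [e2] at hc
    obtain ⟨u, hu, hud⟩ := hdec k hkO
    have huN : u ∈ N := hPN hu.1
    set n := k⁻¹ * g with hn
    refine ⟨u * n, N.mul_mem huN hkg, n⁻¹ * (u⁻¹ * k) * n, ?_, ?_⟩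
    · have := hDn.conj_mem _ hud n⁻¹
      simpa using this
    · rw [hn]; group
  -- constrained: `C(H) ≤ O`
  have hCH : Subgroup.centralizer (H : Set G) ≤ O := by
    obtain ⟨R, hR⟩ := hHO
    have h1 := hcon R
    have h2 : (R : Subgroup ↥O).map O.subtype = H := by
      rw [hR, Subgroup.map_subgroupOf_eq_of_le hHleO]
    rw [h2] at h1
    exact h1
  rw [eq_top_iff]
  intro g _
  obtain ⟨n, hn, d, hd, rfl⟩ := hfrat g
  have hnH : H.map (MulAut.conj n).toMonoidHom ≤ (P : Subgroup G) := by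
    rintro _ ⟨u, hu, rfl⟩
    exact ((Subgroup.mem_normalizer_iff.1 hn u).1 hu).1
  obtain ⟨n₀, hn₀, c, hc, hne⟩ := hctrl H inf_le_left n hnH
  obtain ⟨u, hu, hud⟩ := hdec c (hCH hc)
  have huN : u ∈ Subgroup.normalizer ((P : Subgroup G) : Set G) := Subgroup.le_normalizer hu.1
  have e : n * d = (n₀ * u) * ((u⁻¹ * c) * d) := by rw [hne]; group
  rw [e]
  exact Subgroup.mul_mem _ (Subgroup.mem_sup_left (Subgroup.mul_mem _ hn₀ huN))
    (Subgroup.mem_sup_right (D.mul_mem hud hd))

theorem part_forw {G : Type*} [Group G] [Finite G] {p : ℕ} [Fact p.Prime] (P : Sylow p G)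
    (hG : Subgroup.normalizer ((P : Subgroup G) : Set G) ⊔ Cfsg.pPrimeCore p G = ⊤) :
    IsPConstrained p G ∧
      ∀ Q : Subgroup G, Q ≤ (P : Subgroup G) → ∀ g : G, Q.map (MulAut.conj g).toMonoidHom ≤ (P : Subgroup G) →
          ∃ n ∈ Subgroup.normalizer ((P : Subgroup G) : Set G), ∃ c ∈ Subgroup.centralizer (Q : Set G), g = n * c := by
  classical
  have hpp : p.Prime := Fact.out
  set D := Cfsg.pPrimeCore p G with hD
  haveI hDn : D.Normal := FitCore.pPrimeCore_normal p
  have hDc : ¬ p ∣ Nat.card D := FitCore.not_dvd_card_pPrimeCore p hpp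
  have hdecomp : ∀ g : G, ∃ n ∈ Subgroup.normalizer ((P : Subgroup G) : Set G), ∃ d ∈ D, g = n * d := by
    intro g
    have h1 : g ∈ ((Subgroup.normalizer ((P : Subgroup G) : Set G) ⊔ D : Subgroup G) : Set G) := by
      rw [hG]; trivial
    rw [Subgroup.mul_normal] at h1
    obtain ⟨n, hn, d, hd, e⟩ := h1
    exact ⟨n, hn, d, hd, e.symm⟩
  refine ⟨?_, ?_⟩
  · rw [PComps2.isPConstrained_iff, PComps2.pLayer_eq_bot_iff]
    rw [eq_bot_iff, layer]
    refine sSup_le fun Kb hKb => ?_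
    exfalso
    let π := QuotientGroup.mk' D
    have hπ : Function.Surjective π := QuotientGroup.mk'_surjective D
    let Pb : Sylow p (G ⧸ D) := P.mapSurjective hπ
    have hPb : ((Pb : Sylow p (G ⧸ D)) : Subgroup (G ⧸ D)) = (P : Subgroup G).map π := Sylow.coe_mapSurjective hπ P
    have hPbn : ((Pb : Subgroup (G ⧸ D))).Normal := by
      apply Subgroup.normalizer_eq_top_iff.1
      rw [eq_top_iff]
      intro q _
      obtain ⟨g, rfl⟩ := hπ q
      obtain ⟨n, hn, d, hd, rfl⟩ := hdecomp g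
      have h1 : π d = 1 := (QuotientGroup.eq_one_iff _).2 hd
      rw [map_mul, h1, mul_one, hPb]
      exact Subgroup.le_normalizer_map π ⟨n, hn, rfl⟩
    have hdvd : p ∣ Nat.card Kb := PComps2.dvd_card_of_component hKb
    refine PComps2.not_dvd_of_perfect_of_central (p := p) hKb.2.1 ?_ hdvd
    -- `Kb` centralizes `Pb`
    have hcomm : ⁅Kb, (Pb : Subgroup (G ⧸ D))⁆ = ⊥ := by
      rcases Comps.comp_lemma hKb hPbn.isSubnormal with h | h
      · exfalso
        have h1 : Nat.card Kb ∣ Nat.card (Pb : Subgroup (G ⧸ D)) := Subgroup.card_dvd_of_le h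
        have hKbp : IsPGroup p Kb := Pb.isPGroup'.to_le h
        haveI := hKb.2.1
        haveI : Nontrivial Kb := Comps.nontrivial_of_quasisimple hKb.2
        have hs : Group.IsSolvable Kb := by
          haveI : Group.IsNilpotent Kb := hKbp.isNilpotent
          exact inferInstance
        exact Comps.not_solvable_of_quasisimple hKb.2 hs
      · exact h
    have hPbunique := Sylow.unique_of_normal Pb hPbn
    intro g k hk
    rw [Subgroup.mem_center_iff]
    intro h
    have hgP : (g : G ⧸ D) ∈ (Pb : Subgroup (G ⧸ D)) := by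
      have hzp : IsPGroup p (Subgroup.zpowers (g : G ⧸ D)) := by
        apply IsPGroup.of_card (n := k)
        rw [Nat.card_zpowers, Subgroup.orderOf_coe, hk]
      obtain ⟨R, hR⟩ := hzp.exists_le_sylow
      have hRP : R = Pb := Subsingleton.elim _ _
      rw [← hRP]
      exact hR (Subgroup.mem_zpowers _)
    have h1 : ⁅(h : G ⧸ D), (g : G ⧸ D)⁆ ∈ ⁅Kb, (Pb : Subgroup (G ⧸ D))⁆ :=
      Subgroup.commutator_mem_commutator h.2 hgP
    rw [hcomm, Subgroup.mem_bot, commutatorElement_eq_one_iff_mul_comm] at h1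
    exact Subtype.ext h1
  · intro Q hQ g hg
    obtain ⟨n, hn, d, hd, rfl⟩ := hdecomp g
    refine ⟨n, hn, d, Subgroup.mem_centralizer_iff.2 ?_, rfl⟩
    intro u hu
    have h1 : (n * d) * u * (n * d)⁻¹ ∈ (P : Subgroup G) := hg ⟨u, hu, rfl⟩
    have h2 : d * u * d⁻¹ ∈ (P : Subgroup G) := by
      have := (Subgroup.mem_normalizer_iff.1 (Subgroup.inv_mem _ hn) _).1 h1
      have e : n⁻¹ * ((n * d) * u * (n * d)⁻¹) * n⁻¹⁻¹ = d * u * d⁻¹ := by group
      rwa [e] at this
    have h3 : d * u * d⁻¹ * u⁻¹ ∈ (P : Subgroup G) := Subgroup.mul_mem _ h2 (Subgroup.inv_mem _ (hQ hu))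
    have h4 : d * u * d⁻¹ * u⁻¹ ∈ D := by
      have h5 := hDn.conj_mem _ (D.inv_mem hd) u
      have e : d * u * d⁻¹ * u⁻¹ = d * (u * d⁻¹ * u⁻¹) := by group
      rw [e]
      exact D.mul_mem hd h5
    have h5 := SecTransfer.eq_one_of_mem_coprime P.isPGroup' hDc h3 h4
    have h6 : d * u * d⁻¹ = u := mul_inv_eq_one.1 h5
    calc u * d = (d * u * d⁻¹) * d := by rw [h6]
      _ = d * u := by group

/-- Let S be a Sylow p-subgroup of the finite group G. Then G = N_G(S)·O_{p'}(G) if and only if G is p-constrained and N_G(S) controls fusion in S, in the sense that whenever a subgroup Q of S has a conjugate g Q g⁻¹ inside S, the element g is a product n c with n normalizing S and c centralizing Q. -/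
theorem result {G : Type*} [Group G] [Finite G] {p : ℕ} [Fact p.Prime] (S : Sylow p G) :
    Subgroup.normalizer ((S : Subgroup G) : Set G) ⊔ Cfsg.pPrimeCore p G = ⊤ ↔
      (Cfsg.IsPConstrained p G ∧
        ∀ Q : Subgroup G, Q ≤ (S : Subgroup G) → ∀ g : G, Q.map (MulAut.conj g).toMonoidHom ≤ (S : Subgroup G) →
          ∃ n ∈ Subgroup.normalizer ((S : Subgroup G) : Set G), ∃ c ∈ Subgroup.centralizer (Q : Set G), g = n * c) := by
  exact ⟨fun h => part_forw S h, fun h => part_back S h.1 h.2⟩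

end Cfsg.Agent.S1948
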