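import Mathlib
import Cfsg.Prelude
import Cfsg.Statements.S1952
-- import your own Cfsg.Agent.* helpers here

set_option autoImplicit false
open Cfsg

namespace Cfsg.Agent.S1952


open Polynomial

section SG

variable {p : ℕ} [hpf : Fact p.Prime]

theorem shift_gen (W : AddSubgroup (ZMod p → ZMod p)) (hσ : ∀ u ∈ W, (fun i => u (i + 1)) ∈ W)
    (v : ZMod p → ZMod p) (hv : v ∈ W) (hs : ∑ i, v i ≠ 0) : W = ⊤ := by
  classical
  have hpp : p.Prime := hpf.out
  let σ : Module.End (ZMod p) (ZMod p → ZMod p) :=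
    { toFun := fun u i => u (i + 1), map_add' := fun _ _ => rfl, map_smul' := fun _ _ => rfl }
  have hσ1 : ∀ (u : ZMod p → ZMod p) (i : ZMod p), σ u i = u (i + 1) := fun _ _ => rfl
  have hσk : ∀ (k : ℕ) (u : ZMod p → ZMod p) (i : ZMod p), (σ ^ k) u i = u (i + k) := by
    intro k u
    induction k with
    | zero => intro i; simp
    | succ k ih =>
      intro i
      rw [pow_succ', Module.End.mul_apply, hσ1, ih]
      congr 1
      push_cast
      ring
  have hσp : σ ^ p = 1 := by
    apply LinearMap.ext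
    intro u
    funext i
    rw [hσk]
    simp
  let δ : ZMod p → ZMod p := fun i => if i = 0 then 1 else 0
  let r : (ZMod p → ZMod p) → (ZMod p)[X] := fun u => ∑ k : ZMod p, C (u k) * X ^ ((-k).val)
  have hrep : ∀ u : ZMod p → ZMod p, aeval σ (r u) δ = u := by
    intro u
    funext i
    have h1 : ∀ (c : ZMod p) (m : ℕ), aeval σ (C c * X ^ m : (ZMod p)[X]) = c • σ ^ m := by
      intro c m
      rw [map_mul, aeval_C, map_pow, aeval_X, Algebra.algebraMap_eq_smul_one, smul_mul_assoc, one_mul]
    simp only [r, map_sum, h1, LinearMap.sum_apply, Finset.sum_apply, LinearMap.smul_apply, Pi.smul_apply, hσk,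
      ZMod.natCast_zmod_val, smul_eq_mul]
    rw [Finset.sum_eq_single i]
    · simp [δ]
    · intro b _ hb
      have : i + -b ≠ 0 := by
        intro h0
        apply hb
        have h2 : i - b = 0 := by rw [sub_eq_add_neg]; exact h0
        exact (sub_eq_zero.mp h2).symm
      simp [δ, this]
    · simp
  have hev : (r v).eval 1 ≠ 0 := by
    simp only [r, eval_finsetSum, eval_mul, eval_C, eval_pow, eval_X, one_pow, mul_one]
    exact hs
  have hnd : ¬ (X - C (1 : ZMod p)) ∣ r v := by
    rw [dvd_iff_isRoot]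
    exact hev
  have hcop : IsCoprime (X - C (1 : ZMod p)) (r v) := (irreducible_X_sub_C (1 : ZMod p)).coprime_iff_not_dvd.mpr hnd
  obtain ⟨a, b, hab⟩ := (hcop.pow_left (m := p))
  have h0 : aeval σ ((X - C (1 : ZMod p)) ^ p) = 0 := by
    rw [sub_pow_char, map_sub, map_pow, map_pow, aeval_X, aeval_C, hσp, map_one, one_pow, sub_self]
  have h1 : aeval σ b * aeval σ (r v) = 1 := by
    have := congrArg (aeval σ) hab
    rw [map_add, map_mul, map_mul, h0, mul_zero, zero_add, map_one] at this
    exact this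
  have hδ : aeval σ b v = δ := by
    conv_lhs => rw [← hrep v]
    have := LinearMap.congr_fun h1 δ
    rw [Module.End.mul_apply] at this
    rw [this]
    rfl
  have hsmul : ∀ (c : ZMod p) (w : ZMod p → ZMod p), w ∈ W → c • w ∈ W := by
    intro c w hw
    exact (AddSubgroup.toZModSubmodule p W).smul_mem c hw
  have hpw : ∀ (n : ℕ) (u : ZMod p → ZMod p), u ∈ W → (σ ^ n) u ∈ W := by
    intro n u hu
    induction n with
    | zero => simpa using hu
    | succ n ih =>
      rw [pow_succ', Module.End.mul_apply]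
      exact hσ _ ih
  have hinv : ∀ (q : (ZMod p)[X]) (u : ZMod p → ZMod p), u ∈ W → aeval σ q u ∈ W := by
    intro q u hu
    induction q using Polynomial.induction_on' with
    | add f g hf hg =>
      rw [map_add, LinearMap.add_apply]
      exact W.add_mem hf hg
    | monomial n c =>
      rw [aeval_monomial, Module.End.mul_apply, Module.algebraMap_end_apply]
      exact hsmul _ _ (hpw n u hu)
  have hδW : δ ∈ W := hδ ▸ hinv b v hv
  rw [eq_top_iff]
  intro u _
  rw [← hrep u]
  exact hinv _ _ hδW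

theorem dual_aux {V : Type*} [AddCommGroup V] [Module (ZMod p) V] (v : V) (hv : v ≠ 0) :
    ∃ f : V →+ ZMod p, f v ≠ 0 := by
  by_contra hno
  push Not at hno
  exact hv ((Module.forall_dual_apply_eq_zero_iff (ZMod p) v).mp (fun φ => hno φ.toAddMonoidHom))

theorem exists_functional {A : Type*} [CommGroup A] (hp : ∀ a : A, a ^ p = 1) (z : A) (hz : z ≠ 1) :
    ∃ lam : A →* Multiplicative (ZMod p), lam z ≠ 1 := by
  have hpV : ∀ u : Additive A, p • u = 0 := fun u => by
    show Additive.ofMul (u.toMul ^ p) = 0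
    rw [hp]
    rfl
  letI : Module (ZMod p) (Additive A) := AddCommGroup.zmodModule hpV
  have hz' : Additive.ofMul z ≠ 0 := by simpa using hz
  obtain ⟨f, hf⟩ := dual_aux (p := p) (Additive.ofMul z) hz'
  refine ⟨MonoidHom.mk' (fun a => Multiplicative.ofAdd (f (Additive.ofMul a))) (fun a b => by
    rw [ofMul_mul, map_add]
    rfl), ?_⟩
  intro h1
  exact hf (Multiplicative.ofAdd.injective h1)

end SG


/-- Let P be a finite p-group with a normal elementary abelian subgroup A of index p, and let x ∈ A and y ∈ P with y outside A. If the product of the p conjugates y^(-i) x y^i (i = 0, …, p−1) is not the identity, then the wreath product Z_p ≀ Z_p, realised as a Sylow p-subgroup of the symmetric group of degree p², is a homomorphic image of P. -/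
theorem result {P : Type*} [Group P] [Finite P] {p : ℕ} [Fact p.Prime] (hP : IsPGroup p P) (A : Subgroup P) [A.Normal]
    (hA : Cfsg.IsElementaryAbelian p A) (hidx : A.index = p) (x y : P) (hx : x ∈ A) (hy : y ∉ A)
    (hprod : ((List.range p).map (fun i => (y ^ i)⁻¹ * x * y ^ i)).prod ≠ 1) :
    ∃ (Q : Sylow p (Equiv.Perm (Fin (p ^ 2)))) (f : P →* ↥(Q : Subgroup (Equiv.Perm (Fin (p ^ 2))))), Function.Surjective f := by
  classical
  have hpp : p.Prime := Fact.out
  obtain ⟨hAc, hAp⟩ := hA
  have hcomm : ∀ a b : ↥A, a * b = b * a := fun a b => hAc.is_comm.comm a b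
  have hfun : ∀ z : ↥A, z ≠ 1 → ∃ lam : ↥A →* Multiplicative (ZMod p), lam z ≠ 1 := by
    intro z hz
    letI inst : CommGroup ↥A := { (inferInstance : Group ↥A) with mul_comm := hcomm }
    exact exists_functional (fun a => Subtype.ext (hAp a a.2)) z hz
  have hcardQ : Nat.card (P ⧸ A) = p := hidx
  have hyne : (y : P ⧸ A) ≠ 1 := by
    rwa [Ne, QuotientGroup.eq_one_iff]
  have hypA : y ^ p ∈ A := by
    have h1 := pow_card_eq_one' (x := (y : P ⧸ A))
    rw [hcardQ, ← QuotientGroup.mk_pow, QuotientGroup.eq_one_iff] at h1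
    exact h1
  have hdec : ∀ g : P, ∃ k : ℕ, (y ^ k)⁻¹ * g ∈ A := by
    intro g
    have h1 : (g : P ⧸ A) ∈ Subgroup.zpowers (y : P ⧸ A) := mem_zpowers_of_prime_card hcardQ hyne
    obtain ⟨k, hk⟩ := mem_powers_iff_mem_zpowers.mpr h1
    refine ⟨k, ?_⟩
    rw [← QuotientGroup.eq, QuotientGroup.mk_pow]
    exact hk
  let c : MulAut ↥A := MulAut.conjNormal y⁻¹
  have hc1 : ∀ a : ↥A, ((c a : ↥A) : P) = y⁻¹ * a * y := by
    intro a
    show ((MulAut.conjNormal y⁻¹ a : ↥A) : P) = _
    rw [MulAut.conjNormal_apply, inv_inv]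
  have hc : ∀ (k : ℕ) (a : ↥A), (((c ^ k) a : ↥A) : P) = (y ^ k)⁻¹ * a * y ^ k := by
    intro k a
    induction k with
    | zero => simp
    | succ k ih =>
      rw [pow_succ', MulAut.mul_apply, hc1, ih, pow_succ]
      group
  have hcp : c ^ p = 1 := by
    ext a
    rw [hc]
    have h1 := congrArg Subtype.val (hcomm ⟨y ^ p, hypA⟩ a)
    have h2 : y ^ p * (a : P) = a * y ^ p := h1
    rw [MulAut.one_apply, mul_assoc, inv_mul_eq_iff_eq_mul]
    exact h2.symm
  have hcmod : ∀ k : ℕ, c ^ k = c ^ (k % p) := fun k => pow_eq_pow_mod k hcp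
  let xt : ↥A := ⟨x, hx⟩
  let zt : ↥A := ((List.range p).map (fun k => (c ^ k) xt)).prod
  have hzt : zt ≠ 1 := by
    intro h1
    apply hprod
    have h2 := congrArg A.subtype h1
    rw [map_one, map_list_prod, List.map_map] at h2
    rw [← h2]
    congr 1
    apply List.map_congr_left
    intro k _
    show _ = (((c ^ k) xt : ↥A) : P)
    rw [hc]
  obtain ⟨lam, hlam⟩ := hfun zt hzt
  let τ : ↥A → (ZMod p → ZMod p) := fun a i => Multiplicative.toAdd (lam ((c ^ i.val) a))
  have τ_mul : ∀ a b, τ (a * b) = τ a + τ b := by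
    intro a b
    funext i
    simp [τ, map_mul, toAdd_mul]
  have τ_one : τ 1 = 0 := by
    funext i
    simp [τ]
  have τ_inv : ∀ a, τ a⁻¹ = - τ a := by
    intro a
    funext i
    simp [τ]
  let W : AddSubgroup (ZMod p → ZMod p) :=
    { carrier := Set.range τ
      add_mem' := by
        rintro _ _ ⟨a, rfl⟩ ⟨b, rfl⟩
        exact ⟨a * b, τ_mul a b⟩
      zero_mem' := ⟨1, τ_one⟩
      neg_mem' := by
        rintro _ ⟨a, rfl⟩
        exact ⟨a⁻¹, τ_inv a⟩ }
  have hval1 : ∀ i : ZMod p, (i + 1).val = (i.val + 1) % p := by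
    intro i
    rw [ZMod.val_add, ZMod.val_one_eq_one_mod, Nat.mod_eq_of_lt hpp.one_lt]
  have hσW : ∀ u ∈ W, (fun i => u (i + 1)) ∈ W := by
    rintro _ ⟨a, rfl⟩
    refine ⟨c a, ?_⟩
    funext i
    show Multiplicative.toAdd (lam ((c ^ i.val) (c a))) = Multiplicative.toAdd (lam ((c ^ (i + 1).val) a))
    rw [hval1, ← hcmod, pow_succ, MulAut.mul_apply]
  have hsumlist : ∀ n : ℕ, Multiplicative.toAdd (lam (((List.range n).map (fun k => (c ^ k) xt)).prod)) =
      ∑ k ∈ Finset.range n, Multiplicative.toAdd (lam ((c ^ k) xt)) := by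
    intro n
    induction n with
    | zero => simp
    | succ n ih =>
      rw [List.range_succ, List.map_append, List.prod_append, Finset.sum_range_succ, map_mul, toAdd_mul, ih]
      simp
  have hsum : ∑ i, τ xt i ≠ 0 := by
    have h1 : ∑ i, τ xt i = ∑ k ∈ Finset.range p, Multiplicative.toAdd (lam ((c ^ k) xt)) := by
      apply Finset.sum_nbij' (fun i : ZMod p => i.val) (fun k : ℕ => (k : ZMod p))
      · intro i _
        exact Finset.mem_range.mpr (ZMod.val_lt i)
      · intro k _
        exact Finset.mem_univ _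
      · intro i _
        exact ZMod.natCast_zmod_val i
      · intro k hk
        exact ZMod.val_cast_of_lt (Finset.mem_range.mp hk)
      · intro i _
        rfl
    rw [h1, ← hsumlist]
    intro h2
    exact hlam (Multiplicative.toAdd.injective h2)
  have hWtop : W = ⊤ := shift_gen W hσW (τ xt) ⟨xt, rfl⟩ hsum
  have hτsurj : Function.Surjective τ := by
    intro u
    have h1 : u ∈ W := by rw [hWtop]; trivial
    exact h1
  let T : ↥A →* Multiplicative (ZMod p → ZMod p) :=
    MonoidHom.mk' (fun a => Multiplicative.ofAdd (τ a)) (by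
      intro a b
      rw [τ_mul]
      rfl)
  have hTsurj : Function.Surjective T := by
    intro u
    obtain ⟨a, ha⟩ := hτsurj (Multiplicative.toAdd u)
    exact ⟨a, congrArg Multiplicative.ofAdd ha⟩
  have hcardV : Nat.card (Multiplicative (ZMod p → ZMod p)) = p ^ p := by
    show Nat.card (ZMod p → ZMod p) = p ^ p
    rw [Nat.card_fun, Nat.card_zmod]
  have hcardT : Nat.card T.ker * p ^ p = Nat.card A := by
    have h1 := Subgroup.card_mul_index T.ker
    rw [Subgroup.index_ker, MonoidHom.range_eq_top.mpr hTsurj, Subgroup.card_top, hcardV] at h1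
    exact h1
  let S : Subgroup P := lam.ker.map A.subtype
  have hmemS : ∀ a : ↥A, (a : P) ∈ S ↔ lam a = 1 := by
    intro a
    constructor
    · rintro ⟨b, hb, hab⟩
      have : b = a := Subtype.ext hab
      rw [← this]
      exact hb
    · intro h
      exact ⟨a, h, rfl⟩
  have hSA : S ≤ A := by
    rintro _ ⟨b, _, rfl⟩
    exact b.2
  have hKS : S.normalCore ≤ S := Subgroup.normalCore_le S
  have hKA : S.normalCore ≤ A := hKS.trans hSA
  have hK : ∀ a : ↥A, (a : P) ∈ S.normalCore ↔ τ a = 0 := by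
    intro a
    constructor
    · intro h
      funext i
      have h1 : ((y ^ i.val)⁻¹) * a * ((y ^ i.val)⁻¹)⁻¹ ∈ S := h _
      rw [inv_inv, ← hc, hmemS] at h1
      show Multiplicative.toAdd (lam ((c ^ i.val) a)) = 0
      rw [h1]
      rfl
    · intro h b
      obtain ⟨k, hk⟩ := hdec b⁻¹
      have h1 : Multiplicative.toAdd (lam ((c ^ ((k : ZMod p)).val) a)) = 0 := congrFun h (k : ZMod p)
      rw [ZMod.val_natCast, ← hcmod] at h1
      have h2 : lam ((c ^ k) a) = 1 := Multiplicative.toAdd.injective h1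
      have h3 := (hmemS _).mpr h2
      rw [hc] at h3
      have h4 := congrArg Subtype.val (hcomm ⟨_, hk⟩ ((c ^ k) a))
      have h5 : (y ^ k)⁻¹ * b⁻¹ * (((c ^ k) a : ↥A) : P) = (((c ^ k) a : ↥A) : P) * ((y ^ k)⁻¹ * b⁻¹) := h4
      rw [hc] at h5
      have h6 : b * a * b⁻¹ = (y ^ k)⁻¹ * a * y ^ k := by
        have e1 : b * a * b⁻¹ = ((y ^ k)⁻¹ * b⁻¹)⁻¹ * ((y ^ k)⁻¹ * a * y ^ k) * ((y ^ k)⁻¹ * b⁻¹) := by
          group
        rw [e1, mul_assoc, ← h5, inv_mul_cancel_left]
      rw [h6]
      exact h3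
  have hKT : T.ker = S.normalCore.subgroupOf A := by
    ext a
    rw [MonoidHom.mem_ker, Subgroup.mem_subgroupOf, hK]
    constructor
    · intro h
      exact Multiplicative.ofAdd.injective h
    · intro h
      show Multiplicative.ofAdd (τ a) = 1
      rw [h]
      rfl
  have hcardK : Nat.card S.normalCore = Nat.card T.ker := by
    rw [hKT]
    exact (Nat.card_congr (Subgroup.subgroupOfEquivOfLe hKA).toEquiv).symm
  have hcardP : Nat.card P = Nat.card A * p := by
    rw [← Subgroup.card_mul_index A, hidx]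
  have hKpos : 0 < Nat.card S.normalCore := Nat.card_pos
  have hKidx : S.normalCore.index = p ^ p * p := by
    have h1 := Subgroup.card_mul_index S.normalCore
    rw [hcardP, ← hcardT, ← hcardK, mul_assoc] at h1
    exact Nat.eq_of_mul_eq_mul_left hKpos h1
  -- index of S
  have hcardM : Nat.card (Multiplicative (ZMod p)) = p := by
    show Nat.card (ZMod p) = p
    exact Nat.card_zmod p
  haveI : Fact (Nat.card (Multiplicative (ZMod p))).Prime := ⟨by rw [hcardM]; exact hpp⟩
  have hrange : lam.range = ⊤ := by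
    rcases Subgroup.eq_bot_or_eq_top_of_prime_card lam.range with h1 | h1
    · exfalso
      apply hlam
      have : lam zt ∈ lam.range := ⟨zt, rfl⟩
      rw [h1] at this
      exact Subgroup.mem_bot.mp this
    · exact h1
  have hcardlam : Nat.card lam.ker * p = Nat.card A := by
    have h1 := Subgroup.card_mul_index lam.ker
    rw [Subgroup.index_ker, hrange, Subgroup.card_top, hcardM] at h1
    exact h1
  have hcardS : Nat.card S = Nat.card lam.ker :=
    (Nat.card_congr (lam.ker.equivMapOfInjective A.subtype A.subtype_injective).toEquiv).symm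
  have hSidx : S.index = p ^ 2 := by
    have h1 := Subgroup.card_mul_index S
    rw [hcardP, ← hcardlam, hcardS, mul_assoc] at h1
    have h2 : 0 < Nat.card lam.ker := Nat.card_pos
    rw [Nat.eq_of_mul_eq_mul_left h2 h1, pow_two]
  let φ : P →* Equiv.Perm (P ⧸ S) := MulAction.toPermHom P (P ⧸ S)
  have hφker : φ.ker = S.normalCore := (Subgroup.normalCore_eq_ker S).symm
  let e : (P ⧸ S) ≃ Fin (p ^ 2) := Finite.equivFinOfCardEq hSidx
  let f0 : P →* Equiv.Perm (Fin (p ^ 2)) := (Equiv.permCongrHom e).toMonoidHom.comp φ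
  have hf0ker : f0.ker = φ.ker := by
    ext g
    simp [f0, MonoidHom.mem_ker]
  have hfact : (Nat.card (Equiv.Perm (Fin (p ^ 2)))).factorization p = p + 1 := by
    rw [Nat.card_perm, Nat.card_fin, Nat.factorization_def _ hpp, pow_two, padicValNat_factorial_mul]
    have h1 := padicValNat_factorial_mul (p := p) 1
    rw [mul_one, Nat.factorial_one] at h1
    rw [h1]
    simp
    omega
  have hcardf : Nat.card f0.range = p ^ (Nat.card (Equiv.Perm (Fin (p ^ 2)))).factorization p := by
    rw [hfact, ← Subgroup.index_ker, hf0ker, hφker, hKidx, pow_succ]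
  refine ⟨Sylow.ofCard f0.range hcardf, f0.codRestrict _ ?_, ?_⟩
  · intro g
    rw [Sylow.coe_ofCard]
    exact ⟨g, rfl⟩
  · rintro ⟨q, hq⟩
    rw [Sylow.coe_ofCard] at hq
    obtain ⟨g, rfl⟩ := hq
    exact ⟨g, Subtype.ext rfl⟩

end Cfsg.Agent.S1952
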