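import Cfsg.Statements.S1958
import Mathlib
import Cfsg.Agent.S1907
import Cfsg.Agent.Lib.PComps2
import Cfsg.Agent.Lib.SecTransfer
import Cfsg.Agent.Lib.SolvCore
import Cfsg.Agent.Lib.FitCore
import Cfsg.Agent.Lib.CoprimeAB
import Cfsg.Agent.Lib.PResidual

set_option autoImplicit false
open Cfsg

namespace Cfsg.Agent.S1958

open Cfsg Cfsg.Agent.Lib

theorem main_le {G : Type*} [Group G] [Finite G] (p : ℕ) [Fact p.Prime] (x y : G) (hx : orderOf x = p)
    (hxy : x * y = y * x) (hCy : Group.IsSolvable ↥(Subgroup.centralizer ({y} : Set G))) :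
    Cfsg.centralizerPPrimeCore p x ⊓ Subgroup.centralizer {y} ≤ Cfsg.centralizerPPrimeCore p y := by
  classical
  have hpp : p.Prime := Fact.out
  set Cx := Subgroup.centralizer ({x} : Set G) with hCx
  set Y := Subgroup.centralizer ({y} : Set G) with hY
  set D₀ := Cfsg.centralizerPPrimeCore p x ⊓ Y with hD₀
  set O := Cfsg.pPrimeCore p ↥Y with hO
  haveI hOn : O.Normal := FitCore.pPrimeCore_normal p
  let π := QuotientGroup.mk' O
  have hπ : Function.Surjective π := QuotientGroup.mk'_surjective O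
  have hxY : x ∈ Y := by
    refine Subgroup.mem_centralizer_iff.2 ?_
    intro h hh
    have hh' : h = y := hh
    rw [hh']; exact hxy.symm
  let xh : ↥Y := ⟨x, hxY⟩
  have hyCx : y ∈ Cx := by
    refine Subgroup.mem_centralizer_iff.2 ?_
    intro h hh
    have hh' : h = x := hh
    rw [hh']; exact hxy
  let D : Subgroup ↥Y := D₀.subgroupOf Y
  let Db : Subgroup (↥Y ⧸ O) := D.map π
  -- `D₀` has order prime to `p`
  have hD₀c : ¬ p ∣ Nat.card D₀ := by
    intro h
    have h1 : Nat.card D₀ ∣ Nat.card (Cfsg.centralizerPPrimeCore p x) := Subgroup.card_dvd_of_le inf_le_left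
    have h2 : Nat.card (Cfsg.centralizerPPrimeCore p x) = Nat.card (Cfsg.pPrimeCore p ↥Cx) :=
      Subgroup.card_map_of_injective Cx.subtype_injective
    have h3 : ¬ p ∣ Nat.card (Cfsg.pPrimeCore p ↥Cx) := FitCore.not_dvd_card_pPrimeCore p hpp
    rw [h2] at h1
    exact h3 (h.trans h1)
  have hDle : D₀ ≤ Y := inf_le_right
  have hDc : Nat.card D = Nat.card D₀ := Nat.card_congr (Subgroup.subgroupOfEquivOfLe hDle).toEquiv
  have hDbc : ¬ p ∣ Nat.card Db := by
    intro h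
    have h1 : Nat.card Db ∣ Nat.card D :=
      Subgroup.card_dvd_of_surjective (π.subgroupMap D) (π.subgroupMap_surjective D)
    rw [hDc] at h1
    exact hD₀c (h.trans h1)
  haveI hQn : (Cfsg.pCore p (↥Y ⧸ O)).Normal := FitCore.pCore_normal p
  have hQp : IsPGroup p (Cfsg.pCore p (↥Y ⧸ O)) := FitCore.pCore_isPGroup p
  -- elements of `D₀` commute with `x`
  have hDx : ∀ d ∈ D₀, d * x = x * d := by
    intro d hd
    obtain ⟨e, -, he⟩ := hd.1
    have hdc : d ∈ Cx := by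
      rw [← he]; exact e.2
    exact (Subgroup.mem_centralizer_iff.1 hdc x rfl).symm
  -- `D₀` is normalized by `C(x) ∩ C(y)`
  have hnorm : ∀ q : G, q ∈ Cx → q ∈ Y → ∀ d ∈ D₀, q * d * q⁻¹ ∈ D₀ := by
    intro q hqx hqy d hd
    refine ⟨?_, Y.mul_mem (Y.mul_mem hqy hd.2) (Y.inv_mem hqy)⟩
    obtain ⟨e, he, rfl⟩ := hd.1
    haveI : (Cfsg.pPrimeCore p ↥Cx).Normal := FitCore.pPrimeCore_normal p
    have h1 := (inferInstance : (Cfsg.pPrimeCore p ↥Cx).Normal).conj_mem e he ⟨q, hqx⟩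
    exact ⟨_, h1, rfl⟩
  -- the main application of the `A × B` lemma
  have hfix : ∀ q ∈ Cfsg.pCore p (↥Y ⧸ O), (∀ b ∈ Subgroup.zpowers (π xh), q * b = b * q) →
      ∀ a ∈ Db, a * q = q * a := by
    intro q hq hqb a ha
    have hqx : q * π xh = π xh * q := hqb _ (Subgroup.mem_zpowers _)
    obtain ⟨q₀, rfl⟩ := hπ q
    have hOc : ¬ p ∣ Nat.card O := FitCore.not_dvd_card_pPrimeCore p hpp
    have hxhp : xh ^ p ^ 1 = 1 := by
      apply Subtype.ext
      show x ^ p ^ 1 = 1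
      rw [pow_one, ← hx]; exact pow_orderOf_eq_one x
    obtain ⟨z, hzf, hz⟩ := Cfsg.Agent.S1907.fix_coset O hOc xh 1 hxhp q₀ (by
      intro z hz
      set c := q₀⁻¹ * z with hc
      have hzd : z = q₀ * c := by rw [hc]; group
      have e : q₀⁻¹ * (xh * z * xh⁻¹) = (q₀⁻¹ * xh * q₀ * xh⁻¹) * (xh * c * xh⁻¹) := by
        rw [hzd]; group
      rw [e]
      refine O.mul_mem ?_ (hOn.conj_mem c hz xh)
      have h1 : π (q₀⁻¹ * xh * q₀ * xh⁻¹) = 1 := by
        rw [map_mul, map_mul, map_mul, map_inv, map_inv, mul_assoc (π q₀)⁻¹, ← hqx]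
        group
      exact (QuotientGroup.eq_one_iff _).1 h1)
    have hπz : π z = π q₀ := by
      have h1 : π (q₀⁻¹ * z) = 1 := (QuotientGroup.eq_one_iff _).2 hz
      rw [map_mul, map_inv] at h1
      exact (inv_mul_eq_one.1 h1).symm
    -- the `p`-part of `z`
    obtain ⟨w, u, hzwu, -, hw, ⟨k, hk⟩, hwz, huz⟩ := PResidual.exists_decomp (p := p) z
    have hπw : π w = 1 := by
      have h1 : IsPGroup p (Subgroup.zpowers (π z)) := by
        rw [hπz]
        exact hQp.to_le (by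
          rw [Subgroup.zpowers_le]; exact hq)
      obtain ⟨n, hn⟩ := hwz
      have h2 : π w ∈ Subgroup.zpowers (π z) := ⟨n, by rw [← hn]; simp⟩
      obtain ⟨j, hj⟩ := h1 ⟨π w, h2⟩
      have h3 : (π w) ^ p ^ j = 1 := congrArg Subtype.val hj
      have h4 : orderOf (π w) ∣ p ^ j := orderOf_dvd_of_pow_eq_one h3
      have h5 : orderOf (π w) ∣ orderOf w := orderOf_map_dvd π w
      have h6 : Nat.Coprime (p ^ j) (orderOf w) := Nat.Coprime.pow_left j hw.symm
      exact orderOf_eq_one_iff.1 (Nat.eq_one_of_dvd_coprimes h6 h4 h5)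
    have hπu : π u = π q₀ := by
      rw [← hπz, hzwu, map_mul, hπw, one_mul]
    -- `u` commutes with `x`
    have hux : xh * u * xh⁻¹ = u := by
      obtain ⟨n, hn⟩ := huz
      have h1 : xh * z ^ n * xh⁻¹ = z ^ n := by
        rw [← conj_zpow, hzf]
      have hn' : z ^ n = u := hn
      rw [hn'] at h1
      exact h1
    have huCx : (u : G) ∈ Cx := by
      refine Subgroup.mem_centralizer_iff.2 ?_
      intro h hh
      have hh' : h = x := hh
      rw [hh']
      have h1 : (xh : G) * (u : G) * (xh : G)⁻¹ = u := congrArg Subtype.val hux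
      calc x * (u : G) = (x * (u : G) * x⁻¹) * x := by group
        _ = (u : G) * x := by
          have : x * (u : G) * x⁻¹ = u := h1
          rw [this]
    obtain ⟨d, hd, rfl⟩ := ha
    have hdD₀ : (d : G) ∈ D₀ := hd
    -- the commutator lies in `Db` and in `Q`
    have h1 : (u : G) * d * (u : G)⁻¹ ∈ D₀ := hnorm u huCx u.2 d hdD₀
    have hqu : π u ∈ Cfsg.pCore p (↥Y ⧸ O) := by rw [hπu]; exact hq
    have h2 : π d * π u * (π d)⁻¹ * (π u)⁻¹ ∈ Cfsg.pCore p (↥Y ⧸ O) :=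
      Subgroup.mul_mem _ (hQn.conj_mem _ hqu _) (Subgroup.inv_mem _ hqu)
    have h3 : π d * π u * (π d)⁻¹ * (π u)⁻¹ ∈ Db := by
      refine ⟨d * (u * d⁻¹ * u⁻¹), ?_, ?_⟩
      · show ((d * (u * d⁻¹ * u⁻¹) : ↥Y) : G) ∈ D₀
        have h4 : (u : G) * (d : G)⁻¹ * (u : G)⁻¹ ∈ D₀ := hnorm u huCx u.2 _ (D₀.inv_mem hdD₀)
        exact D₀.mul_mem hdD₀ h4
      · simp only [map_mul, map_inv]
        group
    have h4 := SecTransfer.eq_one_of_mem_coprime hQp hDbc h2 h3
    rw [← hπu]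
    have h5 : π d * π u * (π d)⁻¹ = π u := mul_inv_eq_one.1 h4
    calc π d * π u = (π d * π u * (π d)⁻¹) * π d := by group
      _ = π u * π d := by rw [h5]
  have hBp : IsPGroup p (Subgroup.zpowers (π xh)) := by
    have h1 : (π xh) ^ p ^ 1 = 1 := by
      have : xh ^ p ^ 1 = 1 := by
        apply Subtype.ext
        show x ^ p ^ 1 = 1
        rw [pow_one, ← hx]; exact pow_orderOf_eq_one x
      rw [← map_pow, this, map_one]
    have h2 : orderOf (π xh) ∣ p ^ 1 := orderOf_dvd_of_pow_eq_one h1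
    obtain ⟨j, -, hj⟩ := (Nat.dvd_prime_pow hpp).1 h2
    apply IsPGroup.of_card (n := j)
    rw [Nat.card_zpowers, hj]
  have hAB : ∀ a ∈ Db, ∀ b ∈ Subgroup.zpowers (π xh), a * b = b * a := by
    intro a ha b hb
    obtain ⟨d, hd, rfl⟩ := ha
    obtain ⟨n, rfl⟩ := hb
    have h1 : d * xh = xh * d := Subtype.ext (hDx d hd)
    have h2 : π d * π xh = π xh * π d := by rw [← map_mul, ← map_mul, h1]
    exact (Commute.zpow_right h2 n)
  have hcentr := CoprimeAB.ab_lemma (P := Cfsg.pCore p (↥Y ⧸ O)) (A := Db) (B := Subgroup.zpowers (π xh))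
    hQp hBp
    (by rw [Subgroup.normalizer_eq_top (Cfsg.pCore p (↥Y ⧸ O))]; exact le_top)
    (by rw [Subgroup.normalizer_eq_top (Cfsg.pCore p (↥Y ⧸ O))]; exact le_top)
    hAB
    (Nat.Coprime.symm ((Nat.Prime.coprime_iff_not_dvd hpp).2 hDbc))
    hfix
  -- so `Db` centralizes `Q`, hence lies in `Q`, hence is trivial
  haveI hsol : Group.IsSolvable (↥Y ⧸ O) := inferInstance
  have hbot : Cfsg.pPrimeCore p (↥Y ⧸ O) = ⊥ := PComps.pPrimeCore_quotient_eq_bot
  have hC := SolvCore.centralizer_pCore_le hsol hbot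
  have hDbtriv : ∀ a ∈ Db, a = 1 := by
    intro a ha
    have h1 : a ∈ Subgroup.centralizer (Cfsg.pCore p (↥Y ⧸ O) : Set (↥Y ⧸ O)) := by
      refine Subgroup.mem_centralizer_iff.2 ?_
      intro q hq
      exact (hcentr q hq a ha).symm
    have h2 := hC h1
    exact SecTransfer.eq_one_of_mem_coprime hQp hDbc h2 ha
  intro g hg
  have hgY : g ∈ Y := hg.2
  have h1 : π ⟨g, hgY⟩ = 1 := hDbtriv _ ⟨⟨g, hgY⟩, hg, rfl⟩
  have h2 : (⟨g, hgY⟩ : ↥Y) ∈ O := (QuotientGroup.eq_one_iff _).1 h1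
  exact ⟨⟨g, hgY⟩, h2, rfl⟩

/-- Let `G` be a finite group, `p` a prime, and `x, y` commuting elements of order `p` whose centralizers `C_G(x)` and `C_G(y)` are both solvable. Then `O_{p'}(C_G(x)) ∩ C_G(y) = O_{p'}(C_G(y)) ∩ C_G(x)` (balance). -/
theorem result {G : Type*} [Group G] [Finite G]
    (p : ℕ) [Fact p.Prime] (x y : G) (hx : orderOf x = p) (hy : orderOf y = p) (hxy : x * y = y * x)
    (hCx : Group.IsSolvable ↥(Subgroup.centralizer ({x} : Set G))) (hCy : Group.IsSolvable ↥(Subgroup.centralizer ({y} : Set G))) :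
    Cfsg.centralizerPPrimeCore p x ⊓ Subgroup.centralizer {y} = Cfsg.centralizerPPrimeCore p y ⊓ Subgroup.centralizer {x} := by
  apply le_antisymm
  · intro g hg
    refine ⟨main_le p x y hx hxy hCy hg, ?_⟩
    obtain ⟨e, -, he⟩ := hg.1
    rw [← he]; exact e.2
  · intro g hg
    refine ⟨main_le p y x hy hxy.symm hCx hg, ?_⟩
    obtain ⟨e, -, he⟩ := hg.1
    rw [← he]; exact e.2

end Cfsg.Agent.S1958
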