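import Cfsg.Statements.S2001
import Cfsg.Agent.Lib.WellChain
import Cfsg.Agent.Lib.Focal

set_option autoImplicit false
set_option linter.all false
open Cfsg

namespace Cfsg.Agent.S2001


open Cfsg.Agent.Lib.SylowIn Cfsg.Agent.Lib.ConjFamily Cfsg.Agent.Lib.WellChain
open scoped commutatorElement


/-- Let p be a prime dividing the order of the finite group G, P a Sylow p-subgroup, W a conjugacy functor for p on G with Z(H) ≤ W(H) for every nontrivial p-subgroup H, and V a central functor: a conjugacy functor with V(H) ≤ Z(H), and V(H) ≤ V(K) whenever Z(H) ≤ Z(K), for nontrivial p-subgroups H, K. Say that W with V controls transfer in a subgroup L when some Sylow p-subgroup Q of L satisfies Q ∩ L' = (Q ∩ (N_L(W(Q)))')·(Q ∩ (C_L(V(Q)))') as a product of two subgroups. If W with V controls transfer in N_G(H) for every subgroup H with Z(P) ≤ H ≤ P, then W with V controls transfer in G. -/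
theorem result {G : Type*} [Group G] [Finite G] {p : ℕ} [Fact p.Prime] (hdiv : p ∣ Nat.card G) (P : Sylow p G) (W V : Subgroup G → Subgroup G) (hW : Cfsg.IsConjugacyFunctor p W) (hV : Cfsg.IsConjugacyFunctor p V) (hWZ : ∀ H : Subgroup G, IsPGroup p ↥H → H ⊓ Subgroup.centralizer ((H : Subgroup G) : Set G) ≤ W H) (hVZ : ∀ H : Subgroup G, IsPGroup p ↥H → V H ≤ H ⊓ Subgroup.centralizer ((H : Subgroup G) : Set G)) (hVmono : ∀ H K : Subgroup G, IsPGroup p ↥H → IsPGroup p ↥K → H ≠ ⊥ → K ≠ ⊥ → H ⊓ Subgroup.centralizer ((H : Subgroup G) : Set G) ≤ K ⊓ Subgroup.centralizer ((K : Subgroup G) : Set G) → V H ≤ V K) (hloc : ∀ H : Subgroup G, (P : Subgroup G) ⊓ Subgroup.centralizer (((P : Subgroup G) : Subgroup G) : Set G) ≤ H → H ≤ (P : Subgroup G) → ∃ Q : Subgroup G, Q ≤ Subgroup.normalizer ((H : Subgroup G) : Set G) ∧ IsPGroup p ↥Q ∧ ¬ p ∣ (Q).relIndex (Subgroup.normalizer ((H : Subgroup G) : Set G)) ∧ ∀ x : G, x ∈ Q ⊓ ⁅Subgroup.normalizer ((H : Subgroup G) : Set G), Subgroup.normalizer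 ((H : Subgroup G) : Set G)⁆ ↔ ∃ a ∈ Q ⊓ ⁅Subgroup.normalizer ((H : Subgroup G) : Set G) ⊓ Subgroup.normalizer ((W Q : Subgroup G) : Set G), Subgroup.normalizer ((H : Subgroup G) : Set G) ⊓ Subgroup.normalizer ((W Q : Subgroup G) : Set G)⁆, ∃ b ∈ Q ⊓ ⁅Subgroup.normalizer ((H : Subgroup G) : Set G) ⊓ Subgroup.centralizer ((V Q : Subgroup G) : Set G), Subgroup.normalizer ((H : Subgroup G) : Set G) ⊓ Subgroup.centralizer ((V Q : Subgroup G) : Set G)⁆, x = a * b) : ∃ Q : Subgroup G, IsPGroup p ↥Q ∧ ¬ p ∣ Q.index ∧ ∀ x : G, x ∈ Q ⊓ commutator G ↔ ∃ a ∈ Q ⊓ ⁅Subgroup.normalizer ((W Q : Subgroup G) : Set G), Subgroup.normalizer ((W Q : Subgroup G) : Set G)⁆, ∃ b ∈ Q ⊓ ⁅Subgroup.centralizer ((V Q : Subgroup G) : Set G), Subgroup.centralizer ((V Q : Subgroup G) : Set G)⁆, x = a * b := by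

  classical
  have hSne : (P : Subgroup G) ≠ ⊥ := P.ne_bot_of_dvd_card hdiv
  obtain ⟨A, hAdef⟩ : ∃ A : Subgroup G, A = (P : Subgroup G) ⊓ ⁅Subgroup.normalizer ((W (P : Subgroup G) : Subgroup G) : Set G), Subgroup.normalizer ((W (P : Subgroup G) : Subgroup G) : Set G)⁆ := ⟨_, rfl⟩
  obtain ⟨B, hBdef⟩ : ∃ B : Subgroup G, B = (P : Subgroup G) ⊓ ⁅Subgroup.centralizer ((V (P : Subgroup G) : Subgroup G) : Set G), Subgroup.centralizer ((V (P : Subgroup G) : Subgroup G) : Set G)⁆ := ⟨_, rfl⟩
  have hAP : A ≤ (P : Subgroup G) := by rw [hAdef]; exact inf_le_left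
  have hBn : ∀ s ∈ (P : Subgroup G), ∀ b ∈ B, s * b * s⁻¹ ∈ B := by
    intro s hs b hb
    rw [hBdef] at hb ⊢
    refine Subgroup.mem_inf.2 ⟨mul_mem (mul_mem hs hb.1) (inv_mem hs), ?_⟩
    have hsN : s ∈ Subgroup.normalizer ((V (P : Subgroup G) : Subgroup G) : Set G) :=
      le_normalizer_W hV P.isPGroup' hs
    have h1 : cj s (Subgroup.centralizer ((V (P : Subgroup G) : Subgroup G) : Set G)) =
        Subgroup.centralizer ((V (P : Subgroup G) : Subgroup G) : Set G) := by
      have h2 := centralizer_map_conj (V (P : Subgroup G)) s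
      have h3 : (V (P : Subgroup G)).map (MulAut.conj s).toMonoidHom = V (P : Subgroup G) :=
        cj_eq_of_mem_normalizer hsN
      rw [h3] at h2
      exact h2.symm
    have h4 : s * b * s⁻¹ ∈ cj s ⁅Subgroup.centralizer ((V (P : Subgroup G) : Subgroup G) : Set G),
        Subgroup.centralizer ((V (P : Subgroup G) : Subgroup G) : Set G)⁆ := cj_mem hb.2
    unfold cj at h1 h4
    rw [Subgroup.map_commutator, h1] at h4
    exact h4
  let K : Subgroup G :=
    { carrier := {x | ∃ a ∈ A, ∃ b ∈ B, x = a * b}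
      mul_mem' := by
        rintro _ _ ⟨a, ha, b, hb, rfl⟩ ⟨a', ha', b', hb', rfl⟩
        refine ⟨a * a', mul_mem ha ha', (a'⁻¹ * b * a') * b', mul_mem ?_ hb', by group⟩
        have := hBn a'⁻¹ (inv_mem (hAP ha')) b hb
        simpa using this
      one_mem' := ⟨1, one_mem _, 1, one_mem _, by simp⟩
      inv_mem' := by
        rintro _ ⟨a, ha, b, hb, rfl⟩
        refine ⟨a⁻¹, inv_mem ha, a * b⁻¹ * a⁻¹, hBn a (hAP ha) _ (inv_mem hb), by group⟩ }
  have hAK : A ≤ K := fun a ha => ⟨a, ha, 1, one_mem _, by simp⟩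
  have hBK : B ≤ K := fun b hb => ⟨1, one_mem _, b, hb, by simp⟩
  -- the claim
  have hclaim : ∀ T : Subgroup G, IsWellPlaced p W (P : Subgroup G) T →
      (P : Subgroup G) ⊓ Subgroup.centralizer (((P : Subgroup G) : Subgroup G) : Set G) ≤ T →
      ((P : Subgroup G) ⊓ Subgroup.normalizer ((T : Subgroup G) : Set G)) ⊓
        ⁅Subgroup.normalizer ((T : Subgroup G) : Set G), Subgroup.normalizer ((T : Subgroup G) : Set G)⁆ ≤ K := by
    suffices H : ∀ n : ℕ, ∀ T : Subgroup G,
        Nat.card G - Nat.card ((P : Subgroup G) ⊓ Subgroup.normalizer ((T : Subgroup G) : Set G) : Subgroup G) = n →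
        IsWellPlaced p W (P : Subgroup G) T →
        (P : Subgroup G) ⊓ Subgroup.centralizer (((P : Subgroup G) : Subgroup G) : Set G) ≤ T →
        ((P : Subgroup G) ⊓ Subgroup.normalizer ((T : Subgroup G) : Set G)) ⊓
          ⁅Subgroup.normalizer ((T : Subgroup G) : Set G), Subgroup.normalizer ((T : Subgroup G) : Set G)⁆ ≤ K from
      fun T => H _ T rfl
    intro n
    induction n using Nat.strong_induction_on with
    | _ n IH =>
      intro T hn hwp hZT x hx
      obtain ⟨Q₀, hQ₀L, hQ₀p, hidx, hprop⟩ := hloc T hZT hwp.1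
      have hDrel : ¬ p ∣ ((P : Subgroup G) ⊓ Subgroup.normalizer ((T : Subgroup G) : Set G)).relIndex
          (Subgroup.normalizer ((T : Subgroup G) : Set G)) := hwp.2 0
      obtain ⟨L, hLdef⟩ : ∃ L, L = Subgroup.normalizer ((T : Subgroup G) : Set G) := ⟨_, rfl⟩
      rw [← hLdef] at hQ₀L hidx hDrel hx hn
      simp only [← hLdef] at hprop
      obtain ⟨D, hDdef⟩ : ∃ D, D = (P : Subgroup G) ⊓ L := ⟨_, rfl⟩
      rw [← hDdef] at hDrel hx hn
      have hDS : D ≤ (P : Subgroup G) := by rw [hDdef]; exact inf_le_left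
      have hDL : D ≤ L := by rw [hDdef]; exact inf_le_right
      have hDp : IsPGroup p D := P.isPGroup'.to_le hDS
      have hQ₀ : IsSylowIn p Q₀ L := isSylowIn_of_relIndex hQ₀L hQ₀p hidx
      have hDSyl : IsSylowIn p D L := isSylowIn_of_relIndex hDL hDp hDrel
      obtain ⟨y, hyL, hy⟩ := exists_conj_le_of_isSylowIn hDSyl hQ₀L hQ₀p
      have hcH : cj y L = L := cj_eq_self_of_mem hyL
      have hcinv : cj y⁻¹ L = L := cj_eq_self_of_mem (L.inv_mem hyL)
      have hDe : D = cj y Q₀ := by
        have h3 := isSylowIn_cj hQ₀ hQ₀L y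
        rw [hcH] at h3
        exact isSylowIn_eq_of_le h3 (hy.trans hDL) hy hDL hDp
      have hTD : T ≤ D := by
        rw [hDdef, hLdef]
        exact le_inf hwp.1 Subgroup.le_normalizer
      have hZD : (P : Subgroup G) ⊓ Subgroup.centralizer (((P : Subgroup G) : Subgroup G) : Set G) ≤
          D ⊓ Subgroup.centralizer ((D : Subgroup G) : Set G) := by
        rintro z ⟨hz1, hz2⟩
        exact ⟨hTD (hZT ⟨hz1, hz2⟩), Subgroup.centralizer_le hDS hz2⟩
      have hx₀ : y⁻¹ * x * y ∈ Q₀ ⊓ ⁅L, L⁆ := by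
        refine Subgroup.mem_inf.2 ⟨?_, ?_⟩
        · have h1 := hx.1
          rw [hDe] at h1
          exact mem_cj.1 h1
        · have h2 : y⁻¹ * x * y ∈ cj y⁻¹ ⁅L, L⁆ := by
            have := cj_mem (g := y⁻¹) hx.2
            simpa using this
          unfold cj at h2 hcinv
          rw [Subgroup.map_commutator, hcinv] at h2
          exact h2
      obtain ⟨a₀, ha₀, b₀, hb₀, hab⟩ := (hprop _).1 hx₀
      have hxe : x = (y * a₀ * y⁻¹) * (y * b₀ * y⁻¹) := by
        calc x = y * (y⁻¹ * x * y) * y⁻¹ := by group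
          _ = _ := by rw [hab]; group
      have hWD : W D = cj y (W Q₀) := by
        rw [hDe]
        exact (hW Q₀ hQ₀p).2.2 y
      have hVD : V D = cj y (V Q₀) := by
        rw [hDe]
        exact (hV Q₀ hQ₀p).2.2 y
      have hmemD : ∀ z ∈ Q₀, y * z * y⁻¹ ∈ D := fun z hz => hy (cj_mem hz)
      -- the first factor
      have hA' : y * a₀ * y⁻¹ ∈ ⁅Subgroup.normalizer ((W D : Subgroup G) : Set G), Subgroup.normalizer ((W D : Subgroup G) : Set G)⁆ := by
        have h1 : y * a₀ * y⁻¹ ∈ cj y ⁅L ⊓ Subgroup.normalizer ((W Q₀ : Subgroup G) : Set G), L ⊓ Subgroup.normalizer ((W Q₀ : Subgroup G) : Set G)⁆ :=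
          cj_mem ha₀.2
        have h2 : cj y (L ⊓ Subgroup.normalizer ((W Q₀ : Subgroup G) : Set G)) ≤ Subgroup.normalizer ((W D : Subgroup G) : Set G) := by
          rw [hWD, normalizer_cj]
          exact cj_mono _ inf_le_right
        unfold cj at h1 h2
        rw [Subgroup.map_commutator] at h1
        exact Subgroup.commutator_mono h2 h2 h1
      have hB' : y * b₀ * y⁻¹ ∈ ⁅Subgroup.centralizer ((V D : Subgroup G) : Set G), Subgroup.centralizer ((V D : Subgroup G) : Set G)⁆ := by
        have h1 : y * b₀ * y⁻¹ ∈ cj y ⁅L ⊓ Subgroup.centralizer ((V Q₀ : Subgroup G) : Set G), L ⊓ Subgroup.centralizer ((V Q₀ : Subgroup G) : Set G)⁆ :=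
          cj_mem hb₀.2
        have h2 : cj y (L ⊓ Subgroup.centralizer ((V Q₀ : Subgroup G) : Set G)) ≤ Subgroup.centralizer ((V D : Subgroup G) : Set G) := by
          rw [hVD]
          have := centralizer_map_conj (V Q₀) y
          unfold cj at this ⊢
          rw [this]
          exact Subgroup.map_mono inf_le_right
        unfold cj at h1 h2
        rw [Subgroup.map_commutator] at h1
        exact Subgroup.commutator_mono h2 h2 h1
      have hbK : y * b₀ * y⁻¹ ∈ K := by
        apply hBK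
        rw [hBdef]
        refine Subgroup.mem_inf.2 ⟨hDS (hmemD _ hb₀.1), ?_⟩
        have hDne : D ≠ ⊥ := by
          intro hbot
          haveI : Nontrivial ↥(P : Subgroup G) := (Subgroup.nontrivial_iff_ne_bot _).2 hSne
          haveI := P.isPGroup'.center_nontrivial
          obtain ⟨z, hz⟩ := exists_ne (1 : Subgroup.center ↥(P : Subgroup G))
          have hz1 : ((z : ↥(P : Subgroup G)) : G) ∈ (P : Subgroup G) ⊓ Subgroup.centralizer (((P : Subgroup G) : Subgroup G) : Set G) := by
            refine Subgroup.mem_inf.2 ⟨(z : ↥(P : Subgroup G)).2, ?_⟩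
            rw [Subgroup.mem_centralizer_iff]
            intro t ht
            have := Subgroup.mem_center_iff.1 z.2 ⟨t, ht⟩
            exact congrArg Subtype.val this
          have h2 : ((z : ↥(P : Subgroup G)) : G) ∈ D := (Subgroup.mem_inf.1 (hZD hz1)).1
          rw [hbot, Subgroup.mem_bot] at h2
          apply hz
          apply Subtype.ext
          apply Subtype.ext
          exact h2
        have hVle : V (P : Subgroup G) ≤ V D := hVmono _ _ P.isPGroup' hDp hSne hDne hZD
        have h3 : Subgroup.centralizer ((V D : Subgroup G) : Set G) ≤ Subgroup.centralizer ((V (P : Subgroup G) : Subgroup G) : Set G) :=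
          Subgroup.centralizer_le hVle
        exact Subgroup.commutator_mono h3 h3 hB'
      have haK : y * a₀ * y⁻¹ ∈ K := by
        by_cases hDe' : D = (P : Subgroup G)
        · apply hAK
          rw [hAdef, ← hDe']
          exact Subgroup.mem_inf.2 ⟨hmemD _ ha₀.1, hA'⟩
        · have hV' : IsWellPlaced p W (P : Subgroup G) (W D) := by
            have := isWellPlaced_next hW P.isPGroup' hwp
            have e : (P : Subgroup G) ⊓ Subgroup.normalizer ((functorTower W (P : Subgroup G) T 0 : Subgroup G) : Set G) = D := by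
              rw [hDdef, hLdef]
              rfl
            exact e ▸ this
          obtain ⟨s, hsS, hsD, hsN⟩ := Cfsg.Agent.Lib.H5Basic.exists_mem_normalizer_of_lt P.isPGroup' hDS hDe'
          have hDF : D ≤ (P : Subgroup G) ⊓ Subgroup.normalizer ((W D : Subgroup G) : Set G) :=
            le_inf hDS (le_normalizer_W hW hDp)
          have hsF : s ∈ (P : Subgroup G) ⊓ Subgroup.normalizer ((W D : Subgroup G) : Set G) := by
            refine Subgroup.mem_inf.2 ⟨hsS, mem_normalizer_of_cj_eq ?_⟩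
            have h2 : W (cj s D) = cj s (W D) := (hW D hDp).2.2 s
            have e : cj s D = D := cj_eq_of_mem_normalizer hsN
            rw [e] at h2
            exact h2.symm
          have hcard : Nat.card D < Nat.card ((P : Subgroup G) ⊓ Subgroup.normalizer ((W D : Subgroup G) : Set G) : Subgroup G) := by
            refine lt_of_le_of_ne (Subgroup.card_le_of_le hDF) ?_
            intro hc
            have hsD' : s ∉ D := hsD
            rw [Subgroup.eq_of_le_of_card_ge hDF hc.ge] at hsD'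
            exact hsD' hsF
          have hFG : Nat.card ((P : Subgroup G) ⊓ Subgroup.normalizer ((W D : Subgroup G) : Set G) : Subgroup G) ≤ Nat.card G :=
            Subgroup.card_le_card_group _
          have hZW : (P : Subgroup G) ⊓ Subgroup.centralizer (((P : Subgroup G) : Subgroup G) : Set G) ≤ W D :=
            hZD.trans (hWZ D hDp)
          refine IH _ (by omega) (W D) rfl hV' hZW (Subgroup.mem_inf.2 ⟨hDF (hmemD _ ha₀.1), hA'⟩)
      rw [hxe]
      exact mul_mem haK hbK
  -- the focal subgroup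
  have hchain : ∀ (X : Set G) (g : G), CChain (wpFamily p W (P : Subgroup G)) X g →
      ∀ x ∈ X, x⁻¹ * (g⁻¹ * x * g) ∈ K := by
    intro X g h
    induction h with
    | nil X =>
      intro x _
      have : x⁻¹ * ((1 : G)⁻¹ * x * 1) = 1 := by group
      rw [this]
      exact one_mem _
    | @cent c g X hc _ ih =>
      intro x hx
      have h1 : x * c = c * x := Subgroup.mem_centralizer_iff.1 hc x hx
      have h2 : c⁻¹ * x * c = x := by rw [mul_assoc, h1]; group
      have e : (c * g)⁻¹ * x * (c * g) = g⁻¹ * (c⁻¹ * x * c) * g := by group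
      rw [e, h2]
      exact ih x hx
    | @step T x' g X hT hx' hX _ ih =>
      intro y hy
      have h1 := ih (x'⁻¹ * y * x') ⟨y, hy, rfl⟩
      have hTD : T ≤ (P : Subgroup G) ⊓ Subgroup.normalizer ((T : Subgroup G) : Set G) :=
        le_inf hT.1.1 Subgroup.le_normalizer
      have hyT : y ∈ T := hX hy
      have hy1 : x'⁻¹ * y * x' ∈ T := by
        have := (Subgroup.mem_normalizer_iff.1 (Subgroup.inv_mem _ hx') y).1 hyT
        simpa using this
      have hc : y⁻¹ * (x'⁻¹ * y * x') ∈ ((P : Subgroup G) ⊓ Subgroup.normalizer ((T : Subgroup G) : Set G)) ⊓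
          ⁅Subgroup.normalizer ((T : Subgroup G) : Set G), Subgroup.normalizer ((T : Subgroup G) : Set G)⁆ := by
        refine Subgroup.mem_inf.2 ⟨hTD (mul_mem (inv_mem hyT) hy1), ?_⟩
        have e : y⁻¹ * (x'⁻¹ * y * x') = ⁅y⁻¹, x'⁻¹⁆ := by
          rw [commutatorElement_def]
          group
        rw [e]
        exact Subgroup.commutator_mem_commutator (inv_mem (Subgroup.le_normalizer hyT)) (inv_mem hx')
      have h2 := hclaim T hT.1 hT.2 hc
      have e : y⁻¹ * ((x' * g)⁻¹ * y * (x' * g)) =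
          (y⁻¹ * (x'⁻¹ * y * x')) * ((x'⁻¹ * y * x')⁻¹ * (g⁻¹ * (x'⁻¹ * y * x') * g)) := by group
      rw [e]
      exact mul_mem h2 h1
  have hfoc : Cfsg.Agent.Lib.Focal.focal (P : Subgroup G) ≤ K := by
    refine Cfsg.Agent.Lib.Focal.focal_le_of _ _ fun x hx g hg => ?_
    have hQ : Subgroup.zpowers x ≤ (P : Subgroup G) := Subgroup.zpowers_le.2 hx
    have hQg : cj g⁻¹⁻¹ (Subgroup.zpowers x) ≤ (P : Subgroup G) := by
      rw [inv_inv]
      rintro _ ⟨z, hz, rfl⟩
      obtain ⟨i, rfl⟩ := Subgroup.mem_zpowers_iff.1 hz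
      have : (MulAut.conj g).toMonoidHom (x ^ i) = (g * x * g⁻¹) ^ i := by
        simp [MulAut.conj_apply, conj_zpow]
      change (MulAut.conj g).toMonoidHom (x ^ i) ∈ _
      rw [this]
      exact zpow_mem hg i
    have h1 := cchain_of_wellPlaced hW P _ hQ g⁻¹ hQg
    have h2 := hchain _ _ h1 x (Subgroup.mem_zpowers x)
    simpa using h2
  refine ⟨P, P.isPGroup', P.not_dvd_index, fun x => ⟨fun hx => ?_, ?_⟩⟩
  · have h1 : x ∈ Cfsg.Agent.Lib.Focal.focal (P : Subgroup G) := by
      rw [Cfsg.Agent.Lib.Focal.focal_eq]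
      exact hx
    obtain ⟨a, ha, b, hb, rfl⟩ := hfoc h1
    rw [hAdef] at ha
    rw [hBdef] at hb
    exact ⟨a, ha, b, hb, rfl⟩
  · rintro ⟨a, ha, b, hb, rfl⟩
    refine Subgroup.mem_inf.2 ⟨mul_mem ha.1 hb.1, ?_⟩
    rw [commutator_def]
    refine mul_mem ?_ ?_
    · exact Subgroup.commutator_mono le_top le_top ha.2
    · exact Subgroup.commutator_mono le_top le_top hb.2

end Cfsg.Agent.S2001
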