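import Cfsg.Statements.S2002
import Cfsg.Agent.Lib.WellChain

set_option autoImplicit false
set_option linter.all false
open Cfsg

namespace Cfsg.Agent.S2002


open Cfsg.Agent.Lib.SylowIn Cfsg.Agent.Lib.ConjFamily Cfsg.Agent.Lib.WellChain

inductive CC {G : Type*} [Group G] (M : Set G) (D : Subgroup G) : Set G → G → Prop
  | nil (A : Set G) : CC M D A 1
  | cent {c g : G} {A : Set G} (hc : c ∈ Subgroup.centralizer A) (h : CC M D A g) : CC M D A (c * g)
  | step {x g : G} {A : Set G} (hx : x ∈ M) (hA : rc x A ⊆ D) (h : CC M D (rc x A) g) :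
      CC M D A (x * g)

namespace CC

variable {G : Type*} [Group G] {M : Set G} {D : Subgroup G}

theorem append {A : Set G} {g : G} (h : CC M D A g) :
    ∀ {g' : G}, CC M D (rc g A) g' → CC M D A (g * g') := by
  induction h with
  | nil A =>
    intro g' h'
    rw [rc_one] at h'
    simpa using h'
  | @cent c g A hc _ ih =>
    intro g' h'
    rw [rc_mul, rc_of_centralizer hc] at h'
    have := ih h'
    rw [mul_assoc]
    exact CC.cent hc this
  | @step x g A hx hA _ ih =>
    intro g' h'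
    rw [rc_mul] at h'
    have := ih h'
    rw [mul_assoc]
    exact CC.step hx hA this

theorem ofList : ∀ (l : List G) (A : Set G), (∀ x ∈ l, x ∈ M) →
    (∀ k, k ≤ l.length → rc (l.take k).prod A ⊆ D) → CC M D A l.prod := by
  intro l
  induction l with
  | nil =>
    intro A _ _
    exact CC.nil A
  | cons x l ih =>
    intro A hl hk
    rw [List.prod_cons]
    have h1 : rc x A ⊆ D := by
      have := hk 1 (by simp)
      simpa using this
    refine CC.step (hl x (by simp)) h1 (ih _ (fun y hy => hl y (by simp [hy])) ?_)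
    intro k hkl
    have := hk (k + 1) (by simpa using hkl)
    rw [List.take_succ_cons, List.prod_cons, rc_mul] at this
    exact this

theorem toList {A : Set G} {g : G} (h : CC M D A g) : A ⊆ D →
    ∃ c ∈ Subgroup.centralizer A, ∃ l : List G, (∀ x ∈ l, x ∈ M) ∧ g = c * l.prod ∧
      ∀ k, k ≤ l.length → rc (l.take k).prod A ⊆ D := by
  induction h with
  | nil A =>
    intro hA
    refine ⟨1, Subgroup.one_mem _, [], by simp, by simp, ?_⟩
    intro k hk
    simp only [List.take_nil, List.prod_nil, rc_one]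
    exact hA
  | @cent c g A hc _ ih =>
    intro hA
    obtain ⟨c', hc', l, hl, hg, hk⟩ := ih hA
    exact ⟨c * c', Subgroup.mul_mem _ hc hc', l, hl, by rw [hg, mul_assoc], hk⟩
  | @step x g A hx hrc _ ih =>
    intro hA
    obtain ⟨c', hc', l, hl, hg, hk⟩ := ih hrc
    refine ⟨x * c' * x⁻¹, ?_, x :: l, ?_, ?_, ?_⟩
    · rw [Subgroup.mem_centralizer_iff] at hc' ⊢
      intro a ha
      have h1 := hc' (x⁻¹ * a * x) ⟨a, ha, rfl⟩
      calc a * (x * c' * x⁻¹) = x * ((x⁻¹ * a * x) * c') * x⁻¹ := by group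
        _ = x * (c' * (x⁻¹ * a * x)) * x⁻¹ := by rw [h1]
        _ = _ := by group
    · intro y hy
      rcases List.mem_cons.1 hy with rfl | hy
      · exact hx
      · exact hl y hy
    · rw [hg, List.prod_cons]
      group
    · intro k hkl
      cases k with
      | zero =>
        simp only [List.take_zero, List.prod_nil, rc_one]
        exact hA
      | succ k =>
        rw [List.take_succ_cons, List.prod_cons, rc_mul]
        exact hk k (by simpa using hkl)

theorem refine' {M₁ M₂ : Set G} {D₁ D₂ : Subgroup G} {A : Set G} {g : G} (h : CC M₁ D₁ A g) :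
    A ⊆ D₁ → (∀ x ∈ M₁, ∀ B : Set G, B ⊆ D₁ → rc x B ⊆ D₁ → CC M₂ D₂ B x) → CC M₂ D₂ A g := by
  induction h with
  | nil A => intro _ _; exact CC.nil A
  | cent hc _ ih =>
    intro hA H
    exact CC.cent hc (ih hA H)
  | @step x g A hx hrc _ ih =>
    intro hA H
    have h1 := H x hx A hA hrc
    exact h1.append (ih hrc H)

theorem conj' {M' : Set G} {D' : Subgroup G} {A : Set G} {g : G} (y : G) (h : CC M D A g)
    (hM : ∀ x ∈ M, y * x * y⁻¹ ∈ M') (hD : ∀ d ∈ D, y * d * y⁻¹ ∈ D') :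
    CC M' D' (rc y⁻¹ A) (y * g * y⁻¹) := by
  induction h with
  | nil A =>
    have : y * 1 * y⁻¹ = 1 := by group
    rw [this]
    exact CC.nil _
  | @cent c g A hc _ ih =>
    have e : y * (c * g) * y⁻¹ = (y * c * y⁻¹) * (y * g * y⁻¹) := by group
    rw [e]
    refine CC.cent ?_ ih
    rw [Subgroup.mem_centralizer_iff] at hc ⊢
    rintro _ ⟨a, ha, rfl⟩
    have h1 := hc a ha
    simp only [inv_inv]
    calc y * a * y⁻¹ * (y * c * y⁻¹) = y * (a * c) * y⁻¹ := by group
      _ = y * (c * a) * y⁻¹ := by rw [h1]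
      _ = _ := by group
  | @step x g A hx hrc _ ih =>
    have e : y * (x * g) * y⁻¹ = (y * x * y⁻¹) * (y * g * y⁻¹) := by group
    rw [e]
    have h1 : rc (y * x * y⁻¹) (rc y⁻¹ A) = rc y⁻¹ (rc x A) := by
      rw [← rc_mul, ← rc_mul]
      congr 1
      group
    refine CC.step (hM x hx) ?_ ?_
    · rw [h1]
      rintro _ ⟨b, hb, rfl⟩
      have := hD b (hrc hb)
      simpa using this
    · rw [h1]
      exact ih

end CC

section Main

variable {G : Type*} [Group G] [Finite G] {p : ℕ} [Fact p.Prime]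
  {W V : Subgroup G → Subgroup G}

theorem local_cc (hW : Cfsg.IsConjugacyFunctor p W) (hV : Cfsg.IsConjugacyFunctor p V)
    (L D Q₀ : Subgroup G) (hDL : D ≤ L) (hDp : IsPGroup p ↥D) (hT : ¬ p ∣ D.relIndex L)
    (hQ₀L : Q₀ ≤ L)
    (hQ₀p : IsPGroup p ↥Q₀) (hidx : ¬ p ∣ (Q₀).relIndex L)
    (hprop : ∀ (X : Set G) (a : G), X ⊆ Q₀ → a ∈ L →
      (fun x => a⁻¹ * x * a) '' X ⊆ Q₀ →
      ∃ c ∈ L ⊓ Subgroup.centralizer X, ∃ (n : ℕ) (b : Fin n → G),
        (∀ i, b i ∈ L ⊓ Subgroup.normalizer ((W Q₀ : Subgroup G) : Set G) ∨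
          b i ∈ L ⊓ Subgroup.centralizer ((V Q₀ : Subgroup G) : Set G)) ∧
        a = c * (List.ofFn b).prod ∧
        ∀ k : ℕ, k ≤ n → (fun x => (((List.ofFn b).take k).prod)⁻¹ * x * ((List.ofFn b).take k).prod) ''
          ((fun x => c⁻¹ * x * c) '' X) ⊆ Q₀)
    (A : Set G) (h : G) (hh : h ∈ L)
    (hA : A ⊆ D) (himg : rc h A ⊆ D) :
    CC {x | x ∈ L ⊓ Subgroup.normalizer ((W D : Subgroup G) : Set G) ∨
        x ∈ L ⊓ Subgroup.centralizer ((V D : Subgroup G) : Set G)} D A h := by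
  have hQ₀ : IsSylowIn p Q₀ L := isSylowIn_of_relIndex hQ₀L hQ₀p hidx
  have hDS : IsSylowIn p D L := isSylowIn_of_relIndex hDL hDp hT
  obtain ⟨y, hyL, hy⟩ := exists_conj_le_of_isSylowIn hDS hQ₀L hQ₀p
  have hcH : cj y L = L := cj_eq_self_of_mem hyL
  have hDe : D = cj y Q₀ := by
    have h3 := isSylowIn_cj hQ₀ hQ₀L y
    rw [hcH] at h3
    exact isSylowIn_eq_of_le h3 (hy.trans hDL) hy hDL hDp
  have hmemQ : ∀ a ∈ D, y⁻¹ * a * y ∈ Q₀ := by
    intro a ha
    rw [hDe] at ha
    exact mem_cj.1 ha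
  have hX : rc y A ⊆ Q₀ := by
    rintro _ ⟨a, ha, rfl⟩
    exact hmemQ a (hA ha)
  have haL : y⁻¹ * h * y ∈ L := L.mul_mem (L.mul_mem (L.inv_mem hyL) hh) hyL
  have hrc : rc (y⁻¹ * h * y) (rc y A) ⊆ Q₀ := by
    rintro _ ⟨_, ⟨a, ha, rfl⟩, rfl⟩
    have := hmemQ _ (himg ⟨a, ha, rfl⟩)
    have e : (y⁻¹ * h * y)⁻¹ * (y⁻¹ * a * y) * (y⁻¹ * h * y) = y⁻¹ * (h⁻¹ * a * h) * y := by group
    simp only [e]
    exact this
  obtain ⟨c, hc, n, b, hb, hab, hk⟩ := hprop (rc y A) _ hX haL hrc
  have hrcc : (fun x => c⁻¹ * x * c) '' (rc y A) = rc y A := rc_of_centralizer hc.2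
  rw [hrcc] at hk
  have hch : CC {x | x ∈ L ⊓ Subgroup.normalizer ((W Q₀ : Subgroup G) : Set G) ∨
      x ∈ L ⊓ Subgroup.centralizer ((V Q₀ : Subgroup G) : Set G)} Q₀ (rc y A) (y⁻¹ * h * y) := by
    rw [hab]
    refine CC.cent hc.2 (CC.ofList _ _ ?_ ?_)
    · intro x hx
      obtain ⟨i, rfl⟩ := (List.mem_ofFn' _ _).1 hx
      exact hb i
    · intro k hkn
      rw [List.length_ofFn] at hkn
      exact hk k hkn
  have hfin := CC.conj' (M' := {x | x ∈ L ⊓ Subgroup.normalizer ((W D : Subgroup G) : Set G) ∨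
      x ∈ L ⊓ Subgroup.centralizer ((V D : Subgroup G) : Set G)}) (D' := D) y hch ?_ ?_
  · rw [rc_inv_rc] at hfin
    have e : y * (y⁻¹ * h * y) * y⁻¹ = h := by group
    rwa [e] at hfin
  · have hWD : W D = cj y (W Q₀) := by
      rw [hDe]
      exact (hW Q₀ hQ₀p).2.2 y
    have hVD : V D = cj y (V Q₀) := by
      rw [hDe]
      exact (hV Q₀ hQ₀p).2.2 y
    rintro x (⟨hx1, hx2⟩ | ⟨hx1, hx2⟩)
    · left
      refine ⟨L.mul_mem (L.mul_mem hyL hx1) (L.inv_mem hyL), ?_⟩
      rw [hWD, normalizer_cj]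
      exact cj_mem hx2
    · right
      refine ⟨L.mul_mem (L.mul_mem hyL hx1) (L.inv_mem hyL), ?_⟩
      rw [hVD]
      have := centralizer_map_conj (V Q₀) y
      unfold cj
      rw [this]
      exact cj_mem hx2
  · intro d hd
    exact hy (cj_mem hd)

theorem claim (hW : Cfsg.IsConjugacyFunctor p W) (hV : Cfsg.IsConjugacyFunctor p V)
    (hWZ : ∀ H : Subgroup G, IsPGroup p ↥H → H ⊓ Subgroup.centralizer ((H : Subgroup G) : Set G) ≤ W H)
    (hVmono : ∀ H K : Subgroup G, IsPGroup p ↥H → IsPGroup p ↥K → H ≠ ⊥ → K ≠ ⊥ →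
      H ⊓ Subgroup.centralizer ((H : Subgroup G) : Set G) ≤ K ⊓ Subgroup.centralizer ((K : Subgroup G) : Set G) →
      V H ≤ V K)
    (S : Sylow p G) (hSne : (S : Subgroup G) ≠ ⊥)
    (hloc : ∀ H : Subgroup G, ((S : Subgroup G)) ⊓ Subgroup.centralizer (((S : Subgroup G) : Subgroup G) : Set G) ≤ H →
      H ≤ (S : Subgroup G) → ∃ Q : Subgroup G, Q ≤ Subgroup.normalizer ((H : Subgroup G) : Set G) ∧ IsPGroup p ↥Q ∧
      ¬ p ∣ (Q).relIndex (Subgroup.normalizer ((H : Subgroup G) : Set G)) ∧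
      ∀ (X : Set G) (a : G), X ⊆ Q → a ∈ Subgroup.normalizer ((H : Subgroup G) : Set G) →
        (fun x => a⁻¹ * x * a) '' X ⊆ Q →
        ∃ c ∈ Subgroup.normalizer ((H : Subgroup G) : Set G) ⊓ Subgroup.centralizer X, ∃ (n : ℕ) (b : Fin n → G),
          (∀ i, b i ∈ Subgroup.normalizer ((H : Subgroup G) : Set G) ⊓ Subgroup.normalizer ((W Q : Subgroup G) : Set G) ∨
            b i ∈ Subgroup.normalizer ((H : Subgroup G) : Set G) ⊓ Subgroup.centralizer ((V Q : Subgroup G) : Set G)) ∧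
          a = c * (List.ofFn b).prod ∧
          ∀ k : ℕ, k ≤ n → (fun x => (((List.ofFn b).take k).prod)⁻¹ * x * ((List.ofFn b).take k).prod) ''
            ((fun x => c⁻¹ * x * c) '' X) ⊆ Q) :
    ∀ T : Subgroup G, IsWellPlaced p W (S : Subgroup G) T →
      (S : Subgroup G) ⊓ Subgroup.centralizer (((S : Subgroup G) : Subgroup G) : Set G) ≤ T →
      ∀ (A : Set G) (h : G), h ∈ Subgroup.normalizer ((T : Subgroup G) : Set G) →
        A ⊆ ((S : Subgroup G) ⊓ Subgroup.normalizer ((T : Subgroup G) : Set G) : Subgroup G) →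
        rc h A ⊆ ((S : Subgroup G) ⊓ Subgroup.normalizer ((T : Subgroup G) : Set G) : Subgroup G) →
        CC {x | x ∈ Subgroup.normalizer ((W (S : Subgroup G) : Subgroup G) : Set G) ∨
          x ∈ Subgroup.centralizer ((V (S : Subgroup G) : Subgroup G) : Set G)} (S : Subgroup G) A h := by
  classical
  suffices H : ∀ n : ℕ, ∀ T : Subgroup G,
      Nat.card G - Nat.card ((S : Subgroup G) ⊓ Subgroup.normalizer ((T : Subgroup G) : Set G) : Subgroup G) = n →
      IsWellPlaced p W (S : Subgroup G) T →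
      (S : Subgroup G) ⊓ Subgroup.centralizer (((S : Subgroup G) : Subgroup G) : Set G) ≤ T →
      ∀ (A : Set G) (h : G), h ∈ Subgroup.normalizer ((T : Subgroup G) : Set G) →
        A ⊆ ((S : Subgroup G) ⊓ Subgroup.normalizer ((T : Subgroup G) : Set G) : Subgroup G) →
        rc h A ⊆ ((S : Subgroup G) ⊓ Subgroup.normalizer ((T : Subgroup G) : Set G) : Subgroup G) →
        CC {x | x ∈ Subgroup.normalizer ((W (S : Subgroup G) : Subgroup G) : Set G) ∨
          x ∈ Subgroup.centralizer ((V (S : Subgroup G) : Subgroup G) : Set G)} (S : Subgroup G) A h from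
    fun T => H _ T rfl
  intro n
  induction n using Nat.strong_induction_on with
  | _ n IH =>
    intro T hn hwp hZT A h hh hA himg
    obtain ⟨Q₀, hQ₀L, hQ₀p, hidx, hprop⟩ := hloc T hZT hwp.1
    have hcc := local_cc hW hV (Subgroup.normalizer ((T : Subgroup G) : Set G))
      ((S : Subgroup G) ⊓ Subgroup.normalizer ((T : Subgroup G) : Set G)) Q₀ inf_le_right
      (S.isPGroup'.to_le inf_le_left) (hwp.2 0) hQ₀L hQ₀p hidx hprop A h hh hA himg
    set D : Subgroup G := (S : Subgroup G) ⊓ Subgroup.normalizer ((T : Subgroup G) : Set G) with hD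
    have hDS : D ≤ (S : Subgroup G) := inf_le_left
    have hDp : IsPGroup p D := S.isPGroup'.to_le inf_le_left
    have hTD : T ≤ D := le_inf hwp.1 Subgroup.le_normalizer
    have hZD : (S : Subgroup G) ⊓ Subgroup.centralizer (((S : Subgroup G) : Subgroup G) : Set G) ≤
        D ⊓ Subgroup.centralizer ((D : Subgroup G) : Set G) := by
      rintro z ⟨hz1, hz2⟩
      exact ⟨hTD (hZT ⟨hz1, hz2⟩), Subgroup.centralizer_le hDS hz2⟩
    have hsingle : ∀ x : G, (x ∈ Subgroup.normalizer ((W (S : Subgroup G) : Subgroup G) : Set G) ∨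
          x ∈ Subgroup.centralizer ((V (S : Subgroup G) : Subgroup G) : Set G)) → ∀ B : Set G,
        rc x B ⊆ D → CC {x | x ∈ Subgroup.normalizer ((W (S : Subgroup G) : Subgroup G) : Set G) ∨
          x ∈ Subgroup.centralizer ((V (S : Subgroup G) : Subgroup G) : Set G)} (S : Subgroup G) B x := by
      intro x hx B hB
      have := CC.step (M := {x | x ∈ Subgroup.normalizer ((W (S : Subgroup G) : Subgroup G) : Set G) ∨
          x ∈ Subgroup.centralizer ((V (S : Subgroup G) : Subgroup G) : Set G)}) (D := (S : Subgroup G))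
        hx (hB.trans hDS) (CC.nil (rc x B))
      simpa using this
    refine CC.refine' hcc hA ?_
    rintro x (⟨hxL, hxW⟩ | ⟨hxL, hxV⟩) B hB hrcB
    · by_cases hDe : D = (S : Subgroup G)
      · rw [hDe] at hxW
        exact hsingle x (Or.inl hxW) B hrcB
      · have hV' : IsWellPlaced p W (S : Subgroup G) (W D) := isWellPlaced_next hW S.isPGroup' hwp
        obtain ⟨s, hsS, hsD, hsN⟩ := Cfsg.Agent.Lib.H5Basic.exists_mem_normalizer_of_lt S.isPGroup' hDS hDe
        have hDF : D ≤ (S : Subgroup G) ⊓ Subgroup.normalizer ((W D : Subgroup G) : Set G) :=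
          le_inf hDS (le_normalizer_W hW hDp)
        have hsF : s ∈ (S : Subgroup G) ⊓ Subgroup.normalizer ((W D : Subgroup G) : Set G) := by
          refine ⟨hsS, mem_normalizer_of_cj_eq ?_⟩
          have h2 : W (cj s D) = cj s (W D) := (hW D hDp).2.2 s
          have e : cj s D = D := cj_eq_of_mem_normalizer hsN
          rw [e] at h2
          exact h2.symm
        have hcard : Nat.card D < Nat.card ((S : Subgroup G) ⊓ Subgroup.normalizer ((W D : Subgroup G) : Set G) : Subgroup G) := by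
          refine lt_of_le_of_ne (Subgroup.card_le_of_le hDF) ?_
          intro hc
          have hsD' : s ∉ D := hsD
          rw [Subgroup.eq_of_le_of_card_ge hDF hc.ge] at hsD'
          exact hsD' hsF
        have hFG : Nat.card ((S : Subgroup G) ⊓ Subgroup.normalizer ((W D : Subgroup G) : Set G) : Subgroup G) ≤ Nat.card G :=
          Subgroup.card_le_card_group _
        have hZW : (S : Subgroup G) ⊓ Subgroup.centralizer (((S : Subgroup G) : Subgroup G) : Set G) ≤ W D :=
          hZD.trans (hWZ D hDp)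
        exact IH _ (by omega) (W D) rfl hV' hZW B x hxW (fun a ha => hDF (hB ha)) (fun a ha => hDF (hrcB ha))
    · have hDne : D ≠ ⊥ := by
        intro hbot
        haveI : Nontrivial ↥(S : Subgroup G) := (Subgroup.nontrivial_iff_ne_bot _).2 hSne
        haveI := S.isPGroup'.center_nontrivial
        obtain ⟨z, hz⟩ := exists_ne (1 : Subgroup.center ↥(S : Subgroup G))
        have hz1 : ((z : ↥(S : Subgroup G)) : G) ∈ (S : Subgroup G) ⊓ Subgroup.centralizer (((S : Subgroup G) : Subgroup G) : Set G) := by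
          refine Subgroup.mem_inf.2 ⟨(z : ↥(S : Subgroup G)).2, ?_⟩
          rw [Subgroup.mem_centralizer_iff]
          intro t ht
          have := Subgroup.mem_center_iff.1 z.2 ⟨t, ht⟩
          exact congrArg Subtype.val this
        have h2 : ((z : ↥(S : Subgroup G)) : G) ∈ D := (Subgroup.mem_inf.1 (hZD hz1)).1
        rw [hbot, Subgroup.mem_bot] at h2
        apply hz
        apply Subtype.ext
        apply Subtype.ext
        exact h2
      have hVle : V (S : Subgroup G) ≤ V D := hVmono _ _ S.isPGroup' hDp hSne hDne hZD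
      exact hsingle x (Or.inr (Subgroup.centralizer_le hVle hxV)) B hrcB

end Main


/-- Let p be a prime dividing the order of the finite group G, P a Sylow p-subgroup, W a conjugacy functor for p on G with Z(H) ≤ W(H) for every nontrivial p-subgroup H, and V a central functor (a conjugacy functor with V(H) ≤ Z(H), and V(H) ≤ V(K) whenever Z(H) ≤ Z(K)). Say that W with V controls strong fusion in a subgroup L when some Sylow p-subgroup Q of L has the property: whenever X ⊆ Q and a ∈ L with a⁻¹Xa ⊆ Q, then a = c b with c ∈ C_L(X) and b = b₁ ⋯ bₙ a product of elements each in N_L(W(Q)) or in C_L(V(Q)) such that every partial conjugate (b₁ ⋯ bₖ)⁻¹ X (b₁ ⋯ bₖ) lies in Q. If W with V controls strong fusion in N_G(H) for every subgroup H with Z(P) ≤ H ≤ P, then W with V controls strong fusion in G. -/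
theorem result {G : Type*} [Group G] [Finite G] {p : ℕ} [Fact p.Prime] (hdiv : p ∣ Nat.card G) (P : Sylow p G) (W V : Subgroup G → Subgroup G) (hW : Cfsg.IsConjugacyFunctor p W) (hV : Cfsg.IsConjugacyFunctor p V) (hWZ : ∀ H : Subgroup G, IsPGroup p ↥H → H ⊓ Subgroup.centralizer ((H : Subgroup G) : Set G) ≤ W H) (hVZ : ∀ H : Subgroup G, IsPGroup p ↥H → V H ≤ H ⊓ Subgroup.centralizer ((H : Subgroup G) : Set G)) (hVmono : ∀ H K : Subgroup G, IsPGroup p ↥H → IsPGroup p ↥K → H ≠ ⊥ → K ≠ ⊥ → H ⊓ Subgroup.centralizer ((H : Subgroup G) : Set G) ≤ K ⊓ Subgroup.centralizer ((K : Subgroup G) : Set G) → V H ≤ V K) (hloc : ∀ H : Subgroup G, (P : Subgroup G) ⊓ Subgroup.centralizer (((P : Subgroup G) : Subgroup G) : Set G) ≤ H → H ≤ (P : Subgroup G) → ∃ Q : Subgroup G, Q ≤ Subgroup.normalizer ((H : Subgroup G) : Set G) ∧ IsPGroup p ↥Q ∧ ¬ p ∣ (Q).relIndex (Subgroup.normalizer ((H : Subgroup G) : Set G)) ∧ ∀ (X : Set G) (a : G), X ⊆ Q → a ∈ Subgroup.normalizer ((H : Subgroup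 G) : Set G) → (fun x => a⁻¹ * x * a) '' X ⊆ Q → ∃ c ∈ Subgroup.normalizer ((H : Subgroup G) : Set G) ⊓ Subgroup.centralizer X, ∃ (n : ℕ) (b : Fin n → G), (∀ i, b i ∈ Subgroup.normalizer ((H : Subgroup G) : Set G) ⊓ Subgroup.normalizer ((W Q : Subgroup G) : Set G) ∨ b i ∈ Subgroup.normalizer ((H : Subgroup G) : Set G) ⊓ Subgroup.centralizer ((V Q : Subgroup G) : Set G)) ∧ a = c * (List.ofFn b).prod ∧ ∀ k : ℕ, k ≤ n → (fun x => (((List.ofFn b).take k).prod)⁻¹ * x * ((List.ofFn b).take k).prod) '' ((fun x => c⁻¹ * x * c) '' X) ⊆ Q) : ∃ Q : Subgroup G, IsPGroup p ↥Q ∧ ¬ p ∣ Q.index ∧ ∀ (X : Set G) (a : G), X ⊆ Q → (fun x => a⁻¹ * x * a) '' X ⊆ Q → ∃ c ∈ Subgroup.centralizer X, ∃ (n : ℕ) (b : Fin n → G), (∀ i, b i ∈ ⊤ ⊓ Subgroup.normalizer ((W Q : Subgroup G) : Set G) ∨ b i ∈ ⊤ ⊓ Subgroup.centralizer ((V Q : Subgroup G) : Set G)) ∧ a = c * (List.ofFn b).prod ∧ ∀ k : ℕ, k ≤ n → (fun x => (((List.ofFn b).take k).prod)⁻¹ * x * ((List.ofFn b).take k).prod) '' ((fun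 x => c⁻¹ * x * c) '' X) ⊆ Q := by

  classical
  have hSne : (P : Subgroup G) ≠ ⊥ := P.ne_bot_of_dvd_card hdiv
  have hclaim := claim hW hV hWZ hVmono P hSne hloc
  refine ⟨P, P.isPGroup', P.not_dvd_index, fun X a hX hrc => ?_⟩
  have hQ : Subgroup.closure X ≤ (P : Subgroup G) := (Subgroup.closure_le _).2 hX
  have hch := (cchain_of_wellPlaced hW P _ hQ a ?_).mono Subgroup.subset_closure
  · have hconv : ∀ (A : Set G) (g : G), CChain (wpFamily p W (P : Subgroup G)) A g →
        CC {x | x ∈ Subgroup.normalizer ((W (P : Subgroup G) : Subgroup G) : Set G) ∨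
          x ∈ Subgroup.centralizer ((V (P : Subgroup G) : Subgroup G) : Set G)} (P : Subgroup G) A g := by
      intro A g h
      induction h with
      | nil A => exact CC.nil A
      | cent hc _ ih => exact CC.cent hc ih
      | @step T x g A hT hx hA _ ih =>
        have hTD : T ≤ (P : Subgroup G) ⊓ Subgroup.normalizer ((T : Subgroup G) : Set G) :=
          le_inf hT.1.1 Subgroup.le_normalizer
        have h2 : rc x A ⊆ (T : Set G) := by
          rw [← cj_eq_of_mem_normalizer (Subgroup.inv_mem _ hx)]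
          have h3 := rc_mono x hA
          rw [rc_coe] at h3
          exact h3
        exact (hclaim T hT.1 hT.2 A x hx (fun a ha => hTD (hA ha)) (fun a ha => hTD (h2 ha))).append ih
    obtain ⟨c, hc, l, hl, hg, hk⟩ := (hconv _ _ hch).toList hX
    refine ⟨c, hc, l.length, l.get, ?_, ?_, ?_⟩
    · intro i
      rcases hl _ (List.get_mem l i) with h | h
      · exact Or.inl ⟨trivial, h⟩
      · exact Or.inr ⟨trivial, h⟩
    · rw [List.ofFn_get]
      exact hg
    · intro k hkn
      rw [List.ofFn_get]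
      have e : (fun x => c⁻¹ * x * c) '' X = X := rc_of_centralizer hc
      rw [e]
      exact hk k hkn
  · rw [cj, MonoidHom.map_closure, Subgroup.closure_le]
    rintro _ ⟨b, hb, rfl⟩
    exact hrc ⟨b, hb, by simp [MulAut.conj_apply]⟩

end Cfsg.Agent.S2002
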