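import Cfsg.Statements.S2162
import Cfsg.Agent.Lib.InvolNF

set_option autoImplicit false
set_option linter.all false
open Cfsg

namespace Cfsg.Agent.S2162


open Matrix Module Cfsg.Agent.Lib

theorem add_self_matrix {F : Type*} [Field F] [CharP F 2] {n : ℕ} (X : Matrix (Fin n) (Fin n) F) : X + X = 0 := by
  ext i j
  simp only [Matrix.add_apply, Matrix.zero_apply]
  exact CharTwo.add_self_eq_zero _

theorem sq_zero {F : Type*} [Field F] [CharP F 2] {n : ℕ} (a : Matrix.SpecialLinearGroup (Fin n) F)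
    (ha : orderOf a = 2) : ((a : Matrix (Fin n) (Fin n) F) - 1) * ((a : Matrix (Fin n) (Fin n) F) - 1) = 0 := by
  have h1 : a ^ 2 = 1 := by rw [← ha]; exact pow_orderOf_eq_one a
  have h2 : (a : Matrix (Fin n) (Fin n) F) * a = 1 := by
    have := congrArg Subtype.val h1
    rw [pow_two] at this
    exact this
  have h3 : ((a : Matrix (Fin n) (Fin n) F) - 1) * ((a : Matrix (Fin n) (Fin n) F) - 1)
      = (a : Matrix (Fin n) (Fin n) F) * a + 1 - ((a : Matrix (Fin n) (Fin n) F) + a) := by
    noncomm_ring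
  rw [h3, h2, add_self_matrix, add_self_matrix, sub_zero]

theorem rank_pos' {F : Type*} [Field F] {n : ℕ} (a : Matrix.SpecialLinearGroup (Fin n) F)
    (ha : orderOf a = 2) : 0 < ((a : Matrix (Fin n) (Fin n) F) - 1).rank := by
  rw [Nat.pos_iff_ne_zero]
  intro h
  have h1 : ((a : Matrix (Fin n) (Fin n) F) - 1) = 0 := by
    unfold Matrix.rank at h
    rw [Submodule.finrank_eq_zero, LinearMap.range_eq_bot] at h
    have h3 : Matrix.toLin' ((a : Matrix (Fin n) (Fin n) F) - 1) = 0 := by
      rw [Matrix.toLin'_apply']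
      exact h
    exact (Matrix.toLin').map_eq_zero_iff.mp h3
  have h2 : a = 1 := by
    apply Subtype.ext
    exact sub_eq_zero.mp h1
  rw [h2, orderOf_one] at ha
  omega


/-- Conjugacy of involutions in the special linear group over a finite field of characteristic two, in dimension at least 3: two elements of order 2 of SL_n(F) are conjugate in SL_n(F) exactly when the matrices a − 1 and b − 1 have the same rank (the rank of a − 1 is the dimension of the commutator space [V, a]). -/
theorem result {F : Type*} [Field F] [Fintype F] [CharP F 2] {n : ℕ} (hn : 3 ≤ n) (a b : Matrix.SpecialLinearGroup (Fin n) F) (ha : orderOf a = 2) (hb : orderOf b = 2) :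
    IsConj a b ↔ ((a : Matrix (Fin n) (Fin n) F) - 1).rank = ((b : Matrix (Fin n) (Fin n) F) - 1).rank := by
  classical
  constructor
  · intro h
    obtain ⟨c, hc⟩ := isConj_iff.mp h
    have e : (b : Matrix (Fin n) (Fin n) F) - 1 = (c : Matrix (Fin n) (Fin n) F) * ((a : Matrix (Fin n) (Fin n) F) - 1) * ((c⁻¹ : Matrix.SpecialLinearGroup (Fin n) F) : Matrix (Fin n) (Fin n) F) := by
      have h1 : (c : Matrix (Fin n) (Fin n) F) * ((c⁻¹ : Matrix.SpecialLinearGroup (Fin n) F) : Matrix (Fin n) (Fin n) F) = 1 := by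
        have := congrArg Subtype.val (mul_inv_cancel c)
        exact this
      have h2 : (b : Matrix (Fin n) (Fin n) F) = (c : Matrix (Fin n) (Fin n) F) * a * ((c⁻¹ : Matrix.SpecialLinearGroup (Fin n) F) : Matrix (Fin n) (Fin n) F) := by
        have := congrArg Subtype.val hc
        exact this.symm
      rw [mul_sub, sub_mul, mul_one, h1, ← h2]
    rw [e]
    have u1 : IsUnit (c : Matrix (Fin n) (Fin n) F).det := by
      rw [c.2]
      exact isUnit_one
    have u2 : IsUnit ((c⁻¹ : Matrix.SpecialLinearGroup (Fin n) F) : Matrix (Fin n) (Fin n) F).det := by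
      rw [(c⁻¹ : Matrix.SpecialLinearGroup (Fin n) F).2]
      exact isUnit_one
    rw [Matrix.rank_mul_eq_left_of_isUnit_det _ _ u2, Matrix.rank_mul_eq_right_of_isUnit_det _ _ u1]
  · intro hr
    set ℓ := ((a : Matrix (Fin n) (Fin n) F) - 1).rank with hℓ
    have hℓ1 : 0 < ℓ := rank_pos' a ha
    let f₁ := ((a : Matrix (Fin n) (Fin n) F) - 1).mulVecLin
    let f₂ := ((b : Matrix (Fin n) (Fin n) F) - 1).mulVecLin
    have hf₁ : LinearMap.toMatrix' f₁ = (a : Matrix (Fin n) (Fin n) F) - 1 := by
      simp only [f₁]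
      rw [← Matrix.toLin'_apply', LinearMap.toMatrix'_toLin']
    have hf₂ : LinearMap.toMatrix' f₂ = (b : Matrix (Fin n) (Fin n) F) - 1 := by
      simp only [f₂]
      rw [← Matrix.toLin'_apply', LinearMap.toMatrix'_toLin']
    have hs₁ : ∀ v, f₁ (f₁ v) = 0 := by
      intro v
      simp only [f₁, Matrix.mulVecLin_apply, Matrix.mulVec_mulVec, sq_zero a ha, Matrix.zero_mulVec]
    have hs₂ : ∀ v, f₂ (f₂ v) = 0 := by
      intro v
      simp only [f₂, Matrix.mulVecLin_apply, Matrix.mulVec_mulVec, sq_zero b hb, Matrix.zero_mulVec]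
    have hV : finrank F (Fin n → F) = n := by simp
    obtain ⟨hle, B₁, h11, h12⟩ := InvolNF.exists_basis f₁ hs₁ hV (ℓ := ℓ) rfl hℓ1
    obtain ⟨_, B₂, h21, h22⟩ := InvolNF.exists_basis f₂ hs₂ hV (ℓ := ℓ) hr.symm hℓ1
    let g := B₁.equiv B₂ (Equiv.refl _)
    have hg1 : IsUnit (LinearMap.det (g : (Fin n → F) →ₗ[F] (Fin n → F))) := LinearEquiv.isUnit_det' g
    have hsq : ∃ e : F, (LinearMap.det (g : (Fin n → F) →ₗ[F] (Fin n → F)))⁻¹ = e * e :=
      FiniteField.isSquare_of_char_two (ringChar.eq F 2) _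
    obtain ⟨e, he⟩ := hsq
    let i₀ : Fin ℓ := ⟨0, hℓ1⟩
    let d : (Fin ℓ ⊕ (Fin (n - 2 * ℓ) ⊕ Fin ℓ)) → F :=
      Sum.elim (fun i => if i = i₀ then e else 1) (Sum.elim (fun _ => 1) (fun i => if i = i₀ then e else 1))
    let D := B₁.constr F (fun x => d x • B₁ x)
    have hdetD : LinearMap.det D = e * e := by
      rw [InvolNF.det_constr_smul]
      simp [d, Fintype.prod_sum_type, Finset.prod_ite_eq']
    let h := (g : (Fin n → F) →ₗ[F] (Fin n → F)) ∘ₗ D
    have hB : ∀ x, h (B₁ x) = d x • B₂ x := by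
      intro x
      simp only [h, D, LinearMap.comp_apply, Module.Basis.constr_basis, map_smul]
      simp [g, Module.Basis.equiv_apply]
    have hdet : LinearMap.det h = 1 := by
      simp only [h]
      rw [LinearMap.det_comp, hdetD, ← he]
      exact mul_inv_cancel₀ hg1.ne_zero
    have hcomm : h ∘ₗ f₁ = f₂ ∘ₗ h := by
      apply B₁.ext
      rintro (i | j | i)
      · simp only [LinearMap.comp_apply]
        rw [h11, hB, hB, map_smul, h21]
        simp [d]
      · simp only [LinearMap.comp_apply]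
        rw [h12, map_zero, hB, map_smul, h22, smul_zero]
      · simp only [LinearMap.comp_apply]
        rw [h12, map_zero, hB, map_smul, h22, smul_zero]
    have hmat : LinearMap.toMatrix' h * ((a : Matrix (Fin n) (Fin n) F) - 1)
        = ((b : Matrix (Fin n) (Fin n) F) - 1) * LinearMap.toMatrix' h := by
      rw [← hf₁, ← hf₂, ← LinearMap.toMatrix'_comp, ← LinearMap.toMatrix'_comp, hcomm]
    let c : Matrix.SpecialLinearGroup (Fin n) F := ⟨LinearMap.toMatrix' h, by rw [LinearMap.det_toMatrix', hdet]⟩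
    refine isConj_iff.mpr ⟨c, ?_⟩
    rw [mul_inv_eq_iff_eq_mul]
    apply Subtype.ext
    show LinearMap.toMatrix' h * (a : Matrix (Fin n) (Fin n) F) = (b : Matrix (Fin n) (Fin n) F) * LinearMap.toMatrix' h
    rw [mul_sub, sub_mul, mul_one, one_mul, sub_left_inj] at hmat
    exact hmat

end Cfsg.Agent.S2162
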