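import Cfsg.Statements.S2163


set_option autoImplicit false
set_option linter.all false
open Cfsg

namespace Cfsg.Agent.S2163


open Matrix

/-- The block matrix. -/
def stdN (F : Type*) [Field F] (n ℓ : ℕ) : Matrix (Fin n) (Fin n) F :=
  Matrix.of (fun i j : Fin n => if j.val < ℓ ∧ i.val = j.val + (n - ℓ) then (1 : F) else 0)

theorem stdN_sq {F : Type*} [Field F] {n ℓ : ℕ} (h2 : 2 * ℓ ≤ n) : stdN F n ℓ * stdN F n ℓ = 0 := by
  ext i k
  rw [Matrix.mul_apply, Matrix.zero_apply]
  apply Finset.sum_eq_zero
  intro j _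
  simp only [stdN, Matrix.of_apply]
  split_ifs with h3 h4
  · omega
  · simp
  · simp
  · simp

theorem stdN_rank {F : Type*} [Field F] {n ℓ : ℕ} (h2 : 2 * ℓ ≤ n) : (stdN F n ℓ).rank = ℓ := by
  classical
  have hle : ℓ ≤ n := by omega
  let A : Matrix (Fin n) (Fin ℓ) F := Matrix.of (fun i j => if i.val = j.val + (n - ℓ) then 1 else 0)
  let B : Matrix (Fin ℓ) (Fin n) F := Matrix.of (fun j k => if j.val = k.val then 1 else 0)
  let R : Matrix (Fin ℓ) (Fin n) F := Matrix.of (fun j i => if i.val = j.val + (n - ℓ) then 1 else 0)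
  let S : Matrix (Fin n) (Fin ℓ) F := Matrix.of (fun i j => if i.val = j.val then 1 else 0)
  have h1 : stdN F n ℓ = A * B := by
    ext i k
    rw [Matrix.mul_apply]
    simp only [stdN, Matrix.of_apply, A, B]
    by_cases hk : k.val < ℓ
    · rw [Finset.sum_eq_single (⟨k.val, hk⟩ : Fin ℓ)]
      · simp [hk]
      · intro j _ hj
        have : j.val ≠ k.val := fun h => hj (Fin.ext h)
        simp [this]
      · simp
    · rw [if_neg (fun h => hk h.1)]
      symm
      apply Finset.sum_eq_zero
      intro j _
      have : j.val ≠ k.val := fun h => hk (h ▸ j.isLt)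
      simp [this]
  have h3 : R * stdN F n ℓ * S = 1 := by
    rw [h1]
    have e1 : R * A = 1 := by
      ext j k
      rw [Matrix.mul_apply]
      simp only [A, R, Matrix.of_apply]
      rw [Finset.sum_eq_single (⟨j.val + (n - ℓ), by omega⟩ : Fin n)]
      · by_cases hjk : j = k
        · subst hjk
          simp
        · have : j.val ≠ k.val := fun h => hjk (Fin.ext h)
          simp [Matrix.one_apply, hjk, this]
      · intro i _ hi
        have : i.val ≠ j.val + (n - ℓ) := fun h => hi (Fin.ext h)
        simp [this]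
      · simp
    have e2 : B * S = 1 := by
      ext j k
      rw [Matrix.mul_apply]
      simp only [B, S, Matrix.of_apply]
      rw [Finset.sum_eq_single (⟨j.val, by omega⟩ : Fin n)]
      · by_cases hjk : j = k
        · subst hjk
          simp
        · have : j.val ≠ k.val := fun h => hjk (Fin.ext h)
          simp [Matrix.one_apply, hjk, this]
      · intro i _ hi
        have : j.val ≠ i.val := fun h => hi (Fin.ext h.symm)
        simp [this]
      · simp
    calc R * (A * B) * S = (R * A) * (B * S) := by simp only [Matrix.mul_assoc]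
      _ = 1 := by rw [e1, e2, Matrix.mul_one]
  apply le_antisymm
  · rw [h1]
    calc (A * B).rank ≤ A.rank := Matrix.rank_mul_le_left _ _
      _ ≤ Fintype.card (Fin ℓ) := Matrix.rank_le_width A |>.trans (by simp)
      _ = ℓ := by simp
  · have h4 : (1 : Matrix (Fin ℓ) (Fin ℓ) F).rank = ℓ := by simp [Matrix.rank_one]
    calc ℓ = (R * stdN F n ℓ * S).rank := by rw [h3, h4]
      _ ≤ (R * stdN F n ℓ).rank := Matrix.rank_mul_le_left _ _
      _ ≤ (stdN F n ℓ).rank := Matrix.rank_mul_le_right _ _


/-- Over a finite field of characteristic two and for n ≥ 3: for every ℓ with 1 ≤ ℓ and 2ℓ ≤ n, the matrix j_ℓ that is the identity plus the entries 1 in positions (n − ℓ + i, i) for i < ℓ (an identity block of size ℓ in the lower left corner) lies in SL_n(F), has order 2, and j_ℓ − 1 has rank ℓ. Together with the conjugacy criterion by rank, these matrices represent the conjugacy classes of involutions of SL_n(F). -/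
theorem result {F : Type*} [Field F] [Fintype F] [CharP F 2] {n : ℕ} (hn : 3 ≤ n) (ℓ : ℕ) (h1 : 1 ≤ ℓ) (h2 : 2 * ℓ ≤ n) :
    ∃ a : Matrix.SpecialLinearGroup (Fin n) F, (a : Matrix (Fin n) (Fin n) F) = 1 + Matrix.of (fun i j : Fin n => if j.val < ℓ ∧ i.val = j.val + (n - ℓ) then (1 : F) else 0) ∧ orderOf a = 2 ∧ ((a : Matrix (Fin n) (Fin n) F) - 1).rank = ℓ := by
  classical
  have hlt : (1 + stdN F n ℓ).det = 1 := by
    rw [Matrix.det_of_lowerTriangular]
    · apply Finset.prod_eq_one
      intro i _
      simp only [Matrix.add_apply, Matrix.one_apply_eq, stdN, Matrix.of_apply]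
      rw [if_neg (by omega)]
      simp
    · intro i j hij
      have hij' : i < j := hij
      have hne : i ≠ j := ne_of_lt hij'
      simp only [Matrix.add_apply, Matrix.one_apply_ne hne, stdN, Matrix.of_apply, zero_add]
      rw [if_neg]
      have : i.val < j.val := hij'
      omega
  refine ⟨⟨1 + stdN F n ℓ, hlt⟩, rfl, ?_, ?_⟩
  · apply orderOf_eq_prime
    · apply Subtype.ext
      show (1 + stdN F n ℓ) ^ 2 = 1
      have hNN : stdN F n ℓ + stdN F n ℓ = 0 := by
        ext i j
        simp only [Matrix.add_apply, Matrix.zero_apply]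
        exact CharTwo.add_self_eq_zero _
      rw [pow_two, add_mul, one_mul, mul_add, mul_one, stdN_sq h2, add_zero, add_assoc, hNN, add_zero]
    · intro h
      have h3 : (1 + stdN F n ℓ : Matrix (Fin n) (Fin n) F) = 1 := congrArg Subtype.val h
      have h4 := congrFun (congrFun h3 ⟨n - ℓ, by omega⟩) ⟨0, by omega⟩
      have hne : (⟨n - ℓ, by omega⟩ : Fin n) ≠ ⟨0, by omega⟩ := by
        intro h5
        have := congrArg Fin.val h5
        simp at this
        omega
      simp [Matrix.one_apply_ne hne, stdN, Matrix.of_apply] at h4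
      omega
  · show ((1 + stdN F n ℓ) - 1).rank = ℓ
    rw [add_sub_cancel_left]
    exact stdN_rank h2

end Cfsg.Agent.S2163
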