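import Cfsg.Statements.S2164
import Cfsg.Agent.Lib.SUParab
import Cfsg.Agent.Lib.FormClass
import Cfsg.Agent.S2162

set_option autoImplicit false
set_option linter.all false
open Cfsg

namespace Cfsg.Agent.S2164


open Matrix Module Cfsg Cfsg.Geo Cfsg.Agent.Lib Cfsg.Agent.Lib.UnitaryBase Cfsg.Agent.Lib.SUParab

section Frame

variable {F : Type*} [Field F] {n q : ℕ}

/-- `t - 1` in characteristic two. -/
def nnU (A : Matrix (Fin n) (Fin n) F) (v : Fin n → F) : Fin n → F := A *ᵥ v + v

theorem nnU_add (A : Matrix (Fin n) (Fin n) F) (u v : Fin n → F) : nnU A (u + v) = nnU A u + nnU A v := by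
  simp only [nnU, Matrix.mulVec_add]
  abel

theorem nnU_smul (A : Matrix (Fin n) (Fin n) F) (c : F) (v : Fin n → F) : nnU A (c • v) = c • nnU A v := by
  simp only [nnU, Matrix.mulVec_smul, smul_add]

theorem nnU_eq [CharP F 2] (A : Matrix (Fin n) (Fin n) F) (v : Fin n → F) : nnU A v = (A - 1) *ᵥ v := by
  rw [nnU, Matrix.sub_mulVec, Matrix.one_mulVec]
  funext i
  simp only [Pi.sub_apply, Pi.add_apply]
  exact (CharTwo.sub_eq_add _ _).symm

variable {σ : F ≃+* F} (hf : IsUnitaryForm σ (hermForm n F q))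
  {A : Matrix (Fin n) (Fin n) F} (hiso : ∀ u v, hermForm n F q (A *ᵥ u) (A *ᵥ v) = hermForm n F q u v)
  (hsq : ∀ v, A *ᵥ (A *ᵥ v) = v)

include hf hiso hsq in
theorem nnU_adj (u v : Fin n → F) : hermForm n F q (nnU A u) v = hermForm n F q u (nnU A v) := by
  have h1 : hermForm n F q (A *ᵥ u) v = hermForm n F q u (A *ᵥ v) := by
    calc hermForm n F q (A *ᵥ u) v = hermForm n F q (A *ᵥ (A *ᵥ u)) (A *ᵥ v) := (hiso _ _).symm
      _ = _ := by rw [hsq]
  rw [nnU, nnU, hf.add_left, f_add_right hf, h1]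

include hsq in
theorem nnU_nn [CharP F 2] (v : Fin n → F) : nnU A (nnU A v) = 0 := by
  rw [nnU, nnU, Matrix.mulVec_add, hsq]
  funext i
  simp only [Pi.add_apply, Pi.zero_apply]
  have h : ∀ x y : F, x + y + (y + x) = 0 := by
    intro x y
    rw [add_comm y x]
    exact CharTwo.add_self_eq_zero _
  exact h _ _

include hf hiso hsq in
theorem nnU_iso [CharP F 2] (u v : Fin n → F) : hermForm n F q (nnU A u) (nnU A v) = 0 := by
  rw [nnU_adj hf hiso hsq, nnU_nn hsq, f_zero_right hf]

/-- The form attached to the involution. -/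
noncomputable def bilU (hf : IsUnitaryForm σ (hermForm n F q)) (A : Matrix (Fin n) (Fin n) F) :
    (Fin n → F) →ₛₗ[(σ : F →+* F)] (Fin n → F) →ₗ[F] F :=
  LinearMap.mk₂'ₛₗ (σ : F →+* F) (RingHom.id F) (fun x y => hermForm n F q (nnU A y) x)
    (fun x x' y => f_add_right hf _ _ _)
    (fun c x y => f_smul_right hf _ _ _)
    (fun x y y' => by rw [nnU_add, hf.add_left])
    (fun c x y => by rw [nnU_smul, hf.smul_left]; rfl)

theorem bilU_apply (x y : Fin n → F) : bilU hf A x y = hermForm n F q (nnU A y) x := rfl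

include hf hiso hsq in
/-- Existence of a frame. -/
theorem exists_frameU [Fintype F] [CharP F 2] :
    ∃ u : Fin (A - 1).rank → (Fin n → F), ∀ i j, hermForm n F q (nnU A (u i)) (u j) = if i = j then 1 else 0 := by
  classical
  obtain ⟨U, hU⟩ := Submodule.exists_isCompl (LinearMap.ker (A - 1).mulVecLin)
  have hS : ∀ x y, (σ : F →+* F) (bilU hf A x y) = bilU hf A y x := by
    intro x y
    rw [bilU_apply, bilU_apply, nnU_adj hf hiso hsq x y, hf.herm x (nnU A y)]
    rfl
  have hdeg : FormClass.NondegOn (bilU hf A) U := by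
    intro w hw hall
    have h1 : ∀ v, hermForm n F q (nnU A v) w = 0 := by
      intro v
      obtain ⟨k, hk, y, hy, rfl⟩ := Submodule.mem_sup.1 (show v ∈ LinearMap.ker (A - 1).mulVecLin ⊔ U by
        rw [hU.sup_eq_top]
        trivial)
      have hk' : nnU A k = 0 := by rw [nnU_eq]; exact hk
      rw [nnU_add, hk', zero_add]
      exact hall y hy
    have h3 : nnU A w = 0 := by
      by_contra hne
      obtain ⟨y, hy⟩ := (hf.nondegenerate _ hne).2
      apply hy
      rw [nnU_adj hf hiso hsq, hf.herm, h1 y, map_zero]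
    have h4 : w ∈ LinearMap.ker (A - 1).mulVecLin := by
      show (A - 1) *ᵥ w = 0
      rw [← nnU_eq]
      exact h3
    have h6 : w ∈ LinearMap.ker (A - 1).mulVecLin ⊓ U := ⟨h4, hw⟩
    rw [hU.inf_eq_bot] at h6
    simpa using h6
  have hfr : finrank F U = (A - 1).rank := by
    have h1 := Submodule.finrank_add_eq_of_isCompl hU
    have h2 := LinearMap.finrank_range_add_finrank_ker (A - 1).mulVecLin
    have h3 : (A - 1).rank = finrank F (LinearMap.range (A - 1).mulVecLin) := rfl
    omega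
  have hne : (σ : F →+* F) ≠ RingHom.id F := by
    intro h
    apply hf.ne_refl
    ext x
    exact DFunLike.congr_fun h x
  obtain ⟨u, -, hu⟩ := FormClass.herm_orthonormal hne hf.involutive hS _ U hfr hdeg
  refine ⟨u, fun i j => ?_⟩
  have := hu j i
  rw [bilU_apply] at this
  rw [this]
  by_cases h : i = j
  · simp [h]
  · simp [h, Ne.symm h]

variable {ℓ : ℕ} {u : Fin ℓ → (Fin n → F)}
  (hu : ∀ i j, hermForm n F q (nnU A (u i)) (u j) = if i = j then 1 else 0)

include hf hu in
theorem pairU (c : Fin ℓ → F) (j : Fin ℓ) : hermForm n F q (∑ i, c i • nnU A (u i)) (u j) = c j := by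
  classical
  have h1 : ∀ (z : Fin n → F) (s : Finset (Fin ℓ)) (g : Fin ℓ → (Fin n → F)),
      hermForm n F q (∑ x ∈ s, g x) z = ∑ x ∈ s, hermForm n F q (g x) z := by
    intro z s g
    induction s using Finset.induction_on with
    | empty => simp [f_zero_left hf]
    | insert x s hx ih => rw [Finset.sum_insert hx, Finset.sum_insert hx, hf.add_left, ih]
  rw [h1, Finset.sum_eq_single j]
  · rw [hf.smul_left, hu, if_pos rfl, mul_one]
  · intro x _ hx
    rw [hf.smul_left, hu, if_neg hx, mul_zero]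
  · simp

include hf hu in
theorem indepU : LinearIndependent F (fun i => nnU A (u i)) := by
  rw [Fintype.linearIndependent_iff]
  intro c hc j
  have h1 := pairU hf hu c j
  rw [hc, f_zero_left hf] at h1
  exact h1.symm

include hf hiso hsq hu in
theorem formulaU [CharP F 2] (hcard : ℓ = (A - 1).rank) (x : Fin n → F) :
    nnU A x = ∑ i, hermForm n F q x (nnU A (u i)) • nnU A (u i) := by
  have hind := indepU hf hu
  have hle : Submodule.span F (Set.range (fun i => nnU A (u i))) ≤ LinearMap.range (A - 1).mulVecLin := by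
    apply Submodule.span_le.mpr
    rintro _ ⟨i, rfl⟩
    exact ⟨u i, by simp only [Matrix.mulVecLin_apply]; exact (nnU_eq A _).symm⟩
  have hfr : finrank F (Submodule.span F (Set.range (fun i => nnU A (u i)))) = finrank F (LinearMap.range (A - 1).mulVecLin) := by
    rw [finrank_span_eq_card hind, Fintype.card_fin, hcard]
    rfl
  have heq := Submodule.eq_of_le_of_finrank_eq hle hfr
  have hmem : nnU A x ∈ Submodule.span F (Set.range (fun i => nnU A (u i))) := by
    rw [heq]
    exact ⟨x, by simp only [Matrix.mulVecLin_apply]; exact (nnU_eq A _).symm⟩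
  obtain ⟨c, hc⟩ := (Submodule.mem_span_range_iff_exists_fun F).1 hmem
  have h2 : ∀ j, c j = hermForm n F q x (nnU A (u j)) := by
    intro j
    rw [← pairU hf hu c j, hc, nnU_adj hf hiso hsq]
  rw [← hc]
  apply Finset.sum_congr rfl
  intro i _
  rw [h2 i]

end Frame

section Move

variable {F : Type*} [Field F] {n q : ℕ} {σ : F ≃+* F} (hf : IsUnitaryForm σ (hermForm n F q))

include hf in
theorem moveU {ℓ : ℕ} {A B C : Matrix (Fin n) (Fin n) F} {w w' : Fin ℓ → (Fin n → F)} {l : Fin ℓ → F}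
    (hC : ∀ u v, hermForm n F q (C *ᵥ u) (C *ᵥ v) = hermForm n F q u v)
    (hA : ∀ x, nnU A x = ∑ i, hermForm n F q x (w i) • w i)
    (hB : ∀ x, nnU B x = ∑ i, hermForm n F q x (w' i) • w' i)
    (hw : ∀ i, C *ᵥ w i = l i • w' i) (hl : ∀ i, l i * σ (l i) = 1) (x : Fin n → F) :
    C *ᵥ nnU A x = nnU B (C *ᵥ x) := by
  classical
  have hsum : ∀ (s : Finset (Fin ℓ)) (g : Fin ℓ → (Fin n → F)),
      C *ᵥ (∑ x ∈ s, g x) = ∑ x ∈ s, C *ᵥ g x := by
    intro s g
    induction s using Finset.induction_on with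
    | empty => simp
    | insert x s hx ih => rw [Finset.sum_insert hx, Finset.sum_insert hx, Matrix.mulVec_add, ih]
  rw [hA, hB, hsum]
  apply Finset.sum_congr rfl
  intro i _
  rw [Matrix.mulVec_smul, hw, smul_smul]
  congr 1
  have h1 : hermForm n F q x (w i) = σ (l i) * hermForm n F q (C *ᵥ x) (w' i) := by
    rw [← hC x (w i), hw, f_smul_right hf]
  rw [h1]
  linear_combination (hermForm n F q (C *ᵥ x) (w' i)) * hl i
end Move


/-- Conjugacy of involutions in the special unitary group SU_n(q), q even, n ≥ 3, realised over the field F with q² elements as the matrices of determinant 1 preserving the form Σ u_i v_i^q: for two elements of order 2 of SU_n(q) the following are equivalent — they are conjugate in SU_n(q); they are conjugate in SL_n(F); the matrices a − 1 and b − 1 have the same rank. -/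
theorem result {F : Type*} [Field F] [Fintype F] [CharP F 2] {n q : ℕ} (hF : Fintype.card F = q ^ 2) (hn : 3 ≤ n) (a b : ↥(Cfsg.SU n F q)) (ha : orderOf a = 2) (hb : orderOf b = 2) :
    (IsConj a b ↔ IsConj (a : Matrix.SpecialLinearGroup (Fin n) F) (b : Matrix.SpecialLinearGroup (Fin n) F)) ∧
    (IsConj a b ↔ (((a : Matrix.SpecialLinearGroup (Fin n) F) : Matrix (Fin n) (Fin n) F) - 1).rank = (((b : Matrix.SpecialLinearGroup (Fin n) F) : Matrix (Fin n) (Fin n) F) - 1).rank) := by
  classical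
  have ho : ∀ c : ↥(Cfsg.SU n F q), orderOf c = 2 → orderOf (c : Matrix.SpecialLinearGroup (Fin n) F) = 2 := by
    intro c hc
    rw [Subgroup.orderOf_coe, hc]
  have hSL := Cfsg.Agent.S2162.result hn (a : Matrix.SpecialLinearGroup (Fin n) F) (b : Matrix.SpecialLinearGroup (Fin n) F) (ho a ha) (ho b hb)
  have hmain : (((a : Matrix.SpecialLinearGroup (Fin n) F) : Matrix (Fin n) (Fin n) F) - 1).rank = (((b : Matrix.SpecialLinearGroup (Fin n) F) : Matrix (Fin n) (Fin n) F) - 1).rank → IsConj a b := by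
    intro hr
    obtain ⟨σ, hσ⟩ := Cfsg.Agent.Lib.UnitaryHerm.exists_sigma hF
    have hf : IsUnitaryForm σ (hermForm n F q) := Cfsg.Agent.Lib.UnitaryHerm.hermForm_isUnitary hF hσ
    set A : Matrix (Fin n) (Fin n) F := ((a : Matrix.SpecialLinearGroup (Fin n) F) : Matrix (Fin n) (Fin n) F) with hA
    set B : Matrix (Fin n) (Fin n) F := ((b : Matrix.SpecialLinearGroup (Fin n) F) : Matrix (Fin n) (Fin n) F) with hB
    have hisoA : ∀ u v, hermForm n F q (A *ᵥ u) (A *ᵥ v) = hermForm n F q u v := a.2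
    have hisoB : ∀ u v, hermForm n F q (B *ᵥ u) (B *ᵥ v) = hermForm n F q u v := b.2
    have hsqm : ∀ c : ↥(Cfsg.SU n F q), orderOf c = 2 → ∀ v : Fin n → F, ((c : Matrix.SpecialLinearGroup (Fin n) F) : Matrix (Fin n) (Fin n) F) *ᵥ (((c : Matrix.SpecialLinearGroup (Fin n) F) : Matrix (Fin n) (Fin n) F) *ᵥ v) = v := by
      intro c hc v
      have h1 : c * c = 1 := by
        rw [← pow_two, ← hc]
        exact pow_orderOf_eq_one c
      have h2 : ((c : Matrix.SpecialLinearGroup (Fin n) F) : Matrix (Fin n) (Fin n) F) * ((c : Matrix.SpecialLinearGroup (Fin n) F) : Matrix (Fin n) (Fin n) F) = 1 :=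
        congrArg (fun x : ↥(Cfsg.SU n F q) => ((x : Matrix.SpecialLinearGroup (Fin n) F) : Matrix (Fin n) (Fin n) F)) h1
      rw [Matrix.mulVec_mulVec, h2, Matrix.one_mulVec]
    have hsqA : ∀ v, A *ᵥ (A *ᵥ v) = v := hsqm a ha
    have hsqB : ∀ v, B *ᵥ (B *ᵥ v) = v := hsqm b hb
    have hgen : ∀ (M : Matrix (Fin n) (Fin n) F), (∀ u v, hermForm n F q (M *ᵥ u) (M *ᵥ v) = hermForm n F q u v) →
        (∀ v, M *ᵥ (M *ᵥ v) = v) → ∀ ℓ, (M - 1).rank = ℓ → ∃ u' : Fin ℓ → (Fin n → F), ∀ i j, hermForm n F q (nnU M (u' i)) (u' j) = if i = j then 1 else 0 := by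
      rintro M h1 h2 _ rfl
      exact exists_frameU hf h1 h2
    obtain ⟨ℓ, hℓ⟩ : ∃ ℓ, (A - 1).rank = ℓ := ⟨_, rfl⟩
    obtain ⟨u, hu⟩ := hgen A hisoA hsqA ℓ hℓ
    obtain ⟨u', hu'⟩ := hgen B hisoB hsqB ℓ (hr.symm.trans hℓ)
    have hℓpos : 0 < ℓ := by
      rw [← hℓ]
      exact Cfsg.Agent.S2162.rank_pos' _ (ho a ha)
    have hfA := formulaU hf hisoA hsqA hu hℓ.symm
    have hfB := formulaU hf hisoB hsqB hu' (hℓ.symm.trans hr)
    let w : Fin ℓ → (Fin n → F) := fun i => nnU A (u i)
    let w' : Fin ℓ → (Fin n → F) := fun i => nnU B (u' i)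
    let ta : HT n ℓ F q := ⟨w, indepU hf hu, fun i j => nnU_iso hf hisoA hsqA _ _⟩
    let tb : HT n ℓ F q := ⟨w', indepU hf hu', fun i j => nnU_iso hf hisoB hsqB _ _⟩
    obtain ⟨g, hg⟩ := exists_gu_move hF ta tb
    have hg' : ∀ i, g.1.1 *ᵥ w i = w' i := hg
    have hgiso : ∀ u v, hermForm n F q (g.1.1 *ᵥ u) (g.1.1 *ᵥ v) = hermForm n F q u v := g.2
    set d := g.1.1.det with hd
    have hd1 : d ^ (q + 1) = 1 := Cfsg.Agent.Lib.UnitaryOrder.det_norm hF g.2
    obtain ⟨l, hl⟩ : IsSquare d⁻¹ := FiniteField.isSquare_of_char_two (ringChar.eq F 2) _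
    have hl1 : l ^ (q + 1) = 1 := by
      have h1 : (l ^ (q + 1)) * (l ^ (q + 1)) = 1 := by
        rw [← mul_pow, ← hl, inv_pow, hd1, inv_one]
      rcases mul_self_eq_one_iff.mp h1 with h | h
      · exact h
      · rw [h, CharTwo.neg_eq]
    have hlσ : l * σ l = 1 := by
      rw [hσ, ← pow_succ']
      exact hl1
    -- the frame vectors
    let i₀ : Fin ℓ := ⟨0, hℓpos⟩
    set r := hermForm n F q (u i₀) (u i₀) with hrr
    have hσr : σ r = r := (hf.herm _ _).symm
    obtain ⟨α, hα⟩ := exists_trace_eq hf hσr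
    let e := w i₀
    let f := u i₀ + α • w i₀
    have hww : ∀ i j, hermForm n F q (w i) (w j) = 0 := fun i j => nnU_iso hf hisoA hsqA _ _
    have hwu : ∀ i j, hermForm n F q (w i) (u j) = if i = j then 1 else 0 := hu
    have hwf : ∀ i, hermForm n F q (w i) f = if i = i₀ then 1 else 0 := by
      intro i
      simp only [f]
      rw [f_add_right hf, f_smul_right hf, hww, mul_zero, add_zero, hwu]
    have h1 : hermForm n F q e f = 1 := by
      simp only [e]
      rw [hwf, if_pos rfl]
    have h2 : hermForm n F q f e = 1 := by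
      rw [hf.herm, h1, map_one]
    have h3 : hermForm n F q e e = 0 := hww _ _
    have h4 : hermForm n F q f f = 0 := by
      simp only [f]
      have e1 : hermForm n F q (w i₀) (u i₀) = 1 := by rw [hwu, if_pos rfl]
      have e2 : hermForm n F q (u i₀) (w i₀) = 1 := by rw [hf.herm, e1, map_one]
      rw [hf.add_left, f_add_right hf, f_add_right hf, hf.smul_left, hf.smul_left, f_smul_right hf, f_smul_right hf, e1, e2, hww, ← hrr]
      have h5 : r + r = 0 := CharTwo.add_self_eq_zero _
      rw [← hα] at h5 ⊢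
      have h6 : α + σ α + (α + σ α) = 0 := CharTwo.add_self_eq_zero _
      linear_combination h6
    let T := 1 + PP e f l l * QQ q e f
    have hTiso : ∀ u v, hermForm n F q (T *ᵥ u) (T *ᵥ v) = hermForm n F q u v :=
      TT_pres hF hf e f l l h1 h2 h3 h4 hlσ hlσ
    have hTdet : T.det = l * l := TT_det e f l l h1 h2 h3 h4
    have hTw : ∀ i, T *ᵥ w i = (if i = i₀ then l else 1) • w i := by
      intro i
      simp only [T]
      rw [TT_mulVec, hwf]
      have h5 : hermForm n F q (w i) e = 0 := hww _ _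
      rw [h5, mul_zero, zero_smul, add_zero]
      by_cases hi : i = i₀
      · subst hi
        simp only [if_true, mul_one, e]
        rw [sub_smul, one_smul]
        abel
      · simp [hi]
    let C := g.1.1 * T
    have hCiso : ∀ u v, hermForm n F q (C *ᵥ u) (C *ᵥ v) = hermForm n F q u v := by
      intro x y
      simp only [C]
      rw [← Matrix.mulVec_mulVec, ← Matrix.mulVec_mulVec, hgiso, hTiso]
    have hCdet : C.det = 1 := by
      simp only [C]
      rw [Matrix.det_mul, hTdet, ← hl, ← hd]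
      have hd0 : d ≠ 0 := by
        intro h0
        rw [h0, zero_pow (by omega)] at hd1
        exact zero_ne_one hd1
      exact mul_inv_cancel₀ hd0
    have hCw : ∀ i, C *ᵥ w i = (if i = i₀ then l else 1) • w' i := by
      intro i
      simp only [C]
      rw [← Matrix.mulVec_mulVec, hTw, Matrix.mulVec_smul, hg']
    have hcomm : ∀ x, C *ᵥ nnU A x = nnU B (C *ᵥ x) := by
      apply moveU hf hCiso hfA hfB hCw
      intro i
      by_cases hi : i = i₀
      · simp only [hi, if_true]
        exact hlσ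
      · simp [hi]
    have hcomm' : ∀ x, C *ᵥ (A *ᵥ x) = B *ᵥ (C *ᵥ x) := by
      intro x
      have := hcomm x
      rw [nnU, nnU, Matrix.mulVec_add] at this
      exact add_right_cancel this
    have hCmat : C * A = B * C := by
      apply Matrix.mulVec_injective
      funext x
      have e1 : (C * A) *ᵥ x = C *ᵥ (A *ᵥ x) := (Matrix.mulVec_mulVec x C A).symm
      have e2 : (B * C) *ᵥ x = B *ᵥ (C *ᵥ x) := (Matrix.mulVec_mulVec x B C).symm
      rw [e1, e2]
      exact hcomm' x
    let c0 : Matrix.SpecialLinearGroup (Fin n) F := ⟨C, hCdet⟩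
    have hc0 : c0 ∈ Cfsg.SU n F q := hCiso
    refine isConj_iff.mpr ⟨⟨c0, hc0⟩, ?_⟩
    rw [mul_inv_eq_iff_eq_mul]
    apply Subtype.ext
    apply Subtype.ext
    exact hCmat
  have hforward : IsConj a b → IsConj (a : Matrix.SpecialLinearGroup (Fin n) F) (b : Matrix.SpecialLinearGroup (Fin n) F) := by
    intro h
    obtain ⟨c, hc⟩ := isConj_iff.mp h
    exact isConj_iff.mpr ⟨c, congrArg Subtype.val hc⟩
  refine ⟨⟨hforward, fun h => hmain (hSL.mp h)⟩, ⟨fun h => hSL.mp (hforward h), hmain⟩⟩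

end Cfsg.Agent.S2164
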