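import Cfsg.Statements.S2165


set_option autoImplicit false
set_option linter.all false
open Cfsg

namespace Cfsg.Agent.S2165


open Matrix


/-- In SU_n(q), q even, n ≥ 3 (matrices of determinant 1 over the field with q² elements preserving Σ u_i v_i^q): for every ℓ with 1 ≤ ℓ and 2ℓ ≤ n, the permutation matrix of the involution of {0, …, n−1} exchanging i and n − ℓ + i for each i < ℓ lies in SU_n(q), has order 2, and differs from the identity by a matrix of rank ℓ. So every rank between 1 and n/2 occurs for involutions of SU_n(q). -/
theorem result {F : Type*} [Field F] [Fintype F] [CharP F 2] {n q : ℕ} (hF : Fintype.card F = q ^ 2) (hn : 3 ≤ n) (ℓ : ℕ) (h1 : 1 ≤ ℓ) (h2 : 2 * ℓ ≤ n) :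
    ∃ a : ↥(Cfsg.SU n F q), (((a : Matrix.SpecialLinearGroup (Fin n) F) : Matrix (Fin n) (Fin n) F) = Matrix.of (fun i j : Fin n => if (j.val < ℓ ∧ i.val = j.val + (n - ℓ)) ∨ (i.val < ℓ ∧ j.val = i.val + (n - ℓ)) ∨ (i = j ∧ ℓ ≤ i.val ∧ i.val < n - ℓ) then (1 : F) else 0)) ∧ orderOf a = 2 ∧ ((((a : Matrix.SpecialLinearGroup (Fin n) F) : Matrix (Fin n) (Fin n) F)) - 1).rank = ℓ := by
  classical
  have hd1 : 1 ≤ n - ℓ := by omega
  have hlen : ℓ ≤ n - ℓ := by omega
  let s : Fin n → Fin n := fun i =>
    if h : i.val < ℓ then ⟨i.val + (n - ℓ), by omega⟩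
    else if h' : n - ℓ ≤ i.val then ⟨i.val - (n - ℓ), by omega⟩ else i
  have hs1 : ∀ i : Fin n, i.val < ℓ → (s i).val = i.val + (n - ℓ) := by
    intro i hi
    simp [s, hi]
  have hs2 : ∀ i : Fin n, n - ℓ ≤ i.val → (s i).val = i.val - (n - ℓ) := by
    intro i hi
    have : ¬ i.val < ℓ := by omega
    simp only [s]
    rw [dif_neg this, dif_pos hi]
  have hs3 : ∀ i : Fin n, ¬ i.val < ℓ → ¬ n - ℓ ≤ i.val → s i = i := by
    intro i h1 h2
    simp only [s]
    rw [dif_neg h1, dif_neg h2]
  have hss : ∀ i, s (s i) = i := by
    intro i
    by_cases h3 : i.val < ℓ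
    · have h4 := hs1 i h3
      apply Fin.ext
      rw [hs2 _ (by omega), h4]
      omega
    · by_cases h5 : n - ℓ ≤ i.val
      · have h4 := hs2 i h5
        apply Fin.ext
        rw [hs1 _ (by omega), h4]
        omega
      · rw [hs3 i h3 h5, hs3 i h3 h5]
  let P : Matrix (Fin n) (Fin n) F := Matrix.of (fun i j : Fin n => if (j.val < ℓ ∧ i.val = j.val + (n - ℓ)) ∨ (i.val < ℓ ∧ j.val = i.val + (n - ℓ)) ∨ (i = j ∧ ℓ ≤ i.val ∧ i.val < n - ℓ) then (1 : F) else 0)
  have hP : ∀ i j, P i j = if j = s i then 1 else 0 := by
    intro i j
    simp only [P, Matrix.of_apply]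
    congr 1
    apply propext
    constructor
    · rintro (⟨h3, h4⟩ | ⟨h3, h4⟩ | ⟨h3, h4, h5⟩)
      · apply Fin.ext
        rw [hs2 i (by omega)]
        omega
      · apply Fin.ext
        rw [hs1 i h3]
        omega
      · rw [hs3 i (by omega) (by omega)]
        exact h3.symm
    · rintro rfl
      by_cases h3 : i.val < ℓ
      · have := hs1 i h3
        right; left
        exact ⟨h3, this⟩
      · by_cases h5 : n - ℓ ≤ i.val
        · have := hs2 i h5
          left
          refine ⟨by omega, by omega⟩
        · right; right
          rw [hs3 i h3 h5]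
          exact ⟨rfl, by omega, by omega⟩
  have hPP : P * P = 1 := by
    ext i k
    rw [Matrix.mul_apply, Finset.sum_eq_single (s i)]
    · rw [hP, hP, if_pos rfl, one_mul, hss, Matrix.one_apply]
      by_cases h : i = k
      · simp [h]
      · simp [h, Ne.symm h]
    · intro j _ hj
      rw [hP, if_neg hj, zero_mul]
    · simp
  have hdet : P.det = 1 := by
    have h3 : P.det * P.det = 1 := by
      rw [← Matrix.det_mul, hPP, Matrix.det_one]
    rcases mul_self_eq_one_iff.mp h3 with h | h
    · exact h
    · rw [h, CharTwo.neg_eq]
  have hmv : ∀ (u : Fin n → F) i, (P *ᵥ u) i = u (s i) := by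
    intro u i
    simp only [Matrix.mulVec, dotProduct]
    rw [Finset.sum_eq_single (s i)]
    · rw [hP, if_pos rfl, one_mul]
    · intro j _ hj
      rw [hP, if_neg hj, zero_mul]
    · simp
  let σ : Equiv.Perm (Fin n) := ⟨s, s, hss, hss⟩
  let a0 : Matrix.SpecialLinearGroup (Fin n) F := ⟨P, hdet⟩
  have hmem : a0 ∈ Cfsg.SU n F q := by
    intro u v
    show Cfsg.hermForm n F q (P *ᵥ u) (P *ᵥ v) = Cfsg.hermForm n F q u v
    unfold Cfsg.hermForm
    simp only [hmv]
    exact Equiv.sum_comp σ (fun i => u i * v i ^ q)
  refine ⟨⟨a0, hmem⟩, rfl, ?_, ?_⟩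
  · apply orderOf_eq_prime
    · apply Subtype.ext
      apply Subtype.ext
      show P ^ 2 = 1
      rw [pow_two, hPP]
    · intro h
      have h3 : P = 1 := congrArg (fun x : ↥(Cfsg.SU n F q) => ((x : Matrix.SpecialLinearGroup (Fin n) F) : Matrix (Fin n) (Fin n) F)) h
      have hi0 : (⟨0, by omega⟩ : Fin n).val < ℓ := by simp; omega
      have h4 := congrFun (congrFun h3 ⟨0, by omega⟩) (s ⟨0, by omega⟩)
      rw [hP, if_pos rfl] at h4
      have hne : (⟨0, by omega⟩ : Fin n) ≠ s ⟨0, by omega⟩ := by
        intro h5
        have := congrArg Fin.val h5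
        rw [hs1 _ hi0] at this
        simp at this
        omega
      rw [Matrix.one_apply_ne hne] at h4
      exact one_ne_zero h4
  · show (P - 1).rank = ℓ
    have hM : ∀ i k, (P - 1) i k = (if k = s i then 1 else 0) + (if i = k then (1 : F) else 0) := by
      intro i k
      rw [Matrix.sub_apply, hP, Matrix.one_apply, sub_eq_add_neg, CharTwo.neg_eq]
    apply le_antisymm
    · have hle : (P - 1).rank ≤ Module.finrank F (Submodule.span F (Set.range (fun j : Fin ℓ => (P - 1).col ⟨j.val, by omega⟩))) := by
        unfold Matrix.rank
        apply Submodule.finrank_mono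
        rw [Matrix.range_mulVecLin]
        apply Submodule.span_le.mpr
        rintro _ ⟨k, rfl⟩
        by_cases h3 : k.val < ℓ
        · apply Submodule.subset_span
          exact ⟨⟨k.val, h3⟩, rfl⟩
        · by_cases h5 : n - ℓ ≤ k.val
          · have hk : (s k).val = k.val - (n - ℓ) := hs2 k h5
            apply Submodule.subset_span
            refine ⟨⟨(s k).val, by omega⟩, ?_⟩
            funext i
            simp only [Matrix.col_apply, Fin.eta]
            rw [hM, hM]
            have e1 : (s k = s i) ↔ (i = k) := by
              constructor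
              · intro h
                have := congrArg s h
                rw [hss, hss] at this
                exact this.symm
              · rintro rfl
                rfl
            have e2 : (k = s i) ↔ (i = s k) := by
              constructor
              · rintro rfl
                rw [hss]
              · rintro rfl
                rw [hss]
            simp only [e1, e2]
            rw [add_comm]
          · have hz : ((P - 1).col k) = 0 := by
              funext i
              simp only [Matrix.col_apply, Pi.zero_apply]
              rw [hM]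
              have hsk := hs3 k h3 h5
              by_cases h6 : i = k
              · subst h6
                rw [if_pos hsk.symm, if_pos rfl]
                exact CharTwo.add_self_eq_zero _
              · have h7 : k ≠ s i := by
                  intro h8
                  apply h6
                  have := congrArg s h8
                  rw [hss, hsk] at this
                  exact this.symm
                rw [if_neg h7, if_neg h6, add_zero]
            rw [hz]
            exact Submodule.zero_mem _
      refine hle.trans ?_
      have := finrank_range_le_card (R := F) (fun j : Fin ℓ => (P - 1).col ⟨j.val, by omega⟩)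
      simpa [Set.finrank] using this
    · let R : Matrix (Fin ℓ) (Fin n) F := Matrix.of (fun j i => if j.val = i.val then 1 else 0)
      let S : Matrix (Fin n) (Fin ℓ) F := Matrix.of (fun i j => if i.val = j.val then 1 else 0)
      have h3 : R * (P - 1) * S = 1 := by
        ext j k
        rw [Matrix.mul_apply, Finset.sum_eq_single (⟨k.val, by omega⟩ : Fin n)]
        · rw [Matrix.mul_apply, Finset.sum_eq_single (⟨j.val, by omega⟩ : Fin n)]
          · simp only [R, S, Matrix.of_apply, if_true]
            rw [hM]
            have h4 : (⟨k.val, by omega⟩ : Fin n) ≠ s ⟨j.val, by omega⟩ := by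
              intro h5
              have h6 := congrArg Fin.val h5
              rw [hs1 _ j.isLt] at h6
              simp at h6
              omega
            rw [if_neg h4, zero_add, one_mul, mul_one, Matrix.one_apply]
            by_cases h5 : j = k
            · simp [h5]
            · have h6 : j.val ≠ k.val := fun h => h5 (Fin.ext h)
              simp [h5, h6]
          · intro i _ hi
            have h4 : j.val ≠ i.val := fun h => hi (Fin.ext h.symm)
            simp [R, h4]
          · simp
        · intro i _ hi
          have h4 : i.val ≠ k.val := fun h => hi (Fin.ext h)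
          simp [S, h4]
        · simp
      have h4 : (1 : Matrix (Fin ℓ) (Fin ℓ) F).rank = ℓ := by simp [Matrix.rank_one]
      calc ℓ = (R * (P - 1) * S).rank := by rw [h3, h4]
        _ ≤ (R * (P - 1)).rank := Matrix.rank_mul_le_left _ _
        _ ≤ (P - 1).rank := Matrix.rank_mul_le_right _ _

end Cfsg.Agent.S2165
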