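import Cfsg.Statements.S2167
import Cfsg.Agent.Lib.FormClass
import Cfsg.Agent.Lib.ClassGeom
import Cfsg.Agent.Lib.SymplecticTv

set_option autoImplicit false
set_option linter.all false
open Cfsg

namespace Cfsg.Agent.S2167


open Matrix Module Cfsg.Agent.Lib


/-- For an involution t of the symplectic group Sp_{2m}(F), m ≥ 2, F a finite field of characteristic two (matrices A with A J Aᵀ = J acting on column vectors, alternating form f(u, v) = u ⬝ (J v)): the set V(t) of vectors v with f(v, t v) = 0 has either q^{2m} or q^{2m−1} elements, q the order of F (it is a subspace of codimension at most 1), and if it is the whole space then t − 1 has even rank. -/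
theorem result {F : Type*} [Field F] [Fintype F] [CharP F 2] {m : ℕ} (hm : 2 ≤ m) (a : ↥(Matrix.symplecticGroup (Fin m) F)) (ha : orderOf a = 2) :
    (Nat.card {v : Fin m ⊕ Fin m → F // Cfsg.sympForm m F v (Matrix.mulVec ((a : ↥(Matrix.symplecticGroup (Fin m) F)) : Matrix (Fin m ⊕ Fin m) (Fin m ⊕ Fin m) F) v) = 0} = Fintype.card F ^ (2 * m) ∨ Nat.card {v : Fin m ⊕ Fin m → F // Cfsg.sympForm m F v (Matrix.mulVec ((a : ↥(Matrix.symplecticGroup (Fin m) F)) : Matrix (Fin m ⊕ Fin m) (Fin m ⊕ Fin m) F) v) = 0} * Fintype.card F = Fintype.card F ^ (2 * m)) ∧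
    ((∀ v : Fin m ⊕ Fin m → F, Cfsg.sympForm m F v (Matrix.mulVec ((a : ↥(Matrix.symplecticGroup (Fin m) F)) : Matrix (Fin m ⊕ Fin m) (Fin m ⊕ Fin m) F) v) = 0) → Even (((a : ↥(Matrix.symplecticGroup (Fin m) F)) : Matrix (Fin m ⊕ Fin m) (Fin m ⊕ Fin m) F) - 1).rank) := by
  classical
  set A : Matrix (Fin m ⊕ Fin m) (Fin m ⊕ Fin m) F := ((a : ↥(Matrix.symplecticGroup (Fin m) F)) : Matrix (Fin m ⊕ Fin m) (Fin m ⊕ Fin m) F) with hA
  have hS := SymplecticTv.sympForm_isSymplectic (F := F) m
  have hal := hS.bilinear.add_left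
  have har := hS.bilinear.add_right
  have hsl := hS.bilinear.smul_left
  have hsr := hS.bilinear.smul_right
  set f := Cfsg.sympForm m F with hf
  have hiso : ∀ u v, f (A *ᵥ u) (A *ᵥ v) = f u v := by
    intro u v
    rw [hf, ClassGeom.sympForm_mulVec, (ClassGeom.mem_sp_iff_transpose A).mp a.2]
    rfl
  have hsq : A * A = 1 := by
    have h1 : a ^ 2 = 1 := by rw [← ha]; exact pow_orderOf_eq_one a
    have := congrArg Subtype.val h1
    rw [pow_two] at this
    exact this
  have hAA : ∀ v, A *ᵥ (A *ᵥ v) = v := by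
    intro v
    rw [Matrix.mulVec_mulVec, hsq, Matrix.one_mulVec]
  have hsym : ∀ u v, f u v = f v u := fun u v => by rw [hS.skew u v, CharTwo.neg_eq]
  have hadj : ∀ u v, f (A *ᵥ u) v = f u (A *ᵥ v) := by
    intro u v
    calc f (A *ᵥ u) v = f (A *ᵥ (A *ᵥ u)) (A *ᵥ v) := (hiso _ _).symm
      _ = f u (A *ᵥ v) := by rw [hAA]
  have hz0 : ∀ w, f 0 w = 0 := by
    intro w
    have := hsl 0 0 w
    simpa using this
  let Q : (Fin m ⊕ Fin m → F) →+ F :=
    { toFun := fun v => f v (A *ᵥ v)
      map_zero' := by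
        show f 0 (A *ᵥ 0) = 0
        exact hz0 _
      map_add' := by
        intro u v
        show f (u + v) (A *ᵥ (u + v)) = f u (A *ᵥ u) + f v (A *ᵥ v)
        rw [Matrix.mulVec_add, hal, har, har]
        have h1 : f v (A *ᵥ u) = f u (A *ᵥ v) := by
          rw [hsym v, hadj]
        rw [h1]
        have h2 : f u (A *ᵥ v) + f u (A *ᵥ v) = 0 := CharTwo.add_self_eq_zero _
        linear_combination h2 }
  have hQ : ∀ v, Q v = f v (A *ᵥ v) := fun v => rfl
  have hQs : ∀ (c : F) v, Q (c • v) = c * c * Q v := by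
    intro c v
    rw [hQ, hQ, Matrix.mulVec_smul, hsl, hsr]
    ring
  have hcardV : Nat.card (Fin m ⊕ Fin m → F) = Fintype.card F ^ (2 * m) := by
    rw [Nat.card_eq_fintype_card, Fintype.card_fun, Fintype.card_sum, Fintype.card_fin, two_mul]
  refine ⟨?_, ?_⟩
  · by_cases h0 : ∀ v, f v (A *ᵥ v) = 0
    · left
      rw [← hcardV]
      exact Nat.card_congr (Equiv.subtypeUnivEquiv h0)
    · right
      push Not at h0
      obtain ⟨v₀, hv₀⟩ := h0
      have hsurj : Function.Surjective Q := by
        intro x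
        obtain ⟨c, hc⟩ : IsSquare (x / Q v₀) := FiniteField.isSquare_of_char_two (ringChar.eq F 2) _
        refine ⟨c • v₀, ?_⟩
        rw [hQs, ← hc]
        have : Q v₀ ≠ 0 := hv₀
        field_simp
      have h1 := AddSubgroup.card_eq_card_quotient_mul_card_addSubgroup Q.ker
      have h2 : Nat.card ((Fin m ⊕ Fin m → F) ⧸ Q.ker) = Nat.card F :=
        Nat.card_congr (QuotientAddGroup.quotientKerEquivOfSurjective Q hsurj).toEquiv
      have h3 : Nat.card Q.ker = Nat.card {v : Fin m ⊕ Fin m → F // f v (A *ᵥ v) = 0} :=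
        Nat.card_congr (Equiv.subtypeEquivRight (fun v => AddMonoidHom.mem_ker))
      rw [← hcardV, h1, h2, h3, mul_comm, Nat.card_eq_fintype_card (α := F)]
  · intro hall
    set N : Matrix (Fin m ⊕ Fin m) (Fin m ⊕ Fin m) F := A - 1 with hN
    have hNv : ∀ v, N *ᵥ v = A *ᵥ v + v := by
      intro v
      rw [hN, Matrix.sub_mulVec, Matrix.one_mulVec]
      funext i
      simp only [Pi.sub_apply, Pi.add_apply]
      exact CharTwo.sub_eq_add _ _
    let B : LinearMap.BilinForm F (Fin m ⊕ Fin m → F) := LinearMap.mk₂ F (fun u v => f u (N *ᵥ v))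
      (fun u u' v => hal u u' _)
      (fun c u v => hsl c u _)
      (fun u v v' => by rw [Matrix.mulVec_add, har])
      (fun c u v => by rw [Matrix.mulVec_smul, hsr]; rfl)
    have hB : ∀ u v, B u v = f u (N *ᵥ v) := fun u v => rfl
    have hAlt : B.IsAlt := by
      intro x
      rw [hB, hNv, har, hall x, hS.alternating x, add_zero]
    obtain ⟨W, hW⟩ := Submodule.exists_isCompl (LinearMap.ker N.mulVecLin)
    have hdeg : FormClass.NondegOn B W := by
      intro w hw hall2
      have h1 : ∀ v, f w (N *ᵥ v) = 0 := by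
        intro v
        obtain ⟨k, hk, y, hy, rfl⟩ := Submodule.mem_sup.1 (show v ∈ LinearMap.ker N.mulVecLin ⊔ W by
          rw [hW.sup_eq_top]
          trivial)
        have hk' : N *ᵥ k = 0 := hk
        rw [Matrix.mulVec_add, hk', zero_add]
        exact hall2 y hy
      have h2 : ∀ v, f (N *ᵥ w) v = 0 := by
        intro v
        have h3 := h1 v
        rw [hNv, har] at h3
        rw [hNv, hal, hadj]
        exact h3
      have h3 : N *ᵥ w = 0 := by
        by_contra hne
        obtain ⟨y, hy⟩ := (hS.nondegenerate _ hne).2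
        exact hy (h2 y)
      have h4 : w ∈ LinearMap.ker N.mulVecLin := h3
      have h5 := hW.inf_eq_bot
      have h6 : w ∈ LinearMap.ker N.mulVecLin ⊓ W := ⟨h4, hw⟩
      rw [h5] at h6
      simpa using h6
    obtain ⟨m', e, f', h2m, -⟩ := FormClass.alt_symplectic hAlt _ W rfl hdeg
    have h1 := Submodule.finrank_add_eq_of_isCompl hW
    have h2 := LinearMap.finrank_range_add_finrank_ker N.mulVecLin
    have h3 : N.rank = finrank F (LinearMap.range N.mulVecLin) := rfl
    refine ⟨m', ?_⟩
    omega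

end Cfsg.Agent.S2167
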