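import Cfsg.Statements.S2166
import Cfsg.Agent.Lib.InvolSp
import Cfsg.Agent.S2167

set_option autoImplicit false
set_option linter.all false
open Cfsg

namespace Cfsg.Agent.S2166


open Matrix Module Cfsg.Agent.Lib Cfsg.Agent.Lib.InvolSp Cfsg.Agent.Lib.SpParab


/-- Conjugacy of involutions in the symplectic group Sp_{2m}(F), F a finite field of characteristic two, m ≥ 2 (Sp taken as the matrices A with A J Aᵀ = J, acting on column vectors, with the alternating form f(u, v) = u ⬝ (J v)). For an involution t write V(t) for the set of vectors v with f(v, t v) = 0 (a subspace). Two involutions a, b are conjugate in Sp_{2m}(F) exactly when a − 1 and b − 1 have the same rank and, in case that rank is even, V(a) and V(b) have the same number of elements. -/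
theorem result {F : Type*} [Field F] [Fintype F] [CharP F 2] {m : ℕ} (hm : 2 ≤ m) (a b : ↥(Matrix.symplecticGroup (Fin m) F)) (ha : orderOf a = 2) (hb : orderOf b = 2) :
    IsConj a b ↔ ((((a : ↥(Matrix.symplecticGroup (Fin m) F)) : Matrix (Fin m ⊕ Fin m) (Fin m ⊕ Fin m) F) - 1).rank = (((b : ↥(Matrix.symplecticGroup (Fin m) F)) : Matrix (Fin m ⊕ Fin m) (Fin m ⊕ Fin m) F) - 1).rank ∧
      (Even (((a : ↥(Matrix.symplecticGroup (Fin m) F)) : Matrix (Fin m ⊕ Fin m) (Fin m ⊕ Fin m) F) - 1).rank → Nat.card {v : Fin m ⊕ Fin m → F // Cfsg.sympForm m F v (Matrix.mulVec ((a : ↥(Matrix.symplecticGroup (Fin m) F)) : Matrix (Fin m ⊕ Fin m) (Fin m ⊕ Fin m) F) v) = 0} = Nat.card {v : Fin m ⊕ Fin m → F // Cfsg.sympForm m F v (Matrix.mulVec ((b : ↥(Matrix.symplecticGroup (Fin m) F)) : Matrix (Fin m ⊕ Fin m) (Fin m ⊕ Fin m) F) v) = 0})) := by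
  classical
  have hcardV : Nat.card (Fin m ⊕ Fin m → F) = Fintype.card F ^ (2 * m) := by
    rw [Nat.card_eq_fintype_card, Fintype.card_fun, Fintype.card_sum, Fintype.card_fin, two_mul]
  constructor
  · intro h
    obtain ⟨c, hc⟩ := isConj_iff.mp h
    have hcm : c.1 * a.1 = b.1 * c.1 := by
      have h1 : c * a = b * c := by
        rw [← hc]
        group
      exact congrArg Subtype.val h1
    have hcm2 : (c⁻¹).1 * b.1 = a.1 * (c⁻¹).1 := by
      have h1 : c⁻¹ * b = a * c⁻¹ := by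
        rw [← hc]
        group
      exact congrArg Subtype.val h1
    have hcc : c.1 * (c⁻¹).1 = 1 := congrArg Subtype.val (mul_inv_cancel c)
    have hcc' : (c⁻¹).1 * c.1 = 1 := congrArg Subtype.val (inv_mul_cancel c)
    have e1 : b.1 - 1 = c.1 * (a.1 - 1) * (c⁻¹).1 := by
      rw [mul_sub, sub_mul, mul_one, hcc, hcm, mul_assoc, hcc, mul_one]
    have e2 : a.1 - 1 = (c⁻¹).1 * (b.1 - 1) * c.1 := by
      rw [mul_sub, sub_mul, mul_one, hcc', hcm2, mul_assoc, hcc', mul_one]
    refine ⟨?_, ?_⟩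
    · apply le_antisymm
      · calc (a.1 - 1).rank = ((c⁻¹).1 * (b.1 - 1) * c.1).rank := by rw [← e2]
          _ ≤ ((c⁻¹).1 * (b.1 - 1)).rank := Matrix.rank_mul_le_left _ _
          _ ≤ (b.1 - 1).rank := Matrix.rank_mul_le_right _ _
      · calc (b.1 - 1).rank = (c.1 * (a.1 - 1) * (c⁻¹).1).rank := by rw [← e1]
          _ ≤ (c.1 * (a.1 - 1)).rank := Matrix.rank_mul_le_left _ _
          _ ≤ (a.1 - 1).rank := Matrix.rank_mul_le_right _ _
    · intro _
      apply Nat.card_congr
      refine ⟨fun v => ⟨c.1 *ᵥ v.1, ?_⟩, fun v => ⟨(c⁻¹).1 *ᵥ v.1, ?_⟩, ?_, ?_⟩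
      · show Cfsg.sympForm m F (c.1 *ᵥ v.1) (b.1 *ᵥ (c.1 *ᵥ v.1)) = 0
        rw [Matrix.mulVec_mulVec, ← hcm, ← Matrix.mulVec_mulVec, sp_pres]
        exact v.2
      · show Cfsg.sympForm m F ((c⁻¹).1 *ᵥ v.1) (a.1 *ᵥ ((c⁻¹).1 *ᵥ v.1)) = 0
        rw [Matrix.mulVec_mulVec, ← hcm2, ← Matrix.mulVec_mulVec, sp_pres]
        exact v.2
      · intro v
        apply Subtype.ext
        exact sp_inv_mul c v.1
      · intro v
        apply Subtype.ext
        exact sp_mul_inv c v.1
  · rintro ⟨hr, hcard⟩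
    by_cases hA : ∀ v, Cfsg.sympForm m F v (a.1 *ᵥ v) = 0
    · -- alternating for `a`; then for `b`
      have hEven : Even (a.1 - 1).rank := (Cfsg.Agent.S2167.result hm a ha).2 hA
      have hB : ∀ v, Cfsg.sympForm m F v (b.1 *ᵥ v) = 0 := by
        have h1 := hcard hEven
        have h2 : Nat.card {v : Fin m ⊕ Fin m → F // Cfsg.sympForm m F v (a.1 *ᵥ v) = 0} = Nat.card (Fin m ⊕ Fin m → F) :=
          Nat.card_congr (Equiv.subtypeUnivEquiv hA)
        rw [h2] at h1
        by_contra hcon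
        push Not at hcon
        obtain ⟨x, hx⟩ := hcon
        have h3 := Fintype.card_subtype_lt (p := fun v => Cfsg.sympForm m F v (b.1 *ᵥ v) = 0) hx
        rw [Nat.card_eq_fintype_card, Nat.card_eq_fintype_card] at h1
        omega
      obtain ⟨r, hr1, u, hu⟩ := exists_frame_alt ha hA
      obtain ⟨r', hr2, u', hu'⟩ := exists_frame_alt hb hB
      have : r = r' := by omega
      subst this
      exact conj_of_frames ha hb (fun x => by simp) hu hu'
    · push Not at hA
      have hB : ∃ v, Cfsg.sympForm m F v (b.1 *ᵥ v) ≠ 0 := by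
        by_contra hcon
        push Not at hcon
        have hEven : Even (b.1 - 1).rank := (Cfsg.Agent.S2167.result hm b hb).2 hcon
        have hE' : Even (a.1 - 1).rank := by rw [hr]; exact hEven
        have h1 := hcard hE'
        have h2 : Nat.card {v : Fin m ⊕ Fin m → F // Cfsg.sympForm m F v (b.1 *ᵥ v) = 0} = Nat.card (Fin m ⊕ Fin m → F) :=
          Nat.card_congr (Equiv.subtypeUnivEquiv hcon)
        rw [h2] at h1
        obtain ⟨x, hx⟩ := hA
        have h3 := Fintype.card_subtype_lt (p := fun v => Cfsg.sympForm m F v (a.1 *ᵥ v) = 0) hx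
        rw [Nat.card_eq_fintype_card, Nat.card_eq_fintype_card] at h1
        omega
      obtain ⟨u, hu⟩ := exists_frame_nonalt ha hA
      have hgen : ∀ ℓ, (b.1 - 1).rank = ℓ → ∃ u' : Fin ℓ → (Fin m ⊕ Fin m → F), Frame b (1 : Equiv.Perm (Fin ℓ)) u' := by
        rintro _ rfl
        exact exists_frame_nonalt hb hB
      obtain ⟨u', hu'⟩ := hgen _ hr.symm
      exact conj_of_frames ha hb (fun x => by simp) hu hu'

end Cfsg.Agent.S2166
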