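import Cfsg.Statements.S2169
import Cfsg.Agent.Lib.QuadClass
import Cfsg.Agent.Lib.QuadPlus

set_option autoImplicit false
set_option linter.all false
open Cfsg

namespace Cfsg.Agent.S2169


open Matrix Module Cfsg.Agent.Lib

/-- Commutator membership through the rank. -/
theorem key {ι : Type} [Fintype ι] [DecidableEq ι] {F : Type*} [Field F] [Fintype F] (g : GL ι F) :
    Dickson.chi g = 1 ↔ Even (((g : Matrix ι ι F) - 1).rank) := by
  classical
  have h1 : Dickson.fixS g = LinearMap.ker (((g : Matrix ι ι F) - 1).mulVecLin) := by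
    ext x
    rw [Dickson.mem_fixS, LinearMap.mem_ker, Matrix.mulVecLin_apply, Matrix.sub_mulVec, Matrix.one_mulVec, sub_eq_zero]
  have h2 := LinearMap.finrank_range_add_finrank_ker (((g : Matrix ι ι F) - 1).mulVecLin)
  have h3 : finrank F (ι → F) = Fintype.card ι := Module.finrank_fintype_fun_eq_card F
  rw [h3, ← h1] at h2
  have h4 : ((g : Matrix ι ι F) - 1).rank + finrank F (Dickson.fixS g) = Fintype.card ι := h2
  rw [Dickson.chi, neg_one_pow_eq_one_iff_even (by decide)]
  rw [← h4]
  have e : finrank F (Dickson.fixS g) + (((g : Matrix ι ι F) - 1).rank + finrank F (Dickson.fixS g))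
      = ((g : Matrix ι ι F) - 1).rank + 2 * finrank F (Dickson.fixS g) := by ring
  rw [e, Nat.even_add]
  simp


/-- For the hyperbolic quadratic form Σ x_i y_i in dimension 2m over a finite field F of characteristic two, m ≥ 4 (plus type): an element of order 2 of the full isometry group O lies in the commutator subgroup Ω of O exactly when t − 1 has even rank. -/
theorem result {F : Type*} [Field F] [Fintype F] [CharP F 2] {m : ℕ} (hm : 4 ≤ m) (t : ↥(Cfsg.isometryGroup F (Cfsg.quadFormPlus m F))) (ht : orderOf t = 2) :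
    t ∈ Cfsg.Omega F (Cfsg.quadFormPlus m F) ↔ Even ((((t : ↥(Cfsg.isometryGroup F (Cfsg.quadFormPlus m F))) : GL (Fin m ⊕ Fin m) F) : Matrix (Fin m ⊕ Fin m) (Fin m ⊕ Fin m) F) - 1).rank := by
  classical
  have hQ := QuadPlus.quadFormPlus_nondeg (F := F) (m := m) 
  have hn : 1 ≤ Fintype.card (Fin m ⊕ Fin m) := by
    simp
    omega
  have h' : Fintype.card F ≠ 2 ∨ Fintype.card (Fin m ⊕ Fin m) ≠ 4 := by
    right
    simp
    omega
  rw [Cfsg.Omega, QuadClass.comm_eq_dickson_fun hQ hn h', MonoidHom.mem_ker]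
  exact key (t : GL (Fin m ⊕ Fin m) F)

end Cfsg.Agent.S2169
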