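import Cfsg.Statements.S2171
import Cfsg.Agent.Lib.QuadClass
import Cfsg.Agent.Lib.OrthMinus

set_option autoImplicit false
set_option linter.all false
open Cfsg

namespace Cfsg.Agent.S2171


open Matrix Module Cfsg.Agent.Lib

/-- Commutator membership through the rank. -/
theorem key {ι : Type} [Fintype ι] [DecidableEq ι] {F : Type*} [Field F] [Fintype F] (g : GL ι F) :
    Dickson.chi g = 1 ↔ Even (((g : Matrix ι ι F) - 1).rank) := by
  classical
  have h1 : Dickson.fixS g = LinearMap.ker (((g : Matrix ι ι F) - 1).mulVecLin) := by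
    ext x
    rw [Dickson.mem_fixS, LinearMap.mem_ker, Matrix.mulVecLin_apply, Matrix.sub_mulVec, Matrix.one_mulVec, sub_eq_zero]
  have h2 := LinearMap.finrank_range_add_finrank_ker (((g : Matrix ι ι F) - 1).mulVecLin)
  have h3 : finrank F (ι → F) = Fintype.card ι := Module.finrank_fintype_fun_eq_card F
  rw [h3, ← h1] at h2
  have h4 : ((g : Matrix ι ι F) - 1).rank + finrank F (Dickson.fixS g) = Fintype.card ι := h2
  rw [Dickson.chi, neg_one_pow_eq_one_iff_even (by decide)]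
  rw [← h4]
  have e : finrank F (Dickson.fixS g) + (((g : Matrix ι ι F) - 1).rank + finrank F (Dickson.fixS g))
      = ((g : Matrix ι ι F) - 1).rank + 2 * finrank F (Dickson.fixS g) := by ring
  rw [e, Nat.even_add]
  simp


/-- For the quadratic form Σ x_i y_i + (z₁² + c z₁ z₂ + d z₂²) in dimension 2m with anisotropic binary part over a finite field F of characteristic two, m ≥ 4 (minus type): an element of order 2 of the full isometry group O lies in the commutator subgroup Ω of O exactly when t − 1 has even rank. -/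
theorem result {F : Type*} [Field F] [Fintype F] [CharP F 2] {m : ℕ} (hm : 4 ≤ m) (c d : F) (hcd : ∀ z₁ z₂ : F, z₁ ^ 2 + c * z₁ * z₂ + d * z₂ ^ 2 = 0 → z₁ = 0 ∧ z₂ = 0) (t : ↥(Cfsg.isometryGroup F (Cfsg.quadFormMinus (m - 1) F c d))) (ht : orderOf t = 2) :
    t ∈ Cfsg.Omega F (Cfsg.quadFormMinus (m - 1) F c d) ↔ Even ((((t : ↥(Cfsg.isometryGroup F (Cfsg.quadFormMinus (m - 1) F c d))) : GL ((Fin (m - 1) ⊕ Fin (m - 1)) ⊕ Fin 2) F) : Matrix ((Fin (m - 1) ⊕ Fin (m - 1)) ⊕ Fin 2) ((Fin (m - 1) ⊕ Fin (m - 1)) ⊕ Fin 2) F) - 1).rank := by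
  classical
  have hQ := OrthMinus.minus_nondeg (m - 1) c d hcd
  have hn : 1 ≤ Fintype.card ((Fin (m - 1) ⊕ Fin (m - 1)) ⊕ Fin 2) := by
    simp
  have h' : Fintype.card F ≠ 2 ∨ Fintype.card ((Fin (m - 1) ⊕ Fin (m - 1)) ⊕ Fin 2) ≠ 4 := by
    right
    simp
    omega
  rw [Cfsg.Omega, QuadClass.comm_eq_dickson_fun hQ hn h', MonoidHom.mem_ker]
  exact key (t : GL ((Fin (m - 1) ⊕ Fin (m - 1)) ⊕ Fin 2) F)

end Cfsg.Agent.S2171
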