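import Cfsg.Statements.S2268
open Cfsg

namespace Cfsg.Agent.S2268

/-- Let G be a finite group with an abelian Sylow p-subgroup P and let Q ≤ P. Then N_G(Q) = (N_G(Q) ∩ N_G(P))·C_G(Q), so that N_G(Q)/C_G(Q) is a homomorphic image of the subgroup (N_G(Q) ∩ N_G(P))/C_G(P) of N_G(P)/C_G(P); in particular the order of N_G(Q)/C_G(Q) divides the order of N_G(P)/C_G(P). -/
theorem result {G : Type*} [Group G] [Finite G] {p : ℕ} [Fact p.Prime]
    (P : Sylow p G) (hP : IsMulCommutative (P : Subgroup G)) (Q : Subgroup G) (hQ : Q ≤ (P : Subgroup G)) :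
    Subgroup.normalizer (Q : Set G) =
      (Subgroup.normalizer (Q : Set G) ⊓ Subgroup.normalizer ((P : Subgroup G) : Set G)) ⊔ Subgroup.centralizer (Q : Set G) ∧
    ((Subgroup.centralizer (Q : Set G)).subgroupOf (Subgroup.normalizer (Q : Set G))).index ∣ ((Subgroup.centralizer ((P : Subgroup G) : Set G)).subgroupOf (Subgroup.normalizer ((P : Subgroup G) : Set G))).index := by
  classical
  have hPcomm : ∀ a ∈ (P : Subgroup G), ∀ b ∈ (P : Subgroup G), a * b = b * a := by
    intro a ha b hb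
    have := hP.is_comm.comm (⟨a, ha⟩ : (P : Subgroup G)) ⟨b, hb⟩
    exact congrArg Subtype.val this
  set NQ := Subgroup.normalizer (Q : Set G) with hNQ
  set CQ := Subgroup.centralizer (Q : Set G) with hCQ
  set NP := Subgroup.normalizer ((P : Subgroup G) : Set G) with hNP
  set CP := Subgroup.centralizer ((P : Subgroup G) : Set G) with hCP
  have hCQ_le : CQ ≤ NQ := Subgroup.centralizer_le_normalizer _
  have hCP_le : CP ≤ NP := Subgroup.centralizer_le_normalizer _
  have hPCQ : (P : Subgroup G) ≤ CQ := by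
    intro a ha
    rw [hCQ, Subgroup.mem_centralizer_iff]
    intro b hb
    exact hPcomm b (hQ hb) a ha
  have hCPCQ : CP ≤ CQ := by
    intro a ha
    rw [hCQ, Subgroup.mem_centralizer_iff]
    intro b hb
    rw [hCP, Subgroup.mem_centralizer_iff] at ha
    exact ha b (hQ hb)
  have key : ∀ g ∈ NQ, ∃ c ∈ CQ, c * g ∈ NP := by
    intro g hg
    have h2 : ((g • P : Sylow p G) : Subgroup G) ≤ CQ := by
      rintro a ha
      rw [Sylow.smul_def, Sylow.pointwise_smul_def, Subgroup.mem_pointwise_smul_iff_inv_smul_mem] at ha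
      rw [hCQ, Subgroup.mem_centralizer_iff]
      intro b hb
      have hb' : g⁻¹ * b * g ∈ Q := by
        have := (Subgroup.mem_normalizer_iff.1 (NQ.inv_mem hg) b).1 hb
        simpa using this
      have ha' : g⁻¹ * a * g ∈ (P : Subgroup G) := by
        simpa [MulAut.smul_def, MulAut.conj_symm_apply] using ha
      have hc := hPcomm _ (hQ hb') _ ha'
      have e : g⁻¹ * (b * a) * g = g⁻¹ * (a * b) * g := by
        calc g⁻¹ * (b * a) * g = (g⁻¹ * b * g) * (g⁻¹ * a * g) := by group
          _ = (g⁻¹ * a * g) * (g⁻¹ * b * g) := hc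
          _ = g⁻¹ * (a * b) * g := by group
      have := mul_left_cancel (mul_right_cancel e)
      exact this
    obtain ⟨h, hh⟩ := MulAction.exists_smul_eq CQ ((g • P).subtype h2) (P.subtype hPCQ)
    simp_rw [Sylow.smul_subtype, Subgroup.smul_def, smul_smul] at hh
    exact ⟨h, h.2, Sylow.smul_eq_iff_mem_normalizer.mp (Sylow.subtype_injective hh)⟩
  have part1 : NQ = (NQ ⊓ NP) ⊔ CQ := by
    apply le_antisymm
    · intro g hg
      obtain ⟨c, hc, hcg⟩ := key g hg
      have hcgQ : c * g ∈ NQ := NQ.mul_mem (hCQ_le hc) hg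
      have : g = c⁻¹ * (c * g) := by group
      rw [this]
      exact Subgroup.mul_mem _ (Subgroup.mem_sup_right (CQ.inv_mem hc)) (Subgroup.mem_sup_left ⟨hcgQ, hcg⟩)
    · exact sup_le inf_le_left hCQ_le
  refine ⟨part1, ?_⟩
  set M := NQ ⊓ NP with hM
  have hMNQ : M ≤ NQ := inf_le_left
  have hMNP : M ≤ NP := inf_le_right
  have hnQ : (CQ.subgroupOf NQ).Normal := by
    rw [hCQ, hNQ, ← Subgroup.normalizerMonoidHom_ker]; infer_instance
  have hnP : (CP.subgroupOf NP).Normal := by
    rw [hCP, hNP, ← Subgroup.normalizerMonoidHom_ker]; infer_instance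
  have e1 : (CQ.subgroupOf NQ).index = CQ.relIndex M := by
    have h1 := Subgroup.relIndex_sup_right (M.subgroupOf NQ) (CQ.subgroupOf NQ)
    have htop : M.subgroupOf NQ ⊔ CQ.subgroupOf NQ = ⊤ := by
      rw [← Subgroup.subgroupOf_sup hMNQ hCQ_le, ← part1]
      exact Subgroup.subgroupOf_self _
    rw [htop, Subgroup.relIndex_top_right, Subgroup.relIndex_subgroupOf hMNQ] at h1
    exact h1
  have e2 : CP.relIndex M ∣ (CP.subgroupOf NP).index := by
    have h2 := Subgroup.relIndex_dvd_index_of_normal (CP.subgroupOf NP) (M.subgroupOf NP)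
    rwa [Subgroup.relIndex_subgroupOf hMNP] at h2
  rw [e1]
  exact (Subgroup.relIndex_dvd_of_le_left M hCPCQ).trans e2

end Cfsg.Agent.S2268
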