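import Mathlib
import Cfsg.Agent.Lib.AltSyl
import Cfsg.Statements.S2269
-- import your own Cfsg.Agent.* helpers here

set_option autoImplicit false
open Cfsg

namespace Cfsg.Agent.S2269


set_option linter.style.haveILetI false
set_option linter.unusedSectionVars false
set_option linter.unusedVariables false
set_option maxRecDepth 100000

open Equiv Equiv.Perm

section inv

variable {α : Type*} [Fintype α] [DecidableEq α] {p : ℕ} [hp : Fact p.Prime] (Q : Subgroup (Perm α))

/-- Inversion based at a point. -/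
noncomputable def invFun (ω x : α) : α :=
  open Classical in if h : ∃ a ∈ Q, a ω = x then (h.choose)⁻¹ ω else x

variable {Q}

theorem invFun_apply (hcomm : ∀ a ∈ Q, ∀ b ∈ Q, a * b = b * a) {a : Perm α} (ha : a ∈ Q) (ω : α) :
    invFun Q ω (a ω) = a⁻¹ ω := by
  classical
  have h : ∃ c ∈ Q, c ω = a ω := ⟨a, ha, rfl⟩
  unfold invFun
  rw [dif_pos h]
  obtain ⟨hc, hc2⟩ := h.choose_spec
  set c := h.choose with hcdef
  have h1 : (a⁻¹ * c) ω = ω := by
    rw [Perm.mul_apply, hc2]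
    simp
  have h2 : c⁻¹ * a⁻¹ * c = a⁻¹ := by
    have := hcomm a⁻¹ (Q.inv_mem ha) c hc
    rw [mul_assoc, this]
    group
  calc c⁻¹ ω = c⁻¹ ((a⁻¹ * c) ω) := by rw [h1]
    _ = (c⁻¹ * a⁻¹ * c) ω := by simp [Perm.mul_apply]
    _ = a⁻¹ ω := by rw [h2]

theorem invFun_of_not (ω x : α) (h : ¬ ∃ a ∈ Q, a ω = x) : invFun Q ω x = x := by
  classical
  unfold invFun
  rw [dif_neg h]

theorem invFun_invol (hcomm : ∀ a ∈ Q, ∀ b ∈ Q, a * b = b * a) (ω : α) :
    Function.Involutive (invFun Q ω) := by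
  intro x
  by_cases h : ∃ a ∈ Q, a ω = x
  · obtain ⟨a, ha, rfl⟩ := h
    rw [invFun_apply hcomm ha, invFun_apply hcomm (Q.inv_mem ha), inv_inv]
  · rw [invFun_of_not ω x h, invFun_of_not ω x h]

/-- Odd order elements and fixed points. -/
theorem fix_of_sq (hQ : IsPGroup p Q) (hp2 : p ≠ 2) {b : Perm α} (hb : b ∈ Q) {ω : α}
    (h : (b * b) ω = ω) : b ω = ω := by
  obtain ⟨k, hk⟩ := hQ ⟨b, hb⟩
  have hk' : b ^ p ^ k = 1 := congrArg Subtype.val hk
  obtain ⟨m, hm⟩ : Odd (p ^ k) := (hp.out.odd_of_ne_two hp2).pow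
  have h1 : b = (b * b) ^ (m + 1) := by
    rw [← pow_two, ← pow_mul]
    have : 2 * (m + 1) = p ^ k + 1 := by omega
    rw [this, pow_succ, hk', one_mul]
  rw [h1]
  exact Equiv.Perm.pow_apply_eq_self_of_apply_eq_self h (m + 1)

theorem card_orbit_eq (hQ : IsPGroup p Q) (hcard : Fintype.card α < p ^ 2) {ω : α} {b : Perm α}
    (hb : b ∈ Q) (hm : b ω ≠ ω) : Nat.card (MulAction.orbit Q ω) = p := by
  obtain ⟨k, hk⟩ := hQ.card_orbit ω
  have hp' := hp.out
  have hle : Nat.card (MulAction.orbit Q ω) ≤ Fintype.card α := by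
    rw [← Nat.card_eq_fintype_card]
    exact Nat.card_le_card_of_injective _ Subtype.val_injective
  have hk1 : k ≤ 1 := by
    by_contra h
    have h1 : p ^ 2 ≤ p ^ k := Nat.pow_le_pow_right hp'.pos (by omega)
    omega
  have hk0 : k ≠ 0 := by
    intro h0
    rw [h0, pow_zero] at hk
    have hs : Subsingleton (MulAction.orbit Q ω) := (Nat.card_eq_one_iff_unique.1 hk).1
    have h1 : (⟨b ω, ⟨⟨b, hb⟩, rfl⟩⟩ : MulAction.orbit Q ω) = ⟨ω, MulAction.mem_orbit_self ω⟩ := Subsingleton.elim _ _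
    exact hm (congrArg Subtype.val h1)
  have : k = 1 := by omega
  rw [hk, this, pow_one]

theorem mem_orbit_iff {ω x : α} : x ∈ MulAction.orbit Q ω ↔ ∃ a ∈ Q, a ω = x := by
  constructor
  · rintro ⟨⟨a, ha⟩, rfl⟩
    exact ⟨a, ha, rfl⟩
  · rintro ⟨a, ha, rfl⟩
    exact ⟨⟨a, ha⟩, rfl⟩

/-- The main construction of an even element. -/
theorem exists_even (hcomm : ∀ a ∈ Q, ∀ b ∈ Q, a * b = b * a) (hQ : IsPGroup p Q) (hp2 : p ≠ 2)
    (hcard : Fintype.card α < p ^ 2) {ω₁ ω₂ : α} {b₁ b₂ : Perm α} (hb₁ : b₁ ∈ Q) (hb₂ : b₂ ∈ Q)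
    (hm₁ : b₁ ω₁ ≠ ω₁) (hm₂ : b₂ ω₂ ≠ ω₂) (hdis : ¬ ∃ a ∈ Q, a ω₁ = ω₂) :
    ∃ G : Perm α, G * G = 1 ∧ Perm.sign G = 1 ∧ (∀ b ∈ Q, ∀ c ∈ Q, (G * b * G) * c = c * (G * b * G)) ∧
      ∃ b ∈ Q, G * b * G ≠ b := by
  classical
  have hdisj : ∀ a ∈ Q, ∀ c ∈ Q, a ω₁ ≠ c ω₂ := by
    intro a ha c hc he
    apply hdis
    refine ⟨c⁻¹ * a, Q.mul_mem (Q.inv_mem hc) ha, ?_⟩
    rw [Perm.mul_apply, he]
    simp
  set f₁ : Perm α := (invFun_invol hcomm ω₁).toPerm _ with hf₁
  set f₂ : Perm α := (invFun_invol hcomm ω₂).toPerm _ with hf₂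
  have hf₁a : ∀ a ∈ Q, f₁ (a ω₁) = a⁻¹ ω₁ := fun a ha => invFun_apply hcomm ha ω₁
  have hf₂a : ∀ a ∈ Q, f₂ (a ω₂) = a⁻¹ ω₂ := fun a ha => invFun_apply hcomm ha ω₂
  have hf₁n : ∀ x, (¬ ∃ a ∈ Q, a ω₁ = x) → f₁ x = x := fun x h => invFun_of_not ω₁ x h
  have hf₂n : ∀ x, (¬ ∃ a ∈ Q, a ω₂ = x) → f₂ x = x := fun x h => invFun_of_not ω₂ x h
  set G := f₁ * f₂ with hG
  have hG1 : ∀ a ∈ Q, G (a ω₁) = a⁻¹ ω₁ := by
    intro a ha
    rw [hG, Perm.mul_apply, hf₂n, hf₁a a ha]
    rintro ⟨c, hc, he⟩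
    exact hdisj a ha c hc he.symm
  have hG2 : ∀ a ∈ Q, G (a ω₂) = a⁻¹ ω₂ := by
    intro a ha
    rw [hG, Perm.mul_apply, hf₂a a ha, hf₁n]
    rintro ⟨c, hc, he⟩
    exact hdisj c hc a⁻¹ (Q.inv_mem ha) he
  have hG3 : ∀ x, (¬ ∃ a ∈ Q, a ω₁ = x) → (¬ ∃ a ∈ Q, a ω₂ = x) → G x = x := by
    intro x h1 h2
    rw [hG, Perm.mul_apply, hf₂n x h2, hf₁n x h1]
  have hGG : G * G = 1 := by
    ext x
    rw [Perm.mul_apply]
    by_cases h1 : ∃ a ∈ Q, a ω₁ = x
    · obtain ⟨a, ha, rfl⟩ := h1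
      rw [hG1 a ha, hG1 _ (Q.inv_mem ha), inv_inv]; rfl
    by_cases h2 : ∃ a ∈ Q, a ω₂ = x
    · obtain ⟨a, ha, rfl⟩ := h2
      rw [hG2 a ha, hG2 _ (Q.inv_mem ha), inv_inv]; rfl
    rw [hG3 x h1 h2, hG3 x h1 h2]; rfl
  -- the conjugation formula
  have hC1 : ∀ b ∈ Q, ∀ a ∈ Q, (G * b * G) (a ω₁) = b⁻¹ (a ω₁) := by
    intro b hb a ha
    have h1 : (G * b * G) (a ω₁) = G (b (a⁻¹ ω₁)) := by
      rw [Perm.mul_apply, Perm.mul_apply, hG1 a ha]
    have h2 : b (a⁻¹ ω₁) = (b * a⁻¹) ω₁ := rfl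
    rw [h1, h2, hG1 _ (Q.mul_mem hb (Q.inv_mem ha))]
    have h3 : (b * a⁻¹)⁻¹ = b⁻¹ * a := by
      rw [mul_inv_rev, inv_inv]
      exact hcomm a ha b⁻¹ (Q.inv_mem hb)
    rw [h3]; rfl
  have hC2 : ∀ b ∈ Q, ∀ a ∈ Q, (G * b * G) (a ω₂) = b⁻¹ (a ω₂) := by
    intro b hb a ha
    have h1 : (G * b * G) (a ω₂) = G (b (a⁻¹ ω₂)) := by
      rw [Perm.mul_apply, Perm.mul_apply, hG2 a ha]
    have h2 : b (a⁻¹ ω₂) = (b * a⁻¹) ω₂ := rfl
    rw [h1, h2, hG2 _ (Q.mul_mem hb (Q.inv_mem ha))]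
    have h3 : (b * a⁻¹)⁻¹ = b⁻¹ * a := by
      rw [mul_inv_rev, inv_inv]
      exact hcomm a ha b⁻¹ (Q.inv_mem hb)
    rw [h3]; rfl
  have hstable1 : ∀ b ∈ Q, ∀ x, (¬ ∃ a ∈ Q, a ω₁ = x) → ¬ ∃ a ∈ Q, a ω₁ = b x := by
    intro b hb x h ⟨a, ha, he⟩
    apply h
    refine ⟨b⁻¹ * a, Q.mul_mem (Q.inv_mem hb) ha, ?_⟩
    rw [Perm.mul_apply, he]
    simp
  have hstable2 : ∀ b ∈ Q, ∀ x, (¬ ∃ a ∈ Q, a ω₂ = x) → ¬ ∃ a ∈ Q, a ω₂ = b x := by
    intro b hb x h ⟨a, ha, he⟩
    apply h
    refine ⟨b⁻¹ * a, Q.mul_mem (Q.inv_mem hb) ha, ?_⟩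
    rw [Perm.mul_apply, he]
    simp
  have hC3 : ∀ b ∈ Q, ∀ x, (¬ ∃ a ∈ Q, a ω₁ = x) → (¬ ∃ a ∈ Q, a ω₂ = x) → (G * b * G) x = b x := by
    intro b hb x h1 h2
    rw [Perm.mul_apply, Perm.mul_apply, hG3 x h1 h2, hG3 _ (hstable1 b hb x h1) (hstable2 b hb x h2)]
  refine ⟨G, hGG, ?_, ?_, ?_⟩
  · -- the sign
    have hsq : G ^ 2 = 1 := by rw [pow_two, hGG]
    rw [Equiv.Perm.sign_of_pow_two_eq_one hsq]
    -- the support
    let O₁ : Finset α := Finset.univ.filter (fun x => x ∈ MulAction.orbit Q ω₁)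
    let O₂ : Finset α := Finset.univ.filter (fun x => x ∈ MulAction.orbit Q ω₂)
    have hO₁ : O₁.card = p := by
      rw [← card_orbit_eq hQ hcard hb₁ hm₁, Nat.card_eq_fintype_card, Fintype.card_subtype]
    have hO₂ : O₂.card = p := by
      rw [← card_orbit_eq hQ hcard hb₂ hm₂, Nat.card_eq_fintype_card, Fintype.card_subtype]
    have hsupp : G.support = O₁.erase ω₁ ∪ O₂.erase ω₂ := by
      ext x
      rw [Perm.mem_support, Finset.mem_union, Finset.mem_erase, Finset.mem_erase]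
      simp only [O₁, O₂, Finset.mem_filter, Finset.mem_univ, true_and, mem_orbit_iff]
      constructor
      · intro h
        by_contra hcon
        push Not at hcon
        by_cases h1 : ∃ a ∈ Q, a ω₁ = x
        · have hx := hcon.1
          by_cases hxω : x = ω₁
          · subst hxω
            apply h
            have := hG1 1 Q.one_mem
            simpa using this
          · obtain ⟨a, ha, he⟩ := h1
            exact hx hxω a ha he
        · by_cases h2 : ∃ a ∈ Q, a ω₂ = x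
          · by_cases hxω : x = ω₂
            · subst hxω
              apply h
              have := hG2 1 Q.one_mem
              simpa using this
            · obtain ⟨a, ha, he⟩ := h2
              exact hcon.2 hxω a ha he
          · exact h (hG3 x h1 h2)
      · rintro (⟨hne, a, ha, rfl⟩ | ⟨hne, a, ha, rfl⟩)
        · intro he
          rw [hG1 a ha] at he
          apply hne
          apply fix_of_sq hQ hp2 ha
          have h9 : a (a⁻¹ ω₁) = ω₁ := a.apply_symm_apply ω₁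
          rw [he] at h9
          exact h9
        · intro he
          rw [hG2 a ha] at he
          apply hne
          apply fix_of_sq hQ hp2 ha
          have h9 : a (a⁻¹ ω₂) = ω₂ := a.apply_symm_apply ω₂
          rw [he] at h9
          exact h9
    have hdisj' : Disjoint (O₁.erase ω₁) (O₂.erase ω₂) := by
      rw [Finset.disjoint_left]
      intro x hx1 hx2
      have hx1' := (Finset.mem_filter.1 (Finset.mem_erase.1 hx1).2).2
      have hx2' := (Finset.mem_filter.1 (Finset.mem_erase.1 hx2).2).2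
      obtain ⟨a, ha, rfl⟩ := mem_orbit_iff.1 hx1'
      obtain ⟨c, hc, he⟩ := mem_orbit_iff.1 hx2'
      exact hdisj a ha c hc he.symm
    have hmem1 : ω₁ ∈ O₁ := by
      simp only [O₁, Finset.mem_filter, Finset.mem_univ, true_and]
      exact MulAction.mem_orbit_self ω₁
    have hmem2 : ω₂ ∈ O₂ := by
      simp only [O₂, Finset.mem_filter, Finset.mem_univ, true_and]
      exact MulAction.mem_orbit_self ω₂
    have hfixc : Fintype.card α - Fintype.card ↑(Function.fixedPoints G) = G.support.card := by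
      have h1 : Fintype.card ↑(Function.fixedPoints G) = G.supportᶜ.card := by
        rw [← Set.toFinset_card]
        congr 1
        ext x
        simp [Function.IsFixedPt]
      rw [h1, Finset.card_compl]
      have := Finset.card_le_univ G.support
      omega
    rw [hfixc, hsupp, Finset.card_union_of_disjoint hdisj', Finset.card_erase_of_mem hmem1,
      Finset.card_erase_of_mem hmem2, hO₁, hO₂]
    have hodd : Odd p := hp.out.odd_of_ne_two hp2
    obtain ⟨m, hm⟩ := hodd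
    have h4 : (p - 1 + (p - 1)) / 2 = 2 * m := by omega
    rw [h4, pow_mul]
    simp
  · intro b hb c hc
    ext x
    show (G * b * G) (c x) = c ((G * b * G) x)
    by_cases h1 : ∃ a ∈ Q, a ω₁ = x
    · obtain ⟨a, ha, rfl⟩ := h1
      have h3 : c (a ω₁) = (c * a) ω₁ := rfl
      rw [h3, hC1 b hb _ (Q.mul_mem hc ha), hC1 b hb a ha]
      have h4 : b⁻¹ * c = c * b⁻¹ := hcomm _ (Q.inv_mem hb) _ hc
      calc b⁻¹ ((c * a) ω₁) = (b⁻¹ * c) (a ω₁) := rfl
        _ = (c * b⁻¹) (a ω₁) := by rw [h4]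
        _ = c (b⁻¹ (a ω₁)) := rfl
    by_cases h2 : ∃ a ∈ Q, a ω₂ = x
    · obtain ⟨a, ha, rfl⟩ := h2
      have h3 : c (a ω₂) = (c * a) ω₂ := rfl
      rw [h3, hC2 b hb _ (Q.mul_mem hc ha), hC2 b hb a ha]
      have h4 : b⁻¹ * c = c * b⁻¹ := hcomm _ (Q.inv_mem hb) _ hc
      calc b⁻¹ ((c * a) ω₂) = (b⁻¹ * c) (a ω₂) := rfl
        _ = (c * b⁻¹) (a ω₂) := by rw [h4]
        _ = c (b⁻¹ (a ω₂)) := rfl
    rw [hC3 b hb x h1 h2, hC3 b hb _ (hstable1 c hc x h1) (hstable2 c hc x h2)]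
    have h4 : b * c = c * b := hcomm _ hb _ hc
    calc b (c x) = (b * c) x := rfl
      _ = (c * b) x := by rw [h4]
      _ = c (b x) := rfl
  · refine ⟨b₁, hb₁, fun he => hm₁ ?_⟩
    have h1 := hC1 b₁ hb₁ 1 Q.one_mem
    rw [he] at h1
    simp only [Perm.one_apply] at h1
    apply fix_of_sq hQ hp2 hb₁
    have : b₁ (b₁ ω₁) = b₁ (b₁⁻¹ ω₁) := by rw [h1]
    simpa using this

theorem cyclic_of_one_orbit (hcomm : ∀ a ∈ Q, ∀ b ∈ Q, a * b = b * a) (hQ : IsPGroup p Q)
    (hcard : Fintype.card α < p ^ 2)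
    (hno : ∀ ω₁ ω₂ : α, ∀ b₁ ∈ Q, ∀ b₂ ∈ Q, b₁ ω₁ ≠ ω₁ → b₂ ω₂ ≠ ω₂ → ∃ a ∈ Q, a ω₁ = ω₂) :
    IsCyclic Q := by
  classical
  by_cases hmv : ∃ ω, ∃ b ∈ Q, b ω ≠ ω
  · obtain ⟨ω, b, hb, hm⟩ := hmv
    have hc := card_orbit_eq hQ hcard hb hm
    let φ : Q → MulAction.orbit Q ω := fun a => ⟨(a : Perm α) ω, ⟨a, rfl⟩⟩
    have hinj : Function.Injective φ := by
      intro a c hac
      have h1 : (a : Perm α) ω = (c : Perm α) ω := congrArg Subtype.val hac
      apply Subtype.ext
      ext x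
      by_cases hx : ∃ d ∈ Q, d x ≠ x
      · obtain ⟨d, hd, hdx⟩ := hx
        obtain ⟨e, he, rfl⟩ := hno ω x b hb d hd hm hdx
        have h2 : (a : Perm α) * e = e * a := hcomm _ a.2 _ he
        have h3 : (c : Perm α) * e = e * c := hcomm _ c.2 _ he
        calc (a : Perm α) (e ω) = ((a : Perm α) * e) ω := rfl
          _ = (e * a) ω := by rw [h2]
          _ = e ((a : Perm α) ω) := rfl
          _ = e ((c : Perm α) ω) := by rw [h1]
          _ = (e * c) ω := rfl
          _ = ((c : Perm α) * e) ω := by rw [h3]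
          _ = (c : Perm α) (e ω) := rfl
      · push Not at hx
        rw [hx a a.2, hx c c.2]
    have hsurj : Function.Surjective φ := by
      rintro ⟨x, ⟨a, rfl⟩⟩
      exact ⟨a, rfl⟩
    have hcQ : Nat.card Q = p := by
      rw [← hc]
      exact Nat.card_congr (Equiv.ofBijective φ ⟨hinj, hsurj⟩)
    exact isCyclic_of_prime_card hcQ
  · push Not at hmv
    have : Subsingleton Q := by
      refine ⟨fun a c => ?_⟩
      apply Subtype.ext
      ext x
      rw [hmv x a a.2, hmv x c c.2]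
    exact isCyclic_of_subsingleton

end inv

section final

variable {n : ℕ} {p : ℕ} [hp : Fact p.Prime]

abbrev AA (n : ℕ) := ↥(alternatingGroup (Fin n))

/-- The general part. -/
theorem odd_case (hp2 : p ≠ 2) (hlt : n < p ^ 2) (P : Sylow p (AA n)) (hP : IsMulCommutative (P : Subgroup (AA n))) :
    2 ∣ ((Subgroup.centralizer ((P : Subgroup (AA n)) : Set (AA n))).subgroupOf (Subgroup.normalizer ((P : Subgroup (AA n)) : Set (AA n)))).index ∨ IsCyclic (P : Subgroup (AA n)) := by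
  classical
  set A := alternatingGroup (Fin n) with hA
  set Q : Subgroup (Perm (Fin n)) := (P : Subgroup (AA n)).map A.subtype with hQdef
  have hPeq : (P : Subgroup (AA n)) ≃* Q := (P : Subgroup (AA n)).equivMapOfInjective A.subtype A.subtype_injective
  have hQ : IsPGroup p Q := P.isPGroup'.map A.subtype
  have hcomm : ∀ a ∈ Q, ∀ b ∈ Q, a * b = b * a := by
    rintro _ ⟨a, ha, rfl⟩ _ ⟨b, hb, rfl⟩
    have := mul_comm' (⟨a, ha⟩ : (P : Subgroup (AA n))) ⟨b, hb⟩
    have h2 : a * b = b * a := congrArg Subtype.val this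
    exact congrArg Subtype.val h2
  have hcard : Fintype.card (Fin n) < p ^ 2 := by simpa using hlt
  by_cases hno : ∀ ω₁ ω₂ : Fin n, ∀ b₁ ∈ Q, ∀ b₂ ∈ Q, b₁ ω₁ ≠ ω₁ → b₂ ω₂ ≠ ω₂ → ∃ a ∈ Q, a ω₁ = ω₂
  · right
    haveI := cyclic_of_one_orbit hcomm hQ hcard hno
    exact isCyclic_of_surjective hPeq.symm hPeq.symm.surjective
  left
  push Not at hno
  obtain ⟨ω₁, ω₂, b₁, hb₁, b₂, hb₂, hm₁, hm₂, hdis⟩ := hno
  obtain ⟨G, hGG, hsign, hcm, b, hb, hbne⟩ := exists_even hcomm hQ hp2 hcard hb₁ hb₂ hm₁ hm₂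
    (by rintro ⟨a, ha, he⟩; exact hdis a ha he)
  have hGinv : G⁻¹ = G := inv_eq_of_mul_eq_one_left hGG
  let g : AA n := ⟨G, hsign⟩
  have hgg : g * g = 1 := Subtype.ext hGG
  have hginv : g⁻¹ = g := inv_eq_of_mul_eq_one_left hgg
  let P' : Subgroup (AA n) := (P : Subgroup (AA n)).map (MulAut.conj g).toMonoidHom
  have hP'p : IsPGroup p P' := P.isPGroup'.map _
  have hP'comm : ∀ x ∈ P', ∀ y ∈ (P : Subgroup (AA n)), x * y = y * x := by
    rintro _ ⟨x, hx, rfl⟩ y hy
    apply Subtype.ext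
    have h1 := hcm x ⟨x, hx, rfl⟩ y ⟨y, hy, rfl⟩
    have h2 : ((MulAut.conj g).toMonoidHom x : AA n) = g * x * g⁻¹ := rfl
    rw [h2, hginv]
    exact h1
  have hnorm : (P : Subgroup (AA n)) ≤ Subgroup.normalizer (P' : Set (AA n)) := by
    intro y hy
    rw [Subgroup.mem_normalizer_iff]
    intro x
    constructor
    · intro hx
      have := hP'comm x hx y hy
      have h1 : y * x * y⁻¹ = x := by rw [← this, mul_inv_cancel_right]
      rw [h1]; exact hx
    · intro hx
      have := hP'comm _ hx y hy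
      have h2 : y * x * y⁻¹ = x := by
        have h3 : y * x * y⁻¹ * y = y * (y * x * y⁻¹) := this
        have h4 : y * x = y * (y * x * y⁻¹) := by simpa using h3
        have h5 := mul_left_cancel h4
        exact h5.symm
      rwa [h2] at hx
  have hsup : IsPGroup p ↥((P : Subgroup (AA n)) ⊔ P') := IsPGroup.to_sup_of_normal_right' P.isPGroup' hP'p hnorm
  have hmax : (P : Subgroup (AA n)) ⊔ P' = P := P.is_maximal' hsup le_sup_left
  have hP'le : P' ≤ P := by
    rw [← hmax]; exact le_sup_right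
  have hgP : ∀ y ∈ (P : Subgroup (AA n)), g * y * g⁻¹ ∈ (P : Subgroup (AA n)) := by
    intro y hy
    exact hP'le ⟨y, hy, rfl⟩
  have hgN : g ∈ Subgroup.normalizer ((P : Subgroup (AA n)) : Set (AA n)) := by
    apply Cfsg.Agent.Lib.AltSyl.mem_normalizer_of hgP
    intro y hy
    have := hgP y hy
    rwa [hginv] at this ⊢
  set N := Subgroup.normalizer ((P : Subgroup (AA n)) : Set (AA n)) with hN
  set C := Subgroup.centralizer ((P : Subgroup (AA n)) : Set (AA n)) with hC
  haveI hKn : (C.subgroupOf N).Normal := by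
    constructor
    rintro ⟨c, hc⟩ hcK ⟨u, hu⟩
    rw [Subgroup.mem_subgroupOf] at hcK ⊢
    show u * c * u⁻¹ ∈ C
    rw [hC, Subgroup.mem_centralizer_iff]
    intro h hh
    have hu1 : u⁻¹ * h * u ∈ (P : Subgroup (AA n)) := by
      have h1 := (Subgroup.mem_normalizer_iff.1 (N.inv_mem hu)) h
      have h2 := h1.1 hh
      simpa using h2
    have h3 := (Subgroup.mem_centralizer_iff.1 hcK) _ hu1
    have h4 : u * (u⁻¹ * h * u) * u⁻¹ = h := by group
    calc h * (u * c * u⁻¹) = u * ((u⁻¹ * h * u) * c) * u⁻¹ := by group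
      _ = u * (c * (u⁻¹ * h * u)) * u⁻¹ := by rw [h3]
      _ = u * c * u⁻¹ * h := by group
  let x : N ⧸ C.subgroupOf N := QuotientGroup.mk ⟨g, hgN⟩
  have hx2 : x ^ 2 = 1 := by
    have : ((⟨g, hgN⟩ : N) ^ 2) = 1 := by
      apply Subtype.ext
      show g ^ 2 = 1
      rw [pow_two, hgg]
    show (QuotientGroup.mk ⟨g, hgN⟩ : N ⧸ C.subgroupOf N) ^ 2 = 1
    rw [← QuotientGroup.mk_pow, this]; rfl
  have hx1 : x ≠ 1 := by
    intro h
    have h1 := (QuotientGroup.eq_one_iff _).1 h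
    rw [Subgroup.mem_subgroupOf] at h1
    have h2 : g ∈ C := h1
    apply hbne
    obtain ⟨y, hy, rfl⟩ := hb
    have h3 := (Subgroup.mem_centralizer_iff.1 h2) y hy
    have h4 : g * y * g = y := by
      calc g * y * g = y * g * g := by rw [← h3]
        _ = y * (g * g) := by group
        _ = y := by rw [hgg, mul_one]
    exact congrArg Subtype.val h4
  haveI : Fact (Nat.Prime 2) := ⟨Nat.prime_two⟩
  have hord : orderOf x = 2 := orderOf_eq_prime hx2 hx1
  have hdvd := orderOf_dvd_natCard x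
  rw [hord] at hdvd
  rwa [Subgroup.index_eq_card]

/-- Checking the case of degree five. -/
theorem check5 : ∀ a : AA 5, a ^ 2 = 1 → a ≠ 1 → ∀ b : AA 5, b ^ 2 = 1 → b ≠ 1 → a ≠ b → a * b = b * a →
    (Finset.univ.filter (fun g : AA 5 => (g * a * g⁻¹ = a ∨ g * a * g⁻¹ = b ∨ g * a * g⁻¹ = a * b) ∧
      (g * b * g⁻¹ = a ∨ g * b * g⁻¹ = b ∨ g * b * g⁻¹ = a * b))).card = 12 ∧
    (Finset.univ.filter (fun g : AA 5 => g * a * g⁻¹ = a ∧ g * b * g⁻¹ = b)).card = 4 := by
  decide +kernel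

theorem exp2_5 : ∀ x : AA 5, x ^ 4 = 1 → x ^ 2 = 1 := by decide +kernel

theorem card_A5 : Nat.card (AA 5) = 60 := by
  rw [Nat.card_eq_fintype_card]; decide +kernel

theorem five_case (P : Sylow 2 (AA 5)) :
    ((Subgroup.centralizer ((P : Subgroup (AA 5)) : Set (AA 5))).subgroupOf (Subgroup.normalizer ((P : Subgroup (AA 5)) : Set (AA 5)))).index = 3 ∧ IsKleinFour (P : Subgroup (AA 5)) := by
  classical
  haveI : Fact (Nat.Prime 2) := ⟨Nat.prime_two⟩
  have hcard : Nat.card ↥(P : Subgroup (AA 5)) = 4 := by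
    have h1 : 2 ^ 2 ∣ Nat.card ↥(P : Subgroup (AA 5)) :=
      P.pow_dvd_card_of_pow_dvd_card (by rw [card_A5]; norm_num)
    have h2 : Nat.card ↥(P : Subgroup (AA 5)) ∣ 60 := card_A5 ▸ Subgroup.card_subgroup_dvd_card _
    obtain ⟨k, hk⟩ := IsPGroup.iff_card.1 P.isPGroup'
    rw [hk] at h1 h2 ⊢
    have hk2 : k ≤ 2 := by
      by_contra hcon
      push Not at hcon
      have h3 : 2 ^ 3 ∣ 2 ^ k := pow_dvd_pow 2 hcon
      have := h3.trans h2
      omega
    have hk3 : 2 ≤ k := (Nat.pow_dvd_pow_iff_le_right (by norm_num)).1 h1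
    have : k = 2 := by omega
    rw [this]; norm_num
  have hexp : ∀ x ∈ (P : Subgroup (AA 5)), x ^ 2 = 1 := by
    intro x hx
    apply exp2_5
    have := pow_card_eq_one' (x := (⟨x, hx⟩ : ↥(P : Subgroup (AA 5))))
    rw [hcard] at this
    exact congrArg Subtype.val this
  have hklein : IsKleinFour (P : Subgroup (AA 5)) := by
    refine ⟨hcard, ?_⟩
    haveI : Nontrivial ↥(P : Subgroup (AA 5)) := Finite.one_lt_card_iff_nontrivial.1 (by omega)
    rw [Monoid.exponent_eq_prime_iff Nat.prime_two]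
    intro g hg
    apply orderOf_eq_prime _ hg
    apply Subtype.ext
    exact hexp g.1 g.2
  refine ⟨?_, hklein⟩
  -- elements
  have hexT : ∀ T : Finset (AA 5), T.card < 4 → ∃ u ∈ (P : Subgroup (AA 5)), u ∉ T := by
    intro T hT
    by_contra h
    push Not at h
    have h1 : ((P : Subgroup (AA 5)) : Set (AA 5)) ⊆ (T : Set (AA 5)) := fun u hu => h u hu
    have h2 : ((P : Subgroup (AA 5)) : Set (AA 5)).ncard ≤ T.card := by
      calc _ ≤ (T : Set (AA 5)).ncard := Set.ncard_le_ncard h1 T.finite_toSet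
        _ = T.card := Set.ncard_coe_finset T
    have h3 : Nat.card ↥(P : Subgroup (AA 5)) = ((P : Subgroup (AA 5)) : Set (AA 5)).ncard := Nat.card_coe_set_eq _
    omega
  obtain ⟨a, ha, ha1⟩ := hexT {1} (by simp)
  obtain ⟨b, hb, hb1⟩ := hexT {1, a} (by
    have := Finset.card_le_two (a := (1 : AA 5)) (b := a)
    omega)
  simp only [Finset.mem_singleton, Finset.mem_insert, not_or] at ha1 hb1
  have hcommP : ∀ x ∈ (P : Subgroup (AA 5)), ∀ y ∈ (P : Subgroup (AA 5)), x * y = y * x := by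
    intro x hx y hy
    have h1 : (x * y) * (x * y) = 1 := by
      have := hexp _ ((P : Subgroup (AA 5)).mul_mem hx hy)
      rwa [pow_two] at this
    have hx2 : x * x = 1 := by rw [← pow_two]; exact hexp x hx
    have hy2 : y * y = 1 := by rw [← pow_two]; exact hexp y hy
    calc x * y = x * y * ((x * y) * (x * y)) := by rw [h1, mul_one]
      _ = (x * (y * x) * y) * (x * y) := by group
      _ = y * x := by
        have h5 : x⁻¹ = x := inv_eq_of_mul_eq_one_left hx2
        have h6 : y⁻¹ = y := inv_eq_of_mul_eq_one_left hy2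
        have h7 : (x * y)⁻¹ = x * y := inv_eq_of_mul_eq_one_left h1
        rw [mul_inv_rev, h5, h6] at h7
        rw [h7]
        calc x * (x * y) * y * (x * y) = (x * x) * (y * y) * (x * y) := by group
          _ = x * y := by rw [hx2, hy2]; group
          _ = _ := by
            rw [← h7]
  have hab : a ≠ b := fun h => hb1.2 h.symm
  have hcm := hcommP a ha b hb
  have hmain := check5 a (hexp a ha) ha1 b (hexp b hb) hb1.1 hab hcm
  have hab1 : a * b ≠ 1 := by
    intro h
    apply hab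
    have h2 := hexp b hb
    rw [pow_two] at h2
    calc a = a * (b * b) := by rw [h2, mul_one]
      _ = (a * b) * b := by group
      _ = b := by rw [h, one_mul]
  have habx : a * b ≠ a := fun h => hb1.1 (by simpa using h)
  have haby : a * b ≠ b := fun h => ha1 (by simpa using h)
  have hall : ∀ h ∈ (P : Subgroup (AA 5)), h = 1 ∨ h = a ∨ h = b ∨ h = a * b := by
    let T : Finset (AA 5) := {1, a, b, a * b}
    have hT : T.card = 4 := by
      rw [Finset.card_insert_of_notMem, Finset.card_insert_of_notMem, Finset.card_insert_of_notMem, Finset.card_singleton]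
      · simpa using haby.symm
      · simp only [Finset.mem_insert, Finset.mem_singleton, not_or]
        exact ⟨hab, habx.symm⟩
      · simp only [Finset.mem_insert, Finset.mem_singleton, not_or]
        exact ⟨(ne_comm.1 ha1), (ne_comm.1 hb1.1), hab1.symm⟩
    have hsub : (T : Set (AA 5)) ⊆ ((P : Subgroup (AA 5)) : Set (AA 5)) := by
      intro u hu
      simp only [T, Finset.coe_insert, Finset.coe_singleton, Set.mem_insert_iff, Set.mem_singleton_iff] at hu
      rcases hu with rfl | rfl | rfl | rfl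
      · exact Subgroup.one_mem _
      · exact ha
      · exact hb
      · exact Subgroup.mul_mem _ ha hb
    have heq : (T : Set (AA 5)) = ((P : Subgroup (AA 5)) : Set (AA 5)) := by
      apply Set.eq_of_subset_of_ncard_le hsub
      rw [Set.ncard_coe_finset, hT]
      have : Nat.card ↥(P : Subgroup (AA 5)) = ((P : Subgroup (AA 5)) : Set (AA 5)).ncard := Nat.card_coe_set_eq _
      omega
    intro h hh
    have : h ∈ (T : Set (AA 5)) := by rw [heq]; exact hh
    simpa [T] using this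
  -- normalizer description
  have hNiff : ∀ g : AA 5, g ∈ Subgroup.normalizer ((P : Subgroup (AA 5)) : Set (AA 5)) ↔
      ((g * a * g⁻¹ = a ∨ g * a * g⁻¹ = b ∨ g * a * g⁻¹ = a * b) ∧
      (g * b * g⁻¹ = a ∨ g * b * g⁻¹ = b ∨ g * b * g⁻¹ = a * b)) := by
    intro g
    constructor
    · intro hg
      have h0 := Subgroup.mem_normalizer_iff.1 hg
      have key : ∀ y ∈ (P : Subgroup (AA 5)), y ≠ 1 → (g * y * g⁻¹ = a ∨ g * y * g⁻¹ = b ∨ g * y * g⁻¹ = a * b) := by
        intro y hy hy1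
        rcases hall _ ((h0 y).1 hy) with h | h | h | h
        · exfalso
          apply hy1
          have : y = g⁻¹ * (g * y * g⁻¹) * g := by group
          rw [this, h]; group
        · exact Or.inl h
        · exact Or.inr (Or.inl h)
        · exact Or.inr (Or.inr h)
      exact ⟨key a ha ha1, key b hb hb1.1⟩
    · rintro ⟨h1, h2⟩
      have hfw : ∀ y ∈ (P : Subgroup (AA 5)), g * y * g⁻¹ ∈ (P : Subgroup (AA 5)) := by
        have h1' : g * a * g⁻¹ ∈ (P : Subgroup (AA 5)) := by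
          rcases h1 with h | h | h <;> rw [h]
          · exact ha
          · exact hb
          · exact Subgroup.mul_mem _ ha hb
        have h2' : g * b * g⁻¹ ∈ (P : Subgroup (AA 5)) := by
          rcases h2 with h | h | h <;> rw [h]
          · exact ha
          · exact hb
          · exact Subgroup.mul_mem _ ha hb
        intro y hy
        rcases hall y hy with rfl | rfl | rfl | rfl
        · simp [Subgroup.one_mem]
        · exact h1'
        · exact h2'
        · have : g * (a * b) * g⁻¹ = (g * a * g⁻¹) * (g * b * g⁻¹) := by group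
          rw [this]; exact Subgroup.mul_mem _ h1' h2'
      rw [Subgroup.mem_normalizer_iff]
      intro y
      refine ⟨hfw y, fun hy => ?_⟩
      -- injective on a finite set
      have hmap : ((P : Subgroup (AA 5))).map (MulAut.conj g).toMonoidHom = (P : Subgroup (AA 5)) := by
        apply Subgroup.eq_of_le_of_card_ge
        · rintro _ ⟨z, hz, rfl⟩
          exact hfw z hz
        · rw [Subgroup.card_map_of_injective (MulAut.conj g).injective]
      rw [← hmap] at hy
      obtain ⟨z, hz, he⟩ := hy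
      have h3 : g * z * g⁻¹ = g * y * g⁻¹ := he
      have h4 : z = y := by simpa using h3
      rwa [← h4]
  have hCiff : ∀ g : AA 5, g ∈ Subgroup.centralizer ((P : Subgroup (AA 5)) : Set (AA 5)) ↔
      (g * a * g⁻¹ = a ∧ g * b * g⁻¹ = b) := by
    intro g
    rw [Subgroup.mem_centralizer_iff]
    constructor
    · intro h
      have h1 := h a ha
      have h2 := h b hb
      constructor
      · rw [← h1]; group
      · rw [← h2]; group
    · rintro ⟨h1, h2⟩ y hy
      have h1' : a * g = g * a := by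
        calc a * g = (g * a * g⁻¹) * g := by rw [h1]
          _ = g * a := by group
      have h2' : b * g = g * b := by
        calc b * g = (g * b * g⁻¹) * g := by rw [h2]
          _ = g * b := by group
      rcases hall y hy with rfl | rfl | rfl | rfl
      · simp
      · exact h1'
      · exact h2'
      · calc a * b * g = a * (b * g) := by group
          _ = a * (g * b) := by rw [h2']
          _ = (a * g) * b := by group
          _ = (g * a) * b := by rw [h1']
          _ = g * (a * b) := by group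
  have hNc : Nat.card (Subgroup.normalizer ((P : Subgroup (AA 5)) : Set (AA 5))) = 12 := by
    rw [← hmain.1, Nat.card_eq_fintype_card, Fintype.card_subtype]
    congr 1
    ext g
    simp only [Finset.mem_filter, Finset.mem_univ, true_and]
    exact hNiff g
  have hCc : Nat.card (Subgroup.centralizer ((P : Subgroup (AA 5)) : Set (AA 5))) = 4 := by
    rw [← hmain.2, Nat.card_eq_fintype_card, Fintype.card_subtype]
    congr 1
    ext g
    simp only [Finset.mem_filter, Finset.mem_univ, true_and]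
    exact hCiff g
  have hCN : Subgroup.centralizer ((P : Subgroup (AA 5)) : Set (AA 5)) ≤ Subgroup.normalizer ((P : Subgroup (AA 5)) : Set (AA 5)) := by
    intro g hg
    rw [hNiff]
    rw [hCiff] at hg
    exact ⟨Or.inl hg.1, Or.inr (Or.inl hg.2)⟩
  have hmul := ((Subgroup.centralizer ((P : Subgroup (AA 5)) : Set (AA 5))).subgroupOf (Subgroup.normalizer ((P : Subgroup (AA 5)) : Set (AA 5)))).card_mul_index
  have hsubc : Nat.card ↥((Subgroup.centralizer ((P : Subgroup (AA 5)) : Set (AA 5))).subgroupOf (Subgroup.normalizer ((P : Subgroup (AA 5)) : Set (AA 5)))) = 4 := by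
    rw [← hCc]
    exact Nat.card_congr (Subgroup.subgroupOfEquivOfLe hCN).toEquiv
  rw [hsubc, hNc] at hmul
  omega

end final


/-- Let n ≥ 5 and let P be an abelian Sylow p-subgroup of the alternating group A_n. Then N(P)/C(P) (taken in A_n) has even order, or P is cyclic, except when n = 5 and p = 2, where P is a four-group and N(P)/C(P) has order 3. -/
theorem result (n : ℕ) (hn : 5 ≤ n) {p : ℕ} [Fact p.Prime]
    (P : Sylow p (alternatingGroup (Fin n))) (hP : IsMulCommutative (P : Subgroup (alternatingGroup (Fin n)))) :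
    (¬ (n = 5 ∧ p = 2) → 2 ∣ ((Subgroup.centralizer ((P : Subgroup (alternatingGroup (Fin n))) : Set (alternatingGroup (Fin n)))).subgroupOf (Subgroup.normalizer ((P : Subgroup (alternatingGroup (Fin n))) : Set (alternatingGroup (Fin n))))).index ∨ IsCyclic (P : Subgroup (alternatingGroup (Fin n)))) ∧
    ((n = 5 ∧ p = 2) → ((Subgroup.centralizer ((P : Subgroup (alternatingGroup (Fin n))) : Set (alternatingGroup (Fin n)))).subgroupOf (Subgroup.normalizer ((P : Subgroup (alternatingGroup (Fin n))) : Set (alternatingGroup (Fin n))))).index = 3 ∧ IsKleinFour (P : Subgroup (alternatingGroup (Fin n)))) := by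
  have hcases : ¬ (n = 5 ∧ p = 2) → p ≠ 2 ∧ n < p ^ 2 := by
    intro hne
    have hlt : n < p ^ 2 := by
      by_cases h6 : 6 ≤ n
      · exact (Cfsg.Agent.Lib.AltSyl.main n p h6 P).1 hP
      · have h5 : n = 5 := by omega
        have hp2 : p ≠ 2 := fun h => hne ⟨h5, h⟩
        have hp3 : 3 ≤ p := by
          have := (Fact.out : p.Prime).two_le
          omega
        calc n = 5 := h5
          _ < 3 ^ 2 := by norm_num
          _ ≤ p ^ 2 := Nat.pow_le_pow_left hp3 2
    refine ⟨?_, hlt⟩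
    intro hp2
    subst hp2
    have h6 : n ≠ 5 := fun h => hne ⟨h, rfl⟩
    omega
  refine ⟨?_, ?_⟩
  · intro hne
    obtain ⟨hp2, hlt⟩ := hcases hne
    exact odd_case hp2 hlt P hP
  · rintro ⟨rfl, rfl⟩
    exact five_case P

end Cfsg.Agent.S2269
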