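import Cfsg.Statements.S2270
open Cfsg

namespace Cfsg.Agent.S2270

/-- Let n ≥ 3, p an odd prime, and P an abelian Sylow p-subgroup of the symmetric group S_n (with p dividing n!, so that P ≠ 1). Then N(P)/C(P) has even order. -/
theorem result (n : ℕ) (hn : 3 ≤ n) {p : ℕ} [Fact p.Prime] (hp : p ≠ 2) (hpn : p ≤ n)
    (P : Sylow p (Equiv.Perm (Fin n))) (hP : IsMulCommutative (P : Subgroup (Equiv.Perm (Fin n)))) :
    2 ∣ ((Subgroup.centralizer ((P : Subgroup (Equiv.Perm (Fin n))) : Set (Equiv.Perm (Fin n)))).subgroupOf (Subgroup.normalizer ((P : Subgroup (Equiv.Perm (Fin n))) : Set (Equiv.Perm (Fin n))))).index := by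
  classical
  have hpp : p.Prime := Fact.out
  have hdvd : p ∣ Nat.card (Equiv.Perm (Fin n)) := by
    rw [Nat.card_eq_fintype_card, Fintype.card_perm, Fintype.card_fin]
    exact Nat.dvd_factorial hpp.pos hpn
  have hdP : p ∣ Nat.card (P : Subgroup (Equiv.Perm (Fin n))) := P.dvd_card_of_dvd_card hdvd
  obtain ⟨x, hx⟩ := exists_prime_orderOf_dvd_card' p hdP
  have hxP : (x : Equiv.Perm (Fin n)) ∈ (P : Subgroup (Equiv.Perm (Fin n))) := x.2
  have hxo : orderOf (x : Equiv.Perm (Fin n)) = p := by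
    rw [Subgroup.orderOf_coe]; exact hx
  set X : Equiv.Perm (Fin n) := (x : Equiv.Perm (Fin n)) with hX
  have hconj : IsConj X X⁻¹ := by
    rw [Equiv.Perm.isConj_iff_cycleType_eq, Equiv.Perm.cycleType_inv]
  obtain ⟨g, hg⟩ := isConj_iff.1 hconj
  -- g * X * g⁻¹ = X⁻¹
  have hy : g⁻¹⁻¹ * X * g⁻¹ ∈ (P : Subgroup (Equiv.Perm (Fin n))) := by
    rw [inv_inv, hg]; exact Subgroup.inv_mem _ hxP
  obtain ⟨m, hm, hmx⟩ := P.conj_eq_normalizer_conj_of_mem X g⁻¹ hxP hy
  have hmx' : m⁻¹ * X * m = X⁻¹ := by rw [← hmx, inv_inv, hg]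
  set N := Subgroup.normalizer ((P : Subgroup (Equiv.Perm (Fin n))) : Set (Equiv.Perm (Fin n))) with hN
  set C := Subgroup.centralizer ((P : Subgroup (Equiv.Perm (Fin n))) : Set (Equiv.Perm (Fin n))) with hC
  have hnP : (C.subgroupOf N).Normal := by
    rw [hC, hN, ← Subgroup.normalizerMonoidHom_ker]; infer_instance
  have hpow : ∀ k : ℕ, (m ^ k)⁻¹ * X * m ^ k = if Even k then X else X⁻¹ := by
    intro k
    induction k with
    | zero => simp
    | succ k ih =>
      have : (m ^ (k + 1))⁻¹ * X * m ^ (k + 1) = m⁻¹ * ((m ^ k)⁻¹ * X * m ^ k) * m := by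
        rw [pow_succ]; group
      rw [this, ih]
      by_cases hk : Even k
      · simp only [hk, if_true]
        rw [hmx']
        simp [Nat.even_add_one, hk]
      · simp only [hk, if_false]
        have e : m⁻¹ * X⁻¹ * m = X := by
          have h := congrArg (fun z => z⁻¹) hmx'
          simpa [mul_assoc] using h
        rw [e]
        simp [Nat.even_add_one, hk]
  by_contra h2
  have hodd : ¬ Even (C.subgroupOf N).index := fun h => h2 h.two_dvd
  have hmem : (⟨m, hm⟩ : N) ^ (C.subgroupOf N).index ∈ C.subgroupOf N := Subgroup.pow_index_mem _ _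
  have hmem' : m ^ (C.subgroupOf N).index ∈ C := by
    have := Subgroup.mem_subgroupOf.1 hmem
    simpa using this
  have hc : X * m ^ (C.subgroupOf N).index = m ^ (C.subgroupOf N).index * X := by
    rw [hC, Subgroup.mem_centralizer_iff] at hmem'
    exact hmem' X hxP
  have h3 := hpow (C.subgroupOf N).index
  simp only [hodd, if_false] at h3
  have h4 : (m ^ (C.subgroupOf N).index)⁻¹ * X * m ^ (C.subgroupOf N).index = X := by
    rw [mul_assoc, hc]; group
  rw [h4] at h3
  -- X = X⁻¹ so X ^ 2 = 1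
  have h5 : X ^ 2 = 1 := by
    rw [pow_two]
    nth_rewrite 1 [h3]
    simp
  have h6 : orderOf X ∣ 2 := orderOf_dvd_of_pow_eq_one h5
  rw [hxo] at h6
  exact hp ((Nat.prime_dvd_prime_iff_eq hpp Nat.prime_two).1 h6)

end Cfsg.Agent.S2270
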