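import Cfsg.Statements.S2352
import Mathlib

set_option autoImplicit false
open Cfsg

namespace Cfsg.Agent.S2352


open Equiv

theorem exists_perm {X : Type*} [Fintype X] [DecidableEq X] (R : X → X → Prop)
    (hf : ∀ x y y', R x y → R x y' → y = y') (hi : ∀ x x' y, R x y → R x' y → x = x') :
    ∃ σ : Perm X, ∀ x y, R x y → σ x = y := by
  classical
  let φ : {x // ∃ y, R x y} → {y // ∃ x, R x y} := fun x => ⟨x.2.choose, x.1, x.2.choose_spec⟩
  have hφ : Function.Bijective φ := by
    constructor
    · rintro ⟨x, hx⟩ ⟨x', hx'⟩ h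
      apply Subtype.ext
      have h1 : hx.choose = hx'.choose := congrArg Subtype.val h
      exact hi x x' _ hx.choose_spec (h1 ▸ hx'.choose_spec)
    · rintro ⟨y, x, hxy⟩
      refine ⟨⟨x, y, hxy⟩, ?_⟩
      apply Subtype.ext
      exact hf x _ _ (Exists.choose_spec (⟨y, hxy⟩ : ∃ y, R x y)) hxy
  let e := Equiv.ofBijective φ hφ
  refine ⟨e.extendSubtype, ?_⟩
  intro x y hxy
  have hx : ∃ y, R x y := ⟨y, hxy⟩
  rw [Equiv.extendSubtype_apply_of_mem e x hx]
  exact hf x _ _ hx.choose_spec hxy

theorem exists_even {X : Type*} [Fintype X] [DecidableEq X] (R : X → X → Prop)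
    (hf : ∀ x y y', R x y → R x y' → y = y') (hi : ∀ x x' y, R x y → R x' y → x = x')
    (u v : X) (huv : u ≠ v) (hu : ∀ y, ¬ R u y) (hv : ∀ y, ¬ R v y) :
    ∃ σ : alternatingGroup X, ∀ x y, R x y → (σ : Perm X) x = y := by
  obtain ⟨σ, hσ⟩ := exists_perm R hf hi
  by_cases h : Perm.sign σ = 1
  · exact ⟨⟨σ, h⟩, hσ⟩
  · refine ⟨⟨σ * swap u v, ?_⟩, ?_⟩
    · rw [Perm.mem_alternatingGroup, map_mul, Perm.sign_swap huv]
      rcases Int.units_eq_one_or (Perm.sign σ) with h1 | h1
      · exact absurd h1 h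
      · rw [h1]; rfl
    · intro x y hxy
      have h1 : x ≠ u := by rintro rfl; exact hu _ hxy
      have h2 : x ≠ v := by rintro rfl; exact hv _ hxy
      show σ (swap u v x) = y
      rw [swap_apply_of_ne_of_ne h1 h2]
      exact hσ x y hxy

theorem path {X : Type*} (f : ℕ → Perm X) (pt : ℕ → X) : ∀ (L : List (ℕ × Bool)) (c : ℕ),
    (∀ k (hk : k < L.length), (cond L[k].2 (f L[k].1) (f L[k].1)⁻¹) (pt (c + k + 1)) = pt (c + k)) →
    (List.prod (L.map fun x => cond x.2 (f x.1) (f x.1)⁻¹)) (pt (c + L.length)) = pt c := by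
  intro L
  induction L with
  | nil =>
    intro c _
    simp
  | cons a L ih =>
    intro c h
    rw [List.map_cons, List.prod_cons, Perm.mul_apply]
    have h0 := h 0 (by simp)
    have h1 := ih (c + 1) (fun k hk => by
      have := h (k + 1) (by simpa using hk)
      simpa [add_assoc, add_comm, add_left_comm] using this)
    have e1 : c + (a :: L).length = c + 1 + L.length := by simp; ring
    rw [e1, h1]
    simpa using h0


/-- A non-trivial law holds in only finitely many alternating groups: for every non-trivial element w of the free group on countably many generators there is N such that for all n ≥ N some substitution of elements of the alternating group of degree n into w is not the identity. -/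
theorem result (w : FreeGroup ℕ) (hw : w ≠ 1) :
    ∃ N : ℕ, ∀ n : ℕ, N ≤ n → ∃ f : ℕ → alternatingGroup (Fin n), FreeGroup.lift f w ≠ 1 := by
  classical
  set L := w.toWord with hL
  have hLne : L ≠ [] := by
    rw [Ne, hL, FreeGroup.toWord_eq_nil_iff]
    exact hw
  have hred : FreeGroup.IsReduced L := FreeGroup.isReduced_toWord
  have hchain := List.isChain_iff_getElem.1 hred
  have hlen : 1 ≤ L.length := List.length_pos_iff.2 hLne
  refine ⟨L.length + 3, ?_⟩
  intro n hn
  -- the relation of generator `g`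
  let R : ℕ → Fin n → Fin n → Prop := fun g x y => ∃ (k : ℕ) (hk : k < L.length), L[k].1 = g ∧
    ((L[k].2 = true ∧ x.val = k + 1 ∧ y.val = k) ∨ (L[k].2 = false ∧ x.val = k ∧ y.val = k + 1))
  have hadj : ∀ (k : ℕ) (h1 : k + 1 < L.length), L[k].1 = L[k + 1].1 → L[k].2 = L[k + 1].2 := fun k h1 => hchain k h1
  have hσ : ∀ g, ∃ σ : alternatingGroup (Fin n), ∀ x y, R g x y → (σ : Perm (Fin n)) x = y := by
    intro g
    apply exists_even (R g) ?_ ?_ (⟨L.length + 1, by omega⟩ : Fin n) ⟨L.length + 2, by omega⟩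
    · simp [Fin.ext_iff]
    · rintro y ⟨k, hk, -, ⟨-, h1, -⟩ | ⟨-, h1, -⟩⟩ <;> (simp only at h1; omega)
    · rintro y ⟨k, hk, -, ⟨-, h1, -⟩ | ⟨-, h1, -⟩⟩ <;> (simp only at h1; omega)
    · rintro x y y' ⟨k, hk, hg, ⟨hb, h1, h2⟩ | ⟨hb, h1, h2⟩⟩ ⟨k', hk', hg', ⟨hb', h1', h2'⟩ | ⟨hb', h1', h2'⟩⟩
      · apply Fin.ext; omega
      · exfalso
        obtain rfl : k' = k + 1 := by omega
        have := hadj k hk' (hg.trans hg'.symm)
        rw [hb, hb'] at this
        simp at this
      · exfalso
        obtain rfl : k = k' + 1 := by omega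
        have := hadj k' hk (hg'.trans hg.symm)
        rw [hb, hb'] at this
        simp at this
      · apply Fin.ext; omega
    · rintro x x' y ⟨k, hk, hg, ⟨hb, h1, h2⟩ | ⟨hb, h1, h2⟩⟩ ⟨k', hk', hg', ⟨hb', h1', h2'⟩ | ⟨hb', h1', h2'⟩⟩
      · apply Fin.ext; omega
      · exfalso
        obtain rfl : k = k' + 1 := by omega
        have := hadj k' hk (hg'.trans hg.symm)
        rw [hb, hb'] at this
        simp at this
      · exfalso
        obtain rfl : k' = k + 1 := by omega
        have := hadj k hk' (hg.trans hg'.symm)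
        rw [hb, hb'] at this
        simp at this
      · apply Fin.ext; omega
  choose f hf using hσ
  refine ⟨f, ?_⟩
  intro h1
  -- evaluate
  have hn0 : 0 < n := by omega
  let pt : ℕ → Fin n := fun k => ⟨k % n, Nat.mod_lt _ hn0⟩
  have hpt : ∀ k, k < n → (pt k).val = k := fun k hk => Nat.mod_eq_of_lt hk
  let φ := (alternatingGroup (Fin n)).subtype
  have h2 : φ (FreeGroup.lift f w) = FreeGroup.lift (fun g => φ (f g)) w := by
    have : (FreeGroup.lift (fun g => φ (f g))) = φ.comp (FreeGroup.lift f) := by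
      ext i
      simp
    rw [this]
    rfl
  have h3 : FreeGroup.lift (fun g => φ (f g)) w = 1 := by
    rw [← h2, h1, map_one]
  have h4 := path (fun g => φ (f g)) pt L 0 (by
    intro k hk
    have hk1 : k + 1 < n := by omega
    have hk2 : k < n := by omega
    by_cases hb : L[k].2 = true
    · simp only [hb, cond_true]
      apply hf
      refine ⟨k, hk, rfl, Or.inl ⟨hb, ?_, ?_⟩⟩
      · rw [hpt _ (by omega)]; omega
      · rw [hpt _ (by omega)]; omega
    · have hb' : L[k].2 = false := by simpa using hb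
      simp only [hb', cond_false]
      rw [Perm.inv_eq_iff_eq]
      symm
      apply hf
      refine ⟨k, hk, rfl, Or.inr ⟨hb', ?_, ?_⟩⟩
      · rw [hpt _ (by omega)]; omega
      · rw [hpt _ (by omega)]; omega)
  have h4' : (FreeGroup.lift (fun g => φ (f g)) (FreeGroup.mk L)) (pt (0 + L.length)) = pt 0 := by
    rw [FreeGroup.lift_mk]; exact h4
  have e : FreeGroup.mk L = w := FreeGroup.mk_toWord
  rw [e, h3] at h4'
  have h5 := congrArg Fin.val h4'
  simp only [Perm.one_apply] at h5
  rw [hpt _ (by omega), hpt _ (by omega)] at h5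
  omega

end Cfsg.Agent.S2352
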