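import Cfsg.Statements.S2353
import Mathlib

set_option autoImplicit false
open Cfsg

namespace Cfsg.Agent.S2353


open Polynomial

section poly
variable {F : Type*} [Field F]

/-- first column of the generic word -/
noncomputable def col : List (ℕ × Bool) → F[X] × F[X]
  | [] => (1, 0)
  | (i, true) :: L =>
      ((col L).1 + X ^ (i + 1) * ((col L).2 + X ^ (i + 1) * (col L).1),
        (col L).2 + X ^ (i + 1) * (col L).1)
  | (i, false) :: L =>
      ((col L).1 - X ^ (i + 1) * (col L).2,
        (col L).2 - X ^ (i + 1) * ((col L).1 - X ^ (i + 1) * (col L).2))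

/-- the degree invariant -/
def Inv : List (ℕ × Bool) → F[X] × F[X] → Prop
  | [], _ => True
  | (i, true) :: _, p => (p.1 - X ^ (i + 1) * p.2).degree < p.2.degree
  | (i, false) :: _, p => (p.2 + X ^ (i + 1) * p.1).degree < p.1.degree

theorem deg_step {a b d : F[X]} (hd : 1 ≤ d.degree) (h : a.degree < b.degree) :
    b.degree < (a + d * b).degree := by
  have hb : b ≠ 0 := by
    rintro rfl
    simp at h
  have hd0 : d ≠ 0 := by
    rintro rfl
    simp at hd
  have h1 : (d * b).degree = (d.natDegree + b.natDegree : ℕ) := by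
    rw [degree_mul, degree_eq_natDegree hd0, degree_eq_natDegree hb]
    norm_cast
  have h2 : 1 ≤ d.natDegree := by
    rw [degree_eq_natDegree hd0] at hd
    exact_mod_cast hd
  have h3 : b.degree = b.natDegree := degree_eq_natDegree hb
  have h4 : (b.natDegree : WithBot ℕ) < (d.natDegree + b.natDegree : ℕ) := by
    norm_cast; omega
  rw [degree_add_eq_right_of_degree_lt, h1, h3]
  · exact h4
  · rw [h1]
    exact h.trans (by rw [h3]; exact h4)

theorem deg_X_pow (e : ℕ) (he : 1 ≤ e) : (1 : WithBot ℕ) ≤ (X ^ e : F[X]).degree := by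
  rw [degree_X_pow]
  exact_mod_cast he

theorem deg_neg_X_pow (e : ℕ) (he : 1 ≤ e) : (1 : WithBot ℕ) ≤ (-X ^ e : F[X]).degree := by
  rw [degree_neg]
  exact deg_X_pow e he

theorem deg_pow_sub {e e' : ℕ} (he : 1 ≤ e) (he' : 1 ≤ e') (hne : e ≠ e') :
    (1 : WithBot ℕ) ≤ (X ^ e - X ^ e' : F[X]).degree := by
  rcases lt_or_gt_of_ne hne with h | h
  · rw [degree_sub_eq_right_of_degree_lt]
    · exact deg_X_pow e' he'
    · rw [degree_X_pow, degree_X_pow]
      exact_mod_cast h
  · rw [degree_sub_eq_left_of_degree_lt]
    · exact deg_X_pow e he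
    · rw [degree_X_pow, degree_X_pow]
      exact_mod_cast h

theorem tt {u v : F[X]} {e e' : ℕ} (he : 1 ≤ e) (he' : 1 ≤ e')
    (h : (u - X ^ e' * v).degree < v.degree) : u.degree < (v + X ^ e * u).degree := by
  apply deg_step (deg_X_pow e he)
  have := deg_step (deg_X_pow e' he') h
  rwa [sub_add_cancel] at this

theorem tf {u v : F[X]} {e e' : ℕ} (he : 1 ≤ e) (he' : 1 ≤ e') (hne : e ≠ e')
    (h : (v + X ^ e' * u).degree < u.degree) : u.degree < (v + X ^ e * u).degree := by
  have := deg_step (deg_pow_sub he he' hne) h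
  have e1 : v + X ^ e' * u + (X ^ e - X ^ e') * u = v + X ^ e * u := by ring
  rwa [e1] at this

theorem ff {u v : F[X]} {e e' : ℕ} (he : 1 ≤ e) (he' : 1 ≤ e')
    (h : (v + X ^ e' * u).degree < u.degree) : v.degree < (u - X ^ e * v).degree := by
  have h1 := deg_step (deg_neg_X_pow e' he') h
  have e1 : v + X ^ e' * u + (-X ^ e') * u = v := by ring
  rw [e1] at h1
  have h2 := deg_step (deg_neg_X_pow e he) h1
  have e2 : u + (-X ^ e) * v = u - X ^ e * v := by ring
  rwa [e2] at h2

theorem ft {u v : F[X]} {e e' : ℕ} (he : 1 ≤ e) (he' : 1 ≤ e') (hne : e ≠ e')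
    (h : (u - X ^ e' * v).degree < v.degree) : v.degree < (u - X ^ e * v).degree := by
  have := deg_step (deg_pow_sub he' he hne.symm) h
  have e1 : u - X ^ e' * v + (X ^ e' - X ^ e) * v = u - X ^ e * v := by ring
  rwa [e1] at this

theorem inv_col : ∀ L : List (ℕ × Bool), FreeGroup.IsReduced L → Inv L (col (F := F) L) := by
  intro L
  induction L with
  | nil => intro _; trivial
  | cons a L ih =>
    intro hL
    obtain ⟨i, b⟩ := a
    have hL' : FreeGroup.IsReduced L := List.IsChain.tail hL
    have ih' := ih hL'
    cases b with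
    | true =>
      show ((col L).1 + X ^ (i + 1) * ((col L).2 + X ^ (i + 1) * (col L).1)
        - X ^ (i + 1) * ((col L).2 + X ^ (i + 1) * (col L).1)).degree <
        ((col L).2 + X ^ (i + 1) * (col L).1).degree
      rw [add_sub_cancel_right]
      match L, hL, ih' with
      | [], _, _ =>
        apply deg_step (deg_X_pow _ (by omega))
        simp [col]
      | (j, true) :: L₀, _, h =>
        exact tt (e' := j + 1) (by omega) (by omega) h
      | (j, false) :: L₀, hL, h =>
        have hne : i ≠ j := by
          intro hij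
          subst hij
          have := (FreeGroup.isReduced_cons_cons.1 hL).1 rfl
          simp at this
        exact tf (e' := j + 1) (by omega) (by omega) (by omega) h
    | false =>
      show ((col L).2 - X ^ (i + 1) * ((col L).1 - X ^ (i + 1) * (col L).2)
        + X ^ (i + 1) * ((col L).1 - X ^ (i + 1) * (col L).2)).degree <
        ((col L).1 - X ^ (i + 1) * (col L).2).degree
      rw [sub_add_cancel]
      match L, hL, ih' with
      | [], _, _ =>
        simp [col]
      | (j, false) :: L₀, _, h =>
        exact ff (e' := j + 1) (by omega) (by omega) h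
      | (j, true) :: L₀, hL, h =>
        have hne : i ≠ j := by
          intro hij
          subst hij
          have := (FreeGroup.isReduced_cons_cons.1 hL).1 rfl
          simp at this
        exact ft (e' := j + 1) (by omega) (by omega) (by omega) h

theorem col_snd_ne_zero : ∀ L : List (ℕ × Bool), L ≠ [] → FreeGroup.IsReduced L →
    (col (F := F) L).2 ≠ 0 := by
  intro L hne hL
  have h := inv_col (F := F) L hL
  match L, hne, h with
  | (i, true) :: L₀, _, h =>
    have h' : ((col (F := F) ((i, true) :: L₀)).1 - X ^ (i + 1) * (col ((i, true) :: L₀)).2).degree <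
      (col ((i, true) :: L₀)).2.degree := h
    intro h0
    rw [h0] at h'
    simp at h'
  | (i, false) :: L₀, _, h =>
    have h' : ((col (F := F) ((i, false) :: L₀)).2 + X ^ (i + 1) * (col ((i, false) :: L₀)).1).degree <
      (col ((i, false) :: L₀)).1.degree := h
    intro h0
    rw [h0] at h'
    have h1 : (col (F := F) ((i, false) :: L₀)).1 ≠ 0 := by
      intro h2
      rw [h2] at h'
      simp at h'
    have h3 : (X ^ (i + 1) * (col (F := F) ((i, false) :: L₀)).1).degree < (col (F := F) ((i, false) :: L₀)).1.degree := by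
      simpa using h'
    have h4 := deg_step (a := 0) (b := (col (F := F) ((i, false) :: L₀)).1) (deg_X_pow (i + 1) (by omega)) (by
      rw [degree_zero]; exact bot_lt_iff_ne_bot.2 (by
        rw [Ne, degree_eq_bot]; exact h1))
    rw [zero_add] at h4
    exact lt_asymm h3 h4

/-- degree budget of a word -/
def budget (L : List (ℕ × Bool)) : ℕ := (L.map fun x => 2 * (x.1 + 1)).sum

theorem col_natDegree : ∀ L : List (ℕ × Bool),
    (col (F := F) L).1.natDegree ≤ budget L ∧ (col (F := F) L).2.natDegree ≤ budget L := by
  intro L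
  have hX : ∀ (e : ℕ) (p : F[X]) (m : ℕ), p.natDegree ≤ m → (X ^ e * p).natDegree ≤ e + m := by
    intro e p m h
    refine natDegree_mul_le.trans ?_
    rw [natDegree_X_pow]
    omega
  induction L with
  | nil => simp [col, budget]
  | cons a L ih =>
    obtain ⟨i, b⟩ := a
    obtain ⟨h1, h2⟩ := ih
    have hb : budget ((i, b) :: L) = 2 * (i + 1) + budget L := by simp [budget]
    rw [hb]
    cases b with
    | true =>
      have h3 : ((col L).2 + X ^ (i + 1) * (col (F := F) L).1).natDegree ≤ i + 1 + budget L :=
        (natDegree_add_le _ _).trans (max_le (by omega) (hX _ _ _ h1))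
      constructor
      · show ((col L).1 + X ^ (i + 1) * ((col L).2 + X ^ (i + 1) * (col (F := F) L).1)).natDegree ≤ _
        refine (natDegree_add_le _ _).trans (max_le (by omega) ?_)
        refine (hX _ _ _ h3).trans (by omega)
      · exact h3.trans (by omega)
    | false =>
      have h3 : ((col L).1 - X ^ (i + 1) * (col (F := F) L).2).natDegree ≤ i + 1 + budget L :=
        (natDegree_sub_le _ _).trans (max_le (by omega) (hX _ _ _ h2))
      constructor
      · exact h3.trans (by omega)
      · show ((col L).2 - X ^ (i + 1) * ((col L).1 - X ^ (i + 1) * (col (F := F) L).2)).natDegree ≤ _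
        refine (natDegree_sub_le _ _).trans (max_le (by omega) ?_)
        refine (hX _ _ _ h3).trans (by omega)

/-- the substitution -/
def xx (a : F) (i : ℕ) : Matrix.SpecialLinearGroup (Fin 2) F :=
  ⟨!![1 + a ^ (i + 1) * a ^ (i + 1), a ^ (i + 1); a ^ (i + 1), 1], by
    simp [Matrix.det_fin_two_of]⟩

theorem xx_inv (a : F) (i : ℕ) : ((xx a i)⁻¹ : Matrix.SpecialLinearGroup (Fin 2) F).1 =
    !![1, -a ^ (i + 1); -a ^ (i + 1), 1 + a ^ (i + 1) * a ^ (i + 1)] := by
  rw [Matrix.SpecialLinearGroup.coe_inv, Matrix.adjugate_fin_two]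
  simp [xx]

theorem word_col (a : F) : ∀ L : List (ℕ × Bool),
    (List.prod (L.map fun x => cond x.2 (xx a x.1) (xx a x.1)⁻¹)).1 0 0 = ((col L).1).eval a ∧
    (List.prod (L.map fun x => cond x.2 (xx a x.1) (xx a x.1)⁻¹)).1 1 0 = ((col L).2).eval a := by
  intro L
  induction L with
  | nil => simp [col]
  | cons x L ih =>
    obtain ⟨i, b⟩ := x
    obtain ⟨h1, h2⟩ := ih
    rw [List.map_cons, List.prod_cons]
    cases b with
    | true =>
      simp only [cond_true]
      rw [Matrix.SpecialLinearGroup.coe_mul]
      simp only [Matrix.mul_apply, Fin.sum_univ_two, h1, h2]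
      simp only [xx, col, eval_add, eval_mul, eval_pow, eval_X, Matrix.of_apply, Matrix.cons_val', Matrix.cons_val_zero, Matrix.cons_val_one, Matrix.cons_val_fin_one]
      constructor <;> ring
    | false =>
      simp only [cond_false]
      rw [Matrix.SpecialLinearGroup.coe_mul, xx_inv]
      simp only [Matrix.mul_apply, Fin.sum_univ_two, h1, h2]
      simp only [col, eval_add, eval_sub, eval_mul, eval_pow, eval_X, Matrix.of_apply, Matrix.cons_val', Matrix.cons_val_zero, Matrix.cons_val_one, Matrix.cons_val_fin_one]
      constructor <;> ring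

end poly


/-- A non-trivial law holds in PSL_2 over only finitely many finite fields: for every non-trivial element w of the free group on countably many generators there is N such that over every finite field with at least N elements some substitution of elements of PSL_2 into w is not the identity. -/
theorem result (w : FreeGroup ℕ) (hw : w ≠ 1) :
    ∃ N : ℕ, ∀ (F : Type*) [Field F] [Fintype F], N ≤ Fintype.card F →
      ∃ f : ℕ → Matrix.ProjectiveSpecialLinearGroup (Fin 2) F, FreeGroup.lift f w ≠ 1 := by
  refine ⟨budget w.toWord + 1, ?_⟩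
  intro F _ _ hN
  classical
  have hL : w.toWord ≠ [] := by
    rw [Ne, FreeGroup.toWord_eq_nil_iff]
    exact hw
  have hne := col_snd_ne_zero (F := F) w.toWord hL FreeGroup.isReduced_toWord
  obtain ⟨a, ha⟩ := exists_eval_ne_zero_of_natDegree_lt_card (col (F := F) w.toWord).2 hne (by
    have := (col_natDegree (F := F) w.toWord).2
    rw [Cardinal.mk_fintype]
    exact_mod_cast (by omega : (col (F := F) w.toWord).2.natDegree < Fintype.card F))
  let π : Matrix.SpecialLinearGroup (Fin 2) F →* Matrix.ProjectiveSpecialLinearGroup (Fin 2) F :=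
    QuotientGroup.mk' _
  refine ⟨fun i => π (xx a i), ?_⟩
  intro h1
  have h2 : FreeGroup.lift (fun i => π (xx a i)) w = π (FreeGroup.lift (xx a) w) := by
    have : (FreeGroup.lift (fun i => π (xx a i))) = π.comp (FreeGroup.lift (xx a)) := by
      ext i
      simp
    rw [this]
    rfl
  rw [h2] at h1
  have h3 : FreeGroup.lift (xx a) w ∈ Subgroup.center (Matrix.SpecialLinearGroup (Fin 2) F) := by
    have := (QuotientGroup.eq_one_iff _).1 h1
    exact this
  rw [Matrix.SpecialLinearGroup.mem_center_iff] at h3
  obtain ⟨r, -, hr⟩ := h3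
  have h4 := (word_col a w.toWord).2
  rw [← FreeGroup.lift_mk, FreeGroup.mk_toWord] at h4
  rw [← hr] at h4
  apply ha
  rw [← h4]
  simp

end Cfsg.Agent.S2353
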