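import Cfsg.Statements.S2355
import Cfsg.Agent.Lib.LawFam
import Cfsg.Agent.Lib.SLNormal
import Cfsg.Agent.S2352
import Cfsg.Agent.S2353

set_option autoImplicit false
open Cfsg

namespace Cfsg.Agent.S2355


open Matrix Equiv Cfsg Cfsg.Agent.Lib.LawFam

section
variable {w : FreeGroup ℕ}

theorem card_quot_le {K : Type*} [Group K] [Finite K] (N : Subgroup K) : Nat.card (K ⧸ N) ≤ Nat.card K :=
  Nat.card_le_card_of_surjective _ (QuotientGroup.mk_surjective (s := N))

theorem card_matrix_le {K ι F : Type*} [Fintype ι] [DecidableEq ι] [Fintype F] (e : K → Matrix ι ι F)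
    (he : Function.Injective e) : Nat.card K ≤ Fintype.card F ^ (Fintype.card ι * Fintype.card ι) := by
  classical
  have h1 : Nat.card K ≤ Nat.card (Matrix ι ι F) := Nat.card_le_card_of_injective e he
  refine h1.trans (le_of_eq ?_)
  rw [Nat.card_eq_fintype_card]
  show Fintype.card (ι → ι → F) = _
  rw [Fintype.card_fun, Fintype.card_fun, ← pow_mul]

theorem pow_bound {s S d D : ℕ} (hs : s ≤ S) (hs1 : 1 ≤ s) (hd : d ≤ D) : s ^ (d * d) ≤ S ^ (D * D) :=
  (Nat.pow_le_pow_left hs _).trans (Nat.pow_le_pow_right (by omega) (Nat.mul_le_mul hd hd))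

theorem no_law_G {G H Big : Type*} [Group G] [Group H] [Group Big]
    (e : G ≃* Big ⧸ Subgroup.center Big) (hlaw : ∀ f : ℕ → G, FreeGroup.lift f w = 1)
    (ψ : H →* Big) (hψ : Function.Injective ψ) (hH : ∃ f : ℕ → H, FreeGroup.lift f w ∉ Subgroup.center H) :
    False := by
  obtain ⟨f, hf⟩ := hH
  obtain ⟨f', hf'⟩ := no_law ψ hψ w f hf
  exact hf' (law_transfer e w hlaw f')

theorem exists_big_a {F : Type*} [Field F] [Fintype F] (h : 4 ≤ Fintype.card F) :
    ∃ a : F, a ≠ 0 ∧ a ^ 2 ≠ 1 := by
  classical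
  have hlt : ({0, 1, -1} : Finset F).card < (Finset.univ : Finset F).card := by
    refine lt_of_le_of_lt (Finset.card_le_three) ?_
    rw [Finset.card_univ]; omega
  obtain ⟨a, -, ha⟩ := Finset.exists_mem_notMem_of_card_lt_card hlt
  simp only [Finset.mem_insert, Finset.mem_singleton, not_or] at ha
  refine ⟨a, ha.1, ?_⟩
  intro h2
  have h3 : (a - 1) * (a + 1) = 0 := by linear_combination h2
  rcases mul_eq_zero.1 h3 with h4 | h4
  · exact ha.2.1 (sub_eq_zero.1 h4)
  · exact ha.2.2 (eq_neg_of_add_eq_zero_left h4)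

/-- The orthogonal case, with the rank and field size bounded. -/
theorem omega_bounds {G : Type*} [Group G] {F : Type} [Field F] [Fintype F] {ι : Type} [Fintype ι] [DecidableEq ι]
    {Q : (ι → F) → F} {m R Q₀ : ℕ} (hR : 5 ≤ R) (hQ₀ : 4 ≤ Q₀) (hm : 2 ≤ m)
    (hA : ∀ n, R ≤ n → ∃ f : ℕ → alternatingGroup (Fin n), FreeGroup.lift f w ∉ Subgroup.center (alternatingGroup (Fin n)))
    (hS : Q₀ ≤ Fintype.card F → ∃ f : ℕ → SpecialLinearGroup (Fin 2) F,
      FreeGroup.lift f w ∉ Subgroup.center (SpecialLinearGroup (Fin 2) F))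
    (Θ : GL (Fin m) F →* GL ι F) (hΘ : Function.Injective Θ) (hQ : ∀ A u, Q ((Θ A).1 *ᵥ u) = Q u)
    (e : G ≃* POmega F Q) (hlaw : ∀ f : ℕ → G, FreeGroup.lift f w = 1) :
    m < R ∧ Fintype.card F < Q₀ := by
  constructor
  · by_contra hcon
    push_neg at hcon
    have hperf : commutator (alternatingGroup (Fin m)) = ⊤ :=
      commutator_alternatingGroup_eq_top (by simp; omega)
    obtain ⟨ψ, hψ⟩ := toOmega (Q := Q) hperf
      (Θ.comp ((SpecialLinearGroup.toGL).comp (altSL (F := F) m)))
      (hΘ.comp (toGL_inj.comp (altSL_injective m))) (fun h u => hQ _ u)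
    exact no_law_G e hlaw ψ hψ (hA m hcon)
  · by_contra hcon
    push_neg at hcon
    have hperf : commutator (SpecialLinearGroup (Fin 2) F) = ⊤ :=
      Cfsg.Agent.Lib.SLNormal.perfect_SL2 (exists_big_a (by omega))
    obtain ⟨ψ, hψ⟩ := toOmega (Q := Q) hperf
      (Θ.comp ((SpecialLinearGroup.toGL).comp (sl2SL (F := F) m hm)))
      (hΘ.comp (toGL_inj.comp (sl2SL_injective m hm))) (fun h u => hQ _ u)
    exact no_law_G e hlaw ψ hψ (hS hcon)

theorem card_omega_le {G : Type*} [Group G] {F : Type} [Field F] [Fintype F] {ι : Type} [Fintype ι] [DecidableEq ι]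
    {Q : (ι → F) → F} (e : G ≃* POmega F Q) :
    Nat.card G ≤ Fintype.card F ^ (Fintype.card ι * Fintype.card ι) := by
  rw [Nat.card_congr e.toEquiv]
  refine (card_quot_le _).trans ?_
  apply card_matrix_le (F := F) (ι := ι) (K := Omega F Q) (fun x => ((x : isometryGroup F Q) : GL ι F).1)
  intro a b hab
  exact Subtype.ext (Subtype.ext (Units.ext hab))

end


/-- A non-trivial law is satisfied by only finitely many finite simple groups that are alternating or classical, up to isomorphism: for every non-trivial element w of the free group on countably many generators there is a bound N such that every alternating group of degree ≥ 5 and every simple classical group (linear, symplectic, unitary or orthogonal, in this problem's sense) in which w is a law has order at most N. -/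
theorem result (w : FreeGroup ℕ) (hw : w ≠ 1) :
    ∃ N : ℕ, ∀ (G : Type*) [Group G] [Finite G],
      (Cfsg.IsAlternating G ∨ Cfsg.IsPSL G ∨ Cfsg.IsPSp G ∨ Cfsg.IsPSU G ∨ Cfsg.IsPOmegaOdd G ∨
          Cfsg.IsPOmegaPlus G ∨ Cfsg.IsPOmegaMinus G) →
      (∀ f : ℕ → G, FreeGroup.lift f w = 1) → Nat.card G ≤ N := by
  classical
  obtain ⟨N₁, hN₁⟩ := Cfsg.Agent.S2352.result w hw
  obtain ⟨N₂, hN₂⟩ := Cfsg.Agent.S2353.result.{0} w hw
  set R := max N₁ 5 with hR
  set Q₀ := max N₂ 4 with hQ₀
  have hR5 : 5 ≤ R := le_max_right _ _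
  have hQ4 : 4 ≤ Q₀ := le_max_right _ _
  have hA : ∀ n, R ≤ n → ∃ f : ℕ → alternatingGroup (Fin n),
      FreeGroup.lift f w ∉ Subgroup.center (alternatingGroup (Fin n)) := by
    intro n hn
    obtain ⟨f, hf⟩ := hN₁ n ((le_max_left _ _).trans hn)
    refine ⟨f, ?_⟩
    have hc : Subgroup.center (alternatingGroup (Fin n)) = ⊥ :=
      alternatingGroup.center_eq_bot (by simp; omega)
    rw [hc, Subgroup.mem_bot]
    exact hf
  have hS : ∀ (F : Type) [Field F] [Fintype F], Q₀ ≤ Fintype.card F →
      ∃ f : ℕ → SpecialLinearGroup (Fin 2) F,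
      FreeGroup.lift f w ∉ Subgroup.center (SpecialLinearGroup (Fin 2) F) := by
    intro F _ _ hF
    obtain ⟨f, hf⟩ := hN₂ F ((le_max_left _ _).trans hF)
    let π : SpecialLinearGroup (Fin 2) F →* Matrix.ProjectiveSpecialLinearGroup (Fin 2) F :=
      QuotientGroup.mk' _
    have hπ : Function.Surjective π := QuotientGroup.mk'_surjective _
    choose f' hf' using fun i => hπ (f i)
    refine ⟨f', ?_⟩
    intro hc
    apply hf
    have h1 := lift_comp π w f'
    simp only [hf'] at h1
    rw [← h1]
    exact (QuotientGroup.eq_one_iff _).2 hc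
  set D := 2 * R + 3 with hD
  set S := Q₀ * Q₀ with hS'
  have hQS : Q₀ ≤ S := Nat.le_mul_of_pos_left _ (by omega)
  refine ⟨R.factorial + S ^ (D * D), ?_⟩
  intro G _ _ hG hlaw
  have hadd : S ^ (D * D) ≤ R.factorial + S ^ (D * D) := Nat.le_add_left _ _
  rcases hG with ⟨n, hn, ⟨e⟩⟩ | ⟨F, _, _, n, hn, -, ⟨e⟩⟩ | ⟨F, _, _, m, hm, -, ⟨e⟩⟩ |
    ⟨F, _, _, n, q, hF, hn, -, ⟨e⟩⟩ | ⟨F, _, _, m, hm, -, ⟨e⟩⟩ | ⟨F, _, _, m, hm, ⟨e⟩⟩ |
    ⟨F, _, _, m, a, b, hm, -, ⟨e⟩⟩
  · -- alternating
    have hnR : n < R := by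
      by_contra hcon
      push_neg at hcon
      obtain ⟨f, hf⟩ := hA n hcon
      apply hf
      rw [law_transfer e w hlaw f]
      exact one_mem _
    rw [Nat.card_congr e.toEquiv]
    have h1 : Nat.card (alternatingGroup (Fin n)) ≤ Nat.card (Perm (Fin n)) :=
      Subgroup.card_le_card_group _
    rw [Nat.card_eq_fintype_card (α := Perm (Fin n)), Fintype.card_perm, Fintype.card_fin] at h1
    exact h1.trans ((Nat.factorial_le hnR.le).trans (Nat.le_add_right _ _))
  · -- PSL
    have h1 : n < R := by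
      by_contra hcon
      push_neg at hcon
      exact no_law_G (Big := SpecialLinearGroup (Fin n) F) e hlaw (altSL n) (altSL_injective n) (hA n hcon)
    have h2 : Fintype.card F < Q₀ := by
      by_contra hcon
      push_neg at hcon
      exact no_law_G (Big := SpecialLinearGroup (Fin n) F) e hlaw (sl2SL n hn) (sl2SL_injective n hn) (hS F hcon)
    rw [Nat.card_congr e.toEquiv]
    refine (card_quot_le _).trans ?_
    refine (card_matrix_le (F := F) (ι := Fin n) (K := SpecialLinearGroup (Fin n) F) (fun x => x.1)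
      Subtype.val_injective).trans (le_trans ?_ hadd)
    apply pow_bound (by omega) Fintype.card_pos (by simp; omega)
  · -- PSp
    have h1 : m < R := by
      by_contra hcon
      push_neg at hcon
      exact no_law_G (Big := symplecticGroup (Fin m) F) e hlaw
        ((glSp m).comp ((SpecialLinearGroup.toGL).comp (altSL m)))
        ((glSp_injective m).comp (toGL_inj.comp (altSL_injective m))) (hA m hcon)
    have h2 : Fintype.card F < Q₀ := by
      by_contra hcon
      push_neg at hcon
      exact no_law_G (Big := symplecticGroup (Fin m) F) e hlaw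
        ((glSp m).comp ((SpecialLinearGroup.toGL).comp (sl2SL m hm)))
        ((glSp_injective m).comp (toGL_inj.comp (sl2SL_injective m hm))) (hS F hcon)
    rw [Nat.card_congr e.toEquiv]
    refine (card_quot_le _).trans ?_
    refine (card_matrix_le (F := F) (ι := Fin m ⊕ Fin m) (K := symplecticGroup (Fin m) F) (fun x => x.1)
      Subtype.val_injective).trans (le_trans ?_ hadd)
    apply pow_bound (by omega) Fintype.card_pos (by simp; omega)
  · -- PSU
    have hq2 : 2 ≤ q := by
      have h1 : 1 < Fintype.card F := Fintype.one_lt_card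
      rw [hF] at h1
      by_contra hcon
      have : q = 0 ∨ q = 1 := by omega
      rcases this with rfl | rfl <;> simp at h1
    have h1 : n < R := by
      by_contra hcon
      push_neg at hcon
      exact no_law_G (Big := SU n F q) e hlaw
        ((altSL n).codRestrict (SU n F q) (alt_mem_SU n q))
        (fun a b hab => altSL_injective n (congrArg Subtype.val hab)) (hA n hcon)
    have h2 : q < Q₀ := by
      by_contra hcon
      push_neg at hcon
      obtain ⟨F₀, hF₀, ψ, hψ⟩ := exists_sl2_SU hF hq2 n (by omega)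
      haveI : Fintype F₀ := Fintype.ofFinite _
      exact no_law_G (Big := SU n F q) e hlaw ψ hψ (hS F₀ (by
        rw [← Nat.card_eq_fintype_card]; omega))
    rw [Nat.card_congr e.toEquiv]
    refine (card_quot_le _).trans ?_
    refine (card_matrix_le (F := F) (ι := Fin n) (K := SU n F q) (fun x => x.1.1)
      (fun a b hab => Subtype.ext (Subtype.ext hab))).trans (le_trans ?_ hadd)
    apply pow_bound ?_ Fintype.card_pos (by simp; omega)
    rw [hF, pow_two]
    exact Nat.mul_le_mul h2.le h2.le
  · -- odd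
    have hbd := omega_bounds (w := w) (F := F) (Q := quadFormOdd m F) hR5 hQ4 (by omega : 2 ≤ m) hA (hS F)
      ((extR (Fin m ⊕ Fin m) Unit).comp (glD m))
      ((extR_injective _ _).comp (glD_injective m)) (fun A u => preserve_odd m A u) e hlaw
    refine (card_omega_le e).trans (le_trans ?_ hadd)
    apply pow_bound (by omega) Fintype.card_pos (by simp; omega)
  · -- plus
    have hbd := omega_bounds (w := w) (F := F) (Q := quadFormPlus m F) hR5 hQ4 (by omega : 2 ≤ m) hA (hS F)
      (glD m) (glD_injective m) (fun A u => preserve_plus m A u) e hlaw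
    refine (card_omega_le e).trans (le_trans ?_ hadd)
    apply pow_bound (by omega) Fintype.card_pos (by simp; omega)
  · -- minus
    have hbd := omega_bounds (w := w) (F := F) (Q := quadFormMinus (m - 1) F a b) hR5 hQ4 (by omega : 2 ≤ m - 1) hA (hS F)
      ((extL (Fin (m - 1) ⊕ Fin (m - 1)) (Fin 2)).comp (glD (m - 1)))
      ((extL_injective _ _).comp (glD_injective _)) (fun A u => preserve_minus (m - 1) a b A u) e hlaw
    refine (card_omega_le e).trans (le_trans ?_ hadd)
    apply pow_bound (by omega) Fintype.card_pos (by simp; omega)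

end Cfsg.Agent.S2355
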