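import Cfsg.Statements.S2466
import Cfsg.Agent.Lib.AltOrders

set_option autoImplicit false
open Cfsg

namespace Cfsg.Agent.S2466

/-- Adjacency of odd primes in the prime graph of the alternating groups: let r ≠ s be odd primes at most n. The alternating group of degree n has an element of order r·s if and only if r + s ≤ n. -/
theorem result (n r s : ℕ) (hr : r.Prime) (hs : s.Prime) (hr2 : r ≠ 2) (hs2 : s ≠ 2) (hrs : r ≠ s) (hrn : r ≤ n) (hsn : s ≤ n) :
    (r * s ∈ Set.range (orderOf : alternatingGroup (Fin n) → ℕ)) ↔ r + s ≤ n := by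
  classical
  constructor
  · rintro ⟨σ, hσ⟩
    by_contra hlt
    push Not at hlt
    exact Cfsg.Agent.Lib.H5AltSpec.no_order_mul hr hs hrs hlt σ.1 (by rw [Subgroup.orderOf_coe]; exact hσ)
  · intro hle
    have hrodd : Odd r := hr.odd_of_ne_two hr2
    have hsodd : Odd s := hs.odd_of_ne_two hs2
    obtain ⟨σ, hσ⟩ := Cfsg.Agent.Lib.AltOrders.exists_alt_of_multiset (n := n) {r, s}
      (by simpa using hle)
      (by
        intro a ha
        simp only [Multiset.insert_eq_cons, Multiset.mem_cons, Multiset.mem_singleton] at ha
        rcases ha with rfl | rfl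
        · exact hr.two_le
        · exact hs.two_le)
      (by
        simp only [Multiset.insert_eq_cons, Multiset.sum_cons, Multiset.sum_singleton, Multiset.card_cons, Multiset.card_singleton]
        exact (hrodd.add_odd hsodd).add even_two)
    refine ⟨σ, ?_⟩
    show orderOf σ = r * s
    rw [hσ]
    have hcop : Nat.Coprime r s := (Nat.coprime_primes hr hs).2 hrs
    simp only [Multiset.insert_eq_cons, Multiset.lcm_cons, Multiset.lcm_singleton]
    show Nat.lcm r (normalize s) = r * s
    rw [normalize_eq, hcop.lcm_eq_mul]

end Cfsg.Agent.S2466
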