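import Cfsg.Statements.S2467
import Cfsg.Agent.Lib.AltOrders

set_option autoImplicit false
open Cfsg

namespace Cfsg.Agent.S2467

/-- Adjacency of 2 and an odd prime in the prime graph of the alternating groups: let r be an odd prime at most n, with n ≥ 4. The alternating group of degree n has an element of order 2r if and only if r + 4 ≤ n. -/
theorem result (n r : ℕ) (hn : 4 ≤ n) (hr : r.Prime) (hr2 : r ≠ 2) (hrn : r ≤ n) :
    (2 * r ∈ Set.range (orderOf : alternatingGroup (Fin n) → ℕ)) ↔ r + 4 ≤ n := by
  classical
  constructor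
  · rintro ⟨σ, hσ⟩
    exact Cfsg.Agent.Lib.AltOrders.le_of_two_mul hr hr2 σ hσ
  · intro hle
    have hrodd : Odd r := hr.odd_of_ne_two hr2
    obtain ⟨σ, hσ⟩ := Cfsg.Agent.Lib.AltOrders.exists_alt_of_multiset (n := n) {r, 2, 2}
      (by simpa [add_assoc] using hle)
      (by
        intro a ha
        simp only [Multiset.insert_eq_cons, Multiset.mem_cons, Multiset.mem_singleton] at ha
        rcases ha with rfl | rfl | rfl
        · exact hr.two_le
        · exact le_rfl
        · exact le_rfl)
      (by
        simp only [Multiset.insert_eq_cons, Multiset.sum_cons, Multiset.sum_singleton, Multiset.card_cons, Multiset.card_singleton]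
        obtain ⟨t, rfl⟩ := hrodd
        exact ⟨t + 4, by ring⟩)
    refine ⟨σ, ?_⟩
    show orderOf σ = 2 * r
    rw [hσ]
    have hcop : Nat.Coprime r 2 := (Nat.coprime_primes hr Nat.prime_two).2 hr2
    simp only [Multiset.insert_eq_cons, Multiset.lcm_cons, Multiset.lcm_singleton]
    show Nat.lcm r (Nat.lcm 2 (normalize 2)) = 2 * r
    rw [normalize_eq, Nat.lcm_self, hcop.lcm_eq_mul, mul_comm]

end Cfsg.Agent.S2467
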