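import Cfsg.Statements.S2486
import Cfsg.Agent.Lib.BruhatF2
import Mathlib

set_option autoImplicit false
open scoped Pointwise
open Cfsg

namespace Cfsg.Agent.S2486

theorem core_bound {G S : Type*} [Group G] [Finite G] [Group S] [Finite S] (H N : Subgroup G) [hN : N.Normal]
    (θ : N ≃* S) (X : Subgroup S) (hX : ∀ a : N, (a : G) ∈ H ↔ θ a ∈ X) (n : N)
    (h1 : ∀ b ∈ H, (n : G) * b * (n : G)⁻¹ ∈ H → b = 1) :
    Nat.card H * Nat.card X ≤ Nat.card {y : S // ∀ t ∈ X, y * t * y⁻¹ ∈ X → t = 1} := by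
  classical
  let c : G → N → N := fun h w => ⟨h * w * h⁻¹, hN.conj_mem _ w.2 _⟩
  have hXH : ∀ w : X, ((θ.symm w : N) : G) ∈ H := fun w => by
    rw [hX]
    simpa using w.2
  have hGam : ∀ p : H × X, ∀ t ∈ X, θ (c p.1 n * θ.symm p.2) * t * (θ (c p.1 n * θ.symm p.2))⁻¹ ∈ X → t = 1 := by
    rintro ⟨h, w⟩ t ht hb
    obtain ⟨a', rfl⟩ := θ.surjective t
    have ha' : (a' : G) ∈ H := (hX a').2 ht
    set w' : N := θ.symm w with hw'
    have hw'H : (w' : G) ∈ H := hXH w
    have hb' : ((c h n * w' * a' * (c h n * w')⁻¹ : N) : G) ∈ H := by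
      rw [hX]
      simpa [map_mul, map_inv] using hb
    have e1 : ((c h n * w' * a' * (c h n * w')⁻¹ : N) : G) =
        (h : G) * (n : G) * ((h : G)⁻¹ * w' * a' * (w' : G)⁻¹ * h) * (n : G)⁻¹ * (h : G)⁻¹ := by
      simp only [c, Subgroup.coe_mul, Subgroup.coe_inv]
      group
    rw [e1] at hb'
    have hb0 : (h : G)⁻¹ * w' * a' * (w' : G)⁻¹ * h ∈ H :=
      H.mul_mem (H.mul_mem (H.mul_mem (H.mul_mem (H.inv_mem h.2) hw'H) ha') (H.inv_mem hw'H)) h.2
    have hb1 : (n : G) * ((h : G)⁻¹ * w' * a' * (w' : G)⁻¹ * h) * (n : G)⁻¹ ∈ H := by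
      have := H.mul_mem (H.mul_mem (H.inv_mem h.2) hb') h.2
      have e2 : (h : G)⁻¹ * ((h : G) * (n : G) * ((h : G)⁻¹ * w' * a' * (w' : G)⁻¹ * h) * (n : G)⁻¹ * (h : G)⁻¹) * h =
          (n : G) * ((h : G)⁻¹ * w' * a' * (w' : G)⁻¹ * h) * (n : G)⁻¹ := by group
      rwa [e2] at this
    have hb2 := h1 _ hb0 hb1
    have hb3 : (a' : G) = 1 := by
      have e3 : (a' : G) = (w' : G)⁻¹ * h * ((h : G)⁻¹ * w' * a' * (w' : G)⁻¹ * h) * (h : G)⁻¹ * w' := by group
      rw [e3, hb2]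
      group
    have hb4 : a' = 1 := Subtype.ext hb3
    rw [hb4, map_one]
  let Φ : H × X → {y : S // ∀ t ∈ X, y * t * y⁻¹ ∈ X → t = 1} := fun p => ⟨θ (c p.1 n * θ.symm p.2), hGam p⟩
  have hinj : Function.Injective Φ := by
    rintro ⟨h, w⟩ ⟨h', w''⟩ hp
    have h2 : θ (c h n * θ.symm w) = θ (c h' n * θ.symm w'') := congrArg Subtype.val hp
    set w₁ : N := θ.symm w with hw₁
    set w₂ : N := θ.symm w'' with hw₂
    have h3 : (h : G) * n * (h : G)⁻¹ * w₁ = (h' : G) * n * (h' : G)⁻¹ * w₂ :=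
      congrArg Subtype.val (θ.injective h2)
    have hb : (h : G)⁻¹ * w₁ * (w₂ : G)⁻¹ * h' ∈ H :=
      H.mul_mem (H.mul_mem (H.mul_mem (H.inv_mem h.2) (hXH w)) (H.inv_mem (hXH w''))) h'.2
    have hcon : (n : G) * ((h : G)⁻¹ * w₁ * (w₂ : G)⁻¹ * h') * (n : G)⁻¹ = (h : G)⁻¹ * h' := by
      have e : (h : G)⁻¹ * h' * ((h' : G)⁻¹ * h * ((n : G) * ((h : G)⁻¹ * w₁ * (w₂ : G)⁻¹ * h') * (n : G)⁻¹)) =
          (h : G)⁻¹ * h' := by
        have e4 : (h' : G)⁻¹ * h * ((n : G) * ((h : G)⁻¹ * w₁ * (w₂ : G)⁻¹ * h') * (n : G)⁻¹) = 1 := by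
          have e5 : (h' : G)⁻¹ * h * ((n : G) * ((h : G)⁻¹ * w₁ * (w₂ : G)⁻¹ * h') * (n : G)⁻¹) =
              (h' : G)⁻¹ * ((h : G) * n * (h : G)⁻¹ * w₁) * (w₂ : G)⁻¹ * h' * (n : G)⁻¹ := by group
          rw [e5, h3]
          group
        rw [e4, mul_one]
      have e6 : (h : G)⁻¹ * h' * ((h' : G)⁻¹ * h * ((n : G) * ((h : G)⁻¹ * w₁ * (w₂ : G)⁻¹ * h') * (n : G)⁻¹)) =
          (n : G) * ((h : G)⁻¹ * w₁ * (w₂ : G)⁻¹ * h') * (n : G)⁻¹ := by group
      rw [← e6, e]
    have hb1 := h1 _ hb (by rw [hcon]; exact H.mul_mem (H.inv_mem h.2) h'.2)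
    rw [hb1] at hcon
    have hh : (h : G) = h' := by
      have : (1 : G) = (h : G)⁻¹ * h' := by
        rw [← hcon]; group
      exact (inv_mul_eq_one.1 this.symm)
    have hh' : h = h' := Subtype.ext hh
    subst hh'
    have hw : (w₁ : G) = w₂ := mul_left_cancel h3
    have hw' : w₁ = w₂ := Subtype.ext hw
    have hw'' : w = w'' := Subtype.ext (θ.symm.injective hw')
    rw [hw'']
  have h2 := Nat.card_le_card_of_injective Φ hinj
  rwa [Nat.card_prod] at h2

open Cfsg.Agent.Lib.BruhatF2 in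
theorem opp_conj {n : ℕ} (g : SS n) :
    Nat.card {y : SS n // ∀ t ∈ (lowU n).map (MulAut.conj g).toMonoidHom,
      y * t * y⁻¹ ∈ (lowU n).map (MulAut.conj g).toMonoidHom → t = 1} ≤ Nat.card {y : SS n // IsOpp y} := by
  classical
  let f : {y : SS n // ∀ t ∈ (lowU n).map (MulAut.conj g).toMonoidHom,
      y * t * y⁻¹ ∈ (lowU n).map (MulAut.conj g).toMonoidHom → t = 1} → {y : SS n // IsOpp y} := fun y =>
    ⟨g⁻¹ * y.1 * g, by
      intro t ht h
      have h1 : g * t * g⁻¹ ∈ (lowU n).map (MulAut.conj g).toMonoidHom := ⟨t, ht, rfl⟩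
      have h2 : y.1 * (g * t * g⁻¹) * y.1⁻¹ ∈ (lowU n).map (MulAut.conj g).toMonoidHom :=
        ⟨_, h, by
          change g * (g⁻¹ * y.1 * g * t * (g⁻¹ * y.1 * g)⁻¹) * g⁻¹ = _
          group⟩
      have h3 := y.2 _ h1 h2
      have e : t = g⁻¹ * (g * t * g⁻¹) * g := by group
      rw [e, h3]
      group⟩
  refine Nat.card_le_card_of_injective f ?_
  intro y y' h
  have h1 : g⁻¹ * y.1 * g = g⁻¹ * y'.1 * g := congrArg Subtype.val h
  exact Subtype.ext (mul_left_cancel (mul_right_cancel h1))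

open Cfsg.Agent.Lib.BruhatF2


/-- Let n ≥ 4 and let G be a finite group with a normal subgroup N of index 2 isomorphic to SL(n,2) and with trivial centralizer in G (so G is the extension of the simple group L_n(2) by its inverse-transpose automorphism, its full automorphism group). Then any two Sylow 2-subgroups of G have a non-trivial intersection: for a Sylow 2-subgroup H and every x ∈ G, H ∩ H^x ≠ 1. -/
theorem result {G : Type*} [Group G] [Finite G] {n : ℕ} (hn : 4 ≤ n) (N : Subgroup G) [N.Normal]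
    (e : N ≃* Matrix.SpecialLinearGroup (Fin n) (ZMod 2)) (hidx : N.index = 2)
    (hC : Subgroup.centralizer (N : Set G) = ⊥)
    (H : Sylow 2 G) (x : G) :
    (H : Subgroup G) ⊓ MulAut.conj x • (H : Subgroup G) ≠ ⊥ := by
  classical
  intro hbot
  let HH : Subgroup G := H
  have hH1 : ∀ b ∈ HH, x * b * x⁻¹ ∈ HH → b = 1 := by
    intro b hb hb'
    have h1 : x * b * x⁻¹ ∈ HH ⊓ MulAut.conj x • HH :=
      ⟨hb', Subgroup.smul_mem_pointwise_smul _ (MulAut.conj x) _ hb⟩
    rw [show HH ⊓ MulAut.conj x • HH = ⊥ from hbot] at h1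
    have h2 : x * b * x⁻¹ = 1 := h1
    have e : b = x⁻¹ * (x * b * x⁻¹) * x := by group
    rw [e, h2]
    group
  -- `H` is not contained in `N`
  have hnle : ¬ HH ≤ N := by
    intro hle
    have h1 := Subgroup.index_dvd_of_le hle
    rw [hidx] at h1
    exact H.not_dvd_index h1
  obtain ⟨h₀, hh₀, hh₀N⟩ := SetLike.not_le_iff_exists.1 hnle
  -- replace `x` by an element of `N`
  obtain ⟨m, hm⟩ : ∃ m : N, ∀ b ∈ HH, (m : G) * b * (m : G)⁻¹ ∈ HH → b = 1 := by
    by_cases hx : x ∈ N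
    · exact ⟨⟨x, hx⟩, hH1⟩
    · have hmem : x * h₀ ∈ N := by
        rw [Subgroup.mul_mem_iff_of_index_two hidx]
        simp [hx, hh₀N]
      refine ⟨⟨x * h₀, hmem⟩, ?_⟩
      intro b hb hb'
      have h2 : h₀ * b * h₀⁻¹ = 1 := by
        apply hH1 _ (HH.mul_mem (HH.mul_mem hh₀ hb) (HH.inv_mem hh₀))
        have e : x * (h₀ * b * h₀⁻¹) * x⁻¹ = (x * h₀) * b * (x * h₀)⁻¹ := by group
        rw [e]
        exact hb'
      have e : b = h₀⁻¹ * (h₀ * b * h₀⁻¹) * h₀ := by group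
      rw [e, h2]
      group
  -- orders
  have hcardS : Nat.card N = Nat.card (SS n) := Nat.card_congr e.toEquiv
  have hcardG : Nat.card G = 2 * Nat.card (SS n) := by
    rw [← N.card_mul_index, hcardS, hidx, mul_comm]
  have hSne : Nat.card (SS n) ≠ 0 := Nat.card_pos.ne'
  have hfac : (Nat.card G).factorization 2 = (Nat.card (SS n)).factorization 2 + 1 := by
    rw [hcardG, Nat.factorization_mul (by norm_num) hSne, Finsupp.add_apply, Nat.Prime.factorization_self Nat.prime_two,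
      add_comm]
  have hU : Nat.card (lowU n) = 2 ^ (Nat.card (SS n)).factorization 2 := by
    rw [card_lowU, factorization_card]
  have hHcard : Nat.card HH = 2 * Nat.card (lowU n) := by
    rw [hU]
    change Nat.card (H : Subgroup G) = _
    rw [Sylow.card_eq_multiplicity, hfac, pow_succ, mul_comm]
  -- the intersection
  let X : Subgroup (SS n) := (HH.subgroupOf N).map e.toMonoidHom
  have hX : ∀ a : N, (a : G) ∈ HH ↔ e a ∈ X := by
    intro a
    constructor
    · intro ha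
      exact ⟨a, ha, rfl⟩
    · rintro ⟨b, hb, hba⟩
      have : b = a := e.injective hba
      rw [← this]
      exact hb
  have hXcard : Nat.card X = Nat.card (lowU n) := by
    have h1 : Nat.card X = Nat.card (HH.subgroupOf N) :=
      Nat.card_congr ((HH.subgroupOf N).equivMapOfInjective _ e.injective).toEquiv.symm
    have hsup : HH ⊔ N = ⊤ := by
      have h1 := Subgroup.relIndex_mul_index (H := N) (K := HH ⊔ N) le_sup_right
      rw [hidx] at h1
      have h5 : (HH ⊔ N).index ∣ 2 := ⟨N.relIndex (HH ⊔ N), by rw [← h1, mul_comm]⟩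
      rcases (Nat.dvd_prime Nat.prime_two).1 h5 with h6 | h6
      · exact Subgroup.index_eq_one.1 h6
      · exfalso
        rw [h6] at h1
        have h7 : N.relIndex (HH ⊔ N) = 1 := by omega
        have h8 : HH ⊔ N ≤ N := Subgroup.relIndex_eq_one.1 h7
        exact hnle (le_sup_left.trans h8)
    have h2 : N.relIndex HH = 2 := by
      rw [← Subgroup.relIndex_sup_right, hsup, Subgroup.relIndex_top_right, hidx]
    have h3 : Nat.card (N.subgroupOf HH) * 2 = Nat.card HH := by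
      rw [← h2]
      exact (N.subgroupOf HH).card_mul_index
    have h4 : Nat.card (N.subgroupOf HH) = Nat.card (HH.subgroupOf N) :=
      Nat.card_congr
        { toFun := fun a => ⟨⟨a.1.1, a.2⟩, a.1.2⟩
          invFun := fun a => ⟨⟨a.1.1, a.2⟩, a.1.2⟩
          left_inv := fun a => rfl
          right_inv := fun a => rfl }
    rw [h1, ← h4]
    rw [hHcard] at h3
    omega
  -- conjugate to the standard subgroup
  let U' : Sylow 2 (SS n) := Sylow.ofCard (lowU n) hU
  let X' : Sylow 2 (SS n) := Sylow.ofCard X (by rw [hXcard, hU])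
  obtain ⟨g, hg⟩ := MulAction.exists_smul_eq (SS n) U' X'
  have hXeq : X = (lowU n).map (MulAut.conj g).toMonoidHom := by
    have := congrArg (fun P : Sylow 2 (SS n) => (P : Subgroup (SS n))) hg
    exact this.symm
  have hb := core_bound HH N e X hX m hm
  have hb2 : Nat.card {y : SS n // ∀ t ∈ X, y * t * y⁻¹ ∈ X → t = 1} ≤ Nat.card {y : SS n // IsOpp y} := by
    rw [hXeq]
    exact opp_conj g
  have hb3 := hb.trans (hb2.trans card_opp_le)
  rw [hHcard, hXcard] at hb3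
  have hpos : 0 < Nat.card (lowU n) := Nat.card_pos
  nlinarith [pow_two (Nat.card (lowU n))]

end Cfsg.Agent.S2486
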