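import Cfsg.Statements.S2488
import Mathlib
import Cfsg.Agent.Lib.A6Sylow

set_option autoImplicit false
open scoped Pointwise
open Cfsg

namespace Cfsg.Agent.S2488

open Equiv Cfsg.Agent.Lib.A6Sylow in
theorem core {G : Type*} [Group G] [Finite G] (H N : Subgroup G) [hN : N.Normal]
    (θ : N →* Perm (Fin 6)) (hθ : Function.Injective θ)
    (hrange : ∀ y : Perm (Fin 6), Equiv.Perm.sign y = 1 → ∃ n, θ n = y)
    (heven : ∀ n, Equiv.Perm.sign (θ n) = 1)
    (hX : ∀ a : N, (a : G) ∈ H ↔ θ a ∈ L0)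
    (hH : Nat.card H = 32) (n : N) (h1 : ∀ b ∈ H, (n : G) * b * (n : G)⁻¹ ∈ H → b = 1) : False := by
  classical
  -- conjugation inside the normal subgroup
  let c : G → N → N := fun h w => ⟨h * w * h⁻¹, hN.conj_mem _ w.2 _⟩
  let Xt := {a : N // θ a ∈ L0}
  have hXt : Nat.card Xt = 8 := by
    have e1 : Xt ≃ L0 :=
      { toFun := fun a => ⟨θ a.1, a.2⟩
        invFun := fun y => ⟨(hrange y.1 (L0_even y.1 y.2)).choose, by
          rw [(hrange y.1 (L0_even y.1 y.2)).choose_spec]; exact y.2⟩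
        left_inv := fun a => by
          apply Subtype.ext
          apply hθ
          exact (hrange (θ a.1) (L0_even _ a.2)).choose_spec
        right_inv := fun y => by
          apply Subtype.ext
          exact (hrange y.1 (L0_even y.1 y.2)).choose_spec }
    rw [Nat.card_congr e1, Nat.card_eq_fintype_card, Fintype.card_coe, card_L0]
  have hXtH : ∀ a : Xt, ((a.1 : N) : G) ∈ H := fun a => (hX a.1).2 a.2
  have hGam : ∀ p : H × Xt, θ (c p.1 n * p.2.1) ∈ Gam := by
    rintro ⟨h, w⟩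
    refine Finset.mem_filter.2 ⟨Finset.mem_univ _, heven _, ?_⟩
    intro a ha hb
    obtain ⟨a', rfl⟩ := hrange a (L0_even a ha)
    have ha' : (a' : G) ∈ H := (hX a').2 ha
    have hb' : ((c h n * w.1 * a' * (c h n * w.1)⁻¹ : N) : G) ∈ H := by
      rw [hX]
      simpa [map_mul, map_inv] using hb
    have e1 : ((c h n * w.1 * a' * (c h n * w.1)⁻¹ : N) : G) =
        (h : G) * (n : G) * ((h : G)⁻¹ * w.1 * a' * (w.1 : G)⁻¹ * h) * (n : G)⁻¹ * (h : G)⁻¹ := by
      simp only [c, Subgroup.coe_mul, Subgroup.coe_inv]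
      group
    rw [e1] at hb'
    have hb0 : (h : G)⁻¹ * w.1 * a' * (w.1 : G)⁻¹ * h ∈ H :=
      H.mul_mem (H.mul_mem (H.mul_mem (H.mul_mem (H.inv_mem h.2) (hXtH w)) ha') (H.inv_mem (hXtH w))) h.2
    have hb1 : (n : G) * ((h : G)⁻¹ * w.1 * a' * (w.1 : G)⁻¹ * h) * (n : G)⁻¹ ∈ H := by
      have := H.mul_mem (H.mul_mem (H.inv_mem h.2) hb') h.2
      have e2 : (h : G)⁻¹ * ((h : G) * (n : G) * ((h : G)⁻¹ * w.1 * a' * (w.1 : G)⁻¹ * h) * (n : G)⁻¹ * (h : G)⁻¹) * h =
          (n : G) * ((h : G)⁻¹ * w.1 * a' * (w.1 : G)⁻¹ * h) * (n : G)⁻¹ := by group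
      rwa [e2] at this
    have hb2 := h1 _ hb0 hb1
    have hb3 : (a' : G) = 1 := by
      have e3 : (a' : G) = (w.1 : G)⁻¹ * h * ((h : G)⁻¹ * w.1 * a' * (w.1 : G)⁻¹ * h) * (h : G)⁻¹ * w.1 := by group
      rw [e3, hb2]
      group
    have hb4 : a' = 1 := Subtype.ext hb3
    rw [hb4, map_one]
  let Φ : H × Xt → {y // y ∈ Gam} := fun p => ⟨θ (c p.1 n * p.2.1), hGam p⟩
  have hinj : Function.Injective Φ := by
    rintro ⟨h, w⟩ ⟨h', w'⟩ hp
    have h2 : θ (c h n * w.1) = θ (c h' n * w'.1) := congrArg Subtype.val hp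
    have h3 : (h : G) * n * (h : G)⁻¹ * w.1 = (h' : G) * n * (h' : G)⁻¹ * w'.1 :=
      congrArg Subtype.val (hθ h2)
    have hb : (h : G)⁻¹ * w.1 * (w'.1 : G)⁻¹ * h' ∈ H :=
      H.mul_mem (H.mul_mem (H.mul_mem (H.inv_mem h.2) (hXtH w)) (H.inv_mem (hXtH w'))) h'.2
    have hcon : (n : G) * ((h : G)⁻¹ * w.1 * (w'.1 : G)⁻¹ * h') * (n : G)⁻¹ = (h : G)⁻¹ * h' := by
      have e : (h : G)⁻¹ * h' * ((h' : G)⁻¹ * h * ((n : G) * ((h : G)⁻¹ * w.1 * (w'.1 : G)⁻¹ * h') * (n : G)⁻¹)) =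
          (h : G)⁻¹ * h' := by
        have e4 : (h' : G)⁻¹ * h * ((n : G) * ((h : G)⁻¹ * w.1 * (w'.1 : G)⁻¹ * h') * (n : G)⁻¹) = 1 := by
          have e5 : (h' : G)⁻¹ * h * ((n : G) * ((h : G)⁻¹ * w.1 * (w'.1 : G)⁻¹ * h') * (n : G)⁻¹) =
              (h' : G)⁻¹ * ((h : G) * n * (h : G)⁻¹ * w.1) * (w'.1 : G)⁻¹ * h' * (n : G)⁻¹ := by group
          rw [e5, h3]
          group
        rw [e4, mul_one]
      have e6 : (h : G)⁻¹ * h' * ((h' : G)⁻¹ * h * ((n : G) * ((h : G)⁻¹ * w.1 * (w'.1 : G)⁻¹ * h') * (n : G)⁻¹)) =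
          (n : G) * ((h : G)⁻¹ * w.1 * (w'.1 : G)⁻¹ * h') * (n : G)⁻¹ := by group
      rw [← e6, e]
    have hb1 := h1 _ hb (by rw [hcon]; exact H.mul_mem (H.inv_mem h.2) h'.2)
    rw [hb1] at hcon
    have hh : (h : G) = h' := by
      have : (1 : G) = (h : G)⁻¹ * h' := by
        rw [← hcon]; group
      exact (inv_mul_eq_one.1 this.symm)
    have hh' : h = h' := Subtype.ext hh
    subst hh'
    have hw : (w.1 : G) = w'.1 := mul_left_cancel h3
    have hw' : w = w' := Subtype.ext (Subtype.ext hw)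
    rw [hw']
  have hbij : Function.Bijective Φ := by
    apply hinj.bijective_of_nat_card_le
    rw [Nat.card_prod, hH, hXt, Nat.card_eq_fintype_card, Fintype.card_coe]
    exact card_Gam
  obtain ⟨z', hz'⟩ := hrange zz (L0_even zz zz_mem)
  have hz'H : (z' : G) ∈ H := (hX z').2 (by rw [hz']; exact zz_mem)
  -- elements of `H` fix the central involution
  have hcent : ∀ h : H, c h z' = z' := by
    intro h
    have h2 : θ (c h z') ∈ L0 := (hX _).1 (H.mul_mem (H.mul_mem h.2 hz'H) (H.inv_mem h.2))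
    have h3 : ∀ a ∈ L0, θ (c h z') * a = a * θ (c h z') := by
      intro a ha
      obtain ⟨a', rfl⟩ := hrange a (L0_even a ha)
      have ha' : (a' : G) ∈ H := (hX a').2 ha
      have h4 : θ (c (h : G)⁻¹ a') ∈ L0 :=
        (hX _).1 (H.mul_mem (H.mul_mem (H.inv_mem h.2) ha') (H.inv_mem (H.inv_mem h.2)))
      have h5 := zz_comm _ h4
      rw [← hz', ← map_mul, ← map_mul] at h5
      have h6 := hθ h5
      have h7 : (z' : G) * ((h : G)⁻¹ * a' * ((h : G)⁻¹)⁻¹) = ((h : G)⁻¹ * a' * ((h : G)⁻¹)⁻¹) * z' :=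
        congrArg Subtype.val h6
      rw [← map_mul, ← map_mul]
      congr 1
      apply Subtype.ext
      change (h : G) * z' * (h : G)⁻¹ * a' = a' * ((h : G) * z' * (h : G)⁻¹)
      have h8 : (h : G) * ((z' : G) * ((h : G)⁻¹ * a' * ((h : G)⁻¹)⁻¹)) * (h : G)⁻¹ =
          (h : G) * (((h : G)⁻¹ * a' * ((h : G)⁻¹)⁻¹) * z') * (h : G)⁻¹ := by rw [h7]
      calc (h : G) * z' * (h : G)⁻¹ * a' = (h : G) * ((z' : G) * ((h : G)⁻¹ * a' * ((h : G)⁻¹)⁻¹)) * (h : G)⁻¹ := by group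
        _ = (h : G) * (((h : G)⁻¹ * a' * ((h : G)⁻¹)⁻¹) * z') * (h : G)⁻¹ := h8
        _ = a' * ((h : G) * z' * (h : G)⁻¹) := by group
    rcases center_L0 _ h2 h3 with h9 | h9
    · exfalso
      have h10 : c h z' = 1 := hθ (by rw [h9, map_one])
      have h11 : (h : G) * z' * (h : G)⁻¹ = 1 := congrArg Subtype.val h10
      have h12 : (z' : G) = 1 := by
        have : (z' : G) = (h : G)⁻¹ * ((h : G) * z' * (h : G)⁻¹) * h := by group
        rw [this, h11]; group
      have h13 : z' = 1 := Subtype.ext h12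
      rw [h13, map_one] at hz'
      exact zz_ne hz'.symm
    · exact hθ (by rw [h9, hz'])
  -- the invariant
  let τ : N := z' * (n * z' * n⁻¹)
  have hinv : ∀ y (hy : y ∈ Gam), ∃ h : H, zz * (y * zz * y⁻¹) = θ (c h τ) := by
    intro y hy
    obtain ⟨⟨h, w⟩, hp⟩ := hbij.2 ⟨y, hy⟩
    have hy' : θ (c h n * w.1) = y := congrArg Subtype.val hp
    refine ⟨h, ?_⟩
    have hw : w.1 * z' * w.1⁻¹ = z' := by
      have h2 := zz_comm _ w.2
      rw [← hz', ← map_mul, ← map_mul] at h2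
      rw [← hθ h2]
      group
    have hh : (h : G) * z' = z' * h := by
      have h2 : (h : G) * z' * (h : G)⁻¹ = z' := congrArg Subtype.val (hcent h)
      calc (h : G) * z' = (h : G) * z' * (h : G)⁻¹ * h := by group
        _ = z' * h := by rw [h2]
    rw [← hy', ← hz']
    rw [← map_inv, ← map_mul, ← map_mul, ← map_mul]
    congr 1
    have hw' : (w.1 : G) * z' * (w.1 : G)⁻¹ = z' := congrArg Subtype.val hw
    apply Subtype.ext
    change (z' : G) * (((h : G) * n * (h : G)⁻¹ * w.1) * z' * ((h : G) * n * (h : G)⁻¹ * w.1)⁻¹) =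
      (h : G) * ((z' : G) * ((n : G) * z' * (n : G)⁻¹)) * (h : G)⁻¹
    have e1 : ((h : G) * n * (h : G)⁻¹ * w.1) * z' * ((h : G) * n * (h : G)⁻¹ * w.1)⁻¹ =
        (h : G) * n * (h : G)⁻¹ * ((w.1 : G) * z' * (w.1 : G)⁻¹) * h * (n : G)⁻¹ * (h : G)⁻¹ := by group
    rw [e1, hw']
    have e2 : (h : G) * n * (h : G)⁻¹ * z' * h * (n : G)⁻¹ * (h : G)⁻¹ = (h : G) * n * z' * (n : G)⁻¹ * (h : G)⁻¹ := by
      have : (h : G)⁻¹ * z' * h = z' := by
        rw [mul_assoc, ← hh]; group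
      calc (h : G) * n * (h : G)⁻¹ * z' * h * (n : G)⁻¹ * (h : G)⁻¹
          = (h : G) * n * ((h : G)⁻¹ * z' * h) * (n : G)⁻¹ * (h : G)⁻¹ := by group
        _ = _ := by rw [this]
    rw [e2]
    calc (z' : G) * ((h : G) * n * z' * (n : G)⁻¹ * (h : G)⁻¹) = ((z' : G) * h) * (n * z' * (n : G)⁻¹ * (h : G)⁻¹) := by group
      _ = ((h : G) * z') * (n * z' * (n : G)⁻¹ * (h : G)⁻¹) := by rw [hh]
      _ = _ := by group
  have hpow : ∀ (h : H) (m : ℕ), (c h τ) ^ m = c h (τ ^ m) := by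
    intro h m
    apply Subtype.ext
    change (((c h τ) ^ m : N) : G) = (h : G) * ((τ ^ m : N) : G) * (h : G)⁻¹
    simp only [Subgroup.coe_pow, c]
    exact conj_pow
  obtain ⟨h₁, e₁⟩ := hinv y1 y1_mem
  obtain ⟨h₂, e₂⟩ := hinv y2 y2_mem
  have hτ : τ ^ 3 = 1 := by
    have h2 := y1_pow
    rw [e₁, ← map_pow, hpow] at h2
    have h3 : c h₁ (τ ^ 3) = 1 := hθ (by rw [h2, map_one])
    have h4 : (h₁ : G) * ((τ ^ 3 : N) : G) * (h₁ : G)⁻¹ = 1 := congrArg Subtype.val h3
    apply Subtype.ext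
    have : ((τ ^ 3 : N) : G) = (h₁ : G)⁻¹ * ((h₁ : G) * ((τ ^ 3 : N) : G) * (h₁ : G)⁻¹) * h₁ := by group
    rw [this, h4]
    simp
  apply y2_pow
  rw [e₂, ← map_pow, hpow, hτ]
  have : c h₂ 1 = 1 := by
    apply Subtype.ext
    change (h₂ : G) * ((1 : N) : G) * (h₂ : G)⁻¹ = 1
    simp
  rw [this, map_one]



/-- Let G be a finite group with a normal subgroup N of index 4 isomorphic to the alternating group of degree 6 and with trivial centralizer in G (so G is the full automorphism group of A₆). Then any two Sylow 2-subgroups of G have a non-trivial intersection: for a Sylow 2-subgroup H and every x ∈ G, H ∩ H^x ≠ 1. -/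
theorem result {G : Type*} [Group G] [Finite G] (N : Subgroup G) [N.Normal]
    (e : N ≃* alternatingGroup (Fin 6)) (hidx : N.index = 4)
    (hC : Subgroup.centralizer (N : Set G) = ⊥)
    (H : Sylow 2 G) (x : G) :
    (H : Subgroup G) ⊓ MulAut.conj x • (H : Subgroup G) ≠ ⊥ := by
  classical
  have hcardA0 : Nat.card (alternatingGroup (Fin 6)) = 360 := by
    have := two_mul_card_alternatingGroup (α := Fin 6)
    rw [Fintype.card_perm, Fintype.card_fin] at this
    have h6 : Nat.factorial 6 = 720 := rfl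
    rw [Nat.card_eq_fintype_card]
    omega
  let A := alternatingGroup (Fin 6)
  have hcardA : Nat.card A = 360 := hcardA0
  have hcardN : Nat.card N = 360 := by
    rw [Nat.card_congr e.toEquiv]
    exact hcardA
  have hcardG : Nat.card G = 1440 := by
    rw [← N.card_mul_index, hcardN, hidx]
  have hfac : (1440 : ℕ).factorization 2 = 5 := by
    have h5 : 5 ≤ (1440 : ℕ).factorization 2 :=
      (Nat.Prime.pow_dvd_iff_le_factorization Nat.prime_two (by norm_num)).1 (by norm_num)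
    have h6 : ¬ 6 ≤ (1440 : ℕ).factorization 2 := fun h =>
      absurd ((Nat.Prime.pow_dvd_iff_le_factorization Nat.prime_two (by norm_num)).2 h) (by norm_num)
    omega
  have hH : Nat.card (H : Subgroup G) = 32 := by
    rw [Sylow.card_eq_multiplicity, hcardG, hfac]
    norm_num
  let HH : Subgroup G := H
  let XN : Subgroup N := HH.subgroupOf N
  have hcN : Nat.card XN ∣ 360 := by
    rw [← hcardN]
    exact Subgroup.card_subgroup_dvd_card _
  have hr : N.relIndex HH ∣ 4 := by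
    rw [← hidx]
    exact Subgroup.relIndex_dvd_index_of_normal N HH
  have hmul : Nat.card XN * N.relIndex HH = 32 := by
    have e1 : XN ≃ N.subgroupOf HH :=
      { toFun := fun a => ⟨⟨a.1.1, a.2⟩, a.1.2⟩
        invFun := fun a => ⟨⟨a.1.1, a.2⟩, a.1.2⟩
        left_inv := fun a => rfl
        right_inv := fun a => rfl }
    rw [Nat.card_congr e1, ← hH]
    exact Subgroup.card_mul_index _
  have hr4 : N.relIndex HH = 4 ∧ Nat.card XN = 8 := by
    have hle := Nat.le_of_dvd (by norm_num) hr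
    generalize N.relIndex HH = r at *
    generalize Nat.card XN = c at *
    interval_cases r
    · omega
    · have : c = 32 := by omega
      subst this
      norm_num at hcN
    · have : c = 16 := by omega
      subst this
      norm_num at hcN
    · omega
    · omega
  obtain ⟨hr4, hX8⟩ := hr4
  have hsup : HH ⊔ N = ⊤ := by
    have h1 := Subgroup.relIndex_mul_index (H := N) (K := HH ⊔ N) le_sup_right
    rw [Subgroup.relIndex_sup_right, hr4, hidx] at h1
    have h2 : (HH ⊔ N).index = 1 := by omega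
    exact Subgroup.index_eq_one.1 h2
  have hx : x ∈ ((HH ⊔ N : Subgroup G) : Set G) := by
    rw [hsup]; trivial
  rw [Subgroup.mul_normal] at hx
  obtain ⟨h₀, hh₀, n, hn, rfl⟩ := Set.mem_mul.1 hx
  -- the standard Sylow subgroup
  let X₀ : Subgroup A :=
    { carrier := {a | (a : Equiv.Perm (Fin 6)) ∈ Cfsg.Agent.Lib.A6Sylow.L0}
      one_mem' := Cfsg.Agent.Lib.A6Sylow.L0_one
      mul_mem' := fun ha hb => Cfsg.Agent.Lib.A6Sylow.L0_mul _ ha _ hb
      inv_mem' := fun ha => Cfsg.Agent.Lib.A6Sylow.L0_inv _ ha }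
  have hX₀ : Nat.card X₀ = 8 := by
    have e1 : X₀ ≃ Cfsg.Agent.Lib.A6Sylow.L0 :=
      { toFun := fun a => ⟨a.1.1, a.2⟩
        invFun := fun y => ⟨⟨y.1, Equiv.Perm.mem_alternatingGroup.2 (Cfsg.Agent.Lib.A6Sylow.L0_even y.1 y.2)⟩, y.2⟩
        left_inv := fun a => rfl
        right_inv := fun a => rfl }
    rw [Nat.card_congr e1, Nat.card_eq_fintype_card, Fintype.card_coe, Cfsg.Agent.Lib.A6Sylow.card_L0]
  let X' : Subgroup A := XN.map e.toMonoidHom
  have hX' : Nat.card X' = 8 := by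
    rw [← hX8]
    exact Subgroup.card_map_of_injective e.injective
  have hfac3 : (Nat.card A).factorization 2 = 3 := by
    rw [hcardA]
    have h5 : 3 ≤ (360 : ℕ).factorization 2 :=
      (Nat.Prime.pow_dvd_iff_le_factorization Nat.prime_two (by norm_num)).1 (by norm_num)
    have h6 : ¬ 4 ≤ (360 : ℕ).factorization 2 := fun h =>
      absurd ((Nat.Prime.pow_dvd_iff_le_factorization Nat.prime_two (by norm_num)).2 h) (by norm_num)
    omega
  haveI : Fact (Nat.Prime 2) := ⟨Nat.prime_two⟩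
  let S₁ : Sylow 2 A := Sylow.ofCard X' (by rw [hX', hfac3]; norm_num)
  let S₂ : Sylow 2 A := Sylow.ofCard X₀ (by rw [hX₀, hfac3]; norm_num)
  obtain ⟨g, hg⟩ := MulAction.exists_smul_eq A S₂ S₁
  have hg' : ∀ a : A, a ∈ X' ↔ g⁻¹ * a * g ∈ X₀ := by
    intro a
    have h1 : (X' : Subgroup A) = X₀.map (MulAut.conj g).toMonoidHom := by
      have : ((g • S₂ : Sylow 2 A) : Subgroup A) = (S₁ : Subgroup A) := by rw [hg]
      exact this.symm
    rw [h1]
    constructor
    · rintro ⟨b, hb, rfl⟩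
      have : g⁻¹ * (MulAut.conj g).toMonoidHom b * g = b := by
        simp [MulAut.conj_apply]
        group
      rw [this]
      exact hb
    · intro h
      refine ⟨_, h, ?_⟩
      simp [MulAut.conj_apply]
      group
  let θ : N →* Equiv.Perm (Fin 6) :=
    A.subtype.comp ((MulAut.conj g⁻¹).toMonoidHom.comp e.toMonoidHom)
  have hθ : Function.Injective θ := by
    intro a b hab
    have h1 : (MulAut.conj g⁻¹) (e a) = (MulAut.conj g⁻¹) (e b) := Subtype.ext hab
    exact e.injective ((MulAut.conj g⁻¹).injective h1)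
  have hθapply : ∀ a : N, θ a = ((g⁻¹ * e a * g : A) : Equiv.Perm (Fin 6)) := by
    intro a
    simp [θ, MulAut.conj_apply]
  have hrange : ∀ y : Equiv.Perm (Fin 6), Equiv.Perm.sign y = 1 → ∃ n, θ n = y := by
    intro y hy
    refine ⟨e.symm (g * ⟨y, Equiv.Perm.mem_alternatingGroup.2 hy⟩ * g⁻¹), ?_⟩
    rw [hθapply]
    simp
    group
  have heven : ∀ n, Equiv.Perm.sign (θ n) = 1 := by
    intro a
    rw [hθapply]
    exact Equiv.Perm.mem_alternatingGroup.1 (g⁻¹ * e a * g).2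
  have hXθ : ∀ a : N, (a : G) ∈ HH ↔ θ a ∈ Cfsg.Agent.Lib.A6Sylow.L0 := by
    intro a
    rw [hθapply]
    have h1 : (a : G) ∈ HH ↔ a ∈ XN := Iff.rfl
    have h2 : a ∈ XN ↔ e a ∈ X' := by
      constructor
      · intro h
        exact ⟨a, h, rfl⟩
      · rintro ⟨b, hb, hba⟩
        have : b = a := e.injective hba
        rwa [← this]
    rw [h1, h2, hg']
    exact Iff.rfl
  intro hbot
  have h1 : ∀ b ∈ HH, (n : G) * b * (n : G)⁻¹ ∈ HH → b = 1 := by
    intro b hb hnb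
    have h2 : MulAut.conj (h₀ * n) • b ∈ MulAut.conj (h₀ * n) • (H : Subgroup G) :=
      Subgroup.smul_mem_pointwise_smul _ _ _ hb
    have e2 : MulAut.conj (h₀ * n) • b = h₀ * (n * b * n⁻¹) * h₀⁻¹ := by
      rw [MulAut.smul_def, MulAut.conj_apply]
      group
    have h3 : MulAut.conj (h₀ * n) • b ∈ (H : Subgroup G) := by
      rw [e2]
      exact H.1.mul_mem (H.1.mul_mem hh₀ hnb) (H.1.inv_mem hh₀)
    have h4 : MulAut.conj (h₀ * n) • b ∈ (H : Subgroup G) ⊓ MulAut.conj (h₀ * n) • (H : Subgroup G) := ⟨h3, h2⟩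
    rw [hbot, Subgroup.mem_bot] at h4
    rw [MulAut.smul_def, MulAut.conj_apply] at h4
    have : h₀ * n * b = h₀ * n := by
      calc h₀ * n * b = h₀ * n * b * (h₀ * n)⁻¹ * (h₀ * n) := by group
        _ = h₀ * n := by rw [h4, one_mul]
    exact mul_eq_left.1 this
  exact core HH N θ hθ hrange heven hXθ hH ⟨n, hn⟩ h1

end Cfsg.Agent.S2488
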