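import Cfsg.Statements.S2504
import Cfsg.Agent.Lib.AbPerm

set_option autoImplicit false
open Cfsg

namespace Cfsg.Agent.S2504


open Equiv MulAction Cfsg.Agent.Lib.AbPerm

theorem num1 (k s m : ℕ) (hk : 2 ≤ k) (h1 : 1 ≤ s) (h2 : s ≠ 2) (h3 : s ≠ 3) (hsum : s + m = 3 * k + 2) :
    s * g m ≤ 16 * 3 ^ (k - 2) := by
  obtain ⟨j, rfl⟩ : ∃ j, k = j + 2 := ⟨k - 2, by omega⟩
  simp only [Nat.add_sub_cancel]
  have hpos : 0 < 3 ^ j := by positivity
  by_cases hs1 : s = 1
  · subst hs1
    have : m = 3 * (j + 2) + 1 := by omega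
    rw [this, g_3_1 _ (by omega)]
    simp only [show j + 2 - 1 = j + 1 by omega, pow_succ]
    omega
  by_cases hs4 : s = 4
  · subst hs4
    have : m = 3 * (j + 1) + 1 := by omega
    rw [this, g_3_1 _ (by omega)]
    simp only [show j + 1 - 1 = j by omega]
    omega
  by_cases hs5 : s = 5
  · subst hs5
    have : m = 3 * (j + 1) := by omega
    rw [this, g_3 _ (by omega), pow_succ]
    omega
  obtain ⟨t, rfl⟩ : ∃ t, s = t + 3 := ⟨s - 3, by omega⟩
  have h6 := mul_g_le _ t m le_rfl
  have h7 := g_three (t + m)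
  have h8 : t + m + 3 = 3 * (j + 2) + 2 := by omega
  rw [h8, g_3_2, pow_add] at h7
  have h9 : 3 ≤ t := by omega
  have h10 : (t + 3) * g m ≤ 2 * (t * g m) := by nlinarith [Nat.zero_le (g m)]
  norm_num at h7
  omega

section parity
variable {X : Type*} [Finite X] [DecidableEq X] [Fintype X]

theorem pow_card_fix (A : Subgroup (Perm X)) [hc : IsMulCommutative A] (t : A) (y : X) :
    t ^ Nat.card (orbit A y) • y = y := by
  haveI : (stabilizer A y).Normal := by
    constructor
    intro n hn g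
    have : g * n * g⁻¹ = n := by
      rw [hc.is_comm.comm g n, mul_assoc, mul_inv_cancel, mul_one]
    rwa [this]
  have h := Subgroup.pow_index_mem (stabilizer A y) t
  have h2 : (stabilizer A y).index = Nat.card (orbit A y) := by
    exact index_stabilizer A y
  rw [h2] at h
  exact h

theorem parity (A : Subgroup (Perm X)) [hc : IsMulCommutative A]
    (halt : A ≤ alternatingGroup X) (x : X) (hx : Nat.card (orbit A x) = 2)
    (h3 : ∀ y, y ∉ orbit A x → Nat.card (orbit A y) = 3) : False := by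
  classical
  -- an element moving `x`
  obtain ⟨t, ht⟩ : ∃ t : A, t • x ≠ x := by
    by_contra hcon
    push_neg at hcon
    have : orbit A x = {x} := by
      ext y
      constructor
      · rintro ⟨t, rfl⟩
        exact hcon t
      · rintro rfl
        exact mem_orbit_self _
    rw [this] at hx
    simp at hx
  have h2x : t ^ 2 • x = x := by
    have := pow_card_fix A t x
    rwa [hx] at this
  have horb : orbit A x = {x, t • x} := by
    symm
    apply Set.eq_of_subset_of_ncard_le
    · intro y hy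
      rcases hy with rfl | rfl
      · exact mem_orbit_self _
      · exact mem_orbit _ _
    · rw [Set.ncard_pair ht.symm, ← hx]
      exact le_of_eq (Nat.card_coe_set_eq _).symm
    · exact Set.toFinite _
  have hu : ((t ^ 3 : A) : Perm X) = swap x (t • x) := by
    ext y
    show (t ^ 3 : A) • y = _
    by_cases h1 : y = x
    · subst h1
      rw [swap_apply_left, pow_succ', mul_smul, h2x]
    by_cases h2 : y = t • x
    · subst h2
      rw [swap_apply_right, smul_smul, ← pow_succ, pow_succ', mul_smul, pow_succ', mul_smul, h2x]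
      rw [← mul_smul, ← pow_two, h2x]
    · rw [swap_apply_of_ne_of_ne h1 h2]
      have hy : y ∉ orbit A x := by
        rw [horb]
        rintro (h | h)
        · exact h1 h
        · exact h2 h
      have := pow_card_fix A t y
      rwa [h3 y hy] at this
  have hmem : ((t ^ 3 : A) : Perm X) ∈ alternatingGroup X := halt (t ^ 3).2
  rw [hu, Perm.mem_alternatingGroup, Perm.sign_swap ht.symm] at hmem
  exact absurd hmem (by decide)

end parity

theorem prod_le_g' {Ω : Type*} [DecidableEq Ω] (s : Ω → ℕ) (T : Finset Ω) : ∏ ω ∈ T, s ω ≤ g (∑ ω ∈ T, s ω) := by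
  induction T using Finset.induction_on with
  | empty => simp [g]
  | insert a T ha ih =>
    rw [Finset.prod_insert ha, Finset.sum_insert ha]
    exact (Nat.mul_le_mul_left _ ih).trans (mul_g_le _ _ _ le_rfl)

theorem alt_bound (k : ℕ) (hk : 2 ≤ k) (A : Subgroup (Perm (Fin (3 * k + 2)))) [IsMulCommutative A]
    (halt : A ≤ alternatingGroup _) : Nat.card A ≤ 16 * 3 ^ (k - 2) := by
  classical
  haveI : Fintype (orbitRel.Quotient A (Fin (3 * k + 2))) := Fintype.ofFinite _
  set s : orbitRel.Quotient A (Fin (3 * k + 2)) → ℕ := fun ω => Nat.card ω.orbit with hs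
  have h1 : Nat.card A ≤ ∏ ω, s ω := card_le_prod A
  have hsum : ∑ ω, s ω = 3 * k + 2 := by
    have := sum_card_orbit A
    rwa [Nat.card_eq_fintype_card, Fintype.card_fin] at this
  have hpos : ∀ ω, 1 ≤ s ω := by
    intro ω
    rw [Nat.succ_le_iff, Nat.card_pos_iff]
    refine ⟨?_, inferInstance⟩
    exact ⟨⟨ω.out, by rw [orbitRel.Quotient.mem_orbit]; exact Quotient.out_eq' ω⟩⟩
  refine h1.trans ?_
  by_cases hc1 : ∃ ω, s ω ≠ 2 ∧ s ω ≠ 3
  · obtain ⟨ω, h2, h3⟩ := hc1
    rw [← Finset.mul_prod_erase Finset.univ s (Finset.mem_univ ω)]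
    refine (Nat.mul_le_mul_left _ (prod_le_g' s _)).trans ?_
    apply num1 k _ _ hk (hpos ω) h2 h3
    rw [Finset.add_sum_erase _ _ (Finset.mem_univ ω), hsum]
  push_neg at hc1
  by_cases hc2 : ∃ ω₁ ω₂, ω₁ ≠ ω₂ ∧ s ω₁ = 2 ∧ s ω₂ = 2
  · obtain ⟨ω₁, ω₂, hne, h2, h3⟩ := hc2
    rw [← Finset.mul_prod_erase Finset.univ s (Finset.mem_univ ω₁),
      ← Finset.mul_prod_erase (Finset.univ.erase ω₁) s (Finset.mem_erase.2 ⟨hne.symm, Finset.mem_univ _⟩)]
    have h4 := prod_le_g' s ((Finset.univ.erase ω₁).erase ω₂)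
    have h5 : 4 + ∑ ω ∈ (Finset.univ.erase ω₁).erase ω₂, s ω = 3 * k + 2 := by
      have h7 := hsum
      rw [← Finset.add_sum_erase Finset.univ s (Finset.mem_univ ω₁),
        ← Finset.add_sum_erase (Finset.univ.erase ω₁) s (Finset.mem_erase.2 ⟨hne.symm, Finset.mem_univ _⟩), h2, h3] at h7
      omega
    have h6 := num1 k 4 _ hk (by omega) (by omega) (by omega) h5
    rw [h2, h3]
    nlinarith
  push_neg at hc2
  exfalso
  -- exactly one orbit of size 2
  have hex : ∃ ω, s ω = 2 := by
    by_contra hcon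
    push_neg at hcon
    have hall : ∀ ω, s ω = 3 := fun ω => by
      by_contra h
      exact h (hc1 ω (hcon ω))
    rw [Finset.sum_congr rfl (fun ω _ => hall ω)] at hsum
    simp only [Finset.sum_const, smul_eq_mul] at hsum
    omega
  obtain ⟨ω₀, h0⟩ := hex
  have hmk : ∀ y : Fin (3 * k + 2), Nat.card (orbit A y) = s (Quotient.mk'' y) := fun y => rfl
  obtain ⟨x, rfl⟩ : ∃ x : Fin (3 * k + 2), (Quotient.mk'' x : orbitRel.Quotient A (Fin (3 * k + 2))) = ω₀ :=
    ⟨ω₀.out, Quotient.out_eq' ω₀⟩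
  apply parity A halt x (by rw [hmk]; exact h0)
  intro y hy
  rw [hmk]
  apply hc1 _
  intro h2
  apply hy
  by_contra hy2
  have hne : (Quotient.mk'' x : orbitRel.Quotient A (Fin (3 * k + 2))) ≠ Quotient.mk'' y := by
    intro h
    exact hy (Quotient.exact' h.symm)
  exact hc2 _ _ hne h0 h2


/-- The largest order of an abelian subgroup of the alternating group of degree n is 3^k when n = 3k, 4·3^(k−1) when n = 3k + 1, and 16·3^(k−2) when n = 3k + 2, for every k ≥ 2 (so for all degrees n ≥ 6). -/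
theorem result (k : ℕ) (hk : 2 ≤ k) :
    IsGreatest {c : ℕ | ∃ A : Subgroup (alternatingGroup (Fin (3 * k))), IsMulCommutative A ∧ Nat.card A = c} (3 ^ k) ∧
    IsGreatest {c : ℕ | ∃ A : Subgroup (alternatingGroup (Fin (3 * k + 1))), IsMulCommutative A ∧ Nat.card A = c}
      (4 * 3 ^ (k - 1)) ∧
    IsGreatest {c : ℕ | ∃ A : Subgroup (alternatingGroup (Fin (3 * k + 2))), IsMulCommutative A ∧ Nat.card A = c}
      (16 * 3 ^ (k - 2)) := by
  have key : ∀ n : ℕ, ∀ A : Subgroup (alternatingGroup (Fin n)), IsMulCommutative A → Nat.card A ≤ g n := by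
    intro n A hA
    obtain ⟨B, hB, -, h⟩ := to_perm A
    rw [← h]
    have := card_le_g B
    simpa using this
  refine ⟨⟨of_alt (AbA_3k k), ?_⟩, ⟨of_alt (AbA_3k1 k (by omega)), ?_⟩, ⟨of_alt (AbA_3k2 k hk), ?_⟩⟩
  · rintro c ⟨A, hA, rfl⟩
    have := key _ A hA
    rwa [g_3 k (by omega)] at this
  · rintro c ⟨A, hA, rfl⟩
    have := key _ A hA
    rwa [g_3_1 k (by omega)] at this
  · rintro c ⟨A, hA, rfl⟩
    obtain ⟨B, hB, hle, h⟩ := to_perm A
    rw [← h]
    exact alt_bound k hk B hle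

end Cfsg.Agent.S2504
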