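import Cfsg.Statements.S2505
import Cfsg.Agent.Lib.AbPerm

set_option autoImplicit false
open Cfsg

namespace Cfsg.Agent.S2505

/-- The largest order of an abelian subgroup of the symmetric group of degree n is 3^k when n = 3k, 4·3^(k−1) when n = 3k + 1, and 2·3^k when n = 3k + 2, for every k ≥ 1. -/
theorem result (k : ℕ) (hk : 1 ≤ k) :
    IsGreatest {c : ℕ | ∃ A : Subgroup (Equiv.Perm (Fin (3 * k))), IsMulCommutative A ∧ Nat.card A = c} (3 ^ k) ∧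
    IsGreatest {c : ℕ | ∃ A : Subgroup (Equiv.Perm (Fin (3 * k + 1))), IsMulCommutative A ∧ Nat.card A = c}
      (4 * 3 ^ (k - 1)) ∧
    IsGreatest {c : ℕ | ∃ A : Subgroup (Equiv.Perm (Fin (3 * k + 2))), IsMulCommutative A ∧ Nat.card A = c}
      (2 * 3 ^ k) := by
  open Cfsg.Agent.Lib.AbPerm in
  have key : ∀ n : ℕ, ∀ A : Subgroup (Equiv.Perm (Fin n)), IsMulCommutative A → Nat.card A ≤ g n := by
    intro n A hA
    have := card_le_g A
    simpa using this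
  refine ⟨⟨?_, ?_⟩, ⟨?_, ?_⟩, ⟨?_, ?_⟩⟩
  · obtain ⟨A, hA, h⟩ := (AbA_3k k).ab
    exact ⟨A, hA, h⟩
  · rintro c ⟨A, hA, rfl⟩
    have := key _ A hA
    rwa [g_3 k hk] at this
  · obtain ⟨A, hA, h⟩ := (AbA_3k1 k hk).ab
    exact ⟨A, hA, h⟩
  · rintro c ⟨A, hA, rfl⟩
    have := key _ A hA
    rwa [g_3_1 k hk] at this
  · obtain ⟨A, hA, h⟩ := Ab_3k2 k
    exact ⟨A, hA, h⟩
  · rintro c ⟨A, hA, rfl⟩
    have := key _ A hA
    rwa [g_3_2 k] at this

end Cfsg.Agent.S2505
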