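import Cfsg.Statements.S2513
import Cfsg.Agent.Lib.GLOrders

set_option autoImplicit false
open Cfsg

namespace Cfsg.Agent.S2513


open Cfsg.Agent.Lib.GLOrders

theorem range_eq {L : Type*} [Group L] [Finite L] {k₀ k : ℕ} (h : k₀ ≤ k) (y : Fin k₀ → L)
    (hy : ∀ x : L, x ^ orderOf y = 1) :
    Set.range (orderOf : (Fin k → L) → ℕ) = Set.range (orderOf : (Fin k₀ → L) → ℕ) := by
  classical
  ext m
  constructor
  · rintro ⟨x, rfl⟩
    have h1 : orderOf x ∣ orderOf y := by
      apply orderOf_dvd_of_pow_eq_one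
      funext i
      exact hy (x i)
    exact ⟨y ^ (orderOf y / orderOf x), orderOf_pow_orderOf_div (orderOf_pos y).ne' h1⟩
  · rintro ⟨z, rfl⟩
    refine ⟨fun i => if hi : (i : ℕ) < k₀ then z ⟨i, hi⟩ else 1, ?_⟩
    rw [orderOf_eq_orderOf_iff]
    intro n
    constructor
    · intro h1
      funext i
      have h2 := congrFun h1 ⟨i, i.2.trans_le h⟩
      simp only [Pi.pow_apply, Pi.one_apply, i.2, dif_pos] at h2
      exact h2
    · intro h1
      funext i
      by_cases hi : (i : ℕ) < k₀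
      · have h2 := congrFun h1 ⟨i, hi⟩
        simp only [Pi.pow_apply, Pi.one_apply] at h2
        simp only [Pi.pow_apply, Pi.one_apply, hi, dif_pos]
        exact h2
      · simp [hi]

section
variable {F : Type*} [Field F] [Fintype F]

theorem gl_sl (hF : Fintype.card F = 2) {n : ℕ} (g : GL (Fin n) F) :
    ∃ g' : Matrix.SpecialLinearGroup (Fin n) F, orderOf g' = orderOf g := by
  have h1 : ∀ x : F, x ≠ 0 → x = 1 := by
    intro x hx
    have := FiniteField.pow_card_sub_one_eq_one x hx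
    rwa [hF, show 2 - 1 = 1 by rfl, pow_one] at this
  have h2 : g.1.det ≠ 0 := by
    have := g.isUnit
    exact ((Matrix.isUnit_iff_isUnit_det _).1 this).ne_zero
  let g' : Matrix.SpecialLinearGroup (Fin n) F := ⟨g.1, h1 _ h2⟩
  refine ⟨g', ?_⟩
  have h3 : Function.Injective (Matrix.SpecialLinearGroup.toGL : Matrix.SpecialLinearGroup (Fin n) F →* GL (Fin n) F) := by
    intro A B h
    apply Subtype.ext
    exact congrArg Units.val h
  rw [← orderOf_injective _ h3 g']
  congr 1
  exact Units.ext rfl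

theorem center_trivial (hF : Fintype.card F = 2) {n : ℕ} (hn : 1 ≤ n) :
    Subgroup.center (Matrix.SpecialLinearGroup (Fin n) F) = ⊥ := by
  have h1 : ∀ x : F, x ≠ 0 → x = 1 := by
    intro x hx
    have := FiniteField.pow_card_sub_one_eq_one x hx
    rwa [hF, show 2 - 1 = 1 by rfl, pow_one] at this
  rw [eq_bot_iff]
  intro A hA
  rw [Matrix.SpecialLinearGroup.mem_center_iff] at hA
  obtain ⟨r, hr, hA⟩ := hA
  have hr0 : r ≠ 0 := by
    rintro rfl
    rw [zero_pow (by simp; omega)] at hr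
    exact zero_ne_one hr
  rw [h1 r hr0] at hA
  rw [Subgroup.mem_bot]
  apply Subtype.ext
  rw [← hA]
  simp

/-- The exponent of `GL_n(2)` is attained by `⌊(n+3)/2⌋` coordinates. -/
theorem exists_tuple (hF : Fintype.card F = 2) {n : ℕ} (hn : 2 ≤ n) :
    ∃ y : Fin ((n + 3) / 2) → Matrix.SpecialLinearGroup (Fin n) F,
      ∀ g : Matrix.SpecialLinearGroup (Fin n) F, g ^ orderOf y = 1 := by
  classical
  haveI : Fact (Nat.Prime 2) := ⟨Nat.prime_two⟩
  haveI : CharP F 2 := charP_of_card_eq_prime hF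
  set a := Nat.clog 2 n with ha
  have hP : ∀ i : Fin ((n + 3) / 2), ∃ y : Matrix.SpecialLinearGroup (Fin n) F,
      ((i : ℕ) = 0 → 2 ^ a ∣ orderOf y) ∧ ((i : ℕ) = 1 → 2 ^ n - 1 ∣ orderOf y) ∧
      (∀ j, (i : ℕ) = j + 2 → 2 ^ (j + 1) - 1 ∣ orderOf y ∧ 2 ^ (n - (j + 1)) - 1 ∣ orderOf y) := by
    intro i
    have hi := i.2
    match hi' : (i : ℕ) with
    | 0 =>
      refine ⟨runip n F, fun _ => ?_, fun h => by omega, fun j h => by omega⟩
      rw [runip_order 2 n hn]
    | 1 =>
      obtain ⟨g, hg⟩ := exists_gl_singer (F := F) 2 (by omega : n ≠ 0)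
      obtain ⟨g', hg'⟩ := gl_sl hF g
      refine ⟨g', fun h => by omega, fun _ => ?_, fun j h => by omega⟩
      rw [hg', hg, hF]
    | j + 2 =>
      have hjn : 2 * (j + 1) < n := by omega
      obtain ⟨g, hg1, hg2⟩ := exists_gl_pair (F := F) 2 (d := j + 1) (e := n - (j + 1)) (n := n) (by omega) (by omega) (by omega)
      obtain ⟨g', hg'⟩ := gl_sl hF g
      refine ⟨g', fun h => by omega, fun h => by omega, fun j' h => ?_⟩
      obtain rfl : j = j' := by omega
      rw [hg']
      rw [hF] at hg1 hg2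
      exact ⟨hg1, hg2⟩
  choose y hy using hP
  refine ⟨y, ?_⟩
  set E := orderOf y with hE
  have hdvd : ∀ i, orderOf (y i) ∣ E := fun i => by
    apply orderOf_dvd_of_pow_eq_one
    have : y ^ E = 1 := pow_orderOf_eq_one y
    exact congrFun this i
  have hE0 : E ≠ 0 := (orderOf_pos y).ne'
  have hk : 2 ≤ (n + 3) / 2 := by omega
  have h2a : 2 ^ a ∣ E := ((hy ⟨0, by omega⟩).1 rfl).trans (hdvd _)
  have hsing : 2 ^ n - 1 ∣ E := ((hy ⟨1, by omega⟩).2.1 rfl).trans (hdvd _)
  have hall : ∀ d, 1 ≤ d → d ≤ n → 2 ^ d - 1 ∣ E := by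
    intro d hd1 hdn
    by_cases hdn' : d = n
    · rw [hdn']; exact hsing
    by_cases h2d : 2 * d = n
    · refine dvd_trans ?_ hsing
      rw [← h2d, mul_comm, pow_mul]
      simpa using Nat.sub_dvd_pow_sub_pow (2 ^ d) 1 2
    by_cases hlt : 2 * d < n
    · obtain ⟨j, rfl⟩ : ∃ j, d = j + 1 := ⟨d - 1, by omega⟩
      exact ((hy ⟨j + 2, by omega⟩).2.2 j rfl).1.trans (hdvd _)
    · obtain ⟨j, hj⟩ : ∃ j, n - d = j + 1 := ⟨n - d - 1, by omega⟩
      have h3 := ((hy ⟨j + 2, by omega⟩).2.2 j rfl).2.trans (hdvd ⟨j + 2, by omega⟩)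
      have h4 : n - (j + 1) = d := by omega
      rwa [h4] at h3
  -- the odd part
  obtain ⟨b, T, hT, hET⟩ := Nat.exists_eq_two_pow_mul_odd hE0
  have hcop : Nat.Coprime (2 ^ a) T := Nat.Coprime.pow_left _ (Nat.coprime_two_left.2 hT)
  have hab : 2 ^ a ∣ 2 ^ b := by
    rw [hET] at h2a
    exact hcop.dvd_of_dvd_mul_right h2a
  have hTd : ∀ d, 1 ≤ d → d ≤ n → Fintype.card F ^ d - 1 ∣ T := by
    intro d hd1 hdn
    rw [hF]
    have h5 := hall d hd1 hdn
    rw [hET] at h5
    have hodd : Odd (2 ^ d - 1) := by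
      have : 2 ≤ 2 ^ d := by
        calc 2 = 2 ^ 1 := rfl
          _ ≤ 2 ^ d := Nat.pow_le_pow_right (by norm_num) hd1
      obtain ⟨c, hc⟩ : 2 ∣ 2 ^ d := dvd_pow_self 2 (by omega)
      exact ⟨c - 1, by omega⟩
    have hc2 : Nat.Coprime (2 ^ d - 1) (2 ^ b) :=
      Nat.Coprime.pow_right _ (Nat.coprime_two_right.2 hodd)
    exact hc2.dvd_of_dvd_mul_left h5
  intro g
  have hg0 : (g.1).det ≠ 0 := by
    rw [g.2]; exact one_ne_zero
  have h6 := pow_eq_one_of_exp 2 (by omega : 1 ≤ n) g.1 hg0 T a hTd (Nat.le_pow_clog (by norm_num) n)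
  have h7 : g ^ (2 ^ a * T) = 1 := by
    apply Subtype.ext
    refine (Matrix.SpecialLinearGroup.coe_pow g _).trans ?_
    exact h6
  have h8 : 2 ^ a * T ∣ E := by
    rw [hET]
    exact Nat.mul_dvd_mul_right hab T
  obtain ⟨c, hc⟩ := h8
  rw [hc, pow_mul, h7, one_pow]

end


/-- Let F be the field with two elements, n ≥ 2, L = PSL(n, F) and k₀ = ⌊(n + 3)/2⌋. Then for every k ≥ k₀ the direct product of k copies of L has the same set of element orders as the direct product of k₀ copies of L. -/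
theorem result {F : Type*} [Field F] [Fintype F] (hF : Fintype.card F = 2) (n k : ℕ) (hn : 2 ≤ n) (hk : (n + 3) / 2 ≤ k) :
    Set.range (orderOf : (Fin k → Matrix.ProjectiveSpecialLinearGroup (Fin n) F) → ℕ) = Set.range (orderOf : (Fin ((n + 3) / 2) → Matrix.ProjectiveSpecialLinearGroup (Fin n) F) → ℕ) := by
  classical
  have hcen := center_trivial hF (by omega : 1 ≤ n)
  let π : Matrix.SpecialLinearGroup (Fin n) F →* Matrix.ProjectiveSpecialLinearGroup (Fin n) F :=
    QuotientGroup.mk' _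
  have hπs : Function.Surjective π := QuotientGroup.mk'_surjective _
  have hπi : Function.Injective π := by
    rw [injective_iff_map_eq_one]
    intro a ha
    have h1 : a ∈ Subgroup.center (Matrix.SpecialLinearGroup (Fin n) F) := (QuotientGroup.eq_one_iff _).1 ha
    rw [hcen] at h1
    exact h1
  obtain ⟨y, hy⟩ := exists_tuple hF hn
  refine range_eq hk (fun i => π (y i)) ?_
  intro x
  obtain ⟨g, rfl⟩ := hπs x
  have h1 : orderOf (fun i => π (y i)) = orderOf y := by
    rw [orderOf_eq_orderOf_iff]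
    intro m
    constructor
    · intro h
      funext i
      apply hπi
      have := congrFun h i
      simpa using this
    · intro h
      funext i
      have := congrFun h i
      simp only [Pi.pow_apply, Pi.one_apply] at this ⊢
      rw [← map_pow, this, map_one]
  rw [h1, ← map_pow, hy, map_one]

end Cfsg.Agent.S2513
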