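import Cfsg.Statements.S2516

set_option autoImplicit false
open Cfsg

namespace Cfsg.Agent.S2516

/-- Let F be a field of characteristic p > 0, V a non-zero finite-dimensional F-vector space, G a finite group and ρ a representation of G on V; form the semidirect product V ⋊ G. For g ∈ G of order k, the coset Vg contains an element of order pk if and only if the minimal polynomial of ρ(g) does not divide 1 + X + ⋯ + X^(k−1). -/
theorem result {F : Type*} [Field F] (p : ℕ) [Fact p.Prime] [CharP F p] {V : Type*} [AddCommGroup V] [Module F V] [FiniteDimensional F V] [Nontrivial V]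
    {G : Type*} [Group G] [Finite G] (ρ : Representation F G V) (g : G) :
    (∃ x : Multiplicative V ⋊[(MulAutMultiplicative V).symm.toMonoidHom.comp
        ((DistribMulAction.toAddAut ((V →ₗ[F] V)ˣ) V).comp ρ.asGroupHom)] G,
        x.right = g ∧ orderOf x = p * orderOf g) ↔
      ¬ (minpoly F (ρ g) ∣ ∑ i ∈ Finset.range (orderOf g), (Polynomial.X : Polynomial F) ^ i) := by
  classical
  set φ : G →* MulAut (Multiplicative V) := (MulAutMultiplicative V).symm.toMonoidHom.comp
        ((DistribMulAction.toAddAut ((V →ₗ[F] V)ˣ) V).comp ρ.asGroupHom) with hφ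
  have hφv : ∀ (h : G) (w : V), φ h (Multiplicative.ofAdd w) = Multiplicative.ofAdd (ρ h w) := fun _ _ => rfl
  set k := orderOf g with hk
  have hk0 : 0 < k := orderOf_pos g
  set T : V →ₗ[F] V := ∑ i ∈ Finset.range k, (ρ g) ^ i with hT
  have hdvd : minpoly F (ρ g) ∣ ∑ i ∈ Finset.range k, (Polynomial.X : Polynomial F) ^ i ↔ T = 0 := by
    rw [minpoly.dvd_iff]
    simp [hT]
  rw [hdvd]
  have hpow : ∀ (v : V) (n : ℕ), ((⟨Multiplicative.ofAdd v, g⟩ : Multiplicative V ⋊[φ] G) ^ n) =
      ⟨Multiplicative.ofAdd (∑ i ∈ Finset.range n, ((ρ g) ^ i) v), g ^ n⟩ := by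
    intro v n
    induction n with
    | zero =>
      rw [pow_zero]
      simp only [Finset.range_zero, Finset.sum_empty, pow_zero, ofAdd_zero]
      rfl
    | succ n ih =>
      rw [pow_succ, ih]
      apply SemidirectProduct.ext
      · simp only [SemidirectProduct.mul_left, hφv, Finset.sum_range_succ]
        rw [← ofAdd_add]
        simp only [map_pow]
      · show g ^ n * g = g ^ (n + 1)
        rw [pow_succ]
  have hone : ∀ w : V, (⟨Multiplicative.ofAdd w, 1⟩ : Multiplicative V ⋊[φ] G) = 1 ↔ w = 0 := by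
    intro w
    constructor
    · intro h
      have := congrArg SemidirectProduct.left h
      simpa using this
    · rintro rfl
      rfl
  have hTv : ∀ v : V, ∑ i ∈ Finset.range k, ((ρ g) ^ i) v = T v := by
    intro v
    simp [hT]
  have hkpow : ∀ v : V, ((⟨Multiplicative.ofAdd v, g⟩ : Multiplicative V ⋊[φ] G) ^ k) = ⟨Multiplicative.ofAdd (T v), 1⟩ := by
    intro v
    rw [hpow, hTv, hk, pow_orderOf_eq_one]
  constructor
  · rintro ⟨x, hx, hord⟩ hT0
    obtain ⟨l, r⟩ := x
    simp only at hx
    subst hx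
    have h1 := hkpow (Multiplicative.toAdd l)
    simp only [ofAdd_toAdd, hT0, LinearMap.zero_apply, ofAdd_zero] at h1
    have h2 : orderOf (⟨l, r⟩ : Multiplicative V ⋊[φ] G) ∣ k := orderOf_dvd_of_pow_eq_one h1
    rw [hord] at h2
    have h3 := Nat.le_of_dvd hk0 h2
    have hp2 : 2 ≤ p := (Fact.out : p.Prime).two_le
    have : 2 * k ≤ p * k := Nat.mul_le_mul_right k hp2
    omega
  · intro hT0
    obtain ⟨v, hv⟩ : ∃ v, T v ≠ 0 := by
      by_contra hno
      push Not at hno
      exact hT0 (LinearMap.ext hno)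
    refine ⟨⟨Multiplicative.ofAdd v, g⟩, rfl, ?_⟩
    set x : Multiplicative V ⋊[φ] G := ⟨Multiplicative.ofAdd v, g⟩ with hx
    have hp := (Fact.out : p.Prime)
    -- `x ^ (k * p) = 1`
    have hxk := hkpow v
    have hpw : ∀ (w : V) (n : ℕ), ((⟨Multiplicative.ofAdd w, 1⟩ : Multiplicative V ⋊[φ] G) ^ n) = ⟨Multiplicative.ofAdd (n • w), 1⟩ := by
      intro w n
      induction n with
      | zero =>
        rw [pow_zero]
        simp only [zero_nsmul, ofAdd_zero]
        rfl
      | succ n ih =>
        rw [pow_succ, ih]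
        apply SemidirectProduct.ext
        · simp only [SemidirectProduct.mul_left, map_one]
          rw [MulAut.one_apply, ← ofAdd_add, add_nsmul, one_nsmul]
        · show (1 : G) * 1 = 1
          simp
    have hpzero : p • T v = 0 := by
      rw [← Nat.cast_smul_eq_nsmul F, CharP.cast_eq_zero, zero_smul]
    have h1 : x ^ (p * k) = 1 := by
      rw [mul_comm, pow_mul, hxk, hpw, hpzero]
      rfl
    have h2 : k ∣ orderOf x := by
      have := orderOf_map_dvd (SemidirectProduct.rightHom : Multiplicative V ⋊[φ] G →* G) x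
      simpa [hx] using this
    obtain ⟨d, hd⟩ := h2
    have h3 : orderOf x ∣ p * k := orderOf_dvd_of_pow_eq_one h1
    rw [hd, mul_comm k d] at h3
    have h4 : d ∣ p := Nat.dvd_of_mul_dvd_mul_right hk0 h3
    rcases (Nat.dvd_prime hp).1 h4 with rfl | rfl
    · exfalso
      have h5 : x ^ k = 1 := by
        rw [mul_one] at hd
        rw [← hd]
        exact pow_orderOf_eq_one x
      rw [hxk, hone] at h5
      exact hv h5
    · rw [hd, mul_comm]

end Cfsg.Agent.S2516
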