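import Cfsg.Statements.S2897
import Cfsg.Agent.Lib.CharPOver
import Cfsg.Agent.Lib.SylowIdx

set_option autoImplicit false
open Cfsg

namespace Cfsg.Agent.S2897

open Cfsg.Agent.Lib Cfsg.Agent.Lib.CharPOver


/-- Let p be a prime dividing the order of the finite group G, suppose G has parabolic characteristic p, let S be a Sylow p-subgroup of G and G₁ a normal subgroup of G. If Ω₁(Z(S ∩ G₁)) is nontrivial and contained in Ω₁(Z(S)), then G₁ has parabolic characteristic p. -/
theorem result {G : Type*} [Group G] [Finite G] {p : ℕ} [Fact p.Prime] (hdiv : p ∣ Nat.card G) (hG : Cfsg.IsOfParabolicCharacteristic p G) (S : Sylow p G) (G₁ : Subgroup G) [G₁.Normal] (hne : Cfsg.omegaOne p (((S : Subgroup G) ⊓ G₁) ⊓ Subgroup.centralizer (((S : Subgroup G) ⊓ G₁ : Subgroup G) : Set G)) ≠ ⊥) (hle : Cfsg.omegaOne p (((S : Subgroup G) ⊓ G₁) ⊓ Subgroup.centralizer (((S : Subgroup G) ⊓ G₁ : Subgroup G) : Set G)) ≤ Cfsg.omegaOne p ((S : Subgroup G) ⊓ Subgroup.centralizer ((S : Subgroup G) : Set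 G))) : Cfsg.IsOfParabolicCharacteristic p ↥G₁ := by
  obtain ⟨S₁, hS₁⟩ := SylowIdx.exists_sylow_inf S G₁
  rw [parabolic_iff S₁]
  intro z hz1 hz
  rw [hS₁] at hz
  obtain ⟨hzS, hzc, hzp⟩ := omega_mem hz
  have hzS' : (z : G) ∈ (S : Subgroup G) ⊓ G₁ := hzS
  have hz1' : (z : G) ≠ 1 := fun h => hz1 (Subtype.ext h)
  have hzc' : ∀ a ∈ (S : Subgroup G) ⊓ G₁, a * (z : G) = z * a := by
    intro a ha
    have := hzc ⟨a, ha.2⟩ (by exact ha)
    exact congrArg Subtype.val this
  have hzp' : (z : G) ^ p = 1 := by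
    have := congrArg Subtype.val hzp
    simpa using this
  have hz2 := hle (mem_omega hzS' hzc' hzp')
  have h3 := (parabolic_iff S).1 hG (z : G) hz1' hz2
  -- the centralizer in `G₁` is normal in the centralizer in `G`
  set Y := Subgroup.centralizer ({(z : G)} : Set G) with hY
  have h4 : CharIn p (G₁ ⊓ Y) := by
    refine char_of_le_normal inf_le_right ?_ h3
    have : ((G₁ ⊓ Y).subgroupOf Y) = G₁.subgroupOf Y := by
      ext y
      simp [Subgroup.mem_subgroupOf]
    rw [this]
    infer_instance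
  let e : Subgroup.centralizer ({z} : Set G₁) ≃* (G₁ ⊓ Y : Subgroup G) :=
    { toFun := fun c => ⟨c.1.1, c.1.2, Subgroup.mem_centralizer_singleton_iff.2 (congrArg Subtype.val (Subgroup.mem_centralizer_singleton_iff.1 c.2))⟩
      invFun := fun c => ⟨⟨c.1, c.2.1⟩, by
        rw [Subgroup.mem_centralizer_singleton_iff]
        apply Subtype.ext
        exact Subgroup.mem_centralizer_singleton_iff.1 c.2.2⟩
      left_inv := fun c => rfl
      right_inv := fun c => rfl
      map_mul' := fun a b => rfl }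
  exact PCore.centralizer_pCore_le_of_equiv e.symm h4

end Cfsg.Agent.S2897
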