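import Cfsg.Statements.S2898
import Cfsg.Agent.Lib.CharPOver
import Cfsg.Agent.Lib.SylowIdx
import Cfsg.Agent.Lib.FitSolv

set_option autoImplicit false
open Cfsg

namespace Cfsg.Agent.S2898

open Cfsg.Agent.Lib Cfsg.Agent.Lib.CharPOver


/-- Let G be a finite group of even order with parabolic characteristic 2. If the centre of G ⧸ O(G) is trivial, then O(G) = 1. -/
theorem result {G : Type*} [Group G] [Finite G] (h2 : 2 ∣ Nat.card G) (hG : Cfsg.IsOfParabolicCharacteristic 2 G) [hN : (Cfsg.oddCore G).Normal] (hZ : Subgroup.center (G ⧸ Cfsg.oddCore G) = ⊥) : Cfsg.oddCore G = ⊥ := by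
  classical
  haveI : Fact (Nat.Prime 2) := ⟨Nat.prime_two⟩
  set Q := Cfsg.oddCore G with hQdef
  by_contra hQ1
  obtain ⟨S⟩ : Nonempty (Sylow 2 G) := inferInstance
  have hSp : IsPGroup 2 (S : Subgroup G) := S.isPGroup'
  have hQodd : ¬ 2 ∣ Nat.card Q := FitCore.not_dvd_card_pPrimeCore 2 Nat.prime_two
  -- every involution of Ω₁(Z(S)) acts without fixed points on `Q`
  have hfpf : ∀ z : G, z ≠ 1 → z ∈ Cfsg.omegaOne 2 ((S : Subgroup G) ⊓ Subgroup.centralizer ((S : Subgroup G) : Set G)) →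
      ∀ x ∈ Q, x * z = z * x → x = 1 := by
    intro z hz1 hz x hxQ hxz
    have hchar := (parabolic_iff S).1 hG z hz1 hz
    set Y := Subgroup.centralizer ({z} : Set G) with hY
    have hxY : x ∈ Y := by
      rw [hY, Subgroup.mem_centralizer_singleton_iff]
      exact hxz
    haveI : (Q.subgroupOf Y).Normal := inferInstance
    have hcard : ¬ 2 ∣ Nat.card (Q.subgroupOf Y) := by
      intro h
      apply hQodd
      refine h.trans ?_
      let f : Q.subgroupOf Y →* Q :=
        { toFun := fun c => ⟨c.1.1, c.2⟩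
          map_one' := rfl
          map_mul' := fun _ _ => rfl }
      refine Subgroup.card_dvd_of_injective f ?_
      intro a b hab
      apply Subtype.ext
      apply Subtype.ext
      have h7 : ((f a : Q) : G) = f b := congrArg Subtype.val hab
      exact h7
    have h0 := normal_coprime_eq_bot hchar (Q.subgroupOf Y) hcard
    have hm : (⟨x, hxY⟩ : Y) ∈ Q.subgroupOf Y := hxQ
    rw [h0, Subgroup.mem_bot] at hm
    exact congrArg Subtype.val hm
  -- hence it inverts `Q`
  have hinv : ∀ z : G, z ≠ 1 → z ∈ Cfsg.omegaOne 2 ((S : Subgroup G) ⊓ Subgroup.centralizer ((S : Subgroup G) : Set G)) →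
      ∀ x ∈ Q, z * x * z⁻¹ = x⁻¹ := by
    intro z hz1 hz x hx
    obtain ⟨-, -, hz2⟩ := omega_mem hz
    have hzinv : z⁻¹ = z := by
      rw [inv_eq_iff_mul_eq_one, ← pow_two, hz2]
    let φ : Q ≃* Q := MulAut.conjNormal z
    have hφ : MonoidHom.FixedPointFree φ := by
      intro g hg
      apply Subtype.ext
      have h1 : z * (g : G) * z⁻¹ = g := by
        have := congrArg Subtype.val hg
        simpa [φ, MulAut.conjNormal_apply] using this
      apply hfpf z hz1 hz g g.2
      calc (g : G) * z = (z * (g : G) * z⁻¹) * z := by rw [h1]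
        _ = z * g := by group
    have h2 : Function.Involutive φ := by
      intro g
      apply Subtype.ext
      show z * (z * (g : G) * z⁻¹) * z⁻¹ = g
      rw [hzinv]
      calc z * (z * (g : G) * z) * z = (z * z) * g * (z * z) := by group
        _ = g := by rw [← pow_two, hz2]; group
    have h3 := congrFun (hφ.coe_eq_inv_of_involutive h2) ⟨x, hx⟩
    have h4 := congrArg Subtype.val h3
    simpa [φ, MulAut.conjNormal_apply] using h4
  have hS1 : (S : Subgroup G) ≠ ⊥ := S.ne_bot_of_dvd_card h2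
  obtain ⟨z, hzS, hzo, hzc⟩ := exists_central_self hSp hS1
  have hz1 : z ≠ 1 := by
    rintro rfl
    rw [orderOf_one] at hzo
    omega
  have hz2 : z ^ 2 = 1 := by rw [← hzo]; exact pow_orderOf_eq_one z
  have hzom := mem_omega hzS hzc hz2
  have hzinv : z⁻¹ = z := by
    rw [inv_eq_iff_mul_eq_one, ← pow_two, hz2]
  -- the centralizer of `Q` has odd order
  set C := Subgroup.centralizer (Q : Set G) with hC
  haveI hQn : Q.Normal := hN
  haveI hCn : C.Normal := inferInstance
  have hCQ : C ≤ Q := by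
    apply FitSolv.le_pPrimeCore 2 C hCn
    rw [Nat.coprime_two_right, ← Nat.not_even_iff_odd, even_iff_two_dvd]
    intro h2C
    obtain ⟨R, hR⟩ := SylowIdx.exists_sylow_inf S C
    have hR1 : (R : Subgroup C) ≠ ⊥ := R.ne_bot_of_dvd_card h2C
    have hT : (S : Subgroup G) ⊓ C ≠ ⊥ := by
      intro h0
      apply hR1
      rw [hR, h0]
      ext a
      simp [Subgroup.mem_subgroupOf]
    have hn : (S : Subgroup G) ≤ Subgroup.normalizer (((S : Subgroup G) ⊓ C : Subgroup G) : Set G) := by
      intro a ha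
      rw [Subgroup.mem_normalizer_iff]
      intro b
      constructor
      · rintro ⟨hb1, hb2⟩
        exact ⟨(S : Subgroup G).mul_mem ((S : Subgroup G).mul_mem ha hb1) ((S : Subgroup G).inv_mem ha), hCn.conj_mem b hb2 a⟩
      · rintro ⟨hb1, hb2⟩
        constructor
        · have := (S : Subgroup G).mul_mem ((S : Subgroup G).mul_mem ((S : Subgroup G).inv_mem ha) hb1) ha
          have h8 : a⁻¹ * (a * b * a⁻¹) * a = b := by group
          rwa [h8] at this
        · have := hCn.conj_mem _ hb2 a⁻¹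
          have h8 : a⁻¹ * (a * b * a⁻¹) * a⁻¹⁻¹ = b := by group
          rwa [h8] at this
    obtain ⟨t, htT, hto, htc⟩ := exists_central_order hSp inf_le_left hn hT
    have ht1 : t ≠ 1 := by
      rintro rfl
      rw [orderOf_one] at hto
      omega
    have ht2 : t ^ 2 = 1 := by rw [← hto]; exact pow_orderOf_eq_one t
    apply hQ1
    rw [eq_bot_iff]
    intro x hx
    rw [Subgroup.mem_bot]
    exact hfpf t ht1 (mem_omega htT.1 htc ht2) x hx (Subgroup.mem_centralizer_iff.1 htT.2 x hx)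
  -- the image of `z` is central modulo `Q`
  have hcen : (z : G ⧸ Q) ∈ Subgroup.center (G ⧸ Q) := by
    rw [Subgroup.mem_center_iff]
    intro q
    obtain ⟨g, rfl⟩ := QuotientGroup.mk_surjective q
    rw [← QuotientGroup.mk_mul, ← QuotientGroup.mk_mul, QuotientGroup.eq]
    apply hCQ
    rw [hC, Subgroup.mem_centralizer_iff]
    intro x hx
    have h1 : z * x * z⁻¹ = x⁻¹ := hinv z hz1 hzom x hx
    have hx' : g * x * g⁻¹ ∈ Q := hQn.conj_mem x hx g
    have h2' : z * (g * x * g⁻¹) * z⁻¹ = (g * x * g⁻¹)⁻¹ := hinv z hz1 hzom _ hx'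
    have hx2 : (z * g) * x * (z * g)⁻¹ = g * x⁻¹ * g⁻¹ := by
      calc (z * g) * x * (z * g)⁻¹ = z * (g * x * g⁻¹) * z⁻¹ := by group
        _ = (g * x * g⁻¹)⁻¹ := h2'
        _ = g * x⁻¹ * g⁻¹ := by group
    -- `(g z)⁻¹ (z g)` commutes with `x`
    have hy : g * z * x * (g * z)⁻¹ = g * x⁻¹ * g⁻¹ := by
      calc g * z * x * (g * z)⁻¹ = g * (z * x * z⁻¹) * g⁻¹ := by group
        _ = g * x⁻¹ * g⁻¹ := by rw [h1]
    have h5 : (z * g) * x * (z * g)⁻¹ = (g * z) * x * (g * z)⁻¹ := by rw [hx2, hy]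
    have h6 : (g * z)⁻¹ * (z * g) * x = x * ((g * z)⁻¹ * (z * g)) := by
      calc (g * z)⁻¹ * (z * g) * x = (g * z)⁻¹ * ((z * g) * x * (z * g)⁻¹) * (z * g) := by group
        _ = (g * z)⁻¹ * ((g * z) * x * (g * z)⁻¹) * (z * g) := by rw [h5]
        _ = x * ((g * z)⁻¹ * (z * g)) := by group
    exact h6.symm
  rw [hZ, Subgroup.mem_bot] at hcen
  have hzQ : z ∈ Q := (QuotientGroup.eq_one_iff z).1 hcen
  apply hQodd
  have := orderOf_dvd_natCard (⟨z, hzQ⟩ : Q)
  rw [Subgroup.orderOf_mk, hzo] at this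
  exact this

end Cfsg.Agent.S2898
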