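import Cfsg.Statements.S2906
import Cfsg.Agent.S2905
import Cfsg.Agent.Lib.Comps
import Cfsg.Agent.Lib.PComps
import Cfsg.Agent.Lib.PMinimal
import Cfsg.Agent.Lib.Layer
import Cfsg.Agent.Lib.CharP

set_option autoImplicit false
open Cfsg

namespace Cfsg.Agent.S2906

open scoped commutatorElement
open Cfsg.Agent.Lib Cfsg.Agent.Lib.PResidual Subgroup Cfsg.Agent.Lib.Comps
open Cfsg.Agent.S2905

section aux
variable {P : Type*} [Group P] [Finite P] {p : ℕ} [Fact p.Prime]

theorem exists_conj_le_of_index {X Y : Subgroup P} (hY : IsPGroup p Y) (hX : ¬ p ∣ X.index) :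
    ∃ g : P, Y.map (MulAut.conj g).toMonoidHom ≤ X := by
  obtain ⟨S₁⟩ : Nonempty (Sylow p X) := inferInstance
  have hS'p : IsPGroup p ((S₁ : Subgroup X).map X.subtype) := S₁.isPGroup'.map _
  have hidx : ¬ p ∣ ((S₁ : Subgroup X).map X.subtype).index := by
    rw [Subgroup.index_map_subtype]
    intro h
    rcases (Nat.Prime.dvd_mul (Fact.out : p.Prime)).1 h with h1 | h1
    · exact S₁.not_dvd_index h1
    · exact hX h1
  obtain ⟨P₀, hP₀⟩ := hY.exists_le_sylow
  obtain ⟨g, hg⟩ := MulAction.exists_smul_eq P P₀ (hS'p.toSylow hidx)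
  refine ⟨g, ?_⟩
  have h1 : ((hS'p.toSylow hidx : Sylow p P) : Subgroup P) = (P₀ : Subgroup P).map (MulAut.conj g).toMonoidHom := by
    rw [← hg]; rfl
  have h2 : ((hS'p.toSylow hidx : Sylow p P) : Subgroup P) ≤ X := by
    show (S₁ : Subgroup X).map X.subtype ≤ X
    exact Subgroup.map_subtype_le _
  exact (Subgroup.map_mono hP₀).trans (h1 ▸ h2)

theorem mem_sup_normalizes {A C : Subgroup P} (h : A ≤ normalizer (C : Set P)) {x : P} (hx : x ∈ A ⊔ C) :
    ∃ a ∈ A, ∃ c ∈ C, x = a * c := by
  let P₀ : Subgroup P :=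
    { carrier := {x | ∃ a ∈ A, ∃ c ∈ C, x = a * c}
      one_mem' := ⟨1, A.one_mem, 1, C.one_mem, by simp⟩
      mul_mem' := by
        rintro _ _ ⟨a, ha, c, hc, rfl⟩ ⟨a', ha', c', hc', rfl⟩
        refine ⟨a * a', A.mul_mem ha ha', a'⁻¹ * c * a' * c', C.mul_mem ?_ hc', by group⟩
        have h1 := (mem_normalizer_iff.1 (h (A.inv_mem ha')) c).1 hc
        rwa [inv_inv] at h1
      inv_mem' := by
        rintro _ ⟨a, ha, c, hc, rfl⟩
        refine ⟨a⁻¹, A.inv_mem ha, a * c⁻¹ * a⁻¹, ?_, by group⟩
        exact (mem_normalizer_iff.1 (h ha) _).1 (C.inv_mem hc) }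
  have hle : A ⊔ C ≤ P₀ := by
    apply sup_le
    · intro a ha
      exact ⟨a, ha, 1, C.one_mem, by simp⟩
    · intro c hc
      exact ⟨1, A.one_mem, c, hc, by simp⟩
  exact hle hx

/-- The join of the `S`-conjugates of a subgroup is `S`-invariant. -/
theorem norm_iSup (S X : Subgroup P) :
    S ≤ normalizer ((⨆ s : S, X.map (MulAut.conj (s : P)).toMonoidHom : Subgroup P) : Set P) := by
  have key : ∀ s ∈ S, ∀ a ∈ (⨆ s : S, X.map (MulAut.conj (s : P)).toMonoidHom : Subgroup P),
      s * a * s⁻¹ ∈ (⨆ s : S, X.map (MulAut.conj (s : P)).toMonoidHom : Subgroup P) := by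
    intro s hs a ha
    have h1 : (⨆ s : S, X.map (MulAut.conj (s : P)).toMonoidHom : Subgroup P) ≤
        (⨆ s : S, X.map (MulAut.conj (s : P)).toMonoidHom : Subgroup P).comap (MulAut.conj s).toMonoidHom := by
      refine iSup_le fun t => ?_
      rintro _ ⟨y, hy, rfl⟩
      have hle := le_iSup (fun s : S => X.map (MulAut.conj (s : P)).toMonoidHom) (⟨s * t, S.mul_mem hs t.2⟩ : S)
      have hmem : (s * t) * y * (s * (t : P))⁻¹ ∈ X.map (MulAut.conj (s * (t : P))).toMonoidHom := ⟨y, hy, rfl⟩
      have h5 := hle hmem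
      have h6 : (s * t) * y * (s * (t : P))⁻¹ = s * ((t : P) * y * (t : P)⁻¹) * s⁻¹ := by group
      rw [h6] at h5
      exact h5
    exact h1 ha
  intro s hs
  apply Commutators.mem_normalizer_of_conj_mem (key s hs)
  intro a ha
  have := key s⁻¹ (S.inv_mem hs) a ha
  simpa using this

theorem le_iSup_conj (S X : Subgroup P) : X ≤ ⨆ s : S, X.map (MulAut.conj (s : P)).toMonoidHom := by
  refine le_trans ?_ (le_iSup (fun s : S => X.map (MulAut.conj (s : P)).toMonoidHom) (1 : S))
  intro y hy
  exact ⟨y, hy, by simp⟩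

theorem comp_le_residual {K : Subgroup P} (hK : Cfsg.IsComponent K) : K ≤ Cfsg.pResidual p P := by
  haveI hn := pResidual_normal p P
  let f := QuotientGroup.mk' (Cfsg.pResidual p P)
  have hq : IsPGroup p (P ⧸ Cfsg.pResidual p P) := isPGroup_quotient_pResidual
  haveI : Group.IsNilpotent (P ⧸ Cfsg.pResidual p P) := hq.isNilpotent
  have h0 : K.map f = ⊥ := by
    by_contra hne
    have h1 := IsSolvable.commutator_lt_of_ne_bot hne
    rw [← Subgroup.map_commutator, comp_perfect hK] at h1
    exact lt_irrefl _ h1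
  intro x hx
  have h2 : f x ∈ K.map f := ⟨x, hx, rfl⟩
  rw [h0, Subgroup.mem_bot] at h2
  exact (QuotientGroup.eq_one_iff x).1 h2

theorem fitting_le_residual (hOp : Cfsg.pCore p P = ⊥) : Cfsg.fittingSubgroup P ≤ Cfsg.pResidual p P := by
  intro x hx
  apply mem_pResidual_of_coprime
  have hnil : Group.IsNilpotent (Cfsg.fittingSubgroup P) := FitCore.fitting_isNilpotent
  have hn : (Cfsg.fittingSubgroup P).Normal := FitCore.fitting_normal
  have hc : Cfsg.IsPClosed p (Cfsg.fittingSubgroup P) := by
    intro T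
    exact inferInstance
  have hnot : ¬ p ∣ Nat.card (Cfsg.fittingSubgroup P) := by
    intro hd
    obtain ⟨T⟩ : Nonempty (Sylow p (Cfsg.fittingSubgroup P)) := inferInstance
    have h1 := map_sylow_le_pCore hn hc T
    rw [hOp] at h1
    apply T.ne_bot_of_dvd_card hd
    rw [eq_bot_iff]
    intro t ht
    have h2 := h1 ⟨t, ht, rfl⟩
    rw [Subgroup.mem_bot] at h2
    exact (Subgroup.mem_bot).2 (Subtype.ext h2)
  have h3 : orderOf (⟨x, hx⟩ : Cfsg.fittingSubgroup P) ∣ Nat.card (Cfsg.fittingSubgroup P) := orderOf_dvd_natCard _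
  rw [Subgroup.orderOf_mk] at h3
  exact Nat.Coprime.coprime_dvd_left h3 (((Fact.out : p.Prime).coprime_iff_not_dvd.2 hnot).symm)

/-- The basic facts on a `p`-minimal group with a component. -/
theorem comp_dvd (S : Sylow p P) (M : Subgroup P) (hMc : IsCoatom M) (hSM : (S : Subgroup P) ≤ M)
    (hSn : ¬ (S : Subgroup P).Normal)
    (hmax : ∀ X : Subgroup P, (S : Subgroup P) ≤ X → X ≠ ⊤ → X ≤ M)
    {K : Subgroup P} (hK : Cfsg.IsComponent K) : p ∣ Nat.card K := by
  classical
  by_contra hnot
  have hKX : K ≤ Cfsg.pPrimeCore p P := PComps.le_pPrimeCore_of_subnormal hK.1 ((Fact.out : p.Prime).coprime_iff_not_dvd.2 hnot).symm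
  set X₀ := Cfsg.pPrimeCore p P with hX₀
  haveI hX₀n : X₀.Normal := FitCore.pPrimeCore_normal p
  have hX₀c : ¬ p ∣ Nat.card X₀ := FitCore.not_dvd_card_pPrimeCore p Fact.out
  have hu : ∀ X : Subgroup P, IsCoatom X → (S : Subgroup P) ≤ X → X = M := by
    intro X hX hSX
    have h1 := hmax X hSX hX.1
    by_contra hne
    exact hMc.1 (hX.2 M (lt_of_le_of_ne h1 hne))
  have hsolv : Group.IsSolvable X₀ := by
    by_cases hXM : X₀ ≤ M
    · -- `X₀` lies in the Frattini subgroup
      have hFr : X₀ ≤ frattini P := by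
        simp only [frattini, Order.radical, le_iInf_iff]
        intro W hW
        by_contra hnle
        have hsup : X₀ ⊔ W = ⊤ := by
          have hlt : W < X₀ ⊔ W := lt_of_le_of_ne le_sup_right (fun h => hnle (by
            rw [h]; exact le_sup_left))
          exact hW.2 _ hlt
        have hindex : ¬ p ∣ W.index := by
          have h1 := FitCore.relIndex_sup_of_normal W X₀
          rw [hsup, Subgroup.relIndex_top_right] at h1
          rw [h1]
          intro h
          exact hX₀c (h.trans (Subgroup.relIndex_dvd_card W X₀))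
        obtain ⟨g, hg⟩ := exists_conj_le_of_index S.isPGroup' hindex
        have h2 : (S : Subgroup P) ≤ W.map (MulAut.conj g⁻¹).toMonoidHom := by
          intro y hy
          refine ⟨g * y * g⁻¹, hg ⟨y, hy, rfl⟩, ?_⟩
          show g⁻¹ * (g * y * g⁻¹) * g⁻¹⁻¹ = y
          group
        have h3 : IsCoatom (W.map (MulAut.conj g⁻¹).toMonoidHom) :=
          PIrreducible.isCoatom_map _ (MulAut.conj g⁻¹).surjective hW (by
            intro x hx
            have : x = 1 := (MulAut.conj g⁻¹).injective (by simpa using hx)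
            rw [this]; exact W.one_mem)
        have h4 := hu _ h3 h2
        apply hnle
        intro d hd
        have hd' : g⁻¹ * d * g⁻¹⁻¹ ∈ X₀ := hX₀n.conj_mem d hd g⁻¹
        have h5 : g⁻¹ * d * g⁻¹⁻¹ ∈ W.map (MulAut.conj g⁻¹).toMonoidHom := by
          rw [h4]; exact hXM hd'
        obtain ⟨x, hx, hxe⟩ := h5
        have hxe' : g⁻¹ * x * g⁻¹⁻¹ = g⁻¹ * d * g⁻¹⁻¹ := hxe
        have h6 : x = d := mul_left_cancel (mul_right_cancel hxe')
        rwa [← h6]
      haveI hnil : Group.IsNilpotent (frattini P) := frattini_nilpotent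
      haveI : Group.IsNilpotent X₀ := nilpotent_of_mulEquiv (Subgroup.subgroupOfEquivOfLe hFr)
      infer_instance
    · -- `O^p(P) ≤ X₀`
      have hres : Cfsg.pResidual p P ≤ X₀ := by
        apply pResidual_le_of_sup_eq_top S.isPGroup'
        by_contra hne
        exact hXM (le_sup_left.trans (hmax _ le_sup_right hne))
      have hcres : ¬ p ∣ Nat.card (Cfsg.pResidual p P) := fun h => hX₀c (h.trans (Subgroup.card_dvd_of_le hres))
      have hc : Cfsg.IsPClosed p (Cfsg.pResidual p P) := by
        intro T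
        have hT : (T : Subgroup (Cfsg.pResidual p P)) = ⊥ := by
          obtain ⟨n, hn⟩ := T.isPGroup'.exists_card_eq
          have h1 : Nat.card (T : Subgroup (Cfsg.pResidual p P)) ∣ Nat.card (Cfsg.pResidual p P) := Subgroup.card_subgroup_dvd_card _
          have hn0 : n = 0 := by
            by_contra hn0
            apply hcres
            refine dvd_trans ?_ h1
            rw [hn]
            exact dvd_pow_self p hn0
          rw [hn0, pow_zero] at hn
          exact Subgroup.eq_bot_of_card_eq _ hn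
        rw [hT]
        infer_instance
      have hprimes := primes_le S M hMc.1 hSM hmax hc
      -- `p` divides the order
      have hpd : p ∣ Nat.card P := by
        by_contra hnd
        apply hSn
        have : (S : Subgroup P) = ⊥ := by
          obtain ⟨n, hn⟩ := S.isPGroup'.exists_card_eq
          have h1 : Nat.card (S : Subgroup P) ∣ Nat.card P := Subgroup.card_subgroup_dvd_card _
          have hn0 : n = 0 := by
            by_contra hn0
            apply hnd
            refine dvd_trans ?_ h1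
            rw [hn]
            exact dvd_pow_self p hn0
          rw [hn0, pow_zero] at hn
          exact Subgroup.eq_bot_of_card_eq _ hn
        rw [this]
        infer_instance
      -- at most one prime divides `|X₀|`
      have hsub : (Nat.card X₀).primeFactors ⊆ (Nat.card P).primeFactors.erase p := by
        intro q hq
        rw [Nat.mem_primeFactors] at hq
        rw [Finset.mem_erase, Nat.mem_primeFactors]
        refine ⟨?_, hq.1, hq.2.1.trans (Subgroup.card_subgroup_dvd_card X₀), Nat.card_pos.ne'⟩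
        rintro rfl
        exact hX₀c hq.2.1
      have hpmem : p ∈ (Nat.card P).primeFactors := by
        rw [Nat.mem_primeFactors]
        exact ⟨Fact.out, hpd, Nat.card_pos.ne'⟩
      have hle1 : (Nat.card X₀).primeFactors.card ≤ 1 := by
        have h1 := Finset.card_le_card hsub
        rw [Finset.card_erase_of_mem hpmem] at h1
        omega
      rcases Finset.card_le_one_iff_subset_singleton.1 hle1 with ⟨q, hq⟩
      by_cases hq1 : Nat.card X₀ = 1
      · haveI : Subsingleton X₀ := (Nat.card_eq_one_iff_unique.1 hq1).1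
        infer_instance
      · -- a `q`-group
        obtain ⟨q', hq', hq'd⟩ := Nat.exists_prime_and_dvd hq1
        have hq'm : q' ∈ (Nat.card X₀).primeFactors := by
          rw [Nat.mem_primeFactors]
          exact ⟨hq', hq'd, Nat.card_pos.ne'⟩
        have heq : q' = q := by simpa using hq hq'm
        subst heq
        haveI : Fact q'.Prime := ⟨hq'⟩
        have hpow : Nat.card X₀ = q' ^ (Nat.card X₀).primeFactorsList.length := by
          apply Nat.eq_prime_pow_of_unique_prime_dvd Nat.card_pos.ne'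
          intro r hr hrd
          have : r ∈ (Nat.card X₀).primeFactors := by
            rw [Nat.mem_primeFactors]
            exact ⟨hr, hrd, Nat.card_pos.ne'⟩
          simpa using hq this
        have hqg : IsPGroup q' X₀ := IsPGroup.of_card hpow
        haveI := hqg.isNilpotent
        infer_instance
  exact comp_not_le_solvable hK hsolv hKX

end aux


/-- Let P be a finite p-minimal group with O_p(P) = 1, S a Sylow p-subgroup of P and K a component of P. Then O^p(P) = F*(P) = E(P) is generated by the S-conjugates of K, and the subgroup K·N_S(K) is again p-minimal. -/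
theorem result {P : Type*} [Group P] [Finite P] {p : ℕ} [Fact p.Prime] (hP : Cfsg.IsPMinimal p P) (hOp : Cfsg.pCore p P = ⊥) (S : Sylow p P) (K : Subgroup P) (hK : Cfsg.IsComponent K) : Cfsg.pResidual p P = Cfsg.generalizedFittingSubgroup P ∧ Cfsg.generalizedFittingSubgroup P = Cfsg.layer P ∧ Cfsg.layer P = ⨆ s : ↥(S : Subgroup P), K.map (MulAut.conj (s : P)).toMonoidHom ∧ Cfsg.IsPMinimal p ↥(K ⊔ ((S : Subgroup P) ⊓ Subgroup.normalizer (K : Set P))) := by
  classical
  obtain ⟨hSn, M₁, ⟨hM₁c, hM₁S⟩, hu₁⟩ := hP S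
  set M := M₁ with hM
  have hMc : IsCoatom M := hM₁c
  have hSM : (S : Subgroup P) ≤ M := hM₁S
  have hMu : ∀ X : Subgroup P, IsCoatom X → (S : Subgroup P) ≤ X → X = M := fun X h1 h2 => hu₁ X ⟨h1, h2⟩
  have hmax : ∀ X : Subgroup P, (S : Subgroup P) ≤ X → X ≠ ⊤ → X ≤ M := by
    intro X hX hne
    rcases eq_top_or_exists_le_coatom X with h | ⟨Y, hY, hXY⟩
    · exact absurd h hne
    · rw [← hMu Y hY (hX.trans hXY)]; exact hXY
  have hMtop : M ≠ ⊤ := hMc.1
  -- a component does not lie in `M`
  have hKM : ∀ {K : Subgroup P}, Cfsg.IsComponent K → ¬ K ≤ M := by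
    intro K hK hle
    obtain ⟨N', hN's, hNN', hSN', hmin⟩ := exists_closure (S : Subgroup P) hK.1
    have hN'M : N' ≤ M := hmin M (hSM.trans Subgroup.le_normalizer) hle
    have h1 := key_sn S M hMtop hmax _ N' rfl hN's hN'M hSN'
    rw [hOp] at h1
    have h2 : K ⊓ (S : Subgroup P) = ⊥ := by
      rw [eq_bot_iff]
      exact (inf_le_inf_right _ hNN').trans h1
    have h3 := sn_not_dvd S hK.1
    have h4 : (S : Subgroup P).relIndex K = Nat.card K := by
      rw [← Subgroup.inf_relIndex_right, inf_comm, h2]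
      simp
    rw [h4] at h3
    exact h3 (comp_dvd S M hMc hSM hSn hmax hK)
  -- `O^p(P)` is the join of the `S`-conjugates of any component
  have hres : ∀ {K : Subgroup P}, Cfsg.IsComponent K →
      Cfsg.pResidual p P = ⨆ s : ↥(S : Subgroup P), K.map (MulAut.conj (s : P)).toMonoidHom := by
    intro K hK
    set N₀ := ⨆ s : ↥(S : Subgroup P), K.map (MulAut.conj (s : P)).toMonoidHom with hN₀
    have hSN : (S : Subgroup P) ≤ normalizer (N₀ : Set P) := norm_iSup _ K
    have hKN : K ≤ N₀ := le_iSup_conj _ K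
    have hsup : N₀ ⊔ (S : Subgroup P) = ⊤ := by
      by_contra hne
      exact hKM hK (hKN.trans (le_sup_left.trans (hmax _ le_sup_right hne)))
    haveI hnn : N₀.Normal := by
      apply normalizer_eq_top_iff.1
      rw [eq_top_iff, ← hsup]
      exact sup_le le_normalizer hSN
    apply le_antisymm
    · exact pResidual_le_of_sup_eq_top S.isPGroup' hsup
    · refine iSup_le fun s => ?_
      exact comp_le_residual (Layer.isComponent_map (MulAut.conj (s : P)) hK)
  have hlayer : Cfsg.layer P = Cfsg.pResidual p P := by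
    apply le_antisymm
    · exact sSup_le fun L hL => comp_le_residual hL
    · rw [hres hK]
      refine iSup_le fun s => ?_
      exact le_sSup (Layer.isComponent_map (MulAut.conj (s : P)) hK)
  have hgf : Cfsg.generalizedFittingSubgroup P = Cfsg.layer P := by
    unfold Cfsg.generalizedFittingSubgroup
    apply le_antisymm
    · refine sup_le le_rfl ?_
      rw [hlayer]
      exact fitting_le_residual hOp
    · exact le_sup_left
  refine ⟨hgf.trans hlayer |>.symm, hgf, hlayer.trans (hres hK), ?_⟩
  -- the last assertion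
  set D := (S : Subgroup P) ⊓ normalizer (K : Set P) with hD
  have hDN : D ≤ normalizer (K : Set P) := inf_le_right
  have hDp : IsPGroup p D := S.isPGroup'.to_le inf_le_left
  have hDM : D ≤ M := inf_le_left.trans hSM
  set X := K ⊔ D with hX
  have hKX : K ≤ X := le_sup_left
  have hDX : D ≤ X := le_sup_right
  have hDp' : IsPGroup p (D.subgroupOf X) := hDp.comap_of_injective _ X.subtype_injective
  -- the index
  have hKD : K ⊓ D = K ⊓ (S : Subgroup P) := by
    apply le_antisymm
    · exact le_inf inf_le_left (inf_le_right.trans inf_le_left)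
    · exact le_inf inf_le_left (le_inf inf_le_right (inf_le_left.trans le_normalizer))
  have hidx : (D.subgroupOf X).index = (S : Subgroup P).relIndex K := by
    have h1 := SchurZ2.card_sup_mul_card_inf K D hDN
    have h2 : Nat.card (D.subgroupOf X) * (D.subgroupOf X).index = Nat.card X := Subgroup.card_mul_index _
    have h3 : Nat.card (D.subgroupOf X) = Nat.card D :=
      Nat.card_congr (Subgroup.subgroupOfEquivOfLe hDX).toEquiv
    have h4 : Nat.card ((S : Subgroup P).subgroupOf K) * (S : Subgroup P).relIndex K = Nat.card K := Subgroup.card_mul_index _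
    have h5 : Nat.card ((S : Subgroup P).subgroupOf K) = Nat.card (K ⊓ (S : Subgroup P) : Subgroup P) := by
      have h6 : (S : Subgroup P).subgroupOf K = (K ⊓ (S : Subgroup P)).subgroupOf K := by
        rw [inf_comm, Subgroup.inf_subgroupOf_right]
      rw [h6]
      exact Nat.card_congr (Subgroup.subgroupOfEquivOfLe inf_le_left).toEquiv
    rw [← h2, h3, hKD] at h1
    rw [← h4, h5] at h1
    have hpos1 : 0 < Nat.card D := Nat.card_pos
    have hpos2 : 0 < Nat.card (K ⊓ (S : Subgroup P) : Subgroup P) := Nat.card_pos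
    apply Nat.eq_of_mul_eq_mul_left (Nat.mul_pos hpos1 hpos2)
    calc Nat.card D * Nat.card (K ⊓ (S : Subgroup P) : Subgroup P) * (D.subgroupOf X).index
        = Nat.card D * (D.subgroupOf X).index * Nat.card (K ⊓ (S : Subgroup P) : Subgroup P) := by ring
      _ = Nat.card (K ⊓ (S : Subgroup P) : Subgroup P) * (S : Subgroup P).relIndex K * Nat.card D := h1
      _ = _ := by ring
  have hnd : ¬ p ∣ (D.subgroupOf X).index := by
    rw [hidx]
    exact sn_not_dvd S hK.1
  set S' : Sylow p ↥X := hDp'.toSylow hnd with hS'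
  have hS'c : (S' : Subgroup ↥X) = D.subgroupOf X := rfl
  apply PMinimal.isPMinimal_of_one S'
  · -- not normal
    rw [hS'c]
    intro hn
    have hKDn : K ≤ normalizer (D : Set P) := hKX.trans ((Subgroup.normal_subgroupOf_iff_le_normalizer hDX).1 hn)
    have hp2 : IsPGroup p (K ⊓ (S : Subgroup P) : Subgroup P) := S.isPGroup'.to_le inf_le_right
    have hnorm : ((K ⊓ (S : Subgroup P)).subgroupOf K).Normal := by
      constructor
      rintro ⟨a, ha⟩ hmem g
      have ha' : a ∈ K ⊓ (S : Subgroup P) := hmem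
      rw [← hKD] at ha'
      show (g : P) * a * (g : P)⁻¹ ∈ K ⊓ (S : Subgroup P)
      rw [← hKD]
      exact ⟨K.mul_mem (K.mul_mem g.2 ha'.1) (K.inv_mem g.2), (mem_normalizer_iff.1 (hKDn g.2) a).1 ha'.2⟩
    have h1 : (K ⊓ (S : Subgroup P)).subgroupOf K ≤ Cfsg.pCore p K :=
      FitCore.le_pCore p _ hnorm (hp2.comap_of_injective _ K.subtype_injective)
    have h2 := CharP.map_pCore_le_of_subnormal (p := p) hK.1
    rw [hOp] at h2
    have h3 : K ⊓ (S : Subgroup P) = ⊥ := by
      rw [eq_bot_iff]
      rintro a ⟨ha1, ha2⟩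
      exact h2 ⟨⟨a, ha1⟩, h1 ⟨ha1, ha2⟩, rfl⟩
    have h4 := sn_not_dvd S hK.1
    have h5 : (S : Subgroup P).relIndex K = Nat.card K := by
      rw [← Subgroup.inf_relIndex_right, inf_comm, h3]
      simp
    rw [h5] at h4
    exact h4 (comp_dvd S M hMc hSM hSn hmax hK)
  · -- the unique maximal subgroup
    rw [hS'c]
    have hKey : ∀ Y' : Subgroup ↥X, D.subgroupOf X ≤ Y' → Y' ≠ ⊤ → Y' ≤ M.subgroupOf X := by
      intro Y' hDY hne
      set Y := Y'.map X.subtype with hY
      have hYX : Y ≤ X := Subgroup.map_subtype_le _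
      have hDYa : D ≤ Y := by
        intro d hd
        exact ⟨⟨d, hDX hd⟩, hDY hd, rfl⟩
      set Y₀ := Y ⊓ K with hY₀
      have hDY₀ : D ≤ normalizer (Y₀ : Set P) := by
        intro d hd
        apply Commutators.mem_normalizer_of_conj_mem
        · rintro a ⟨ha1, ha2⟩
          exact ⟨Y.mul_mem (Y.mul_mem (hDYa hd) ha1) (Y.inv_mem (hDYa hd)), (mem_normalizer_iff.1 (hDN hd) a).1 ha2⟩
        · rintro a ⟨ha1, ha2⟩
          have h3 := (mem_normalizer_iff.1 (hDN (D.inv_mem hd)) a).1 ha2
          rw [inv_inv] at h3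
          exact ⟨Y.mul_mem (Y.mul_mem (Y.inv_mem (hDYa hd)) ha1) (hDYa hd), h3⟩
      set B := ⨆ s : ↥(S : Subgroup P), Y₀.map (MulAut.conj (s : P)).toMonoidHom with hB
      have hSB : (S : Subgroup P) ≤ normalizer (B : Set P) := norm_iSup _ Y₀
      have hY₀B : Y₀ ≤ B := le_iSup_conj _ Y₀
      have hXDK : ∀ y ∈ X, ∃ d ∈ D, ∃ k ∈ K, y = d * k := by
        intro y hy
        rw [hX, sup_comm] at hy
        exact mem_sup_normalizes hDN hy
      by_cases htop : B ⊔ (S : Subgroup P) = ⊤
      · -- then `K ≤ B`, whence `Y₀ = K`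
        exfalso
        haveI hnn : B.Normal := by
          apply normalizer_eq_top_iff.1
          rw [eq_top_iff, ← htop]
          exact sup_le le_normalizer hSB
        have hKB : K ≤ B := (comp_le_residual hK).trans (pResidual_le_of_sup_eq_top S.isPGroup' htop)
        set Cz := Subgroup.centralizer (K : Set P) with hCz
        have hBle : B ≤ Y₀ ⊔ Cz := by
          refine iSup_le fun s => ?_
          by_cases hsN : (s : P) ∈ normalizer (K : Set P)
          · have hsD : (s : P) ∈ D := ⟨s.2, hsN⟩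
            rw [AmalgamChar.map_conj_eq_of_mem_normalizer (hDY₀ hsD)]
            exact le_sup_left
          · have hKs := Layer.isComponent_map (MulAut.conj (s : P)) hK
            rcases comp_comm_comp hK hKs with h | h
            · exfalso
              apply hsN
              exact AmalgamChar.mem_normalizer_of_map_eq h.symm
            · refine le_trans ?_ le_sup_right
              have h3 : K.map (MulAut.conj (s : P)).toMonoidHom ≤ Cz := by
                rw [hCz, ← Subgroup.commutator_eq_bot_iff_le_centralizer, Subgroup.commutator_comm]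
                exact h
              exact (Subgroup.map_mono inf_le_right).trans h3
        have hY₀Cz : Y₀ ≤ normalizer (Cz : Set P) := by
          intro y hy
          have hyK := hy.2
          have key : ∀ y ∈ K, ∀ a ∈ Cz, y * a * y⁻¹ ∈ Cz := by
            intro y hy a ha
            rw [hCz, mem_centralizer_iff]
            intro u hu
            have h2 : y⁻¹ * u * y⁻¹⁻¹ ∈ K := K.mul_mem (K.mul_mem (K.inv_mem hy) hu) (K.inv_mem (K.inv_mem hy))
            have h3 := mem_centralizer_iff.1 ha _ h2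
            calc u * (y * a * y⁻¹) = y * ((y⁻¹ * u * y⁻¹⁻¹) * a) * y⁻¹ := by group
              _ = y * (a * (y⁻¹ * u * y⁻¹⁻¹)) * y⁻¹ := by rw [h3]
              _ = y * a * y⁻¹ * u := by group
          apply Commutators.mem_normalizer_of_conj_mem (key y hyK)
          intro a ha
          have := key y⁻¹ (K.inv_mem hyK) a ha
          simpa using this
        have hdec : ∀ k ∈ K, ∃ y ∈ Y₀, ∃ c ∈ Cz, k = y * c := by
          intro k hk
          exact mem_sup_normalizes hY₀Cz (hBle (hKB hk))
        have hperf : K ≤ Y₀ := by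
          rw [← comp_perfect hK, Subgroup.commutator_le]
          intro k₁ hk₁ k₂ hk₂
          obtain ⟨y₁, hy₁, c₁, hc₁, rfl⟩ := hdec k₁ hk₁
          obtain ⟨y₂, hy₂, c₂, hc₂, rfl⟩ := hdec k₂ hk₂
          have hc1 : ∀ a ∈ K, a * c₁ = c₁ * a := fun a ha => mem_centralizer_iff.1 hc₁ a ha
          have hc2 : ∀ a ∈ K, a * c₂ = c₂ * a := fun a ha => mem_centralizer_iff.1 hc₂ a ha
          have h1 : ⁅y₁ * c₁, y₂ * c₂⁆ = ⁅y₁, y₂⁆ := by
            rw [commutatorElement_def, commutatorElement_def]
            have e1 : c₁ * (y₂ * c₂) = (y₂ * c₂) * c₁ := (hc1 _ hk₂).symm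
            have e2 : y₁ * c₂ = c₂ * y₁ := hc2 _ hy₁.2
            calc y₁ * c₁ * (y₂ * c₂) * (y₁ * c₁)⁻¹ * (y₂ * c₂)⁻¹
                = y₁ * (c₁ * (y₂ * c₂)) * c₁⁻¹ * y₁⁻¹ * (y₂ * c₂)⁻¹ := by group
              _ = y₁ * ((y₂ * c₂) * c₁) * c₁⁻¹ * y₁⁻¹ * (y₂ * c₂)⁻¹ := by rw [e1]
              _ = y₁ * y₂ * c₂ * y₁⁻¹ * (y₂ * c₂)⁻¹ := by group
              _ = y₁ * y₂ * (c₂ * y₁⁻¹) * (y₂ * c₂)⁻¹ := by group
              _ = y₁ * y₂ * (y₁⁻¹ * c₂) * (y₂ * c₂)⁻¹ := by
                congr 2
                have e3 : y₁⁻¹ * c₂ = c₂ * y₁⁻¹ := hc2 _ (K.inv_mem hy₁.2)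
                exact e3.symm
              _ = y₁ * y₂ * y₁⁻¹ * y₂⁻¹ := by group
          rw [h1]
          exact Subgroup.mul_mem _ (Subgroup.mul_mem _ (Subgroup.mul_mem _ hy₁ hy₂) (Subgroup.inv_mem _ hy₁)) (Subgroup.inv_mem _ hy₂)
        apply hne
        rw [eq_top_iff]
        intro x _
        obtain ⟨d, hd, k, hk, hxe⟩ := hXDK x x.2
        have hxY : (x : P) ∈ Y := by
          rw [hxe]
          exact Y.mul_mem (hDYa hd) (hperf hk).1
        obtain ⟨y', hy', hy'e⟩ := hxY
        have : y' = x := Subtype.ext hy'e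
        rwa [← this]
      · have hBM : B ≤ M := le_sup_left.trans (hmax _ le_sup_right htop)
        intro y hy
        show (y : P) ∈ M
        have hyY : (y : P) ∈ Y := ⟨y, hy, rfl⟩
        obtain ⟨d, hd, k, hk, hye⟩ := hXDK y y.2
        rw [hye]
        apply M.mul_mem (hDM hd)
        apply hBM
        apply hY₀B
        refine ⟨?_, hk⟩
        have h2 := Y.mul_mem (Y.inv_mem (hDYa hd)) hyY
        rw [hye] at h2
        have h3 : d⁻¹ * (d * k) = k := by group
        rwa [h3] at h2
    have hM'top : M.subgroupOf X ≠ ⊤ := by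
      intro h
      apply hKM hK
      intro k hk
      have : (⟨k, hKX hk⟩ : X) ∈ M.subgroupOf X := by rw [h]; trivial
      exact this
    have hDM' : D.subgroupOf X ≤ M.subgroupOf X := fun x hx => hDM hx
    have hcoat : IsCoatom (M.subgroupOf X) := by
      refine ⟨hM'top, fun W hW => ?_⟩
      by_contra hne
      exact absurd (hKey W (hDM'.trans hW.le) hne) (not_le_of_gt hW)
    refine ⟨M.subgroupOf X, ⟨hcoat, hDM'⟩, ?_⟩
    rintro W ⟨hW1, hW2⟩
    have h1 := hKey W hW2 hW1.1
    rcases h1.eq_or_lt with h | h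
    · exact h
    · exact absurd (hW1.2 _ h) hM'top

end Cfsg.Agent.S2906
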