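import Cfsg.Statements.S2907

set_option autoImplicit false
open Cfsg

namespace Cfsg.Agent.S2907

/-- Let X be a finite semi-extraspecial p-group and x an element of X outside the centre. Then the index of C_X(x) in X equals the order of Z(X), and the commutators [x, y], y ∈ X, form exactly the centre Z(X). -/
theorem result {X : Type*} [Group X] [Finite X] {p : ℕ} [Fact p.Prime] (hX : Cfsg.IsSemiExtraspecial p X) (x : X) (hx : x ∉ Subgroup.center X) : (Subgroup.centralizer ({x} : Set X)).index = Nat.card ↥(Subgroup.center X) ∧ {z : X | ∃ y : X, z = x * y * x⁻¹ * y⁻¹} = (Subgroup.center X : Set X) := by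
  classical
  have hcomm : commutator X = Subgroup.center X := hX.1.2.2
  have hcm : ∀ a b : X, a * b * a⁻¹ * b⁻¹ ∈ Subgroup.center X := by
    intro a b
    rw [← hcomm]
    have := Subgroup.commutator_mem_commutator (G := X) (Subgroup.mem_top a) (Subgroup.mem_top b)
    rw [commutatorElement_def] at this
    exact this
  -- the commutator homomorphism
  let φ : X →* X := MonoidHom.mk' (fun y => x * y * x⁻¹ * y⁻¹) (fun a b => by
    have h1 := hcm x b
    have h2 : a * (x * b * x⁻¹ * b⁻¹) = (x * b * x⁻¹ * b⁻¹) * a :=
      (Subgroup.mem_center_iff.mp h1 a)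
    calc x * (a * b) * x⁻¹ * (a * b)⁻¹ = (x * a * x⁻¹ * a⁻¹) * (a * (x * b * x⁻¹ * b⁻¹)) * a⁻¹ := by group
      _ = _ := by rw [h2]; group)
  have hφ : ∀ y, φ y = x * y * x⁻¹ * y⁻¹ := fun y => rfl
  have hker : φ.ker = Subgroup.centralizer ({x} : Set X) := by
    ext y
    rw [MonoidHom.mem_ker, hφ, Subgroup.mem_centralizer_singleton_iff]
    constructor
    · intro h
      have h1 : x * y * x⁻¹ = y := by
        have := congrArg (fun w => w * y) h
        simpa [mul_assoc] using this
      have h2 : x * y = y * x := by
        calc x * y = (x * y * x⁻¹) * x := by group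
          _ = y * x := by rw [h1]
      exact h2.symm
    · intro h
      rw [h.symm]
      group
  have hrange : φ.range = Subgroup.center X := by
    apply le_antisymm
    · rintro _ ⟨y, rfl⟩
      exact hcm x y
    · by_contra hne
      have hlt : φ.range.subgroupOf (Subgroup.center X) ≠ ⊤ := by
        intro h
        apply hne
        rw [Subgroup.subgroupOf_eq_top] at h
        exact h
      obtain ⟨C, hC, hle⟩ := (eq_top_or_exists_le_coatom _).resolve_left hlt
      set Y := C.map (Subgroup.center X).subtype with hY
      have hYZ : Y ≤ Subgroup.center X := Subgroup.map_subtype_le C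
      have hYC : Y.subgroupOf (Subgroup.center X) = C :=
        Subgroup.comap_map_eq_self_of_injective (Subgroup.subtype_injective _) C
      obtain ⟨hn, hes⟩ := hX.2 Y hYZ (by rw [hYC]; exact hC)
      let q := QuotientGroup.mk' Y
      have hq : Function.Surjective q := QuotientGroup.mk'_surjective Y
      have hZq : (Subgroup.center X).map q ≤ Subgroup.center (X ⧸ Y) := by
        rintro _ ⟨z, hz, rfl⟩
        rw [Subgroup.mem_center_iff]
        intro w
        obtain ⟨w, rfl⟩ := hq w
        rw [← map_mul, ← map_mul, Subgroup.mem_center_iff.mp hz w]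
      have hxq : q x ∈ Subgroup.center (X ⧸ Y) := by
        rw [Subgroup.mem_center_iff]
        intro w
        obtain ⟨w, rfl⟩ := hq w
        rw [← map_mul, ← map_mul]
        apply QuotientGroup.eq.mpr
        have h3 : φ w ∈ Y := by
          have h4 : (⟨φ w, hcm x w⟩ : Subgroup.center X) ∈ φ.range.subgroupOf (Subgroup.center X) :=
            Subgroup.mem_subgroupOf.mpr ⟨w, rfl⟩
          exact ⟨_, hle h4, rfl⟩
        have h5 : (w * x)⁻¹ * (x * w) = x⁻¹ * (w⁻¹ * (x * w)) := by group
        have h6 : φ w⁻¹ ∈ Y := by
          have h4 : (⟨φ w⁻¹, hcm x w⁻¹⟩ : Subgroup.center X) ∈ φ.range.subgroupOf (Subgroup.center X) :=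
            Subgroup.mem_subgroupOf.mpr ⟨w⁻¹, rfl⟩
          exact ⟨_, hle h4, rfl⟩
        have h7 : (w * x)⁻¹ * (x * w) = x⁻¹ * (φ w⁻¹)⁻¹ * x := by
          rw [hφ]; group
        rw [h7]
        exact hn.conj_mem' _ (inv_mem h6) x |> fun h => by simpa using h
      -- `Z(X)/Y` is the whole centre
      have hcardc : Nat.card (Subgroup.center (X ⧸ Y)) = p := hes.2
      have hZne : (Subgroup.center X).map q ≠ ⊥ := by
        intro h
        rw [Subgroup.map_eq_bot_iff, QuotientGroup.ker_mk'] at h
        have h8 : C = ⊤ := by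
          rw [← hYC, Subgroup.subgroupOf_eq_top]
          exact h
        exact hC.1 h8
      have hZeq : (Subgroup.center X).map q = Subgroup.center (X ⧸ Y) := by
        have hfin : Finite ↥(Subgroup.center (X ⧸ Y)) := inferInstance
        haveI : Fact (Nat.card ↥(Subgroup.center (X ⧸ Y))).Prime := ⟨by rw [hcardc]; exact Fact.out⟩
        have h9 := Subgroup.eq_bot_or_eq_top_of_prime_card
          (((Subgroup.center X).map q).subgroupOf (Subgroup.center (X ⧸ Y)))
        rcases h9 with h9 | h9
        · exfalso
          rw [Subgroup.subgroupOf_eq_bot] at h9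
          apply hZne
          rw [eq_bot_iff]
          intro w hw
          have := (h9.le_bot) ⟨hw, hZq hw⟩
          exact this
        · rw [Subgroup.subgroupOf_eq_top] at h9
          exact le_antisymm hZq h9
      rw [← hZeq] at hxq
      obtain ⟨z, hz, hzq⟩ := hxq
      have h10 : z⁻¹ * x ∈ Y := QuotientGroup.eq.mp hzq
      apply hx
      have h11 := hYZ h10
      have h12 : x = z * (z⁻¹ * x) := by group
      rw [h12]
      exact mul_mem hz h11
  constructor
  · rw [← hker, Subgroup.index_ker, hrange]
  · rw [← hrange]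
    ext z
    constructor
    · rintro ⟨y, rfl⟩
      exact ⟨y, rfl⟩
    · rintro ⟨y, rfl⟩
      exact ⟨y, rfl⟩

end Cfsg.Agent.S2907
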