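import Cfsg.Statements.S2908
import Cfsg.Agent.Lib.SchurZ2
import Cfsg.Agent.Lib.ChiefCrit

open scoped commutatorElement

set_option autoImplicit false
open Cfsg

namespace Cfsg.Agent.S2908


theorem eq_bot_of_commutator_eq {G : Type*} [Group G] {T Q : Subgroup G} (hT : Group.IsNilpotent T) (hQT : Q ≤ T)
    (h : ⁅Q, T⁆ = Q) : Q = ⊥ := by
  have h2 : ∀ n : ℕ, Q ≤ T.lowerCentralSeries n := by
    intro n
    induction n with
    | zero => exact hQT
    | succ n ih =>
      rw [← h]
      exact Subgroup.commutator_mono ih le_rfl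
  obtain ⟨n, hn⟩ := (Subgroup.isNilpotent_iff_lowerCentralSeries T).mp hT
  have h3 := h2 n
  rwa [hn, le_bot_iff] at h3


/-- Let P be a p-subgroup of a finite group, normalized by a p-subgroup A and by a subgroup B of order prime to p that commutes elementwise with A. If [P, B] ≤ [P, A], then B centralizes P. -/
theorem result {G : Type*} [Group G] [Finite G] {p : ℕ} [Fact p.Prime] (P A B : Subgroup G) (hP : IsPGroup p ↥P) (hA : IsPGroup p ↥A) (hB : ¬ p ∣ Nat.card ↥B) (hnA : A ≤ Subgroup.normalizer (P : Set G)) (hnB : B ≤ Subgroup.normalizer (P : Set G)) (hAB : ⁅A, B⁆ = ⊥) (hcomm : ⁅P, B⁆ ≤ ⁅P, A⁆) : ⁅P, B⁆ = ⊥ := by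
  classical
  have hcop : Nat.Coprime (Nat.card P) (Nat.card B) := by
    obtain ⟨n, hn⟩ := IsPGroup.iff_card.mp hP
    rw [hn]
    exact Nat.Coprime.pow_left n ((Nat.Prime.coprime_iff_not_dvd (Fact.out)).mpr hB)
  set Q := ⁅P, B⁆ with hQ
  have hs : Group.IsSolvable P ∨ Group.IsSolvable B := by
    haveI := hP.isNilpotent
    exact Or.inl inferInstance
  have hQQ : ⁅Q, B⁆ = Q := Cfsg.Agent.Lib.SchurZ.commutator_commutator_eq hnB hcop hs
  have hQP : Q ≤ P := Cfsg.Agent.Lib.SchurZ.commutator_le_of_normalizes hnB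
  -- `T = P ⊔ A` is a `p`-group
  let T := P ⊔ A
  have hTp : IsPGroup p T := IsPGroup.to_sup_of_normal_left' hP hA hnA
  have hPQ : P ≤ Subgroup.normalizer (Q : Set G) := Cfsg.Agent.Lib.Commutators.commutator_le_normalizer_left
  have hAcB : ∀ a ∈ A, ∀ b ∈ B, a * b = b * a := by
    intro a ha b hb
    have h1 : ⁅a, b⁆ ∈ ⁅A, B⁆ := Subgroup.commutator_mem_commutator ha hb
    rw [hAB, Subgroup.mem_bot] at h1
    exact commutatorElement_eq_one_iff_mul_comm.mp h1
  have hcomm_conj : ∀ a b : G, a * b = b * a → a⁻¹ * b = b * a⁻¹ := by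
    intro a b h
    calc a⁻¹ * b = a⁻¹ * (b * a) * a⁻¹ := by group
      _ = a⁻¹ * (a * b) * a⁻¹ := by rw [h]
      _ = b * a⁻¹ := by group
  have hABn : A ≤ Subgroup.normalizer (B : Set G) := by
    intro a ha
    apply Cfsg.Agent.Lib.Commutators.mem_normalizer_of_conj_mem
    · intro b hb
      rw [hAcB a ha b hb]; simpa using hb
    · intro b hb
      rw [hcomm_conj a b (hAcB a ha b hb)]; simpa using hb
  have hBAn : B ≤ Subgroup.normalizer (A : Set G) := by
    intro b hb
    apply Cfsg.Agent.Lib.Commutators.mem_normalizer_of_conj_mem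
    · intro a ha
      rw [← hAcB a ha b hb]; simpa using ha
    · intro a ha
      rw [hcomm_conj b a (hAcB a ha b hb).symm]; simpa using ha
  have hAQ : A ≤ Subgroup.normalizer (Q : Set G) := fun a ha =>
    Cfsg.Agent.Lib.Commutators.normalizer_le_normalizer_commutator ⟨hnA ha, hABn ha⟩
  have hBQ : B ≤ Subgroup.normalizer (Q : Set G) :=
    Cfsg.Agent.Lib.Commutators.commutator_le_normalizer_right
  have hTQ : T ≤ Subgroup.normalizer (Q : Set G) := sup_le hPQ hAQ
  have hBT : B ≤ Subgroup.normalizer (T : Set G) := fun b hb =>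
    Cfsg.Agent.Lib.Commutators.normalizer_le_normalizer_sup ⟨hnB hb, hBAn hb⟩
  -- `E = [Q, T]`
  let E := ⁅Q, T⁆
  have hTE : T ≤ Subgroup.normalizer (E : Set G) := Cfsg.Agent.Lib.Commutators.commutator_le_normalizer_right
  have hBE : B ≤ Subgroup.normalizer (E : Set G) := fun b hb =>
    Cfsg.Agent.Lib.Commutators.normalizer_le_normalizer_commutator ⟨hBQ hb, hBT hb⟩
  have hEQ : E ≤ Q := Cfsg.Agent.Lib.SchurZ.commutator_le_of_normalizes hTQ
  have h3 : ⁅⁅P, A⁆, B⁆ ≤ E := by
    refine Cfsg.Agent.Lib.ChiefCrit.three_subgroups_local A B P E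
      ((le_sup_right : A ≤ T).trans hTE) hBE ((le_sup_left : P ≤ T).trans hTE) ?_ ?_
    · rw [hAB, Subgroup.commutator_bot_left]
      exact bot_le
    · rw [Subgroup.commutator_comm B P]
      exact Subgroup.commutator_mono le_rfl le_sup_right
  have hQE : Q ≤ E := by
    rw [← hQQ] 
    exact (Subgroup.commutator_mono hcomm le_rfl).trans h3
  have hEeq : ⁅Q, T⁆ = Q := le_antisymm hEQ hQE
  exact eq_bot_of_commutator_eq hTp.isNilpotent (hQP.trans le_sup_left) hEeq

end Cfsg.Agent.S2908
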