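import Cfsg.Statements.S2909
import Cfsg.Agent.Lib.DualAB

set_option autoImplicit false
open Cfsg

namespace Cfsg.Agent.S2909


open scoped commutatorElement

theorem norm_inf {G : Type*} [Group G] {g : G} {H K : Subgroup G} (hH : g ∈ Subgroup.normalizer (H : Set G))
    (hK : g ∈ Subgroup.normalizer (K : Set G)) : g ∈ Subgroup.normalizer ((H ⊓ K : Subgroup G) : Set G) := by
  rw [Subgroup.mem_normalizer_iff] at *
  intro x
  rw [Subgroup.mem_inf, Subgroup.mem_inf]
  exact and_congr (hH x) (hK x)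


/-- Let p be a prime, E a normal p-subgroup of the finite group G, and U a non-cyclic elementary abelian p-subgroup of G such that either C_E(U) = C_E(u) for every nontrivial u ∈ U, or [E, U] = [E, ⟨u⟩] for every nontrivial u ∈ U. If R is a subgroup of order prime to p normalized by U, then [R, U] centralizes E. -/
theorem result {G : Type*} [Group G] [Finite G] {p : ℕ} [Fact p.Prime] (E : Subgroup G) [E.Normal] (hE : IsPGroup p ↥E) (U : Subgroup G) (hU : Cfsg.IsElementaryAbelian p U) (hnc : ¬ IsCyclic ↥U) (hcond : (∀ u ∈ U, u ≠ 1 → E ⊓ Subgroup.centralizer (U : Set G) = E ⊓ Subgroup.centralizer ({u} : Set G)) ∨ (∀ u ∈ U, u ≠ 1 → ⁅E, U⁆ = ⁅E, Subgroup.zpowers u⁆)) (R : Subgroup G) (hR : ¬ p ∣ Nat.card ↥R) (hRU : U ≤ Subgroup.normalizer (R : Set G)) : ⁅R, U⁆ ≤ Subgroup.centralizer (E : Set G) := by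
  classical
  haveI hcomm : IsMulCommutative ↥U := hU.1
  have hUp : IsPGroup p U := fun g => ⟨1, by
    rw [pow_one]
    apply Subtype.ext
    simpa using hU.2 g g.2⟩
  have hcopUR : (Nat.card U).Coprime (Nat.card R) := by
    obtain ⟨n, hn⟩ := IsPGroup.iff_card.1 hUp
    rw [hn]
    exact Nat.Coprime.pow_left n ((Nat.Prime.coprime_iff_not_dvd Fact.out).2 hR)
  set D : Subgroup G := ⁅R, U⁆ with hD
  have hDR : D ≤ R := Cfsg.Agent.Lib.SchurZ.commutator_le_of_normalizes hRU
  have hUD : U ≤ Subgroup.normalizer (D : Set G) := Subgroup.normalizer_commutator_ge_right R U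
  have hcopUD : (Nat.card U).Coprime (Nat.card D) :=
    Nat.Coprime.coprime_dvd_right (Subgroup.card_dvd_of_le hDR) hcopUR
  have hgen := Cfsg.Agent.Lib.CoprimeGen4.gen_eq U D hnc hUD hcopUD
  have hgenR := Cfsg.Agent.Lib.CoprimeGen4.gen_eq U R hnc hRU hcopUR
  have hEn : ∀ g : G, g ∈ Subgroup.normalizer (E : Set G) := fun g => by
    rw [Subgroup.mem_normalizer_iff]
    intro x
    exact ⟨fun h => ‹E.Normal›.conj_mem x h g, fun h => by
      have := ‹E.Normal›.conj_mem _ h g⁻¹
      simpa [mul_assoc] using this⟩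
  have hcopA : ∀ u : G, (Nat.card ↥(D ⊓ Subgroup.centralizer ({u} : Set G))).Coprime p := by
    intro u
    have h1 : ¬ p ∣ Nat.card ↥(D ⊓ Subgroup.centralizer ({u} : Set G)) := fun h =>
      hR (h.trans (Subgroup.card_dvd_of_le (inf_le_left.trans hDR)))
    exact ((Nat.Prime.coprime_iff_not_dvd Fact.out).2 h1).symm
  have hcomm_u : ∀ (u : G) (a : G), a ∈ D ⊓ Subgroup.centralizer ({u} : Set G) → ∀ b ∈ Subgroup.zpowers u, a * b = b * a := by
    intro u a ha b hb
    have h1 : a * u = u * a := (Subgroup.mem_centralizer_iff.1 ha.2 u rfl).symm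
    obtain ⟨k, rfl⟩ := Subgroup.mem_zpowers_iff.1 hb
    exact (Commute.zpow_right h1 k).eq
  have hzp : ∀ u : G, u ∈ U → IsPGroup p ↥(Subgroup.zpowers u) := by
    intro u hu
    rw [IsPGroup.iff_card, Nat.card_zpowers]
    obtain ⟨n, hn⟩ := hUp ⟨u, hu⟩
    have h1 : u ^ p ^ n = 1 := by simpa using congrArg Subtype.val hn
    obtain ⟨k, -, hk⟩ := (Nat.dvd_prime_pow Fact.out).1 (orderOf_dvd_of_pow_eq_one h1)
    exact ⟨k, hk⟩
  -- reduction to the centralizers of single elements
  suffices key : ∀ u ∈ U, u ≠ 1 → D ⊓ Subgroup.centralizer ({u} : Set G) ≤ Subgroup.centralizer (E : Set G) by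
    rw [← hgen]
    refine iSup₂_le fun u hu => ?_
    exact key u hu.1 hu.2
  rcases hcond with hc | hc
  · -- first case
    set C₀ : Subgroup G := E ⊓ Subgroup.centralizer (U : Set G) with hC₀
    have hRC : R ≤ Subgroup.normalizer (C₀ : Set G) := by
      rw [← hgenR]
      refine iSup₂_le fun u hu => ?_
      intro r hr
      rw [hc u hu.1 hu.2]
      have h1 : r ∈ Subgroup.normalizer ((Subgroup.centralizer ({u} : Set G) : Subgroup G) : Set G) := by
        rw [Subgroup.mem_normalizer_iff]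
        intro x
        have hru : r * u = u * r := (Subgroup.mem_centralizer_iff.1 hr.2 u rfl).symm
        have hru' : r⁻¹ * u = u * r⁻¹ := by
          calc r⁻¹ * u = r⁻¹ * (u * r) * r⁻¹ := by group
            _ = r⁻¹ * (r * u) * r⁻¹ := by rw [hru]
            _ = u * r⁻¹ := by group
        simp only [Subgroup.mem_centralizer_singleton_iff]
        constructor
        · intro h2
          calc r * x * r⁻¹ * u = r * x * (r⁻¹ * u) := by group
            _ = r * x * (u * r⁻¹) := by rw [hru']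
            _ = r * (x * u) * r⁻¹ := by group
            _ = r * (u * x) * r⁻¹ := by rw [h2]
            _ = (r * u) * x * r⁻¹ := by group
            _ = (u * r) * x * r⁻¹ := by rw [hru]
            _ = _ := by group
        · intro h2
          have h3 : r * (x * u) * r⁻¹ = r * (u * x) * r⁻¹ := by
            calc r * (x * u) * r⁻¹ = r * x * (u * r⁻¹) := by group
              _ = r * x * (r⁻¹ * u) := by rw [hru']
              _ = r * x * r⁻¹ * u := by group
              _ = u * (r * x * r⁻¹) := h2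
              _ = (u * r) * x * r⁻¹ := by group
              _ = (r * u) * x * r⁻¹ := by rw [hru]
              _ = _ := by group
          exact mul_left_cancel (mul_right_cancel h3)
      exact norm_inf (hEn r) h1
    have hDC : D ≤ Subgroup.centralizer (C₀ : Set G) := by
      rw [hD, Subgroup.commutator_le]
      intro r hr u hu
      rw [Subgroup.mem_centralizer_iff]
      intro c hc'
      have hcu : ∀ c ∈ C₀, ∀ u ∈ U, c * u = u * c := fun c hc'' u hu =>
        (Subgroup.mem_centralizer_iff.1 hc''.2 u hu).symm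
      have hc1 : r⁻¹ * c * r⁻¹⁻¹ ∈ C₀ :=
        (Subgroup.mem_normalizer_iff.1 (hRC (R.inv_mem hr)) _).1 hc'
      set c' := r⁻¹ * c * r⁻¹⁻¹ with hc'def
      have e1 : c = r * c' * r⁻¹ := by rw [hc'def]; group
      have e2 : u⁻¹ * c = c * u⁻¹ := by
        calc u⁻¹ * c = u⁻¹ * (c * u) * u⁻¹ := by group
          _ = u⁻¹ * (u * c) * u⁻¹ := by rw [hcu c hc' u hu]
          _ = c * u⁻¹ := by group
      rw [commutatorElement_def]
      calc c * (r * u * r⁻¹ * u⁻¹) = (r * c' * r⁻¹) * (r * u * r⁻¹ * u⁻¹) := by rw [← e1]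
        _ = r * (c' * u) * r⁻¹ * u⁻¹ := by group
        _ = r * (u * c') * r⁻¹ * u⁻¹ := by rw [hcu c' hc1 u hu]
        _ = r * u * r⁻¹ * (r * c' * r⁻¹) * u⁻¹ := by group
        _ = r * u * r⁻¹ * (c * u⁻¹) := by rw [← e1]; group
        _ = r * u * r⁻¹ * (u⁻¹ * c) := by rw [e2]
        _ = _ := by group
    intro u hu hu1 a ha
    rw [Subgroup.mem_centralizer_iff]
    intro x hx
    have := Cfsg.Agent.Lib.CoprimeAB.ab_lemma (P := E) (A := D ⊓ Subgroup.centralizer ({u} : Set G))
      (B := Subgroup.zpowers u) hE (hzp u hu) (fun _ _ => hEn _) (fun _ _ => hEn _) (hcomm_u u) (hcopA u)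
      (fun y hy hyb b hb => by
        have hy2 : y ∈ E ⊓ Subgroup.centralizer ({u} : Set G) := by
          have hy3 : y ∈ Subgroup.centralizer ({u} : Set G) :=
            Subgroup.mem_centralizer_singleton_iff.2 (hyb u (Subgroup.mem_zpowers u))
          exact ⟨hy, hy3⟩
        rw [← hc u hu hu1] at hy2
        exact (Subgroup.mem_centralizer_iff.1 (hDC hb.1) y hy2).symm) x hx a ha
    exact this.symm
  · set W : Subgroup G := ⁅E, U⁆ with hW
    have hRW : R ≤ Subgroup.normalizer (W : Set G) := by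
      rw [← hgenR]
      refine iSup₂_le fun u hu => ?_
      intro r hr
      rw [hc u hu.1 hu.2]
      refine Cfsg.Agent.Lib.DualAB.norm_comm (hEn r) (Cfsg.Agent.Lib.DualAB.mem_norm_of_comm fun b hb => ?_)
      have h1 : r * u = u * r := (Subgroup.mem_centralizer_iff.1 hr.2 u rfl).symm
      obtain ⟨k, rfl⟩ := Subgroup.mem_zpowers_iff.1 hb
      exact (Commute.zpow_right h1 k).eq
    have hUW : U ≤ Subgroup.normalizer (W : Set G) := Subgroup.normalizer_commutator_ge_right E U
    let T : Subgroup G :=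
      { carrier := {g | g ∈ Subgroup.normalizer (W : Set G) ∧ ∀ x ∈ E, g * x * g⁻¹ * x⁻¹ ∈ W}
        mul_mem' := by
          rintro g h ⟨hg, hg2⟩ ⟨hh, hh2⟩
          refine ⟨Subgroup.mul_mem _ hg hh, fun x hx => ?_⟩
          have e : g * h * x * (g * h)⁻¹ * x⁻¹ = (g * (h * x * h⁻¹ * x⁻¹) * g⁻¹) * (g * x * g⁻¹ * x⁻¹) := by group
          rw [e]
          exact W.mul_mem ((Subgroup.mem_normalizer_iff.1 hg _).1 (hh2 x hx)) (hg2 x hx)
        one_mem' := ⟨Subgroup.one_mem _, fun x _ => by simp [W.one_mem]⟩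
        inv_mem' := by
          rintro g ⟨hg, hg2⟩
          refine ⟨Subgroup.inv_mem _ hg, fun x hx => ?_⟩
          have hy : g⁻¹ * x * g⁻¹⁻¹ ∈ E := ‹E.Normal›.conj_mem x hx g⁻¹
          have h1 := hg2 _ hy
          have e : g⁻¹ * x * g⁻¹⁻¹ * x⁻¹ = (g * (g⁻¹ * x * g⁻¹⁻¹) * g⁻¹ * (g⁻¹ * x * g⁻¹⁻¹)⁻¹)⁻¹ := by group
          rw [e]
          exact W.inv_mem h1 }
    have hUT : ∀ u ∈ U, u ∈ T := by
      intro u hu
      refine ⟨hUW hu, fun x hx => ?_⟩
      have h1 : ⁅x, u⁆ ∈ W := Subgroup.commutator_mem_commutator hx hu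
      have e : u * x * u⁻¹ * x⁻¹ = ⁅x, u⁆⁻¹ := by
        rw [commutatorElement_def]; group
      rw [e]
      exact W.inv_mem h1
    have hconjT : ∀ r ∈ R, ∀ u ∈ U, r * u * r⁻¹ ∈ T := by
      intro r hr u hu
      refine ⟨Subgroup.mul_mem _ (Subgroup.mul_mem _ (hRW hr) (hUW hu)) (Subgroup.inv_mem _ (hRW hr)), fun x hx => ?_⟩
      have hy : r⁻¹ * x * r⁻¹⁻¹ ∈ E := ‹E.Normal›.conj_mem x hx r⁻¹
      have h1 := (hUT u hu).2 _ hy
      have h2 := (Subgroup.mem_normalizer_iff.1 (hRW hr) _).1 h1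
      have e : r * u * r⁻¹ * x * (r * u * r⁻¹)⁻¹ * x⁻¹
          = r * (u * (r⁻¹ * x * r⁻¹⁻¹) * u⁻¹ * (r⁻¹ * x * r⁻¹⁻¹)⁻¹) * r⁻¹ := by group
      rw [e]
      exact h2
    have hDT : D ≤ T := by
      rw [hD, Subgroup.commutator_le]
      intro r hr u hu
      have e : ⁅r, u⁆ = (r * u * r⁻¹) * u⁻¹ := by
        rw [commutatorElement_def]
      rw [e]
      exact T.mul_mem (hconjT r hr u hu) (T.inv_mem (hUT u hu))
    intro u hu hu1 a ha
    rw [Subgroup.mem_centralizer_iff]
    intro x hx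
    exact Cfsg.Agent.Lib.DualAB.dual_ab (P := E) (A := D ⊓ Subgroup.centralizer ({u} : Set G))
      (B := Subgroup.zpowers u) hE (hzp u hu) (fun _ _ => hEn _) (fun _ _ => hEn _) (hcomm_u u) (hcopA u)
      (fun y hy b hb => by
        rw [← hc u hu hu1]
        have h1 := (hDT hb.1).2 y hy
        have e : y * b * y⁻¹ * b⁻¹ = (b * y * b⁻¹ * y⁻¹)⁻¹ := by group
        rw [e]
        exact W.inv_mem h1) x hx a ha

end Cfsg.Agent.S2909
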