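import Cfsg.Statements.S2912
import Cfsg.Agent.Lib.ESBound

set_option autoImplicit false
open Cfsg

namespace Cfsg.Agent.S2912

open scoped commutatorElement


/-- Let p and r be distinct primes, let E be an extraspecial subgroup of order p^(2w+1) of a finite group, and let A be an elementary abelian r-subgroup normalized by E on which E acts faithfully (C_E(A) = 1). If n ≥ 1 is least with p dividing rⁿ − 1 (the smallest dimension of a faithful representation of a group of order p over the field with r elements), then the order of A is at least r^(n·p^w). -/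
theorem result {G : Type*} [Group G] [Finite G] {p r : ℕ} [Fact p.Prime] [hr : Fact r.Prime] (hpr : p ≠ r) (E A : Subgroup G) (w : ℕ) (hE : Cfsg.IsExtraspecial p ↥E) (hEcard : Nat.card ↥E = p ^ (2 * w + 1)) (hA : Cfsg.IsElementaryAbelian r A) (hnorm : E ≤ Subgroup.normalizer (A : Set G)) (hfaith : E ⊓ Subgroup.centralizer (A : Set G) = ⊥) (n : ℕ) (hn : 1 ≤ n) (hdiv : p ∣ r ^ n - 1) (hmin : ∀ k : ℕ, 1 ≤ k → p ∣ r ^ k - 1 → n ≤ k) : r ^ (n * p ^ w) ≤ Nat.card ↥A := by
  classical
  obtain ⟨⟨hpg, hfr, hcm⟩, hcard⟩ := hE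
  haveI : IsCyclic (Subgroup.center ↥E) := isCyclic_of_prime_card hcard
  obtain ⟨z₀, hz₀⟩ := IsCyclic.exists_generator (α := Subgroup.center ↥E)
  set z : ↥E := (z₀ : ↥E) with hz_def
  have hz₀1 : z₀ ≠ 1 := by
    rintro rfl
    have h2 : ∀ x : Subgroup.center ↥E, x = 1 := by
      intro x
      have := hz₀ x
      simpa using this
    have h3 : Nat.card (Subgroup.center ↥E) = 1 := by
      rw [Nat.card_eq_one_iff_unique]
      exact ⟨⟨fun a b => by rw [h2 a, h2 b]⟩, ⟨1⟩⟩
    rw [h3] at hcard
    exact (Fact.out : p.Prime).ne_one hcard.symm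
  have hz1 : z ≠ 1 := fun h => hz₀1 (Subtype.ext h)
  have hzp : z ^ p = 1 := by
    have h := pow_card_eq_one' (x := z₀)
    rw [hcard] at h
    exact congrArg Subtype.val h
  have hzc : ∀ g : ↥E, g * z = z * g := fun g => (Subgroup.mem_center_iff.1 z₀.2 g)
  have hcomm : ∀ h x : ↥E, ∃ k : ℕ, h * x * h⁻¹ * x⁻¹ = z ^ k := by
    intro h x
    have h1 : ⁅h, x⁆ ∈ commutator ↥E :=
      Subgroup.commutator_mem_commutator (Subgroup.mem_top h) (Subgroup.mem_top x)
    rw [hcm] at h1
    have h2 := hz₀ ⟨_, h1⟩
    rw [← mem_powers_iff_mem_zpowers] at h2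
    obtain ⟨k, hk⟩ := h2
    refine ⟨k, ?_⟩
    have h3 : z ^ k = ⁅h, x⁆ := congrArg Subtype.val hk
    rw [commutatorElement_def] at h3
    exact h3.symm
  have hquot : Nat.card (↥E ⧸ Subgroup.center ↥E) = p ^ (2 * w) := by
    have h1 := Subgroup.card_eq_card_quotient_mul_card_subgroup (Subgroup.center ↥E)
    rw [hEcard, hcard, pow_succ] at h1
    exact (Nat.eq_of_mul_eq_mul_right (Fact.out : p.Prime).pos h1).symm
  -- the module
  have hcomm' : ∀ a b : ↥A, a * b = b * a := fun a b => hA.1.is_comm.comm a b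
  letI : CommGroup ↥A := { (inferInstance : Group ↥A) with mul_comm := hcomm' }
  have hmem : ∀ (g : ↥E) (x : ↥A), (g : G) * (x : G) * (g : G)⁻¹ ∈ A := fun g x =>
    (Subgroup.mem_normalizer_iff.1 (hnorm g.2) x).1 x.2
  have hmem' : ∀ (g : ↥E) (x : ↥A), (g : G)⁻¹ * (x : G) * (g : G) ∈ A := fun g x => by
    have h := (Subgroup.mem_normalizer_iff.1 (hnorm g.2) ((g : G)⁻¹ * (x : G) * (g : G))).2
    apply h
    simp only [mul_assoc, mul_inv_cancel, mul_one, mul_inv_cancel_left]
    exact x.2
  let c : ↥E →* MulAut ↥A :=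
    { toFun := fun g =>
        { toFun := fun x => ⟨(g : G) * (x : G) * (g : G)⁻¹, hmem g x⟩
          invFun := fun x => ⟨(g : G)⁻¹ * (x : G) * (g : G), hmem' g x⟩
          left_inv := fun x => by
            apply Subtype.ext
            simp only
            group
          right_inv := fun x => by
            apply Subtype.ext
            simp only
            group
          map_mul' := fun x y => by
            apply Subtype.ext
            simp only [Subgroup.coe_mul]
            group }
      map_one' := by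
        ext x
        simp
      map_mul' := fun g h => by
        ext x
        simp [mul_assoc] }
  have hc : Function.Injective c := by
    rw [injective_iff_map_eq_one]
    intro g h1
    apply Subtype.ext
    have h2 : (g : G) ∈ E ⊓ Subgroup.centralizer (A : Set G) := by
      refine ⟨g.2, ?_⟩
      change (g : G) ∈ Subgroup.centralizer (A : Set G)
      rw [Subgroup.mem_centralizer_iff]
      intro x hx
      have h3 := congrArg Subtype.val (DFunLike.congr_fun h1 (⟨x, hx⟩ : ↥A))
      have h5 : (g : G) * x * (g : G)⁻¹ = x := h3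
      rw [mul_inv_eq_iff_eq_mul] at h5
      exact h5.symm
    rw [hfaith] at h2
    exact h2
  obtain ⟨d, M, hM, hcardA⟩ := Cfsg.Agent.Lib.ESBound.exists_rep' (r := r)
    (fun a : ↥A => Subtype.ext (by simpa using hA.2 a a.2)) c hc
  have hfin := Cfsg.Agent.Lib.ESBound.core (r := r) (p := p) (a := p ^ w) (n := n) M hM hpr hz1 hzp hzc hcomm hmin (by
    rw [hquot, ← pow_mul, mul_comm])
  rw [hcardA]
  exact Nat.pow_le_pow_right (Fact.out : r.Prime).pos hfin

end Cfsg.Agent.S2912
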