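import Cfsg.Statements.S2922
import Cfsg.Agent.Lib.CharPOver

set_option autoImplicit false
open Cfsg

namespace Cfsg.Agent.S2922

open Cfsg.Agent.Lib Cfsg.Agent.Lib.CharPOver


/-- Let p be a prime, X a finite group, B a p-subgroup of X and C a normal subgroup of B. If N_X(C) has characteristic p (its generalized Fitting subgroup is O_p(N_X(C))), then N_X(B) and C_X(B) have characteristic p. -/
theorem result {X : Type*} [Group X] [Finite X] {p : ℕ} [Fact p.Prime] (B C : Subgroup X) (hB : IsPGroup p ↥B) (hCB : C ≤ B) (hCn : (C.subgroupOf B).Normal) (hC : Cfsg.generalizedFittingSubgroup ↥(Subgroup.normalizer (C : Set X)) = Cfsg.pCore p ↥(Subgroup.normalizer (C : Set X))) : Cfsg.generalizedFittingSubgroup ↥(Subgroup.normalizer (B : Set X)) = Cfsg.pCore p ↥(Subgroup.normalizer (B : Set X)) ∧ Cfsg.generalizedFittingSubgroup ↥(Subgroup.centralizer (B : Set X)) = Cfsg.pCore p ↥(Subgroup.centralizer (B : Set X)) := by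
  have h1 : CharIn p (Subgroup.normalizer (C : Set X)) :=
    CompsLocal.centralizer_pCore_le_of_genFitting hC
  have hBN : B ≤ Subgroup.normalizer (C : Set X) :=
    (Subgroup.normal_subgroupOf_iff_le_normalizer hCB).1 hCn
  have hcen : Subgroup.centralizer (B : Set X) ≤ Subgroup.normalizer (C : Set X) := by
    intro a ha
    exact H2Basic.mem_normalizer_of_forall_comm (fun b hb => (Subgroup.mem_centralizer_iff.1 ha b (hCB hb)).symm)
  have h2 : CharIn p (Subgroup.normalizer (B : Set X)) := char_lift _ B h1 hBN hB hcen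
  refine ⟨CompsLocal.genFitting_of_centralizer_pCore_le h2, ?_⟩
  apply CompsLocal.genFitting_of_centralizer_pCore_le
  refine char_of_le_normal ?_ (CompsLocal.centralizer_subgroupOf_normal B) h2
  intro a ha
  exact H2Basic.mem_normalizer_of_forall_comm (fun b hb => (Subgroup.mem_centralizer_iff.1 ha b hb).symm)

end Cfsg.Agent.S2922
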