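import Cfsg.Statements.S2940
import Cfsg.Agent.Lib.SylowIn

set_option autoImplicit false
open Cfsg

namespace Cfsg.Agent.S2940

/-- Let S be a Sylow p-subgroup of the finite group G and G₁, G₂ subgroups containing S with G = G₁G₂. Then for every g ∈ G there is a Sylow p-subgroup U of G with S ∩ S^g ≤ U ≤ G₁ ∩ G₂^g (conjugates taken as X^g = g⁻¹Xg). -/
theorem result {G : Type*} [Group G] [Finite G] {p : ℕ} [Fact p.Prime] (S : Sylow p G) (G₁ G₂ : Subgroup G) (h1 : (S : Subgroup G) ≤ G₁) (h2 : (S : Subgroup G) ≤ G₂) (hfact : ∀ g : G, ∃ g₁ ∈ G₁, ∃ g₂ ∈ G₂, g = g₁ * g₂) (g : G) : ∃ U : Sylow p G, (S : Subgroup G) ⊓ Cfsg.subgroupConjRight g (S : Subgroup G) ≤ (U : Subgroup G) ∧ (U : Subgroup G) ≤ G₁ ⊓ Cfsg.subgroupConjRight g G₂ := by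
  open Cfsg.Agent.Lib.SylowIn in
  obtain ⟨h₁, hh₁, h₂, hh₂, hfac⟩ := hfact g⁻¹
  set X := G₁ ⊓ subgroupConjRight g G₂ with hX
  have hB : (S : Subgroup G).map (MulAut.conj h₁).toMonoidHom ≤ X := by
    rintro _ ⟨s, hs, rfl⟩
    refine ⟨G₁.mul_mem (G₁.mul_mem hh₁ (h1 hs)) (G₁.inv_mem hh₁), ?_⟩
    refine ⟨h₂⁻¹ * s * h₂, G₂.mul_mem (G₂.mul_mem (G₂.inv_mem hh₂) (h2 hs)) hh₂, ?_⟩
    have hg : g = h₂⁻¹ * h₁⁻¹ := by
      have := congrArg (fun y => y⁻¹) hfac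
      simpa using this
    simp only [MulEquiv.coe_toMonoidHom, MulAut.conj_apply, hg]
    group
  have hD : (S : Subgroup G) ⊓ subgroupConjRight g (S : Subgroup G) ≤ X :=
    le_inf (inf_le_left.trans h1) (inf_le_right.trans (Subgroup.map_mono h2))
  obtain ⟨T, hDT, hTX, hT⟩ := exists_isSylowIn_ge hD (S.isPGroup'.to_le inf_le_left)
  have hcard := hT.card_le hTX hB (S.isPGroup'.map _)
  obtain ⟨U, hU⟩ := (hT.isPGroup hTX).exists_le_sylow
  have hTU : T = U := by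
    apply Subgroup.eq_of_le_of_card_ge hU
    rw [card_map_conj] at hcard
    have : Nat.card U = Nat.card S := Nat.card_congr (Sylow.equiv U S).toEquiv
    rw [this]
    exact hcard
  exact ⟨U, hDT.trans hU, hTU ▸ hTX⟩

end Cfsg.Agent.S2940
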