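import Mathlib
import Cfsg.Agent.Lib.SylowControl
import Cfsg.Statements.S2955
-- import your own Cfsg.Agent.* helpers here

set_option autoImplicit false
open Cfsg

namespace Cfsg.Agent.S2955

open Cfsg.Agent.Lib.SylowControl Cfsg


/-- Let p be a prime dividing the order of the finite group G and 𝓕 a conjugation-closed family of subgroups that controls Sylow p-intersections in G. Suppose the Sylow p-subgroups of G are chain-connected: any two of them are joined by a chain of Sylow p-subgroups, consecutive ones distinct with nontrivial intersection, all containing the intersection of the two ends (equivalently, the graph on the Sylow p-subgroups whose edges are the distinct pairs meeting nontrivially is connected). Then for every Sylow p-subgroup S, G is generated by N_G(S) together with the members of 𝓕 that meet S in a Sylow p-subgroup of themselves. -/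
theorem result {G : Type*} [Group G] [Finite G] (p : ℕ) [Fact p.Prime] (hdiv : p ∣ Nat.card G)
    (𝓕 : Set (Subgroup G)) (h𝓕 : Cfsg.IsNormalSet 𝓕) (hc : Cfsg.ControlsSylowIntersections p 𝓕)
    (hconn : Cfsg.IsSylowChainConnected p G) (S : Sylow p G) :
    (⨆ X ∈ Cfsg.sylowMembers p 𝓕 (S : Subgroup G), X) ⊔ Subgroup.normalizer ((S : Subgroup G) : Set G) = ⊤ := by
  classical
  set A : Subgroup G := (⨆ X ∈ Cfsg.sylowMembers p 𝓕 (S : Subgroup G), X) ⊔
    Subgroup.normalizer ((S : Subgroup G) : Set G) with hA
  have hmemA : ∀ X ∈ Cfsg.sylowMembers p 𝓕 (S : Subgroup G), X ≤ A := by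
    intro X hX
    exact le_trans (le_iSup₂_of_le X hX le_rfl) le_sup_left
  have hNA : Subgroup.normalizer ((S : Subgroup G) : Set G) ≤ A := le_sup_right
  -- the members of the family attached to a conjugate of `S` lie in `A`
  have hstep₀ : ∀ (a : G) (X : Subgroup G), a ∈ A →
      X ∈ Cfsg.sylowMembers p 𝓕 (subgroupConjRight a (S : Subgroup G)) → X ≤ A := by
    intro a X ha hX
    have h1 := sylowMembers_conj h𝓕 a⁻¹ hX
    rw [conjRight_conjRight, mul_inv_cancel, conjRight_one] at h1
    have h2 := hmemA _ h1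
    intro x hx
    have h3 : a * x * a⁻¹ ∈ subgroupConjRight a⁻¹ X := by
      rw [mem_conjRight]
      simpa [mul_assoc] using hx
    have h4 := h2 h3
    have h5 := A.mul_mem (A.mul_mem (A.inv_mem ha) h4) ha
    simpa [mul_assoc] using h5
  let Good : Sylow p G → Prop := fun T => ∃ a ∈ A, subgroupConjRight a (S : Subgroup G) = (T : Subgroup G)
  have hchain : ∀ (n : ℕ) (c : Fin (n + 1) → Sylow p G), Good (c 0) →
      (∀ i : Fin n, Good (c i.castSucc) → Good (c i.succ)) → Good (c (Fin.last n)) := by
    intro n c h0 hs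
    exact Fin.induction (motive := fun i => Good (c i)) h0 (fun i hi => hs i hi) (Fin.last n)
  have hedge : ∀ T T' : Sylow p G, T ≠ T' → (T : Subgroup G) ⊓ (T' : Subgroup G) ≠ ⊥ → Good T → Good T' := by
    intro T T' hne hint hT
    obtain ⟨n, c, X, x, hc0, hcl, hc₂⟩ := hc T T' hne hint
    rw [← hcl]
    apply hchain n c (by rw [hc0]; exact hT)
    rintro i ⟨a, ha, hai⟩
    obtain ⟨hX₁, -, hx, hconj, -⟩ := hc₂ i
    rw [← hai] at hX₁
    have hXA := hstep₀ a _ ha hX₁
    have hxA := hXA hx
    refine ⟨a * (x i)⁻¹, A.mul_mem ha (A.inv_mem hxA), ?_⟩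
    rw [← conjRight_conjRight, hai, ← hconj, conjRight_conjRight, mul_inv_cancel, conjRight_one] 
  have hall : ∀ T : Sylow p G, Good T := by
    intro T
    obtain ⟨n, c, hc0, hcl, -, hc'⟩ := hconn S T
    rw [← hcl]
    apply hchain n c
    · rw [hc0]
      exact ⟨1, A.one_mem, conjRight_one _⟩
    · intro i hi
      exact hedge _ _ (hc' i).1 (hc' i).2 hi
  rw [eq_top_iff]
  intro g _
  obtain ⟨a, ha, hag⟩ := hall (g⁻¹ • S)
  rw [coe_smul_eq, inv_inv] at hag
  have h1 : subgroupConjRight (a * g⁻¹) (S : Subgroup G) = (S : Subgroup G) := by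
    rw [← conjRight_conjRight, hag, conjRight_conjRight, mul_inv_cancel, conjRight_one]
  have hn : a * g⁻¹ ∈ Subgroup.normalizer ((S : Subgroup G) : Set G) := by
    rw [Subgroup.mem_normalizer_iff]
    intro y
    have h2 : y ∈ subgroupConjRight (a * g⁻¹) (S : Subgroup G) ↔ y ∈ (S : Subgroup G) := by rw [h1]
    rw [mem_conjRight] at h2
    exact h2.symm
  have h3 := A.mul_mem (A.inv_mem (hNA hn)) ha
  simpa using h3

end Cfsg.Agent.S2955
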