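import Cfsg.Statements.S2957
import Mathlib
import Cfsg.Agent.Lib.SylowControl

set_option autoImplicit false
open Cfsg

namespace Cfsg.Agent.S2957

open Cfsg Cfsg.Agent.Lib.SylowControl Cfsg.Agent.Lib.StrongEmb

variable {G : Type*} [Group G]

theorem mem_conj {A : Subgroup G} {g x : G} :
    x ∈ A.map (MulAut.conj g).toMonoidHom ↔ g⁻¹ * x * g ∈ A :=
  Cfsg.Agent.Lib.SylowIn.mem_map_conj

theorem norm_conj {F : Subgroup G} {x : G} (g : G) (hx : x ∈ Subgroup.normalizer (F : Set G)) :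
    g * x * g⁻¹ ∈ Subgroup.normalizer ((F.map (MulAut.conj g).toMonoidHom : Subgroup G) : Set G) := by
  rw [Subgroup.mem_normalizer_iff]
  intro h
  rw [mem_conj, mem_conj, (Subgroup.mem_normalizer_iff.1 hx) (g⁻¹ * h * g)]
  have : x * (g⁻¹ * h * g) * x⁻¹ = g⁻¹ * (g * x * g⁻¹ * h * (g * x * g⁻¹)⁻¹) * g := by group
  rw [this]

theorem conj_map_subtype {M : Subgroup G} (x : ↥M) (K : Subgroup ↥M) :
    subgroupConjRight (x : G) (K.map M.subtype) = (subgroupConjRight x K).map M.subtype := by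
  simp only [subgroupConjRight, Subgroup.map_map]
  congr 1

theorem conj_conj {B A : Subgroup G} {x : G} (g : G) (h : subgroupConjRight x B = A) :
    subgroupConjRight (g * x * g⁻¹) (B.map (MulAut.conj g).toMonoidHom)
      = A.map (MulAut.conj g).toMonoidHom := by
  ext y
  rw [mem_conjRight, mem_conj, mem_conj, ← h, mem_conjRight]
  have : g⁻¹ * (g * x * g⁻¹ * y * (g * x * g⁻¹)⁻¹) * g = x * (g⁻¹ * y * g) * x⁻¹ := by group
  rw [this]

variable [Finite G] {p : ℕ} [Fact p.Prime]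

/-- One link of a chain. -/
def Step (f : Subgroup G → Set (Subgroup G)) (D : Subgroup G) (A B : Sylow p G) : Prop :=
  ∃ (P : Sylow p G) (F : Subgroup G) (x : G), F ∈ f (P : Subgroup G) ∧
    x ∈ Subgroup.normalizer (F : Set G) ∧ (A : Subgroup G) ≤ Subgroup.normalizer (F : Set G) ∧
    (B : Subgroup G) ≤ Subgroup.normalizer (F : Set G) ∧
    subgroupConjRight x (B : Subgroup G) = A ∧ D ≤ (B : Subgroup G)

theorem step_conj {f : Subgroup G → Set (Subgroup G)} (hf : IsNormalizerFunctor p f) (g : G)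
    {D : Subgroup G} {A B : Sylow p G} (h : Step f D A B) :
    Step f (D.map (MulAut.conj g).toMonoidHom) (g • A) (g • B) := by
  obtain ⟨P, F, x, hF, hx, hA, hB, hc, hD⟩ := h
  refine ⟨g • P, F.map (MulAut.conj g).toMonoidHom, g * x * g⁻¹, ?_, norm_conj g hx, ?_, ?_, ?_, ?_⟩
  · rw [coe_smul_sylow', ((hf (P : Subgroup G) P.isPGroup').2 g)]
    exact ⟨F, hF, rfl⟩
  · rw [coe_smul_sylow']
    intro y hy
    rw [mem_conj] at hy
    have := norm_conj g (hA hy)
    simpa [mul_assoc] using this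
  · rw [coe_smul_sylow']
    intro y hy
    rw [mem_conj] at hy
    have := norm_conj g (hB hy)
    simpa [mul_assoc] using this
  · rw [coe_smul_sylow', coe_smul_sylow']
    exact conj_conj g hc
  · rw [coe_smul_sylow']
    exact Subgroup.map_mono hD

theorem chain_conj {f : Subgroup G → Set (Subgroup G)} (hf : IsNormalizerFunctor p f) (g : G)
    {D : Subgroup G} {A B : Sylow p G} (h : Relation.ReflTransGen (Step f D) A B) :
    Relation.ReflTransGen (Step f (D.map (MulAut.conj g).toMonoidHom)) (g • A) (g • B) :=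
  by
  induction h with
  | refl => exact .refl
  | tail _ hs ih => exact ih.tail (step_conj hf g hs)

theorem chain_mono {f : Subgroup G → Set (Subgroup G)} {D D' : Subgroup G} (hD : D' ≤ D)
    {A B : Sylow p G} (h : Relation.ReflTransGen (Step f D) A B) :
    Relation.ReflTransGen (Step f D') A B := by
  induction h with
  | refl => exact .refl
  | tail _ hs ih =>
    refine ih.tail ?_
    obtain ⟨P, F, x, h1, h2, h3, h4, h5, h6⟩ := hs
    exact ⟨P, F, x, h1, h2, h3, h4, h5, hD.trans h6⟩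

theorem exists_up {M : Subgroup G} {S : Sylow p G} (hS : (S : Subgroup G) ≤ M) (c : Sylow p ↥M) :
    ∃ c' : Sylow p G, (c' : Subgroup G) = (c : Subgroup ↥M).map M.subtype := by
  obtain ⟨h, rfl⟩ := MulAction.exists_smul_eq ↥M (S.subtype hS) c
  refine ⟨(h : G) • S, ?_⟩
  rw [coe_smul_sylow', coe_smul_sylow', Sylow.coe_subtype]
  ext y
  rw [mem_conj]
  constructor
  · intro hy
    have hyM : y ∈ M := by
      have := M.mul_mem (M.mul_mem h.2 (hS hy)) (M.inv_mem h.2)
      simpa [mul_assoc] using this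
    refine ⟨⟨y, hyM⟩, ?_, rfl⟩
    rw [SetLike.mem_coe, mem_conj, Subgroup.mem_subgroupOf]
    exact hy
  · rintro ⟨u, hu, rfl⟩
    rw [SetLike.mem_coe, mem_conj, Subgroup.mem_subgroupOf] at hu
    exact hu

/-- Members of the family contain all Sylow subgroups they meet in a Sylow subgroup. -/
theorem le_normalizer_of_member {f : Subgroup G → Set (Subgroup G)} (hf : IsNormalizerFunctor p f)
    {M : Subgroup G} {c P : Sylow p ↥M} {F : Subgroup G}
    (hF : F ∈ f ((P : Subgroup ↥M).map M.subtype)) {𝓕 : Set (Subgroup ↥M)}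
    (hX : ((M ⊓ Subgroup.normalizer (F : Set G)).subgroupOf M) ∈
      sylowMembers p 𝓕 (c : Subgroup ↥M)) :
    ((c : Subgroup ↥M).map M.subtype) ≤ Subgroup.normalizer (F : Set G) := by
  have hPp : IsPGroup p ((P : Subgroup ↥M).map M.subtype) := P.isPGroup'.map _
  have hPN : (P : Subgroup ↥M) ≤ (M ⊓ Subgroup.normalizer (F : Set G)).subgroupOf M := by
    intro u hu
    rw [Subgroup.mem_subgroupOf]
    refine ⟨u.2, ((hf _ hPp).1 F hF).2 ?_⟩
    exact Subgroup.le_normalizer (Subgroup.mem_map_of_mem M.subtype hu)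
  set X : Subgroup ↥M := (M ⊓ Subgroup.normalizer (F : Set G)).subgroupOf M with hXdef
  obtain ⟨-, Q, hQ⟩ := hX
  have hcard : Nat.card ↥((c : Subgroup ↥M)) ≤ Nat.card ↥((c : Subgroup ↥M) ⊓ X) := by
    rw [← hQ, Subgroup.card_map_of_injective (Subgroup.subtype_injective _), Sylow.card_eq_multiplicity,
      Sylow.card_eq_multiplicity]
    have h1 : Nat.card ↥(P : Subgroup ↥M) ∣ Nat.card ↥X := Subgroup.card_dvd_of_le hPN
    rw [Sylow.card_eq_multiplicity] at h1
    exact Nat.pow_le_pow_right (Fact.out : p.Prime).pos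
      ((Nat.Prime.pow_dvd_iff_le_factorization Fact.out Nat.card_pos.ne').1 h1)
  have heq := Subgroup.eq_of_le_of_card_ge (inf_le_left : (c : Subgroup ↥M) ⊓ X ≤ c) hcard
  rintro _ ⟨u, hu, rfl⟩
  have : u ∈ X := by
    have h2 : u ∈ (c : Subgroup ↥M) ⊓ X := by rw [heq]; exact hu
    exact h2.2
  rw [hXdef, Subgroup.mem_subgroupOf] at this
  exact this.2

theorem chain_of_regular {f : Subgroup G → Set (Subgroup G)} (hf : IsNormalizerFunctor p f)
    {M : Subgroup G} {S : Sylow p G} (hS : (S : Subgroup G) ≤ M) (hr : IsFunctorRegular p f M)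
    {D : Subgroup G} (hD : D ≠ ⊥) {A B : Sylow p G} (hA : (A : Subgroup G) ≤ M)
    (hB : (B : Subgroup G) ≤ M) (hDA : D ≤ A) (hDB : D ≤ B) :
    Relation.ReflTransGen (Step f D) A B := by
  classical
  by_cases hAB : A = B
  · rw [hAB]
  have hmapA : ((A.subtype hA : Sylow p ↥M) : Subgroup ↥M).map M.subtype = A := by
    rw [Sylow.coe_subtype, Subgroup.map_subgroupOf_eq_of_le hA]
  have hmapB : ((B.subtype hB : Sylow p ↥M) : Subgroup ↥M).map M.subtype = B := by
    rw [Sylow.coe_subtype, Subgroup.map_subgroupOf_eq_of_le hB]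
  have hne : A.subtype hA ≠ B.subtype hB := by
    intro h
    apply hAB
    apply Sylow.ext
    rw [← hmapA, ← hmapB, h]
  have hdmem : ∀ d ∈ D, ∀ hd : d ∈ M,
      (⟨d, hd⟩ : ↥M) ∈ ((A.subtype hA : Sylow p ↥M) : Subgroup ↥M) ⊓ ((B.subtype hB : Sylow p ↥M) : Subgroup ↥M) := by
    intro d hd hdM
    rw [Sylow.coe_subtype, Sylow.coe_subtype]
    exact ⟨hDA hd, hDB hd⟩
  have hint : ((A.subtype hA : Sylow p ↥M) : Subgroup ↥M) ⊓ ((B.subtype hB : Sylow p ↥M) : Subgroup ↥M) ≠ ⊥ := by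
    obtain ⟨⟨d, hd⟩, hd1⟩ := (Subgroup.ne_bot_iff_exists_ne_one).1 hD
    intro hb
    have := hdmem d hd (hA (hDA hd))
    rw [hb, Subgroup.mem_bot] at this
    exact hd1 (Subtype.ext (by simpa using congrArg Subtype.val this))
  obtain ⟨n, c, X, x, hc0, hcl, hch⟩ := hr _ _ hne hint
  choose up hup using exists_up (p := p) hS
  have hallk : ∀ k : Fin (n + 1), Relation.ReflTransGen (Step f D) A (up (c k)) := by
    intro k
    induction k using Fin.induction with
    | zero =>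
      have : up (c 0) = A := by
        apply Sylow.ext
        rw [hup, hc0, hmapA]
      rw [this]
    | succ i ih =>
      refine ih.tail ?_
      obtain ⟨hX₁, hX₂, hx, hconj, hDle⟩ := hch i
      obtain ⟨⟨X₀, hX₀, hX₀e⟩, -⟩ := id hX₁
      obtain ⟨P, F, hF, rfl⟩ := hX₀
      rw [← hX₀e] at hX₁ hX₂ hx hDle
      refine ⟨up P, F, (x i : G), ?_, ?_, ?_, ?_, ?_, ?_⟩
      · rw [hup]; exact hF
      · rw [Subgroup.mem_subgroupOf] at hx
        exact hx.2
      · rw [hup]
        exact le_normalizer_of_member hf hF hX₁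
      · rw [hup]
        exact le_normalizer_of_member hf hF hX₂
      · rw [hup, hup, conj_map_subtype, hconj]
      · rw [hup]
        intro d hd
        have hdM := hA (hDA hd)
        exact ⟨⟨d, hdM⟩, (hDle (hdmem d hd hdM)).1, rfl⟩
  have := hallk (Fin.last n)
  have e : up (c (Fin.last n)) = B := by
    apply Sylow.ext
    rw [hup, hcl, hmapB]
  rwa [e] at this

theorem exists_chain {α β : Type*} [Nonempty β] {R : α → β → α → Prop} {a b : α}
    (h : Relation.ReflTransGen (fun u v => ∃ t, R u t v) a b) :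
    ∃ (n : ℕ) (c : Fin (n + 1) → α) (t : Fin n → β), c 0 = a ∧ c (Fin.last n) = b ∧
      ∀ i : Fin n, R (c i.castSucc) (t i) (c i.succ) := by
  induction h with
  | refl => exact ⟨0, fun _ => a, Fin.elim0, rfl, rfl, fun i => i.elim0⟩
  | @tail v w _ hs ih =>
    obtain ⟨s, hs⟩ := hs
    obtain ⟨n, c, t, h0, hl, hch⟩ := ih
    refine ⟨n + 1, Fin.snoc (α := fun _ => α) c w, Fin.snoc (α := fun _ => β) t s, ?_, ?_, ?_⟩
    · have : (0 : Fin (n + 2)) = Fin.castSucc (0 : Fin (n + 1)) := rfl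
      rw [this, Fin.snoc_castSucc]; exact h0
    · rw [Fin.snoc_last]
    · intro i
      induction i using Fin.lastCases with
      | last =>
        rw [Fin.snoc_last]
        have e1 : (Fin.last n).succ = Fin.last (n + 1) := rfl
        rw [e1, Fin.snoc_last]
        have e2 : (Fin.last n).castSucc = Fin.castSucc (Fin.last n) := rfl
        rw [Fin.snoc_castSucc, hl]
        exact hs
      | cast j =>
        rw [Fin.snoc_castSucc (α := fun _ => β)]
        rw [Fin.snoc_castSucc (α := fun _ => α)]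
        rw [Fin.succ_castSucc, Fin.snoc_castSucc (α := fun _ => α)]
        exact hch j

theorem regular_top {f : Subgroup G → Set (Subgroup G)} (S₀ : Sylow p G)
    (h : ∀ A B : Sylow p G, A ≠ B → (A : Subgroup G) ⊓ B ≠ ⊥ →
      Relation.ReflTransGen (Step f ((A : Subgroup G) ⊓ B)) A B) :
    IsFunctorRegular p f (⊤ : Subgroup G) := by
  classical
  intro S' T' hne hint
  have hS₀ : (S₀ : Subgroup G) ≤ ⊤ := le_top
  choose up hup using exists_up (p := p) hS₀
  have hinj : Function.Injective (up) := by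
    intro a b hab
    apply Sylow.ext
    apply Subgroup.map_injective (Subgroup.subtype_injective (⊤ : Subgroup G))
    rw [← hup, ← hup, hab]
  have hint' : ((up S' : Sylow p G) : Subgroup G) ⊓ (up T' : Sylow p G) ≠ ⊥ := by
    rw [hup, hup, ← Subgroup.map_inf _ _ _ (Subgroup.subtype_injective _)]
    intro hb
    exact hint ((Subgroup.map_eq_bot_iff_of_injective _ (Subgroup.subtype_injective _)).1 hb)
  have hc := h (up S') (up T') (fun e => hne (hinj e)) hint'
  let D : Subgroup G := (up S' : Subgroup G) ⊓ (up T' : Sylow p G)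
  let R : Sylow p G → (Sylow p G × Subgroup G × G) → Sylow p G → Prop := fun A t B =>
    t.2.1 ∈ f (t.1 : Subgroup G) ∧
    t.2.2 ∈ Subgroup.normalizer (t.2.1 : Set G) ∧ (A : Subgroup G) ≤ Subgroup.normalizer (t.2.1 : Set G) ∧
    (B : Subgroup G) ≤ Subgroup.normalizer (t.2.1 : Set G) ∧
    subgroupConjRight t.2.2 (B : Subgroup G) = A ∧ D ≤ (B : Subgroup G)
  have hc' : ∀ Y, Relation.ReflTransGen (Step f D) (up S') Y →
      Relation.ReflTransGen (fun u v => ∃ t, R u t v) (up S') Y := by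
    intro Y hY
    induction hY with
    | refl => exact .refl
    | tail _ hs ih =>
      refine ih.tail ?_
      obtain ⟨P, F, x, h1, h2, h3, h4, h5, h6⟩ := hs
      exact ⟨(P, F, x), h1, h2, h3, h4, h5, h6⟩
  obtain ⟨n, c, t, hc0, hcl, hch⟩ := exists_chain (hc' _ hc)
  have hmap : ∀ W : Sylow p G, ((W.subtype (le_top : (W : Subgroup G) ≤ ⊤) : Sylow p ↥(⊤ : Subgroup G)) : Subgroup _).map (⊤ : Subgroup G).subtype = W := by
    intro W
    rw [Sylow.coe_subtype, Subgroup.map_subgroupOf_eq_of_le le_top]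
  have hdown : ∀ (W : Sylow p G) (V : Sylow p ↥(⊤ : Subgroup G)), W = up V →
      W.subtype (le_top : (W : Subgroup G) ≤ ⊤) = V := by
    rintro W V rfl
    apply Sylow.ext
    apply Subgroup.map_injective (Subgroup.subtype_injective (⊤ : Subgroup G))
    rw [hmap, hup]
  refine ⟨n, fun i => (c i).subtype le_top,
    fun i => (⊤ ⊓ Subgroup.normalizer ((t i).2.1 : Set G)).subgroupOf ⊤,
    fun i => ⟨(t i).2.2, trivial⟩, hdown _ _ hc0, hdown _ _ hcl, ?_⟩
  intro i
  obtain ⟨h1, h2, h3, h4, h5, h6⟩ := hch i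
  have hfam : (⊤ ⊓ Subgroup.normalizer ((t i).2.1 : Set G)).subgroupOf ⊤ ∈
      (fun X : Subgroup G => X.subgroupOf (⊤ : Subgroup G)) '' functorFamily p f (⊤ : Subgroup G) := by
    refine ⟨_, ⟨((t i).1).subtype le_top, (t i).2.1, ?_, rfl⟩, rfl⟩
    rw [hmap]
    exact h1
  have hmemb : ∀ W : Sylow p G, (W : Subgroup G) ≤ Subgroup.normalizer ((t i).2.1 : Set G) →
      (⊤ ⊓ Subgroup.normalizer ((t i).2.1 : Set G)).subgroupOf ⊤ ∈
        sylowMembers p ((fun X : Subgroup G => X.subgroupOf (⊤ : Subgroup G)) '' functorFamily p f (⊤ : Subgroup G))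
          ((W.subtype (le_top : (W : Subgroup G) ≤ ⊤) : Sylow p ↥(⊤ : Subgroup G)) : Subgroup _) := by
    intro W hW
    rw [sylowMembers_iff]
    refine ⟨hfam, ?_⟩
    have hle : ((W.subtype (le_top : (W : Subgroup G) ≤ ⊤) : Sylow p ↥(⊤ : Subgroup G)) : Subgroup ↥(⊤ : Subgroup G)) ≤
        (⊤ ⊓ Subgroup.normalizer ((t i).2.1 : Set G)).subgroupOf ⊤ := by
      intro u hu
      rw [Sylow.coe_subtype, Subgroup.mem_subgroupOf] at hu
      rw [Subgroup.mem_subgroupOf]
      exact ⟨trivial, hW hu⟩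
    refine ⟨(W.subtype (le_top : (W : Subgroup G) ≤ ⊤)).subtype hle, ?_⟩
    rw [Sylow.coe_subtype, inf_of_le_left hle]
  refine ⟨hmemb _ h3, hmemb _ h4, ?_, ?_, ?_⟩
  · rw [Subgroup.mem_subgroupOf]
    exact ⟨trivial, h2⟩
  · apply Subgroup.map_injective (Subgroup.subtype_injective (⊤ : Subgroup G))
    rw [← conj_map_subtype, hmap, hmap]
    exact h5
  · intro d hd
    have hd' : (d : G) ∈ D := by
      show (d : G) ∈ ((up S' : Sylow p G) : Subgroup G) ⊓ (up T' : Sylow p G)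
      rw [hup, hup]
      exact ⟨Subgroup.mem_map_of_mem _ hd.1, Subgroup.mem_map_of_mem _ hd.2⟩
    refine ⟨?_, ?_⟩
    · show d ∈ ((c i.succ).subtype (le_top : ((c i.succ : Sylow p G) : Subgroup G) ≤ ⊤) : Subgroup _)
      rw [Sylow.coe_subtype, Subgroup.mem_subgroupOf]
      exact h6 hd'
    · show d ∈ (⊤ ⊓ Subgroup.normalizer ((t i).2.1 : Set G)).subgroupOf ⊤
      rw [Subgroup.mem_subgroupOf]
      exact ⟨trivial, h4 (h6 hd')⟩

/-- Let p be a prime dividing the order of the finite group G, f an equivariant assignment of a set of subgroups f(P) of P to every p-subgroup P, each normalized by N_G(P), and S a Sylow p-subgroup. If G = G₁G₂ for subgroups G₁, G₂ both containing S and both regular for f (in each Gᵢ, the family of normalizers in Gᵢ of the members of f(P), P a Sylow p-subgroup of Gᵢ, controls Sylow p-intersections), then G itself is regular for f. -/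
theorem result {G : Type*} [Group G] [Finite G] (p : ℕ) [Fact p.Prime] (hdiv : p ∣ Nat.card G)
    (f : Subgroup G → Set (Subgroup G)) (hf : Cfsg.IsNormalizerFunctor p f) (S : Sylow p G)
    (G₁ G₂ : Subgroup G) (h₁ : (S : Subgroup G) ≤ G₁) (h₂ : (S : Subgroup G) ≤ G₂)
    (hprod : ∀ g : G, ∃ g₁ ∈ G₁, ∃ g₂ ∈ G₂, g = g₁ * g₂)
    (hr₁ : Cfsg.IsFunctorRegular p f G₁) (hr₂ : Cfsg.IsFunctorRegular p f G₂) :
    Cfsg.IsFunctorRegular p f ⊤ := by
  classical
  apply regular_top S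
  intro A B hne hint
  obtain ⟨g₀, hg₀⟩ := MulAction.exists_smul_eq G S A
  obtain ⟨g₁, hg₁⟩ := MulAction.exists_smul_eq G S B
  obtain ⟨a, ha, b, hb, hab⟩ := hprod (g₀⁻¹ * g₁)
  have hA₁ : (a⁻¹ * g₀⁻¹) • A = a⁻¹ • S := by
    rw [← hg₀, smul_smul]
    congr 1
    group
  have hB₁ : (a⁻¹ * g₀⁻¹) • B = b • S := by
    rw [← hg₁, smul_smul]
    congr 1
    calc a⁻¹ * g₀⁻¹ * g₁ = a⁻¹ * (g₀⁻¹ * g₁) := by group
      _ = b := by rw [hab]; group
  have hAle : (((a⁻¹ * g₀⁻¹) • A : Sylow p G) : Subgroup G) ≤ G₁ := by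
    rw [hA₁, coe_smul_sylow']
    intro y hy
    rw [mem_conj, inv_inv] at hy
    have := G₁.mul_mem (G₁.mul_mem (G₁.inv_mem ha) (h₁ hy)) ha
    simpa [mul_assoc] using this
  have hBle : (((a⁻¹ * g₀⁻¹) • B : Sylow p G) : Subgroup G) ≤ G₂ := by
    rw [hB₁, coe_smul_sylow']
    intro y hy
    rw [mem_conj] at hy
    have := G₂.mul_mem (G₂.mul_mem hb (h₂ hy)) (G₂.inv_mem hb)
    simpa [mul_assoc] using this
  have hDA : ((A : Subgroup G) ⊓ B).map (MulAut.conj (a⁻¹ * g₀⁻¹)).toMonoidHom ≤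
      (((a⁻¹ * g₀⁻¹) • A : Sylow p G) : Subgroup G) := by
    rw [coe_smul_sylow']
    exact Subgroup.map_mono inf_le_left
  have hDB : ((A : Subgroup G) ⊓ B).map (MulAut.conj (a⁻¹ * g₀⁻¹)).toMonoidHom ≤
      (((a⁻¹ * g₀⁻¹) • B : Sylow p G) : Subgroup G) := by
    rw [coe_smul_sylow']
    exact Subgroup.map_mono inf_le_right
  have hD₁ : ((A : Subgroup G) ⊓ B).map (MulAut.conj (a⁻¹ * g₀⁻¹)).toMonoidHom ≠ ⊥ := by
    intro hb'
    exact hint ((Subgroup.map_eq_bot_iff_of_injective _ (MulAut.conj _).injective).1 hb')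
  have hSH : (S : Subgroup G) ≤ G₁ ⊓ G₂ := le_inf h₁ h₂
  have hleH : ((A : Subgroup G) ⊓ B).map (MulAut.conj (a⁻¹ * g₀⁻¹)).toMonoidHom ≤ G₁ ⊓ G₂ :=
    le_inf (hDA.trans hAle) (hDB.trans hBle)
  have hpD : IsPGroup p ↥(((A : Subgroup G) ⊓ B).map (MulAut.conj (a⁻¹ * g₀⁻¹)).toMonoidHom) :=
    ((((a⁻¹ * g₀⁻¹) • A : Sylow p G)).isPGroup').to_le hDA
  have hpD' : IsPGroup p ↥((((A : Subgroup G) ⊓ B).map (MulAut.conj (a⁻¹ * g₀⁻¹)).toMonoidHom).subgroupOf (G₁ ⊓ G₂)) :=
    IsPGroup.of_equiv hpD (Subgroup.subgroupOfEquivOfLe hleH).symm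
  obtain ⟨R₀, hR₀⟩ := hpD'.exists_le_sylow
  obtain ⟨R, hR⟩ := exists_up hSH R₀
  have hRle : (R : Subgroup G) ≤ G₁ ⊓ G₂ := by
    rw [hR]
    exact Subgroup.map_subtype_le _
  have hDR : ((A : Subgroup G) ⊓ B).map (MulAut.conj (a⁻¹ * g₀⁻¹)).toMonoidHom ≤ R := by
    rw [hR]
    intro d hd
    exact ⟨⟨d, hleH hd⟩, hR₀ hd, rfl⟩
  have c1 := chain_of_regular hf h₁ hr₁ hD₁ hAle (hRle.trans inf_le_left) hDA hDR
  have c2 := chain_of_regular hf h₂ hr₂ hD₁ (hRle.trans inf_le_right) hBle hDR hDB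
  have c3 := chain_conj hf (a⁻¹ * g₀⁻¹)⁻¹ (c1.trans c2)
  rw [inv_smul_smul, inv_smul_smul] at c3
  refine chain_mono ?_ c3
  intro y hy
  rw [mem_conj, mem_conj]
  simpa [mul_assoc] using hy

end Cfsg.Agent.S2957
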