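import Cfsg.Statements.S2956
import Mathlib
import Cfsg.Agent.S2957
import Cfsg.Agent.Lib.CharChain

set_option autoImplicit false
open Cfsg

namespace Cfsg.Agent.S2956

open Cfsg Cfsg.Agent.Lib.SylowControl Cfsg.Agent.Lib.StrongEmb
open Cfsg.Agent.S2957 (mem_conj conj_map_subtype exists_up le_normalizer_of_member exists_chain)

variable {G : Type*} [Group G] [Finite G] {p : ℕ} [Fact p.Prime]

/-- One link of a chain. -/
def Stp (𝓖 : Set (Subgroup G)) (D : Subgroup G) (A B : Sylow p G) : Prop :=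
  ∃ (X : Subgroup G) (x : G), X ∈ sylowMembers p 𝓖 (A : Subgroup G) ∧
    X ∈ sylowMembers p 𝓖 (B : Subgroup G) ∧
    x ∈ X ∧ subgroupConjRight x (B : Subgroup G) = A ∧ D ≤ (B : Subgroup G) ⊓ X

theorem chn_mono {𝓖 : Set (Subgroup G)} {D D' : Subgroup G} (hD : D' ≤ D) {A B : Sylow p G}
    (h : Relation.ReflTransGen (Stp 𝓖 D) A B) : Relation.ReflTransGen (Stp 𝓖 D') A B := by
  induction h with
  | refl => exact .refl
  | tail _ hs ih =>
    refine ih.tail ?_
    obtain ⟨X, x, h1, h2, h3, h4, h5⟩ := hs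
    exact ⟨X, x, h1, h2, h3, h4, hD.trans h5⟩

/-- `A ⊓ M` is a Sylow subgroup of `M`. -/
def Adapted (M : Subgroup G) (A : Sylow p G) : Prop :=
  ∃ Q : Sylow p ↥M, (Q : Subgroup ↥M).map M.subtype = (A : Subgroup G) ⊓ M

omit [Finite G] in
theorem exists_adapted [Finite G] {M U : Subgroup G} (hU : IsPGroup p U) (hUM : U ≤ M) :
    ∃ A : Sylow p G, U ≤ A ∧ Adapted M A := by
  have hpU : IsPGroup p ↥(U.subgroupOf M) :=
    IsPGroup.of_equiv hU (Subgroup.subgroupOfEquivOfLe hUM).symm
  obtain ⟨Q, hQ⟩ := hpU.exists_le_sylow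
  have hpQ : IsPGroup p ↥((Q : Subgroup ↥M).map M.subtype) := Q.isPGroup'.map _
  obtain ⟨A, hA⟩ := hpQ.exists_le_sylow
  refine ⟨A, ?_, Q, ?_⟩
  · intro u hu
    exact hA ⟨⟨u, hUM hu⟩, hQ hu, rfl⟩
  · apply le_antisymm (le_inf hA (Subgroup.map_subtype_le _))
    have hp2 : IsPGroup p ↥(((A : Subgroup G) ⊓ M).subgroupOf M) :=
      IsPGroup.of_equiv (A.isPGroup'.to_le inf_le_left)
        (Subgroup.subgroupOfEquivOfLe inf_le_right).symm
    have hle : (Q : Subgroup ↥M) ≤ ((A : Subgroup G) ⊓ M).subgroupOf M := by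
      intro u hu
      rw [Subgroup.mem_subgroupOf]
      exact ⟨hA (Subgroup.mem_map_of_mem _ hu), u.2⟩
    have heq := Q.is_maximal' hp2 hle
    rintro y ⟨hy1, hy2⟩
    have : (⟨y, hy2⟩ : ↥M) ∈ ((A : Subgroup G) ⊓ M).subgroupOf M := by
      rw [Subgroup.mem_subgroupOf]
      exact ⟨hy1, hy2⟩
    rw [heq] at this
    exact ⟨⟨y, hy2⟩, this, rfl⟩

theorem adapted_conj {M : Subgroup G} {A : Sylow p G} (x : ↥M) (h : Adapted M A) :
    Adapted M ((x : G) • A) := by
  obtain ⟨Q, hQ⟩ := h
  refine ⟨x • Q, ?_⟩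
  rw [coe_smul_eq, coe_smul_eq, ← conj_map_subtype, hQ, conjRight_inf]
  congr 1
  exact conjRight_of_mem (M.inv_mem x.2)

theorem exists_max_local {K : Subgroup G} (hK : IsPLocal p K) :
    ∃ M, IsMaximalPLocal p M ∧ K ≤ M := by
  obtain ⟨M, hKM, hM⟩ := (Set.toFinite {N : Subgroup G | IsPLocal p N}).exists_le_maximal hK
  exact ⟨M, ⟨hM.prop, fun N hN hMN => le_antisymm (hM.le_of_ge hN hMN) hMN⟩, hKM⟩

/-- Order of a Sylow `p`-subgroup of `M`. -/
noncomputable def sy (p : ℕ) (M : Subgroup G) : ℕ := p ^ (Nat.card M).factorization p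

theorem card_sy {M : Subgroup G} (Q : Sylow p ↥M) : Nat.card Q = sy p M :=
  Sylow.card_eq_multiplicity Q

theorem card_le_sy {M R : Subgroup G} (hR : IsPGroup p R) (hle : R ≤ M) : Nat.card R ≤ sy p M := by
  have hpU : IsPGroup p ↥(R.subgroupOf M) :=
    IsPGroup.of_equiv hR (Subgroup.subgroupOfEquivOfLe hle).symm
  obtain ⟨Q, hQ⟩ := hpU.exists_le_sylow
  rw [← Cfsg.Agent.Lib.SylowIn.card_subgroupOf hle, ← card_sy Q]
  exact Subgroup.card_le_of_le hQ

theorem sy_le (M : Subgroup G) : sy p M ≤ Nat.card G := by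
  obtain ⟨Q⟩ : Nonempty (Sylow p ↥M) := inferInstance
  rw [← card_sy Q, ← Subgroup.card_map_of_injective (Subgroup.subtype_injective M)]
  exact Subgroup.card_le_card_group _

/-- The family of the statement. -/
abbrev fam (p : ℕ) (f : Subgroup G → Set (Subgroup G)) : Set (Subgroup G) :=
  functorFamily p f ⊤ ∪ {M | IsMaximalPLocal p M ∧ ¬ IsFunctorRegular p f M}

theorem inner {f : Subgroup G → Set (Subgroup G)} (hf : IsNormalizerFunctor p f)
    (hf1 : ∀ P : Subgroup G, IsPGroup p ↥P → P ≠ ⊥ → ∀ F ∈ f P, F ≠ ⊥) {D : Subgroup G} (hD : D ≠ ⊥)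
    (O : ∀ D' : Subgroup G, D < D' → ∀ A B : Sylow p G, D' ≤ A → D' ≤ B →
      Relation.ReflTransGen (Stp (fam p f) D') A B) :
    ∀ (n : ℕ) (M : Subgroup G), Nat.card G - sy p M = n → IsMaximalPLocal p M → D ≤ M →
      Nat.card D < sy p M → ∀ A₁ B₁ : Sylow p G, Adapted M A₁ → Adapted M B₁ → D ≤ A₁ → D ≤ B₁ →
      Relation.ReflTransGen (Stp (fam p f) D) A₁ B₁ := by
  intro n
  induction n using Nat.strong_induction_on with
  | _ n IH =>
  intro M hn hM hDM hcard A₁ B₁ hA₁ hB₁ hDA hDB
  have I : ∀ M', IsMaximalPLocal p M' → D ≤ M' → sy p M < sy p M' → ∀ A B : Sylow p G,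
      Adapted M' A → Adapted M' B → D ≤ A → D ≤ B →
      Relation.ReflTransGen (Stp (fam p f) D) A B := by
    intro M' hM' hDM' hlt A B hA hB hDA' hDB'
    have h1 := sy_le (p := p) M'
    exact IH (Nat.card G - sy p M') (by omega) M' rfl hM' hDM' (hcard.trans hlt) A B hA hB hDA' hDB'
  have O2 : ∀ (W : Sylow p ↥M) (T₁ T₂ : Sylow p G), D ≤ (W : Subgroup ↥M).map M.subtype →
      (W : Subgroup ↥M).map M.subtype ≤ T₁ → (W : Subgroup ↥M).map M.subtype ≤ T₂ →
      Relation.ReflTransGen (Stp (fam p f) D) T₁ T₂ := by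
    intro W T₁ T₂ hDW h1 h2
    have hne : D < (W : Subgroup ↥M).map M.subtype := by
      refine lt_of_le_of_ne hDW ?_
      intro e
      have : Nat.card D = sy p M := by
        rw [e, Subgroup.card_map_of_injective (Subgroup.subtype_injective _)]
        exact card_sy W
      omega
    exact chn_mono hDW (O _ hne T₁ T₂ h1 h2)
  obtain ⟨Q₁, hQ₁⟩ := id hA₁
  obtain ⟨Q₂, hQ₂⟩ := id hB₁
  have hDQ₁ : D ≤ (Q₁ : Subgroup ↥M).map M.subtype := by
    rw [hQ₁]
    exact le_inf hDA hDM
  have hDQ₂ : D ≤ (Q₂ : Subgroup ↥M).map M.subtype := by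
    rw [hQ₂]
    exact le_inf hDB hDM
  have hQ₁A : (Q₁ : Subgroup ↥M).map M.subtype ≤ A₁ := by
    rw [hQ₁]
    exact inf_le_left
  have hQ₂B : (Q₂ : Subgroup ↥M).map M.subtype ≤ B₁ := by
    rw [hQ₂]
    exact inf_le_left
  by_cases hr : IsFunctorRegular p f M
  · by_cases hQ : Q₁ = Q₂
    · subst hQ
      exact O2 Q₁ _ _ hDQ₁ hQ₁A hQ₂B
    · have hDinf : ∀ d ∈ D, ∀ hd : d ∈ M, (⟨d, hd⟩ : ↥M) ∈ (Q₁ : Subgroup ↥M) ⊓ Q₂ := by
        intro d hd hdM
        obtain ⟨u, hu, hue⟩ := hDQ₁ hd
        obtain ⟨v, hv, hve⟩ := hDQ₂ hd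
        have e1 : u = ⟨d, hdM⟩ := Subtype.ext hue
        have e2 : v = ⟨d, hdM⟩ := Subtype.ext hve
        exact ⟨e1 ▸ hu, e2 ▸ hv⟩
      have hint : (Q₁ : Subgroup ↥M) ⊓ Q₂ ≠ ⊥ := by
        obtain ⟨⟨d, hd⟩, hd1⟩ := (Subgroup.ne_bot_iff_exists_ne_one).1 hD
        intro hb
        have := hDinf d hd (hDM hd)
        rw [hb, Subgroup.mem_bot] at this
        exact hd1 (Subtype.ext (by simpa using congrArg Subtype.val this))
      obtain ⟨n', c, X, x, hc0, hcl, hch⟩ := hr Q₁ Q₂ hQ hint
      have hup : ∀ W : Sylow p ↥M, ∃ T : Sylow p G, (W : Subgroup ↥M).map M.subtype ≤ T :=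
        fun W => (W.isPGroup'.map _ : IsPGroup p ↥((W : Subgroup ↥M).map M.subtype)).exists_le_sylow
      choose up hup using hup
      have hDc : ∀ k : Fin (n' + 1), D ≤ (c k : Subgroup ↥M).map M.subtype := by
        intro k
        induction k using Fin.cases with
        | zero => rw [hc0]; exact hDQ₁
        | succ i =>
          intro d hd
          have hdm := hDM hd
          exact ⟨⟨d, hdm⟩, ((hch i).2.2.2.2 (hDinf d hd hdm)).1, rfl⟩
      have hall : ∀ k : Fin (n' + 1), Relation.ReflTransGen (Stp (fam p f) D) A₁ (up (c k)) := by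
        intro k
        induction k using Fin.induction with
        | zero => exact O2 (c 0) _ _ (hDc 0) (by rw [hc0]; exact hQ₁A) (hup _)
        | succ i ih =>
          refine ih.trans ?_
          obtain ⟨hX₁, hX₂, hx, hconj, -⟩ := hch i
          obtain ⟨⟨X₀, hX₀, hX₀e⟩, -⟩ := id hX₁
          obtain ⟨V, F, hF, rfl⟩ := hX₀
          rw [← hX₀e] at hX₁ hX₂ hx
          have hUN := le_normalizer_of_member hf hF hX₁
          have hU'N := le_normalizer_of_member hf hF hX₂
          have hxN : ((x i : ↥M) : G) ∈ Subgroup.normalizer (F : Set G) := by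
            rw [Subgroup.mem_subgroupOf] at hx
            exact hx.2
          have hpV : IsPGroup p ↥((V : Subgroup ↥M).map M.subtype) := V.isPGroup'.map _
          have hVcard : Nat.card ↥((V : Subgroup ↥M).map M.subtype) = sy p M := by
            rw [Subgroup.card_map_of_injective (Subgroup.subtype_injective _)]
            exact card_sy V
          have hVne : (V : Subgroup ↥M).map M.subtype ≠ ⊥ := by
            intro hb
            rw [hb, Subgroup.card_bot] at hVcard
            have := Nat.card_pos (α := D)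
            omega
          have hFne := hf1 _ hpV hVne F hF
          have hFV := (hf _ hpV).1 F hF
          have hpF : IsPGroup p ↥F := hpV.to_le hFV.1
          have hconj' : subgroupConjRight ((x i : ↥M) : G) ((c i.succ : Subgroup ↥M).map M.subtype)
              = (c i.castSucc : Subgroup ↥M).map M.subtype := by
            rw [conj_map_subtype, hconj]
          have hpU : IsPGroup p ↥((c i.castSucc : Subgroup ↥M).map M.subtype) :=
            (c i.castSucc).isPGroup'.map _
          have hpU' : IsPGroup p ↥((c i.succ : Subgroup ↥M).map M.subtype) :=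
            (c i.succ).isPGroup'.map _
          by_cases hV : ∃ Pm : Sylow p G, (Pm : Subgroup G) = (V : Subgroup ↥M).map M.subtype
          · obtain ⟨Pm, hPm⟩ := hV
            have hPmN : (Pm : Subgroup G) ≤ Subgroup.normalizer (F : Set G) := by
              rw [hPm]
              intro y hy
              exact hFV.2 (Subgroup.le_normalizer hy)
            have hpUs : IsPGroup p ↥(((c i.castSucc : Subgroup ↥M).map M.subtype).subgroupOf
                (Subgroup.normalizer (F : Set G))) :=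
              IsPGroup.of_equiv hpU (Subgroup.subgroupOfEquivOfLe hUN).symm
            obtain ⟨Q, hQle⟩ := hpUs.exists_le_sylow
            obtain ⟨T, hT⟩ := exists_up hPmN Q
            have hTN : (T : Subgroup G) ≤ Subgroup.normalizer (F : Set G) := by
              rw [hT]
              exact Subgroup.map_subtype_le _
            have hUT : (c i.castSucc : Subgroup ↥M).map M.subtype ≤ T := by
              rw [hT]
              intro u hu
              exact ⟨⟨u, hUN hu⟩, hQle hu, rfl⟩
            have hT₂N : (((x i : ↥M) : G) • T : Sylow p G) ≤ Subgroup.normalizer (F : Set G) := by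
              rw [coe_smul_sylow']
              rintro _ ⟨y, hy, rfl⟩
              exact Subgroup.mul_mem _ (Subgroup.mul_mem _ hxN (hTN hy)) (Subgroup.inv_mem _ hxN)
            have hU'T₂ : (c i.succ : Subgroup ↥M).map M.subtype ≤ (((x i : ↥M) : G) • T : Sylow p G) := by
              rw [coe_smul_sylow']
              intro u hu
              rw [mem_conj]
              apply hUT
              rw [← hconj', mem_conjRight]
              simpa [mul_assoc] using hu
            have hfam : (⊤ ⊓ Subgroup.normalizer (F : Set G)) ∈ fam p f :=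
              Or.inl ⟨Pm.subtype le_top, F, by
                rw [Sylow.coe_subtype, Subgroup.map_subgroupOf_eq_of_le le_top, hPm]
                exact hF, rfl⟩
            have hmemb : ∀ W : Sylow p G, (W : Subgroup G) ≤ Subgroup.normalizer (F : Set G) →
                (⊤ ⊓ Subgroup.normalizer (F : Set G)) ∈ sylowMembers p (fam p f) (W : Subgroup G) := by
              intro W hW
              rw [sylowMembers_iff]
              have hle : (W : Subgroup G) ≤ ⊤ ⊓ Subgroup.normalizer (F : Set G) := le_inf le_top hW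
              exact ⟨hfam, W.subtype hle, by rw [Sylow.coe_subtype, inf_of_le_left hle]⟩
            have hs : Stp (fam p f) D T (((x i : ↥M) : G) • T) := by
              refine ⟨_, (x i : ↥M), hmemb T hTN, hmemb _ hT₂N, ⟨trivial, hxN⟩, ?_, ?_⟩
              · rw [coe_smul_eq, conjRight_conjRight, inv_mul_cancel, conjRight_one]
              · exact le_inf ((hDc _).trans hU'T₂) (le_inf le_top ((hDc _).trans hU'N))
            exact (O2 (c i.castSucc) _ _ (hDc _) (hup _) hUT).trans
              ((Relation.ReflTransGen.single hs).trans (O2 (c i.succ) _ _ (hDc _) hU'T₂ (hup _)))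
          · have hpV' := hpV
            obtain ⟨Pm, hPm⟩ := hpV.exists_le_sylow
            have hlt : (V : Subgroup ↥M).map M.subtype < Pm :=
              lt_of_le_of_ne hPm (fun e => hV ⟨Pm, e.symm⟩)
            haveI := Pm.isPGroup'.isNilpotent
            obtain ⟨y, hyP, hyV, hyN⟩ :=
              Cfsg.Agent.Lib.CharChain.exists_normalizer_of_lt' hlt inferInstance
            obtain ⟨M', hM', hNM'⟩ := exists_max_local (p := p) (K := Subgroup.normalizer (F : Set G))
              ⟨F, hpF, hFne, rfl⟩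
            have hRp : IsPGroup p ↥((Pm : Subgroup G) ⊓
                Subgroup.normalizer (((V : Subgroup ↥M).map M.subtype : Subgroup G) : Set G)) :=
              Pm.isPGroup'.to_le inf_le_left
            have hRM' : (Pm : Subgroup G) ⊓
                Subgroup.normalizer (((V : Subgroup ↥M).map M.subtype : Subgroup G) : Set G) ≤ M' :=
              fun z hz => hNM' (hFV.2 hz.2)
            have hlt2 : sy p M < sy p M' := by
              refine lt_of_lt_of_le ?_ (card_le_sy hRp hRM')
              rw [← hVcard]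
              by_contra hcon
              have := Subgroup.eq_of_le_of_card_ge (H := (V : Subgroup ↥M).map M.subtype)
                (K := (Pm : Subgroup G) ⊓
                  Subgroup.normalizer (((V : Subgroup ↥M).map M.subtype : Subgroup G) : Set G))
                (le_inf hPm Subgroup.le_normalizer) (not_lt.1 hcon)
              apply hyV
              rw [this]
              exact ⟨hyP, hyN⟩
            obtain ⟨T, hUT, hTa⟩ := exists_adapted hpU (hUN.trans hNM')
            obtain ⟨T₂, hU'T₂, hT₂a⟩ := exists_adapted hpU' (hU'N.trans hNM')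
            exact (O2 (c i.castSucc) _ _ (hDc _) (hup _) hUT).trans
              ((I M' hM' (((hDc _).trans hUN).trans hNM') hlt2 T T₂ hTa hT₂a
                ((hDc _).trans hUT) ((hDc _).trans hU'T₂)).trans
                (O2 (c i.succ) _ _ (hDc _) hU'T₂ (hup _)))
      exact (hall (Fin.last n')).trans
        (O2 (c (Fin.last n')) _ _ (hDc _) (hup _) (by rw [hcl]; exact hQ₂B))
  · obtain ⟨y, hy⟩ := MulAction.exists_smul_eq ↥M Q₁ Q₂
    have hT : Adapted M ((y : G) • A₁) := adapted_conj y hA₁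
    have hmemM : ∀ T : Sylow p G, Adapted M T → M ∈ sylowMembers p (fam p f) (T : Subgroup G) :=
      fun T ⟨Q, hQ⟩ => ⟨Or.inr ⟨hM, hr⟩, Q, hQ⟩
    have hle : (Q₂ : Subgroup ↥M).map M.subtype ≤ (((y : G) • A₁ : Sylow p G) : Subgroup G) := by
      rw [← hy, coe_smul_sylow', coe_smul_sylow']
      rintro _ ⟨_, ⟨u, hu, rfl⟩, rfl⟩
      exact ⟨_, hQ₁A (Subgroup.mem_map_of_mem _ hu), rfl⟩
    refine Relation.ReflTransGen.head ⟨M, y, hmemM _ hA₁, hmemM _ hT, y.2, ?_, ?_⟩
      (O2 Q₂ _ _ hDQ₂ hle hQ₂B)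
    · rw [coe_smul_eq, conjRight_conjRight, inv_mul_cancel, conjRight_one]
    · exact le_inf (hDQ₂.trans hle) hDM

theorem main {f : Subgroup G → Set (Subgroup G)} (hf : IsNormalizerFunctor p f)
    (hf1 : ∀ P : Subgroup G, IsPGroup p ↥P → P ≠ ⊥ → ∀ F ∈ f P, F ≠ ⊥) (D : Subgroup G) :
    D ≠ ⊥ → ∀ A B : Sylow p G, D ≤ A → D ≤ B → Relation.ReflTransGen (Stp (fam p f) D) A B := by
  refine WellFoundedGT.induction (motive := fun D : Subgroup G => D ≠ ⊥ → ∀ A B : Sylow p G, D ≤ A → D ≤ B →
    Relation.ReflTransGen (Stp (fam p f) D) A B) D ?_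
  intro D IH hD A B hDA hDB
  have O : ∀ D' : Subgroup G, D < D' → ∀ A B : Sylow p G, D' ≤ A → D' ≤ B →
      Relation.ReflTransGen (Stp (fam p f) D') A B := by
    intro D' h
    refine IH D' h ?_
    rintro rfl
    exact not_lt_bot h
  by_cases hDAe : D = A
  · have : (B : Subgroup G) = A := A.is_maximal' B.isPGroup' (hDAe ▸ hDB)
    have e : A = B := Sylow.ext this.symm
    rw [e]
  by_cases hDBe : D = B
  · have : (A : Subgroup G) = B := B.is_maximal' A.isPGroup' (hDBe ▸ hDA)
    have e : A = B := Sylow.ext this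
    rw [e]
  haveI := A.isPGroup'.isNilpotent
  haveI := B.isPGroup'.isNilpotent
  obtain ⟨y, hyA, hyD, hyN⟩ :=
    Cfsg.Agent.Lib.CharChain.exists_normalizer_of_lt' (lt_of_le_of_ne hDA hDAe) inferInstance
  obtain ⟨z, hzB, hzD, hzN⟩ :=
    Cfsg.Agent.Lib.CharChain.exists_normalizer_of_lt' (lt_of_le_of_ne hDB hDBe) inferInstance
  have hNA : D < (A : Subgroup G) ⊓ Subgroup.normalizer (D : Set G) :=
    lt_of_le_of_ne (le_inf hDA Subgroup.le_normalizer) (fun e => hyD (e ▸ ⟨hyA, hyN⟩))
  have hNB : D < (B : Subgroup G) ⊓ Subgroup.normalizer (D : Set G) :=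
    lt_of_le_of_ne (le_inf hDB Subgroup.le_normalizer) (fun e => hzD (e ▸ ⟨hzB, hzN⟩))
  have hpD : IsPGroup p ↥D := A.isPGroup'.to_le hDA
  obtain ⟨M, hM, hNM⟩ := exists_max_local (p := p) (K := Subgroup.normalizer (D : Set G))
    ⟨D, hpD, hD, rfl⟩
  obtain ⟨T₁, hT₁, hT₁a⟩ := exists_adapted (p := p) (M := M)
    (U := (A : Subgroup G) ⊓ Subgroup.normalizer (D : Set G))
    (A.isPGroup'.to_le inf_le_left) (inf_le_right.trans hNM)
  obtain ⟨T₂, hT₂, hT₂a⟩ := exists_adapted (p := p) (M := M)
    (U := (B : Subgroup G) ⊓ Subgroup.normalizer (D : Set G))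
    (B.isPGroup'.to_le inf_le_left) (inf_le_right.trans hNM)
  have hcard : Nat.card D < sy p M := by
    refine lt_of_lt_of_le ?_ (card_le_sy (p := p) (A.isPGroup'.to_le inf_le_left)
      (inf_le_right.trans hNM : (A : Subgroup G) ⊓ Subgroup.normalizer (D : Set G) ≤ M))
    by_contra hcon
    exact hNA.ne (Subgroup.eq_of_le_of_card_ge hNA.le (not_lt.1 hcon))
  have c2 := inner hf hf1 hD O _ M rfl hM (Subgroup.le_normalizer.trans hNM) hcard T₁ T₂ hT₁a hT₂a
    (hNA.le.trans hT₁) (hNB.le.trans hT₂)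
  have c1 := chn_mono hNA.le (O _ hNA A T₁ inf_le_left hT₁)
  have c3 := chn_mono hNB.le (O _ hNB T₂ B hT₂ inf_le_left)
  exact c1.trans (c2.trans c3)

/-- Let p be a prime dividing the order of the finite group G, and f an assignment to every p-subgroup P of a set f(P) of subgroups of P, each normalized by N_G(P), compatible with conjugation, such that for P ≠ 1 the members of f(P) are nontrivial. Let 𝓕 be the family of the normalizers N_G(F) of the members F of f(S) over the Sylow p-subgroups S of G, and 𝓕' the family of the maximal p-local subgroups M of G that are singular for f (the corresponding family of normalizers inside M does not control Sylow p-intersections in M). Then 𝓕 ∪ 𝓕' controls Sylow p-intersections in G. -/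
theorem result {G : Type*} [Group G] [Finite G] (p : ℕ) [Fact p.Prime] (hdiv : p ∣ Nat.card G)
    (f : Subgroup G → Set (Subgroup G)) (hf : Cfsg.IsNormalizerFunctor p f)
    (hf1 : ∀ P : Subgroup G, IsPGroup p ↥P → P ≠ ⊥ → ∀ F ∈ f P, F ≠ ⊥)
    (𝓕 𝓕' : Set (Subgroup G)) (h𝓕 : 𝓕 = Cfsg.functorFamily p f ⊤)
    (h𝓕' : 𝓕' = {M | Cfsg.IsMaximalPLocal p M ∧ ¬ Cfsg.IsFunctorRegular p f M}) :
    Cfsg.ControlsSylowIntersections p (𝓕 ∪ 𝓕') := by
  classical
  subst h𝓕 h𝓕'
  intro S T hne hint
  have hc := main hf hf1 _ hint S T inf_le_left inf_le_right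
  let R : Sylow p G → (Subgroup G × G) → Sylow p G → Prop := fun A t B =>
    t.1 ∈ sylowMembers p (fam p f) (A : Subgroup G) ∧ t.1 ∈ sylowMembers p (fam p f) (B : Subgroup G) ∧
    t.2 ∈ t.1 ∧ subgroupConjRight t.2 (B : Subgroup G) = A ∧
    (S : Subgroup G) ⊓ (T : Subgroup G) ≤ (B : Subgroup G) ⊓ t.1
  have hc' : ∀ Y, Relation.ReflTransGen (Stp (fam p f) ((S : Subgroup G) ⊓ (T : Subgroup G))) S Y →
      Relation.ReflTransGen (fun u v => ∃ t, R u t v) S Y := by
    intro Y hY
    induction hY with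
    | refl => exact .refl
    | tail _ hs ih =>
      refine ih.tail ?_
      obtain ⟨X, x, h1, h2, h3, h4, h5⟩ := hs
      exact ⟨(X, x), h1, h2, h3, h4, h5⟩
  obtain ⟨n, c, t, h0, hl, hch⟩ := exists_chain (hc' _ hc)
  exact ⟨n, c, fun i => (t i).1, fun i => (t i).2, h0, hl, fun i => hch i⟩

end Cfsg.Agent.S2956
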