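import Cfsg.Statements.S2958
-- import your own Cfsg.Agent.* helpers here

set_option autoImplicit false
open Cfsg

namespace Cfsg.Agent.S2958

/-- Let X, A, B be subgroups of a group G such that G is generated by the conjugates of X and every conjugate of X is contained in A or in B. Then A = G or B = G. -/
theorem result {G : Type*} [Group G] (X A B : Subgroup G) (hgen : (⨆ g : G, X.map (MulAut.conj g).toMonoidHom) = ⊤) (hcover : ∀ g : G, X.map (MulAut.conj g).toMonoidHom ≤ A ∨ X.map (MulAut.conj g).toMonoidHom ≤ B) : A = ⊤ ∨ B = ⊤ := by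
  classical
  by_cases hA : A = ⊤
  · exact Or.inl hA
  right
  -- some conjugate is not in `A`
  have hex : ∃ g : G, ¬ X.map (MulAut.conj g).toMonoidHom ≤ A := by
    by_contra hcon
    push Not at hcon
    apply hA
    rw [eq_top_iff, ← hgen]
    exact iSup_le hcon
  obtain ⟨g₀, hg₀⟩ := hex
  set S : Set (Subgroup G) := {Y | ∃ g : G, Y = X.map (MulAut.conj g).toMonoidHom ∧ ¬ Y ≤ A} with hS
  set D : Subgroup G := sSup S with hD
  have hDB : D ≤ B := by
    apply sSup_le
    rintro Y ⟨g, rfl, hY⟩
    exact (hcover g).resolve_left hY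
  -- conjugates are mapped by conjugation
  have hconj : ∀ (a g : G), (X.map (MulAut.conj g).toMonoidHom).map (MulAut.conj a).toMonoidHom
      = X.map (MulAut.conj (a * g)).toMonoidHom := by
    intro a g
    rw [Subgroup.map_map]
    congr 1
    ext x
    simp [MulAut.conj_apply, mul_assoc]
  -- elements of `A` normalize `D`
  have hAnorm : ∀ a ∈ A, ∀ d ∈ D, a * d * a⁻¹ ∈ D := by
    intro a ha d hd
    have : D.map (MulAut.conj a).toMonoidHom ≤ D := by
      rw [hD]
      rw [Subgroup.map_le_iff_le_comap]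
      apply sSup_le
      rintro Y ⟨g, rfl, hY⟩
      rw [← Subgroup.map_le_iff_le_comap, hconj]
      apply le_sSup
      refine ⟨a * g, rfl, ?_⟩
      intro h
      apply hY
      intro x hx
      have h1 : (MulAut.conj a).toMonoidHom x ∈ (X.map (MulAut.conj g).toMonoidHom).map (MulAut.conj a).toMonoidHom :=
        Subgroup.mem_map_of_mem _ hx
      rw [hconj] at h1
      have h2 := h h1
      have h3 : a * x * a⁻¹ ∈ A := by simpa [MulAut.conj_apply] using h2
      have h4 : a⁻¹ * (a * x * a⁻¹) * a ∈ A := A.mul_mem (A.mul_mem (A.inv_mem ha) h3) ha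
      simpa [mul_assoc] using h4
    exact this (Subgroup.mem_map_of_mem _ hd)
  -- every conjugate of `X` normalizes `D`
  have hall : ∀ g : G, ∀ y ∈ X.map (MulAut.conj g).toMonoidHom, ∀ d ∈ D, y * d * y⁻¹ ∈ D := by
    intro g y hy d hd
    by_cases hg : X.map (MulAut.conj g).toMonoidHom ≤ A
    · exact hAnorm y (hg hy) d hd
    · have hyD : y ∈ D := (le_sSup (show _ ∈ S from ⟨g, rfl, hg⟩) : _ ≤ D) hy
      exact D.mul_mem (D.mul_mem hyD hd) (D.inv_mem hyD)
  -- so `D` is normal
  have hN : Subgroup.normalizer (D : Set G) = ⊤ := by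
    rw [eq_top_iff, ← hgen]
    apply iSup_le
    intro g y hy
    rw [Subgroup.mem_normalizer_iff]
    intro d
    constructor
    · intro hd; exact hall g y hy d hd
    · intro hd
      have hy' : y⁻¹ ∈ X.map (MulAut.conj g).toMonoidHom := Subgroup.inv_mem _ hy
      have := hall g y⁻¹ hy' _ hd
      simpa [mul_assoc] using this
  have hDn : ∀ a d : G, d ∈ D → a * d * a⁻¹ ∈ D := by
    intro a d hd
    have ha : a ∈ Subgroup.normalizer (D : Set G) := by rw [hN]; trivial
    exact (Subgroup.mem_normalizer_iff.1 ha d).1 hd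
  -- hence every conjugate lies in `D`
  have hg0D : X.map (MulAut.conj g₀).toMonoidHom ≤ D := le_sSup ⟨g₀, rfl, hg₀⟩
  have htop : D = ⊤ := by
    rw [eq_top_iff, ← hgen]
    apply iSup_le
    intro g y hy
    obtain ⟨x, hx, rfl⟩ := hy
    have h1 : (MulAut.conj g₀).toMonoidHom x ∈ D := hg0D (Subgroup.mem_map_of_mem _ hx)
    have h2 := hDn (g * g₀⁻¹) _ h1
    have : (MulAut.conj g).toMonoidHom x = g * g₀⁻¹ * ((MulAut.conj g₀).toMonoidHom x) * (g * g₀⁻¹)⁻¹ := by
      simp [MulAut.conj_apply]; group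
    rw [this]; exact h2
  rw [eq_top_iff, ← htop]
  exact hDB

end Cfsg.Agent.S2958
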