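import Mathlib
import Cfsg.Agent.Lib.FitCore
import Cfsg.Agent.Lib.CharPBasic
import Cfsg.Statements.S2959
-- import your own Cfsg.Agent.* helpers here

set_option autoImplicit false
open Cfsg

namespace Cfsg.Agent.S2959

/-- Let G be a finite group of characteristic p, that is C_G(O_p(G)) ≤ O_p(G), with p prime, and let L be a subgroup of G normalized by O_p(G). Then L has characteristic p: C_L(O_p(L)) ≤ O_p(L). -/
theorem result {G : Type*} [Group G] [Finite G] {p : ℕ} [Fact p.Prime] (hG : Subgroup.centralizer (Cfsg.pCore p G : Set G) ≤ Cfsg.pCore p G) (L : Subgroup G) (hL : Cfsg.pCore p G ≤ Subgroup.normalizer (L : Set G)) : Subgroup.centralizer (Cfsg.pCore p ↥L : Set ↥L) ≤ Cfsg.pCore p ↥L := by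
  classical
  set Q := Cfsg.pCore p G with hQ
  have hQn : Q.Normal := Cfsg.Agent.Lib.FitCore.pCore_normal p
  have hQp : IsPGroup p Q := Cfsg.Agent.Lib.FitCore.pCore_isPGroup p
  set E := Cfsg.pCore p ↥L with hE
  have hEn : E.Normal := Cfsg.Agent.Lib.FitCore.pCore_normal p
  -- `Q ∩ L` lies in `E`
  have hQL : ∀ z : L, (z : G) ∈ Q → z ∈ E := by
    intro z hz
    have h1 : Q.subgroupOf L ≤ E := by
      apply Cfsg.Agent.Lib.FitCore.le_pCore p _ (Subgroup.Normal.subgroupOf hQn L)
      exact hQp.comap_of_injective L.subtype L.subtype_injective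
    exact h1 hz
  have hDn : (Subgroup.centralizer (E : Set ↥L)).Normal := Subgroup.normal_centralizer
  apply Cfsg.Agent.Lib.FitCore.le_pCore p _ hDn
  apply Cfsg.Agent.Lib.CharPBasic.isPGroup_of_forall_coprime
  intro y hy hyc
  have hyc' : (orderOf (y : G)).Coprime p := by rwa [Subgroup.orderOf_coe]
  rw [Subgroup.mem_centralizer_iff] at hy
  -- `y` centralizes `Q`
  have hcomm : ∀ q ∈ Q, (y : G) * q = q * y := by
    intro q hq
    set z : G := (y : G) * q * (y : G)⁻¹ * q⁻¹ with hz
    have hzQ : z ∈ Q := Q.mul_mem (hQn.conj_mem q hq y) (Q.inv_mem hq)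
    have hzL : z ∈ L := by
      have h1 : q * (y : G)⁻¹ * q⁻¹ ∈ L :=
        (Subgroup.mem_normalizer_iff.1 (hL hq) _).1 (L.inv_mem y.2)
      have h2 := L.mul_mem y.2 h1
      have h3 : z = (y : G) * (q * (y : G)⁻¹ * q⁻¹) := by rw [hz]; group
      rw [h3]; exact h2
    have hzE : (⟨z, hzL⟩ : L) ∈ E := hQL _ hzQ
    have hyz : (y : G) * z = z * y := by
      have := hy _ hzE
      have h2 := congrArg Subtype.val this
      exact h2.symm
    have hz1 : z = 1 := by
      apply Cfsg.Agent.Lib.CharPBasic.eq_one_of_commutator_coprime (t := q) _ hyz hyc'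
      · obtain ⟨k, hk⟩ := (IsPGroup.iff_orderOf.1 hQp) ⟨z, hzQ⟩
        exact ⟨k, by rw [← hk]; exact (Subgroup.orderOf_mk z hzQ).symm⟩
      · rw [hz]; group
    have h3 : (y : G) * q * (y : G)⁻¹ = q := by
      have := congrArg (fun w => w * q) hz1
      simpa [hz, mul_assoc] using this
    calc (y : G) * q = (y : G) * q * (y : G)⁻¹ * y := by group
      _ = q * y := by rw [h3]
  have hyQ : (y : G) ∈ Q := by
    apply hG
    rw [Subgroup.mem_centralizer_iff]
    intro q hq
    exact (hcomm q hq).symm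
  have h1 : (y : G) = 1 := by
    apply Cfsg.Agent.Lib.CharPBasic.eq_one_of_coprime_of_pow hyc'
    obtain ⟨k, hk⟩ := (IsPGroup.iff_orderOf.1 hQp) ⟨y, hyQ⟩
    exact ⟨k, by rw [← hk]; exact (Subgroup.orderOf_mk (y : G) hyQ).symm⟩
  exact Subtype.ext h1

end Cfsg.Agent.S2959
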