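import Mathlib
import Cfsg.Agent.Lib.FitCore
import Cfsg.Agent.Lib.CharPBasic
import Cfsg.Statements.S2960
-- import your own Cfsg.Agent.* helpers here

set_option autoImplicit false
open Cfsg

namespace Cfsg.Agent.S2960

/-- Let G be a finite group of characteristic p (C_G(O_p(G)) ≤ O_p(G)), p prime, T a Sylow p-subgroup of G and Q a normal subgroup of T with C_T(Q) ≤ Q. Then C_G(Q) ≤ Q. -/
theorem result {G : Type*} [Group G] [Finite G] {p : ℕ} [Fact p.Prime] (hG : Subgroup.centralizer (Cfsg.pCore p G : Set G) ≤ Cfsg.pCore p G) (T : Sylow p G) (Q : Subgroup G) (hQT : Q ≤ (T : Subgroup G)) (hQn : (T : Subgroup G) ≤ Subgroup.normalizer (Q : Set G)) (hC : (T : Subgroup G) ⊓ Subgroup.centralizer (Q : Set G) ≤ Q) : Subgroup.centralizer (Q : Set G) ≤ Q := by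
  classical
  set R := Cfsg.pCore p G with hR
  have hRn : R.Normal := Cfsg.Agent.Lib.FitCore.pCore_normal p
  have hRp : IsPGroup p R := Cfsg.Agent.Lib.FitCore.pCore_isPGroup p
  have hRT : R ≤ (T : Subgroup G) := Cfsg.Agent.Lib.FitCore.pCore_le_sylow p T
  set C := Subgroup.centralizer (Q : Set G) with hCdef
  -- elements of `T` normalize `C`
  have hTC : ∀ t ∈ (T : Subgroup G), ∀ c ∈ C, t * c * t⁻¹ ∈ C := by
    intro t ht c hc
    rw [hCdef, Subgroup.mem_centralizer_iff] at hc ⊢
    intro q hq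
    have h1 : t⁻¹ * q * t ∈ Q := by
      have := (Subgroup.mem_normalizer_iff.1 (hQn ht) (t⁻¹ * q * t)).2 (by simpa [mul_assoc] using hq)
      exact this
    have h2 := hc _ h1
    calc q * (t * c * t⁻¹) = t * ((t⁻¹ * q * t) * c) * t⁻¹ := by group
      _ = t * (c * (t⁻¹ * q * t)) * t⁻¹ := by rw [h2]
      _ = _ := by group
  have hCp : IsPGroup p C := by
    apply Cfsg.Agent.Lib.CharPBasic.isPGroup_of_forall_coprime
    intro y hy hyc
    have hcomm : ∀ t ∈ R, y * t = t * y := by
      intro t ht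
      set z : G := y * t * y⁻¹ * t⁻¹ with hz
      have hzR : z ∈ R := R.mul_mem (hRn.conj_mem t ht y) (R.inv_mem ht)
      have hzC : z ∈ C := by
        have h1 := hTC t (hRT ht) _ (C.inv_mem hy)
        have h2 := C.mul_mem hy h1
        have h3 : z = y * (t * y⁻¹ * t⁻¹) := by rw [hz]; group
        rw [h3]; exact h2
      have hzQ : z ∈ Q := hC ⟨hRT hzR, hzC⟩
      have hyz : y * z = z * y := by
        have := Subgroup.mem_centralizer_iff.1 hy z hzQ
        exact this.symm
      have hz1 : z = 1 := by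
        apply Cfsg.Agent.Lib.CharPBasic.eq_one_of_commutator_coprime (t := t) _ hyz hyc
        · obtain ⟨k, hk⟩ := (IsPGroup.iff_orderOf.1 hRp) ⟨z, hzR⟩
          exact ⟨k, by rw [← hk]; exact (Subgroup.orderOf_mk z hzR).symm⟩
        · rw [hz]; group
      have h3 : y * t * y⁻¹ = t := by
        have := congrArg (fun w => w * t) hz1
        simpa [hz, mul_assoc] using this
      calc y * t = y * t * y⁻¹ * y := by group
        _ = t * y := by rw [h3]
    have hyR : y ∈ R := by
      apply hG
      rw [Subgroup.mem_centralizer_iff]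
      intro q hq
      exact (hcomm q hq).symm
    apply Cfsg.Agent.Lib.CharPBasic.eq_one_of_coprime_of_pow hyc
    obtain ⟨k, hk⟩ := (IsPGroup.iff_orderOf.1 hRp) ⟨y, hyR⟩
    exact ⟨k, by rw [← hk]; exact (Subgroup.orderOf_mk y hyR).symm⟩
  have hTN : (T : Subgroup G) ≤ Subgroup.normalizer (C : Set G) := by
    intro t ht
    rw [Subgroup.mem_normalizer_iff]
    intro c
    constructor
    · exact hTC t ht c
    · intro hc
      have := hTC t⁻¹ (Subgroup.inv_mem _ ht) _ hc
      simpa [mul_assoc] using this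
  have hsup : IsPGroup p ((T : Subgroup G) ⊔ C : Subgroup G) :=
    IsPGroup.to_sup_of_normal_right' T.isPGroup' hCp hTN
  have heq := T.is_maximal' hsup le_sup_left
  have hCT : C ≤ (T : Subgroup G) := by
    rw [← heq]; exact le_sup_right
  intro c hc
  exact hC ⟨hCT hc, hc⟩

end Cfsg.Agent.S2960
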