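import Mathlib
import Cfsg.Agent.Lib.FitCore
import Cfsg.Agent.Lib.PCore
import Cfsg.Agent.Lib.CharPBasic
import Cfsg.Agent.S2959
import Cfsg.Agent.S2960
import Cfsg.Statements.S2961
-- import your own Cfsg.Agent.* helpers here

set_option autoImplicit false
open Cfsg

namespace Cfsg.Agent.S2961

/-- Let G be a finite group of characteristic p (C_G(O_p(G)) ≤ O_p(G)), p prime, T a Sylow p-subgroup of G and Q a normal subgroup of T with C_T(Q) ≤ Q. Then every subgroup L of G containing Q has characteristic p: C_L(O_p(L)) ≤ O_p(L). -/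
theorem result {G : Type*} [Group G] [Finite G] {p : ℕ} [Fact p.Prime] (hG : Subgroup.centralizer (Cfsg.pCore p G : Set G) ≤ Cfsg.pCore p G) (T : Sylow p G) (Q : Subgroup G) (hQT : Q ≤ (T : Subgroup G)) (hQn : (T : Subgroup G) ≤ Subgroup.normalizer (Q : Set G)) (hC : (T : Subgroup G) ⊓ Subgroup.centralizer (Q : Set G) ≤ Q) (L : Subgroup G) (hQL : Q ≤ L) : Subgroup.centralizer (Cfsg.pCore p ↥L : Set ↥L) ≤ Cfsg.pCore p ↥L := by
  classical
  set R := Cfsg.pCore p G with hR
  have hRn : R.Normal := Cfsg.Agent.Lib.FitCore.pCore_normal p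
  have hRT : R ≤ (T : Subgroup G) := Cfsg.Agent.Lib.FitCore.pCore_le_sylow p T
  have hCG : Subgroup.centralizer (Q : Set G) ≤ Q :=
    Cfsg.Agent.S2960.result hG T Q hQT hQn hC
  have hQp : IsPGroup p Q := T.isPGroup'.to_le hQT
  -- normal closure of `Q` in `L`
  set K : Subgroup G := Subgroup.closure {x | ∃ u ∈ L, ∃ q ∈ Q, x = u * q * u⁻¹} with hK
  have hKL : K ≤ L := by
    rw [hK, Subgroup.closure_le]
    rintro _ ⟨u, hu, q, hq, rfl⟩
    exact L.mul_mem (L.mul_mem hu (hQL hq)) (L.inv_mem hu)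
  have hQK : Q ≤ K := by
    intro q hq
    apply Subgroup.subset_closure
    exact ⟨1, L.one_mem, q, hq, by simp⟩
  -- a conjugation preserving the generating set
  have hconj : ∀ g : G, (∀ u ∈ L, ∃ u' ∈ L, ∃ n ∈ Subgroup.normalizer (Q : Set G), g * u = u' * n) →
      ∀ k ∈ K, g * k * g⁻¹ ∈ K := by
    intro g hg k hk
    induction hk using Subgroup.closure_induction with
    | mem x hx =>
      obtain ⟨u, hu, q, hq, rfl⟩ := hx
      obtain ⟨u', hu', n, hn, he⟩ := hg u hu
      apply Subgroup.subset_closure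
      refine ⟨u', hu', n * q * n⁻¹, (Subgroup.mem_normalizer_iff.1 hn q).1 hq, ?_⟩
      calc g * (u * q * u⁻¹) * g⁻¹ = (g * u) * q * (g * u)⁻¹ := by group
        _ = (u' * n) * q * (u' * n)⁻¹ := by rw [he]
        _ = _ := by group
    | one => simp [K.one_mem]
    | mul a b _ _ ha hb =>
      have : g * (a * b) * g⁻¹ = (g * a * g⁻¹) * (g * b * g⁻¹) := by group
      rw [this]; exact K.mul_mem ha hb
    | inv a _ ha =>
      have : g * a⁻¹ * g⁻¹ = (g * a * g⁻¹)⁻¹ := by group
      rw [this]; exact K.inv_mem ha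
  have hLK : ∀ u ∈ L, ∀ k ∈ K, u * k * u⁻¹ ∈ K := by
    intro u hu
    apply hconj
    intro v hv
    exact ⟨u * v, L.mul_mem hu hv, 1, Subgroup.one_mem _, by simp⟩
  have hRK : ∀ r ∈ R, ∀ k ∈ K, r * k * r⁻¹ ∈ K := by
    intro r hr
    apply hconj
    intro v hv
    refine ⟨v, hv, v⁻¹ * r * v, hQn (hRT ?_), by group⟩
    have := hRn.conj_mem r hr v⁻¹
    simpa using this
  have hRNK : R ≤ Subgroup.normalizer (K : Set G) := by
    intro r hr
    rw [Subgroup.mem_normalizer_iff]
    intro k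
    constructor
    · exact hRK r hr k
    · intro hk
      have := hRK r⁻¹ (R.inv_mem hr) _ hk
      simpa [mul_assoc] using this
  -- `K` has characteristic `p`
  have hKchar := Cfsg.Agent.S2959.result hG K hRNK
  -- the core of `K` inside `G`
  set E0 := Cfsg.pCore p ↥K with hE0
  have hE0p : IsPGroup p E0 := Cfsg.Agent.Lib.FitCore.pCore_isPGroup p
  set E : Subgroup G := E0.map K.subtype with hE
  have hEp : IsPGroup p E := hE0p.map _
  have hEK : E ≤ K := by
    rintro _ ⟨x, -, rfl⟩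
    exact x.2
  have hE0n : E0.Normal := Cfsg.Agent.Lib.FitCore.pCore_normal p
  -- `L` normalizes `E`
  have hLE : ∀ u ∈ L, ∀ e ∈ E, u * e * u⁻¹ ∈ E := by
    intro u hu e he
    have hφ : K ≃* K :=
      { toFun := fun t => ⟨u * t * u⁻¹, hLK u hu t t.2⟩
        invFun := fun t => ⟨u⁻¹ * t * u, by
          have := hLK u⁻¹ (L.inv_mem hu) t t.2
          simpa using this⟩
        left_inv := fun t => by
          apply Subtype.ext; simp [mul_assoc]
        right_inv := fun t => by
          apply Subtype.ext; simp [mul_assoc]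
        map_mul' := fun a b => by
          apply Subtype.ext; simp [mul_assoc] }
    let φ : K ≃* K :=
      { toFun := fun t => ⟨u * t * u⁻¹, hLK u hu t t.2⟩
        invFun := fun t => ⟨u⁻¹ * t * u, by
          have := hLK u⁻¹ (L.inv_mem hu) t t.2
          simpa using this⟩
        left_inv := fun t => by
          apply Subtype.ext; simp [mul_assoc]
        right_inv := fun t => by
          apply Subtype.ext; simp [mul_assoc]
        map_mul' := fun a b => by
          apply Subtype.ext; simp [mul_assoc] }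
    have hmap := Cfsg.Agent.Lib.PCore.pCore_map_equiv (p := p) φ
    obtain ⟨x, hx, rfl⟩ := he
    have hmem : φ x ∈ E0 := by
      rw [hE0, ← hmap]
      exact ⟨x, hx, rfl⟩
    exact ⟨φ x, hmem, rfl⟩
  -- `E` lies in the core of `L`
  have hEW : ∀ e ∈ E, ∀ he : e ∈ L, (⟨e, he⟩ : L) ∈ Cfsg.pCore p ↥L := by
    intro e he heL
    have hle : E.subgroupOf L ≤ Cfsg.pCore p ↥L := by
      apply Cfsg.Agent.Lib.FitCore.le_pCore p
      · constructor
        intro x hx u
        exact hLE u u.2 x hx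
      · exact hEp.comap_of_injective L.subtype L.subtype_injective
    exact hle he
  have hDn : (Subgroup.centralizer ((Cfsg.pCore p ↥L : Subgroup ↥L) : Set ↥L)).Normal := by
    haveI : (Cfsg.pCore p ↥L).Normal := Cfsg.Agent.Lib.FitCore.pCore_normal p
    exact Subgroup.normal_centralizer
  apply Cfsg.Agent.Lib.FitCore.le_pCore p _ hDn
  apply Cfsg.Agent.Lib.CharPBasic.isPGroup_of_forall_coprime
  intro y hy hyc
  have hyc' : (orderOf (y : G)).Coprime p := by rwa [Subgroup.orderOf_coe]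
  rw [Subgroup.mem_centralizer_iff] at hy
  -- `y` centralizes `E`
  have hyE : ∀ e ∈ E, (y : G) * e = e * y := by
    intro e he
    have h1 := hy _ (hEW e he (hKL (hEK he)))
    have h2 := congrArg Subtype.val h1
    exact h2.symm
  -- `y` centralizes `K`
  have hyK : ∀ k ∈ K, (y : G) * k = k * y := by
    intro k hk
    set z : G := (y : G) * k * (y : G)⁻¹ * k⁻¹ with hz
    have hzK : z ∈ K := K.mul_mem (hLK y y.2 k hk) (K.inv_mem hk)
    -- `z` centralizes `E`
    have hzcent : (⟨z, hzK⟩ : K) ∈ Subgroup.centralizer ((E0 : Subgroup ↥K) : Set ↥K) := by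
      rw [Subgroup.mem_centralizer_iff]
      intro e he
      apply Subtype.ext
      show (e : G) * z = z * e
      have heE : (e : G) ∈ E := ⟨e, he, rfl⟩
      have he' : k⁻¹ * (e : G) * k ∈ E := by
        have := hE0n.conj_mem e he (⟨k, hk⟩ : K)⁻¹
        exact ⟨_, this, by simp⟩
      have h1 := hyE _ he'
      have h2 := hyE _ heE
      have h3 : (y : G)⁻¹ * (k⁻¹ * e * k) = (k⁻¹ * e * k) * (y : G)⁻¹ := by
        calc (y : G)⁻¹ * (k⁻¹ * e * k) = (y : G)⁻¹ * ((k⁻¹ * e * k) * y) * (y : G)⁻¹ := by group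
          _ = (y : G)⁻¹ * (y * (k⁻¹ * e * k)) * (y : G)⁻¹ := by rw [h1]
          _ = _ := by group
      calc (e : G) * z = e * ((y : G) * k * (y : G)⁻¹ * k⁻¹) := by rw [hz]
        _ = ((e : G) * y) * k * (y : G)⁻¹ * k⁻¹ := by group
        _ = ((y : G) * e) * k * (y : G)⁻¹ * k⁻¹ := by rw [h2]
        _ = (y : G) * k * ((k⁻¹ * e * k) * (y : G)⁻¹) * k⁻¹ := by group
        _ = (y : G) * k * ((y : G)⁻¹ * (k⁻¹ * e * k)) * k⁻¹ := by rw [h3]
        _ = _ := by rw [hz]; group
    have hzE0 : (⟨z, hzK⟩ : K) ∈ E0 := hKchar hzcent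
    have hzE : z ∈ E := ⟨_, hzE0, rfl⟩
    have hyz := hyE z hzE
    have hz1 : z = 1 := by
      apply Cfsg.Agent.Lib.CharPBasic.eq_one_of_commutator_coprime (t := k) _ hyz hyc'
      · obtain ⟨j, hj⟩ := (IsPGroup.iff_orderOf.1 hEp) ⟨z, hzE⟩
        exact ⟨j, by rw [← hj]; exact (Subgroup.orderOf_mk z hzE).symm⟩
      · rw [hz]; group
    have h3 : (y : G) * k * (y : G)⁻¹ = k := by
      have := congrArg (fun w => w * k) hz1
      simpa [hz, mul_assoc] using this
    calc (y : G) * k = (y : G) * k * (y : G)⁻¹ * y := by group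
      _ = k * y := by rw [h3]
  have hyQ : (y : G) ∈ Q := by
    apply hCG
    rw [Subgroup.mem_centralizer_iff]
    intro q hq
    exact (hyK q (hQK hq)).symm
  have h1 : (y : G) = 1 := by
    apply Cfsg.Agent.Lib.CharPBasic.eq_one_of_coprime_of_pow hyc'
    obtain ⟨k, hk⟩ := (IsPGroup.iff_orderOf.1 hQp) ⟨y, hyQ⟩
    exact ⟨k, by rw [← hk]; exact (Subgroup.orderOf_mk (y : G) hyQ).symm⟩
  exact Subtype.ext h1

end Cfsg.Agent.S2961
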