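import Mathlib
import Cfsg.Statements.S2963
-- import your own Cfsg.Agent.* helpers here

set_option autoImplicit false
open Cfsg

namespace Cfsg.Agent.S2963

/-- Let n be odd. If the symmetric group of degree n is a minimal parabolic group for the prime 2, that is, a Sylow 2-subgroup is not normal and lies in exactly one maximal subgroup, then n = 2^m + 1 for some natural number m. -/
theorem result (n : ℕ) (hn : Odd n) (h : Cfsg.IsPMinimal 2 (Equiv.Perm (Fin n))) : ∃ m : ℕ, n = 2 ^ m + 1 := by
  classical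
  haveI : Fact (Nat.Prime 2) := ⟨Nat.prime_two⟩
  obtain ⟨S⟩ : Nonempty (Sylow 2 (Equiv.Perm (Fin n))) := inferInstance
  obtain ⟨hnn, M, ⟨hMc, hSM⟩, huniq⟩ := h S
  have hn1 : n ≠ 1 := by
    rintro rfl
    apply hnn
    haveI : Subsingleton (Equiv.Perm (Fin 1)) := inferInstance
    constructor
    intro x _ g
    have : g * x * g⁻¹ = x := Subsingleton.elim _ _
    rwa [this]
  have hn3 : 2 ≤ n := by
    obtain ⟨k, hk⟩ := hn
    omega
  haveI : Nontrivial (Fin n) := Fin.nontrivial_iff_two_le.2 hn3
  have hSp : IsPGroup 2 (S : Subgroup (Equiv.Perm (Fin n))) := S.isPGroup'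
  have hnotdvd : ¬ 2 ∣ Nat.card (Fin n) := by
    rw [Nat.card_eq_fintype_card, Fintype.card_fin]
    exact hn.not_two_dvd_nat
  obtain ⟨a, ha⟩ := hSp.nonempty_fixed_point_of_prime_not_dvd_card (Fin n) hnotdvd
  have haS : ∀ g ∈ (S : Subgroup (Equiv.Perm (Fin n))), g a = a := fun g hg => ha ⟨g, hg⟩
  obtain ⟨b, hb⟩ := exists_ne a
  set A : Set (Fin n) := MulAction.orbit (S : Subgroup (Equiv.Perm (Fin n))) b with hA
  have hbA : b ∈ A := MulAction.mem_orbit_self b
  have haA : a ∉ A := by
    rintro ⟨s, hs⟩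
    have h1 : (s : Equiv.Perm (Fin n)) b = a := hs
    have h2 : (s : Equiv.Perm (Fin n)) a = a := haS s s.2
    exact hb ((s : Equiv.Perm (Fin n)).injective (h1.trans h2.symm))
  by_cases hall : ∀ c, c ≠ a → c ∈ A
  · -- the orbit is everything but `a`
    have hcard : Nat.card A = n - 1 := by
      have e : A = ({a} : Set (Fin n))ᶜ := by
        ext c
        simp only [Set.mem_compl_iff, Set.mem_singleton_iff]
        constructor
        · intro hc hca
          exact haA (hca ▸ hc)
        · exact hall c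
      rw [e, Nat.card_coe_set_eq, Set.ncard_compl]
      simp [Set.ncard_singleton]
    have h2 := MulAction.card_orbit_mul_card_stabilizer_eq_card_group (S : Subgroup (Equiv.Perm (Fin n))) b
    obtain ⟨k, hk⟩ := IsPGroup.iff_card.1 hSp
    have hdvd : Nat.card A ∣ 2 ^ k := by
      rw [← hk]
      simp only [← Nat.card_eq_fintype_card] at h2
      exact Dvd.intro _ h2
    obtain ⟨m, -, hm⟩ := (Nat.dvd_prime_pow Nat.prime_two).1 hdvd
    refine ⟨m, ?_⟩
    rw [← hm, hcard]
    omega
  · exfalso
    push Not at hall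
    obtain ⟨c, hca, hcA⟩ := hall
    -- two subgroups containing `S`
    let Y : Subgroup (Equiv.Perm (Fin n)) :=
      { carrier := {g | ∀ x, g x ∈ A ↔ x ∈ A}
        mul_mem' := by
          intro g₁ g₂ h₁ h₂ x
          rw [Equiv.Perm.mul_apply, h₁, h₂]
        one_mem' := by
          intro x
          simp
        inv_mem' := by
          intro g hg x
          have := hg (g⁻¹ x)
          simpa using this.symm }
    let X : Subgroup (Equiv.Perm (Fin n)) := MulAction.stabilizer (Equiv.Perm (Fin n)) a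
    have hSX : (S : Subgroup (Equiv.Perm (Fin n))) ≤ X := fun g hg => haS g hg
    have hSY : (S : Subgroup (Equiv.Perm (Fin n))) ≤ Y := by
      intro g hg x
      constructor
      · rintro ⟨s, hs⟩
        refine ⟨(⟨g, hg⟩ : (S : Subgroup (Equiv.Perm (Fin n))))⁻¹ * s, ?_⟩
        have hs' : (s : Equiv.Perm (Fin n)) b = g x := hs
        show (g⁻¹ * (s : Equiv.Perm (Fin n))) b = x
        rw [Equiv.Perm.mul_apply, hs']
        simp
      · rintro ⟨s, hs⟩
        refine ⟨⟨g, hg⟩ * s, ?_⟩
        have hs' : (s : Equiv.Perm (Fin n)) b = x := hs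
        show (g * (s : Equiv.Perm (Fin n))) b = g x
        rw [Equiv.Perm.mul_apply, hs']
    have hswapX : Equiv.swap a b ∉ X := by
      intro h
      have h1 : (Equiv.swap a b) a = a := h
      rw [Equiv.swap_apply_left] at h1
      exact hb h1
    have hswapY : Equiv.swap a b ∉ Y := by
      intro h
      have h1 := (h b).2 hbA
      rw [Equiv.swap_apply_right] at h1
      exact haA h1
    have hXne : X ≠ ⊤ := fun h => hswapX (h ▸ Subgroup.mem_top _)
    have hYne : Y ≠ ⊤ := fun h => hswapY (h ▸ Subgroup.mem_top _)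
    obtain ⟨M₁, hM₁, hXM₁⟩ := (eq_top_or_exists_le_coatom X).resolve_left hXne
    obtain ⟨M₂, hM₂, hYM₂⟩ := (eq_top_or_exists_le_coatom Y).resolve_left hYne
    have e1 := huniq M₁ ⟨hM₁, hSX.trans hXM₁⟩
    have e2 := huniq M₂ ⟨hM₂, hSY.trans hYM₂⟩
    have hYM₁ : Y ≤ M₁ := by
      rw [e1, ← e2]; exact hYM₂
    apply hM₁.1
    rw [eq_top_iff, ← Equiv.Perm.closure_isSwap, Subgroup.closure_le]
    -- swaps avoiding `a`
    have hsw : ∀ x y : Fin n, x ≠ a → y ≠ a → Equiv.swap x y ∈ M₁ := by
      intro x y hx hy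
      apply hXM₁
      show (Equiv.swap x y) a = a
      exact Equiv.swap_apply_of_ne_of_ne hx.symm hy.symm
    have hsac : Equiv.swap a c ∈ M₁ := by
      apply hYM₁
      intro x
      by_cases hxa : x = a
      · subst hxa
        rw [Equiv.swap_apply_left]
        exact ⟨fun h => absurd h hcA, fun h => absurd h haA⟩
      by_cases hxc : x = c
      · subst hxc
        rw [Equiv.swap_apply_right]
        exact ⟨fun h => absurd h haA, fun h => absurd h hcA⟩
      · rw [Equiv.swap_apply_of_ne_of_ne hxa hxc]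
    have hsay : ∀ y : Fin n, y ≠ a → Equiv.swap a y ∈ M₁ := by
      intro y hy
      by_cases hyc : y = c
      · rw [hyc]; exact hsac
      have e : Equiv.swap a y = Equiv.swap c y * Equiv.swap a c * (Equiv.swap c y)⁻¹ := by
        rw [← Equiv.swap_apply_apply]
        rw [Equiv.swap_apply_of_ne_of_ne hca.symm (Ne.symm hy), Equiv.swap_apply_left]
      rw [e]
      exact M₁.mul_mem (M₁.mul_mem (hsw c y hca hy) hsac) (M₁.inv_mem (hsw c y hca hy))
    rintro σ ⟨x, y, hxy, rfl⟩
    by_cases hx : x = a
    · subst hx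
      exact hsay y (Ne.symm hxy)
    by_cases hy : y = a
    · subst hy
      rw [Equiv.swap_comm]
      exact hsay x hxy
    · exact hsw x y hx hy

end Cfsg.Agent.S2963
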