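import Mathlib
import Cfsg.Agent.Lib.H5Basic
import Cfsg.Agent.Lib.FitCore
import Cfsg.Statements.S2998
-- import your own Cfsg.Agent.* helpers here

set_option autoImplicit false
open Cfsg

namespace Cfsg.Agent.S2998

/-- Let G be a finite group, p a prime, P a Sylow p-subgroup of G and x ∈ P an element such that N_G(R) ≤ C_G(x) for every nontrivial subgroup R of P. Then P ≤ C_G(x); every G-conjugate of x lying in P equals x (so g ∈ C_G(x) whenever g x g⁻¹ ∈ P); and for every normal subgroup N of G, the image of x in G ⧸ N has the same property with respect to the image of P: the normalizer of every nontrivial subgroup of the image of P centralizes the image of x. -/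
theorem result {G : Type*} [Group G] [Finite G] {p : ℕ} [Fact p.Prime] (P : Sylow p G) (x : G) (hxP : x ∈ (P : Subgroup G)) (hlc : ∀ R : Subgroup G, R ≤ (P : Subgroup G) → R ≠ ⊥ → Subgroup.normalizer (R : Set G) ≤ Subgroup.centralizer ({x} : Set G)) : (P : Subgroup G) ≤ Subgroup.centralizer ({x} : Set G) ∧ (∀ g : G, g * x * g⁻¹ ∈ (P : Subgroup G) → g * x * g⁻¹ = x) ∧ ∀ (N : Subgroup G) [N.Normal], ∀ R : Subgroup (G ⧸ N), R ≤ (P : Subgroup G).map (QuotientGroup.mk' N) → R ≠ ⊥ → Subgroup.normalizer (R : Set (G ⧸ N)) ≤ Subgroup.centralizer ({(QuotientGroup.mk x : G ⧸ N)} : Set (G ⧸ N)) := by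
  classical
  have hPp : IsPGroup p (P : Subgroup G) := P.isPGroup'
  have hcentr : (P : Subgroup G) ≤ Subgroup.centralizer ({x} : Set G) := by
    by_cases hb : (P : Subgroup G) = ⊥
    · rw [hb]; exact bot_le
    · exact Subgroup.le_normalizer.trans (hlc _ le_rfl hb)
  -- the main claim
  have claim : ∀ (n : ℕ) (k : G), Nat.card (P : Subgroup G) ≤
      Nat.card ↥((P : Subgroup G) ⊓ ((k • P : Sylow p G) : Subgroup G)) + n →
      1 < Nat.card ↥((P : Subgroup G) ⊓ ((k • P : Sylow p G) : Subgroup G)) →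
      k ∈ Subgroup.centralizer ({x} : Set G) := by
    have hP_case : ∀ k : G, (P : Subgroup G) ≤ ((k • P : Sylow p G) : Subgroup G) →
        (P : Subgroup G) ≠ ⊥ → k ∈ Subgroup.centralizer ({x} : Set G) := by
      intro k hle hb
      have h1 := P.is_maximal' (k • P).isPGroup' hle
      have h2 : k • P = P := Sylow.ext h1
      exact hlc _ le_rfl hb (Sylow.smul_eq_iff_mem_normalizer.1 h2)
    have hne_of : ∀ D : Subgroup G, 1 < Nat.card D → D ≠ ⊥ := by
      intro D hD hb
      rw [hb, Subgroup.card_bot] at hD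
      omega
    intro n
    induction n with
    | zero =>
      intro k hc hc1
      set D := (P : Subgroup G) ⊓ ((k • P : Sylow p G) : Subgroup G) with hD
      have hDP : D = (P : Subgroup G) := Subgroup.eq_of_le_of_card_ge inf_le_left (by simpa using hc)
      apply hP_case k
      · rw [← hDP]; exact inf_le_right
      · rw [← hDP]; exact hne_of D hc1
    | succ n ih =>
      intro k hc hc1
      set Pk : Subgroup G := ((k • P : Sylow p G) : Subgroup G) with hPk
      set D := (P : Subgroup G) ⊓ Pk with hD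
      have hDne : D ≠ ⊥ := hne_of D hc1
      by_cases hle : (P : Subgroup G) ≤ Pk
      · apply hP_case k hle
        intro hb
        apply hDne
        rw [hD, hb]; simp
      have hDneP : D ≠ (P : Subgroup G) := by
        intro h
        apply hle
        rw [← h]; exact inf_le_right
      have hPkp : IsPGroup p Pk := (k • P).isPGroup'
      have hcardPk : Nat.card Pk = Nat.card (P : Subgroup G) := by
        rw [hPk, Sylow.coe_subgroup_smul, Subgroup.pointwise_smul_def]
        exact Subgroup.card_map_of_injective (MulAut.conj k).injective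
      have hDnePk : D ≠ Pk := by
        intro h
        apply hle
        have h2 : Pk ≤ (P : Subgroup G) := by rw [← h]; exact inf_le_left
        have h3 : Pk = (P : Subgroup G) := Subgroup.eq_of_le_of_card_ge h2 (by rw [hcardPk])
        rw [h3]
      obtain ⟨g₁, hg₁P, hg₁D, hg₁N⟩ := Cfsg.Agent.Lib.H5Basic.exists_mem_normalizer_of_lt hPp inf_le_left hDneP
      obtain ⟨g₂, hg₂P, hg₂D, hg₂N⟩ := Cfsg.Agent.Lib.H5Basic.exists_mem_normalizer_of_lt hPkp inf_le_right hDnePk
      set NN : Subgroup G := Subgroup.normalizer (D : Set G) with hNN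
      have hAp : IsPGroup p (((P : Subgroup G) ⊓ NN).subgroupOf NN) :=
        (hPp.to_le inf_le_left).comap_of_injective NN.subtype NN.subtype_injective
      have hBp : IsPGroup p ((Pk ⊓ NN).subgroupOf NN) :=
        (hPkp.to_le inf_le_left).comap_of_injective NN.subtype NN.subtype_injective
      obtain ⟨S, hS⟩ := hAp.exists_le_sylow
      obtain ⟨S', hS'⟩ := hBp.exists_le_sylow
      obtain ⟨h, hh⟩ := MulAction.exists_smul_eq (↥NN) S' S
      have hRp : IsPGroup p ((S : Subgroup NN).map NN.subtype) := S.isPGroup'.map _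
      obtain ⟨Q, hQ⟩ := hRp.exists_le_sylow
      obtain ⟨k₁, hk₁⟩ := MulAction.exists_smul_eq G P Q
      have hDNN : D ≤ NN := Subgroup.le_normalizer
      have hDQ : D ≤ (Q : Subgroup G) := by
        intro d hd
        apply hQ
        refine ⟨⟨d, hDNN hd⟩, hS ?_, rfl⟩
        exact Subgroup.mem_inf.2 ⟨(Subgroup.mem_inf.1 hd).1, hDNN hd⟩
      have hg₁Q : g₁ ∈ (Q : Subgroup G) := by
        apply hQ
        refine ⟨⟨g₁, hg₁N⟩, hS ?_, rfl⟩
        exact Subgroup.mem_inf.2 ⟨hg₁P, hg₁N⟩
      -- first application of the induction hypothesis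
      have hcard_gt : ∀ E : Subgroup G, D ≤ E → ∀ e ∈ E, e ∉ D → Nat.card D < Nat.card E := by
        intro E hDE e heE heD
        by_contra hcon
        push Not at hcon
        have := Subgroup.eq_of_le_of_card_ge hDE hcon
        exact heD (this ▸ heE)
      have hk₁C : k₁ ∈ Subgroup.centralizer ({x} : Set G) := by
        have hle1 : D ≤ (P : Subgroup G) ⊓ ((k₁ • P : Sylow p G) : Subgroup G) := by
          rw [hk₁]
          exact le_inf inf_le_left hDQ
        have hg1 : g₁ ∈ (P : Subgroup G) ⊓ ((k₁ • P : Sylow p G) : Subgroup G) := by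
          rw [hk₁]
          exact Subgroup.mem_inf.2 ⟨hg₁P, hg₁Q⟩
        have hlt := hcard_gt _ hle1 g₁ hg1 hg₁D
        exact ih k₁ (by omega) (by omega)
      -- second application
      set k₂ : G := (h : G) * k with hk₂
      have hconjmem : ∀ y ∈ Pk, (h : G) * y * (h : G)⁻¹ ∈ ((k₂ • P : Sylow p G) : Subgroup G) := by
        intro y hy
        have h1 := Cfsg.Agent.Lib.H5Basic.conj_mem_smul_sylow (k • P) (h : G) y hy
        rw [hk₂, mul_smul]
        exact h1
      set E : Subgroup G := (Q : Subgroup G) ⊓ ((k₂ • P : Sylow p G) : Subgroup G) with hE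
      have hDE : D ≤ E := by
        intro d hd
        refine Subgroup.mem_inf.2 ⟨hDQ hd, ?_⟩
        have h1 : (h : G)⁻¹ * d * (h : G) ∈ D := by
          have h2 := (Subgroup.mem_normalizer_iff.1 (NN.inv_mem h.2) d).1 hd
          simpa using h2
        have h3 := hconjmem _ (Subgroup.mem_inf.1 h1).2
        simpa [mul_assoc] using h3
      have hg₂E : (h : G) * g₂ * (h : G)⁻¹ ∈ E := by
        refine Subgroup.mem_inf.2 ⟨?_, hconjmem g₂ hg₂P⟩
        apply hQ
        have h1 : (⟨g₂, hg₂N⟩ : NN) ∈ (S' : Subgroup NN) := hS' (Subgroup.mem_inf.2 ⟨hg₂P, hg₂N⟩)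
        have h2 := Cfsg.Agent.Lib.H5Basic.conj_mem_smul_sylow S' h _ h1
        rw [hh] at h2
        exact ⟨_, h2, by simp⟩
      have hg₂D' : (h : G) * g₂ * (h : G)⁻¹ ∉ D := by
        intro hin
        apply hg₂D
        have h2 := (Subgroup.mem_normalizer_iff.1 h.2 g₂).2 hin
        exact h2
      have hltE := hcard_gt E hDE _ hg₂E hg₂D'
      set k₃ : G := k₁⁻¹ * k₂ with hk₃
      have hk₃C : k₃ ∈ Subgroup.centralizer ({x} : Set G) := by
        have hmap : E.map (MulAut.conj k₁⁻¹).toMonoidHom ≤ (P : Subgroup G) ⊓ ((k₃ • P : Sylow p G) : Subgroup G) := by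
          rintro _ ⟨e, he, rfl⟩
          have he1 := (Subgroup.mem_inf.1 he).1
          have he2 := (Subgroup.mem_inf.1 he).2
          refine Subgroup.mem_inf.2 ⟨?_, ?_⟩
          · rw [← hk₁] at he1
            have := Cfsg.Agent.Lib.H5Basic.mem_of_mem_smul_sylow P k₁ e he1
            simpa [MulAut.conj_apply] using this
          · have h1 := Cfsg.Agent.Lib.H5Basic.conj_mem_smul_sylow (k₂ • P) k₁⁻¹ e he2
            have h2 : k₁⁻¹ • (k₂ • P) = k₃ • P := (mul_smul k₁⁻¹ k₂ P).symm
            rw [h2] at h1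
            simpa [MulAut.conj_apply] using h1
        have hcardE : Nat.card E ≤ Nat.card ↥((P : Subgroup G) ⊓ ((k₃ • P : Sylow p G) : Subgroup G)) := by
          have := Subgroup.card_le_of_le hmap
          rwa [Cfsg.Agent.Lib.H5Basic.card_map_conj] at this
        exact ih k₃ (by omega) (by omega)
      have hhC : (h : G) ∈ Subgroup.centralizer ({x} : Set G) := hlc D inf_le_left hDne h.2
      have hk₂C : k₂ ∈ Subgroup.centralizer ({x} : Set G) := by
        have : k₂ = k₁ * k₃ := by rw [hk₃]; group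
        rw [this]; exact Subgroup.mul_mem _ hk₁C hk₃C
      have : k = (h : G)⁻¹ * k₂ := by rw [hk₂]; group
      rw [this]
      exact Subgroup.mul_mem _ (Subgroup.inv_mem _ hhC) hk₂C
  refine ⟨hcentr, ?_, ?_⟩
  · intro g hg
    by_cases hx1 : x = 1
    · simp [hx1]
    have hy1 : g * x * g⁻¹ ≠ 1 := by
      intro h
      apply hx1
      have : g⁻¹ * (g * x * g⁻¹) * g = g⁻¹ * 1 * g := by rw [h]
      simpa [mul_assoc] using this
    have hmem : g * x * g⁻¹ ∈ (P : Subgroup G) ⊓ ((g • P : Sylow p G) : Subgroup G) :=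
      Subgroup.mem_inf.2 ⟨hg, Cfsg.Agent.Lib.H5Basic.conj_mem_smul_sylow P g x hxP⟩
    have hcard1 : 1 < Nat.card ↥((P : Subgroup G) ⊓ ((g • P : Sylow p G) : Subgroup G)) := by
      rw [Subgroup.one_lt_card_iff_ne_bot]
      intro hb
      rw [hb] at hmem
      exact hy1 (by simpa using hmem)
    have hgC := claim (Nat.card (P : Subgroup G)) g (by omega) hcard1
    rw [Subgroup.mem_centralizer_singleton_iff] at hgC
    rw [hgC]; group
  · intro N _ R hRP hR1
    set π := QuotientGroup.mk' N with hπ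
    set R₁ : Subgroup G := R.comap π with hR₁
    have hNR₁ : N ≤ R₁ := by
      intro n hn
      show π n ∈ R
      have : π n = 1 := (QuotientGroup.eq_one_iff n).2 hn
      rw [this]; exact R.one_mem
    set R₀ : Subgroup G := R₁ ⊓ (P : Subgroup G) with hR₀
    have hfac : ∀ a ∈ R₁, ∃ r ∈ R₀, ∃ n ∈ N, a = r * n := by
      intro a ha
      obtain ⟨b, hb, hbe⟩ := hRP ha
      have hn : b⁻¹ * a ∈ N := QuotientGroup.eq.1 hbe
      refine ⟨b, Subgroup.mem_inf.2 ⟨?_, hb⟩, b⁻¹ * a, hn, by group⟩
      show π b ∈ R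
      rw [hbe]; exact ha
    have hR₀1 : R₀ ≠ ⊥ := by
      obtain ⟨r, hr, hr1⟩ := (Subgroup.bot_or_exists_ne_one R).resolve_left hR1
      obtain ⟨b, hb, rfl⟩ := hRP hr
      intro hbot
      have hbm : b ∈ R₀ := Subgroup.mem_inf.2 ⟨hr, hb⟩
      rw [hbot, Subgroup.mem_bot] at hbm
      apply hr1
      rw [hbm, map_one]
    intro gq hgq
    obtain ⟨g, rfl⟩ := QuotientGroup.mk_surjective gq
    have hgnorm := Subgroup.mem_normalizer_iff.1 hgq
    have hgR₁ : ∀ a ∈ R₁, g * a * g⁻¹ ∈ R₁ := by
      intro a ha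
      show π (g * a * g⁻¹) ∈ R
      have := (hgnorm (π a)).1 ha
      simpa [hπ] using this
    have hsup : N ⊔ R₀ = R₁ := by
      apply le_antisymm (sup_le hNR₁ inf_le_left)
      intro a ha
      obtain ⟨r, hr, n, hn, rfl⟩ := hfac a ha
      rw [sup_comm]
      exact Subgroup.mul_mem_sup hr hn
    have hrel : R₀.relIndex R₁ = (P : Subgroup G).relIndex N := by
      rw [← hsup, Cfsg.Agent.Lib.FitCore.relIndex_sup_of_normal R₀ N,
        ← Subgroup.inf_relIndex_right R₀ N, ← Subgroup.inf_relIndex_right (P : Subgroup G) N]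
      congr 1
      ext y
      constructor
      · rintro ⟨⟨-, h1⟩, h2⟩
        exact ⟨h1, h2⟩
      · rintro ⟨h1, h2⟩
        exact ⟨⟨hNR₁ h2, h1⟩, h2⟩
    have hdvd : (P : Subgroup G).relIndex N ∣ (P : Subgroup G).index := by
      rw [← Cfsg.Agent.Lib.FitCore.relIndex_sup_of_normal (P : Subgroup G) N]
      exact Subgroup.relIndex_dvd_index_of_le le_sup_right
    have hnp : ¬ p ∣ (R₀.subgroupOf R₁).index := by
      have : (R₀.subgroupOf R₁).index = R₀.relIndex R₁ := rfl
      rw [this, hrel]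
      intro h
      exact P.not_dvd_index (h.trans hdvd)
    have hR₀p : IsPGroup p (R₀.subgroupOf R₁) :=
      (hPp.to_le inf_le_right).comap_of_injective R₁.subtype R₁.subtype_injective
    set R₂ : Subgroup G := R₀.map (MulAut.conj g).toMonoidHom with hR₂
    have hR₂R₁ : R₂ ≤ R₁ := by
      rintro _ ⟨d, hd, rfl⟩
      exact hgR₁ d (Subgroup.mem_inf.1 hd).1
    have hR₀R₁ : R₀ ≤ R₁ := inf_le_left
    have hR₂p : IsPGroup p (R₂.subgroupOf R₁) :=
      ((hPp.to_le inf_le_right).map _ : IsPGroup p R₂).comap_of_injective R₁.subtype R₁.subtype_injective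
    have hnp2 : ¬ p ∣ (R₂.subgroupOf R₁).index := by
      have h1 : Nat.card (R₂.subgroupOf R₁) = Nat.card (R₀.subgroupOf R₁) := by
        rw [Nat.card_congr (Subgroup.subgroupOfEquivOfLe hR₂R₁).toEquiv,
          Nat.card_congr (Subgroup.subgroupOfEquivOfLe hR₀R₁).toEquiv,
          hR₂, Cfsg.Agent.Lib.H5Basic.card_map_conj]
      have h2 := (R₂.subgroupOf R₁).card_mul_index
      have h3 := (R₀.subgroupOf R₁).card_mul_index
      have h4 : (R₂.subgroupOf R₁).index = (R₀.subgroupOf R₁).index := by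
        rw [h1] at h2
        have h5 := h2.trans h3.symm
        exact Nat.eq_of_mul_eq_mul_left Nat.card_pos h5
      rw [h4]; exact hnp
    obtain ⟨w, hw⟩ := MulAction.exists_smul_eq (↥R₁) (hR₂p.toSylow hnp2) (hR₀p.toSylow hnp)
    obtain ⟨r, hr, n, hn, hwe⟩ := hfac w w.2
    have hkey : n * g ∈ Subgroup.normalizer (R₀ : Set G) := by
      apply Cfsg.Agent.Lib.H5Basic.mem_normalizer_of_map_conj_le
      rintro _ ⟨d, hd, rfl⟩
      have hd2 : g * d * g⁻¹ ∈ R₂ := ⟨d, hd, by simp [MulAut.conj_apply]⟩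
      have h1 : (⟨g * d * g⁻¹, hR₂R₁ hd2⟩ : R₁) ∈ ((hR₂p.toSylow hnp2 : Sylow p ↥R₁) : Subgroup ↥R₁) := hd2
      have h2 := Cfsg.Agent.Lib.H5Basic.conj_mem_smul_sylow (hR₂p.toSylow hnp2) w _ h1
      rw [hw] at h2
      have h3 : (w : G) * (g * d * g⁻¹) * (w : G)⁻¹ ∈ R₀ := h2
      rw [hwe] at h3
      have h4 := R₀.mul_mem (R₀.mul_mem (R₀.inv_mem hr) h3) hr
      have e : r⁻¹ * (r * n * (g * d * g⁻¹) * (r * n)⁻¹) * r = (MulAut.conj (n * g)).toMonoidHom d := by
        simp only [MulEquiv.coe_toMonoidHom, MulAut.conj_apply]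
        group
      rwa [e] at h4
    have hC := hlc R₀ inf_le_right hR₀1 hkey
    rw [Subgroup.mem_centralizer_singleton_iff] at hC ⊢
    have hn1 : π n = 1 := (QuotientGroup.eq_one_iff n).2 hn
    have h5 := congrArg π hC
    simp only [map_mul, hn1, one_mul] at h5
    exact h5

end Cfsg.Agent.S2998
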