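import Cfsg.Statements.S3003
import Cfsg.Agent.Lib.CoprimeGen4

set_option autoImplicit false
set_option linter.all false
open Cfsg

namespace Cfsg.Agent.S3003


theorem key {G : Type*} [Group G] [Finite G] {p : ℕ} [Fact p.Prime] (Q : Subgroup G)
    (hQp : IsPGroup p ↥Q) (hlarge : Cfsg.IsLarge Q) (G₁ : Subgroup G) (hQG : Q ≤ G₁) (R : Subgroup G)
    (hR : (Nat.card ↥R).Coprime p) (hGR : G₁ ≤ Subgroup.normalizer (R : Set G))
    {x g y : G} (hg : g ∈ G₁) (hx1 : x ≠ 1)
    (hz : g * x * g⁻¹ ∈ Q ⊓ Subgroup.centralizer (Q : Set G)) (hy : y ∈ R) (hxy : x * y = y * x) :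
    y = 1 := by
  have hRQ : ∀ w, w ∈ R → w ∈ Q → w = 1 := by
    intro w h1 h2
    obtain ⟨k, hk⟩ := IsPGroup.iff_card.1 hQp
    have h3 : orderOf w ∣ Nat.card R := Subgroup.orderOf_dvd_natCard R h1
    have h4 : orderOf w ∣ p ^ k := by
      rw [← hk]
      exact Subgroup.orderOf_dvd_natCard Q h2
    have h5 : (orderOf w).Coprime (p ^ k) := Nat.Coprime.coprime_dvd_left h3 (hR.pow_right k)
    exact orderOf_eq_one_iff.1 (h5.eq_one_of_dvd h4)
  have hNR : ∀ {a b : G}, a ∈ G₁ → b ∈ R → a * b * a⁻¹ ∈ R := fun ha hb =>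
    (Subgroup.mem_normalizer_iff.1 (hGR ha) _).1 hb
  obtain ⟨z, hzdef⟩ : ∃ z, z = g * x * g⁻¹ := ⟨_, rfl⟩
  obtain ⟨y', hy'def⟩ : ∃ y', y' = g * y * g⁻¹ := ⟨_, rfl⟩
  rw [← hzdef] at hz
  have hz1 : z ≠ 1 := by
    intro h
    apply hx1
    rw [hzdef] at h
    have h2 : g * x * g⁻¹ = g * 1 * g⁻¹ := by rw [h]; group
    exact mul_left_cancel (mul_right_cancel h2)
  have hy'R : y' ∈ R := by rw [hy'def]; exact hNR hg hy
  have hcomm : y' * z = z * y' := by
    rw [hy'def, hzdef]
    calc g * y * g⁻¹ * (g * x * g⁻¹) = g * (y * x) * g⁻¹ := by group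
      _ = g * (x * y) * g⁻¹ := by rw [hxy]
      _ = _ := by group
  have hy'N : y' ∈ Subgroup.normalizer ((Subgroup.zpowers z : Subgroup G) : Set G) := by
    rw [Subgroup.mem_normalizer_iff]
    intro h
    have hc : ∀ h : G, h ∈ Subgroup.zpowers z → y' * h * y'⁻¹ = h := by
      intro h hh
      obtain ⟨i, rfl⟩ := Subgroup.mem_zpowers_iff.1 hh
      have : Commute y' (z ^ i) := (show Commute y' z from hcomm).zpow_right i
      rw [this.eq, mul_inv_cancel_right]
    have hc' : ∀ h : G, h ∈ Subgroup.zpowers z → y'⁻¹ * h * y' = h := by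
      intro h hh
      obtain ⟨i, rfl⟩ := Subgroup.mem_zpowers_iff.1 hh
      have : Commute y' (z ^ i) := (show Commute y' z from hcomm).zpow_right i
      rw [this.inv_left.eq, mul_assoc, inv_mul_cancel, mul_one]
    constructor
    · intro hh
      have hh' : h ∈ Subgroup.zpowers z := hh
      change y' * h * y'⁻¹ ∈ Subgroup.zpowers z
      rw [hc h hh']
      exact hh'
    · intro hh
      have hh' : y' * h * y'⁻¹ ∈ Subgroup.zpowers z := hh
      change h ∈ Subgroup.zpowers z
      have h2 : h = y'⁻¹ * (y' * h * y'⁻¹) * y' := by group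
      rw [h2, hc' _ hh']
      exact hh'
  have hy'NQ : y' ∈ Subgroup.normalizer (Q : Set G) := by
    refine hlarge.2 (Subgroup.zpowers z) ?_ ?_ hy'N
    · rw [Subgroup.zpowers_le]
      exact hz.2
    · intro h
      rw [Subgroup.zpowers_eq_bot] at h
      exact hz1 h
  have hy'C : y' ∈ Subgroup.centralizer (Q : Set G) := by
    rw [Subgroup.mem_centralizer_iff]
    intro q hq
    have h1 : y' * q * y'⁻¹ * q⁻¹ = 1 := by
      apply hRQ
      · rw [mul_assoc, mul_assoc]
        refine mul_mem hy'R ?_
        have := hNR (hQG hq) (inv_mem hy'R)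
        rw [← mul_assoc]
        simpa [mul_assoc] using this
      · refine mul_mem ?_ (inv_mem hq)
        exact (Subgroup.mem_normalizer_iff.1 hy'NQ _).1 hq
    have h2 : y' * q * y'⁻¹ = q := mul_inv_eq_one.1 h1
    have h3 : y' * q = q * y' := mul_inv_eq_iff_eq_mul.1 h2
    exact h3.symm
  have hy'Q : y' ∈ Q := hlarge.1 hy'C
  have hy'1 : y' = 1 := hRQ _ hy'R hy'Q
  rw [hy'def] at hy'1
  have h2 : g * y * g⁻¹ = g * 1 * g⁻¹ := by rw [hy'1]; group
  exact mul_left_cancel (mul_right_cancel h2)

theorem mem_of_zpow_mem {G : Type*} [Group G] {p : ℕ} (hp : p.Prime) {w : G} (hw : w ^ p = 1) {j : ℤ}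
    (hj : ¬ (p : ℤ) ∣ j) (H : Subgroup G) (h : w ^ j ∈ H) : w ∈ H := by
  have hc : IsCoprime j (p : ℤ) := by
    have : IsCoprime (p : ℤ) j := (Nat.prime_iff_prime_int.1 hp).coprime_iff_not_dvd.2 hj
    exact this.symm
  obtain ⟨s, t, hst⟩ := hc
  have h1 : w = (w ^ j) ^ s * (w ^ (p : ℤ)) ^ t := by
    rw [← zpow_mul, ← zpow_mul, ← zpow_add]
    have : j * s + (p : ℤ) * t = 1 := by linarith
    rw [this, zpow_one]
  rw [h1, zpow_natCast, hw, one_zpow, mul_one]
  exact zpow_mem h s


/-- Let G be a finite group, p a prime and Q a large p-subgroup of G: C_G(Q) ≤ Q and N_G(U) ≤ N_G(Q) for every nontrivial subgroup U of C_G(Q). Let Q ≤ G₁ ≤ G, let R be a subgroup of order prime to p normalized by G₁, and let U ≤ G₁ be a p-subgroup. If U contains a nontrivial element which is G₁-conjugate to an element of Z(Q), then C_R(U) = 1. In particular, if U is elementary abelian of order at least p² and every maximal subgroup of U contains a nontrivial element G₁-conjugate into Z(Q), then R = 1. -/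
theorem result {G : Type*} [Group G] [Finite G] {p : ℕ} [Fact p.Prime] (Q : Subgroup G) (hQp : IsPGroup p ↥Q) (hlarge : Cfsg.IsLarge Q) (G₁ : Subgroup G) (hQG : Q ≤ G₁) (R : Subgroup G) (hR : (Nat.card ↥R).Coprime p) (hGR : G₁ ≤ Subgroup.normalizer (R : Set G)) (U : Subgroup G) (hUG : U ≤ G₁) (hUp : IsPGroup p ↥U) : ((∃ x ∈ U, x ≠ 1 ∧ ∃ g ∈ G₁, g * x * g⁻¹ ∈ Q ⊓ Subgroup.centralizer (Q : Set G)) → R ⊓ Subgroup.centralizer (U : Set G) = ⊥) ∧ (Cfsg.IsElementaryAbelian p U → p ^ 2 ≤ Nat.card ↥U → (∀ U₀ : Subgroup G, U₀ ≤ U → IsCoatom (U₀.subgroupOf U) → ∃ x ∈ U₀, x ≠ 1 ∧ ∃ g ∈ G₁, g * x * g⁻¹ ∈ Q ⊓ Subgroup.centralizer (Q : Set G)) → R = ⊥) := by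

  classical
  refine ⟨?_, ?_⟩
  · rintro ⟨x, hxU, hx1, g, hg, hz⟩
    rw [eq_bot_iff]
    rintro y ⟨hyR, hyC⟩
    rw [Subgroup.mem_bot]
    exact key Q hQp hlarge G₁ hQG R hR hGR hg hx1 hz hyR (Subgroup.mem_centralizer_iff.1 hyC x hxU)
  · intro hel hcard hcoat
    by_contra hRne
    obtain ⟨hUab, hUexp⟩ := hel
    have hp := (Fact.out : p.Prime)
    have hUc : ∀ a ∈ U, ∀ b ∈ U, a * b = b * a := fun a ha b hb =>
      congrArg Subtype.val (hUab.is_comm.comm ⟨a, ha⟩ ⟨b, hb⟩)
    let Sset : Set (Subgroup G) := {V | V ≤ U ∧ R ⊓ Subgroup.centralizer (V : Set G) ≠ ⊥}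
    have hne : Sset.Nonempty := by
      refine ⟨⊥, bot_le, ?_⟩
      intro h
      apply hRne
      rw [eq_bot_iff]
      intro y hy
      apply h.le
      refine Subgroup.mem_inf.2 ⟨hy, ?_⟩
      rw [Subgroup.mem_centralizer_iff]
      intro b hb
      have hb' : b ∈ (⊥ : Subgroup G) := hb
      rw [Subgroup.mem_bot] at hb'
      rw [hb', one_mul, mul_one]
    obtain ⟨V, hV⟩ := Set.Finite.exists_maximal (Set.toFinite Sset) hne
    obtain ⟨hVU, hVne⟩ := hV.prop
    have hVmax : ∀ W : Subgroup G, W ≤ U → R ⊓ Subgroup.centralizer (W : Set G) ≠ ⊥ → V ≤ W → W ≤ V :=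
      fun W h1 h2 h3 => hV.2 ⟨h1, h2⟩ h3
    -- a coatom inside V
    have hclaim : ∃ U₀ : Subgroup G, U₀ ≤ V ∧ U₀ ≤ U ∧ IsCoatom (U₀.subgroupOf U) := by
      have hcoatom : ∀ c : Subgroup ↥U, IsCoatom c → IsCoatom ((c.map U.subtype).subgroupOf U) := by
        intro c hc
        have : (c.map U.subtype).subgroupOf U = c :=
          Subgroup.comap_map_eq_self_of_injective U.subtype_injective c
        rw [this]
        exact hc
      rcases eq_top_or_exists_le_coatom (V.subgroupOf U) with h | ⟨c, hc, hVc⟩
      · have hUV : U ≤ V := Subgroup.subgroupOf_eq_top.1 h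
        rcases eq_top_or_exists_le_coatom (⊥ : Subgroup ↥U) with h' | ⟨c, hc, -⟩
        · exfalso
          have h1 : Nat.card ↥U = 1 := by
            rw [← Subgroup.card_top (G := ↥U), ← h', Subgroup.card_bot]
          rw [h1] at hcard
          have h2 : 2 ≤ p := hp.two_le
          nlinarith
        · refine ⟨c.map U.subtype, ?_, Subgroup.map_subtype_le c, hcoatom c hc⟩
          exact (Subgroup.map_subtype_le c).trans hUV
      · by_cases hVeq : V.subgroupOf U = c
        · exact ⟨V, le_rfl, hVU, hVeq ▸ hc⟩
        · exfalso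
          have hlt : V.subgroupOf U < c := lt_of_le_of_ne hVc hVeq
          obtain ⟨x, hxc, hxV⟩ := SetLike.exists_of_lt hlt
          obtain ⟨y, hy⟩ := SetLike.exists_not_mem_of_ne_top c hc.1 rfl
          have hxV' : (x : G) ∉ V := hxV
          -- the group A
          let W : Subgroup G := c.map U.subtype
          have hVW : V ≤ W := by
            intro v hv
            exact ⟨⟨v, hVU hv⟩, hVc hv, rfl⟩
          have hxW : (x : G) ∈ W := ⟨x, hxc, rfl⟩
          have hyW : (y : G) ∉ W := by
            rintro ⟨y', hy', hyy⟩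
            have : y' = y := Subtype.ext hyy
            exact hy (this ▸ hy')
          let A : Subgroup G := Subgroup.closure {(x : G), (y : G)}
          have hAU : A ≤ U := by
            rw [Subgroup.closure_le]
            rintro _ (rfl | rfl)
            · exact x.2
            · exact y.2
          have hAform : ∀ a ∈ A, ∃ i j : ℤ, a = (x : G) ^ i * (y : G) ^ j := by
            intro a ha
            induction ha using Subgroup.closure_induction with
            | mem a ha =>
              rcases ha with rfl | rfl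
              · exact ⟨1, 0, by simp⟩
              · exact ⟨0, 1, by simp⟩
            | one => exact ⟨0, 0, by simp⟩
            | mul a b _ _ ha hb =>
              obtain ⟨i, j, rfl⟩ := ha
              obtain ⟨i', j', rfl⟩ := hb
              refine ⟨i + i', j + j', ?_⟩
              have h1 : Commute ((y : G) ^ j) ((x : G) ^ i') :=
                (show Commute (y : G) x from hUc _ y.2 _ x.2).zpow_zpow j i'
              rw [zpow_add, zpow_add]
              calc (x : G) ^ i * (y : G) ^ j * ((x : G) ^ i' * (y : G) ^ j')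
                  = (x : G) ^ i * ((y : G) ^ j * (x : G) ^ i') * (y : G) ^ j' := by group
                _ = (x : G) ^ i * ((x : G) ^ i' * (y : G) ^ j) * (y : G) ^ j' := by rw [h1.eq]
                _ = _ := by group
            | inv a _ ha =>
              obtain ⟨i, j, rfl⟩ := ha
              refine ⟨-i, -j, ?_⟩
              have h1 : Commute ((y : G) ^ j) ((x : G) ^ i) :=
                (show Commute (y : G) x from hUc _ y.2 _ x.2).zpow_zpow j i
              rw [mul_inv_rev, zpow_neg, zpow_neg]
              exact (h1.inv_inv).eq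
          have hxp : (x : G) ^ p = 1 := hUexp _ x.2
          have hyp : (y : G) ^ p = 1 := hUexp _ y.2
          have hzero : ∀ {w : G} {i : ℤ}, w ^ p = 1 → (p : ℤ) ∣ i → w ^ i = 1 := by
            rintro w i hw ⟨c', rfl⟩
            rw [zpow_mul, zpow_natCast, hw, one_zpow]
          have hAV : ∀ a ∈ A, a ∈ V → a = 1 := by
            intro a ha haV
            obtain ⟨i, j, rfl⟩ := hAform a ha
            by_cases hj : (p : ℤ) ∣ j
            · rw [hzero hyp hj, mul_one] at haV ⊢
              by_cases hi : (p : ℤ) ∣ i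
              · exact hzero hxp hi
              · exact absurd (mem_of_zpow_mem hp hxp hi V haV) hxV'
            · exfalso
              apply hyW
              apply mem_of_zpow_mem hp hyp hj W
              have h1 : (y : G) ^ j = ((x : G) ^ i)⁻¹ * ((x : G) ^ i * (y : G) ^ j) := by group
              rw [h1]
              exact mul_mem (inv_mem (zpow_mem hxW i)) (hVW haV)
          haveI hAcomm : IsMulCommutative ↥A :=
            ⟨⟨fun a b => Subtype.ext (hUc _ (hAU a.2) _ (hAU b.2))⟩⟩
          have hAnc : ¬ IsCyclic ↥A := by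
            intro hcyc
            obtain ⟨g, hg⟩ := hcyc.exists_generator
            have hgp : (g : G) ^ p = 1 := hUexp _ (hAU g.2)
            have hxA : (x : G) ∈ A := Subgroup.subset_closure (Or.inl rfl)
            have hyA : (y : G) ∈ A := Subgroup.subset_closure (Or.inr rfl)
            obtain ⟨m, hm⟩ := Subgroup.mem_zpowers_iff.1 (hg ⟨x, hxA⟩)
            obtain ⟨n', hn'⟩ := Subgroup.mem_zpowers_iff.1 (hg ⟨y, hyA⟩)
            have hm' : (g : G) ^ m = x := congrArg Subtype.val hm
            have hn'' : (g : G) ^ n' = y := congrArg Subtype.val hn'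
            have hmd : ¬ (p : ℤ) ∣ m := by
              intro h
              have h1 := hzero hgp h
              rw [hm'] at h1
              apply hxV'
              rw [h1]
              exact one_mem _
            have hgx : (g : G) ∈ Subgroup.zpowers (x : G) := by
              apply mem_of_zpow_mem hp hgp hmd
              rw [hm']
              exact Subgroup.mem_zpowers _
            have hyx : (y : G) ∈ Subgroup.zpowers (x : G) := by
              rw [← hn'']
              exact zpow_mem hgx n'
            exact hyW ((Subgroup.zpowers_le.2 hxW) hyx)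
          obtain ⟨K, hK⟩ : ∃ K : Subgroup G, K = R ⊓ Subgroup.centralizer (V : Set G) := ⟨_, rfl⟩
          have hKconj : ∀ a ∈ U, ∀ h ∈ K, a * h * a⁻¹ ∈ K := by
            intro a ha h hh
            rw [hK] at hh ⊢
            refine Subgroup.mem_inf.2 ⟨?_, ?_⟩
            · exact (Subgroup.mem_normalizer_iff.1 (hGR (hUG ha)) _).1 hh.1
            · rw [Subgroup.mem_centralizer_iff]
              intro v hv
              have h1 := Subgroup.mem_centralizer_iff.1 hh.2 v hv
              have h2 := hUc a ha v (hVU hv)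
              have h3 : a⁻¹ * v = v * a⁻¹ := by
                have : Commute a v := h2
                exact this.inv_left.eq
              calc v * (a * h * a⁻¹) = (v * a) * h * a⁻¹ := by group
                _ = (a * v) * h * a⁻¹ := by rw [h2]
                _ = a * (v * h) * a⁻¹ := by group
                _ = a * (h * v) * a⁻¹ := by rw [h1]
                _ = a * h * (v * a⁻¹) := by group
                _ = a * h * (a⁻¹ * v) := by rw [h3]
                _ = _ := by group
          have hAN : A ≤ Subgroup.normalizer (K : Set G) := by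
            intro a ha
            rw [Subgroup.mem_normalizer_iff]
            intro h
            constructor
            · intro hh
              exact hKconj a (hAU ha) h hh
            · intro hh
              have h1 := hKconj a⁻¹ (inv_mem (hAU ha)) _ hh
              have h2 : a⁻¹ * (a * h * a⁻¹) * a⁻¹⁻¹ = h := by group
              rw [h2] at h1
              exact h1
          have hcop : (Nat.card ↥A).Coprime (Nat.card ↥K) := by
            obtain ⟨k, hk⟩ := IsPGroup.iff_card.1 (hUp.to_le hAU)
            rw [hk]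
            apply Nat.Coprime.pow_left
            have h1 : Nat.card ↥K ∣ Nat.card ↥R := by
              apply Subgroup.card_dvd_of_le
              rw [hK]
              exact inf_le_left
            exact (Nat.Coprime.coprime_dvd_left h1 hR).symm
          have hgen := Cfsg.Agent.Lib.CoprimeGen4.gen_eq A K hAnc hAN hcop
          have hKne : K ≠ ⊥ := by rw [hK]; exact hVne
          obtain ⟨a, haA, ha1, haK⟩ : ∃ a ∈ A, a ≠ 1 ∧ K ⊓ Subgroup.centralizer {a} ≠ ⊥ := by
            by_contra hcon
            push_neg at hcon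
            apply hKne
            rw [← hgen]
            unfold Cfsg.Agent.Lib.CoprimeGen4.gen
            rw [iSup₂_eq_bot]
            rintro a ⟨ha, ha1⟩
            exact hcon a ha ha1
          obtain ⟨w', hw'⟩ := Subgroup.ne_bot_iff_exists_ne_one.1 haK
          obtain ⟨w, hwK, hw1⟩ : ∃ w : G, w ∈ K ⊓ Subgroup.centralizer {a} ∧ w ≠ 1 :=
            ⟨w'.1, w'.2, fun h' => hw' (Subtype.ext h')⟩
          have hW : V ⊔ Subgroup.zpowers a ≤ U := sup_le hVU (Subgroup.zpowers_le.2 (hAU haA))
          have hle : V ≤ V ⊔ Subgroup.zpowers a := le_sup_left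
          have hane : R ⊓ Subgroup.centralizer ((V ⊔ Subgroup.zpowers a : Subgroup G) : Set G) ≠ ⊥ := by
            intro h
            apply hw1
            have hwR : w ∈ R := by
              have := hwK.1
              rw [hK] at this
              exact this.1
            have hwV : w ∈ Subgroup.centralizer (V : Set G) := by
              have := hwK.1
              rw [hK] at this
              exact this.2
            have hwa : w * a = a * w := by
              have h1 := Subgroup.mem_centralizer_iff.1 hwK.2 a rfl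
              exact h1.symm
            have hsup : V ⊔ Subgroup.zpowers a ≤ Subgroup.centralizer {w} := by
              refine sup_le ?_ (Subgroup.zpowers_le.2 ?_)
              · intro v hv
                rw [Subgroup.mem_centralizer_singleton_iff]
                exact (Subgroup.mem_centralizer_iff.1 hwV v hv)
              · rw [Subgroup.mem_centralizer_singleton_iff]
                exact hwa.symm
            have hwmem : w ∈ R ⊓ Subgroup.centralizer ((V ⊔ Subgroup.zpowers a : Subgroup G) : Set G) := by
              refine Subgroup.mem_inf.2 ⟨hwR, ?_⟩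
              rw [Subgroup.mem_centralizer_iff]
              intro h' hh'
              exact Subgroup.mem_centralizer_singleton_iff.1 (hsup hh')
            rw [h] at hwmem
            exact hwmem
          have h1 := hVmax _ hW hane hle
          have h2 : a ∈ V := h1 (Subgroup.mem_sup_right (Subgroup.mem_zpowers a))
          exact ha1 (hAV a haA h2)
    obtain ⟨U₀, hU₀V, hU₀U, hcoat'⟩ := hclaim
    obtain ⟨x, hxU₀, hx1, g, hg, hz⟩ := hcoat U₀ hU₀U hcoat'
    apply hVne
    rw [eq_bot_iff]
    rintro y ⟨hyR, hyC⟩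
    rw [Subgroup.mem_bot]
    exact key Q hQp hlarge G₁ hQG R hR hGR hg hx1 hz hyR
      (Subgroup.mem_centralizer_iff.1 hyC x (hU₀V hxU₀))

end Cfsg.Agent.S3003
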