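import Mathlib
import Cfsg.Statements.S3012
-- import your own Cfsg.Agent.* helpers here

set_option autoImplicit false
open Cfsg

namespace Cfsg.Agent.S3012

/-- Let G be a finite group, V a nontrivial elementary abelian 2-subgroup of G satisfying the Sidki pair condition (every odd-order element inverted by an element of V commutes with a nontrivial element of V), and K a normal subgroup of G with V ∩ K = 1. Then the image of V in G/K satisfies the Sidki pair condition in G/K. -/
theorem result {G : Type*} [Group G] [Finite G] (V K : Subgroup G) [K.Normal] (hV : Cfsg.IsElementaryAbelian 2 V) (hV1 : V ≠ ⊥) (hS : Cfsg.IsSidkiPair V) (hVK : V ⊓ K = ⊥) : Cfsg.IsSidkiPair (V.map (QuotientGroup.mk' K)) := by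
  classical
  intro hq vq hvq hodd hinv
  obtain ⟨v, hv, rfl⟩ := hvq
  obtain ⟨h₀, rfl⟩ := QuotientGroup.mk_surjective hq
  have hv2 : v * v = 1 := by
    have := hV.2 v hv
    rwa [pow_two] at this
  have hvinv : v⁻¹ = v := inv_eq_of_mul_eq_one_left hv2
  set u : G := v * h₀⁻¹ * v * h₀ with hu
  have huinv : v * u * v⁻¹ = u⁻¹ := by
    rw [hvinv, hu]
    simp only [mul_inv_rev, hvinv, inv_inv]
    calc v * (v * h₀⁻¹ * v * h₀) * v = (v * v) * h₀⁻¹ * v * h₀ * v := by group
      _ = h₀⁻¹ * v * h₀ * v := by rw [hv2]; group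
      _ = _ := by simp [mul_assoc]
  obtain ⟨a, m, hm, hom⟩ := Nat.exists_eq_pow_mul_and_not_dvd (orderOf_pos u).ne' 2 (by norm_num)
  set u' : G := u ^ (2 ^ a) with hu'
  have hou' : orderOf u' = m := by
    rw [hu', orderOf_pow_of_dvd (by positivity) ⟨m, hom⟩, hom]
    exact Nat.mul_div_cancel_left m (by positivity)
  have hoddu' : Odd (orderOf u') := by
    rw [hou']
    exact Nat.odd_iff.2 (by omega)
  have huinv' : v * u' * v⁻¹ = u'⁻¹ := by
    rw [hu', ← conj_pow, huinv, inv_pow]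
  obtain ⟨w, hw, hw1, hwc⟩ := hS u' v hv hoddu' huinv'
  refine ⟨QuotientGroup.mk' K w, ⟨w, hw, rfl⟩, ?_, ?_⟩
  · intro h
    apply hw1
    have h1 : w ∈ K := (QuotientGroup.eq_one_iff w).1 h
    have h2 : w ∈ V ⊓ K := ⟨hw, h1⟩
    rw [hVK] at h2
    simpa using h2
  · -- relate `u'` to `h₀`
    set hq : G ⧸ K := QuotientGroup.mk h₀ with hhq
    set vq : G ⧸ K := QuotientGroup.mk' K v with hvq
    set wq : G ⧸ K := QuotientGroup.mk' K w with hwq
    have hinv' : vq * hq * vq⁻¹ = hq⁻¹ := hinv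
    have hvq2 : vq⁻¹ = vq := by
      rw [hvq, ← map_inv, hvinv]
    have hmku : QuotientGroup.mk' K u = hq ^ 2 := by
      rw [hu]
      simp only [map_mul, map_inv]
      show vq * hq⁻¹ * vq * hq = hq ^ 2
      have h3 : vq * hq⁻¹ * vq = hq := by
        have h4 : vq * hq⁻¹ * vq⁻¹ = (vq * hq * vq⁻¹)⁻¹ := by group
        rw [hinv'] at h4
        rw [hvq2] at h4
        simpa using h4
      rw [h3, pow_two]
    have hmku' : QuotientGroup.mk' K u' = hq ^ (2 * 2 ^ a) := by
      rw [hu', map_pow, hmku, ← pow_mul]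
    have hcomm : wq * hq ^ (2 * 2 ^ a) = hq ^ (2 * 2 ^ a) * wq := by
      rw [← hmku', hwq, ← map_mul, ← map_mul, hwc]
    have hco : (2 * 2 ^ a).Coprime (orderOf hq) := by
      have h5 : Nat.Coprime 2 (orderOf hq) := Nat.coprime_two_left.2 hodd
      have : 2 * 2 ^ a = 2 ^ (a + 1) := by ring
      rw [this]
      exact Nat.Coprime.pow_left _ h5
    obtain ⟨e, he⟩ := exists_pow_eq_self_of_coprime hco
    have hc : Commute wq (hq ^ (2 * 2 ^ a)) := hcomm
    have hc2 : Commute wq ((hq ^ (2 * 2 ^ a)) ^ e) := hc.pow_right e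
    rw [he] at hc2
    exact hc2

end Cfsg.Agent.S3012
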