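import Mathlib
import Cfsg.Statements.S3013
-- import your own Cfsg.Agent.* helpers here

set_option autoImplicit false
open Cfsg

namespace Cfsg.Agent.S3013

/-- Let G be a finite group and V a nontrivial elementary abelian 2-subgroup of G satisfying the Sidki pair condition. Let v ∈ V and let x be an element of odd order inverted by v, and put C = C_G(v) ∩ C_G(x), the centralizer of the dihedral subgroup generated by v and x. Then C ∩ V is nontrivial and satisfies the Sidki pair condition inside C: every odd-order element of C inverted by an element of C ∩ V commutes with a nontrivial element of C ∩ V. -/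
theorem result {G : Type*} [Group G] [Finite G] (V : Subgroup G) (hV : Cfsg.IsElementaryAbelian 2 V) (hV1 : V ≠ ⊥) (hS : Cfsg.IsSidkiPair V) (v x : G) (hv : v ∈ V) (hx : Odd (orderOf x)) (hinv : v * x * v⁻¹ = x⁻¹) (C : Subgroup G) (hC : C = Subgroup.centralizer ({v} : Set G) ⊓ Subgroup.centralizer ({x} : Set G)) : C ⊓ V ≠ ⊥ ∧ Cfsg.IsSidkiPair ((C ⊓ V).subgroupOf C) := by
  classical
  subst hC
  set C : Subgroup G := Subgroup.centralizer ({v} : Set G) ⊓ Subgroup.centralizer ({x} : Set G) with hC
  have hVcomm : ∀ a ∈ V, ∀ b ∈ V, a * b = b * a := by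
    intro a ha b hb
    exact congrArg Subtype.val (hV.1.is_comm.comm ⟨a, ha⟩ ⟨b, hb⟩)
  have hoddpow2 : ∀ (y w : G), Odd (orderOf y) → w * y ^ 2 = y ^ 2 * w → w * y = y * w := by
    intro y w hy hc
    have hco : Nat.Coprime 2 (orderOf y) := Nat.coprime_two_left.2 hy
    obtain ⟨e, he⟩ := exists_pow_eq_self_of_coprime hco
    have hc1 : Commute w (y ^ 2) := hc
    have hc2 := hc1.pow_right e
    rw [he] at hc2
    exact hc2
  constructor
  · obtain ⟨w, hw, hw1, hwc⟩ := hS x v hv hx hinv
    intro hbot
    have : w ∈ C ⊓ V := by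
      refine ⟨Subgroup.mem_inf.2 ⟨?_, ?_⟩, hw⟩
      · rw [Subgroup.mem_centralizer_singleton_iff]
        exact hVcomm w hw v hv
      · rw [Subgroup.mem_centralizer_singleton_iff]
        exact hwc
    rw [hbot] at this
    exact hw1 (by simpa using this)
  · intro h u hu hodd huh
    have huC : (u : G) ∈ C := u.2
    have huV : (u : G) ∈ V := (Subgroup.mem_inf.1 hu).2
    have hoddh : Odd (orderOf (h : G)) := by rwa [Subgroup.orderOf_coe]
    have hinvh : (u : G) * h * (u : G)⁻¹ = (h : G)⁻¹ := by
      have := congrArg Subtype.val huh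
      simpa using this
    have hhv : (h : G) * v = v * h := Subgroup.mem_centralizer_singleton_iff.1 (Subgroup.mem_inf.1 h.2).1
    have hhx : (h : G) * x = x * h := Subgroup.mem_centralizer_singleton_iff.1 (Subgroup.mem_inf.1 h.2).2
    have hux : (u : G) * x = x * u := Subgroup.mem_centralizer_singleton_iff.1 (Subgroup.mem_inf.1 huC).2
    set hh : G := (h : G) with hhh
    set uu : G := (u : G) with huu
    set y : G := x * hh with hy
    have hcomxh : Commute x hh := hhx.symm
    have hoddy : Odd (orderOf y) := by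
      have h1 : y ^ (orderOf x * orderOf hh) = 1 := by
        rw [hy, hcomxh.mul_pow, pow_mul, pow_orderOf_eq_one, one_pow, mul_comm, pow_mul, pow_orderOf_eq_one, one_pow, one_mul]
      have h2 : orderOf y ∣ orderOf x * orderOf hh := orderOf_dvd_of_pow_eq_one h1
      exact Odd.of_dvd_nat (hx.mul hoddh) h2
    have hv'V : uu * v ∈ V := V.mul_mem huV hv
    have hyinv : (uu * v) * y * (uu * v)⁻¹ = y⁻¹ := by
      have e1 : (uu * v) * x * (uu * v)⁻¹ = x⁻¹ := by
        calc (uu * v) * x * (uu * v)⁻¹ = uu * (v * x * v⁻¹) * uu⁻¹ := by group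
          _ = uu * x⁻¹ * uu⁻¹ := by rw [hinv]
          _ = x⁻¹ := by
            have : Commute uu x⁻¹ := (show Commute uu x from hux).inv_right
            rw [this.eq]; group
      have e2 : (uu * v) * hh * (uu * v)⁻¹ = hh⁻¹ := by
        calc (uu * v) * hh * (uu * v)⁻¹ = uu * (v * hh * v⁻¹) * uu⁻¹ := by group
          _ = uu * hh * uu⁻¹ := by rw [← hhv]; group
          _ = hh⁻¹ := hinvh
      have e3 : (uu * v) * y * (uu * v)⁻¹ = ((uu * v) * x * (uu * v)⁻¹) * ((uu * v) * hh * (uu * v)⁻¹) := by
        rw [hy]; group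
      rw [e3, e1, e2, hy, mul_inv_rev, hcomxh.inv_inv.eq]
    obtain ⟨w, hw, hw1, hwc⟩ := hS y (uu * v) hv'V hoddy hyinv
    have hwv : w * v = v * w := hVcomm w hw v hv
    -- `w` commutes with `v y v⁻¹ = x⁻¹ hh`
    have hcv : Commute w (x⁻¹ * hh) := by
      have e : x⁻¹ * hh = v * y * v⁻¹ := by
        rw [hy]
        calc x⁻¹ * hh = (v * x * v⁻¹) * hh := by rw [hinv]
          _ = v * x * (hh * v⁻¹) * 1 := by
            have : hh * v⁻¹ = v⁻¹ * hh := (show Commute hh v from hhv).inv_right.eq
            rw [this]; group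
          _ = v * (x * hh) * v⁻¹ := by group
      rw [e]
      have c1 : Commute w v := hwv
      have c2 : Commute w y := hwc
      exact (c1.mul_right c2).mul_right c1.inv_right
    have hcy : Commute w y := hwc
    have h2 : Commute w (hh ^ 2) := by
      have e : hh ^ 2 = y * (x⁻¹ * hh) := by
        rw [hy, pow_two]
        simp [mul_assoc, hcomxh.eq]
      rw [e]
      exact hcy.mul_right hcv
    have h3 : Commute w (x ^ 2) := by
      have e : x ^ 2 = y * (x⁻¹ * hh)⁻¹ := by
        rw [hy, pow_two]
        simp [mul_assoc]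
      rw [e]
      exact hcy.mul_right hcv.inv_right
    have hwh : w * hh = hh * w := hoddpow2 hh w hoddh h2
    have hwx : w * x = x * w := hoddpow2 x w hx h3
    have hwC : w ∈ C := by
      refine Subgroup.mem_inf.2 ⟨?_, ?_⟩
      · rw [Subgroup.mem_centralizer_singleton_iff]; exact hwv
      · rw [Subgroup.mem_centralizer_singleton_iff]; exact hwx
    refine ⟨⟨w, hwC⟩, ?_, ?_, ?_⟩
    · exact Subgroup.mem_inf.2 ⟨hwC, hw⟩
    · intro he
      exact hw1 (congrArg Subtype.val he)
    · apply Subtype.ext
      exact hwh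

end Cfsg.Agent.S3013
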