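import Mathlib
import Cfsg.Agent.Lib.H5Basic
import Cfsg.Agent.Lib.FitCore
import Cfsg.Statements.S3020
-- import your own Cfsg.Agent.* helpers here

set_option autoImplicit false
open Cfsg

namespace Cfsg.Agent.S3020

/-- Let G be a finite group, p a prime and H an abelian p-subgroup of G that is extremely closed (for every g, the subgroup generated by H and g H g⁻¹ meets N_G(H) exactly in H). Then for every g ∈ G, the subgroup T generated by H and g H g⁻¹ is the product of H with O_{p'}(T), and H meets O_{p'}(T) trivially; that is, O_{p'}(T) is a normal p-complement of H in T. -/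
theorem result {G : Type*} [Group G] [Finite G] {p : ℕ} [Fact p.Prime] (H : Subgroup G) (hHp : IsPGroup p H) (hHab : IsMulCommutative H) (hcl : Cfsg.IsExtremelyClosed H) (g : G) (T : Subgroup G) (hT : T = H ⊔ H.map (MulAut.conj g).toMonoidHom) : H ⊔ (Cfsg.pPrimeCore p ↥T).map T.subtype = T ∧ H ⊓ (Cfsg.pPrimeCore p ↥T).map T.subtype = ⊥ := by
  classical
  subst hT
  set T : Subgroup G := H ⊔ H.map (MulAut.conj g).toMonoidHom with hT
  have hHT : H ≤ T := le_sup_left
  set H₀ : Subgroup T := H.subgroupOf T with hH₀
  have hH₀p : IsPGroup p H₀ := hHp.comap_of_injective T.subtype T.subtype_injective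
  obtain ⟨P, hP⟩ := hH₀p.exists_le_sylow
  -- `H₀` is Sylow in `T`
  have hH₀P : H₀ = P := by
    by_contra hne
    -- transport to `G`
    have hPG : IsPGroup p ((P : Subgroup T).map T.subtype) := P.isPGroup'.map _
    have hle : H ≤ (P : Subgroup T).map T.subtype := by
      intro a ha
      exact ⟨⟨a, hHT ha⟩, hP ha, rfl⟩
    have hne' : H ≠ (P : Subgroup T).map T.subtype := by
      intro h
      apply hne
      apply le_antisymm hP
      intro a ha
      have : (a : G) ∈ H := by
        rw [h]; exact ⟨a, ha, rfl⟩
      exact this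
    obtain ⟨x, hx, hxH, hxN⟩ := Cfsg.Agent.Lib.H5Basic.exists_mem_normalizer_of_lt hPG hle hne'
    apply hxH
    have h1 := hcl g
    rw [← h1]
    obtain ⟨y, -, rfl⟩ := hx
    exact ⟨y.2, hxN⟩
  -- normalizer equals `H₀`
  have hNC : Subgroup.normalizer ((P : Subgroup T) : Set T) ≤ Subgroup.centralizer ((P : Subgroup T) : Set T) := by
    intro x hx
    have hxH : (x : T) ∈ H₀ := by
      have h1 := hcl g
      have : (x : G) ∈ T ⊓ Subgroup.normalizer (H : Set G) := by
        refine ⟨x.2, ?_⟩
        show (x : G) ∈ Subgroup.normalizer (H : Set G)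
        rw [Subgroup.mem_normalizer_iff] at hx ⊢
        rw [← hH₀P] at hx
        intro a
        constructor
        · intro ha
          exact (hx ⟨a, hHT ha⟩).1 ha
        · intro ha
          have hxa : (x : G) * a * (x : G)⁻¹ ∈ T := hHT ha
          have haT : a ∈ T := by
            have := T.mul_mem (T.mul_mem (T.inv_mem x.2) hxa) x.2
            simpa [mul_assoc] using this
          exact (hx ⟨a, haT⟩).2 ha
      rw [h1] at this
      exact this
    rw [Subgroup.mem_centralizer_iff]
    intro y hy
    rw [← hH₀P] at hy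
    apply Subtype.ext
    have hab := hHab.is_comm.comm (⟨y, hy⟩ : H) ⟨x, hxH⟩
    show (y : G) * (x : G) = (x : G) * (y : G)
    exact congrArg Subtype.val hab
  have hcompl := MonoidHom.ker_transferSylow_isComplement' P hNC
  set K : Subgroup T := (MonoidHom.transferSylow P hNC).ker with hK
  have hKn : K.Normal := inferInstance
  have hcardK : (Nat.card K).Coprime p := by
    have h1 : Nat.card K * Nat.card (P : Subgroup T) = Nat.card T := hcompl.card_mul_card
    have h2 : ¬ p ∣ (P : Subgroup T).index := P.not_dvd_index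
    have h3 : Nat.card (P : Subgroup T) * (P : Subgroup T).index = Nat.card T := Subgroup.card_mul_index _
    have h4 : Nat.card K = (P : Subgroup T).index := by
      have h5 : Nat.card K * Nat.card (P : Subgroup T) = (P : Subgroup T).index * Nat.card (P : Subgroup T) := by
        rw [h1, ← h3, mul_comm]
      exact Nat.eq_of_mul_eq_mul_right Nat.card_pos h5
    rw [h4, Nat.coprime_comm]
    exact ((Fact.out : p.Prime).coprime_iff_not_dvd).2 h2
  have hKle : K ≤ Cfsg.pPrimeCore p T := le_sSup ⟨hKn, hcardK⟩
  constructor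
  · apply le_antisymm
    · apply sup_le hHT
      rintro _ ⟨x, -, rfl⟩
      exact x.2
    · -- every element of `T` is `k * h`
      intro t ht
      have hsup : K ⊔ (P : Subgroup T) = ⊤ := hcompl.sup_eq_top
      have h1 : (⟨t, ht⟩ : T) ∈ K ⊔ (P : Subgroup T) := by rw [hsup]; trivial
      rw [Subgroup.mem_sup_of_normal_left] at h1
      obtain ⟨k, hk, u, hu, huk⟩ := h1
      have h2 : t = (k : G) * (u : G) := by
        have := congrArg Subtype.val huk
        simpa using this.symm
      rw [h2, sup_comm]
      refine Subgroup.mul_mem_sup ⟨k, hKle hk, rfl⟩ ?_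
      rw [← hH₀P] at hu
      exact hu
  · rw [eq_bot_iff]
    rintro x ⟨hx1, y, hy, rfl⟩
    rw [Subgroup.mem_bot]
    have hp' : p.Prime := Fact.out
    have hnd := Cfsg.Agent.Lib.FitCore.not_dvd_card_pPrimeCore (G := T) p hp'
    have hord1 : orderOf (y : T) ∣ Nat.card (Cfsg.pPrimeCore p T) := by
      have := orderOf_dvd_natCard (⟨y, hy⟩ : Cfsg.pPrimeCore p T)
      rwa [Subgroup.orderOf_mk] at this
    obtain ⟨k, hk⟩ := (IsPGroup.iff_orderOf.1 hHp) ⟨(y : G), hx1⟩
    have hord2 : orderOf (y : T) = orderOf (y : G) := (Subgroup.orderOf_coe y).symm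
    have hord3 : orderOf (y : G) = p ^ k := by
      rw [← hk]; exact (Subgroup.orderOf_mk (y : G) hx1).symm
    rw [hord2, hord3] at hord1
    have hk0 : k = 0 := by
      by_contra hne
      exact hnd ((dvd_pow_self p hne).trans hord1)
    rw [hk0, pow_zero, orderOf_eq_one_iff] at hord3
    simpa using hord3

end Cfsg.Agent.S3020
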