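import Mathlib
import Cfsg.Agent.Lib.H5Basic
import Cfsg.Statements.S3021
-- import your own Cfsg.Agent.* helpers here

set_option autoImplicit false
open Cfsg

namespace Cfsg.Agent.S3021

/-- Let G be a finite group, p a prime and H a p-subgroup of G that is extremely closed (for every g, the subgroup generated by H and g H g⁻¹ meets N_G(H) exactly in H). Then every p-subgroup Q of G containing H has N_G(Q) ≤ N_G(H); in particular every Sylow p-subgroup P of G containing H normalizes H, and H is strongly closed in P with respect to G. -/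
theorem result {G : Type*} [Group G] [Finite G] {p : ℕ} [Fact p.Prime] (H : Subgroup G) (hHp : IsPGroup p H) (hcl : Cfsg.IsExtremelyClosed H) : (∀ Q : Subgroup G, IsPGroup p Q → H ≤ Q → Subgroup.normalizer (Q : Set G) ≤ Subgroup.normalizer (H : Set G)) ∧ ∀ P : Sylow p G, H ≤ (P : Subgroup G) → (P : Subgroup G) ≤ Subgroup.normalizer (H : Set G) ∧ Cfsg.IsStronglyClosed H (P : Subgroup G) := by
  classical
  have hnorm : ∀ Q : Subgroup G, IsPGroup p Q → H ≤ Q → Subgroup.normalizer (Q : Set G) ≤ Subgroup.normalizer (H : Set G) := by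
    intro Q hQ hHQ g hg
    apply Cfsg.Agent.Lib.H5Basic.mem_normalizer_of_map_conj_le
    set H' := H.map (MulAut.conj g).toMonoidHom with hH'
    have hH'Q : H' ≤ Q := by
      rintro _ ⟨a, ha, rfl⟩
      exact (Subgroup.mem_normalizer_iff.1 hg a).1 (hHQ ha)
    have hJQ : H ⊔ H' ≤ Q := sup_le hHQ hH'Q
    have hJp : IsPGroup p ↥(H ⊔ H') := hQ.to_le hJQ
    by_contra hcon
    have hne : H ≠ H ⊔ H' := by
      intro h
      apply hcon
      rw [h]
      exact le_sup_right
    obtain ⟨x, hxJ, hxH, hxN⟩ := Cfsg.Agent.Lib.H5Basic.exists_mem_normalizer_of_lt hJp le_sup_left hne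
    apply hxH
    have := hcl g
    rw [← this]
    exact ⟨hxJ, hxN⟩
  refine ⟨hnorm, ?_⟩
  intro P hHP
  have hPN : (P : Subgroup G) ≤ Subgroup.normalizer (H : Set G) :=
    (Subgroup.le_normalizer).trans (hnorm P P.isPGroup' hHP)
  refine ⟨hPN, hHP, ?_⟩
  intro x hx g hg
  have h1 := hcl g
  rw [← h1]
  refine ⟨?_, hPN hg⟩
  exact Subgroup.mem_sup_right ⟨x, hx, by simp [MulAut.conj_apply]⟩

end Cfsg.Agent.S3021
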