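import Cfsg.Statements.S3023
import Mathlib
import Cfsg.Agent.Lib.CharPOver
import Cfsg.Agent.Lib.CharP
import Cfsg.Agent.Lib.FitCore
import Cfsg.Agent.Lib.PCore

set_option autoImplicit false
open Cfsg

namespace Cfsg.Agent.S3023

open Subgroup Cfsg Cfsg.Agent.Lib Cfsg.Agent.Lib.CharPOver

theorem relIndex_subnormal' {G : Type*} [Group G] [Finite G] {p : ℕ} [Fact p.Prime] (P : Sylow p G)
    {K : Subgroup G} (hK : K.IsSubnormal) : ¬ p ∣ (P : Subgroup G).relIndex K := by
  induction hK with
  | top =>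
    rw [Subgroup.relIndex_top_right]
    exact P.not_dvd_index
  | step A B hle _ hN ih =>
    intro hdvd
    apply ih
    have h1 := FitCore.relIndex_dvd_index_of_normal_right (((P : Subgroup G) ⊓ B).subgroupOf B) (A.subgroupOf B)
    have h2 : (((P : Subgroup G) ⊓ B).subgroupOf B).relIndex (A.subgroupOf B) = (P : Subgroup G).relIndex A := by
      have h4 := Subgroup.relIndex_subgroupOf (H := ((P : Subgroup G) ⊓ B)) hle
      rw [h4]
      have h5 : ((P : Subgroup G) ⊓ B).relIndex A = (((P : Subgroup G) ⊓ B) ⊓ A).relIndex A :=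
        (Subgroup.inf_relIndex_right _ _).symm
      have h6 : ((P : Subgroup G) ⊓ B) ⊓ A = (P : Subgroup G) ⊓ A := by
        rw [inf_assoc, inf_eq_right.2 hle]
      rw [h5, h6, Subgroup.inf_relIndex_right]
    have h3 : (((P : Subgroup G) ⊓ B).subgroupOf B).index = (P : Subgroup G).relIndex B :=
      Subgroup.inf_relIndex_right _ _
    rw [h2, h3] at h1
    exact hdvd.trans h1

/-- Let p be a prime, G a finite group of parabolic characteristic p (every p-local subgroup containing a Sylow p-subgroup of G has characteristic p), S a Sylow p-subgroup of G and G₁ a subnormal subgroup of G. If the centre of S ∩ G₁ is nontrivial and contained in the centre of S, then G₁ has parabolic characteristic p. -/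
theorem result {G : Type*} [Group G] [Finite G] {p : ℕ} [Fact p.Prime] (hG : Cfsg.IsOfParabolicCharacteristic p G) (S : Sylow p G) (G₁ : Subgroup G) (hsn : G₁.IsSubnormal) (hne : ((S : Subgroup G) ⊓ G₁) ⊓ Subgroup.centralizer (((S : Subgroup G) ⊓ G₁ : Subgroup G) : Set G) ≠ ⊥) (hle : ((S : Subgroup G) ⊓ G₁) ⊓ Subgroup.centralizer (((S : Subgroup G) ⊓ G₁ : Subgroup G) : Set G) ≤ (S : Subgroup G) ⊓ Subgroup.centralizer ((S : Subgroup G) : Set G)) : Cfsg.IsOfParabolicCharacteristic p ↥G₁ := by
  have hrel := relIndex_subnormal' S hsn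
  obtain ⟨S₁, hS₁⟩ : ∃ R : Sylow p G₁, (R : Subgroup G₁) = ((S : Subgroup G) ⊓ G₁).subgroupOf G₁ := by
    have hp' : IsPGroup p (((S : Subgroup G) ⊓ G₁).subgroupOf G₁) := by
      have h1 : IsPGroup p ((S : Subgroup G) ⊓ G₁ : Subgroup G) := S.isPGroup'.to_le inf_le_left
      exact h1.of_equiv (Subgroup.subgroupOfEquivOfLe inf_le_right).symm
    have hidx : ¬ p ∣ (((S : Subgroup G) ⊓ G₁).subgroupOf G₁).index := by
      have h1 : (((S : Subgroup G) ⊓ G₁).subgroupOf G₁).index = (S : Subgroup G).relIndex G₁ :=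
        Subgroup.inf_relIndex_right _ _
      rw [h1]
      exact hrel
    exact ⟨hp'.toSylow hidx, rfl⟩
  rw [parabolic_iff S₁]
  intro z hz1 hz
  rw [hS₁] at hz
  obtain ⟨hzS, hzc, hzp⟩ := omega_mem hz
  have hzS' : (z : G) ∈ (S : Subgroup G) ⊓ G₁ := hzS
  have hz1' : (z : G) ≠ 1 := fun h => hz1 (Subtype.ext h)
  have hzc' : ∀ a ∈ (S : Subgroup G) ⊓ G₁, a * (z : G) = z * a := by
    intro a ha
    have := hzc ⟨a, ha.2⟩ (by exact ha)
    exact congrArg Subtype.val this
  have hzp' : (z : G) ^ p = 1 := by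
    have := congrArg Subtype.val hzp
    simpa using this
  have hzcen : (z : G) ∈ ((S : Subgroup G) ⊓ G₁) ⊓ centralizer (((S : Subgroup G) ⊓ G₁ : Subgroup G) : Set G) :=
    ⟨hzS', Subgroup.mem_centralizer_iff.2 (fun a ha => hzc' a ha)⟩
  have hz3 := hle hzcen
  have hz2 : (z : G) ∈ omegaOne p ((S : Subgroup G) ⊓ centralizer ((S : Subgroup G) : Set G)) :=
    mem_omega hz3.1 (fun a ha => Subgroup.mem_centralizer_iff.1 hz3.2 a ha) hzp'
  have h3 := (parabolic_iff S).1 hG (z : G) hz1' hz2
  set Y := Subgroup.centralizer ({(z : G)} : Set G) with hY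
  have h4 : CharIn p (G₁ ⊓ Y) := by
    have h5 : ((G₁.subgroupOf Y)).IsSubnormal := by
      have := hsn.comap Y.subtype
      exact this
    have h6 := CharP.char_of_subnormal h3 h5
    have h7 : G₁.subgroupOf Y = (G₁ ⊓ Y).subgroupOf Y := by
      ext y
      simp [Subgroup.mem_subgroupOf]
    rw [h7] at h6
    exact PCore.centralizer_pCore_le_of_equiv (Subgroup.subgroupOfEquivOfLe inf_le_right) h6
  let e : Subgroup.centralizer ({z} : Set G₁) ≃* (G₁ ⊓ Y : Subgroup G) :=
    { toFun := fun c => ⟨c.1.1, c.1.2, Subgroup.mem_centralizer_singleton_iff.2 (congrArg Subtype.val (Subgroup.mem_centralizer_singleton_iff.1 c.2))⟩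
      invFun := fun c => ⟨⟨c.1, c.2.1⟩, by
        rw [Subgroup.mem_centralizer_singleton_iff]
        apply Subtype.ext
        exact Subgroup.mem_centralizer_singleton_iff.1 c.2.2⟩
      left_inv := fun c => rfl
      right_inv := fun c => rfl
      map_mul' := fun a b => rfl }
  exact PCore.centralizer_pCore_le_of_equiv e.symm h4

end Cfsg.Agent.S3023
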