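import Mathlib
import Cfsg.Agent.Lib.UniqueSub
import Cfsg.Statements.S3025
-- import your own Cfsg.Agent.* helpers here

set_option autoImplicit false
open Cfsg

namespace Cfsg.Agent.S3025

/-- Let F be a finite group and H a nontrivial subgroup of F that is contained in every nontrivial subgroup of F which H normalizes. Then F has a nontrivial normal subgroup N contained in every nontrivial normal subgroup of F (a unique minimal normal subgroup), N is simple, and one of the following holds: C_F(N) = 1; or H = N has prime order p, C_F(N) is cyclic of order a power of p, and F/C_F(N) is cyclic of order dividing p − 1; or H = N has order 2, N is central in F, and F is a generalized quaternion group. -/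
theorem result {F : Type*} [Group F] [Finite F] (H : Subgroup F) (hH : H ≠ ⊥)
    (hmin : ∀ R : Subgroup F, R ≠ ⊥ → H ≤ Subgroup.normalizer (R : Set F) → H ≤ R) :
    ∃ N : Subgroup F, N.Normal ∧ N ≠ ⊥ ∧ (∀ M : Subgroup F, M.Normal → M ≠ ⊥ → N ≤ M) ∧ IsSimpleGroup ↥N ∧
      (Subgroup.centralizer (N : Set F) = ⊥ ∨
       (H = N ∧ (Nat.card N).Prime ∧ IsCyclic ↥(Subgroup.centralizer (N : Set F)) ∧
          (∃ k : ℕ, 1 ≤ k ∧ Nat.card ↥(Subgroup.centralizer (N : Set F)) = Nat.card N ^ k) ∧
          (∃ g : F, Subgroup.centralizer (N : Set F) ⊔ Subgroup.zpowers g = ⊤) ∧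
          (Subgroup.centralizer (N : Set F)).index ∣ Nat.card N - 1) ∨
       (H = N ∧ Nat.card N = 2 ∧ Subgroup.centralizer (N : Set F) = ⊤ ∧
          ∃ k : ℕ, 1 ≤ k ∧ Nonempty (F ≃* QuaternionGroup (2 ^ k)))) := by
  classical
  let S : Set (Subgroup F) := {M | M.Normal ∧ M ≠ ⊥}
  have htopne : (⊤ : Subgroup F) ≠ ⊥ := by
    intro h
    exact hH (le_bot_iff.1 (h ▸ le_top))
  have hSne : S.Nonempty := ⟨⊤, inferInstance, htopne⟩
  obtain ⟨N, hNmin⟩ := (Set.toFinite S).exists_minimal hSne
  haveI hNn : N.Normal := hNmin.prop.1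
  have hNne : N ≠ ⊥ := hNmin.prop.2
  have hHle : ∀ M : Subgroup F, M.Normal → M ≠ ⊥ → H ≤ M := fun M hM hMb =>
    hmin M hMb (by rw [Subgroup.normalizer_eq_top_iff.2 hM]; exact le_top)
  have hNle : ∀ M : Subgroup F, M.Normal → M ≠ ⊥ → N ≤ M := by
    intro M hM hMb
    have h1 : (N ⊓ M).Normal := inferInstance
    have h2 : N ⊓ M ≠ ⊥ := by
      intro h
      have := le_inf (hHle N hNn hNne) (hHle M hM hMb)
      rw [h] at this
      exact hH (le_bot_iff.1 this)
    have := hNmin.2 ⟨h1, h2⟩ inf_le_left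
    exact this.trans inf_le_right
  have hHN : H ≤ N := hHle N hNn hNne
  have hsimple : IsSimpleGroup N := by
    haveI : Nontrivial N := (Subgroup.nontrivial_iff_ne_bot N).2 hNne
    refine ⟨fun U hU => ?_⟩
    by_cases hUb : U = ⊥
    · exact Or.inl hUb
    right
    let T : Subgroup F := U.map N.subtype
    have hTne : T ≠ ⊥ := by
      intro h
      apply hUb
      exact (Subgroup.map_eq_bot_iff_of_injective U N.subtype_injective).1 h
    have hnorm : ∀ x ∈ N, ∀ t ∈ T, x * t * x⁻¹ ∈ T := by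
      rintro x hx _ ⟨u, hu, rfl⟩
      refine ⟨⟨x, hx⟩ * u * ⟨x, hx⟩⁻¹, hU.conj_mem u hu _, ?_⟩
      simp
    have hcore : H ≤ T.normalCore := by
      intro h hh b
      let T' : Subgroup F := T.map (MulAut.conj b⁻¹).toMonoidHom
      have hT'ne : T' ≠ ⊥ := by
        intro h0
        apply hTne
        exact (Subgroup.map_eq_bot_iff_of_injective T (MulAut.conj b⁻¹).injective).1 h0
      have hact : ∀ x ∈ H, ∀ t ∈ T', x * t * x⁻¹ ∈ T' := by
        rintro x hx _ ⟨t, ht, rfl⟩
        have hx2 : b * x * b⁻¹ ∈ N := hNn.conj_mem x (hHN hx) b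
        refine ⟨(b * x * b⁻¹) * t * (b * x * b⁻¹)⁻¹, hnorm _ hx2 t ht, ?_⟩
        simp only [MulEquiv.coe_toMonoidHom, MulAut.conj_apply]
        group
      have hnT : H ≤ Subgroup.normalizer (T' : Set F) := by
        intro x hx
        rw [Subgroup.mem_normalizer_iff]
        intro t
        constructor
        · exact hact x hx t
        · intro ht
          have := hact x⁻¹ (inv_mem hx) _ ht
          simpa [mul_assoc] using this
      obtain ⟨t, ht, hte⟩ := hmin T' hT'ne hnT hh
      simp only [MulEquiv.coe_toMonoidHom, MulAut.conj_apply] at hte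
      rw [← hte]
      simpa [mul_assoc] using ht
    have hcb : T.normalCore ≠ ⊥ := fun h => hH (le_bot_iff.1 (h ▸ hcore))
    have hNT : N ≤ T := (hNle _ inferInstance hcb).trans (Subgroup.normalCore_le T)
    rw [eq_top_iff]
    intro x _
    obtain ⟨u, hu, hux⟩ := hNT x.2
    have : u = x := Subtype.ext hux
    exact this ▸ hu
  refine ⟨N, hNn, hNne, hNle, hsimple, ?_⟩
  by_cases hCb : Subgroup.centralizer (N : Set F) = ⊥
  · exact Or.inl hCb
  right
  set C : Subgroup F := Subgroup.centralizer (N : Set F) with hC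
  haveI hCn : C.Normal := Subgroup.normal_centralizer
  have hNC : N ≤ C := hNle C hCn hCb
  have hNcomm : ∀ x ∈ N, ∀ y ∈ N, x * y = y * x := fun x hx y hy =>
    (Subgroup.mem_centralizer_iff.1 (hNC hy)) x hx
  haveI hNmc : IsMulCommutative N := ⟨⟨fun a b => Subtype.ext (hNcomm _ a.2 _ b.2)⟩⟩
  have hpr : (Nat.card N).Prime := Group.is_simple_iff_prime_card.1 hsimple
  haveI hfp : Fact (Nat.card N).Prime := ⟨hpr⟩
  have hHeq : H = N := by
    apply Subgroup.eq_of_le_of_card_ge hHN
    have h1 : Nat.card H ∣ Nat.card N := Subgroup.card_dvd_of_le hHN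
    rcases (Nat.dvd_prime hpr).1 h1 with h | h
    · exfalso
      exact hH (Subgroup.eq_bot_of_card_eq _ h)
    · exact h.ge
  have hkey : ∀ x ∈ C, x ≠ 1 → N ≤ Subgroup.zpowers x := by
    intro x hx hx1
    rw [← hHeq]
    apply hmin (Subgroup.zpowers x) (Subgroup.zpowers_ne_bot.2 hx1)
    intro h hh
    rw [Subgroup.mem_normalizer_iff]
    have hc : Commute h x := (Subgroup.mem_centralizer_iff.1 hx) h (hHN hh)
    have hall : ∀ y ∈ Subgroup.zpowers x, h * y * h⁻¹ = y := by
      rintro _ ⟨k, rfl⟩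
      have : Commute h (x ^ k) := hc.zpow_right k
      simp only
      rw [this.eq, mul_inv_cancel_right]
    intro y
    constructor
    · intro hy
      rw [hall y hy]
      exact hy
    · intro hy
      have := hall _ hy
      have h2 : h⁻¹ * (h * y * h⁻¹) * h⁻¹⁻¹ = y := by group
      have h3 : h⁻¹ * (h * y * h⁻¹) * h⁻¹⁻¹ ∈ Subgroup.zpowers x := by
        have hc2 : Commute h⁻¹ x := hc.inv_left
        have hy2 : h⁻¹ * (h * y * h⁻¹) * h⁻¹⁻¹ = h * y * h⁻¹ := by
          obtain ⟨k, hk⟩ := hy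
          rw [← hk]
          have : Commute h⁻¹ (x ^ k) := hc2.zpow_right k
          simp only
          rw [this.eq, inv_inv, mul_assoc, inv_mul_cancel, mul_one]
        rw [hy2]
        exact hy
      rwa [h2] at h3
  have hqC : ∀ {q : ℕ}, q.Prime → q ∣ Nat.card C → q = Nat.card N := by
    intro q hq hdvd
    haveI := Fact.mk hq
    obtain ⟨x, hx⟩ := exists_prime_orderOf_dvd_card' q hdvd
    have hx1 : x.1 ≠ 1 := by
      intro h
      have : x = 1 := Subtype.ext h
      rw [this, orderOf_one] at hx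
      exact hq.one_lt.ne hx
    have h1 := hkey x.1 x.2 hx1
    have h2 : Nat.card N ∣ Nat.card (Subgroup.zpowers x.1) := Subgroup.card_dvd_of_le h1
    rw [Nat.card_zpowers, Subgroup.orderOf_coe, hx] at h2
    exact ((Nat.prime_dvd_prime_iff_eq hpr hq).1 h2).symm
  have hcardC : Nat.card C = Nat.card N ^ (Nat.card C).primeFactorsList.length :=
    Nat.eq_prime_pow_of_unique_prime_dvd Nat.card_pos.ne' hqC
  have hCp : IsPGroup (Nat.card N) C := IsPGroup.iff_card.2 ⟨_, hcardC⟩
  have hU : Cfsg.Agent.Lib.UniqueSub.UniqueP (Nat.card N) C := by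
    have hz : ∀ x : C, orderOf x = Nat.card N → N = Subgroup.zpowers x.1 := by
      intro x hx
      have hx1 : x.1 ≠ 1 := by
        intro h
        have : x = 1 := Subtype.ext h
        rw [this, orderOf_one] at hx
        exact hpr.one_lt.ne hx
      apply Subgroup.eq_of_le_of_card_ge (hkey x.1 x.2 hx1)
      rw [Nat.card_zpowers, Subgroup.orderOf_coe, hx]
    intro x y hx hy
    have h1 : y.1 ∈ Subgroup.zpowers x.1 := by
      rw [← hz x hx, hz y hy]
      exact Subgroup.mem_zpowers _
    obtain ⟨k, hk⟩ := h1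
    exact ⟨k, Subtype.ext (by simpa using hk)⟩
  -- the action on `N`
  let f : F →* MulAut N := MulAut.conjNormal
  have hker : f.ker = C := by
    ext x
    rw [MonoidHom.mem_ker, hC, Subgroup.mem_centralizer_iff]
    constructor
    · intro h y hy
      have h1 := congrArg (fun φ : MulAut N => ((φ ⟨y, hy⟩ : N) : F)) h
      simp only [f, MulAut.conjNormal_apply, MulAut.one_apply] at h1
      exact (mul_inv_eq_iff_eq_mul.1 h1).symm
    · intro h
      ext y
      simp only [f, MulAut.conjNormal_apply, MulAut.one_apply]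
      rw [mul_inv_eq_iff_eq_mul]
      exact (h y.1 y.2).symm
  haveI hNcyc : IsCyclic N := isCyclic_of_prime_card rfl
  have hAutcyc : IsCyclic (MulAut N) :=
    isCyclic_of_surjective (IsCyclic.mulAutMulEquiv N).symm (IsCyclic.mulAutMulEquiv N).symm.surjective
  have hidx : C.index ∣ Nat.card N - 1 := by
    rw [← hker, Subgroup.index_ker]
    have h1 : Nat.card f.range ∣ Nat.card (MulAut N) := Subgroup.card_subgroup_dvd_card _
    rwa [IsCyclic.card_mulAut, Nat.totient_prime hpr] at h1
  have hgen : ∃ g : F, C ⊔ Subgroup.zpowers g = ⊤ := by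
    haveI : IsCyclic f.range := inferInstance
    obtain ⟨⟨_, g, rfl⟩, hg⟩ := IsCyclic.exists_generator (α := f.range)
    refine ⟨g, ?_⟩
    rw [eq_top_iff]
    intro x _
    obtain ⟨k, hk⟩ := hg ⟨f x, x, rfl⟩
    have hk' : f g ^ k = f x := by simpa using congrArg Subtype.val hk
    have h1 : x * (g ^ k)⁻¹ ∈ C := by
      rw [← hker, MonoidHom.mem_ker, map_mul, map_inv, map_zpow, hk', mul_inv_cancel]
    have h2 : x = (x * (g ^ k)⁻¹) * g ^ k := by group
    rw [h2]
    exact Subgroup.mul_mem_sup h1 (Subgroup.zpow_mem_zpowers g k)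
  rcases Cfsg.Agent.Lib.UniqueSub.cyclic_or_quaternion hCp hU with hcyc | ⟨hp2, k, hk, ⟨e⟩⟩
  · left
    refine ⟨hHeq, hpr, hcyc, ⟨_, ?_, hcardC⟩, hgen, hidx⟩
    by_contra hcon
    have h0 : (Nat.card C).primeFactorsList.length = 0 := by omega
    rw [h0, pow_zero] at hcardC
    exact hCb (Subgroup.eq_bot_of_card_eq _ hcardC)
  · right
    refine ⟨hHeq, hp2, ?_, k, hk, ?_⟩
    · rw [hp2] at hidx
      have h1 : C.index = 1 := Nat.dvd_one.1 hidx
      exact Subgroup.index_eq_one.1 h1
    · have hCtop : C = ⊤ := by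
        rw [hp2] at hidx
        have h1 : C.index = 1 := Nat.dvd_one.1 hidx
        exact Subgroup.index_eq_one.1 h1
      exact ⟨(Subgroup.topEquiv.symm.trans (MulEquiv.subgroupCongr hCtop).symm).trans e⟩

end Cfsg.Agent.S3025
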