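import Cfsg.Statements.S3027
-- import your own Cfsg.Agent.* helpers here

set_option autoImplicit false
open Cfsg

namespace Cfsg.Agent.S3027

/-- Let G be a finite group and D a normal subgroup of G such that G/D is perfect (that is, G = G′D). Then among the subnormal subgroups B of G with BD = G there is a least one, and it is normal in G. -/
theorem result {G : Type*} [Group G] [Finite G] (D : Subgroup G) [D.Normal] (hperf : ⁅(⊤ : Subgroup G), (⊤ : Subgroup G)⁆ ⊔ D = ⊤) :
    ∃ B : Subgroup G, B.Normal ∧ B ⊔ D = ⊤ ∧ ∀ B' : Subgroup G, B'.IsSubnormal → B' ⊔ D = ⊤ → B ≤ B' := by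
  classical
  -- supplements and the quotient
  have hsup : ∀ K : Subgroup G, K ⊔ D = ⊤ ↔ K.map (QuotientGroup.mk' D) = ⊤ := by
    intro K
    constructor
    · intro h
      have h1 : (K ⊔ D).map (QuotientGroup.mk' D) = ⊤ := by
        rw [h, ← MonoidHom.range_eq_map]
        exact MonoidHom.range_eq_top.2 (QuotientGroup.mk'_surjective D)
      rw [Subgroup.map_sup, QuotientGroup.map_mk'_self, sup_bot_eq] at h1
      exact h1
    · intro h
      have h1 := Subgroup.comap_map_eq (QuotientGroup.mk' D) K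
      rw [h, Subgroup.comap_top, QuotientGroup.ker_mk'] at h1
      exact h1.symm
  have key : ∀ X Y : Subgroup G, X ⊔ D = ⊤ → Y ⊔ D = ⊤ → ⁅X, Y⁆ ⊔ D = ⊤ := by
    intro X Y hX hY
    rw [hsup] at hX hY hperf ⊢
    rw [Subgroup.map_commutator] at hperf ⊢
    rw [hX, hY]
    have h2 : (⊤ : Subgroup G).map (QuotientGroup.mk' D) = ⊤ := by
      rw [← MonoidHom.range_eq_map]
      exact MonoidHom.range_eq_top.2 (QuotientGroup.mk'_surjective D)
    rw [h2] at hperf
    exact hperf
  have hmono : ∀ X Y : Subgroup G, X ≤ Y → X ⊔ D = ⊤ → Y ⊔ D = ⊤ := by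
    intro X Y hXY hX
    rw [eq_top_iff, ← hX]
    exact sup_le_sup_right hXY D
  have inter : ∀ B1 : Subgroup G, B1.IsSubnormal → B1 ⊔ D = ⊤ →
      ∀ B2 : Subgroup G, B2.IsSubnormal → B2 ⊔ D = ⊤ → (B1 ⊓ B2) ⊔ D = ⊤ := by
    intro B1 hB1
    induction hB1 with
    | top =>
      intro _ B2 _ h
      simpa using h
    | step H K h_le hSubn hN ih =>
      intro hH B2 hB2
      induction hB2 with
      | top =>
        intro _
        simpa using hH
      | step H2 K2 h_le2 hSubn2 hN2 ih2 =>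
        intro hH2
        have hX := ih (hmono _ _ h_le hH) H2 (Subgroup.IsSubnormal.step H2 K2 h_le2 hSubn2 hN2) hH2
        have hY := ih2 (hmono _ _ h_le2 hH2)
        have hc := key _ _ hX hY
        refine hmono _ _ ?_ hc
        rw [Subgroup.commutator_le]
        rintro x ⟨hxK, hxH2⟩ y ⟨hyH, hyK2⟩
        have h1 := (Subgroup.normal_subgroupOf_iff h_le).1 hN
        have h2 := (Subgroup.normal_subgroupOf_iff h_le2).1 hN2
        refine ⟨?_, ?_⟩
        · show x * y * x⁻¹ * y⁻¹ ∈ H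
          exact H.mul_mem (h1 y x hyH hxK) (H.inv_mem hyH)
        · show x * y * x⁻¹ * y⁻¹ ∈ H2
          have : x * y * x⁻¹ * y⁻¹ = x * (y * x⁻¹ * y⁻¹) := by group
          rw [this]
          exact H2.mul_mem hxH2 (h2 _ y (H2.inv_mem hxH2) hyK2)
  have infsub : ∀ B1 B2 : Subgroup G, B1.IsSubnormal → B2.IsSubnormal → (B1 ⊓ B2).IsSubnormal := by
    intro B1 B2 hB1 hB2
    induction hB1 with
    | top => simpa using hB2
    | step H K h_le hSubn hN ih =>
      refine Subgroup.IsSubnormal.step _ _ (inf_le_inf_right B2 h_le) ih ?_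
      rw [Subgroup.normal_subgroupOf_iff (inf_le_inf_right B2 h_le)]
      rintro h k ⟨hH, hB⟩ ⟨hK, hB'⟩
      have h1 := (Subgroup.normal_subgroupOf_iff h_le).1 hN
      exact ⟨h1 h k hH hK, B2.mul_mem (B2.mul_mem hB' hB) (B2.inv_mem hB')⟩
  have conjsub : ∀ (g : G) (B : Subgroup G), B.IsSubnormal →
      (B.map (MulAut.conj g).toMonoidHom).IsSubnormal := by
    intro g B hB
    induction hB with
    | top =>
      have : (⊤ : Subgroup G).map (MulAut.conj g).toMonoidHom = ⊤ := by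
        rw [← MonoidHom.range_eq_map]
        exact MonoidHom.range_eq_top.2 (MulAut.conj g).surjective
      rw [this]; exact Subgroup.IsSubnormal.top
    | step H K h_le hSubn hN ih =>
      have hle : H.map (MulAut.conj g).toMonoidHom ≤ K.map (MulAut.conj g).toMonoidHom :=
        Subgroup.map_mono h_le
      refine Subgroup.IsSubnormal.step _ _ hle ih ?_
      rw [Subgroup.normal_subgroupOf_iff hle]
      rintro _ _ ⟨h, hh, rfl⟩ ⟨k, hk, rfl⟩
      have h1 := (Subgroup.normal_subgroupOf_iff h_le).1 hN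
      refine ⟨k * h * k⁻¹, h1 h k hh hk, ?_⟩
      simp [MulAut.conj_apply]
      group
  have conjsup : ∀ (g : G) (B : Subgroup G), B ⊔ D = ⊤ → B.map (MulAut.conj g).toMonoidHom ⊔ D = ⊤ := by
    intro g B hB
    rw [hsup] at hB ⊢
    rw [Subgroup.map_map]
    have e : (QuotientGroup.mk' D).comp (MulAut.conj g).toMonoidHom =
        (MulAut.conj (QuotientGroup.mk' D g)).toMonoidHom.comp (QuotientGroup.mk' D) := by
      ext x
      simp [MulAut.conj_apply]
    rw [e, ← Subgroup.map_map, hB, ← MonoidHom.range_eq_map]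
    exact MonoidHom.range_eq_top.2 (MulAut.conj _).surjective
  set 𝒮 : Set (Subgroup G) := {B | B.IsSubnormal ∧ B ⊔ D = ⊤} with h𝒮
  have hne : 𝒮.Nonempty := ⟨⊤, Subgroup.IsSubnormal.top, by simp⟩
  obtain ⟨B, hB⟩ := 𝒮.toFinite.exists_minimal hne
  have hleast : ∀ B' : Subgroup G, B'.IsSubnormal → B' ⊔ D = ⊤ → B ≤ B' := by
    intro B' h1 h2
    have h3 : B ⊓ B' ∈ 𝒮 := ⟨infsub _ _ hB.1.1 h1, inter _ hB.1.1 hB.1.2 _ h1 h2⟩
    have h4 : B ≤ B ⊓ B' := hB.2 h3 inf_le_left
    exact h4.trans inf_le_right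
  refine ⟨B, ⟨?_⟩, hB.1.2, hleast⟩
  intro x hx g
  have h1 := hleast _ (conjsub g⁻¹ B hB.1.1) (conjsup g⁻¹ B hB.1.2) hx
  obtain ⟨b, hb, rfl⟩ := h1
  simpa [MulAut.conj_apply, mul_assoc] using hb

end Cfsg.Agent.S3027
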