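import Cfsg.Statements.S3049
import Mathlib
import Cfsg.Agent.Lib.PNilpB
import Cfsg.Agent.Lib.PNilp
import Cfsg.Agent.Lib.CharChain
import Cfsg.Agent.Lib.ThompsonBasic
import Cfsg.Agent.Lib.PComps
import Cfsg.Agent.Lib.SolvCore
import Cfsg.Agent.Lib.Layer
import Cfsg.Agent.Lib.Comps
import Cfsg.Agent.Lib.FitCore
import Cfsg.Agent.Lib.H2Basic

set_option autoImplicit false
open Cfsg

namespace Cfsg.Agent.S3049

open Subgroup Cfsg Cfsg.Agent.Lib Cfsg.Agent.Lib.Comps Cfsg.Agent.Lib.PComps Cfsg.Agent.Lib.ThompsonBasic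
open scoped commutatorElement

section aux
variable {G : Type*} [Group G] [Finite G] {p : ℕ} [hpp : Fact p.Prime]

theorem relIndex_subnormal3 (P : Sylow p G)
    {K : Subgroup G} (hK : K.IsSubnormal) : ¬ p ∣ (P : Subgroup G).relIndex K := by
  induction hK with
  | top =>
    rw [Subgroup.relIndex_top_right]
    exact P.not_dvd_index
  | step A B hle _ hN ih =>
    intro hdvd
    apply ih
    have h1 := FitCore.relIndex_dvd_index_of_normal_right (((P : Subgroup G) ⊓ B).subgroupOf B) (A.subgroupOf B)
    have h2 : (((P : Subgroup G) ⊓ B).subgroupOf B).relIndex (A.subgroupOf B) = (P : Subgroup G).relIndex A := by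
      have h4 := Subgroup.relIndex_subgroupOf (H := ((P : Subgroup G) ⊓ B)) hle
      rw [h4]
      have h5 : ((P : Subgroup G) ⊓ B).relIndex A = (((P : Subgroup G) ⊓ B) ⊓ A).relIndex A :=
        (Subgroup.inf_relIndex_right _ _).symm
      have h6 : ((P : Subgroup G) ⊓ B) ⊓ A = (P : Subgroup G) ⊓ A := by
        rw [inf_assoc, inf_eq_right.2 hle]
      rw [h5, h6, Subgroup.inf_relIndex_right]
    have h3 : (((P : Subgroup G) ⊓ B).subgroupOf B).index = (P : Subgroup G).relIndex B :=
      Subgroup.inf_relIndex_right _ _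
    rw [h2, h3] at h1
    exact hdvd.trans h1

omit hpp in
theorem isolated_central {x : G} (hiso : IsIsolated x) (S : Subgroup G) {p : ℕ} (hS : IsPGroup p S) [Fact p.Prime]
    (hx : x ∈ S) : ∀ s ∈ S, s * x = x * s := by
  by_contra hcon
  push Not at hcon
  obtain ⟨s, hs, hsx⟩ := hcon
  have hlt : S ⊓ centralizer ({x} : Set G) < S := by
    refine lt_of_le_of_ne inf_le_left ?_
    intro h
    have : s ∈ S ⊓ centralizer ({x} : Set G) := by rw [h]; exact hs
    exact hsx (Subgroup.mem_centralizer_singleton_iff.1 this.2)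
  obtain ⟨g, hgS, hg, hgN⟩ := CharChain.exists_normalizer_of_lt' hlt hS.isNilpotent
  have hxC : x ∈ S ⊓ centralizer ({x} : Set G) := ⟨hx, Subgroup.mem_centralizer_singleton_iff.2 rfl⟩
  have h1 := (Subgroup.mem_normalizer_iff.1 hgN x).1 hxC
  have h2' : (g * x * g⁻¹) * x = x * (g * x * g⁻¹) :=
    Subgroup.mem_centralizer_singleton_iff.1 (show g * x * g⁻¹ ∈ centralizer ({x} : Set G) from h1.2)
  have h2 : Commute x (g * x * g⁻¹) := h2'.symm
  have h3 := hiso g h2
  apply hg
  refine ⟨hgS, Subgroup.mem_centralizer_singleton_iff.2 ?_⟩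
  calc g * x = (g * x * g⁻¹) * g := by group
    _ = x * g := by rw [h3]

theorem card_sup_zpowers {A : Subgroup G} {w : G} (hw : orderOf w = p) (hwA : w ∉ A)
    (hc : ∀ a ∈ A, w * a = a * w) : Nat.card ↥(A ⊔ zpowers w) = Nat.card A * p := by
  have hp : p.Prime := hpp.out
  have h1 := card_sup_mul_card_inf A (zpowers w)
    ((Subgroup.zpowers_le).2 (H2Basic.mem_normalizer_of_forall_comm hc))
  have h2 : A ⊓ zpowers w = ⊥ := by
    have hd : Nat.card ↥(A ⊓ zpowers w) ∣ p := by
      have := Subgroup.card_dvd_of_le (inf_le_right : A ⊓ zpowers w ≤ zpowers w)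
      rwa [Nat.card_zpowers, hw] at this
    rcases (Nat.dvd_prime hp).1 hd with h | h
    · exact Subgroup.eq_bot_of_card_eq _ h
    · exfalso
      have h3 : A ⊓ zpowers w = zpowers w :=
        Subgroup.eq_of_le_of_card_ge inf_le_right (by rw [h, Nat.card_zpowers, hw])
      have h4 : w ∈ A ⊓ zpowers w := by rw [h3]; exact Subgroup.mem_zpowers w
      exact hwA h4.1
  rw [h2, Subgroup.card_bot, mul_one, Nat.card_zpowers, hw] at h1
  exact h1

theorem exists_order_p {A : Subgroup G} (hA : IsPGroup p A) (hne : A ≠ ⊥) : ∃ z ∈ A, orderOf z = p := by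
  have hp : p.Prime := hpp.out
  haveI : Nontrivial A := (Subgroup.nontrivial_iff_ne_bot A).2 hne
  obtain ⟨z, hz⟩ := exists_ne (1 : A)
  obtain ⟨m, hm⟩ := IsPGroup.iff_orderOf.1 hA z
  have hm0 : m ≠ 0 := by
    rintro rfl
    rw [pow_zero, orderOf_eq_one_iff] at hm
    exact hz hm
  have hd : p ∣ orderOf z := by rw [hm]; exact dvd_pow_self p hm0
  have hp0 : orderOf z ≠ 0 := by rw [hm]; exact pow_ne_zero _ hp.ne_zero
  have hk := orderOf_pow_orderOf_div hp0 hd
  refine ⟨((z ^ (orderOf z / p) : A) : G), (z ^ (orderOf z / p) : A).2, ?_⟩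
  rw [Subgroup.orderOf_coe, hk]

theorem core2 (hpo : p ≠ 2) (hrank : PRankLE p 2 G) (P : Subgroup G) (hP : IsPGroup p P)
    {x z : G} (hxP : x ∈ P) (hzP : z ∈ P) (hx : orderOf x = p) (hz : orderOf z = p)
    (hiso : IsIsolated x) (hPz : ∀ a ∈ P, a * z = z * a) (hzx : z ∉ zpowers x)
    (E : Subgroup G) (hEP : E ≤ P) (y : G) (hy : y * z = z * y)
    (hinv : ∀ e ∈ E, y * e * y⁻¹ ∈ E) (hexp : ∀ e ∈ E, e ^ p = 1) : ∀ e ∈ E, y * e * y⁻¹ = e := by
  have hp : p.Prime := hpp.out
  have hxc := isolated_central hiso P hP hxP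
  have hxp : x ^ p = 1 := by rw [← hx]; exact pow_orderOf_eq_one x
  have hzp : z ^ p = 1 := by rw [← hz]; exact pow_orderOf_eq_one z
  have hxz : x * z = z * x := hPz x hxP
  set A := zpowers x ⊔ zpowers z with hA
  have hAP : A ≤ P := sup_le ((Subgroup.zpowers_le).2 hxP) ((Subgroup.zpowers_le).2 hzP)
  have hAea : IsElementaryAbelian p A := by
    refine ea_sup (ea_zpowers hxp) (ea_zpowers hzp) ?_
    rintro _ ⟨m, rfl⟩ _ ⟨n, rfl⟩
    exact ((Commute.zpow_zpow (show Commute x z from hxz) m n)).eq
  have hAcard : Nat.card A = p ^ 2 := by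
    have := card_sup_zpowers (A := zpowers x) hz hzx (by
      rintro _ ⟨m, rfl⟩
      exact (((show Commute x z from hxz).symm.zpow_right m)).eq)
    rw [hA, this, Nat.card_zpowers, hx, sq]
  have key : ∀ w ∈ P, w ^ p = 1 → w ∈ A := by
    intro w hwP hwp
    by_contra hwA
    have hw1 : w ≠ 1 := by rintro rfl; exact hwA A.one_mem
    have hwo : orderOf w = p := orderOf_eq_prime hwp hw1
    have hcw : ∀ a ∈ A, w * a = a * w := by
      intro a ha
      have hle : A ≤ centralizer ({w} : Set G) := by
        refine sup_le ((Subgroup.zpowers_le).2 ?_) ((Subgroup.zpowers_le).2 ?_)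
        · exact Subgroup.mem_centralizer_singleton_iff.2 (hxc w hwP).symm
        · exact Subgroup.mem_centralizer_singleton_iff.2 (hPz w hwP).symm
      exact (Subgroup.mem_centralizer_singleton_iff.1 (hle ha)).symm
    have hcard := card_sup_zpowers hwo hwA hcw
    have hea : IsElementaryAbelian p (A ⊔ zpowers w) := by
      refine ea_sup hAea (ea_zpowers hwp) ?_
      rintro a ha _ ⟨n, rfl⟩
      exact (((show Commute w a from hcw a ha).zpow_left n)).eq.symm
    have hle := hrank _ hea.1 hea.2
    rw [hcard, hAcard, ← pow_succ] at hle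
    have := Nat.pow_le_pow_iff_right hp.one_lt |>.1 hle
    omega
  by_cases hEz : E ≤ zpowers z
  · intro e he
    obtain ⟨k, rfl⟩ := hEz he
    have : Commute y (z ^ k) := (show Commute y z from hy).zpow_right k
    show y * z ^ k * y⁻¹ = z ^ k
    rw [this.eq]; group
  · obtain ⟨e₀, he₀, he₀z⟩ := SetLike.not_le_iff_exists.1 hEz
    have he₀1 : e₀ ≠ 1 := by rintro rfl; exact he₀z (Subgroup.one_mem _)
    have he₀o : orderOf e₀ = p := orderOf_eq_prime (hexp e₀ he₀) he₀1
    have hB : zpowers z ⊔ zpowers e₀ = A := by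
      apply Subgroup.eq_of_le_of_card_ge
      · exact sup_le ((Subgroup.zpowers_le).2 ((le_sup_right : zpowers z ≤ A) (Subgroup.mem_zpowers z)))
          ((Subgroup.zpowers_le).2 (key e₀ (hEP he₀) (hexp e₀ he₀)))
      · rw [card_sup_zpowers he₀o he₀z (by
          rintro _ ⟨m, rfl⟩
          exact (((show Commute z e₀ from (hPz e₀ (hEP he₀)).symm).symm.zpow_right m)).eq),
          Nat.card_zpowers, hz, hAcard, sq]
    have hx1 : x ∈ zpowers z ⊔ zpowers e₀ := by
      rw [hB]; exact (le_sup_left : zpowers x ≤ A) (Subgroup.mem_zpowers x)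
    have hconj : zpowers z ⊔ zpowers e₀ ≤ A.comap (MulAut.conj y).toMonoidHom := by
      refine sup_le ((Subgroup.zpowers_le).2 ?_) ((Subgroup.zpowers_le).2 ?_)
      · show y * z * y⁻¹ ∈ A
        rw [hy]
        have : z * y * y⁻¹ = z := by group
        rw [this]
        exact (le_sup_right : zpowers z ≤ A) (Subgroup.mem_zpowers z)
      · show y * e₀ * y⁻¹ ∈ A
        exact key _ (hEP (hinv e₀ he₀)) (hexp _ (hinv e₀ he₀))
    have hx2 : y * x * y⁻¹ ∈ A := hconj hx1
    have hxA : x ∈ A := (le_sup_left : zpowers x ≤ A) (Subgroup.mem_zpowers x)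
    have hx3 : y * x * y⁻¹ = x := hiso y (ea_comm hAea hxA hx2)
    have hAy : A ≤ centralizer ({y} : Set G) := by
      refine sup_le ((Subgroup.zpowers_le).2 ?_) ((Subgroup.zpowers_le).2 ?_)
      · rw [Subgroup.mem_centralizer_singleton_iff]
        calc x * y = (y * x * y⁻¹) * y := by rw [hx3]; 
          _ = y * x := by group
      · rw [Subgroup.mem_centralizer_singleton_iff]
        exact hy.symm
    intro e he
    have h1 := Subgroup.mem_centralizer_singleton_iff.1 (hAy (key e (hEP he) (hexp e he)))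
    calc y * e * y⁻¹ = e * y * y⁻¹ := by rw [h1]
      _ = e := by group

theorem npc_centralizer (hpo : p ≠ 2) (hrank : PRankLE p 2 G) {x z : G} (hx : orderOf x = p)
    (hz : orderOf z = p) (hiso : IsIsolated x) (hxz : x * z = z * x) (hzx : z ∉ zpowers x) :
    HasNormalPComplement p ↥(centralizer ({z} : Set G)) := by
  have hzcen : ∀ a ∈ centralizer ({z} : Set G), a * z = z * a :=
    fun a ha => Subgroup.mem_centralizer_singleton_iff.1 ha
  have hxC : x ∈ centralizer ({z} : Set G) := Subgroup.mem_centralizer_singleton_iff.2 hxz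
  have hzC : z ∈ centralizer ({z} : Set G) := Subgroup.mem_centralizer_singleton_iff.2 rfl
  refine PNilpB.npc_of_exp_cond fun y hy E hE hinv hexp e he => ?_
  have hexp' : ∀ e ∈ E, e ^ p = 1 := by
    intro e he
    rcases hexp e he with h | h
    · exact h
    · exact absurd h.1 hpo
  -- a Sylow subgroup of `↥(centralizer ({z} : Set G))` over `E` and `z`
  let z' : ↥(centralizer ({z} : Set G)) := ⟨z, hzC⟩
  let x' : ↥(centralizer ({z} : Set G)) := ⟨x, hxC⟩
  have hz'o : orderOf z' = p := by rw [← hz, ← Subgroup.orderOf_coe]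
  have hx'o : orderOf x' = p := by rw [← hx, ← Subgroup.orderOf_coe]
  have hz'c : ∀ a : ↥(centralizer ({z} : Set G)), a * z' = z' * a := fun a => Subtype.ext (hzcen a a.2)
  have hzpg : IsPGroup p (zpowers z') := by
    apply IsPGroup.of_card (n := 1)
    rw [Nat.card_zpowers, hz'o, pow_one]
  have hxpg : IsPGroup p (zpowers x') := by
    apply IsPGroup.of_card (n := 1)
    rw [Nat.card_zpowers, hx'o, pow_one]
  have hTn : E ≤ normalizer ((zpowers z' : Subgroup ↥(centralizer ({z} : Set G))) : Set ↥(centralizer ({z} : Set G))) := by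
    intro a _
    apply H2Basic.mem_normalizer_of_forall_comm
    rintro _ ⟨m, rfl⟩
    exact ((show Commute a z' from hz'c a).zpow_right m).eq
  have hT : IsPGroup p ↥(zpowers z' ⊔ E) := hzpg.to_sup_of_normal_left' hE hTn
  obtain ⟨Q, hQ⟩ := hT.exists_le_sylow
  obtain ⟨Q₁, hQ₁⟩ := hxpg.exists_le_sylow
  obtain ⟨g, hg⟩ := MulAction.exists_smul_eq ↥(centralizer ({z} : Set G)) Q₁ Q
  have hgx : g * x' * g⁻¹ ∈ (Q : Subgroup ↥(centralizer ({z} : Set G))) := by
    rw [← hg]
    exact Subgroup.mem_map_of_mem _ (hQ₁ (Subgroup.mem_zpowers x'))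
  -- push everything to `G`
  set P : Subgroup G := (Q : Subgroup ↥(centralizer ({z} : Set G))).map (centralizer ({z} : Set G)).subtype with hP
  have hPp : IsPGroup p P := Q.isPGroup'.map _
  have hPJ : P ≤ centralizer ({z} : Set G) := Subgroup.map_subtype_le _
  have hEP : E.map (centralizer ({z} : Set G)).subtype ≤ P := Subgroup.map_mono ((le_sup_right).trans hQ)
  have hzP : z ∈ P := ⟨z', hQ ((le_sup_left : zpowers z' ≤ _) (Subgroup.mem_zpowers z')), rfl⟩
  set xg : G := (g : G) * x * (g : G)⁻¹ with hxg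
  have hxgP : xg ∈ P := ⟨_, hgx, rfl⟩
  have hxgo : orderOf xg = p := by
    rw [hxg, ← hx]
    exact orderOf_injective (MulAut.conj (g : G)).toMonoidHom (MulAut.conj (g : G)).injective x
  have hgz : (g : G) * z = z * g := hzcen g g.2
  have hxgiso : IsIsolated xg := by
    intro h hc
    have hc' : Commute x (((g : G)⁻¹ * h * g) * x * ((g : G)⁻¹ * h * g)⁻¹) := by
      have e1 : ((g : G)⁻¹ * h * g) * x * ((g : G)⁻¹ * h * g)⁻¹ = (g : G)⁻¹ * (h * xg * h⁻¹) * g := by
        rw [hxg]; group
      rw [e1]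
      have h2 := hc.eq
      show x * ((g : G)⁻¹ * (h * xg * h⁻¹) * g) = ((g : G)⁻¹ * (h * xg * h⁻¹) * g) * x
      have e2 : x = (g : G)⁻¹ * xg * g := by rw [hxg]; group
      rw [e2]
      calc (g : G)⁻¹ * xg * g * ((g : G)⁻¹ * (h * xg * h⁻¹) * g) = (g : G)⁻¹ * (xg * (h * xg * h⁻¹)) * g := by group
        _ = (g : G)⁻¹ * ((h * xg * h⁻¹) * xg) * g := by rw [h2]
        _ = _ := by group
    have h3 := hiso _ hc'
    have e3 : h * xg * h⁻¹ = (g : G) * (((g : G)⁻¹ * h * g) * x * ((g : G)⁻¹ * h * g)⁻¹) * (g : G)⁻¹ := by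
      rw [hxg]; group
    rw [e3, h3]
  have hzxg : z ∉ zpowers xg := by
    rintro ⟨k, hk⟩
    apply hzx
    refine ⟨k, ?_⟩
    have h1 : (g : G)⁻¹ * (xg ^ k) * g = x ^ k := by
      rw [hxg]
      have : ((g : G) * x * (g : G)⁻¹) ^ k = (g : G) * x ^ k * (g : G)⁻¹ := by
        exact ((MulAut.conj (g : G)).toMonoidHom.map_zpow x k).symm
      rw [this]; group
    show x ^ k = z
    rw [← h1]
    have hk' : xg ^ k = z := hk
    rw [hk']
    calc (g : G)⁻¹ * z * g = (g : G)⁻¹ * (z * g) := by group
      _ = (g : G)⁻¹ * ((g : G) * z) := by rw [hgz]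
      _ = z := by group
  have hres := core2 hpo hrank P hPp hxgP hzP hxgo hz hxgiso
    (fun a ha => hzcen a (hPJ ha)) hzxg (E.map (centralizer ({z} : Set G)).subtype) hEP (y : G) (hzcen y y.2)
    (by
      rintro _ ⟨a, ha, rfl⟩
      exact ⟨_, hinv a ha, rfl⟩)
    (by
      rintro _ ⟨a, ha, rfl⟩
      have := congrArg Subtype.val (hexp' a ha)
      simpa using this)
    (e : G) ⟨e, he, rfl⟩
  exact Subtype.ext hres

theorem not_npc_comp (hcore : pPrimeCore p G = ⊥) {K : Subgroup G} (hK : IsComponent K)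
    (h : HasNormalPComplement p K) : False := by
  have hp : p.Prime := hpp.out
  obtain ⟨N, hN, hNc, hNp⟩ := PNilp.npc_iff.1 h
  have hd : p ∣ Nat.card K := by
    by_contra hnd
    have h3 : (Nat.card K).Coprime p := ((Nat.Prime.coprime_iff_not_dvd hp).2 hnd).symm
    have h4 := le_pPrimeCore_of_subnormal hK.1 h3
    rw [hcore] at h4
    exact comp_ne_bot hK (le_bot_iff.1 h4)
  rcases quasisimple_subnormal hK.2 hN.isSubnormal with h1 | h1
  · rw [h1, Subgroup.card_top] at hNc
    exact hNc hd
  · apply not_solvable_of_quasisimple hK.2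
    have hq : IsPGroup p (K ⧸ N) := PNilp.isPGroup_quot_of_pow N hNp
    haveI : Group.IsSolvable (K ⧸ N) := by
      haveI := hq.isNilpotent
      infer_instance
    haveI : Group.IsSolvable N := by
      apply Group.isSolvable_of_comm
      intro a b
      exact Subtype.ext (Subgroup.mem_center_iff.1 (h1 a.2) b).symm
    exact Group.isSolvable_of_ker_le_range N.subtype (QuotientGroup.mk' N) (by
      rw [QuotientGroup.ker_mk', Subgroup.range_subtype])

end aux

/-- Let G be a finite group and p an odd prime with O_{p'}(G) = 1. Suppose that G has p-rank at most 2 (no elementary abelian subgroup of order p³) and that some element x of order p is isolated in G (no G-conjugate of x other than x commutes with x) and not central. Then the generalized Fitting subgroup F*(G) is a non-abelian simple group. Since O_{p'}(G) = 1, such an x is not central modulo O_{p'}(G): the hypotheses describe a counterexample to the Z*_p statement in p-rank at most 2. -/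
theorem result {G : Type*} [Group G] [Finite G] {p : ℕ} [Fact p.Prime] (hp : p ≠ 2) (hcore : Cfsg.pPrimeCore p G = ⊥)
    (hrank : Cfsg.PRankLE p 2 G) (x : G) (hx : orderOf x = p) (hiso : Cfsg.IsIsolated x) (hnc : x ∉ Subgroup.center G) :
    IsSimpleGroup ↥(Cfsg.generalizedFittingSubgroup G) ∧ ¬ IsMulCommutative ↥(Cfsg.generalizedFittingSubgroup G) := by
  classical
  have hp1 : p.Prime := Fact.out
  have hxpg : IsPGroup p (zpowers x) := by
    apply IsPGroup.of_card (n := 1)
    rw [Nat.card_zpowers, hx, pow_one]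
  obtain ⟨S, hS⟩ := hxpg.exists_le_sylow
  have hxS : x ∈ (S : Subgroup G) := hS (Subgroup.mem_zpowers x)
  have hxc := isolated_central hiso (S : Subgroup G) S.isPGroup' hxS
  have hF : IsPGroup p (fittingSubgroup G) :=
    SolvCore.isPGroup_of_nilpotent_normal hcore _ FitCore.fitting_normal FitCore.fitting_isNilpotent
  have hFS : fittingSubgroup G ≤ S :=
    (FitCore.le_pCore p _ FitCore.fitting_normal hF).trans (FitCore.pCore_le_sylow p S)
  -- the key consequence of the rank condition
  have hno : ∀ z ∈ (S : Subgroup G), orderOf z = p → ∀ K : Subgroup G, IsComponent K →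
      K ≤ centralizer ({z} : Set G) → K ≤ centralizer ({x} : Set G) := by
    intro z hzS hzo K hK hKz
    by_cases hzx : z ∈ zpowers x
    · have h1 : zpowers z = zpowers x := Subgroup.eq_of_le_of_card_ge ((Subgroup.zpowers_le).2 hzx)
        (by rw [Nat.card_zpowers, Nat.card_zpowers, hx, hzo])
      have h2 : x ∈ zpowers z := by rw [h1]; exact Subgroup.mem_zpowers x
      obtain ⟨k, hk⟩ := h2
      intro a ha
      rw [Subgroup.mem_centralizer_singleton_iff]
      have h3 : Commute a z := Subgroup.mem_centralizer_singleton_iff.1 (hKz ha)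
      have h4 : Commute a (z ^ k) := h3.zpow_right k
      have hk' : z ^ k = x := hk
      rw [hk'] at h4
      exact h4
    · exfalso
      have h1 := npc_centralizer hp hrank hx hzo hiso (hxc z hzS).symm hzx
      exact not_npc_comp hcore hK (PNilp.npc_le hKz h1)
  -- a component moved by `x`
  obtain ⟨K₀, hK₀, hK₀x⟩ : ∃ K : Subgroup G, IsComponent K ∧ ¬ K ≤ centralizer ({x} : Set G) := by
    by_contra hcon
    push Not at hcon
    have hle : layer G ≤ centralizer ({x} : Set G) := sSup_le fun K hK => hcon K hK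
    have hle2 : fittingSubgroup G ≤ centralizer ({x} : Set G) := by
      intro a ha
      exact Subgroup.mem_centralizer_singleton_iff.2 (hxc a (hFS ha))
    have hFs : generalizedFittingSubgroup G ≤ centralizer ({x} : Set G) := sup_le hle hle2
    have hxF : x ∈ generalizedFittingSubgroup G := by
      apply bender (G := G)
      rw [Subgroup.mem_centralizer_iff]
      intro a ha
      exact Subgroup.mem_centralizer_singleton_iff.1 (hFs ha)
    have hFn : (generalizedFittingSubgroup G).Normal := by
      haveI : (layer G).Normal := Layer.layer_normal G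
      haveI : (fittingSubgroup G).Normal := FitCore.fitting_normal
      unfold generalizedFittingSubgroup
      infer_instance
    have hAs : (zpowers x).IsSubnormal := by
      refine Subgroup.IsSubnormal.step _ (generalizedFittingSubgroup G) ((Subgroup.zpowers_le).2 hxF) hFn.isSubnormal ?_
      refine ⟨?_⟩
      rintro ⟨a, ha⟩ ha' ⟨b, hb⟩
      have hc : Commute b x := Subgroup.mem_centralizer_singleton_iff.1 (hFs hb)
      have ha2 : a ∈ zpowers x := ha'
      obtain ⟨k, rfl⟩ := ha2
      show b * x ^ k * b⁻¹ ∈ zpowers x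
      have hc2 : Commute b (x ^ k) := hc.zpow_right k
      rw [hc2.eq]
      have : x ^ k * b * b⁻¹ = x ^ k := by group
      rw [this]
      exact Subgroup.zpow_mem _ (Subgroup.mem_zpowers x) k
    have hxFit : x ∈ fittingSubgroup G :=
      subnormal_nilpotent_le_fitting hAs hxpg.isNilpotent (Subgroup.mem_zpowers x)
    apply hnc
    rw [Subgroup.mem_center_iff]
    intro g
    haveI : (fittingSubgroup G).Normal := FitCore.fitting_normal
    have h1 : g * x * g⁻¹ ∈ fittingSubgroup G := Subgroup.Normal.conj_mem inferInstance x hxFit g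
    have h2 := hiso g ((hxc _ (hFS h1)).symm)
    calc g * x = (g * x * g⁻¹) * g := by group
      _ = x * g := by rw [h2]
  have hF0 : fittingSubgroup G = ⊥ := by
    by_contra hne
    obtain ⟨z, hzF, hzo⟩ := exists_order_p hF hne
    apply hK₀x
    refine hno z (hFS hzF) hzo K₀ hK₀ ?_
    intro a ha
    rw [Subgroup.mem_centralizer_singleton_iff]
    have : ⁅a, z⁆ ∈ ⁅K₀, fittingSubgroup G⁆ := Subgroup.commutator_mem_commutator ha hzF
    rw [comp_comm_fitting hK₀] at this
    have h2 : ⁅a, z⁆ = 1 := this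
    rwa [commutatorElement_eq_one_iff_mul_comm] at h2
  have hunique : ∀ L : Subgroup G, IsComponent L → L = K₀ := by
    intro L hL
    rcases comp_comm_comp hL hK₀ with h | h
    · exact h
    · exfalso
      have hne : (S : Subgroup G) ⊓ L ≠ ⊥ := by
        intro h0
        have h1 := relIndex_subnormal3 S hL.1
        have h2 : (S : Subgroup G).relIndex L = Nat.card L := by
          rw [← Subgroup.inf_relIndex_right, h0, Subgroup.relIndex_bot_left]
        rw [h2] at h1
        have h3 : (Nat.card L).Coprime p := ((Nat.Prime.coprime_iff_not_dvd hp1).2 h1).symm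
        have h4 := le_pPrimeCore_of_subnormal hL.1 h3
        rw [hcore] at h4
        exact comp_ne_bot hL (le_bot_iff.1 h4)
      obtain ⟨z, hz, hzo⟩ := exists_order_p (S.isPGroup'.to_le inf_le_left) hne
      apply hK₀x
      refine hno z hz.1 hzo K₀ hK₀ ?_
      intro a ha
      rw [Subgroup.mem_centralizer_singleton_iff]
      have : ⁅z, a⁆ ∈ ⁅L, K₀⁆ := Subgroup.commutator_mem_commutator hz.2 ha
      rw [h] at this
      have h2 : ⁅z, a⁆ = 1 := this
      rw [commutatorElement_eq_one_iff_mul_comm] at h2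
      exact h2.symm
  have hlK : layer G = K₀ := by
    apply le_antisymm
    · refine sSup_le fun M hM => ?_
      rw [hunique M hM]
    · exact le_sSup hK₀
  have hFs : generalizedFittingSubgroup G = K₀ := by
    unfold generalizedFittingSubgroup
    rw [hF0, sup_bot_eq, hlK]
  rw [hFs]
  have hzK : center K₀ = ⊥ := by
    have hs : ((center K₀).map K₀.subtype).IsSubnormal :=
      Subgroup.IsSubnormal.trans' (Subgroup.Normal.isSubnormal inferInstance) hK₀.1
    have hnil : Group.IsNilpotent ((center K₀).map K₀.subtype) := by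
      haveI hcn : Group.IsNilpotent (center K₀) := by
        letI : CommGroup (center K₀) :=
          { (inferInstance : Group (center K₀)) with
            mul_comm := fun a b => Subtype.ext (Subgroup.mem_center_iff.1 b.2 a) }
        exact CommGroup.isNilpotent
      exact Group.nilpotent_of_mulEquiv (Subgroup.equivMapOfInjective (center K₀) K₀.subtype K₀.subtype_injective)
    have h1 := subnormal_nilpotent_le_fitting hs hnil
    rw [hF0, le_bot_iff, Subgroup.map_eq_bot_iff_of_injective _ K₀.subtype_injective] at h1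
    exact h1
  have hq := hK₀.2
  constructor
  · haveI hs : IsSimpleGroup (K₀ ⧸ center K₀) := hq.2
    exact MulEquiv.isSimpleGroup
      ((QuotientGroup.quotientBot (G := K₀)).symm.trans (QuotientGroup.quotientMulEquivOfEq hzK.symm))
  · exact not_isMulCommutative_of_quasisimple hq

end Cfsg.Agent.S3049
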