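import Mathlib
import Cfsg.Agent.Lib.H5Strong
import Cfsg.Statements.S3056
-- import your own Cfsg.Agent.* helpers here

set_option autoImplicit false
open Cfsg

namespace Cfsg.Agent.S3056

open Cfsg.Agent.Lib.H5Basic

section graph

variable {G : Type*} [Group G] {p : ℕ}

/-- Adjacency in the Sylow graph. -/
def Adj (A B : Sylow p G) : Prop := A ≠ B ∧ (A : Subgroup G) ⊓ (B : Subgroup G) ≠ ⊥

/-- Connectivity in the Sylow graph. -/
def Conn (A B : Sylow p G) : Prop := Relation.ReflTransGen Adj A B

theorem adj_symm {A B : Sylow p G} (h : Adj A B) : Adj B A :=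
  ⟨h.1.symm, by rw [inf_comm]; exact h.2⟩

theorem conn_symm {A B : Sylow p G} (h : Conn A B) : Conn B A := by
  induction h with
  | refl => exact Relation.ReflTransGen.refl
  | tail _ h2 ih => exact Relation.ReflTransGen.head (adj_symm h2) ih

theorem conn_trans {A B C : Sylow p G} (h : Conn A B) (h' : Conn B C) : Conn A C :=
  Relation.ReflTransGen.trans h h'

variable [Finite G] [Fact p.Prime]

omit [Fact p.Prime] in
theorem adj_smul {A B : Sylow p G} (g : G) (h : Adj A B) : Adj (g • A) (g • B) := by
  refine ⟨fun he => h.1 (by simpa using congrArg (fun X => g⁻¹ • X) he), ?_⟩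
  intro hb
  apply h.2
  rw [eq_bot_iff]
  intro x hx
  have h1 : g * x * g⁻¹ ∈ ((g • A : Sylow p G) : Subgroup G) ⊓ ((g • B : Sylow p G) : Subgroup G) :=
    ⟨conj_mem_smul_sylow A g x hx.1, conj_mem_smul_sylow B g x hx.2⟩
  rw [hb, Subgroup.mem_bot] at h1
  have h2 : x = 1 := by
    have : g * x * g⁻¹ = g * 1 * g⁻¹ := by simpa using h1
    simpa using this
  simp [h2]

omit [Fact p.Prime] in
theorem conn_smul {A B : Sylow p G} (g : G) (h : Conn A B) : Conn (g • A) (g • B) := by
  induction h with
  | refl => exact Relation.ReflTransGen.refl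
  | tail _ h2 ih => exact Relation.ReflTransGen.tail ih (adj_smul g h2)

omit [Finite G] [Fact p.Prime] in
theorem chain_of_conn {A B : Sylow p G} (h : Conn A B) :
    ∃ (n : ℕ) (c : Fin (n + 1) → Sylow p G), c 0 = A ∧ c (Fin.last n) = B ∧
      ∀ i : Fin n, Adj (c i.castSucc) (c i.succ) := by
  induction h using Relation.ReflTransGen.head_induction_on with
  | refl => exact ⟨0, fun _ => B, rfl, rfl, fun i => i.elim0⟩
  | @head a b hab _ ih =>
    obtain ⟨n, c, h0, hl, hc⟩ := ih
    refine ⟨n + 1, Fin.cons a c, rfl, ?_, ?_⟩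
    · rw [← Fin.succ_last, Fin.cons_succ, hl]
    · intro i
      induction i using Fin.cases with
      | zero =>
        simp only [Fin.castSucc_zero, Fin.cons_zero, Fin.cons_succ, h0]
        exact hab
      | succ j =>
        rw [← Fin.succ_castSucc, Fin.cons_succ, Fin.cons_succ]
        exact hc j

/-- Any subset of Sylow subgroups containing `S` and stable under `S` has size prime to `p`. -/
theorem card_not_dvd (S : Sylow p G) (Ω : Set (Sylow p G)) (hS : S ∈ Ω)
    (hinv : ∀ q ∈ (S : Subgroup G), ∀ T ∈ Ω, q • T ∈ Ω) : ¬ p ∣ Nat.card Ω := by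
  classical
  let Ω' : SubMulAction (S : Subgroup G) (Sylow p G) :=
    { carrier := Ω
      smul_mem' := fun q T hT => hinv q q.2 T hT }
  have hc : Nat.card Ω = Nat.card Ω' := rfl
  have h1 := S.isPGroup'.card_modEq_card_fixedPoints (α := Ω')
  have h2 : Nat.card (MulAction.fixedPoints (S : Subgroup G) Ω') = 1 := by
    rw [Nat.card_eq_one_iff_unique]
    refine ⟨⟨?_⟩, ⟨⟨⟨S, hS⟩, ?_⟩⟩⟩
    · rintro ⟨⟨T, hT⟩, hT'⟩ ⟨⟨U, hU⟩, hU'⟩
      have key : ∀ V : Ω', V ∈ MulAction.fixedPoints (S : Subgroup G) Ω' → (V : Sylow p G) = S := by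
        intro V hV
        have : (V : Sylow p G) ∈ MulAction.fixedPoints (S : Subgroup G) (Sylow p G) := by
          intro q
          exact congrArg Subtype.val (hV q)
        have h3 := S.isPGroup'.sylow_mem_fixedPoints_iff.1 this
        exact Sylow.ext (S.is_maximal' (V : Sylow p G).isPGroup' h3)
      have e1 := key ⟨T, hT⟩ hT'
      have e2 := key ⟨U, hU⟩ hU'
      apply Subtype.ext
      apply Subtype.ext
      exact e1.trans e2.symm
    · intro q
      apply Subtype.ext
      have : (q : G) • S = S := by
        rw [Sylow.smul_eq_iff_mem_normalizer]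
        exact Subgroup.le_normalizer q.2
      exact this
  rw [h2] at h1
  rw [hc]
  intro hd
  have h3 := (Nat.modEq_iff_dvd' (Nat.one_le_iff_ne_zero.2 (by
    intro h0
    have : Nonempty Ω' := ⟨⟨S, hS⟩⟩
    have := Nat.card_pos (α := Ω')
    omega))).1 h1.symm
  have h4 : p ∣ 1 := by
    have h5 := (Nat.dvd_sub (hd) h3)
    have h6 : Nat.card Ω' - (Nat.card Ω' - 1) = 1 := by
      have : Nonempty Ω' := ⟨⟨S, hS⟩⟩
      have := Nat.card_pos (α := Ω')
      omega
    rwa [h6] at h5
  exact (Fact.out : p.Prime).one_lt.ne' (Nat.dvd_one.1 h4)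

omit [Finite G] in
/-- A `p`-subgroup stabilizing a set of Sylow subgroups of size prime to `p` lies in one of them. -/
theorem exists_le_of_not_dvd (Q : Subgroup G) (hQ : IsPGroup p Q) (Ω : Set (Sylow p G))
    (hinv : ∀ q ∈ Q, ∀ T ∈ Ω, q • T ∈ Ω) (hc : ¬ p ∣ Nat.card Ω) :
    ∃ T ∈ Ω, Q ≤ (T : Subgroup G) := by
  classical
  let Ω' : SubMulAction Q (Sylow p G) :=
    { carrier := Ω
      smul_mem' := fun q T hT => hinv q q.2 T hT }
  have hc' : ¬ p ∣ Nat.card Ω' := hc
  obtain ⟨V, hV⟩ := hQ.nonempty_fixed_point_of_prime_not_dvd_card Ω' hc'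
  refine ⟨V.1, V.2, ?_⟩
  apply hQ.sylow_mem_fixedPoints_iff.1
  intro q
  exact congrArg Subtype.val (hV q)

end graph


/-- Let G be a finite group and p a prime. Join two Sylow p-subgroups when they are distinct and meet nontrivially. This graph on the Sylow p-subgroups is disconnected (the Sylow p-subgroups are not chain-connected through nontrivial intersections) if and only if G has a strongly p-embedded subgroup in the classical sense: a proper subgroup H of order divisible by p such that H ∩ gHg⁻¹ has order prime to p for every g outside H. -/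
theorem result {G : Type*} [Group G] [Finite G]
    (p : ℕ) [Fact p.Prime] :
    ¬ Cfsg.IsSylowChainConnected p G ↔
      ∃ H : Subgroup G, H ≠ ⊤ ∧ p ∣ Nat.card H ∧
        ∀ g : G, g ∉ H → ¬ p ∣ Nat.card ↥(H ⊓ H.map (MulAut.conj g).toMonoidHom) := by
  classical
  constructor
  · intro h
    have key : ∃ S T : Sylow p G, ¬ Conn S T := by
      by_contra hall
      push Not at hall
      apply h
      intro S T
      by_cases hST : S = T
      · subst hST
        exact ⟨0, fun _ => S, rfl, rfl, fun i => inf_le_left, fun i => i.elim0⟩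
      by_cases hb : (S : Subgroup G) ⊓ (T : Subgroup G) = ⊥
      · obtain ⟨n, c, h0, hl, hc⟩ := chain_of_conn (hall S T)
        exact ⟨n, c, h0, hl, fun i => by rw [hb]; exact bot_le, hc⟩
      · refine ⟨1, ![S, T], rfl, rfl, ?_, ?_⟩
        · intro i
          fin_cases i
          · exact inf_le_left
          · exact inf_le_right
        · intro i
          fin_cases i
          exact ⟨hST, hb⟩
    obtain ⟨S, T, hST⟩ := key
    obtain ⟨t, rfl⟩ := MulAction.exists_smul_eq G S T
    have hSne : (S : Subgroup G) ≠ ⊥ := by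
      intro hb
      apply hST
      have : S = t • S := by
        apply Sylow.ext
        rw [Sylow.coe_subgroup_smul, hb]
        simp
      rw [← this]
      exact Relation.ReflTransGen.refl
    let H : Subgroup G :=
      { carrier := {g | Conn S (g • S)}
        one_mem' := by
          show Conn S ((1 : G) • S)
          rw [one_smul]
          exact Relation.ReflTransGen.refl
        mul_mem' := by
          intro a b ha hb
          show Conn S ((a * b) • S)
          rw [mul_smul]
          exact conn_trans ha (conn_smul a hb)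
        inv_mem' := by
          intro a ha
          show Conn S (a⁻¹ • S)
          have h1 := conn_smul a⁻¹ (show Conn S (a • S) from ha)
          rw [inv_smul_smul] at h1
          exact conn_symm h1 }
    have hmem : ∀ g : G, g ∈ H ↔ Conn S (g • S) := fun g => Iff.rfl
    have hSH : (S : Subgroup G) ≤ H := by
      intro x hx
      rw [hmem]
      have : x • S = S := by
        rw [Sylow.smul_eq_iff_mem_normalizer]
        exact Subgroup.le_normalizer hx
      rw [this]
      exact Relation.ReflTransGen.refl
    set Ω : Set (Sylow p G) := {T | Conn S T} with hΩ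
    have hinvH : ∀ q ∈ H, ∀ T ∈ Ω, q • T ∈ Ω := by
      intro q hq T hT
      exact conn_trans hq (conn_smul q hT)
    have hcard : ¬ p ∣ Nat.card Ω :=
      card_not_dvd S Ω Relation.ReflTransGen.refl (fun q hq => hinvH q (hSH hq))
    refine ⟨H, ?_, ?_, ?_⟩
    · intro ht
      apply hST
      have : t ∈ H := by rw [ht]; trivial
      exact this
    · exact (dvd_card_of_isPGroup S.isPGroup' hSne).trans (Subgroup.card_dvd_of_le hSH)
    · intro g hg hd
      apply hg
      obtain ⟨x, hx⟩ := exists_prime_orderOf_dvd_card' (G := ↥(H ⊓ H.map (MulAut.conj g).toMonoidHom)) p hd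
      have hxH : (x : G) ∈ H := x.2.1
      obtain ⟨a, haH, hax⟩ := x.2.2
      have hax' : g * a * g⁻¹ = (x : G) := hax
      have hordx : orderOf (x : G) = p := by rw [Subgroup.orderOf_coe, hx]
      have hp : p.Prime := Fact.out
      have hx1 : (x : G) ≠ 1 := by
        intro he
        rw [he, orderOf_one] at hordx
        exact hp.one_lt.ne hordx
      have hpz : ∀ y : G, y ^ p = 1 → IsPGroup p (Subgroup.zpowers y) := by
        intro y hy
        rw [IsPGroup.iff_card, Nat.card_zpowers]
        rcases (Nat.dvd_prime hp).1 (orderOf_dvd_of_pow_eq_one hy) with h1 | h1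
        · exact ⟨0, by simpa using h1⟩
        · exact ⟨1, by simpa using h1⟩
      have hxp : (x : G) ^ p = 1 := by
        rw [← hordx]; exact pow_orderOf_eq_one _
      have hap : a ^ p = 1 := by
        have h1 : (g * a * g⁻¹) ^ p = g * a ^ p * g⁻¹ := conj_pow
        rw [hax', hxp] at h1
        have h2 : g * a ^ p * g⁻¹ = g * 1 * g⁻¹ := by simpa using h1.symm
        simpa using h2
      obtain ⟨T₁, hT₁, hxT₁⟩ := exists_le_of_not_dvd (Subgroup.zpowers (x : G)) (hpz _ hxp) Ω
        (fun q hq => hinvH q ((Subgroup.zpowers_le.2 hxH) hq)) hcard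
      obtain ⟨T₂, hT₂, haT₂⟩ := exists_le_of_not_dvd (Subgroup.zpowers a) (hpz _ hap) Ω
        (fun q hq => hinvH q ((Subgroup.zpowers_le.2 haH) hq)) hcard
      have hx1' : (x : G) ∈ (T₁ : Subgroup G) := hxT₁ (Subgroup.mem_zpowers _)
      have hx2' : (x : G) ∈ ((g • T₂ : Sylow p G) : Subgroup G) := by
        rw [← hax']
        exact conj_mem_smul_sylow T₂ g a (haT₂ (Subgroup.mem_zpowers _))
      have hconn : Conn T₁ (g • T₂) := by
        by_cases he : T₁ = g • T₂
        · rw [← he]; exact Relation.ReflTransGen.refl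
        · refine Relation.ReflTransGen.single ⟨he, ?_⟩
          intro hb
          have : (x : G) ∈ (T₁ : Subgroup G) ⊓ ((g • T₂ : Sylow p G) : Subgroup G) := ⟨hx1', hx2'⟩
          rw [hb, Subgroup.mem_bot] at this
          exact hx1 this
      rw [hmem]
      exact conn_trans hT₁ (conn_trans hconn (conn_smul g (conn_symm hT₂)))
  · rintro ⟨H, hH, hpH, hse⟩ hconn
    obtain ⟨P, hPH⟩ := Cfsg.Agent.Lib.H5Strong.exists_sylow_le hpH hse
    have hp : p.Prime := Fact.out
    have hdG : p ∣ Nat.card G := hpH.trans (Subgroup.card_subgroup_dvd_card H)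
    obtain ⟨g, hg⟩ : ∃ g, g ∉ H := by
      by_contra hall
      push Not at hall
      exact hH (eq_top_iff.2 fun x _ => hall x)
    have hne : ∀ Q : Sylow p G, (Q : Subgroup G) ≠ ⊥ := fun Q => Q.ne_bot_of_dvd_card hdG
    obtain ⟨n, c, h0, hl, -, hc⟩ := hconn P (g • P)
    have hall : ∀ i : Fin (n + 1), (c i : Subgroup G) ≤ H := by
      intro i
      induction i using Fin.induction with
      | zero => rw [h0]; exact hPH
      | succ i ih =>
        obtain ⟨k, hk⟩ := MulAction.exists_smul_eq G (c i.castSucc) (c i.succ)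
        have hD := (hc i).2
        have hkH : k ∈ H := by
          apply Cfsg.Agent.Lib.H5Strong.mem_of_le_of_le hse
            ((c i.castSucc).isPGroup'.to_le (inf_le_left)) hD (inf_le_left.trans ih)
          intro y hy
          have hy2 := hy.2
          rw [← hk] at hy2
          have := mem_of_mem_smul_sylow _ k y hy2
          exact ⟨k⁻¹ * y * k, ih this, by simp [MulAut.conj_apply, mul_assoc]⟩
        intro y hy
        rw [← hk] at hy
        have := mem_of_mem_smul_sylow _ k y hy
        have h2 := H.mul_mem (H.mul_mem hkH (ih this)) (H.inv_mem hkH)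
        convert h2 using 1
        group
    have hT := hall (Fin.last n)
    rw [hl] at hT
    apply hse g hg
    refine (dvd_card_of_isPGroup (g • P).isPGroup' (hne _)).trans (Subgroup.card_dvd_of_le ?_)
    refine le_inf hT ?_
    intro y hy
    have := mem_of_mem_smul_sylow _ g y hy
    exact ⟨g⁻¹ * y * g, hPH this, by simp [MulAut.conj_apply, mul_assoc]⟩

end Cfsg.Agent.S3056
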