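import Cfsg.Statements.S3057
import Mathlib
import Cfsg.Agent.S3056
import Cfsg.Agent.Lib.H5Strong
import Cfsg.Agent.Lib.PIrreducible
import Cfsg.Agent.Lib.CoprimeGen
import Cfsg.Agent.Lib.SchurZ
import Cfsg.Agent.Lib.UniqueSub
import Cfsg.Agent.Lib.StrongEmb2
import Cfsg.Agent.Lib.PComps
import Cfsg.Agent.Lib.UpperP
import Cfsg.Agent.Lib.PLength
import Cfsg.Agent.Lib.CharBlockPSolv
import Cfsg.Agent.Lib.PCore

set_option autoImplicit false
set_option linter.style.haveILetI false
set_option linter.unusedVariables false
open scoped ComplexConjugate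
open Cfsg

namespace Cfsg.Agent.S3057

/-- Let p be a prime and G a finite p-solvable group of order divisible by p, with Sylow p-subgroup P. Then the Sylow p-subgroups of G fail to be chain-connected through nontrivial intersections (equivalently, G has a strongly p-embedded subgroup) if and only if O_p(G) = 1 and P is cyclic or, for p = 2, generalized quaternion. -/
theorem result {G : Type*} [Group G] [Finite G]
    (p : ℕ) [Fact p.Prime] (hdiv : p ∣ Nat.card G) (hsol : Cfsg.IsPSolvable p G) (P : Sylow p G) :
    ¬ Cfsg.IsSylowChainConnected p G ↔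
      Cfsg.pCore p G = ⊥ ∧ (IsCyclic ↥P ∨ (p = 2 ∧ ∃ n : ℕ, Nonempty (↥P ≃* QuaternionGroup (2 ^ n)))) := by
  classical
  have hp : p.Prime := Fact.out
  constructor
  · intro hG
    have hcore : pCore p G = ⊥ := by
      by_contra hne
      apply hG
      intro S T
      by_cases hST : S = T
      · subst hST
        exact ⟨0, fun _ => S, rfl, rfl, fun i => inf_le_left, fun i => i.elim0⟩
      · refine ⟨1, ![S, T], rfl, rfl, ?_, ?_⟩
        · intro i
          fin_cases i
          · exact inf_le_left
          · exact inf_le_right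
        · intro i
          fin_cases i
          refine ⟨hST, ?_⟩
          intro hb
          apply hne
          rw [eq_bot_iff]
          refine le_trans (le_inf (Cfsg.Agent.Lib.PCore.pCore_le_sylow S) (Cfsg.Agent.Lib.PCore.pCore_le_sylow T)) ?_
          exact hb.le
    refine ⟨hcore, ?_⟩
    obtain ⟨H, hHtop, hpH, hse⟩ := (Cfsg.Agent.S3056.result p).1 hG
    obtain ⟨P₀, hP₀H⟩ := Cfsg.Agent.Lib.H5Strong.exists_sylow_le hpH hse
    -- unique subgroup of order p in P₀
    have hU : Cfsg.Agent.Lib.UniqueSub.UniqueP p ↥(P₀ : Subgroup G) := by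
      by_contra hU
      simp only [Cfsg.Agent.Lib.UniqueSub.UniqueP] at hU
      push_neg at hU
      obtain ⟨x, y, hx, hy, hxy⟩ := hU
      have hP₀p : IsPGroup p ↥(P₀ : Subgroup G) := P₀.isPGroup'
      haveI hnt : Nontrivial ↥(P₀ : Subgroup G) := by
        refine ⟨⟨x, 1, ?_⟩⟩
        intro h
        rw [h, orderOf_one] at hx
        exact hp.one_lt.ne hx
      have hZ : Nontrivial (Subgroup.center ↥(P₀ : Subgroup G)) := hP₀p.center_nontrivial
      have hZd : p ∣ Nat.card (Subgroup.center ↥(P₀ : Subgroup G)) :=
        Cfsg.Agent.Lib.H5Basic.dvd_card_of_isPGroup (G := ↥(P₀ : Subgroup G)) (hP₀p.to_subgroup _)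
          ((Subgroup.nontrivial_iff_ne_bot _).1 hZ)
      obtain ⟨z, hzO⟩ := exists_prime_orderOf_dvd_card' p hZd
      have hzO' : orderOf (z : ↥(P₀ : Subgroup G)) = p := by rw [Subgroup.orderOf_coe]; exact hzO
      -- find w of order p not in zpowers z
      obtain ⟨w, hwO, hwz⟩ : ∃ w : ↥(P₀ : Subgroup G), orderOf w = p ∧ w ∉ Subgroup.zpowers (z : ↥(P₀ : Subgroup G)) := by
        by_cases hxz : x ∈ Subgroup.zpowers (z : ↥(P₀ : Subgroup G))
        · refine ⟨y, hy, fun hyz => hxy ?_⟩
          -- zpowers x = zpowers z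
          have hle : Subgroup.zpowers x ≤ Subgroup.zpowers (z : ↥(P₀ : Subgroup G)) := Subgroup.zpowers_le.2 hxz
          have heq : Subgroup.zpowers x = Subgroup.zpowers (z : ↥(P₀ : Subgroup G)) :=
            Subgroup.eq_of_le_of_card_ge hle (by rw [Nat.card_zpowers, Nat.card_zpowers, hx, hzO'])
          rw [heq]; exact hyz
        · exact ⟨x, hx, hxz⟩
      let a : G := (w : G)
      let b : G := ((z : ↥(P₀ : Subgroup G)) : G)
      have haP : a ∈ (P₀ : Subgroup G) := w.2
      have hbP : b ∈ (P₀ : Subgroup G) := (z : ↥(P₀ : Subgroup G)).2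
      have haO' : orderOf a = p := by
        simp only [a]; rw [Subgroup.orderOf_coe]; exact hwO
      have hbO' : orderOf b = p := by
        simp only [b]; rw [Subgroup.orderOf_coe]; exact hzO'
      have hab : a * b = b * a := by
        have h := (Subgroup.mem_center_iff.1 z.2) w
        exact congrArg Subtype.val h
      let A : Subgroup G := Subgroup.closure ({a, b} : Set G)
      have hAcomm : ∀ x ∈ A, ∀ y ∈ A, x * y = y * x := by
        have hs : ∀ x ∈ ({a, b} : Set G), ∀ y ∈ ({a, b} : Set G), x * y = y * x := by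
          intro x hx y hy
          rcases hx with rfl | rfl <;> rcases hy with rfl | rfl
          · rfl
          · exact hab
          · exact hab.symm
          · rfl
        have hc := Subgroup.isMulCommutative_closure hs
        intro x hx y hy
        have := mul_comm' (⟨x, hx⟩ : ↥(Subgroup.closure ({a, b} : Set G))) ⟨y, hy⟩
        exact congrArg Subtype.val this
      have hAexp : ∀ x ∈ A, x ^ p = 1 := by
        intro x hx
        induction hx using Subgroup.closure_induction with
        | mem x hx =>
          rcases hx with rfl | rfl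
          · exact orderOf_dvd_iff_pow_eq_one.1 (dvd_of_eq haO')
          · exact orderOf_dvd_iff_pow_eq_one.1 (dvd_of_eq hbO')
        | one => simp
        | mul x y hx hy ihx ihy =>
          rw [(show Commute x y from hAcomm x hx y hy).mul_pow, ihx, ihy, one_mul]
        | inv x _ ih => rw [inv_pow, ih, inv_one]
      have hAP : A ≤ (P₀ : Subgroup G) := by
        rw [Subgroup.closure_le]
        rintro x (rfl | rfl)
        · exact haP
        · exact hbP
      have hAcard : p ^ 2 ≤ Nat.card A := by
        have hz : Subgroup.zpowers a ⊔ Subgroup.zpowers b ≤ A := by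
          refine sup_le ?_ ?_
          · rw [Subgroup.zpowers_le]; exact Subgroup.subset_closure (by simp)
          · rw [Subgroup.zpowers_le]; exact Subgroup.subset_closure (by simp)
        have hinf : Subgroup.zpowers a ⊓ Subgroup.zpowers b = ⊥ := by
          by_contra hne
          -- inf is a nontrivial subgroup of the prime order group zpowers a
          have hd : Nat.card ↥(Subgroup.zpowers a ⊓ Subgroup.zpowers b) ∣ p := by
            rw [← haO', ← Nat.card_zpowers]; exact Subgroup.card_dvd_of_le inf_le_left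
          have h1 : Nat.card ↥(Subgroup.zpowers a ⊓ Subgroup.zpowers b) ≠ 1 := by
            intro h
            exact hne (Subgroup.card_eq_one.1 h)
          have h2 : Nat.card ↥(Subgroup.zpowers a ⊓ Subgroup.zpowers b) = p := (Nat.dvd_prime hp).1 hd |>.resolve_left h1
          have h3 : Subgroup.zpowers a ⊓ Subgroup.zpowers b = Subgroup.zpowers a :=
            Subgroup.eq_of_le_of_card_ge inf_le_left (by rw [h2, Nat.card_zpowers, haO'])
          have h4 : a ∈ Subgroup.zpowers b := by
            have : a ∈ Subgroup.zpowers a ⊓ Subgroup.zpowers b := by rw [h3]; exact Subgroup.mem_zpowers a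
            exact this.2
          apply hwz
          obtain ⟨k, hk⟩ := Subgroup.mem_zpowers_iff.1 h4
          refine Subgroup.mem_zpowers_iff.2 ⟨k, Subtype.ext ?_⟩
          simpa [a, b] using hk
        have h1 := Cfsg.Agent.Lib.H5Basic.card_mul_card_le (Subgroup.zpowers a) (Subgroup.zpowers b)
        rw [hinf, Nat.card_zpowers, Nat.card_zpowers, haO', hbO', Subgroup.card_bot, mul_one] at h1
        calc p ^ 2 = p * p := by ring
          _ ≤ _ := h1
          _ ≤ _ := Nat.card_le_card_of_injective _ (Subgroup.inclusion_injective hz)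
      -- X ≤ H
      let X : Subgroup G := pPrimeCore p G
      have hXn : X.Normal := Cfsg.Agent.Lib.FitCore.pPrimeCore_normal p
      have hX : ¬ p ∣ Nat.card X := Cfsg.Agent.Lib.FitCore.not_dvd_card_pPrimeCore p hp
      have hXH : X ≤ H := by
        have hgen := Cfsg.Agent.Lib.CoprimeGen.gen_all (p := p) A X hAcomm hAexp hAcard
          (fun g _ x hx => hXn.conj_mem x hx g) hX
        refine hgen.trans (iSup_le ?_)
        rintro ⟨B, hBA, hBi⟩
        rintro x ⟨-, hxc⟩
        have hBH : B ≤ H := (hBA.trans hAP).trans hP₀H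
        have hBp : IsPGroup p B := P₀.isPGroup'.to_le (hBA.trans hAP)
        have hBne : B ≠ ⊥ := by
          intro hB
          rw [hB] at hBi
          have h3 : (⊥ : Subgroup G).relIndex A = Nat.card A := Subgroup.relIndex_bot_left A
          rw [h3] at hBi
          rw [hBi] at hAcard
          have := hp.two_le
          nlinarith
        apply Cfsg.Agent.Lib.H5Strong.mem_of_le_of_le hse hBp hBne hBH
        intro u hu
        refine ⟨u, hBH hu, ?_⟩
        have h5 := (Subgroup.mem_centralizer_iff.1 hxc) u hu
        change x * u * x⁻¹ = u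
        rw [← h5]; group
      -- p divides |L|
      let L : Subgroup G := pPrimePCore p G
      haveI hLn : L.Normal := Cfsg.Agent.Lib.PLength.pPrimePCore_normal
      have hLH : L ≤ H := (Cfsg.Agent.Lib.PLength.pPrimePCore_le_sup P₀).trans (sup_le hXH hP₀H)
      have hcoreQ : pCore p (G ⧸ pPrimeCore p G) ≠ ⊥ := by
        intro hb
        haveI : (pPrimeCore p G).Normal := hXn
        have h1 := Cfsg.Agent.Lib.CharBlockPSolv.centralizer_pCore_le_of_pSolvable
          (Cfsg.Agent.Lib.UpperP.isPSolvable_quotient hsol (pPrimeCore p G))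
          (Cfsg.Agent.Lib.PComps.pPrimeCore_quotient_eq_bot (p := p) (G := G))
        rw [hb] at h1
        have htop : X = ⊤ := by
          rw [eq_top_iff]
          intro g _
          have h2 : (QuotientGroup.mk g : G ⧸ pPrimeCore p G) ∈ (⊥ : Subgroup (G ⧸ pPrimeCore p G)) := by
            apply h1
            rw [Subgroup.mem_centralizer_iff]
            intro h hh
            have hh' : h = 1 := by simpa using hh
            rw [hh', one_mul, mul_one]
          rw [Subgroup.mem_bot] at h2
          exact (QuotientGroup.eq_one_iff g).1 h2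
        apply hX
        rw [htop, Subgroup.card_top]
        exact hdiv
      have hpL : p ∣ Nat.card L := by
        haveI : (pPrimeCore p G).Normal := hXn
        have h1 : p ∣ Nat.card (pCore p (G ⧸ pPrimeCore p G)) :=
          Cfsg.Agent.Lib.H5Basic.dvd_card_of_isPGroup (Cfsg.Agent.Lib.PCore.isPGroup_pCore p _) hcoreQ
        let f : G →* G ⧸ pPrimeCore p G := QuotientGroup.mk' (pPrimeCore p G)
        have hfs : Function.Surjective f := QuotientGroup.mk'_surjective _
        have h2 : L.map f = pCore p (G ⧸ pPrimeCore p G) :=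
          Subgroup.map_comap_eq_self_of_surjective hfs _
        have h3 : Nat.card (L.map f) ∣ Nat.card L :=
          Subgroup.card_dvd_of_surjective (f.subgroupMap L) (f.subgroupMap_surjective L)
        rw [h2] at h3
        exact h1.trans h3
      obtain ⟨Q, hQ⟩ := Cfsg.Agent.Lib.PIrreducible.exists_sylow_inf_normal (p := p) P₀ (N := L)
      have hTne : (P₀ : Subgroup G) ⊓ L ≠ ⊥ := by
        rw [← hQ]
        intro hb
        have := (Subgroup.map_eq_bot_iff_of_injective _ L.subtype_injective).1 hb
        exact Q.ne_bot_of_dvd_card hpL this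
      have hfrat := Sylow.normalizer_sup_eq_top Q
      have hQ' : ((Q : Subgroup L).map L.subtype : Set G) = (((P₀ : Subgroup G) ⊓ L : Subgroup G) : Set G) := by
        rw [hQ]
      rw [hQ'] at hfrat
      have hn := Cfsg.Agent.Lib.H5Strong.normalizer_le hse (P₀.isPGroup'.to_le (inf_le_left : (P₀ : Subgroup G) ⊓ L ≤ P₀)) hTne (inf_le_left.trans hP₀H)
      apply hHtop
      rw [eq_top_iff, ← hfrat]
      exact sup_le hn hLH
    -- transfer to P
    let e : ↥(P : Subgroup G) ≃* ↥(P₀ : Subgroup G) := Sylow.equiv P P₀
    have hU' : Cfsg.Agent.Lib.UniqueSub.UniqueP p ↥(P : Subgroup G) := by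
      intro x y hx hy
      have h1 := hU (e x) (e y) (by rw [e.orderOf_eq]; exact hx) (by rw [e.orderOf_eq]; exact hy)
      obtain ⟨k, hk⟩ := Subgroup.mem_zpowers_iff.1 h1
      refine Subgroup.mem_zpowers_iff.2 ⟨k, ?_⟩
      apply e.injective
      rw [map_zpow]; exact hk
    rcases Cfsg.Agent.Lib.UniqueSub.cyclic_or_quaternion P.isPGroup' hU' with h | ⟨h2, k, _, h3⟩
    · exact Or.inl h
    · exact Or.inr ⟨h2, k, h3⟩
  · rintro ⟨hcore, hP⟩ hconn
    -- unique order-p subgroup in every Sylow
    have hPne : (P : Subgroup G) ≠ ⊥ := P.ne_bot_of_dvd_card hdiv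
    have hT : ∀ (T : Sylow p G) {x y : G}, x ∈ (T : Subgroup G) → y ∈ (T : Subgroup G) → x ^ p = 1 → x ≠ 1 → y ^ p = 1 →
        y ∈ Subgroup.zpowers x := by
      intro T x y hx hy h1 h2 h3
      refine Cfsg.Agent.Lib.StrongEmb.unique_of_cyclic_or_quaternion T (T.ne_bot_of_dvd_card hdiv) ?_ hx hy h1 h2 h3
      rcases hP with h | ⟨_, n, ⟨e⟩⟩
      · left
        exact isCyclic_of_surjective (Sylow.equiv P T) (Sylow.equiv P T).surjective
      · right
        exact ⟨2 ^ n, ⟨(Sylow.equiv T P).trans e⟩⟩
    obtain ⟨w, hwO⟩ := exists_prime_orderOf_dvd_card' (G := ↥(P : Subgroup G)) p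
      (Cfsg.Agent.Lib.H5Basic.dvd_card_of_isPGroup P.isPGroup' hPne)
    have hwO' : orderOf (w : G) = p := by rw [Subgroup.orderOf_coe]; exact hwO
    have hw1 : (w : G) ^ p = 1 := orderOf_dvd_iff_pow_eq_one.1 (dvd_of_eq hwO')
    have hall : ∀ T : Sylow p G, (w : G) ∈ (T : Subgroup G) := by
      intro T
      obtain ⟨n, c, h0, hl, _, hc⟩ := hconn P T
      have key : ∀ i : Fin (n + 1), (w : G) ∈ (c i : Subgroup G) := by
        intro i
        induction i using Fin.induction with
        | zero => rw [h0]; exact w.2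
        | succ i ih =>
          obtain ⟨-, hne⟩ := hc i
          have hpg : IsPGroup p ↥((c i.castSucc : Subgroup G) ⊓ (c i.succ : Subgroup G)) :=
            (c i.castSucc).isPGroup'.to_le inf_le_left
          obtain ⟨v, hvO⟩ := exists_prime_orderOf_dvd_card' p (Cfsg.Agent.Lib.H5Basic.dvd_card_of_isPGroup hpg hne)
          have hvO' : orderOf (v : G) = p := by rw [Subgroup.orderOf_coe]; exact hvO
          have hv1 : (v : G) ^ p = 1 := orderOf_dvd_iff_pow_eq_one.1 (dvd_of_eq hvO')
          have hvne : (v : G) ≠ 1 := by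
            intro h
            rw [h, orderOf_one] at hvO'
            exact hp.one_lt.ne hvO'
          have h1 := hT (c i.castSucc) v.2.1 ih hv1 hvne hw1
          exact (Subgroup.zpowers_le.2 v.2.2) h1
      have := key (Fin.last n)
      rwa [hl] at this
    let N : Subgroup G := ⨅ T : Sylow p G, (T : Subgroup G)
    have hNn : N.Normal := by
      refine ⟨fun x hx g => ?_⟩
      rw [Subgroup.mem_iInf] at hx ⊢
      intro T
      have h1 := hx (g⁻¹ • T)
      have h2 := Cfsg.Agent.Lib.H5Basic.conj_mem_smul_sylow (g⁻¹ • T) g x h1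
      rwa [smul_inv_smul] at h2
    have hNp : IsPGroup p N := P.isPGroup'.to_le (iInf_le _ P)
    have hwN : (w : G) ∈ N := Subgroup.mem_iInf.2 hall
    have h3 := Cfsg.Agent.Lib.PCore.le_pCore hNn hNp hwN
    rw [hcore, Subgroup.mem_bot] at h3
    rw [h3, orderOf_one] at hwO'
    exact hp.one_lt.ne hwO'

end Cfsg.Agent.S3057
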