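import Cfsg.Statements.S3058
import Mathlib
import Cfsg.Agent.S3056
import Cfsg.Agent.Lib.H5Strong
import Cfsg.Agent.Lib.PIrreducible
import Cfsg.Agent.Lib.CoprimeGen
import Cfsg.Agent.Lib.SchurZ

set_option autoImplicit false
set_option linter.style.haveILetI false
set_option linter.unusedVariables false
open scoped ComplexConjugate
open Cfsg

namespace Cfsg.Agent.S3058

/-- Let p be a prime and G a finite group whose Sylow p-subgroups are not chain-connected through nontrivial intersections (so G has a strongly p-embedded subgroup). If N and M are normal subgroups of G whose orders are both divisible by p, then the order of N ∩ M is divisible by p. Consequently, among the normal subgroups of G whose order is divisible by p there is a smallest one (the intersection of all of them). -/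
theorem result {G : Type*} [Group G] [Finite G]
    (p : ℕ) [Fact p.Prime] (hG : ¬ Cfsg.IsSylowChainConnected p G)
    (N M : Subgroup G) [N.Normal] [M.Normal] (hN : p ∣ Nat.card N) (hM : p ∣ Nat.card M) :
    p ∣ Nat.card ↥(N ⊓ M) := by
  classical
  by_contra hnd
  have hp : p.Prime := Fact.out
  obtain ⟨H, hHtop, hpH, hse⟩ := (Cfsg.Agent.S3056.result p).1 hG
  obtain ⟨P, hPH⟩ := Cfsg.Agent.Lib.H5Strong.exists_sylow_le hpH hse
  have hsyl : ∀ (L : Subgroup G) [L.Normal], p ∣ Nat.card L →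
      (P : Subgroup G) ⊓ L ≠ ⊥ ∧ Subgroup.normalizer (((P : Subgroup G) ⊓ L : Subgroup G) : Set G) ⊔ L = ⊤ := by
    intro L _ hL
    obtain ⟨Q, hQ⟩ := Cfsg.Agent.Lib.PIrreducible.exists_sylow_inf_normal (p := p) P (N := L)
    constructor
    · rw [← hQ]
      intro hb
      have := (Subgroup.map_eq_bot_iff_of_injective _ L.subtype_injective).1 hb
      exact Q.ne_bot_of_dvd_card hL this
    · have hfrat := Sylow.normalizer_sup_eq_top Q
      have hQ' : ((Q : Subgroup L).map L.subtype : Set G) = (((P : Subgroup G) ⊓ L : Subgroup G) : Set G) := by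
        rw [hQ]
      rw [← hQ']; exact hfrat
  obtain ⟨hTN, -⟩ := hsyl N hN
  obtain ⟨hTM, hfrat⟩ := hsyl M hM
  let X : Subgroup G := N ⊓ M
  have hXn : X.Normal := inferInstance
  have hX : ¬ p ∣ Nat.card X := hnd
  have hPX : (P : Subgroup G) ⊓ X = ⊥ := by
    have h1 : IsPGroup p ↥((P : Subgroup G) ⊓ X) := P.isPGroup'.to_le inf_le_left
    by_contra hne
    exact hX ((Cfsg.Agent.Lib.H5Basic.dvd_card_of_isPGroup h1 hne).trans (Subgroup.card_dvd_of_le inf_le_right))
  have hcommX : ∀ a ∈ N, ∀ b ∈ M, a * b * a⁻¹ * b⁻¹ ∈ X := by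
    intro a ha b hb
    refine ⟨?_, ?_⟩
    · have h1 : b * a⁻¹ * b⁻¹ ∈ N := ‹N.Normal›.conj_mem _ (N.inv_mem ha) b
      have h2 := N.mul_mem ha h1
      have e : a * (b * a⁻¹ * b⁻¹) = a * b * a⁻¹ * b⁻¹ := by group
      rwa [e] at h2
    · have h1 : a * b * a⁻¹ ∈ M := ‹M.Normal›.conj_mem _ hb a
      exact M.mul_mem h1 (M.inv_mem hb)
  -- commuting
  have hcomm : ∀ a ∈ (P : Subgroup G) ⊓ N, ∀ b ∈ (P : Subgroup G) ⊓ M, a * b = b * a := by
    intro a ha b hb
    have h1 : a * b * a⁻¹ * b⁻¹ ∈ (P : Subgroup G) ⊓ X :=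
      ⟨(P : Subgroup G).mul_mem ((P : Subgroup G).mul_mem ((P : Subgroup G).mul_mem ha.1 hb.1) ((P : Subgroup G).inv_mem ha.1)) ((P : Subgroup G).inv_mem hb.1), hcommX a ha.2 b hb.2⟩
    rw [hPX, Subgroup.mem_bot] at h1
    have h2 : a * b * a⁻¹ * b⁻¹ * (b * a) = b * a := by rw [h1, one_mul]
    calc a * b = a * b * a⁻¹ * b⁻¹ * (b * a) := by group
      _ = b * a := h2
  -- elements of order p
  have hTNp : IsPGroup p ↥((P : Subgroup G) ⊓ N) := P.isPGroup'.to_le inf_le_left
  have hTMp : IsPGroup p ↥((P : Subgroup G) ⊓ M) := P.isPGroup'.to_le inf_le_left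
  obtain ⟨a, haO⟩ := exists_prime_orderOf_dvd_card' (G := ↥((P : Subgroup G) ⊓ N)) p
    (Cfsg.Agent.Lib.H5Basic.dvd_card_of_isPGroup hTNp hTN)
  obtain ⟨b, hbO⟩ := exists_prime_orderOf_dvd_card' (G := ↥((P : Subgroup G) ⊓ M)) p
    (Cfsg.Agent.Lib.H5Basic.dvd_card_of_isPGroup hTMp hTM)
  have haO' : orderOf (a : G) = p := by rw [Subgroup.orderOf_coe]; exact haO
  have hbO' : orderOf (b : G) = p := by rw [Subgroup.orderOf_coe]; exact hbO
  have hab : (a : G) * b = b * a := hcomm a a.2 b b.2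
  let A : Subgroup G := Subgroup.closure ({(a : G), (b : G)} : Set G)
  have hAcomm : ∀ x ∈ A, ∀ y ∈ A, x * y = y * x := by
    have hs : ∀ x ∈ ({(a : G), (b : G)} : Set G), ∀ y ∈ ({(a : G), (b : G)} : Set G), x * y = y * x := by
      intro x hx y hy
      rcases hx with rfl | rfl <;> rcases hy with rfl | rfl
      · rfl
      · exact hab
      · exact hab.symm
      · rfl
    let _ := Subgroup.closureCommGroupOfComm hs
    intro x hx y hy
    have := mul_comm (⟨x, hx⟩ : ↥(Subgroup.closure ({(a : G), (b : G)} : Set G))) ⟨y, hy⟩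
    exact congrArg Subtype.val this
  have hAexp : ∀ x ∈ A, x ^ p = 1 := by
    intro x hx
    induction hx using Subgroup.closure_induction with
    | mem x hx =>
      rcases hx with rfl | rfl
      · exact orderOf_dvd_iff_pow_eq_one.1 (dvd_of_eq haO')
      · exact orderOf_dvd_iff_pow_eq_one.1 (dvd_of_eq hbO')
    | one => simp
    | mul x y hx hy ihx ihy =>
      rw [(show Commute x y from hAcomm x hx y hy).mul_pow, ihx, ihy, one_mul]
    | inv x _ ih => rw [inv_pow, ih, inv_one]
  have hAP : A ≤ (P : Subgroup G) := by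
    rw [Subgroup.closure_le]
    rintro x (rfl | rfl)
    · exact a.2.1
    · exact b.2.1
  have hAcard : p ^ 2 ≤ Nat.card A := by
    have hz : Subgroup.zpowers (a : G) ⊔ Subgroup.zpowers (b : G) ≤ A := by
      refine sup_le ?_ ?_
      · rw [Subgroup.zpowers_le]; exact Subgroup.subset_closure (by simp)
      · rw [Subgroup.zpowers_le]; exact Subgroup.subset_closure (by simp)
    have hinf : Subgroup.zpowers (a : G) ⊓ Subgroup.zpowers (b : G) = ⊥ := by
      rw [eq_bot_iff, ← hPX]
      rintro x ⟨h1, h2⟩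
      refine ⟨?_, ?_, ?_⟩
      · exact (Subgroup.zpowers_le.2 a.2.1) h1
      · exact (Subgroup.zpowers_le.2 a.2.2) h1
      · exact (Subgroup.zpowers_le.2 b.2.2) h2
    have h1 := Cfsg.Agent.Lib.H5Basic.card_mul_card_le (Subgroup.zpowers (a : G)) (Subgroup.zpowers (b : G))
    rw [hinf, Nat.card_zpowers, Nat.card_zpowers, haO', hbO', Subgroup.card_bot, mul_one] at h1
    calc p ^ 2 = p * p := by ring
      _ ≤ _ := h1
      _ ≤ _ := Nat.card_le_card_of_injective _ (Subgroup.inclusion_injective hz)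
  -- X ≤ H
  have hXH : X ≤ H := by
    have hgen := Cfsg.Agent.Lib.CoprimeGen.gen_all (p := p) A X hAcomm hAexp hAcard
      (fun g _ x hx => hXn.conj_mem x hx g) hX
    refine hgen.trans (iSup_le ?_)
    rintro ⟨B, hBA, hBi⟩
    rintro x ⟨-, hxc⟩
    have hBH : B ≤ H := (hBA.trans hAP).trans hPH
    have hBp : IsPGroup p B := P.isPGroup'.to_le (hBA.trans hAP)
    have hBne : B ≠ ⊥ := by
      intro hB
      rw [hB] at hBi
      have h3 : (⊥ : Subgroup G).relIndex A = Nat.card A := Subgroup.relIndex_bot_left A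
      rw [h3] at hBi
      rw [hBi] at hAcard
      have := hp.two_le
      nlinarith
    apply Cfsg.Agent.Lib.H5Strong.mem_of_le_of_le hse hBp hBne hBH
    intro u hu
    refine ⟨u, hBH hu, ?_⟩
    have h5 := (Subgroup.mem_centralizer_iff.1 hxc) u hu
    change x * u * x⁻¹ = u
    rw [← h5]; group
  -- M ≤ H
  have hTNH : (P : Subgroup G) ⊓ N ≤ H := inf_le_left.trans hPH
  have hTNn : Subgroup.normalizer (((P : Subgroup G) ⊓ N : Subgroup G) : Set G) ≤ H :=
    Cfsg.Agent.Lib.H5Strong.normalizer_le hse hTNp hTN hTNH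
  have hMH : M ≤ H := by
    intro g hg
    let T : Subgroup G := (P : Subgroup G) ⊓ N
    have hcop : Nat.Coprime (Nat.card X) (Nat.card T) := by
      obtain ⟨k, hk⟩ := IsPGroup.iff_card.1 hTNp
      rw [hk]
      exact Nat.Coprime.pow_right k ((Nat.Prime.coprime_iff_not_dvd hp).2 hX).symm
    have hB : T.map (MulAut.conj g).toMonoidHom ≤ X ⊔ T := by
      rintro _ ⟨t, ht, rfl⟩
      have e : (MulAut.conj g).toMonoidHom t = (t * g * t⁻¹ * g⁻¹)⁻¹ * t := by
        simp [MulAut.conj_apply]; group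
      rw [e]
      exact Subgroup.mul_mem_sup (X.inv_mem (hcommX t ht.2 g hg)) ht
    have hc : Nat.card ↥(T.map (MulAut.conj g).toMonoidHom) = Nat.card T :=
      Cfsg.Agent.Lib.H5Basic.card_map_conj T g
    obtain ⟨n, hnX, hn⟩ := Cfsg.Agent.Lib.SchurZ.sz_conj_ambient X T (T.map (MulAut.conj g).toMonoidHom)
      (fun t _ => (Subgroup.mem_normalizer_iff.2 (fun x => ⟨fun h => hXn.conj_mem x h t, fun h => by
        have := hXn.conj_mem _ h t⁻¹
        simpa [mul_assoc] using this⟩))) hB hc hcop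
      (Or.inr (by
        haveI : Group.IsNilpotent T := hTNp.isNilpotent
        infer_instance))
    have hnorm : n⁻¹ * g ∈ Subgroup.normalizer ((T : Subgroup G) : Set G) := by
      apply Cfsg.Agent.Lib.H5Basic.mem_normalizer_of_map_conj_le
      rintro _ ⟨t, ht, rfl⟩
      have h1 : (MulAut.conj g).toMonoidHom t ∈ T.map (MulAut.conj g).toMonoidHom := ⟨t, ht, rfl⟩
      rw [← hn] at h1
      obtain ⟨t', ht', he⟩ := h1
      have he' : n * t' * n⁻¹ = g * t * g⁻¹ := by simpa [MulAut.conj_apply] using he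
      have e : (MulAut.conj (n⁻¹ * g)).toMonoidHom t = t' := by
        simp only [MulEquiv.coe_toMonoidHom, MulAut.conj_apply]
        calc n⁻¹ * g * t * (n⁻¹ * g)⁻¹ = n⁻¹ * (g * t * g⁻¹) * n := by group
          _ = n⁻¹ * (n * t' * n⁻¹) * n := by rw [he']
          _ = t' := by group
      rw [e]
      exact ht'
    have h1 := hTNn hnorm
    have h2 : n ∈ H := hXH hnX
    have : g = n * (n⁻¹ * g) := by group
    rw [this]
    exact H.mul_mem h2 h1
  apply hHtop
  rw [eq_top_iff, ← hfrat]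
  refine sup_le ?_ hMH
  exact Cfsg.Agent.Lib.H5Strong.normalizer_le hse hTMp hTM (inf_le_left.trans hPH)

end Cfsg.Agent.S3058
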