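import Mathlib
import Cfsg.Agent.Lib.H5Strong
import Cfsg.Agent.Lib.PIrreducible
import Cfsg.Statements.S3059
-- import your own Cfsg.Agent.* helpers here

set_option autoImplicit false
open Cfsg

namespace Cfsg.Agent.S3059

/-- Let p be a prime and H a strongly p-embedded subgroup of the finite group G in the classical sense: H is proper, p divides the order of H, and H ∩ gHg⁻¹ has order prime to p for every g outside H. Then for every normal subgroup N of G of order divisible by p, G = H · O^p(N), where O^p(N) is the subgroup generated by the elements of N of order prime to p. -/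
theorem result {G : Type*} [Group G] [Finite G]
    (p : ℕ) [Fact p.Prime] (H : Subgroup G) (hH : H ≠ ⊤) (hpH : p ∣ Nat.card H)
    (hse : ∀ g : G, g ∉ H → ¬ p ∣ Nat.card ↥(H ⊓ H.map (MulAut.conj g).toMonoidHom))
    (N : Subgroup G) [N.Normal] (hN : p ∣ Nat.card N) :
    H ⊔ Subgroup.closure {g : G | g ∈ N ∧ (orderOf g).Coprime p} = ⊤ := by
  classical
  obtain ⟨P, hPH⟩ := Cfsg.Agent.Lib.H5Strong.exists_sylow_le hpH hse
  obtain ⟨Q, hQ⟩ := Cfsg.Agent.Lib.PIrreducible.exists_sylow_inf_normal (p := p) P (N := N)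
  set K := Subgroup.closure {g : G | g ∈ N ∧ (orderOf g).Coprime p} with hK
  have hp : p.Prime := Fact.out
  have hTne : (P : Subgroup G) ⊓ N ≠ ⊥ := by
    rw [← hQ]
    intro hb
    have := (Subgroup.map_eq_bot_iff_of_injective _ N.subtype_injective).1 hb
    exact Q.ne_bot_of_dvd_card hN this
  have hnorm : Subgroup.normalizer (((P : Subgroup G) ⊓ N : Subgroup G) : Set G) ≤ H :=
    Cfsg.Agent.Lib.H5Strong.normalizer_le hse (P.isPGroup'.to_le inf_le_left) hTne
      (inf_le_left.trans hPH)
  have hfrat := Sylow.normalizer_sup_eq_top Q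
  have hQ' : ((Q : Subgroup N).map N.subtype : Set G) = (((P : Subgroup G) ⊓ N : Subgroup G) : Set G) := by
    rw [hQ]
  have hfrat' : Subgroup.normalizer (((P : Subgroup G) ⊓ N : Subgroup G) : Set G) ⊔ N = ⊤ := by
    rw [← hQ']; exact hfrat
  suffices hNle : N ≤ H ⊔ K by
    rw [eq_top_iff, ← hfrat']
    exact sup_le (hnorm.trans le_sup_left) hNle
  have hKn : K.Normal := by
    constructor
    intro n hn g
    induction hn using Subgroup.closure_induction with
    | mem x hx =>
      apply Subgroup.subset_closure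
      refine ⟨(inferInstance : N.Normal).conj_mem x hx.1 g, ?_⟩
      have : orderOf (g * x * g⁻¹) = orderOf x := by
        have := (MulAut.conj g).orderOf_eq x
        simpa [MulAut.conj_apply] using this
      rw [this]
      exact hx.2
    | one => simp [K.one_mem]
    | mul x y _ _ hx hy =>
      have : g * (x * y) * g⁻¹ = (g * x * g⁻¹) * (g * y * g⁻¹) := by group
      rw [this]
      exact K.mul_mem hx hy
    | inv x _ hx =>
      have : g * x⁻¹ * g⁻¹ = (g * x * g⁻¹)⁻¹ := by group
      rw [this]
      exact K.inv_mem hx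
  have hK' : (K.subgroupOf N).Normal := inferInstance
  have hpg : IsPGroup p (↥N ⧸ K.subgroupOf N) := by
    intro q
    induction q using QuotientGroup.induction_on with
    | H n =>
      obtain ⟨a, m, hm, he⟩ := Nat.exists_eq_pow_mul_and_not_dvd (orderOf_pos n).ne' p hp.ne_one
      refine ⟨a, ?_⟩
      rw [← QuotientGroup.mk_pow, QuotientGroup.eq_one_iff, Subgroup.mem_subgroupOf]
      apply Subgroup.subset_closure
      refine ⟨(n ^ p ^ a).2, ?_⟩
      have h1 : orderOf (n ^ p ^ a) = m := by
        have hpa : p ^ a ≠ 0 := pow_ne_zero _ hp.ne_zero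
        rw [orderOf_pow_of_dvd hpa ⟨m, he⟩]
        rw [he]
        exact Nat.mul_div_cancel_left _ (Nat.pos_of_ne_zero hpa)
      have h2 : orderOf ((n ^ p ^ a : ↥N) : G) = m := by
        rw [Subgroup.orderOf_coe, h1]
      rw [h2]
      exact ((Nat.Prime.coprime_iff_not_dvd hp).2 hm).symm
  obtain ⟨c, hc⟩ := IsPGroup.iff_card.1 hpg
  set M : Subgroup ↥N := (((P : Subgroup G) ⊓ N) ⊔ K).subgroupOf N with hM
  have hM1 : M.index ∣ (K.subgroupOf N).index :=
    Subgroup.index_dvd_of_le (fun x hx => by
      rw [hM, Subgroup.mem_subgroupOf]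
      exact Subgroup.mem_sup_right (Subgroup.mem_subgroupOf.1 hx))
  have hM2 : M.index ∣ (Q : Subgroup N).index := by
    apply Subgroup.index_dvd_of_le
    intro q hq
    rw [hM, Subgroup.mem_subgroupOf]
    apply Subgroup.mem_sup_left
    rw [← hQ]
    exact ⟨q, hq, rfl⟩
  have hM3 : M.index = 1 := by
    have hM1' : M.index ∣ p ^ c := by
      rw [← hc, ← Subgroup.index_eq_card]
      exact hM1
    obtain ⟨k, -, hk⟩ := (Nat.dvd_prime_pow hp).1 hM1'
    rcases k with _ | k
    · simpa using hk
    · exfalso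
      apply Q.not_dvd_index
      rw [hk] at hM2
      exact (dvd_pow_self p (Nat.succ_ne_zero k)).trans hM2
  have hM4 : M = ⊤ := Subgroup.index_eq_one.1 hM3
  intro n hn
  have h5 : (⟨n, hn⟩ : ↥N) ∈ M := by rw [hM4]; trivial
  rw [hM, Subgroup.mem_subgroupOf] at h5
  exact (sup_le_sup_right (inf_le_left.trans hPH) K) h5

end Cfsg.Agent.S3059
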