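import Mathlib
import Cfsg.Agent.Lib.DStar
import Cfsg.Agent.Lib.Replacement
import Cfsg.Statements.S3062
-- import your own Cfsg.Agent.* helpers here

set_option autoImplicit false
open Cfsg

namespace Cfsg.Agent.S3062

open Cfsg.Agent.Lib.DStar

/-- An abelian subgroup normalized by `D*(S)` is centralized by it. -/
theorem comm_of_le_normalizer {S : Type*} [Group S] [Finite S] {p : ℕ} [Fact p.Prime]
    (hS : IsPGroup p S) {A : Subgroup S} (hA : ∀ a ∈ A, ∀ b ∈ A, a * b = b * a)
    (hN : Cfsg.dStar S ≤ Subgroup.normalizer (A : Set S)) {x : S} (hx : x ∈ A) :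
    ∀ d ∈ Cfsg.dStar S, d * x = x * d := by
  have hD := dStar_mem_family hS
  have hDc := (imc_iff _).1 hD.1
  have hDn := dStar_normal S
  apply hD.2 x
  have hKc : Cfsg.dStar S ⊔ Subgroup.zpowers x =
      Subgroup.closure ((Cfsg.dStar S : Set S) ∪ {x}) := by
    rw [Subgroup.closure_union, Subgroup.closure_eq, Subgroup.zpowers_eq_closure]
  rw [hKc]
  have hE1 : ∀ d ∈ Cfsg.dStar S, d * x * d⁻¹ * x⁻¹ ∈ Cfsg.dStar S := by
    intro d hd
    have h1 : d * x * d⁻¹ * x⁻¹ = d * (x * d⁻¹ * x⁻¹) := by group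
    rw [h1]
    exact Subgroup.mul_mem _ hd (hDn.conj_mem _ (Subgroup.inv_mem _ hd) x)
  have hE2 : ∀ d ∈ Cfsg.dStar S, d * x * d⁻¹ * x⁻¹ ∈ A := by
    intro d hd
    exact A.mul_mem ((Subgroup.mem_normalizer_iff.1 (hN hd) x).1 hx) (A.inv_mem hx)
  have hcen : ∀ z, z ∈ Cfsg.dStar S → z ∈ A →
      ∀ r ∈ (Cfsg.dStar S : Set S) ∪ {x}, z * r = r * z := by
    intro z hz1 hz2 r hr
    rcases hr with hr | hr
    · exact hDc z hz1 r hr
    · rw [Set.mem_singleton_iff] at hr
      rw [hr]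
      exact hA z hz2 x hx
  apply class_two_of_gens
  rintro s (hs | hs) t (ht | ht) r hr
  · have : s * t * s⁻¹ * t⁻¹ = 1 := by
      rw [hDc s hs t ht]; group
    rw [this]; simp
  · rw [Set.mem_singleton_iff] at ht
    rw [ht]
    exact hcen _ (hE1 s hs) (hE2 s hs) r hr
  · rw [Set.mem_singleton_iff] at hs
    rw [hs]
    have h1 : x * t * x⁻¹ * t⁻¹ = (t * x * t⁻¹ * x⁻¹)⁻¹ := by group
    rw [h1]
    have h2 := hcen _ (hE1 t ht) (hE2 t ht) r hr
    have h3 := (Commute.inv_left (show Commute (t * x * t⁻¹ * x⁻¹) r from h2))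
    exact h3
  · rw [Set.mem_singleton_iff] at hs ht
    rw [hs, ht]
    have : x * x * x⁻¹ * x⁻¹ = 1 := by group
    rw [this]; simp

/-- If `D*(S)` normalizes the abelian subgroup `A` and `A` is maximal among abelian subgroups
containing it of its kind, then `D*(S) ≤ A`. -/
theorem sup_comm {S : Type*} [Group S] [Finite S] {p : ℕ} [Fact p.Prime]
    (hS : IsPGroup p S) {A : Subgroup S} (hA : ∀ a ∈ A, ∀ b ∈ A, a * b = b * a)
    (hN : Cfsg.dStar S ≤ Subgroup.normalizer (A : Set S)) :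
    ∀ u ∈ A ⊔ Cfsg.dStar S, ∀ v ∈ A ⊔ Cfsg.dStar S, u * v = v * u := by
  have hD := dStar_mem_family hS
  have hDc := (imc_iff _).1 hD.1
  have hsup : A ⊔ Cfsg.dStar S = Subgroup.closure ((A : Set S) ∪ (Cfsg.dStar S : Set S)) := by
    rw [Subgroup.closure_union, Subgroup.closure_eq, Subgroup.closure_eq]
  rw [hsup]
  apply comm_closure
  rintro s (hs | hs) t (ht | ht)
  · exact hA s hs t ht
  · exact (comm_of_le_normalizer hS hA hN hs t ht).symm
  · exact comm_of_le_normalizer hS hA hN ht s hs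
  · exact hDc s hs t ht

/-- Every abelian subgroup of largest order contains `D*(S)`. -/
theorem le_of_max {S : Type*} [Group S] [Finite S] {p : ℕ} [Fact p.Prime]
    (hS : IsPGroup p S) : ∀ (k : ℕ) (A : Subgroup S), (∀ a ∈ A, ∀ b ∈ A, a * b = b * a) →
      (∀ B : Subgroup S, (∀ a ∈ B, ∀ b ∈ B, a * b = b * a) → Nat.card B ≤ Nat.card A) →
      Nat.card (Cfsg.dStar S) - Nat.card ↥(A ⊓ Cfsg.dStar S) = k → Cfsg.dStar S ≤ A := by
  intro k
  induction k using Nat.strong_induction_on with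
  | _ k ih =>
  intro A hA hmax hk
  have hD := dStar_mem_family hS
  have hDc := (imc_iff _).1 hD.1
  have hDn := dStar_normal S
  have hcase : Cfsg.dStar S ≤ Subgroup.normalizer (A : Set S) → Cfsg.dStar S ≤ A := by
    intro hN
    have h1 := sup_comm hS hA hN
    have h2 := hmax _ h1
    have h3 : A = A ⊔ Cfsg.dStar S := Subgroup.eq_of_le_of_card_ge le_sup_left h2
    rw [h3]
    exact le_sup_right
  apply hcase
  by_contra hne
  have hAD : A ≤ Subgroup.normalizer (Cfsg.dStar S : Set S) := by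
    rw [Subgroup.normalizer_eq_top_iff.2 hDn]
    exact le_top
  obtain ⟨A', hA'c, hcard, hlt, hA'N, -⟩ :=
    Cfsg.Agent.Lib.Replacement.replacement hS hA hDc hAD hne
  have hmax' : ∀ B : Subgroup S, (∀ a ∈ B, ∀ b ∈ B, a * b = b * a) → Nat.card B ≤ Nat.card A' :=
    fun B hB => (hmax B hB).trans hcard
  have hcardlt : Nat.card ↥(A ⊓ Cfsg.dStar S) < Nat.card ↥(A' ⊓ Cfsg.dStar S) := by
    by_contra hge
    push Not at hge
    exact hlt.ne (Subgroup.eq_of_le_of_card_ge hlt.le hge)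
  have hlecard : Nat.card ↥(A' ⊓ Cfsg.dStar S) ≤ Nat.card (Cfsg.dStar S) :=
    Subgroup.card_le_of_le inf_le_right
  have hlt2 : Nat.card (Cfsg.dStar S) - Nat.card ↥(A' ⊓ Cfsg.dStar S) < k := by omega
  exact hne ((ih _ hlt2 A' hA'c hmax' rfl).trans hA'N)


/-- Let S be a finite p-group, J(S) the subgroup generated by the abelian subgroups of S of largest order and Z(J(S)) its centre. Then Z(S) ≤ D*(S) ≤ Z(J(S)), and every maximal normal abelian subgroup of S contains D*(S). -/
theorem result {S : Type*} [Group S] [Finite S] {p : ℕ} [Fact p.Prime]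
    (hS : IsPGroup p S) :
    Subgroup.center S ≤ Cfsg.dStar S ∧
    Cfsg.dStar S ≤ Cfsg.thompsonSubgroupA S ⊓ Subgroup.centralizer (Cfsg.thompsonSubgroupA S : Set S) ∧
    ∀ A : Subgroup S, A.Normal → IsMulCommutative A →
      (∀ B : Subgroup S, B.Normal → IsMulCommutative B → A ≤ B → B = A) → Cfsg.dStar S ≤ A := by
  have hD := dStar_mem_family hS
  have hDc := (imc_iff _).1 hD.1
  have hDn := dStar_normal S
  have hmaxle : ∀ A ∈ Cfsg.maxAbelianSubgroups S, Cfsg.dStar S ≤ A := by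
    intro A hA
    refine le_of_max hS _ A ((imc_iff _).1 hA.1) ?_ rfl
    intro B hB
    exact hA.2 B ((imc_iff _).2 hB)
  refine ⟨?_, ?_, ?_⟩
  · apply le_sSup
    refine ⟨?_, ?_⟩
    · rw [imc_iff]
      intro a ha b _
      exact Subgroup.mem_center_iff.1 ha b |>.symm
    · intro x _ a ha
      exact (Subgroup.mem_center_iff.1 ha x).symm
  · -- existence of an abelian subgroup of largest order
    obtain ⟨A₀, hA₀⟩ : ∃ A₀ : Subgroup S, A₀ ∈ Cfsg.maxAbelianSubgroups S := by
      have hfin : Set.Finite {B : Subgroup S | IsMulCommutative B} := Set.toFinite _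
      have hne : {B : Subgroup S | IsMulCommutative B}.Nonempty :=
        ⟨⊥, (imc_iff _).2 (by
          intro a ha b hb
          rw [Subgroup.mem_bot] at ha hb
          rw [ha, hb])⟩
      obtain ⟨A₀, hA₀, hmax⟩ := Set.exists_max_image _ (fun B : Subgroup S => Nat.card B) hfin hne
      exact ⟨A₀, hA₀, fun B hB => hmax B hB⟩
    refine le_inf ((hmaxle A₀ hA₀).trans (le_sSup hA₀)) ?_
    have h1 : Cfsg.thompsonSubgroupA S ≤ Subgroup.centralizer (Cfsg.dStar S : Set S) := by
      apply sSup_le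
      intro A hA a ha
      rw [Subgroup.mem_centralizer_iff]
      intro d hd
      exact (imc_iff _).1 hA.1 d (hmaxle A hA hd) a ha
    intro d hd
    rw [Subgroup.mem_centralizer_iff]
    intro j hj
    exact (Subgroup.mem_centralizer_iff.1 (h1 hj) d hd).symm
  · intro A hAn hAc hmax
    have hN : Cfsg.dStar S ≤ Subgroup.normalizer (A : Set S) := by
      rw [Subgroup.normalizer_eq_top_iff.2 hAn]
      exact le_top
    have h1 := sup_comm hS ((imc_iff _).1 hAc) hN
    have h2 := hmax (A ⊔ Cfsg.dStar S) inferInstance ((imc_iff _).2 h1) le_sup_left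
    rw [← h2]
    exact le_sup_right

end Cfsg.Agent.S3062
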