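import Mathlib
import Cfsg.Agent.Lib.DStar
import Cfsg.Agent.Lib.Replacement
import Cfsg.Statements.S3063
-- import your own Cfsg.Agent.* helpers here

set_option autoImplicit false
open Cfsg

namespace Cfsg.Agent.S3063

open Cfsg.Agent.Lib.DStar Cfsg.Agent.Lib.Replacement Cfsg.Agent.Lib.H5Basic

variable {S : Type*} [Group S] [Finite S]

/-- The heart of the weak replacement theorem: the case where `[A, S]` normalizes `A`. -/
theorem core {A T : Subgroup S}
    (hA : ∀ a ∈ A, ∀ b ∈ A, a * b = b * a)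
    (hmax : ∀ B : Subgroup S, (∀ a ∈ B, ∀ b ∈ B, a * b = b * a) → Nat.card B ≤ Nat.card A)
    (hTdef : T = Subgroup.closure {y | ∃ a ∈ A, ∃ g : S, y = a * g * a⁻¹ * g⁻¹})
    (hT : ∀ a ∈ T, ∀ b ∈ T, a * b = b * a)
    (hTN : T ≤ Subgroup.normalizer (A : Set S)) :
    ∃ B : Subgroup S, (∀ a ∈ B, ∀ b ∈ B, a * b = b * a) ∧ Nat.card A ≤ Nat.card B ∧ B.Normal ∧
      B ≤ Subgroup.normalClosure (A : Set S) := by
  classical
  have hcT : ∀ a ∈ A, ∀ g : S, a * g * a⁻¹ * g⁻¹ ∈ T := by
    intro a ha g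
    rw [hTdef]
    exact Subgroup.subset_closure ⟨a, ha, g, rfl⟩
  -- `T` is normal
  have hTn : T.Normal := by
    constructor
    intro t ht g
    rw [hTdef] at ht
    induction ht using Subgroup.closure_induction with
    | mem y hy =>
      obtain ⟨a, ha, h, rfl⟩ := hy
      have h1 : g * (a * h * a⁻¹ * h⁻¹) * g⁻¹ =
          (a * g * a⁻¹ * g⁻¹)⁻¹ * (a * (g * h) * a⁻¹ * (g * h)⁻¹) := by group
      rw [h1]
      exact T.mul_mem (T.inv_mem (hcT a ha g)) (hcT a ha _)
    | one => simp [T.one_mem]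
    | mul x y _ _ hx hy =>
      have : g * (x * y) * g⁻¹ = (g * x * g⁻¹) * (g * y * g⁻¹) := by group
      rw [this]
      exact T.mul_mem hx hy
    | inv x _ hx =>
      have : g * x⁻¹ * g⁻¹ = (g * x * g⁻¹)⁻¹ := by group
      rw [this]
      exact T.inv_mem hx
  set R := T ⊓ A with hR
  let CA : Subgroup S → Subgroup S := fun W => A ⊓ Subgroup.centralizer (W : Set S)
  have hCAA : ∀ W, CA W ≤ A := fun W => inf_le_left
  have hCAc : ∀ W, ∀ c ∈ CA W, ∀ w ∈ W, w * c = c * w := by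
    intro W c hc w hw
    exact Subgroup.mem_centralizer_iff.1 hc.2 w hw
  have hmemCA : ∀ W c, c ∈ A → (∀ w ∈ W, w * c = c * w) → c ∈ CA W := by
    intro W c hc h
    exact ⟨hc, Subgroup.mem_centralizer_iff.2 h⟩
  have hRc : ∀ r ∈ R, ∀ a ∈ A, r * a = a * r := fun r hr a ha => hA r hr.2 a ha
  have hposR : 0 < Nat.card R := Nat.card_pos
  have hposA : 0 < Nat.card A := Nat.card_pos
  set m := Nat.card R * Nat.card A with hm
  have hmpos : 0 < m := Nat.mul_pos hposR hposA
  -- the basic inequality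
  have hstar : ∀ W : Subgroup S, R ≤ W → W ≤ T → Nat.card W * Nat.card (CA W) ≤ m := by
    intro W hRW hWT
    have h1 := card_mul_card_le W (CA W)
    have h2 : Nat.card ↥(W ⊔ CA W) ≤ Nat.card A := by
      apply hmax
      have hsup : W ⊔ CA W = Subgroup.closure ((W : Set S) ∪ (CA W : Set S)) := by
        rw [Subgroup.closure_union, Subgroup.closure_eq, Subgroup.closure_eq]
      rw [hsup]
      apply comm_closure
      rintro s (hs | hs) t (ht | ht)
      · exact hT s (hWT hs) t (hWT ht)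
      · exact hCAc W t ht s hs
      · exact (hCAc W s hs t ht).symm
      · exact hA s hs.1 t ht.1
    have h3 : Nat.card ↥(W ⊓ CA W) ≤ Nat.card R := by
      apply Subgroup.card_le_of_le
      intro x hx
      exact ⟨hWT hx.1, hx.2.1⟩
    calc Nat.card W * Nat.card (CA W) ≤ Nat.card ↥(W ⊔ CA W) * Nat.card ↥(W ⊓ CA W) := h1
      _ ≤ Nat.card A * Nat.card R := Nat.mul_le_mul h2 h3
      _ = m := by rw [hm, mul_comm]
  -- good subgroups
  let Good : Subgroup S → Prop := fun W => R ≤ W ∧ W ≤ T ∧ m ≤ Nat.card W * Nat.card (CA W)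
  have hgoodsup : ∀ W₁ W₂, Good W₁ → Good W₂ → Good (W₁ ⊔ W₂) := by
    rintro W₁ W₂ ⟨hR1, hT1, hc1⟩ ⟨hR2, hT2, hc2⟩
    refine ⟨hR1.trans le_sup_left, sup_le hT1 hT2, ?_⟩
    have h1 := card_mul_card_le W₁ W₂
    have h2 := card_mul_card_le (CA W₁) (CA W₂)
    have h3 := hstar (W₁ ⊓ W₂) (le_inf hR1 hR2) (inf_le_left.trans hT1)
    have h4 : Nat.card ↥(CA W₁ ⊔ CA W₂) ≤ Nat.card (CA (W₁ ⊓ W₂)) := by
      apply Subgroup.card_le_of_le
      apply sup_le
      · intro c hc
        exact hmemCA _ _ hc.1 (fun w hw => hCAc W₁ c hc w hw.1)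
      · intro c hc
        exact hmemCA _ _ hc.1 (fun w hw => hCAc W₂ c hc w hw.2)
    have h5 : Nat.card ↥(CA W₁ ⊓ CA W₂) ≤ Nat.card (CA (W₁ ⊔ W₂)) := by
      apply Subgroup.card_le_of_le
      intro c hc
      refine hmemCA _ _ hc.1.1 ?_
      have hle : W₁ ⊔ W₂ ≤ Subgroup.centralizer {c} := by
        apply sup_le
        · intro w hw
          rw [Subgroup.mem_centralizer_singleton_iff]
          exact hCAc W₁ c hc.1 w hw
        · intro w hw
          rw [Subgroup.mem_centralizer_singleton_iff]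
          exact hCAc W₂ c hc.2 w hw
      intro w hw
      have := hle hw
      rw [Subgroup.mem_centralizer_singleton_iff] at this
      exact this
    have h6 : Nat.card ↥(W₁ ⊓ W₂) * Nat.card ↥(CA W₁ ⊔ CA W₂) ≤ m :=
      (Nat.mul_le_mul_left _ h4).trans h3
    have h7 : m * m ≤ (Nat.card W₁ * Nat.card (CA W₁)) * (Nat.card W₂ * Nat.card (CA W₂)) :=
      Nat.mul_le_mul hc1 hc2
    have h8 : (Nat.card W₁ * Nat.card (CA W₁)) * (Nat.card W₂ * Nat.card (CA W₂)) =
        (Nat.card W₁ * Nat.card W₂) * (Nat.card (CA W₁) * Nat.card (CA W₂)) := by ring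
    have h9 : (Nat.card W₁ * Nat.card W₂) * (Nat.card (CA W₁) * Nat.card (CA W₂)) ≤
        (Nat.card ↥(W₁ ⊔ W₂) * Nat.card ↥(W₁ ⊓ W₂)) *
          (Nat.card ↥(CA W₁ ⊔ CA W₂) * Nat.card ↥(CA W₁ ⊓ CA W₂)) := Nat.mul_le_mul h1 h2
    have h10 : (Nat.card ↥(W₁ ⊔ W₂) * Nat.card ↥(W₁ ⊓ W₂)) *
          (Nat.card ↥(CA W₁ ⊔ CA W₂) * Nat.card ↥(CA W₁ ⊓ CA W₂)) =
        (Nat.card ↥(W₁ ⊓ W₂) * Nat.card ↥(CA W₁ ⊔ CA W₂)) *
          (Nat.card ↥(W₁ ⊔ W₂) * Nat.card ↥(CA W₁ ⊓ CA W₂)) := by ring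
    have h11 : m * m ≤ m * (Nat.card ↥(W₁ ⊔ W₂) * Nat.card ↥(CA W₁ ⊓ CA W₂)) := by
      calc m * m ≤ _ := h7
        _ = _ := h8
        _ ≤ _ := h9
        _ = _ := h10
        _ ≤ _ := Nat.mul_le_mul_right _ h6
    have h12 := Nat.le_of_mul_le_mul_left h11 hmpos
    exact h12.trans (Nat.mul_le_mul_left _ h5)
  -- commutator with `A` lands in `R`
  have hcR : ∀ c ∈ A, ∀ t ∈ T, c * t * c⁻¹ * t⁻¹ ∈ R := by
    intro c hc t ht
    constructor
    · exact T.mul_mem (hTn.conj_mem t ht c) (T.inv_mem ht)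
    · have h1 : c * t * c⁻¹ * t⁻¹ = c * (t * c⁻¹ * t⁻¹) := by group
      rw [h1]
      exact A.mul_mem hc ((Subgroup.mem_normalizer_iff.1 (hTN ht) c⁻¹).1 (A.inv_mem hc))
  -- the subgroups attached to a single element
  let W : S → Subgroup S := fun g => R ⊔ Subgroup.closure {y | ∃ a ∈ A, y = a * g * a⁻¹ * g⁻¹}
  have hWT : ∀ g, W g ≤ T := by
    intro g
    refine sup_le inf_le_left ?_
    rw [Subgroup.closure_le]
    rintro _ ⟨a, ha, rfl⟩
    exact hcT a ha g
  have hWgood : ∀ g, Good (W g) := by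
    intro g
    refine ⟨le_sup_left, hWT g, ?_⟩
    -- elements with commutator in `R` centralize `W g`
    have hK : ∀ c ∈ A, c * g * c⁻¹ * g⁻¹ ∈ R → c ∈ CA (W g) := by
      intro c hc hv
      refine hmemCA _ _ hc ?_
      have hle : W g ≤ Subgroup.centralizer {c} := by
        refine sup_le ?_ ?_
        · intro r hr
          rw [Subgroup.mem_centralizer_singleton_iff]
          exact hRc r hr c hc
        · rw [Subgroup.closure_le]
          rintro _ ⟨a, ha, rfl⟩
          show _ ∈ Subgroup.centralizer {c}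
          rw [Subgroup.mem_centralizer_singleton_iff]
          set u := a * g * a⁻¹ * g⁻¹ with hu
          set v := c * g * c⁻¹ * g⁻¹ with hv'
          have hga : g * a * g⁻¹ = u⁻¹ * a := by rw [hu]; group
          have hgc : g * c * g⁻¹ = v⁻¹ * c := by rw [hv']; group
          have hcomm : (g * a * g⁻¹) * (g * c * g⁻¹) = (g * c * g⁻¹) * (g * a * g⁻¹) := by
            have h1 : (g * a * g⁻¹) * (g * c * g⁻¹) = g * (a * c) * g⁻¹ := by group
            have h2 : (g * c * g⁻¹) * (g * a * g⁻¹) = g * (c * a) * g⁻¹ := by group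
            rw [h1, h2, hA a ha c hc]
          rw [hga, hgc] at hcomm
          have huT : u ∈ T := hcT a ha g
          have hvT : v ∈ T := hcT c hc g
          have hva : v⁻¹ * a = a * v⁻¹ := hRc _ (R.inv_mem hv) a ha
          have huv : u⁻¹ * v⁻¹ = v⁻¹ * u⁻¹ := hT _ (T.inv_mem huT) _ (T.inv_mem hvT)
          -- cancel
          have h3 : u⁻¹ * a * (v⁻¹ * c) = v⁻¹ * (u⁻¹ * c * a) := by
            calc u⁻¹ * a * (v⁻¹ * c) = u⁻¹ * (a * v⁻¹) * c := by group
              _ = u⁻¹ * (v⁻¹ * a) * c := by rw [hva]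
              _ = (u⁻¹ * v⁻¹) * (a * c) := by group
              _ = (v⁻¹ * u⁻¹) * (c * a) := by rw [huv, hA a ha c hc]
              _ = _ := by group
          have h4 : v⁻¹ * c * (u⁻¹ * a) = v⁻¹ * (c * u⁻¹ * a) := by group
          rw [h3, h4] at hcomm
          have h5 : u⁻¹ * c * a = c * u⁻¹ * a := mul_left_cancel hcomm
          have h6 : u⁻¹ * c = c * u⁻¹ := mul_right_cancel h5
          calc u * c = u * (u⁻¹ * c) * u := by rw [h6]; group
            _ = c * u := by group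
      intro w hw
      have := hle hw
      rw [Subgroup.mem_centralizer_singleton_iff] at this
      exact this
    have hle' : (R.subgroupOf (W g)) ≤ ⊤ := le_top
    let f : ↥A → ↥(W g) ⧸ R.subgroupOf (W g) := fun a =>
      QuotientGroup.mk ⟨a * g * (a : S)⁻¹ * g⁻¹,
        Subgroup.mem_sup_right (Subgroup.subset_closure ⟨a, a.2, rfl⟩)⟩
    have hfib : ∀ a b : ↥A, f a = f b → (b : S) * (a : S)⁻¹ ∈ CA (W g) := by
      intro a b hab
      have h1 := QuotientGroup.eq.1 hab
      rw [Subgroup.mem_subgroupOf] at h1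
      have h1' : ((a : S) * g * (a : S)⁻¹ * g⁻¹)⁻¹ * ((b : S) * g * (b : S)⁻¹ * g⁻¹) ∈ R := by
        simpa using h1
      apply hK _ (A.mul_mem b.2 (A.inv_mem a.2))
      set c := (b : S) * (a : S)⁻¹ with hc
      have hcA : c ∈ A := A.mul_mem b.2 (A.inv_mem a.2)
      set ux := (a : S) * g * (a : S)⁻¹ * g⁻¹ with hux
      have huxT : ux ∈ T := hcT a a.2 g
      have h2 := hcR c hcA ux⁻¹ (T.inv_mem huxT)
      have h3 : c * g * c⁻¹ * g⁻¹ = (c * ux⁻¹ * c⁻¹ * ux⁻¹⁻¹) * (ux⁻¹ * ((b : S) * g * (b : S)⁻¹ * g⁻¹)) := by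
        rw [hc, hux]
        group
      rw [h3]
      exact R.mul_mem h2 h1'
    have h5 : Nat.card A ≤ Nat.card (CA (W g)) * Nat.card (↥(W g) ⧸ R.subgroupOf (W g)) := by
      apply card_le_of_fibers f
      intro q
      by_cases hq : ∃ a₀ : ↥A, f a₀ = q
      · obtain ⟨a₀, rfl⟩ := hq
        let F : {a : ↥A // f a = f a₀} → CA (W g) := fun a =>
          ⟨(a.1 : S) * (a₀ : S)⁻¹, hfib _ _ a.2.symm⟩
        have hF : Function.Injective F := by
          intro u v huv
          have h6 : (u.1 : S) * (a₀ : S)⁻¹ = (v.1 : S) * (a₀ : S)⁻¹ := congrArg Subtype.val huv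
          apply Subtype.ext
          apply Subtype.ext
          exact mul_right_cancel h6
        exact Nat.card_le_card_of_injective F hF
      · have : IsEmpty {a : ↥A // f a = q} := ⟨fun a => hq ⟨a.1, a.2⟩⟩
        rw [Nat.card_of_isEmpty]
        exact Nat.zero_le _
    have h6 := card_mul_relIndex_of_le (le_sup_left : R ≤ W g)
    have h7 : Nat.card (↥(W g) ⧸ R.subgroupOf (W g)) = R.relIndex (W g) := rfl
    rw [h7] at h5
    calc m = Nat.card R * Nat.card A := rfl
      _ ≤ Nat.card R * (Nat.card (CA (W g)) * R.relIndex (W g)) := Nat.mul_le_mul_left _ h5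
      _ = (Nat.card R * R.relIndex (W g)) * Nat.card (CA (W g)) := by ring
      _ = _ := by rw [h6]
  -- a good subgroup of largest order is `T`
  have hRgood : Good R := by
    refine ⟨le_rfl, inf_le_left, ?_⟩
    have : CA R = A := by
      apply le_antisymm inf_le_left
      intro a ha
      exact hmemCA _ _ ha (fun w hw => hRc w hw a ha)
    rw [this]
  obtain ⟨W₀, hW₀, hW₀max⟩ := Set.exists_max_image {W | Good W} (fun W : Subgroup S => Nat.card W)
    (Set.toFinite _) ⟨R, hRgood⟩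
  have hTW₀ : T ≤ W₀ := by
    rw [hTdef, Subgroup.closure_le]
    rintro _ ⟨a, ha, g, rfl⟩
    have h1 := hgoodsup W₀ (W g) hW₀ (hWgood g)
    have h2 := hW₀max _ h1
    have h3 : W₀ = W₀ ⊔ W g := Subgroup.eq_of_le_of_card_ge le_sup_left h2
    have h4 : W g ≤ W₀ := by rw [h3]; exact le_sup_right
    exact h4 (Subgroup.mem_sup_right (Subgroup.subset_closure ⟨a, ha, rfl⟩))
  have hW₀T : W₀ = T := le_antisymm hW₀.2.1 hTW₀
  have hTgood : m ≤ Nat.card T * Nat.card (CA T) := by
    have := hW₀.2.2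
    rwa [hW₀T] at this
  -- the subgroup `B`
  refine ⟨T ⊔ CA T, ?_, ?_, ?_, ?_⟩
  · have hsup : T ⊔ CA T = Subgroup.closure ((T : Set S) ∪ (CA T : Set S)) := by
      rw [Subgroup.closure_union, Subgroup.closure_eq, Subgroup.closure_eq]
    rw [hsup]
    apply comm_closure
    rintro s (hs | hs) t (ht | ht)
    · exact hT s hs t ht
    · exact hCAc T t ht s hs
    · exact (hCAc T s hs t ht).symm
    · exact hA s hs.1 t ht.1
  · have h1 := card_mul_card_le T (CA T)
    have h3 : Nat.card ↥(T ⊓ CA T) ≤ Nat.card R := by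
      apply Subgroup.card_le_of_le
      intro x hx
      exact ⟨hx.1, hx.2.1⟩
    have h4 : Nat.card R * Nat.card A ≤ Nat.card ↥(T ⊔ CA T) * Nat.card R :=
      hTgood.trans (h1.trans (Nat.mul_le_mul_left _ h3))
    rw [mul_comm] at h4
    exact Nat.le_of_mul_le_mul_right h4 hposR
  · constructor
    intro n hn g
    have hle : T ⊔ CA T ≤ (T ⊔ CA T).comap (MulAut.conj g).toMonoidHom := by
      apply sup_le
      · intro t ht
        exact Subgroup.mem_sup_left (hTn.conj_mem t ht g)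
      · intro c hc
        show g * c * g⁻¹ ∈ T ⊔ CA T
        have h1 : g * c * g⁻¹ = (c * g * c⁻¹ * g⁻¹)⁻¹ * c := by group
        rw [h1]
        exact Subgroup.mul_mem _ (Subgroup.mem_sup_left (T.inv_mem (hcT c hc.1 g)))
          (Subgroup.mem_sup_right hc)
    exact hle hn
  · have hAN : A ≤ Subgroup.normalClosure (A : Set S) := Subgroup.le_normalClosure
    have hNn : (Subgroup.normalClosure (A : Set S)).Normal := Subgroup.normalClosure_normal
    apply sup_le
    · rw [hTdef, Subgroup.closure_le]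
      rintro _ ⟨a, ha, g, rfl⟩
      have h1 : a * g * a⁻¹ * g⁻¹ = a * (g * a⁻¹ * g⁻¹) := by group
      show a * g * a⁻¹ * g⁻¹ ∈ Subgroup.normalClosure (A : Set S)
      rw [h1]
      exact Subgroup.mul_mem _ (hAN ha) (hNn.conj_mem _ (Subgroup.inv_mem _ (hAN ha)) g)
    · exact (hCAA T).trans hAN

theorem main {p : ℕ} [Fact p.Prime] (hS : IsPGroup p S)
    (hmeta : IsMulCommutative ↥(commutator S)) : ∀ (k : ℕ) (A : Subgroup S),
      (∀ a ∈ A, ∀ b ∈ A, a * b = b * a) →
      (∀ B : Subgroup S, (∀ a ∈ B, ∀ b ∈ B, a * b = b * a) → Nat.card B ≤ Nat.card A) →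
      Nat.card (commutator S) - Nat.card ↥(A ⊓ commutator S) = k →
      ∃ B : Subgroup S, (∀ a ∈ B, ∀ b ∈ B, a * b = b * a) ∧ Nat.card A ≤ Nat.card B ∧ B.Normal ∧
        B ≤ Subgroup.normalClosure (A : Set S) := by
  intro k
  induction k using Nat.strong_induction_on with
  | _ k ih =>
  intro A hA hmax hk
  have hSc := (imc_iff _).1 hmeta
  by_cases hN : commutator S ≤ Subgroup.normalizer (A : Set S)
  · set T := Subgroup.closure {y | ∃ a ∈ A, ∃ g : S, y = a * g * a⁻¹ * g⁻¹} with hT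
    have hTS : T ≤ commutator S := by
      rw [hT, Subgroup.closure_le]
      rintro _ ⟨a, _, g, rfl⟩
      rw [commutator_def]
      exact Subgroup.commutator_mem_commutator (Subgroup.mem_top a) (Subgroup.mem_top g)
    exact core hA hmax hT (fun a ha b hb => hSc a (hTS ha) b (hTS hb)) (hTS.trans hN)
  · have hAD : A ≤ Subgroup.normalizer (commutator S : Set S) := by
      rw [Subgroup.normalizer_eq_top_iff.2 (inferInstance : (commutator S).Normal)]
      exact le_top
    obtain ⟨A', hA'c, hcard, hlt, -, x, -, hA'x⟩ := replacement hS hA hSc hAD hN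
    have hmax' : ∀ B : Subgroup S, (∀ a ∈ B, ∀ b ∈ B, a * b = b * a) → Nat.card B ≤ Nat.card A' :=
      fun B hB => (hmax B hB).trans hcard
    have hcardlt : Nat.card ↥(A ⊓ commutator S) < Nat.card ↥(A' ⊓ commutator S) := by
      by_contra hge
      push Not at hge
      exact hlt.ne (Subgroup.eq_of_le_of_card_ge hlt.le hge)
    have hlecard : Nat.card ↥(A' ⊓ commutator S) ≤ Nat.card (commutator S) :=
      Subgroup.card_le_of_le inf_le_right
    have hlt2 : Nat.card (commutator S) - Nat.card ↥(A' ⊓ commutator S) < k := by omega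
    obtain ⟨B, hB1, hB2, hB3, hB4⟩ := ih _ hlt2 A' hA'c hmax' rfl
    refine ⟨B, hB1, hcard.trans hB2, hB3, hB4.trans ?_⟩
    have hNn : (Subgroup.normalClosure (A : Set S)).Normal := Subgroup.normalClosure_normal
    apply Subgroup.normalClosure_le_normal
    have hAN : A ≤ Subgroup.normalClosure (A : Set S) := Subgroup.le_normalClosure
    refine hA'x.trans (sup_le hAN ?_)
    rintro _ ⟨a, ha, rfl⟩
    exact hNn.conj_mem a (hAN ha) x


/-- A weak replacement Theorem for metabelian p-groups: let S be a finite p-group whose derived subgroup is abelian and A an abelian subgroup of S of largest possible order. Then the normal closure of A in S contains an abelian subgroup B of the same order as A that is normal in S. -/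
theorem result {S : Type*} [Group S] [Finite S] {p : ℕ} [Fact p.Prime]
    (hS : IsPGroup p S) (hmeta : IsMulCommutative ↥(commutator S))
    (A : Subgroup S) (hA : A ∈ Cfsg.maxAbelianSubgroups S) :
    ∃ B ∈ Cfsg.maxAbelianSubgroups S, B.Normal ∧ B ≤ Subgroup.normalClosure (A : Set S) := by
  obtain ⟨hAc, hAm⟩ := hA
  have hmax : ∀ B : Subgroup S, (∀ a ∈ B, ∀ b ∈ B, a * b = b * a) → Nat.card B ≤ Nat.card A :=
    fun B hB => hAm B ((imc_iff _).2 hB)
  obtain ⟨B, hB1, hB2, hB3, hB4⟩ := main hS hmeta _ A ((imc_iff _).1 hAc) hmax rfl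
  refine ⟨B, ⟨(imc_iff _).2 hB1, fun C hC => ?_⟩, hB3, hB4⟩
  exact (hAm C hC).trans hB2

end Cfsg.Agent.S3063
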