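import Cfsg.Statements.S3064
import Mathlib
import Cfsg.Agent.Lib.WeakCentral
import Cfsg.Agent.Lib.SylowCount

set_option autoImplicit false
set_option linter.style.haveILetI false
set_option linter.unusedVariables false
open Cfsg

namespace Cfsg.Agent.S3064

/-- Let S be a Sylow p-subgroup of the finite group G and x an element of S such that (i) x is the only G-conjugate of x lying in S, and (ii) x centralizes every subgroup of order prime to p that it normalizes. Then x lies in the centre of G. -/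
theorem result {G : Type*} [Group G] [Finite G] {p : ℕ} [Fact p.Prime]
    (S : Sylow p G) (x : G) (hx : x ∈ S)
    (hU : ∀ g : G, g⁻¹ * x * g ∈ S → g⁻¹ * x * g = x)
    (hb : ∀ H : Subgroup G, (Nat.card H).Coprime p → (∀ h ∈ H, x * h * x⁻¹ ∈ H) → ∀ h ∈ H, x * h = h * x) :
    x ∈ Subgroup.center G := by
  classical
  refine Cfsg.Agent.Lib.WeakCentral.aux p (Nat.card G) G x le_rfl ?_ ?_ hb
  · obtain ⟨k, hk⟩ := S.isPGroup' ⟨x, hx⟩
    exact ⟨k, by simpa using congrArg Subtype.val hk⟩
  · intro T hxT g hg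
    obtain ⟨h, rfl⟩ := MulAction.exists_smul_eq G S T
    have h1 : h⁻¹ * x * h ∈ (S : Subgroup G) := by
      have := (Cfsg.Agent.Lib.SylowCount.mem_smul_sylow h x S).1 hxT
      exact this
    have h2 : h⁻¹ * (g⁻¹ * x * g) * h ∈ (S : Subgroup G) :=
      (Cfsg.Agent.Lib.SylowCount.mem_smul_sylow h _ S).1 hg
    have e1 : h⁻¹ * x * h = x := hU h h1
    have e2 : (g * h)⁻¹ * x * (g * h) = x := by
      apply hU
      have : (g * h)⁻¹ * x * (g * h) = h⁻¹ * (g⁻¹ * x * g) * h := by group
      rw [this]; exact h2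
    have e3 : g⁻¹ * x * g = h * ((g * h)⁻¹ * x * (g * h)) * h⁻¹ := by group
    rw [e3, e2]
    calc h * x * h⁻¹ = h * (h⁻¹ * x * h) * h⁻¹ := by rw [e1]
      _ = x := by group

end Cfsg.Agent.S3064
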