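import Cfsg.Statements.S3071
import Cfsg.Agent.Lib.QdFree
-- import your own Cfsg.Agent.* helpers here

set_option autoImplicit false
open Cfsg

namespace Cfsg.Agent.S3071

/-- Let p be an odd prime and S a Sylow p-subgroup of the finite group G such that, for every subgroup P with Z(S) ≤ P ≤ S, the normalizer N_G(P) has no section isomorphic to SL₂(p). Let J(S) be the subgroup generated by the abelian subgroups of S of largest order. Then two elements of S are conjugate in G if and only if they are conjugate in N_G(Z(J(S))). -/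
theorem result {G : Type*} [Group G] [Finite G] {p : ℕ} [Fact p.Prime]
    (hp : p ≠ 2) (S : Sylow p G)
    (hfree : ∀ P : Subgroup G, (S : Subgroup G) ⊓ Subgroup.centralizer ((S : Subgroup G) : Set G) ≤ P → P ≤ S →
      ¬ ∃ (H K : Subgroup G) (hK : (K.subgroupOf H).Normal), H ≤ Subgroup.normalizer (P : Set G) ∧
        Nonempty ((H ⧸ K.subgroupOf H) ≃* Matrix.SpecialLinearGroup (Fin 2) (ZMod p))) :
    ∀ x ∈ S, ∀ y ∈ S, (∃ g : G, g * x * g⁻¹ = y) ↔
      ∃ n ∈ Subgroup.normalizer (Cfsg.centerThompsonAOf (S : Subgroup G) : Set G), n * x * n⁻¹ = y := by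
  classical
  have hY := Cfsg.Agent.Lib.ZJGood.goodA (p := p) hp
  have hSc : Cfsg.IsStronglyClosed (S : Subgroup G) (S : Subgroup G) := ⟨le_rfl, fun _ _ _ h => h⟩
  set Z : Subgroup G := (S : Subgroup G) ⊓ Subgroup.centralizer ((S : Subgroup G) : Set G) with hZ
  -- the family
  have hPr : ∀ P : Subgroup G, Z ≤ P → P ≤ S → Cfsg.Agent.Lib.QdFree.Hf p P := fun P h1 h2 => hfree P h1 h2
  have hZN : ∀ V : Subgroup G, V ≤ (S : Subgroup G) →
      Z ≤ (S : Subgroup G) ⊓ Subgroup.normalizer (V : Set G) := by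
    intro V hV z hz
    refine ⟨hz.1, Subgroup.mem_normalizer_iff.2 ?_⟩
    intro v
    have hzc : ∀ s ∈ (S : Subgroup G), s * z = z * s := fun s hs => Subgroup.mem_centralizer_iff.1 hz.2 s hs
    constructor
    · intro hv
      have : z * v * z⁻¹ = v := by
        rw [← hzc v (hV hv)]
        group
      rw [this]
      exact hv
    · intro hv
      have : z * v * z⁻¹ ∈ (S : Subgroup G) := hV hv
      have h2 := hzc _ this
      have h3 : v = z⁻¹ * (z * v * z⁻¹) * z := by group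
      have h4 : z * v * z⁻¹ = v := by
        have h5 := mul_left_cancel (a := z) (b := z * v * z⁻¹ * z⁻¹ * z) (c := z * v * z⁻¹ * z⁻¹ * z) rfl
        have h6 : (z * v * z⁻¹) * z = z * (z * v * z⁻¹) := h2
        have h7 : z * v = z * (z * v * z⁻¹) := by
          rw [← h6]
          group
        have h8 := mul_left_cancel h7
        exact h8.symm
      rw [h4] at hv
      exact hv
  -- `Z(J(R))` contains `Z`
  have hYZ : ∀ R : Subgroup G, Z ≤ R → R ≤ (S : Subgroup G) → Z ≤ Cfsg.centerThompsonAOf R := by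
    intro R h1 h2 z hz
    rw [Cfsg.Agent.Lib.ZJApps.centerThompsonAOf_eq]
    have hzc : ∀ s ∈ (S : Subgroup G), s * z = z * s := fun s hs => Subgroup.mem_centralizer_iff.1 hz.2 s hs
    refine ⟨?_, ?_⟩
    · obtain ⟨B, hB⟩ := Cfsg.Agent.Lib.ZJ.exists_maxPr 0 R
      apply Cfsg.Agent.Lib.ZJ.le_JJ hB
      exact hB.mem_of_commute (h1 hz) (pow_zero _) fun b hb => (hzc b (h2 (hB.1 hb)))
    · show z ∈ Subgroup.centralizer ((Cfsg.Agent.Lib.ZJ.JJ 0 R : Subgroup G) : Set G)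
      rw [Subgroup.mem_centralizer_iff]
      intro h hh
      exact hzc h (h2 (Cfsg.Agent.Lib.ZJ.JJ_le _ hh))
  have hmain : ∀ X : Subgroup G, X ≤ (S : Subgroup G) → Cfsg.Agent.Lib.QdFree.Hf p X → ∀ g : G,
      Cfsg.Agent.Lib.ConjFamily.cj g X ≤ (S : Subgroup G) →
      Cfsg.Agent.Lib.ZJControl.Ct (Subgroup.normalizer (Cfsg.centerThompsonAOf (S : Subgroup G) : Set G)) X g := by
    refine Cfsg.Agent.Lib.QdFree.fusion_of_local' S (fun R => Cfsg.centerThompsonAOf R) (Cfsg.Agent.Lib.QdFree.Hf p)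
      (fun V x h => h.cj x) ?_ ?_ ?_ ?_ ?_ ?_
    · intro V hV _
      exact hPr _ (hYZ _ (hZN V hV) inf_le_left)
        ((hY.le G _).trans inf_le_left)
    · intro R hR
      exact hY.le G R
    · intro R hR
      exact inf_le_right.trans (Cfsg.Agent.Lib.ZJGood.normalizer_le hY R)
    · intro V hV hne
      apply hY.ne
      · exact S.isPGroup'.to_le inf_le_left
      · intro h0
        apply hne
        rw [eq_bot_iff, ← h0]
        exact le_inf hV Subgroup.le_normalizer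
    · intro V hV hne hVpr ht T hT k hk hkT
      have := Cfsg.Agent.Lib.QdFusion.ctl_sub hY S hSc (Cfsg.Agent.Lib.QdFree.ctl_of_hf hp hY hVpr) ht T hT k hk hkT
      rwa [inf_eq_right.2 (inf_le_left : (S : Subgroup G) ⊓ Subgroup.normalizer (V : Set G) ≤ (S : Subgroup G))] at this
    · intro E V hV h1 h2
      exact hPr E ((hZN V hV).trans h1) h2
  -- the fully centralized conjugate
  intro x hx y hy
  constructor
  swap
  · rintro ⟨n, -, hn⟩
    exact ⟨n, hn⟩
  rintro ⟨g₀, hg₀⟩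
  let 𝒞 : Set G := {u | u ∈ (S : Subgroup G) ∧ ∃ g : G, g * x * g⁻¹ = u}
  have h𝒞 : 𝒞.Nonempty := ⟨x, hx, 1, by group⟩
  obtain ⟨y₀, hy₀, hmax⟩ := Set.exists_max_image 𝒞
    (fun u => Nat.card ↥((S : Subgroup G) ⊓ Subgroup.centralizer ({u} : Set G))) (Set.toFinite _) h𝒞
  set C₀ := Subgroup.centralizer ({y₀} : Set G) with hC₀
  have hy₀C : ∀ w ∈ C₀, w * y₀ = y₀ * w := by
    intro w hw
    exact (Subgroup.mem_centralizer_iff.1 hw y₀ rfl).symm
  have hSyl : Cfsg.Agent.Lib.SylowIn.IsSylowIn p ((S : Subgroup G) ⊓ C₀) C₀ := by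
    refine Cfsg.Agent.Lib.SylowIn.isSylowIn_of_card inf_le_right (S.isPGroup'.to_le inf_le_left) fun W hW hWp => ?_
    have hnorm : W ≤ Subgroup.normalizer ((Subgroup.zpowers y₀ : Subgroup G) : Set G) := by
      intro w hw
      rw [Subgroup.mem_normalizer_iff]
      intro u
      constructor
      · rintro ⟨k, rfl⟩
        refine ⟨k, ?_⟩
        have hcomm : Commute w y₀ := hy₀C w (hW hw)
        show y₀ ^ k = w * y₀ ^ k * w⁻¹
        rw [(hcomm.zpow_right k).eq]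
        group
      · rintro ⟨k, hk⟩
        refine ⟨k, ?_⟩
        have hcomm : Commute w y₀ := hy₀C w (hW hw)
        have hk' : y₀ ^ k = w * u * w⁻¹ := hk
        have h1 : w * u * w⁻¹ = w * y₀ ^ k * w⁻¹ * (w * (y₀ ^ k)⁻¹ * u * w⁻¹) := by group
        show y₀ ^ k = u
        have h2 : w * y₀ ^ k * w⁻¹ = y₀ ^ k := by
          rw [(hcomm.zpow_right k).eq]
          group
        have h3 : w * u * w⁻¹ = w * y₀ ^ k * w⁻¹ := by rw [← hk', h2]
        exact (mul_left_cancel (mul_right_cancel h3)).symm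
    have hzp : IsPGroup p (Subgroup.zpowers y₀) :=
      S.isPGroup'.to_le (by rw [Subgroup.zpowers_le]; exact hy₀.1)
    have hW₁ : IsPGroup p ↥(W ⊔ Subgroup.zpowers y₀) := hWp.to_sup_of_normal_right' hzp hnorm
    obtain ⟨h, -, hh⟩ := Cfsg.Agent.Lib.ConjFamily.exists_conj_le_of_isSylowIn
      (Cfsg.Agent.Lib.WeakCl.isSylowIn_top S) (le_top : W ⊔ Subgroup.zpowers y₀ ≤ ⊤) hW₁
    have hu : h * y₀ * h⁻¹ ∈ 𝒞 := by
      refine ⟨hh ⟨y₀, Subgroup.mem_sup_right (Subgroup.mem_zpowers y₀), rfl⟩, ?_⟩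
      obtain ⟨g, hg⟩ := hy₀.2
      refine ⟨h * g, ?_⟩
      rw [← hg]
      group
    have h1 := hmax _ hu
    have h2 : Nat.card W ≤ Nat.card ↥((S : Subgroup G) ⊓ Subgroup.centralizer ({h * y₀ * h⁻¹} : Set G)) := by
      rw [← Cfsg.Agent.Lib.ConjFamily.card_cj h W]
      apply Subgroup.card_le_of_le
      rintro _ ⟨w, hw, rfl⟩
      refine ⟨hh ⟨w, Subgroup.mem_sup_left hw, rfl⟩, ?_⟩
      refine Subgroup.mem_centralizer_iff.2 ?_
      intro u hu
      have hu' : u = h * y₀ * h⁻¹ := hu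
      rw [hu']
      show h * y₀ * h⁻¹ * (h * w * h⁻¹) = h * w * h⁻¹ * (h * y₀ * h⁻¹)
      have := hy₀C w (hW hw)
      calc h * y₀ * h⁻¹ * (h * w * h⁻¹) = h * (y₀ * w) * h⁻¹ := by group
        _ = h * (w * y₀) * h⁻¹ := by rw [this]
        _ = _ := by group
    exact h2.trans h1
  -- the key
  have key : ∀ x' ∈ 𝒞, ∃ m ∈ Subgroup.normalizer (Cfsg.centerThompsonAOf (S : Subgroup G) : Set G),
      m * x' * m⁻¹ = y₀ := by
    rintro x' ⟨hx'S, gx, hgx⟩
    obtain ⟨gy, hgy⟩ := hy₀.2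
    set g := gy * gx⁻¹ with hg
    have hg1 : g * x' * g⁻¹ = y₀ := by
      rw [← hgy, ← hgx, hg]
      group
    set B := (S : Subgroup G) ⊓ Subgroup.centralizer ({x'} : Set G) with hB
    have h1 : Cfsg.Agent.Lib.ConjFamily.cj g B ≤ C₀ := by
      rintro _ ⟨b, hb, rfl⟩
      refine Subgroup.mem_centralizer_iff.2 ?_
      intro u hu
      have hu' : u = y₀ := hu
      rw [hu']
      have hb2 : x' * b = b * x' := Subgroup.mem_centralizer_iff.1 hb.2 x' rfl
      show y₀ * (g * b * g⁻¹) = g * b * g⁻¹ * y₀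
      rw [← hg1]
      calc g * x' * g⁻¹ * (g * b * g⁻¹) = g * (x' * b) * g⁻¹ := by group
        _ = g * (b * x') * g⁻¹ := by rw [hb2]
        _ = _ := by group
    obtain ⟨c, hc, hcB⟩ := Cfsg.Agent.Lib.ConjFamily.exists_conj_le_of_isSylowIn hSyl h1
      ((S.isPGroup'.to_le inf_le_left).map _)
    rw [Cfsg.Agent.Lib.ConjFamily.cj_cj] at hcB
    set X' : Subgroup G := Subgroup.zpowers x' ⊔ Z with hX'
    have hX'B : X' ≤ B := by
      refine sup_le ?_ ?_
      · rw [Subgroup.zpowers_le]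
        refine ⟨hx'S, Subgroup.mem_centralizer_iff.2 ?_⟩
        intro u hu
        have hu' : u = x' := hu
        rw [hu']
      · intro z hz
        refine ⟨hz.1, Subgroup.mem_centralizer_iff.2 ?_⟩
        intro u hu
        have hu' : u = x' := hu
        rw [hu']
        exact Subgroup.mem_centralizer_iff.1 hz.2 x' hx'S
    have hX'S : X' ≤ (S : Subgroup G) := hX'B.trans inf_le_left
    obtain ⟨m, hm, hact⟩ := hmain X' hX'S (hPr X' le_sup_right hX'S) (c * g)
      ((Cfsg.Agent.Lib.ConjFamily.cj_mono _ hX'B).trans (hcB.trans inf_le_left))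
    refine ⟨m, hm, ?_⟩
    rw [← hact x' (Subgroup.mem_sup_left (Subgroup.mem_zpowers x'))]
    have hcy : c * y₀ = y₀ * c := hy₀C c hc
    calc c * g * x' * (c * g)⁻¹ = c * (g * x' * g⁻¹) * c⁻¹ := by group
      _ = c * y₀ * c⁻¹ := by rw [hg1]
      _ = y₀ := by rw [hcy]; group
  obtain ⟨m₁, hm₁, h₁⟩ := key x ⟨hx, 1, by group⟩
  obtain ⟨m₂, hm₂, h₂⟩ := key y ⟨hy, g₀, hg₀⟩
  refine ⟨m₂⁻¹ * m₁, Subgroup.mul_mem _ (Subgroup.inv_mem _ hm₂) hm₁, ?_⟩
  calc m₂⁻¹ * m₁ * x * (m₂⁻¹ * m₁)⁻¹ = m₂⁻¹ * (m₁ * x * m₁⁻¹) * m₂ := by group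
    _ = m₂⁻¹ * (m₂ * y * m₂⁻¹) * m₂ := by rw [h₁, h₂]
    _ = y := by group

end Cfsg.Agent.S3071
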