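import Cfsg.Statements.S3075
import Mathlib

set_option autoImplicit false
set_option linter.style.haveILetI false
set_option linter.unusedVariables false
open scoped ComplexConjugate
open Cfsg

namespace Cfsg.Agent.S3075

/-- Let p be an odd prime and N a finite group with a normal elementary abelian subgroup A of order p² that is its own centralizer in N, such that N/A is isomorphic to SL₂(p) (over any field F with p elements). Then N splits over A: some subgroup U of N satisfies A ∩ U = 1 and AU = N. -/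
theorem result {N : Type*} [Group N] [Finite N] {p : ℕ} [Fact p.Prime] (hp : p ≠ 2)
    (A : Subgroup N) [A.Normal] (hAcomm : IsMulCommutative A) (hAcard : Nat.card A = p ^ 2) (hAexp : Monoid.exponent ↥A = p)
    (hAself : Subgroup.centralizer (A : Set N) = A)
    {F : Type*} [Field F] [Fintype F] (hF : Fintype.card F = p) (e : N ⧸ A ≃* Matrix.SpecialLinearGroup (Fin 2) F) :
    ∃ U : Subgroup N, A ⊓ U = ⊥ ∧ A ⊔ U = ⊤ := by
  classical
  have hp' : p.Prime := Fact.out
  obtain ⟨k, hk⟩ : Odd p := hp'.odd_of_ne_two hp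
  have hcomm : ∀ a ∈ A, ∀ b ∈ A, a * b = b * a := by
    intro a ha b hb
    haveI := hAcomm
    have := mul_comm' (⟨a, ha⟩ : A) ⟨b, hb⟩
    exact congrArg Subtype.val this
  have hpow : ∀ a ∈ A, a ^ p = 1 := by
    intro a ha
    have := Monoid.pow_exponent_eq_one (⟨a, ha⟩ : A)
    rw [hAexp] at this
    have h2 := congrArg Subtype.val this
    simpa using h2
  have hsq : ∀ b ∈ A, b ^ (k + 1) * b ^ (k + 1) = b := by
    intro b hb
    rw [← pow_add]
    have : k + 1 + (k + 1) = p + 1 := by omega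
    rw [this, pow_succ, hpow b hb, one_mul]
  have hchar : ringChar F ≠ 2 := by
    intro h
    have h1 := FiniteField.even_card_iff_char_two.1 h
    rw [hF] at h1
    omega
  have h2F : (2 : F) ≠ 0 := Ring.two_ne_zero hchar
  have hneg : (-1 : F) ≠ 1 := by
    intro h
    apply h2F
    have : (2 : F) = 1 - (-1) := by ring
    rw [this, h]; ring
  -- the central involution of SL₂
  let z : Matrix.SpecialLinearGroup (Fin 2) F := ⟨-1, by simp [Matrix.det_neg]⟩
  have hzcoe : (z : Matrix (Fin 2) (Fin 2) F) = -1 := rfl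
  have hzc : ∀ g : Matrix.SpecialLinearGroup (Fin 2) F, g * z = z * g := by
    intro g
    ext i j
    simp [Matrix.SpecialLinearGroup.coe_mul, hzcoe]
  have hz2 : z * z = 1 := by
    ext i j
    simp [Matrix.SpecialLinearGroup.coe_mul, hzcoe]
  have hz1 : z ≠ 1 := by
    intro h
    have := congrArg (fun m : Matrix.SpecialLinearGroup (Fin 2) F => (m : Matrix (Fin 2) (Fin 2) F) 0 0) h
    simp [hzcoe] at this
    exact hneg (by simpa using this)
  -- the map to SL₂
  let f : N →* Matrix.SpecialLinearGroup (Fin 2) F := e.toMonoidHom.comp (QuotientGroup.mk' A)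
  have hfs : Function.Surjective f := e.surjective.comp (QuotientGroup.mk'_surjective A)
  have hfk : ∀ x, f x = 1 ↔ x ∈ A := by
    intro x
    simp only [f, MonoidHom.comp_apply, MulEquiv.coe_toMonoidHom, QuotientGroup.mk'_apply, map_eq_one_iff e e.injective]
    exact QuotientGroup.eq_one_iff x
  -- the involution t
  obtain ⟨t₀, ht₀⟩ := hfs z
  let t : N := t₀ ^ p
  have hft : f t = z := by
    simp only [t, map_pow, ht₀]
    rw [hk, pow_succ, pow_mul, pow_two, hz2, one_pow, one_mul]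
  have ht2 : t * t = 1 := by
    have h1 : t₀ * t₀ ∈ A := by
      rw [← hfk, map_mul, ht₀, hz2]
    have h2 := hpow _ h1
    have h3 : t * t = (t₀ * t₀) ^ p := by
      simp only [t]; rw [(Commute.refl t₀).mul_pow]
    rw [h3]; exact h2
  have htinv' : t⁻¹ = t := inv_eq_of_mul_eq_one_left ht2
  have htA : t ∉ A := by
    rw [← hfk, hft]; exact hz1
  have hcentral : ∀ g : N, g * t * g⁻¹ * t⁻¹ ∈ A := by
    intro g
    rw [← hfk]
    simp only [map_mul, map_inv, hft]
    rw [hzc (f g)]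
    simp
  have htA' : ∀ a ∈ A, t * a * t⁻¹ ∈ A := fun a ha => ‹A.Normal›.conj_mem a ha t
  -- square of conjugation by t
  have htt : ∀ a : N, t * (t * a * t⁻¹) * t⁻¹ = a := by
    intro a
    rw [htinv']
    calc t * (t * a * t) * t = (t * t) * a * (t * t) := by group
      _ = a := by rw [ht2]; group
  -- Cp and Cm
  let Cp : Subgroup N := A ⊓ Subgroup.centralizer ({t} : Set N)
  let Cm : Subgroup N :=
    { carrier := {a | a ∈ A ∧ t * a * t⁻¹ = a⁻¹}
      one_mem' := ⟨A.one_mem, by simp⟩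
      mul_mem' := by
        rintro a b ⟨ha, ha'⟩ ⟨hb, hb'⟩
        refine ⟨A.mul_mem ha hb, ?_⟩
        have : t * (a * b) * t⁻¹ = (t * a * t⁻¹) * (t * b * t⁻¹) := by group
        rw [this, ha', hb', mul_inv_rev]
        exact hcomm _ (A.inv_mem ha) _ (A.inv_mem hb)
      inv_mem' := by
        rintro a ⟨ha, ha'⟩
        refine ⟨A.inv_mem ha, ?_⟩
        have : t * a⁻¹ * t⁻¹ = (t * a * t⁻¹)⁻¹ := by group
        rw [this, ha'] }
  have hCpmem : ∀ c, c ∈ Cp ↔ c ∈ A ∧ t * c * t⁻¹ = c := by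
    intro c
    simp only [Cp, Subgroup.mem_inf, Subgroup.mem_centralizer_singleton_iff]
    constructor
    · rintro ⟨h1, h2⟩
      refine ⟨h1, ?_⟩
      rw [← h2]; group
    · rintro ⟨h1, h2⟩
      refine ⟨h1, ?_⟩
      nth_rewrite 1 [← h2]
      group
  have hCmmem : ∀ c, c ∈ Cm ↔ c ∈ A ∧ t * c * t⁻¹ = c⁻¹ := fun c => Iff.rfl
  -- decomposition
  have hdec : ∀ a ∈ A, ∃ c ∈ Cp, ∃ d ∈ Cm, a = c * d := by
    intro a ha
    set b := a ^ (k + 1) with hb
    have hbA : b ∈ A := A.pow_mem ha _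
    have hb2 := hsq a ha
    rw [← hb] at hb2
    have hb' : t * b * t⁻¹ ∈ A := htA' b hbA
    refine ⟨b * (t * b * t⁻¹), ?_, b * (t * b * t⁻¹)⁻¹, ?_, ?_⟩
    · rw [hCpmem]
      refine ⟨A.mul_mem hbA hb', ?_⟩
      have : t * (b * (t * b * t⁻¹)) * t⁻¹ = (t * b * t⁻¹) * (t * (t * b * t⁻¹) * t⁻¹) := by group
      rw [this, htt]
      exact hcomm _ hb' _ hbA
    · rw [hCmmem]
      refine ⟨A.mul_mem hbA (A.inv_mem hb'), ?_⟩
      have : t * (b * (t * b * t⁻¹)⁻¹) * t⁻¹ = (t * b * t⁻¹) * (t * (t * b * t⁻¹) * t⁻¹)⁻¹ := by group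
      rw [this, htt, mul_inv_rev, inv_inv]
    · have h3 : b * (t * b * t⁻¹) * (b * (t * b * t⁻¹)⁻¹) = b * ((t * b * t⁻¹) * b) * (t * b * t⁻¹)⁻¹ := by group
      rw [h3, hcomm _ hb' _ hbA]
      have h4 : b * (b * (t * b * t⁻¹)) * (t * b * t⁻¹)⁻¹ = b * b := by group
      rw [h4, hb2]
  -- C-cyclic lemma
  have hcyc : ∀ C : Subgroup N, C.Normal → Nat.card C = p → ∀ x y : N, ∀ c ∈ C, (x * y) * c * (x * y)⁻¹ = (y * x) * c * (y * x)⁻¹ := by
    intro C hC hcard x y c hc
    haveI : Fact p.Prime := ⟨hp'⟩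
    haveI : IsCyclic C := isCyclic_of_prime_card hcard
    obtain ⟨c₀, hc₀⟩ := IsCyclic.exists_generator (α := C)
    have hact : ∀ u : N, ∃ m : ℤ, ∀ c ∈ C, u * c * u⁻¹ = c ^ m := by
      intro u
      have h1 : u * (c₀ : N) * u⁻¹ ∈ C := hC.conj_mem _ c₀.2 u
      obtain ⟨m, hm⟩ := Subgroup.mem_zpowers_iff.1 (hc₀ ⟨_, h1⟩)
      refine ⟨m, ?_⟩
      intro c hc
      obtain ⟨n, hn⟩ := Subgroup.mem_zpowers_iff.1 (hc₀ ⟨c, hc⟩)
      have hn' : (c₀ : N) ^ n = c := congrArg Subtype.val hn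
      have hm' : (c₀ : N) ^ m = u * (c₀ : N) * u⁻¹ := congrArg Subtype.val hm
      rw [← hn', ← conj_zpow, ← hm', ← zpow_mul, ← zpow_mul, mul_comm]
    obtain ⟨m, hm⟩ := hact x
    obtain ⟨n, hn⟩ := hact y
    have e1 : (x * y) * c * (x * y)⁻¹ = x * (y * c * y⁻¹) * x⁻¹ := by group
    have e2 : (y * x) * c * (y * x)⁻¹ = y * (x * c * x⁻¹) * y⁻¹ := by group
    rw [e1, e2, hn c hc, hm c hc, ← conj_zpow, ← conj_zpow, hm c hc, hn c hc, ← zpow_mul, ← zpow_mul, mul_comm]
  -- normality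
  have hCpn : Cp.Normal := by
    refine ⟨fun c hc g => ?_⟩
    rw [hCpmem] at hc ⊢
    refine ⟨‹A.Normal›.conj_mem c hc.1 g, ?_⟩
    have hb := hcentral g⁻¹
    set b := g⁻¹ * t * g⁻¹⁻¹ * t⁻¹ with hbdef
    have e : t * (g * c * g⁻¹) * t⁻¹ = g * ((g⁻¹ * t * g * t⁻¹) * (t * c * t⁻¹) * (g⁻¹ * t * g * t⁻¹)⁻¹) * g⁻¹ := by
      group
    have hb' : g⁻¹ * t * g * t⁻¹ = b := by rw [hbdef, inv_inv]
    rw [e, hb', hc.2, hcomm b hb c hc.1]
    group
  have hCmn : Cm.Normal := by
    refine ⟨fun c hc g => ?_⟩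
    rw [hCmmem] at hc ⊢
    refine ⟨‹A.Normal›.conj_mem c hc.1 g, ?_⟩
    have hb := hcentral g⁻¹
    set b := g⁻¹ * t * g⁻¹⁻¹ * t⁻¹ with hbdef
    have e : t * (g * c * g⁻¹) * t⁻¹ = g * ((g⁻¹ * t * g * t⁻¹) * (t * c * t⁻¹) * (g⁻¹ * t * g * t⁻¹)⁻¹) * g⁻¹ := by
      group
    have hb' : g⁻¹ * t * g * t⁻¹ = b := by rw [hbdef, inv_inv]
    rw [e, hb', hc.2, hcomm b hb _ (A.inv_mem hc.1)]
    group
  -- main: t inverts A
  have hCpbot : Cp = ⊥ := by
    by_contra hne
    have hCpA : Cp ≤ A := inf_le_left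
    have hCmA : Cm ≤ A := fun c hc => hc.1
    have hcardle : ∀ C : Subgroup N, C ≤ A → C ≠ ⊥ → C ≠ A → Nat.card C = p := by
      intro C hCA h1 h2
      have hd : Nat.card C ∣ p ^ 2 := by
        rw [← hAcard]; exact Subgroup.card_dvd_of_le hCA
      obtain ⟨i, hi, hi'⟩ := (Nat.dvd_prime_pow hp').1 hd
      interval_cases i
      · exact absurd (Subgroup.card_eq_one.1 (by simpa using hi')) h1
      · simpa using hi'
      · exfalso
        apply h2
        apply Subgroup.eq_of_le_of_card_ge hCA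
        rw [hAcard, hi']
    have hCpne : Cp ≠ A := by
      intro h
      apply htA
      rw [← hAself]
      rw [Subgroup.mem_centralizer_iff]
      intro a ha
      have ha' : a ∈ Cp := by rw [h]; exact ha
      have := ((hCpmem a).1 ha').2
      nth_rewrite 1 [← this]
      group
    have hinter : ∀ c, c ∈ Cp → c ∈ Cm → c = 1 := by
      intro c h1 h2
      rw [hCpmem] at h1
      rw [hCmmem] at h2
      have h3 : c = c⁻¹ := h1.2.symm.trans h2.2
      have h4 : c ^ 2 = 1 := by rw [pow_two]; nth_rewrite 1 [h3]; simp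
      have h5 := hpow c h1.1
      rw [hk, pow_succ, pow_mul, h4, one_pow, one_mul] at h5
      exact h5
    have hCmbot : Cm ≠ ⊥ := by
      intro h
      apply hCpne
      apply le_antisymm hCpA
      intro a ha
      obtain ⟨c, hc, d, hd, rfl⟩ := hdec a ha
      rw [h, Subgroup.mem_bot] at hd
      rw [hd, mul_one]
      exact hc
    have hCmne : Cm ≠ A := by
      intro h
      apply hne
      rw [eq_bot_iff]
      intro c hc
      rw [Subgroup.mem_bot]
      exact hinter c hc (by rw [h]; exact hCpA hc)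
    have hcp := hcardle Cp hCpA hne hCpne
    have hcm := hcardle Cm hCmA hCmbot hCmne
    have hab : ∀ x y : N, (y * x)⁻¹ * (x * y) ∈ A := by
      intro x y
      rw [← hAself]
      rw [Subgroup.mem_centralizer_iff]
      intro a ha
      obtain ⟨c, hc, d, hd, rfl⟩ := hdec a ha
      have h1 := hcyc Cp hCpn hcp x y c hc
      have h2 := hcyc Cm hCmn hcm x y d hd
      have h3 : ∀ c : N, (x * y) * c * (x * y)⁻¹ = (y * x) * c * (y * x)⁻¹ → c * ((y * x)⁻¹ * (x * y)) = ((y * x)⁻¹ * (x * y)) * c := by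
        intro c h
        have : (y * x)⁻¹ * (x * y) * c = (y * x)⁻¹ * ((x * y) * c * (x * y)⁻¹) * (x * y) := by group
        rw [this, h]; group
      have h1' := h3 c h1
      have h2' := h3 d h2
      calc c * d * ((y * x)⁻¹ * (x * y)) = c * (d * ((y * x)⁻¹ * (x * y))) := by group
        _ = c * (((y * x)⁻¹ * (x * y)) * d) := by rw [h2']
        _ = (c * ((y * x)⁻¹ * (x * y))) * d := by group
        _ = (((y * x)⁻¹ * (x * y)) * c) * d := by rw [h1']
        _ = ((y * x)⁻¹ * (x * y)) * (c * d) := by group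
    have hcommSL : ∀ g h : Matrix.SpecialLinearGroup (Fin 2) F, g * h = h * g := by
      intro g h
      obtain ⟨x, rfl⟩ := hfs g
      obtain ⟨y, rfl⟩ := hfs h
      have := (hfk _).2 (hab x y)
      simp only [map_mul, map_inv] at this
      rw [← map_mul, ← map_mul] at this
      rw [← map_mul, ← map_mul]
      have h4 : (f (y * x))⁻¹ * f (x * y) = 1 := this
      exact (inv_mul_eq_one.1 h4).symm
    let u : Matrix.SpecialLinearGroup (Fin 2) F := ⟨!![1, 1; 0, 1], by simp [Matrix.det_fin_two]⟩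
    let v : Matrix.SpecialLinearGroup (Fin 2) F := ⟨!![1, 0; 1, 1], by simp [Matrix.det_fin_two]⟩
    have huv := hcommSL u v
    have h7 : ((u * v : Matrix.SpecialLinearGroup (Fin 2) F) : Matrix (Fin 2) (Fin 2) F) 0 0 = ((v * u : Matrix.SpecialLinearGroup (Fin 2) F) : Matrix (Fin 2) (Fin 2) F) 0 0 := by rw [huv]
    rw [Matrix.SpecialLinearGroup.coe_mul, Matrix.SpecialLinearGroup.coe_mul] at h7
    simp [u, v, Matrix.mul_apply, Fin.sum_univ_two] at h7
  have htinvA : ∀ a ∈ A, t * a * t⁻¹ = a⁻¹ := by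
    intro a ha
    have h1 : a * (t * a * t⁻¹) ∈ Cp := by
      rw [hCpmem]
      refine ⟨A.mul_mem ha (htA' a ha), ?_⟩
      have : t * (a * (t * a * t⁻¹)) * t⁻¹ = (t * a * t⁻¹) * (t * (t * a * t⁻¹) * t⁻¹) := by group
      rw [this, htt]
      exact hcomm _ (htA' a ha) _ ha
    rw [hCpbot, Subgroup.mem_bot] at h1
    exact eq_inv_of_mul_eq_one_right h1
  refine ⟨Subgroup.centralizer ({t} : Set N), hCpbot, ?_⟩
  rw [eq_top_iff]
  intro g _
  set b := g * t * g⁻¹ * t⁻¹ with hb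
  have hbA : b ∈ A := hcentral g
  set d := b ^ (k + 1) with hd
  have hdA : d ∈ A := A.pow_mem hbA _
  have hdd : d * d = b := hsq b hbA
  have hdinv : t * d⁻¹ * t⁻¹ = d := by
    have h1 := htinvA d⁻¹ (A.inv_mem hdA)
    rw [h1, inv_inv]
  have hs : d * t * d⁻¹ = g * t * g⁻¹ := by
    have e1 : d * t * d⁻¹ = d * (t * d⁻¹ * t⁻¹) * t := by group
    rw [e1, hdinv, hdd, hb]
    group
  have hcen : d⁻¹ * g ∈ Subgroup.centralizer ({t} : Set N) := by
    rw [Subgroup.mem_centralizer_singleton_iff]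
    have : g * t = d * t * d⁻¹ * g := by rw [hs]; group
    calc d⁻¹ * g * t = d⁻¹ * (g * t) := by group
      _ = d⁻¹ * (d * t * d⁻¹ * g) := by rw [this]
      _ = t * (d⁻¹ * g) := by group
  have : g = d * (d⁻¹ * g) := by group
  rw [this]
  exact Subgroup.mul_mem_sup hdA hcen

end Cfsg.Agent.S3075
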