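import Mathlib
import Cfsg.Statements.S3076
import Cfsg.Agent.Lib.FitCore

set_option autoImplicit false
set_option linter.all false
open Cfsg

namespace Cfsg.Agent.S3076

open Subgroup Cfsg.Agent.Lib.FitCore

variable {X : Type*} [Group X] [Finite X] {p : ℕ} [hp : Fact p.Prime]

theorem map_le_core (A D : Subgroup X) [hA : A.Normal] [hD : D.Normal]
    (hpow : ∀ x ∈ A, ∃ k : ℕ, x ^ (p ^ k) ∈ D) :
    A ≤ (pCore p (X ⧸ D)).comap (QuotientGroup.mk' D) := by
  have hle : A.map (QuotientGroup.mk' D) ≤ pCore p (X ⧸ D) := by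
    apply le_pCore p _ (hA.map _ (QuotientGroup.mk'_surjective D))
    rintro ⟨_, x, hx, rfl⟩
    obtain ⟨k, hk⟩ := hpow x hx
    refine ⟨k, ?_⟩
    apply Subtype.ext
    simp only [Subgroup.coe_pow, Subgroup.coe_one]
    show ((x : X) : X ⧸ D) ^ (p ^ k) = 1
    rw [← QuotientGroup.mk_pow]
    exact (QuotientGroup.eq_one_iff _).2 hk
  exact Subgroup.map_le_iff_le_comap.1 hle

theorem pow_mem_of_core (D : Subgroup X) [hD : D.Normal] {x : X}
    (hx : x ∈ (pCore p (X ⧸ D)).comap (QuotientGroup.mk' D)) : ∃ k : ℕ, x ^ (p ^ k) ∈ D := by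
  obtain ⟨k, hk⟩ := (pCore_isPGroup (G := X ⧸ D) p) ⟨(QuotientGroup.mk' D x), hx⟩
  refine ⟨k, ?_⟩
  have h1 := congrArg Subtype.val hk
  simp only [Subgroup.coe_pow, Subgroup.coe_one] at h1
  have h2 : ((x ^ (p ^ k) : X) : X ⧸ D) = 1 := by
    rw [QuotientGroup.mk_pow]; exact h1
  exact (QuotientGroup.eq_one_iff _).1 h2

theorem index_dvd_of_normal (S C : Subgroup X) [hC : C.Normal] : S.relIndex C ∣ S.index := by
  have h1 : (S ⊓ C).relIndex S * S.index = (S ⊓ C).index := Subgroup.relIndex_mul_index inf_le_left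
  have h2 : (S ⊓ C).relIndex C * C.index = (S ⊓ C).index := Subgroup.relIndex_mul_index inf_le_right
  rw [Subgroup.inf_relIndex_left] at h1
  rw [Subgroup.inf_relIndex_right] at h2
  obtain ⟨f, hf⟩ := Subgroup.relIndex_dvd_index_of_normal C S
  have h0 : C.relIndex S ≠ 0 := Subgroup.index_ne_zero_of_finite
  rw [← h2, hf] at h1
  refine ⟨f, ?_⟩
  apply Nat.eq_of_mul_eq_mul_left (Nat.pos_of_ne_zero h0)
  rw [h1]; ring

theorem core_main (H C S : Subgroup X) [hHn : H.Normal] [hCn : C.Normal] (hHp : IsPGroup p H)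
    (hCc : ∀ x, x ∈ C ↔ ∀ h ∈ H, x * h = h * x) (hSp : IsPGroup p S) (hSi : ¬ p ∣ S.index) (hHS : H ≤ S) :
    (H ≤ (pCore p (X ⧸ C)).comap (QuotientGroup.mk' C) ∧
        ¬ p ∣ H.relIndex ((pCore p (X ⧸ C)).comap (QuotientGroup.mk' C))) ↔
      (S ⊓ C ≤ H ∧ pPrimePCore p X = H ⊔ C) := by
  have hpr : p.Prime := hp.out
  haveI hOn : (pPrimeCore p X).Normal := Cfsg.Agent.Lib.FitCore.pPrimeCore_normal p
  haveI hNn : ((pCore p (X ⧸ C)).comap (QuotientGroup.mk' C)).Normal :=
    @Subgroup.Normal.comap _ _ _ _ _ (Cfsg.Agent.Lib.FitCore.pCore_normal p) _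
  haveI hWn : (pPrimePCore p X).Normal :=
    @Subgroup.Normal.comap _ _ _ _ _ (Cfsg.Agent.Lib.FitCore.pCore_normal p) _
  set N := (pCore p (X ⧸ C)).comap (QuotientGroup.mk' C) with hN
  set O := pPrimeCore p X with hO
  have hWdef : pPrimePCore p X = (pCore p (X ⧸ O)).comap (QuotientGroup.mk' O) := rfl
  -- basic inclusions
  have hHN : H ≤ N := map_le_core H C (fun x hx => by
    obtain ⟨k, hk⟩ := hHp ⟨x, hx⟩
    refine ⟨k, ?_⟩
    have : x ^ (p ^ k) = 1 := congrArg Subtype.val hk
    rw [this]; exact C.one_mem)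
  have hCN : C ≤ N := map_le_core C C (fun x hx => ⟨0, by simpa using hx⟩)
  have hHW : H ≤ pPrimePCore p X := map_le_core H O (fun x hx => by
    obtain ⟨k, hk⟩ := hHp ⟨x, hx⟩
    refine ⟨k, ?_⟩
    have : x ^ (p ^ k) = 1 := congrArg Subtype.val hk
    rw [this]; exact O.one_mem)
  have hOW : O ≤ pPrimePCore p X := map_le_core O O (fun x hx => ⟨0, by simpa using hx⟩)
  have hOc : (Nat.card O).Coprime p := by
    apply Nat.Coprime.symm
    rw [Nat.Prime.coprime_iff_not_dvd hpr]
    exact not_dvd_card_pPrimeCore p hpr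
  -- the p'-core centralizes H
  have hOC : O ≤ C := by
    intro o ho
    rw [hCc]
    intro h hh
    have h1 : o * h * o⁻¹ * h⁻¹ ∈ O := by
      have e : o * h * o⁻¹ * h⁻¹ = o * (h * o⁻¹ * h⁻¹) := by group
      rw [e]
      exact O.mul_mem ho (hOn.conj_mem _ (O.inv_mem ho) h)
    have h2 : o * h * o⁻¹ * h⁻¹ ∈ H := H.mul_mem (hHn.conj_mem h hh o) (H.inv_mem hh)
    have h3 : o * h * o⁻¹ * h⁻¹ = 1 := by
      obtain ⟨k, hk⟩ := hHp ⟨_, h2⟩
      have h4 : (o * h * o⁻¹ * h⁻¹) ^ (p ^ k) = 1 := congrArg Subtype.val hk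
      have h5 := orderOf_dvd_of_pow_eq_one h4
      have h6 : orderOf (o * h * o⁻¹ * h⁻¹) ∣ Nat.card O := Subgroup.orderOf_dvd_natCard _ h1
      have h7 : Nat.Coprime (Nat.card O) (p ^ k) := Nat.Coprime.pow_right k hOc
      exact orderOf_eq_one_iff.1 (Nat.eq_one_of_dvd_coprimes h7 h6 h5)
    have e : o * h = (o * h * o⁻¹ * h⁻¹) * (h * o) := by group
    rw [e, h3, one_mul]
  have hHCN : H ⊔ C ≤ N := sup_le hHN hCN
  have hrel : H.relIndex (H ⊔ C) = H.relIndex C := by
    rw [sup_comm]; exact Subgroup.relIndex_sup_right C H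
  constructor
  · rintro ⟨-, hi⟩
    -- N = H ⊔ C
    have hNeq : N = H ⊔ C := by
      apply le_antisymm _ hHCN
      rw [← Subgroup.relIndex_eq_one]
      have h1 : (H ⊔ C).relIndex N ∣ H.relIndex N := by
        have := Subgroup.relIndex_mul_relIndex H (H ⊔ C) N le_sup_left hHCN
        exact ⟨_, by rw [← this, mul_comm]⟩
      have h2 : (H ⊔ C).relIndex N ∣ C.relIndex N := by
        have := Subgroup.relIndex_mul_relIndex C (H ⊔ C) N le_sup_right hHCN
        exact ⟨_, by rw [← this, mul_comm]⟩
      have hpg : IsPGroup p (N.map (QuotientGroup.mk' C)) := by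
        have hle : N.map (QuotientGroup.mk' C) ≤ pCore p (X ⧸ C) := Subgroup.map_le_iff_le_comap.2 le_rfl
        exact (pCore_isPGroup (G := X ⧸ C) p).to_le hle
      have h3 : C.relIndex N = Nat.card (N.map (QuotientGroup.mk' C)) := by
        have := Subgroup.relIndex_ker (K := N) (QuotientGroup.mk' C)
        rwa [QuotientGroup.ker_mk'] at this
      obtain ⟨a, ha⟩ := IsPGroup.iff_card.1 hpg
      rw [h3, ha] at h2
      obtain ⟨b, -, hb⟩ := (Nat.dvd_prime_pow hpr).1 h2
      rw [hb] at h1 ⊢
      rcases b with _ | b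
      · simp
      · exfalso
        apply hi
        exact dvd_trans (dvd_pow_self p (Nat.succ_ne_zero b)) h1
    refine ⟨?_, ?_⟩
    · -- S ⊓ C ≤ H
      have hK : (S ⊓ C) ⊔ H ≤ N := sup_le (inf_le_right.trans hCN) hHN
      have hKS : (S ⊓ C) ⊔ H ≤ S := sup_le inf_le_left hHS
      have h1 : H.relIndex ((S ⊓ C) ⊔ H) ∣ H.relIndex N := by
        have := Subgroup.relIndex_mul_relIndex H ((S ⊓ C) ⊔ H) N le_sup_right hK
        exact ⟨_, this.symm⟩
      have h2 : H.relIndex ((S ⊓ C) ⊔ H) ∣ Nat.card ((S ⊓ C) ⊔ H : Subgroup X) := Subgroup.relIndex_dvd_card _ _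
      obtain ⟨a, ha⟩ := IsPGroup.iff_card.1 (hSp.to_le hKS)
      rw [ha] at h2
      obtain ⟨b, -, hb⟩ := (Nat.dvd_prime_pow hpr).1 h2
      have h3 : H.relIndex ((S ⊓ C) ⊔ H) = 1 := by
        rw [hb] at h1 ⊢
        rcases b with _ | b
        · simp
        · exfalso
          apply hi
          exact dvd_trans (dvd_pow_self p (Nat.succ_ne_zero b)) h1
      rw [Subgroup.relIndex_eq_one] at h3
      exact le_sup_left.trans h3
    · -- the core
      have hCW : C ≤ pPrimePCore p X := by
        have hiC : ¬ p ∣ H.relIndex C := by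
          rw [← hrel, ← hNeq]; exact hi
        -- central Sylow subgroup of C
        let A : Subgroup C := H.subgroupOf C
        have hAp : IsPGroup p A := by
          intro a
          obtain ⟨k, hk⟩ := hHp ⟨((a : C) : X), a.2⟩
          refine ⟨k, ?_⟩
          have h4 : (((a : C) : X)) ^ (p ^ k) = 1 := congrArg Subtype.val hk
          apply Subtype.ext
          apply Subtype.ext
          simpa using h4
        have hAi : ¬ p ∣ A.index := hiC
        let Q : Sylow p C := hAp.toSylow hAi
        have hQmem : ∀ a : C, a ∈ (Q : Subgroup C) ↔ (a : X) ∈ H := by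
          intro a
          show a ∈ (hAp.toSylow hAi : Subgroup C) ↔ _
          rw [IsPGroup.toSylow_coe]
          exact Subgroup.mem_subgroupOf
        have hcentral : ∀ (a b : C), a ∈ (Q : Subgroup C) → b * a = a * b := by
          intro a b ha
          apply Subtype.ext
          exact (hCc _).1 b.2 _ ((hQmem a).1 ha)
        have hPc : normalizer ((Q : Subgroup C) : Set C) ≤ centralizer ((Q : Subgroup C) : Set C) := by
          intro x _
          rw [Subgroup.mem_centralizer_iff]
          intro a ha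
          exact (hcentral a x ha).symm
        have hcomp := MonoidHom.ker_transferSylow_isComplement' Q hPc
        have hKc : ¬ p ∣ Nat.card (MonoidHom.transferSylow Q hPc).ker :=
          MonoidHom.not_dvd_card_ker_transferSylow Q hPc
        set K := (MonoidHom.transferSylow Q hPc).ker with hK
        haveI hKn : K.Normal := MonoidHom.normal_ker _
        have hdec : ∀ x : C, ∃ k ∈ K, ∃ a ∈ (Q : Subgroup C), x = k * a := by
          intro x
          have h1 : x ∈ ((K ⊔ (Q : Subgroup C) : Subgroup C) : Set C) := by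
            rw [hcomp.sup_eq_top]; trivial
          rw [sup_comm, Subgroup.mul_normal] at h1
          obtain ⟨a, ha, k, hk, e⟩ := Set.mem_mul.1 h1
          refine ⟨k, hk, a, ha, ?_⟩
          rw [← e]
          exact hcentral a k ha |>.symm.symm ▸ (hcentral a k ha).symm
        -- the complement is normal in X, of order prime to p
        have hKX : (K.map C.subtype).Normal := by
          refine ⟨?_⟩
          rintro _ ⟨k, hk, rfl⟩ g
          have hy : g * (k : X) * g⁻¹ ∈ C := hCn.conj_mem _ k.2 g
          obtain ⟨k', hk', a', ha', e⟩ := hdec ⟨_, hy⟩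
          have hord : ((⟨_, hy⟩ : C)) ^ (Nat.card K) = 1 := by
            apply Subtype.ext
            have h1 : (k : X) ^ (Nat.card K) = 1 := by
              have := pow_card_eq_one' (x := (⟨k, hk⟩ : K))
              exact congrArg (fun z : K => ((z : C) : X)) this
            show (g * (k : X) * g⁻¹) ^ (Nat.card K) = 1
            rw [conj_pow, h1]
            simp
          have hk'1 : k' ^ (Nat.card K) = 1 := by
            have := pow_card_eq_one' (x := (⟨k', hk'⟩ : K))
            exact congrArg (fun z : K => (z : C)) this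
          have hcomm : Commute k' a' := (hcentral a' k' ha')
          have ha1 : a' ^ (Nat.card K) = 1 := by
            rw [e, hcomm.mul_pow, hk'1, one_mul] at hord
            exact hord
          have ha2 : a' = 1 := by
            obtain ⟨j, hj⟩ := (IsPGroup.iff_orderOf.1 Q.isPGroup') ⟨a', ha'⟩
            have hj' : orderOf a' = p ^ j := by
              rw [← Subgroup.orderOf_mk a' ha']; exact hj
            have h1 := orderOf_dvd_of_pow_eq_one ha1
            rw [hj'] at h1
            rcases j with _ | j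
            · rw [pow_zero] at hj'
              exact orderOf_eq_one_iff.1 hj'
            · exfalso
              exact hKc (dvd_trans (dvd_pow_self p (Nat.succ_ne_zero j)) h1)
          refine ⟨k', hk', ?_⟩
          have e2 : (⟨_, hy⟩ : C) = k' := by rw [e, ha2, mul_one]
          exact (congrArg Subtype.val e2).symm
        have hKO : K.map C.subtype ≤ O := by
          apply le_sSup
          refine ⟨hKX, ?_⟩
          rw [Subgroup.card_map_of_injective C.subtype_injective]
          apply Nat.Coprime.symm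
          rw [Nat.Prime.coprime_iff_not_dvd hpr]
          exact hKc
        intro x hx
        obtain ⟨k, hk, a, ha, e⟩ := hdec ⟨x, hx⟩
        have e' : x = (k : X) * (a : X) := congrArg Subtype.val e
        rw [e']
        exact Subgroup.mul_mem _ (hOW (hKO ⟨k, hk, rfl⟩)) (hHW ((hQmem a).1 ha))
      have hWN : pPrimePCore p X ≤ N := by
        apply map_le_core (pPrimePCore p X) C
        intro x hx
        obtain ⟨k, hk⟩ := pow_mem_of_core O hx
        exact ⟨k, hOC hk⟩
      apply le_antisymm
      · rw [← hNeq]; exact hWN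
      · exact sup_le hHW hCW
  · rintro ⟨hSC, hW⟩
    refine ⟨hHN, ?_⟩
    have hNW : N ≤ pPrimePCore p X := by
      apply map_le_core N O
      intro x hx
      obtain ⟨a, ha⟩ := pow_mem_of_core C hx
      have h1 : x ^ (p ^ a) ∈ pPrimePCore p X := by
        rw [hW]; exact (le_sup_right : C ≤ H ⊔ C) ha
      obtain ⟨b, hb⟩ := pow_mem_of_core O h1
      refine ⟨a + b, ?_⟩
      rw [pow_add, pow_mul]
      exact hb
    have hNeq : N = H ⊔ C := by
      apply le_antisymm _ hHCN
      rw [← hW]; exact hNW
    rw [hNeq, hrel]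
    intro hd
    apply hSi
    have h1 : S.relIndex C ∣ S.index := index_dvd_of_normal S C
    have h2 : H.relIndex C ∣ S.relIndex C := by
      have h3 : S ⊓ C ≤ H ⊓ C := le_inf hSC inf_le_right
      have h4 := Subgroup.relIndex_dvd_of_le_left C h3
      rwa [Subgroup.inf_relIndex_right, Subgroup.inf_relIndex_right] at h4
    exact dvd_trans hd (dvd_trans h2 h1)

/-- Let P be a Sylow p-subgroup of the finite group G and H ≤ P a subgroup with N_P(H) a Sylow p-subgroup of N_G(H). Let N be the preimage in N_G(H) of O_p(N_G(H)/C_G(H)). Then H is a Sylow p-subgroup of N if and only if C_P(H) ≤ H and O_{p',p}(N_G(H)) = H·C_G(H). -/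
theorem result {G : Type*} [Group G] [Finite G] {p : ℕ} [Fact p.Prime]
    (P : Sylow p G) (H : Subgroup G) (hHP : H ≤ (P : Subgroup G))
    (hSyl : ¬ p ∣ ((P : Subgroup G) ⊓ Subgroup.normalizer (H : Set G)).relIndex (Subgroup.normalizer (H : Set G)))
    [hC : ((Subgroup.centralizer (H : Set G)).subgroupOf (Subgroup.normalizer (H : Set G))).Normal] :
    (H ≤ ((Cfsg.pCore p (↥(Subgroup.normalizer (H : Set G)) ⧸
              (Subgroup.centralizer (H : Set G)).subgroupOf (Subgroup.normalizer (H : Set G)))).comap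
            (QuotientGroup.mk' _)).map (Subgroup.normalizer (H : Set G)).subtype ∧
      ¬ p ∣ H.relIndex (((Cfsg.pCore p (↥(Subgroup.normalizer (H : Set G)) ⧸
              (Subgroup.centralizer (H : Set G)).subgroupOf (Subgroup.normalizer (H : Set G)))).comap
            (QuotientGroup.mk' _)).map (Subgroup.normalizer (H : Set G)).subtype)) ↔
    ((P : Subgroup G) ⊓ Subgroup.centralizer (H : Set G) ≤ H ∧
      (Cfsg.pPrimePCore p ↥(Subgroup.normalizer (H : Set G))).map (Subgroup.normalizer (H : Set G)).subtype =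
        H ⊔ Subgroup.centralizer (H : Set G)) := by
  have hpr : p.Prime := Fact.out
  have hle : H ≤ (Subgroup.normalizer (H : Set G)) := Subgroup.le_normalizer
  haveI hHn : (H.subgroupOf (Subgroup.normalizer (H : Set G))).Normal := Subgroup.normal_in_normalizer
  have hCN : Subgroup.centralizer (H : Set G) ≤ (Subgroup.normalizer (H : Set G)) := by
    intro x hx
    rw [Subgroup.mem_normalizer_iff]
    intro h
    rw [Subgroup.mem_centralizer_iff] at hx
    constructor
    · intro hh
      have e : x * h * x⁻¹ = h := by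
        rw [← hx h hh]; simp
      rw [e]; exact hh
    · intro hh
      have hinv : x⁻¹ ∈ Subgroup.centralizer (H : Set G) := by
        apply Subgroup.inv_mem
        rw [Subgroup.mem_centralizer_iff]
        exact hx
      rw [Subgroup.mem_centralizer_iff] at hinv
      have e : x⁻¹ * (x * h * x⁻¹) * x⁻¹⁻¹ = x * h * x⁻¹ := by
        rw [← hinv _ hh]; simp
      have e2 : x⁻¹ * (x * h * x⁻¹) * x⁻¹⁻¹ = h := by group
      rw [← e2, e]; exact hh
  have hPp : IsPGroup p (P : Subgroup G) := P.isPGroup'
  have hHp : IsPGroup p (H.subgroupOf (Subgroup.normalizer (H : Set G))) := by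
    intro a
    obtain ⟨k, hk⟩ := hPp ⟨((a : (Subgroup.normalizer (H : Set G))) : G), hHP a.2⟩
    refine ⟨k, ?_⟩
    have h4 : (((a : (Subgroup.normalizer (H : Set G))) : G)) ^ (p ^ k) = 1 := congrArg Subtype.val hk
    apply Subtype.ext
    apply Subtype.ext
    simpa using h4
  have hSp : IsPGroup p (((P : Subgroup G) ⊓ (Subgroup.normalizer (H : Set G))).subgroupOf (Subgroup.normalizer (H : Set G))) := by
    intro a
    have ha : ((a : (Subgroup.normalizer (H : Set G))) : G) ∈ (P : Subgroup G) ⊓ (Subgroup.normalizer (H : Set G)) := a.2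
    obtain ⟨k, hk⟩ := hPp ⟨((a : (Subgroup.normalizer (H : Set G))) : G), ha.1⟩
    refine ⟨k, ?_⟩
    have h4 : (((a : (Subgroup.normalizer (H : Set G))) : G)) ^ (p ^ k) = 1 := congrArg Subtype.val hk
    apply Subtype.ext
    apply Subtype.ext
    simpa using h4
  have hCc : ∀ x : (Subgroup.normalizer (H : Set G)), x ∈ (Subgroup.centralizer (H : Set G)).subgroupOf (Subgroup.normalizer (H : Set G)) ↔
      ∀ h ∈ H.subgroupOf (Subgroup.normalizer (H : Set G)), x * h = h * x := by
    intro x
    rw [Subgroup.mem_subgroupOf, Subgroup.mem_centralizer_iff]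
    constructor
    · intro hx h hh
      apply Subtype.ext
      exact (hx _ hh).symm
    · intro hx h hh
      have := hx ⟨h, hle hh⟩ (by rw [Subgroup.mem_subgroupOf]; exact hh)
      exact (congrArg Subtype.val this).symm
  have hHS : H.subgroupOf (Subgroup.normalizer (H : Set G)) ≤ ((P : Subgroup G) ⊓ (Subgroup.normalizer (H : Set G))).subgroupOf (Subgroup.normalizer (H : Set G)) := by
    intro a ha
    rw [Subgroup.mem_subgroupOf] at ha ⊢
    exact ⟨hHP ha, a.2⟩
  have key := core_main (X := (Subgroup.normalizer (H : Set G))) (p := p) (H.subgroupOf (Subgroup.normalizer (H : Set G)))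
    ((Subgroup.centralizer (H : Set G)).subgroupOf (Subgroup.normalizer (H : Set G)))
    (((P : Subgroup G) ⊓ (Subgroup.normalizer (H : Set G))).subgroupOf (Subgroup.normalizer (H : Set G))) hHp hCc hSp hSyl hHS
  have eH : (H.subgroupOf (Subgroup.normalizer (H : Set G))).map (Subgroup.normalizer (H : Set G)).subtype = H := Subgroup.map_subgroupOf_eq_of_le hle
  have eC : ((Subgroup.centralizer (H : Set G)).subgroupOf (Subgroup.normalizer (H : Set G))).map (Subgroup.normalizer (H : Set G)).subtype =
      Subgroup.centralizer (H : Set G) := Subgroup.map_subgroupOf_eq_of_le hCN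
  have A1 : ∀ M : Subgroup (Subgroup.normalizer (H : Set G)), H ≤ M.map (Subgroup.normalizer (H : Set G)).subtype ↔ H.subgroupOf (Subgroup.normalizer (H : Set G)) ≤ M := by
    intro M
    have h := Subgroup.map_le_map_iff_of_injective (f := (Subgroup.normalizer (H : Set G)).subtype) (Subgroup.normalizer (H : Set G)).subtype_injective (H := H.subgroupOf (Subgroup.normalizer (H : Set G))) (K := M)
    rw [eH] at h
    exact h
  have A2 : ∀ M : Subgroup (Subgroup.normalizer (H : Set G)), H.relIndex (M.map (Subgroup.normalizer (H : Set G)).subtype) = (H.subgroupOf (Subgroup.normalizer (H : Set G))).relIndex M := by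
    intro M
    have h := Subgroup.relIndex_map_map_of_injective (f := (Subgroup.normalizer (H : Set G)).subtype) (H.subgroupOf (Subgroup.normalizer (H : Set G))) M (Subgroup.normalizer (H : Set G)).subtype_injective
    rw [eH] at h
    exact h
  have A3 : ((P : Subgroup G) ⊓ Subgroup.centralizer (H : Set G) ≤ H) ↔
      (((P : Subgroup G) ⊓ (Subgroup.normalizer (H : Set G))).subgroupOf (Subgroup.normalizer (H : Set G)) ⊓ (Subgroup.centralizer (H : Set G)).subgroupOf (Subgroup.normalizer (H : Set G)) ≤ H.subgroupOf (Subgroup.normalizer (H : Set G))) := by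
    constructor
    · intro h1 a ha
      have ha1 : a ∈ ((P : Subgroup G) ⊓ (Subgroup.normalizer (H : Set G))).subgroupOf (Subgroup.normalizer (H : Set G)) := ha.1
      have ha2 : a ∈ (Subgroup.centralizer (H : Set G)).subgroupOf (Subgroup.normalizer (H : Set G)) := ha.2
      rw [Subgroup.mem_subgroupOf] at ha1 ha2 ⊢
      exact h1 ⟨ha1.1, ha2⟩
    · intro h1 x hx
      have hx1 : x ∈ (P : Subgroup G) := hx.1
      have hx2 : x ∈ Subgroup.centralizer (H : Set G) := hx.2
      have h3 : (⟨x, hCN hx2⟩ : (Subgroup.normalizer (H : Set G))) ∈ (((P : Subgroup G) ⊓ (Subgroup.normalizer (H : Set G))).subgroupOf (Subgroup.normalizer (H : Set G))) ⊓ ((Subgroup.centralizer (H : Set G)).subgroupOf (Subgroup.normalizer (H : Set G))) :=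
        Subgroup.mem_inf.2 ⟨Subgroup.mem_subgroupOf.2 ⟨hx1, hCN hx2⟩, Subgroup.mem_subgroupOf.2 hx2⟩
      exact Subgroup.mem_subgroupOf.1 (h1 h3)
  have A4 : ∀ W : Subgroup (Subgroup.normalizer (H : Set G)), W.map (Subgroup.normalizer (H : Set G)).subtype = H ⊔ Subgroup.centralizer (H : Set G) ↔
      W = H.subgroupOf (Subgroup.normalizer (H : Set G)) ⊔ (Subgroup.centralizer (H : Set G)).subgroupOf (Subgroup.normalizer (H : Set G)) := by
    intro W
    have e : (H.subgroupOf (Subgroup.normalizer (H : Set G)) ⊔ (Subgroup.centralizer (H : Set G)).subgroupOf (Subgroup.normalizer (H : Set G))).map (Subgroup.normalizer (H : Set G)).subtype =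
        H ⊔ Subgroup.centralizer (H : Set G) := by
      rw [Subgroup.map_sup, eH, eC]
    constructor
    · intro h1
      apply Subgroup.map_injective (Subgroup.normalizer (H : Set G)).subtype_injective
      rw [h1, e]
    · intro h1
      rw [h1, e]
  have A2' : ∀ M : Subgroup (Subgroup.normalizer (H : Set G)), (p ∣ H.relIndex (M.map ((Subgroup.normalizer (H : Set G))).subtype)) ↔ (p ∣ (H.subgroupOf (Subgroup.normalizer (H : Set G))).relIndex M) :=
    fun M => by rw [A2]
  have L := and_congr (A1 ((Cfsg.pCore p (↥(Subgroup.normalizer (H : Set G)) ⧸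
              (Subgroup.centralizer (H : Set G)).subgroupOf (Subgroup.normalizer (H : Set G)))).comap
            (QuotientGroup.mk' _)))
    (not_congr (A2' ((Cfsg.pCore p (↥(Subgroup.normalizer (H : Set G)) ⧸
              (Subgroup.centralizer (H : Set G)).subgroupOf (Subgroup.normalizer (H : Set G)))).comap
            (QuotientGroup.mk' _))))
  have R := and_congr A3 (A4 (Cfsg.pPrimePCore p ↥(Subgroup.normalizer (H : Set G))))
  exact L.trans (key.trans R.symm)

end Cfsg.Agent.S3076
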