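import Mathlib
import Cfsg.Agent.Lib.DStar
import Cfsg.Agent.Lib.Replacement
import Cfsg.Statements.S3078
-- import your own Cfsg.Agent.* helpers here

set_option autoImplicit false
open Cfsg

namespace Cfsg.Agent.S3078

open scoped commutatorElement
open Cfsg.Agent.Lib.DStar Cfsg.Agent.Lib.Replacement Cfsg.Agent.Lib.H5Basic

/-- Lower bound on fibres. -/
theorem mul_card_le_of_fibers {α β : Type*} [Finite α] [Finite β] (f : α → β) (m : ℕ)
    (h : ∀ b, m ≤ Nat.card {a // f a = b}) : m * Nat.card β ≤ Nat.card α := by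
  classical
  haveI := Fintype.ofFinite β
  have h1 : Nat.card α = Nat.card (Σ y, {x // f x = y}) :=
    (Nat.card_congr (Equiv.sigmaFiberEquiv f)).symm
  rw [h1, Nat.card_sigma, Nat.card_eq_fintype_card (α := β)]
  calc m * Fintype.card β = ∑ _a : β, m := by simp [mul_comm]
    _ ≤ ∑ a, Nat.card {x // f x = a} := Finset.sum_le_sum (fun a _ => h a)

/-- Product formula (upper bound) for a subgroup normalizing another one. -/
theorem card_sup_mul_card_inf_le {G : Type*} [Group G] [Finite G] {A C : Subgroup G}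
    (h : C ≤ Subgroup.normalizer (A : Set G)) :
    Nat.card ↥(A ⊔ C) * Nat.card ↥(A ⊓ C) ≤ Nat.card A * Nat.card C := by
  classical
  have hsup : A ⊔ C = C ⊔ A := sup_comm A C
  let f : ↥C × ↥A → ↥(A ⊔ C) := fun q =>
    ⟨(q.1 : G) * q.2, Subgroup.mul_mem _ (Subgroup.mem_sup_right q.1.2) (Subgroup.mem_sup_left q.2.2)⟩
  have h1 := mul_card_le_of_fibers f (Nat.card ↥(A ⊓ C)) (by
    rintro ⟨y, hy⟩
    rw [hsup] at hy
    obtain ⟨c₀, hc₀, a₀, ha₀, rfl⟩ := mem_sup_of_le_normalizer h hy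
    let F : ↥(A ⊓ C) → {q // f q = ⟨c₀ * a₀, by rw [hsup]; exact Subgroup.mul_mem _ (Subgroup.mem_sup_left hc₀) (Subgroup.mem_sup_right ha₀)⟩} :=
      fun d => ⟨(⟨c₀ * d, C.mul_mem hc₀ d.2.2⟩, ⟨(d : G)⁻¹ * a₀, A.mul_mem (A.inv_mem d.2.1) ha₀⟩), by
        apply Subtype.ext
        show c₀ * (d : G) * ((d : G)⁻¹ * a₀) = c₀ * a₀
        group⟩
    have hF : Function.Injective F := by
      intro d d' hdd
      have h2 := congrArg (fun q => ((q.1.1 : ↥C) : G)) hdd
      have h3 : c₀ * (d : G) = c₀ * (d' : G) := h2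
      exact Subtype.ext (mul_left_cancel h3)
    exact Nat.card_le_card_of_injective F hF)
  rw [Nat.card_prod] at h1
  rw [mul_comm (Nat.card A)]
  rw [mul_comm]
  exact h1

section classTwo

variable {G : Type*} [Group G]

/-- The commutator as an element. -/
abbrev dd (y w : G) : G := y * w * y⁻¹ * w⁻¹

theorem dd_mul_right {y w w' : G} (h : ∀ r ∈ ({y, w, w'} : Set G), dd y w' * r = r * dd y w') :
    dd y (w * w') = dd y w' * dd y w := by
  have hy := h y (by simp)
  have hw := h w (by simp)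
  have e1 : dd y w' * w = w * dd y w' := hw
  have e2 : dd y w' * y = y * dd y w' := hy
  have e3 : dd y w' * y⁻¹ = y⁻¹ * dd y w' :=
    (Commute.inv_right (show Commute (dd y w') y from e2))
  calc dd y (w * w') = y * w * y⁻¹ * (dd y w') * w⁻¹ := by simp only [dd]; group
    _ = y * w * (y⁻¹ * dd y w') * w⁻¹ := by group
    _ = y * w * (dd y w' * y⁻¹) * w⁻¹ := by rw [e3]
    _ = y * (w * dd y w') * y⁻¹ * w⁻¹ := by group
    _ = y * (dd y w' * w) * y⁻¹ * w⁻¹ := by rw [e1]
    _ = (y * dd y w') * w * y⁻¹ * w⁻¹ := by group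
    _ = (dd y w' * y) * w * y⁻¹ * w⁻¹ := by rw [e2]
    _ = dd y w' * dd y w := by simp only [dd]; group

theorem dd_mul_left {y y' w : G} (h : ∀ r ∈ ({y, y', w} : Set G), dd y' w * r = r * dd y' w) :
    dd (y * y') w = dd y' w * dd y w := by
  have hy := h y (by simp)
  have hw := h w (by simp)
  calc dd (y * y') w = y * (y' * w * y'⁻¹ * w⁻¹) * w * y⁻¹ * w⁻¹ := by simp only [dd]; group
    _ = y * dd y' w * w * y⁻¹ * w⁻¹ := rfl
    _ = (y * dd y' w) * w * y⁻¹ * w⁻¹ := by group
    _ = (dd y' w * y) * w * y⁻¹ * w⁻¹ := by rw [hy]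
    _ = _ := by simp only [dd]; group

/-- The class two computation behind the oddness of `p`. -/
theorem dd_sq_eq_one (V : Subgroup G) (hV : ⁅⁅V, V⁆, V⁆ = ⊥) {s t a b : G} (hs : s ∈ V) (ht : t ∈ V)
    (ha : a ∈ V) (hb : b ∈ V) (hab : a * b = b * a)
    (h1 : (s * a) * (t * b) = (t * b) * (s * a))
    (h2 : (s * s * a) * (t * t * b) = (t * t * b) * (s * s * a)) :
    dd t s * dd t s = 1 := by
  have hcen : ∀ y ∈ V, ∀ w ∈ V, ∀ r ∈ V, dd y w * r = r * dd y w := by
    intro y hy w hw r hr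
    have h3 : ⁅y, w⁆ ∈ ⁅V, V⁆ := Subgroup.commutator_mem_commutator hy hw
    have h4 : ⁅⁅y, w⁆, r⁆ ∈ ⁅⁅V, V⁆, V⁆ := Subgroup.commutator_mem_commutator h3 hr
    rw [hV, Subgroup.mem_bot, commutatorElement_eq_one_iff_mul_comm] at h4
    exact h4
  have hddV : ∀ y ∈ V, ∀ w ∈ V, dd y w ∈ V := by
    intro y hy w hw
    exact V.mul_mem (V.mul_mem (V.mul_mem hy hw) (V.inv_mem hy)) (V.inv_mem hw)
  -- general identity
  have hgen : ∀ p ∈ V, ∀ q ∈ V, (p * a) * (q * b) = (q * b) * (p * a) → dd a q = dd b p * dd q p := by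
    intro p hp q hq he
    have e1 : a * q = dd a q * (q * a) := by simp [dd, mul_assoc]
    have e2 : b * p = dd b p * (p * b) := by simp [dd, mul_assoc]
    have e3 : q * p = dd q p * (p * q) := by simp [dd, mul_assoc]
    have c1 : dd a q * p = p * dd a q := hcen a ha q hq p hp
    have c2 : dd b p * q = q * dd b p := hcen b hb p hp q hq
    have e4 : (p * a) * (q * b) = dd a q * (p * q * a * b) := by
      calc (p * a) * (q * b) = p * (a * q) * b := by group
        _ = p * (dd a q * (q * a)) * b := by rw [e1]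
        _ = (p * dd a q) * q * a * b := by group
        _ = (dd a q * p) * q * a * b := by rw [c1]
        _ = _ := by group
    have e5 : (q * b) * (p * a) = dd b p * dd q p * (p * q * a * b) := by
      calc (q * b) * (p * a) = q * (b * p) * a := by group
        _ = q * (dd b p * (p * b)) * a := by rw [e2]
        _ = (q * dd b p) * p * b * a := by group
        _ = (dd b p * q) * p * b * a := by rw [c2]
        _ = dd b p * (q * p) * (b * a) := by group
        _ = dd b p * (dd q p * (p * q)) * (a * b) := by rw [e3, hab]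
        _ = _ := by group
    rw [e4, e5] at he
    exact mul_right_cancel he
  have hs2 : s * s ∈ V := V.mul_mem hs hs
  have ht2 : t * t ∈ V := V.mul_mem ht ht
  have k1 := hgen s hs t ht h1
  have k2 := hgen (s * s) hs2 (t * t) ht2 h2
  -- squaring formulas
  have hsq1 : dd a (t * t) = dd a t * dd a t := by
    apply dd_mul_right
    intro r hr
    rcases hr with rfl | rfl | rfl
    · exact hcen _ ha _ ht _ ha
    · exact hcen _ ha _ ht _ ht
    · exact hcen _ ha _ ht _ ht
  have hsq2 : dd b (s * s) = dd b s * dd b s := by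
    apply dd_mul_right
    intro r hr
    rcases hr with rfl | rfl | rfl
    · exact hcen _ hb _ hs _ hb
    · exact hcen _ hb _ hs _ hs
    · exact hcen _ hb _ hs _ hs
  have hsq3 : dd t (s * s) = dd t s * dd t s := by
    apply dd_mul_right
    intro r hr
    rcases hr with rfl | rfl | rfl
    · exact hcen _ ht _ hs _ ht
    · exact hcen _ ht _ hs _ hs
    · exact hcen _ ht _ hs _ hs
  have hsq4 : dd (t * t) (s * s) = dd t (s * s) * dd t (s * s) := by
    apply dd_mul_left
    intro r hr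
    rcases hr with rfl | rfl | rfl
    · exact hcen _ ht _ hs2 _ ht
    · exact hcen _ ht _ hs2 _ ht
    · exact hcen _ ht _ hs2 _ hs2
  rw [hsq1, hsq2, hsq4, hsq3] at k2
  set α := dd a t with hα
  set β := dd b s with hβ
  set γ := dd t s with hγ
  have hγV : γ ∈ V := hddV t ht s hs
  have hβV : β ∈ V := hddV b hb s hs
  have cβγ : β * γ = γ * β := hcen b hb s hs γ hγV
  rw [k1] at k2
  -- β γ β γ = β β (γ γ γ γ)
  have h5 : β * γ * (β * γ) = β * β * (γ * γ) := by
    calc β * γ * (β * γ) = β * (γ * β) * γ := by group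
      _ = β * (β * γ) * γ := by rw [cβγ]
      _ = _ := by group
  rw [h5] at k2
  have h6 : β * β * (γ * γ) * 1 = β * β * (γ * γ) * (γ * γ) := by
    rw [mul_one]
    calc β * β * (γ * γ) = β * β * (γ * γ * (γ * γ)) := k2
      _ = _ := by group
  exact (mul_left_cancel h6).symm

/-- The class two power formula. -/
theorem pow_mul_class_two {a y z : G} (hya : y * a = z * a * y) (hza : z * a = a * z)
    (hzy : z * y = y * z) (n : ℕ) : (a * y) ^ n = a ^ n * y ^ n * z ^ (n.choose 2) := by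
  have hz : Commute z y := hzy
  have hza' : Commute z a := hza
  have hyn : ∀ n : ℕ, y ^ n * a = z ^ n * a * y ^ n := by
    intro n
    induction n with
    | zero => simp
    | succ n ih =>
      calc y ^ (n + 1) * a = y ^ n * (y * a) := by rw [pow_succ]; group
        _ = y ^ n * (z * a * y) := by rw [hya]
        _ = (y ^ n * z) * a * y := by group
        _ = (z * y ^ n) * a * y := by rw [((hz.pow_right n).eq).symm]
        _ = z * (y ^ n * a) * y := by group
        _ = z * (z ^ n * a * y ^ n) * y := by rw [ih]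
        _ = z ^ (n + 1) * a * y ^ (n + 1) := by
          rw [pow_succ' z, pow_succ y]; group
  induction n with
  | zero => simp
  | succ n ih =>
    have hch : (n + 1).choose 2 = n.choose 2 + n := by
      have h0 : (n + 1).choose 2 = n.choose 1 + n.choose 2 := Nat.choose_succ_succ' n 1
      rw [h0, Nat.choose_one_right, add_comm]
    rw [pow_succ, ih, hch]
    have c1 : z ^ (n.choose 2) * a = a * z ^ (n.choose 2) := (hza'.pow_left _).eq
    have c2 : z ^ n * a = a * z ^ n := (hza'.pow_left _).eq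
    have c3 : z ^ (n.choose 2) * y = y * z ^ (n.choose 2) := (hz.pow_left _).eq
    have c4 : z ^ n * y = y * z ^ n := (hz.pow_left _).eq
    calc a ^ n * y ^ n * z ^ n.choose 2 * (a * y)
        = a ^ n * y ^ n * (z ^ n.choose 2 * a) * y := by group
      _ = a ^ n * (y ^ n * a) * z ^ n.choose 2 * y := by rw [c1]; group
      _ = a ^ n * (z ^ n * a * y ^ n) * z ^ n.choose 2 * y := by rw [hyn]
      _ = a ^ n * (z ^ n * a) * y ^ n * z ^ n.choose 2 * y := by group
      _ = a ^ n * (a * z ^ n) * y ^ n * z ^ n.choose 2 * y := by rw [c2]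
      _ = a ^ (n + 1) * z ^ n * y ^ n * (z ^ n.choose 2 * y) := by rw [pow_succ a]; group
      _ = a ^ (n + 1) * z ^ n * y ^ n * (y * z ^ n.choose 2) := by rw [c3]
      _ = a ^ (n + 1) * (z ^ n * y ^ (n + 1)) * z ^ n.choose 2 := by rw [pow_succ y]; group
      _ = a ^ (n + 1) * (y ^ (n + 1) * z ^ n) * z ^ n.choose 2 := by
          rw [((hz.pow_pow n (n + 1)).eq)]
      _ = a ^ (n + 1) * y ^ (n + 1) * z ^ (n.choose 2 + n) := by
          rw [pow_add z]
          have : z ^ n * z ^ n.choose 2 = z ^ n.choose 2 * z ^ n := (Commute.pow_pow (Commute.refl z) _ _).eq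
          calc a ^ (n + 1) * (y ^ (n + 1) * z ^ n) * z ^ n.choose 2
              = a ^ (n + 1) * y ^ (n + 1) * (z ^ n * z ^ n.choose 2) := by group
            _ = _ := by rw [this]

/-- The power of a product in class two, odd exponent. -/
theorem mul_pow_eq_one_of_odd {a y z : G} {n : ℕ} (hn : Odd n) (hya : y * a = z * a * y)
    (hza : z * a = a * z) (hzy : z * y = y * z) (ha : a ^ n = 1) (hy : y ^ n = 1) :
    (a * y) ^ n = 1 := by
  have hzn : z ^ n = 1 := by
    have h1 : y * a * y⁻¹ = z * a := by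
      rw [hya]; group
    have h2 : (y * a * y⁻¹) ^ n = y * a ^ n * y⁻¹ := conj_pow
    rw [ha, h1] at h2
    have hcomm : Commute z a := hza
    rw [hcomm.mul_pow, ha] at h2
    simpa using h2
  rw [pow_mul_class_two hya hza hzy, ha, hy]
  obtain ⟨k, rfl⟩ := hn
  have : (2 * k + 1).choose 2 = (2 * k + 1) * k := by
    rw [Nat.choose_two_right]
    have : (2 * k + 1) * (2 * k + 1 - 1) = 2 * ((2 * k + 1) * k) := by
      simp only [Nat.add_sub_cancel]; ring
    rw [this]
    simp
  rw [this, pow_mul, hzn]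
  simp

end classTwo


/-- A replacement Theorem for abelian subgroups of p-groups, p odd. Let G be a finite p-group with p odd, A an abelian subgroup of G, and B a subgroup of nilpotency class at most 2 with [B, B] ≤ A, such that A normalizes B but B does not normalize A. Then there is an abelian subgroup A* of G of the same order as A with A ∩ B strictly contained in A* ∩ B, A* contained in N_G(A) and in the normal closure of A, the exponent of A* dividing the exponent of A, and with the subgroup generated by the elements of order dividing p in A of order at most that of the corresponding subgroup of A* (the rank of A is at most the rank of A*). -/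
theorem result {G : Type*} [Group G] [Finite G] {p : ℕ} [Fact p.Prime] (hp : p ≠ 2) (hG : IsPGroup p G) (A B : Subgroup G) (hA : IsMulCommutative A) (hB2 : ⁅⁅B, B⁆, B⁆ = ⊥) (hBA : ⁅B, B⁆ ≤ A) (hAB : A ≤ Subgroup.normalizer (B : Set G)) (hBnA : ¬ B ≤ Subgroup.normalizer (A : Set G)) : ∃ Astar : Subgroup G, IsMulCommutative Astar ∧ Nat.card Astar = Nat.card A ∧ A ⊓ B < Astar ⊓ B ∧ Astar ≤ Subgroup.normalizer (A : Set G) ∧ Astar ≤ Subgroup.normalClosure (A : Set G) ∧ Monoid.exponent Astar ∣ Monoid.exponent A ∧ Nat.card (Cfsg.omegaOne p A) ≤ Nat.card (Cfsg.omegaOne p Astar) := by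
  classical
  rw [imc_iff] at hA
  have hBc : ∀ s ∈ B, ∀ t ∈ B, ∀ r ∈ B, (s * t * s⁻¹ * t⁻¹) * r = r * (s * t * s⁻¹ * t⁻¹) := by
    intro s hs t ht r hr
    have h3 : ⁅s, t⁆ ∈ ⁅B, B⁆ := Subgroup.commutator_mem_commutator hs ht
    have h4 : ⁅⁅s, t⁆, r⁆ ∈ ⁅⁅B, B⁆, B⁆ := Subgroup.commutator_mem_commutator h3 hr
    rw [hB2, Subgroup.mem_bot, commutatorElement_eq_one_iff_mul_comm] at h4
    exact h4
  have hBA' : ∀ s ∈ B, ∀ t ∈ B, s * t * s⁻¹ * t⁻¹ ∈ A := by
    intro s hs t ht
    exact hBA (Subgroup.commutator_mem_commutator hs ht)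
  have hAnA : A ≤ Subgroup.normalizer (A : Set G) := Subgroup.le_normalizer
  -- choice of `x`
  obtain ⟨x, hxB, hxnA, hconj, hconj'⟩ : ∃ x ∈ B, x ∉ Subgroup.normalizer (A : Set G) ∧
      (∀ a ∈ A, x * a * x⁻¹ ∈ Subgroup.normalizer (A : Set G)) ∧
      (∀ a ∈ A, x⁻¹ * a * x ∈ Subgroup.normalizer (A : Set G)) := by
    set N := B ⊓ Subgroup.normalizer (A : Set G) with hN
    set T := A ⊔ N with hT
    have hTn : T ≤ Subgroup.normalizer (A : Set G) := sup_le hAnA inf_le_right
    have hle : T ≤ A ⊔ B := sup_le le_sup_left (inf_le_left.trans le_sup_right)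
    have hne : T ≠ A ⊔ B := by
      intro h
      apply hBnA
      have h1 : B ≤ A ⊔ B := le_sup_right
      rw [← h] at h1
      exact h1.trans hTn
    obtain ⟨y, hy, hyT, hyn⟩ := exists_mem_normalizer_of_lt (hG.to_subgroup (A ⊔ B)) hle hne
    obtain ⟨a₀, ha₀, x, hxB, rfl⟩ := mem_sup_of_le_normalizer hAB hy
    have hAT : A ≤ T := le_sup_left
    have hxnT : x ∈ Subgroup.normalizer (T : Set G) := by
      have h1 : a₀ ∈ Subgroup.normalizer (T : Set G) := Subgroup.le_normalizer (hAT ha₀)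
      have h2 := Subgroup.mul_mem _ (Subgroup.inv_mem _ h1) hyn
      simpa using h2
    have hxT : x ∉ T := by
      intro h
      exact hyT (T.mul_mem (hAT ha₀) h)
    refine ⟨x, hxB, ?_, ?_, ?_⟩
    · intro h
      exact hxT (Subgroup.mem_sup_right ⟨hxB, h⟩)
    · intro a ha
      exact hTn ((Subgroup.mem_normalizer_iff.1 hxnT a).1 (hAT ha))
    · intro a ha
      have := (Subgroup.mem_normalizer_iff.1 (Subgroup.inv_mem _ hxnT) a).1 (hAT ha)
      have h3 := hTn this
      simpa using h3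
  let c : G → G := fun a => a * x * a⁻¹ * x⁻¹
  have hc1 : ∀ a, c a = a * (x * a⁻¹ * x⁻¹) := by
    intro a; simp only [c]; group
  have hcB : ∀ a ∈ A, c a ∈ B := by
    intro a ha
    exact B.mul_mem ((Subgroup.mem_normalizer_iff.1 (hAB ha) x).1 hxB) (B.inv_mem hxB)
  have hcN : ∀ a ∈ A, c a ∈ Subgroup.normalizer (A : Set G) := by
    intro a ha
    rw [hc1]
    exact Subgroup.mul_mem _ (hAnA ha) (hconj _ (A.inv_mem ha))
  set Ax := A.map (MulAut.conj x).toMonoidHom with hAx
  have hmemAx : ∀ a ∈ A, x * a * x⁻¹ ∈ Ax := fun a ha => ⟨a, ha, rfl⟩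
  have hAxc : ∀ u ∈ Ax, ∀ v ∈ Ax, u * v = v * u := by
    rintro _ ⟨u, hu, rfl⟩ _ ⟨v, hv, rfl⟩
    simp only [MulEquiv.toMonoidHom_eq_coe, MonoidHom.coe_coe, MulAut.conj_apply]
    have := hA u hu v hv
    calc x * u * x⁻¹ * (x * v * x⁻¹) = x * (u * v) * x⁻¹ := by group
      _ = x * (v * u) * x⁻¹ := by rw [this]
      _ = _ := by group
  -- mutual normalization
  have hAxN : Ax ≤ Subgroup.normalizer (A : Set G) := by
    rintro _ ⟨a, ha, rfl⟩
    exact hconj a ha
  have hANx : ∀ a ∈ A, ∀ y ∈ Ax, a * y * a⁻¹ ∈ Ax := by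
    rintro a ha _ ⟨b, hb, rfl⟩
    have h1 := (Subgroup.mem_normalizer_iff.1 (hconj' a ha) b).1 hb
    refine ⟨_, h1, ?_⟩
    simp only [MulEquiv.toMonoidHom_eq_coe, MonoidHom.coe_coe, MulAut.conj_apply]
    group
  set A₀ := A ⊓ Ax with hA₀
  have hmix : ∀ y ∈ Ax, ∀ a ∈ A, y * a * y⁻¹ * a⁻¹ ∈ A₀ := by
    intro y hy a ha
    constructor
    · exact A.mul_mem ((Subgroup.mem_normalizer_iff.1 (hAxN hy) a).1 ha) (A.inv_mem ha)
    · have h1 : y * a * y⁻¹ * a⁻¹ = y * (a * y⁻¹ * a⁻¹) := by group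
      rw [h1]
      exact Ax.mul_mem hy (hANx a ha _ (Ax.inv_mem hy))
  -- the product is of class two
  set V := A ⊔ Ax with hV
  have hVc : V = Subgroup.closure ((A : Set G) ∪ (Ax : Set G)) := by
    rw [Subgroup.closure_union, Subgroup.closure_eq, Subgroup.closure_eq]
  have hA₀cen : ∀ z ∈ A₀, ∀ r ∈ (A : Set G) ∪ (Ax : Set G), z * r = r * z := by
    intro z hz r hr
    rcases hr with hr | hr
    · exact hA z hz.1 r hr
    · exact hAxc z hz.2 r hr
  have hVcl : ⁅⁅V, V⁆, V⁆ = ⊥ := by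
    rw [hVc]
    apply class_two_of_gens
    rintro s (hs | hs) t (ht | ht) r hr
    · have : s * t * s⁻¹ * t⁻¹ = 1 := by
        rw [hA s hs t ht]; group
      rw [this]; simp
    · have h1 : s * t * s⁻¹ * t⁻¹ = (t * s * t⁻¹ * s⁻¹)⁻¹ := by group
      rw [h1]
      have h2 := hA₀cen _ (hmix t ht s hs) r hr
      exact (Commute.inv_left (show Commute (t * s * t⁻¹ * s⁻¹) r from h2))
    · exact hA₀cen _ (hmix s hs t ht) r hr
    · have : s * t * s⁻¹ * t⁻¹ = 1 := by
        rw [hAxc s hs t ht]; group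
      rw [this]; simp
  have hAV : A ≤ V := le_sup_left
  have hAxV : Ax ≤ V := le_sup_right
  have hcV : ∀ a ∈ A, c a ∈ V := by
    intro a ha
    rw [hc1]
    exact V.mul_mem (hAV ha) (hAxV (hmemAx _ (A.inv_mem ha)))
  -- commutators commute: here the oddness of `p` is used
  have hcc : ∀ a ∈ A, ∀ b ∈ A, c a * c b = c b * c a := by
    intro a ha b hb
    set s := (c a)⁻¹ with hs
    set t := (c b)⁻¹ with ht
    have hsB : s ∈ B := B.inv_mem (hcB a ha)
    have htB : t ∈ B := B.inv_mem (hcB b hb)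
    have hga : ∀ a', x * a' * x⁻¹ = (c a')⁻¹ * a' := by
      intro a'; simp only [c]; group
    have e1 : (s * a) * (t * b) = (t * b) * (s * a) := by
      rw [hs, ht, ← hga, ← hga]
      have h1 : (x * a * x⁻¹) * (x * b * x⁻¹) = x * (a * b) * x⁻¹ := by group
      have h2 : (x * b * x⁻¹) * (x * a * x⁻¹) = x * (b * a) * x⁻¹ := by group
      rw [h1, h2, hA a ha b hb]
    -- second conjugates
    have hσ : ∀ a' ∈ A, x * (x * a' * x⁻¹) * x⁻¹ =
        (x * (c a')⁻¹ * x⁻¹ * ((c a')⁻¹)⁻¹) * ((c a')⁻¹ * (c a')⁻¹ * a') := by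
      intro a' _
      have e := hga a'
      calc x * (x * a' * x⁻¹) * x⁻¹ = x * ((c a')⁻¹ * a') * x⁻¹ := by rw [e]
        _ = (x * (c a')⁻¹ * x⁻¹) * (x * a' * x⁻¹) := by group
        _ = (x * (c a')⁻¹ * x⁻¹) * ((c a')⁻¹ * a') := by rw [e]
        _ = _ := by group
    set σa := x * s * x⁻¹ * s⁻¹ with hσa
    set σb := x * t * x⁻¹ * t⁻¹ with hσb
    have hσaA : σa ∈ A := hBA' x hxB s hsB
    have hσbA : σb ∈ A := hBA' x hxB t htB
    have hσaB : ∀ r ∈ B, σa * r = r * σa := hBc x hxB s hsB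
    have hσbB : ∀ r ∈ B, σb * r = r * σb := hBc x hxB t htB
    have e2 : (s * s * a) * (t * t * b) = (t * t * b) * (s * s * a) := by
      have h0 : (x * (x * a * x⁻¹) * x⁻¹) * (x * (x * b * x⁻¹) * x⁻¹) =
          (x * (x * b * x⁻¹) * x⁻¹) * (x * (x * a * x⁻¹) * x⁻¹) := by
        have h1 : (x * (x * a * x⁻¹) * x⁻¹) * (x * (x * b * x⁻¹) * x⁻¹) = x * (x * (a * b) * x⁻¹) * x⁻¹ := by group
        have h2 : (x * (x * b * x⁻¹) * x⁻¹) * (x * (x * a * x⁻¹) * x⁻¹) = x * (x * (b * a) * x⁻¹) * x⁻¹ := by group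
        rw [h1, h2, hA a ha b hb]
      rw [hσ a ha, hσ b hb] at h0
      have h3 : σa * (s * s * a) * (σb * (t * t * b)) = σb * (t * t * b) * (σa * (s * s * a)) := h0
      have hc1 : Commute σb (s * s * a) := by
        apply Commute.mul_right
        · apply Commute.mul_right
          · exact hσbB s hsB
          · exact hσbB s hsB
        · exact hA σb hσbA a ha
      have hc2 : Commute σa (t * t * b) := by
        apply Commute.mul_right
        · apply Commute.mul_right
          · exact hσaB t htB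
          · exact hσaB t htB
        · exact hA σa hσaA b hb
      have hc3 : Commute σa σb := hA σa hσaA σb hσbA
      have h4 : σa * (s * s * a) * (σb * (t * t * b)) = (σa * σb) * ((s * s * a) * (t * t * b)) := by
        calc σa * (s * s * a) * (σb * (t * t * b)) = σa * ((s * s * a) * σb) * (t * t * b) := by group
          _ = σa * (σb * (s * s * a)) * (t * t * b) := by rw [hc1.eq]
          _ = _ := by group
      have h5 : σb * (t * t * b) * (σa * (s * s * a)) = (σa * σb) * ((t * t * b) * (s * s * a)) := by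
        calc σb * (t * t * b) * (σa * (s * s * a)) = σb * ((t * t * b) * σa) * (s * s * a) := by group
          _ = σb * (σa * (t * t * b)) * (s * s * a) := by rw [hc2.eq]
          _ = (σb * σa) * ((t * t * b) * (s * s * a)) := by group
          _ = _ := by rw [hc3.eq]
      rw [h4, h5] at h3
      exact mul_left_cancel h3
    have hsV : s ∈ V := V.inv_mem (hcV a ha)
    have htV : t ∈ V := V.inv_mem (hcV b hb)
    have hsq := dd_sq_eq_one V hVcl hsV htV (hAV ha) (hAV hb) (hA a ha b hb) e1 e2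
    -- oddness
    have hγ : dd t s = 1 := by
      obtain ⟨k, hk⟩ := (IsPGroup.iff_orderOf.1 hG) (dd t s)
      have h6 : orderOf (dd t s) ∣ 2 := orderOf_dvd_of_pow_eq_one (by rw [pow_two]; exact hsq)
      rw [hk] at h6
      rcases k with _ | k
      · rw [pow_zero] at hk
        exact orderOf_eq_one_iff.1 hk
      · exfalso
        have hp2 : p ∣ 2 := (dvd_pow_self p (Nat.succ_ne_zero k)).trans h6
        exact hp ((Nat.prime_dvd_prime_iff_eq Fact.out Nat.prime_two).1 hp2)
    have h7 : t * s = s * t := by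
      have : t * s * t⁻¹ * s⁻¹ = 1 := hγ
      have h8 := congrArg (fun z => z * (s * t)) this
      simpa [mul_assoc] using h8
    rw [hs, ht] at h7
    have h9 : (c b)⁻¹ * (c a)⁻¹ = (c a * c b)⁻¹ := by group
    have h10 : (c a)⁻¹ * (c b)⁻¹ = (c b * c a)⁻¹ := by group
    rw [h9, h10] at h7
    exact inv_injective h7
  -- the new subgroup
  set U := Subgroup.closure (c '' (A : Set G)) with hU
  set A' := A₀ ⊔ U with hA'
  have hA'c : A' = Subgroup.closure ((A₀ : Set G) ∪ c '' (A : Set G)) := by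
    rw [Subgroup.closure_union, Subgroup.closure_eq]
  have hA₀A' : A₀ ≤ A' := le_sup_left
  have hcA' : ∀ a ∈ A, c a ∈ A' := fun a ha =>
    Subgroup.mem_sup_right (Subgroup.subset_closure ⟨a, ha, rfl⟩)
  have hcomm0 : ∀ z ∈ A₀, ∀ a ∈ A, z * c a = c a * z := by
    intro z hz a ha
    rw [hc1]
    have h2 := hA z hz.1 a ha
    have h3 := hAxc z hz.2 _ (hmemAx _ (A.inv_mem ha))
    calc z * (a * (x * a⁻¹ * x⁻¹)) = (z * a) * (x * a⁻¹ * x⁻¹) := by group
      _ = a * (z * (x * a⁻¹ * x⁻¹)) := by rw [h2]; group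
      _ = a * ((x * a⁻¹ * x⁻¹) * z) := by rw [h3]
      _ = _ := by group
  have hA'comm : ∀ u ∈ A', ∀ v ∈ A', u * v = v * u := by
    rw [hA'c]
    apply comm_closure
    rintro u (hu | ⟨a, ha, rfl⟩) v (hv | ⟨b, hb, rfl⟩)
    · exact hA u hu.1 v hv.1
    · exact hcomm0 u hu b hb
    · exact (hcomm0 v hv a ha).symm
    · exact hcc a ha b hb
  have hUB : U ≤ B := by
    rw [hU, Subgroup.closure_le]
    rintro _ ⟨a, ha, rfl⟩
    exact hcB a ha
  have hABA₀ : A ⊓ B ≤ A₀ := by
    intro b hb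
    refine ⟨hb.1, x⁻¹ * b * x, ?_, ?_⟩
    · have h1 : x⁻¹ * b * x = b * (b⁻¹ * x⁻¹ * b⁻¹⁻¹ * x⁻¹⁻¹) := by group
      rw [h1]
      exact A.mul_mem hb.1 (hBA' _ (B.inv_mem hb.2) _ (B.inv_mem hxB))
    · simp only [MulEquiv.toMonoidHom_eq_coe, MonoidHom.coe_coe, MulAut.conj_apply]
      group
  have hfibcore : ∀ a ∈ A, ∀ b ∈ A, (c a)⁻¹ * c b ∈ A → x * (a * b⁻¹) * x⁻¹ ∈ A := by
    intro a ha b hb h2
    set w := x * b⁻¹ * x⁻¹ with hw
    have hwn : w ∈ Subgroup.normalizer (A : Set G) := hconj _ (A.inv_mem hb)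
    have h3 : w⁻¹ * (a⁻¹ * b) * w ∈ A := by
      have := (Subgroup.mem_normalizer_iff.1 (Subgroup.inv_mem _ hwn) (a⁻¹ * b)).1
        (A.mul_mem (A.inv_mem ha) hb)
      simpa using this
    have h4 : x * (a * b⁻¹) * x⁻¹ = ((c a)⁻¹ * c b) * (w⁻¹ * (a⁻¹ * b) * w)⁻¹ := by
      simp only [c, hw]
      group
    rw [h4]
    exact A.mul_mem h2 (A.inv_mem h3)
  -- lower bound for the order
  have hcard1 : Nat.card A ≤ Nat.card A' := by
    set K := A ⊓ A.comap (MulAut.conj x).toMonoidHom with hK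
    have hcardK : Nat.card K = Nat.card A₀ := by
      have h1 : K.map (MulAut.conj x).toMonoidHom = A₀ := by
        ext z
        constructor
        · rintro ⟨k, hk, rfl⟩
          exact ⟨hk.2, ⟨k, hk.1, rfl⟩⟩
        · rintro ⟨hz1, k, hk, rfl⟩
          exact ⟨k, ⟨hk, hz1⟩, rfl⟩
      rw [← h1, card_map_conj]
    let f : ↥A → ↥A' ⧸ A₀.subgroupOf A' := fun a => QuotientGroup.mk ⟨c a, hcA' a a.2⟩
    have hfib : ∀ a b : ↥A, f a = f b → (a : G) * (b : G)⁻¹ ∈ K := by
      intro a b hab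
      have h1 := QuotientGroup.eq.1 hab
      rw [Subgroup.mem_subgroupOf] at h1
      have h2 : (c a)⁻¹ * c b ∈ A := by
        have := h1.1
        simpa using this
      exact ⟨A.mul_mem a.2 (A.inv_mem b.2), hfibcore _ a.2 _ b.2 h2⟩
    have h5 : Nat.card A ≤ Nat.card K * Nat.card (↥A' ⧸ A₀.subgroupOf A') := by
      apply card_le_of_fibers f
      intro q
      by_cases hq : ∃ a₀ : ↥A, f a₀ = q
      · obtain ⟨a₀, rfl⟩ := hq
        let F : {a : ↥A // f a = f a₀} → K := fun a =>
          ⟨(a.1 : G) * (a₀ : G)⁻¹, hfib _ _ a.2⟩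
        have hF : Function.Injective F := by
          intro u v huv
          have h6 : (u.1 : G) * (a₀ : G)⁻¹ = (v.1 : G) * (a₀ : G)⁻¹ := congrArg Subtype.val huv
          apply Subtype.ext
          apply Subtype.ext
          exact mul_right_cancel h6
        exact Nat.card_le_card_of_injective F hF
      · have : IsEmpty {a : ↥A // f a = q} := ⟨fun a => hq ⟨a.1, a.2⟩⟩
        rw [Nat.card_of_isEmpty]
        exact Nat.zero_le _
    rw [hcardK] at h5
    have h6 := card_mul_relIndex_of_le hA₀A'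
    rw [← h6]
    exact h5
  -- upper bound for the order
  have hinf : A' ⊓ A ≤ A₀ := by
    intro y hy
    have hA₀U : A₀ ≤ Subgroup.normalizer (U : Set G) := by
      intro z hz
      have hle : U ≤ Subgroup.centralizer {z} := by
        rw [hU, Subgroup.closure_le]
        rintro _ ⟨a, ha, rfl⟩
        show _ ∈ Subgroup.centralizer {z}
        rw [Subgroup.mem_centralizer_singleton_iff]
        exact (hcomm0 z hz a ha).symm
      rw [Subgroup.mem_normalizer_iff]
      have hzc : ∀ w ∈ U, w * z = z * w := fun w hw => Subgroup.mem_centralizer_singleton_iff.1 (hle hw)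
      intro w
      constructor
      · intro hw
        have h1 : z * w * z⁻¹ = w := by rw [← hzc w hw]; group
        rw [h1]
        exact hw
      · intro hw
        have h1 := hzc _ hw
        have h2 : w = z * w * z⁻¹ := by
          have h3 : z * w * z⁻¹ * z = z * (z * w * z⁻¹) := h1
          have h4 : z * w = z * (z * w * z⁻¹) := by
            rw [← h3]; group
          exact mul_left_cancel h4
        rw [h2]
        exact hw
    obtain ⟨z, hz, w, hw, rfl⟩ := mem_sup_of_le_normalizer hA₀U hy.1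
    have hwA : w ∈ A := by
      have := A.mul_mem (A.inv_mem hz.1) hy.2
      simpa using this
    exact A₀.mul_mem hz (hABA₀ ⟨hwA, hUB hw⟩)
  have hcard2 : Nat.card A' ≤ Nat.card A := by
    have h1 := card_mul_card_le A' A
    have h2 : Nat.card ↥(A' ⊔ A) ≤ Nat.card V := by
      apply Subgroup.card_le_of_le
      apply sup_le _ hAV
      apply sup_le (inf_le_left.trans hAV)
      rw [hU, Subgroup.closure_le]
      rintro _ ⟨a, ha, rfl⟩
      exact hcV a ha
    have h3 : Nat.card ↥(A' ⊓ A) ≤ Nat.card A₀ := Subgroup.card_le_of_le hinf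
    have h4 := card_sup_mul_card_inf_le hAxN
    have h5 : Nat.card Ax = Nat.card A := card_map_conj A x
    rw [h5] at h4
    have h6 : Nat.card A' * Nat.card A ≤ Nat.card A * Nat.card A :=
      h1.trans ((Nat.mul_le_mul h2 h3).trans h4)
    exact Nat.le_of_mul_le_mul_right h6 Nat.card_pos
  have hoddG : ∀ n : ℕ, n ∣ Nat.card G → Odd n := by
    intro n hn
    obtain ⟨k, hk⟩ := IsPGroup.iff_card.1 hG
    rw [hk] at hn
    obtain ⟨j, -, rfl⟩ := (Nat.dvd_prime_pow Fact.out).1 hn
    apply Odd.pow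
    exact (Nat.Prime.odd_of_ne_two Fact.out hp)
  -- powers of the commutators
  have hcpow : ∀ n : ℕ, Odd n → ∀ a ∈ A, a ^ n = 1 → c a ^ n = 1 := by
    intro n hn a ha han
    rw [hc1]
    have hyAx : x * a⁻¹ * x⁻¹ ∈ Ax := hmemAx _ (A.inv_mem ha)
    set y := x * a⁻¹ * x⁻¹ with hy
    have hz := hmix y hyAx a ha
    set z := y * a * y⁻¹ * a⁻¹ with hz'
    apply mul_pow_eq_one_of_odd (z := z) hn
    · rw [hz']; group
    · exact hA z hz.1 a ha
    · exact hAxc z hz.2 y hyAx
    · exact han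
    · rw [hy, conj_pow, inv_pow, han]; simp
  refine ⟨A', (imc_iff _).2 hA'comm, le_antisymm hcard2 hcard1, ?_, ?_, ?_, ?_, ?_⟩
  · -- larger intersection
    have hle' : A ⊓ B ≤ A' ⊓ B := fun b hb => ⟨hA₀A' (hABA₀ hb), hb.2⟩
    apply lt_of_le_of_ne hle'
    intro heq
    apply hxnA
    apply mem_normalizer_of_map_conj_le
    rintro _ ⟨a, ha, rfl⟩
    show x * a * x⁻¹ ∈ A
    have h1 : c a⁻¹ ∈ A' ⊓ B := ⟨hcA' _ (A.inv_mem ha), hcB _ (A.inv_mem ha)⟩
    rw [← heq] at h1
    have h2 : x * a * x⁻¹ = a * c a⁻¹ := by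
      simp only [c]; group
    rw [h2]
    exact A.mul_mem ha h1.1
  · rw [hA'c, Subgroup.closure_le]
    rintro z (hz | ⟨a, ha, rfl⟩)
    · exact hAnA hz.1
    · exact hcN a ha
  · have hAN : A ≤ Subgroup.normalClosure (A : Set G) := Subgroup.le_normalClosure
    have hNn : (Subgroup.normalClosure (A : Set G)).Normal := Subgroup.normalClosure_normal
    rw [hA'c, Subgroup.closure_le]
    rintro z (hz | ⟨a, ha, rfl⟩)
    · exact hAN hz.1
    · show c a ∈ Subgroup.normalClosure (A : Set G)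
      rw [hc1]
      exact Subgroup.mul_mem _ (hAN ha) (hNn.conj_mem _ (hAN (A.inv_mem ha)) x)
  · -- exponent
    have he : Odd (Monoid.exponent A) := by
      apply hoddG
      exact (Group.exponent_dvd_nat_card).trans (Subgroup.card_subgroup_dvd_card A)
    apply Monoid.exponent_dvd_of_forall_pow_eq_one
    rintro ⟨y, hy⟩
    apply Subtype.ext
    show y ^ Monoid.exponent A = 1
    have hApow : ∀ a ∈ A, a ^ Monoid.exponent A = 1 := by
      intro a ha
      have := Monoid.pow_exponent_eq_one (⟨a, ha⟩ : A)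
      exact congrArg Subtype.val this
    have hy2 := hy
    rw [hA'c] at hy2
    induction hy2 using Subgroup.closure_induction with
    | mem z hz =>
      rcases hz with hz | ⟨a, ha, rfl⟩
      · exact hApow z hz.1
      · exact hcpow _ he a ha (hApow a ha)
    | one => simp
    | mul u v hu hv ihu ihv =>
      have hu' : u ∈ A' := by rw [hA'c]; exact hu
      have hv' : v ∈ A' := by rw [hA'c]; exact hv
      have hcomm : Commute u v := hA'comm u hu' v hv'
      rw [hcomm.mul_pow, ihu hu', ihv hv', one_mul]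
    | inv u hu ihu =>
      have hu' : u ∈ A' := by rw [hA'c]; exact hu
      rw [inv_pow, ihu hu', inv_one]
  · -- rank
    have hom : ∀ {H : Subgroup G}, (∀ u ∈ H, ∀ v ∈ H, u * v = v * u) → ∀ y ∈ Cfsg.omegaOne p H,
        y ∈ H ∧ y ^ p = 1 := by
      intro H hH y hy
      induction hy using Subgroup.closure_induction with
      | mem z hz => exact hz
      | one => simp [H.one_mem]
      | mul u v _ _ ihu ihv =>
        refine ⟨H.mul_mem ihu.1 ihv.1, ?_⟩
        have hcomm : Commute u v := hH u ihu.1 v ihv.1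
        rw [hcomm.mul_pow, ihu.2, ihv.2, one_mul]
      | inv u _ ihu =>
        exact ⟨H.inv_mem ihu.1, by rw [inv_pow, ihu.2, inv_one]⟩
    have hpodd : Odd p := Nat.Prime.odd_of_ne_two Fact.out hp
    set Ω := Cfsg.omegaOne p A with hΩ
    set Ω' := Cfsg.omegaOne p A' with hΩ'
    have hΩ₁ := hom hA
    have hΩ₂ := hom hA'comm
    have hmemΩ' : ∀ y ∈ A', y ^ p = 1 → y ∈ Ω' := fun y hy hy' =>
      Subgroup.subset_closure ⟨hy, hy'⟩
    set A₁ := A₀ ⊓ Ω with hA₁
    have hA₁Ω' : A₁ ≤ Ω' := by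
      intro z hz
      exact hmemΩ' z (hA₀A' hz.1) (hΩ₁ z hz.2).2
    let f : ↥Ω → ↥Ω' ⧸ A₁.subgroupOf Ω' := fun a =>
      QuotientGroup.mk ⟨c a, hmemΩ' _ (hcA' _ (hΩ₁ a a.2).1)
        (hcpow p hpodd a (hΩ₁ a a.2).1 (hΩ₁ a a.2).2)⟩
    have hfib : ∀ a b : ↥Ω, f a = f b → x * ((a : G) * (b : G)⁻¹) * x⁻¹ ∈ A₁ := by
      intro a b hab
      have h1 := QuotientGroup.eq.1 hab
      rw [Subgroup.mem_subgroupOf] at h1
      have h2 : (c a)⁻¹ * c b ∈ A := by
        have := h1.1.1
        simpa using this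
      have hk := hfibcore _ (hΩ₁ a a.2).1 _ (hΩ₁ b b.2).1 h2
      have hk2 : (a : G) * (b : G)⁻¹ ∈ Ω := Ω.mul_mem a.2 (Ω.inv_mem b.2)
      have hk3 := hΩ₁ _ hk2
      refine ⟨⟨hk, hmemAx _ hk3.1⟩, Subgroup.subset_closure ⟨hk, ?_⟩⟩
      rw [conj_pow, hk3.2]
      simp
    have h5 : Nat.card Ω ≤ Nat.card A₁ * Nat.card (↥Ω' ⧸ A₁.subgroupOf Ω') := by
      apply card_le_of_fibers f
      intro q
      by_cases hq : ∃ a₀ : ↥Ω, f a₀ = q
      · obtain ⟨a₀, rfl⟩ := hq
        let F : {a : ↥Ω // f a = f a₀} → A₁ := fun a =>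
          ⟨x * ((a.1 : G) * (a₀ : G)⁻¹) * x⁻¹, hfib _ _ a.2⟩
        have hF : Function.Injective F := by
          intro u v huv
          have h6 : x * ((u.1 : G) * (a₀ : G)⁻¹) * x⁻¹ = x * ((v.1 : G) * (a₀ : G)⁻¹) * x⁻¹ :=
            congrArg Subtype.val huv
          apply Subtype.ext
          apply Subtype.ext
          have h7 := mul_left_cancel (mul_right_cancel h6)
          exact mul_right_cancel h7
        exact Nat.card_le_card_of_injective F hF
      · have : IsEmpty {a : ↥Ω // f a = q} := ⟨fun a => hq ⟨a.1, a.2⟩⟩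
        rw [Nat.card_of_isEmpty]
        exact Nat.zero_le _
    have h6 := card_mul_relIndex_of_le hA₁Ω'
    rw [← h6]
    exact h5

end Cfsg.Agent.S3078
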