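import Cfsg.Statements.S3080
import Cfsg.Agent.Lib.ZJControl
-- import your own Cfsg.Agent.* helpers here

set_option autoImplicit false
open Cfsg

namespace Cfsg.Agent.S3080

/-- Let p be an odd prime, G a finite group that is p-stable in the normalizer form, P a Sylow p-subgroup such that N_G(U) is p-constrained for every nontrivial subgroup U of P, and D a subgroup of P strongly closed in P with respect to G. Then N_G(Z(J(D))) controls strong G-fusion in P (for every subset A of P and every g ∈ G with gAg⁻¹ ⊆ P, some element of that normalizer acts on A exactly as g does; J(D) is generated by the abelian subgroups of D of largest order), and so does N_G(Ω₁(Z(J_e(D)))) (J_e(D) generated by the elementary abelian subgroups of largest order). -/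
theorem result {G : Type*} [Group G] [Finite G] {p : ℕ} [Fact p.Prime] (hp : p ≠ 2) (P : Sylow p G) (D : Subgroup G) (hD : Cfsg.IsStronglyClosed D (P : Subgroup G)) (hst : Cfsg.IsNormalizerPStable p G) (hc : ∀ U : Subgroup G, U ≤ (P : Subgroup G) → U ≠ ⊥ → Cfsg.IsPConstrained p ↥(Subgroup.normalizer (U : Set G))) : (∀ A : Set G, A ⊆ (P : Subgroup G) → Cfsg.ControlsStrongFusionOf (Subgroup.normalizer ((Cfsg.centerThompsonAOf D) : Set G)) (P : Subgroup G) A) ∧ (∀ A : Set G, A ⊆ (P : Subgroup G) → Cfsg.ControlsStrongFusionOf (Subgroup.normalizer ((Cfsg.omegaOne p (Cfsg.centerThompsonOf p D)) : Set G)) (P : Subgroup G) A) := by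
  classical
  have hLocal : ∀ V : Subgroup G, V ≤ (P : Subgroup G) → V ≠ ⊥ →
      Subgroup.centralizer (Cfsg.pCore p (↥(Subgroup.normalizer (V : Set G)) ⧸
          Cfsg.pPrimeCore p ↥(Subgroup.normalizer (V : Set G))) :
            Set (↥(Subgroup.normalizer (V : Set G)) ⧸ Cfsg.pPrimeCore p ↥(Subgroup.normalizer (V : Set G)))) ≤
        Cfsg.pCore p (↥(Subgroup.normalizer (V : Set G)) ⧸ Cfsg.pPrimeCore p ↥(Subgroup.normalizer (V : Set G))) ∧
      ∀ B : Subgroup (↥(Subgroup.normalizer (V : Set G)) ⧸ Cfsg.pPrimeCore p ↥(Subgroup.normalizer (V : Set G))),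
        B.Normal → IsPGroup p B → Cfsg.Agent.Lib.ZJ.StabOn p B := by
    intro V hV hne
    haveI hOn : (Cfsg.pPrimeCore p ↥(Subgroup.normalizer (V : Set G))).Normal :=
      Cfsg.Agent.Lib.FitCore.pPrimeCore_normal p
    refine ⟨Cfsg.Agent.Lib.ZJLift.centralizer_quot (hc V hV hne), fun B hB hBp => ?_⟩
    exact Cfsg.Agent.Lib.ZJLift.stabOn_quot
      (Cfsg.Agent.Lib.FitCore.not_dvd_card_pPrimeCore p Fact.out)
      (Cfsg.Agent.Lib.ZJLift.stabHyp_of_normalizerStable
        (Cfsg.Agent.Lib.ZJControl.stable_subgroup hst _) _) hB hBp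
  exact ⟨Cfsg.Agent.Lib.ZJControl.controls_of_ct
      (Cfsg.Agent.Lib.ZJControl.control_good (Cfsg.Agent.Lib.ZJGood.goodA hp) P hD hLocal),
    Cfsg.Agent.Lib.ZJControl.controls_of_ct
      (Cfsg.Agent.Lib.ZJControl.control_good (Cfsg.Agent.Lib.ZJGood.goodE hp) P hD hLocal)⟩

end Cfsg.Agent.S3080
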