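import Mathlib
import Cfsg.Statements.S3087
-- import your own Cfsg.Agent.* helpers here

set_option autoImplicit false
open Cfsg

namespace Cfsg.Agent.S3087

theorem card_add_le {V : Type*} [AddGroup V] [Finite V] (H K : AddSubgroup V) :
    Nat.card H * Nat.card K ≤ Nat.card ↥(H ⊔ K) * Nat.card ↥(H ⊓ K) := by
  have hinf : ∀ H K : AddSubgroup V, Nat.card ↥(H ⊓ K) * H.relIndex K = Nat.card K := by
    intro H K
    have h := AddSubgroup.relIndex_mul_relIndex (⊥ : AddSubgroup V) (H ⊓ K) K bot_le inf_le_right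
    rw [AddSubgroup.relIndex_bot_left, AddSubgroup.relIndex_bot_left, AddSubgroup.inf_relIndex_right] at h
    exact h
  have h1 := hinf H K
  have h2 := hinf H (H ⊔ K)
  rw [inf_eq_left.2 (le_sup_left : H ≤ H ⊔ K)] at h2
  have h3 : H.relIndex K ≤ H.relIndex (H ⊔ K) :=
    AddSubgroup.relIndex_le_of_le_right le_sup_right (AddSubgroup.index_ne_zero_of_finite)
  calc Nat.card H * Nat.card K = Nat.card H * (Nat.card ↥(H ⊓ K) * H.relIndex K) := by rw [h1]
    _ ≤ Nat.card H * (Nat.card ↥(H ⊓ K) * H.relIndex (H ⊔ K)) := by gcongr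
    _ = (Nat.card H * H.relIndex (H ⊔ K)) * Nat.card ↥(H ⊓ K) := by ring
    _ = _ := by rw [h2]


/-- Let p be a prime, G a finite group acting linearly on a finite vector space V over the field with p elements, W a G-invariant subspace, and A a subgroup of G with |A|·|C_V(A)| ≥ |B|·|C_V(B)| for every subgroup B of A. Then |A|·|C_W(A)| ≥ |B|·|C_W(B)| for every subgroup B of A that contains C_A(W); that is, the image of A in the group induced on W satisfies the same maximality condition. -/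
theorem result {G V : Type*} [Group G] [Finite G] [AddCommGroup V] [Finite V] (p : ℕ) [Fact p.Prime] [Module (ZMod p) V]
    (ρ : Representation (ZMod p) G V) (W : Submodule (ZMod p) V) (hW : ∀ g : G, ∀ w ∈ W, ρ g w ∈ W)
    (A : Subgroup G)
    (hP : ∀ B : Subgroup G, B ≤ A →
      Nat.card ↥B * Nat.card {v : V // ∀ b ∈ B, ρ b v = v} ≤ Nat.card ↥A * Nat.card {v : V // ∀ a ∈ A, ρ a v = v})
    (B : Subgroup G) (hBA : B ≤ A) (hCB : ∀ a ∈ A, (∀ w ∈ W, ρ a w = w) → a ∈ B) :
    Nat.card ↥B * Nat.card {w : W // ∀ b ∈ B, ρ b w = w} ≤ Nat.card ↥A * Nat.card {w : W // ∀ a ∈ A, ρ a w = w} := by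
  classical
  -- additive subgroups of fixed points
  let fix : Subgroup G → AddSubgroup V := fun D =>
    { carrier := {v | ∀ b ∈ D, ρ b v = v}
      add_mem' := by
        intro x y hx hy b hb
        rw [map_add, hx b hb, hy b hb]
      zero_mem' := by
        intro b _
        exact map_zero _
      neg_mem' := by
        intro x hx b hb
        rw [map_neg, hx b hb] }
  have hcardV : ∀ D : Subgroup G, Nat.card {v : V // ∀ b ∈ D, ρ b v = v} = Nat.card (fix D) := fun D => rfl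
  have hcardW : ∀ D : Subgroup G, Nat.card {w : W // ∀ b ∈ D, ρ b w = w} =
      Nat.card ↥(fix D ⊓ W.toAddSubgroup) := by
    intro D
    apply Nat.card_congr
    refine ⟨fun w => ⟨w.1.1, ⟨w.2, w.1.2⟩⟩, fun w => ⟨⟨w.1, w.2.2⟩, w.2.1⟩, ?_, ?_⟩
    · intro w; rfl
    · intro w; rfl
  rw [hcardW, hcardW]
  have h1 : Nat.card B * Nat.card (fix B) ≤ Nat.card A * Nat.card (fix A) := hP B hBA
  set X := fix A with hX
  set Y := fix B with hY
  set W' := W.toAddSubgroup with hW'
  have hXY : X ≤ Y := fun v hv b hb => hv b (hBA hb)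
  have key : Nat.card ↥(Y ⊓ W') * Nat.card X ≤ Nat.card Y * Nat.card ↥(X ⊓ W') := by
    have h2 := Cfsg.Agent.S3087.card_add_le (Y ⊓ W') X
    have h3 : Nat.card ↥((Y ⊓ W') ⊔ X) ≤ Nat.card Y := AddSubgroup.card_le_of_le (sup_le inf_le_left hXY)
    have h4 : Nat.card ↥((Y ⊓ W') ⊓ X) ≤ Nat.card ↥(X ⊓ W') := by
      apply AddSubgroup.card_le_of_le
      rintro v ⟨⟨-, hv⟩, hvX⟩
      exact ⟨hvX, hv⟩
    exact h2.trans (Nat.mul_le_mul h3 h4)
  have hXpos : 0 < Nat.card X := Nat.card_pos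
  apply Nat.le_of_mul_le_mul_right _ hXpos
  calc Nat.card B * Nat.card ↥(Y ⊓ W') * Nat.card X = Nat.card B * (Nat.card ↥(Y ⊓ W') * Nat.card X) := by ring
    _ ≤ Nat.card B * (Nat.card Y * Nat.card ↥(X ⊓ W')) := Nat.mul_le_mul_left _ key
    _ = (Nat.card B * Nat.card Y) * Nat.card ↥(X ⊓ W') := by ring
    _ ≤ (Nat.card A * Nat.card X) * Nat.card ↥(X ⊓ W') := Nat.mul_le_mul_right _ h1
    _ = Nat.card A * Nat.card ↥(X ⊓ W') * Nat.card X := by ring

end Cfsg.Agent.S3087
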