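import Mathlib
import Cfsg.Statements.S3155
-- import your own Cfsg.Agent.* helpers here

set_option autoImplicit false
open Cfsg

namespace Cfsg.Agent.S3155

/-- Let B be the direct product of three cyclic groups of order 4. Then the automorphism of B inverting every element is not the square of any automorphism of B. -/
theorem result {B : Type*} [CommGroup B] [Finite B] (hB : Nonempty (B ≃* Multiplicative (ZMod 4 × ZMod 4 × ZMod 4)))
    (τ : B ≃* B) : τ.trans τ ≠ MulEquiv.inv B := by
  classical
  obtain ⟨φ⟩ := hB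
  intro hτ
  -- the additive automorphism
  let f : (ZMod 4 × ZMod 4 × ZMod 4) →+ (ZMod 4 × ZMod 4 × ZMod 4) :=
    { toFun := fun v => Multiplicative.toAdd (φ (τ (φ.symm (Multiplicative.ofAdd v))))
      map_zero' := by
        have : (Multiplicative.ofAdd (0 : ZMod 4 × ZMod 4 × ZMod 4)) = 1 := rfl
        rw [this]; simp
      map_add' := by
        intro a b
        have : Multiplicative.ofAdd (a + b) = Multiplicative.ofAdd a * Multiplicative.ofAdd b := rfl
        rw [this]; simp }
  have hff : ∀ v : ZMod 4 × ZMod 4 × ZMod 4, f (f v) = -v := by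
    intro v
    show Multiplicative.toAdd (φ (τ (φ.symm (Multiplicative.ofAdd (Multiplicative.toAdd (φ (τ (φ.symm (Multiplicative.ofAdd v))))))))) = -v
    simp only [ofAdd_toAdd, MulEquiv.symm_apply_apply]
    have h2 : τ (τ (φ.symm (Multiplicative.ofAdd v))) = (φ.symm (Multiplicative.ofAdd v))⁻¹ := by
      have := congrArg (fun t : B ≃* B => t (φ.symm (Multiplicative.ofAdd v))) hτ
      simpa using this
    rw [h2, map_inv]
    simp
  let L : (ZMod 4 × ZMod 4 × ZMod 4) →ₗ[ZMod 4] (ZMod 4 × ZMod 4 × ZMod 4) := f.toZModLinearMap 4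
  have hLL : L.comp L = (-1 : ZMod 4) • (LinearMap.id : (ZMod 4 × ZMod 4 × ZMod 4) →ₗ[ZMod 4] (ZMod 4 × ZMod 4 × ZMod 4)) := by
    apply LinearMap.ext
    intro v
    show f (f v) = (-1 : ZMod 4) • v
    rw [hff, neg_one_smul]
  have hdet := congrArg LinearMap.det hLL
  rw [LinearMap.det_comp, LinearMap.det_smul, LinearMap.det_id] at hdet
  haveI : Fact (1 < 4) := ⟨by norm_num⟩
  haveI : Nontrivial (ZMod 4) := ZMod.nontrivial 4
  have hfr : Module.finrank (ZMod 4) (ZMod 4 × ZMod 4 × ZMod 4) = 3 := by
    rw [Module.finrank_prod, Module.finrank_prod, Module.finrank_self]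
  rw [hfr] at hdet
  have hno : ∀ d : ZMod 4, d * d ≠ (-1) ^ 3 * 1 := by decide
  exact hno _ hdet

end Cfsg.Agent.S3155
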