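import Mathlib
import Cfsg.Agent.Lib.H5Basic
import Cfsg.Agent.Lib.H5Cyc
import Cfsg.Agent.Lib.PGroupBasic
import Cfsg.Statements.S3178
-- import your own Cfsg.Agent.* helpers here

set_option autoImplicit false
open Cfsg

namespace Cfsg.Agent.S3178

/-- Groups with a modular Sylow 2-subgroup have a normal 2-complement. Let S, of order 2^(n+1) with n ≥ 3, be a Sylow 2-subgroup of a finite group G, and suppose S contains an element a of order 2^n and an involution b with b a b⁻¹ = a^(2^(n-1) + 1); so S is the non-abelian 2-group with a cyclic subgroup of index 2 that is neither dihedral, semidihedral nor generalized quaternion. Then G has a normal 2-complement. -/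
theorem result {G : Type*} [Group G] [Finite G]
    (S : Sylow 2 G) (n : ℕ) (hn : 3 ≤ n) (hS : Nat.card ↥(S : Subgroup G) = 2 ^ (n + 1))
    (a b : G) (ha : a ∈ (S : Subgroup G)) (hb : b ∈ (S : Subgroup G))
    (hao : orderOf a = 2 ^ n) (hbo : orderOf b = 2) (hrel : b * a * b⁻¹ = a ^ (2 ^ (n - 1) + 1)) :
    Cfsg.HasNormalPComplement 2 G := by
  classical
  obtain ⟨m, rfl⟩ : ∃ m, n = m + 3 := ⟨n - 3, by omega⟩
  have hnm : m + 3 - 1 = m + 2 := rfl
  rw [hnm] at hrel
  set q := 2 ^ m with hq
  have hqpos : 0 < q := by positivity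
  have h4q : (2 : ℕ) ^ (m + 2) = 4 * q := by rw [hq, pow_add]; ring
  have h8q : (2 : ℕ) ^ (m + 3) = 8 * q := by rw [hq, pow_add]; ring
  rw [h4q] at hrel
  rw [h8q] at hao
  have hS2 : IsPGroup 2 (S : Subgroup G) := S.isPGroup'
  set M : Subgroup G := Subgroup.zpowers a with hM
  have hMS : M ≤ (S : Subgroup G) := (Subgroup.zpowers_le).2 ha
  have hMcard : Nat.card M = 8 * q := by rw [hM, Nat.card_zpowers, hao]
  have hScard : Nat.card (S : Subgroup G) = 16 * q := by
    rw [hS, pow_succ, h8q]; ring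
  have hreli : M.relIndex (S : Subgroup G) = 2 := by
    have h1 := Cfsg.Agent.Lib.H5Basic.card_mul_relIndex_of_le hMS
    rw [hMcard, hScard] at h1
    have h2 : 8 * q * M.relIndex (S : Subgroup G) = 8 * q * 2 := by rw [h1]; ring
    exact Nat.eq_of_mul_eq_mul_left (by positivity) h2
  have hhalf : (M.subgroupOf (S : Subgroup G)).index = 2 := hreli
  have han : a ^ (8 * q) = 1 := by rw [← hao]; exact pow_orderOf_eq_one a
  set z := a ^ (4 * q) with hz
  have hz2 : z ^ 2 = 1 := by
    rw [hz, ← pow_mul, show 4 * q * 2 = 8 * q by ring, han]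
  have hz1 : z ≠ 1 := by
    apply pow_ne_one_of_lt_orderOf (by positivity)
    rw [hao]
    omega
  have hzord : orderOf z = 2 := orderOf_eq_prime hz2 hz1
  have hzM : z ∈ M := Subgroup.npow_mem_zpowers a _
  have hbinv : b⁻¹ = b := by
    rw [inv_eq_iff_mul_eq_one, ← pow_two, ← hbo]
    exact pow_orderOf_eq_one b
  have hbk : ∀ k : ℕ, b * a ^ k * b⁻¹ = a ^ ((4 * q + 1) * k) := by
    intro k
    rw [← conj_pow, hrel, ← pow_mul]
  have hbz : b * z * b⁻¹ = z := by
    rw [hz, hbk, show (4 * q + 1) * (4 * q) = 8 * q * (2 * q) + 4 * q by ring, pow_add, pow_mul, han,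
      one_pow, one_mul]
  have hbc : b * a ^ 2 * b⁻¹ = a ^ 2 := by
    rw [hbk, show (4 * q + 1) * 2 = 8 * q + 2 by ring, pow_add, han, one_mul]
  have hbcomm : ∀ x, b * x * b⁻¹ = x → b * x = x * b := by
    intro x hx
    calc b * x = b * x * b⁻¹ * b := by group
      _ = x * b := by rw [hx]
  have hbnot : b ∉ M := by
    intro hbM
    obtain ⟨i, rfl⟩ := hbM
    apply hz1
    have h1 : (a ^ i) * a * (a ^ i)⁻¹ = a := by
      rw [(Commute.zpow_left (Commute.refl a) i).eq]
      group
    rw [show (fun x : ℤ => a ^ x) i = a ^ i from rfl, h1] at hrel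
    have h2 : a ^ (4 * q + 1) = a ^ (4 * q) * a := pow_succ a (4 * q)
    rw [h2] at hrel
    exact (mul_eq_right.1 hrel.symm)
  haveI hMcyc : IsCyclic M := by
    rw [hM]
    exact Subgroup.isCyclic_zpowers a
  have hinvol : ∀ x ∈ M, orderOf x = 2 → x = z := by
    intro x hx hord
    have h1 := Cfsg.Agent.Lib.PGroupBasic.involution_unique_of_isCyclic (⟨x, hx⟩ : M) ⟨z, hzM⟩
      (by rw [← Subgroup.orderOf_coe]; exact hord) (by rw [← Subgroup.orderOf_coe]; exact hzord)
    exact congrArg Subtype.val h1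
  have hmemS : ∀ s ∈ (S : Subgroup G), s ∉ M → s * b ∈ M := by
    intro s hs hsM
    have h1 := Subgroup.mul_mem_iff_of_index_two hhalf (a := ⟨s, hs⟩) (b := ⟨b, hb⟩)
    exact h1.2 (iff_of_false hsM hbnot)
  have hSz : ∀ s ∈ (S : Subgroup G), s * z = z * s := by
    have hMz : ∀ x ∈ M, x * z = z * x := by
      rintro x ⟨i, rfl⟩
      exact (((Commute.refl a).zpow_left i).pow_right (4 * q)).eq
    have hbz' : b * z = z * b := hbcomm z hbz
    intro s hs
    by_cases hsM : s ∈ M
    · exact hMz s hsM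
    · have h1 := hMz _ (hmemS s hs hsM)
      have h2 : s = s * b * b⁻¹ := by group
      rw [h2, hbinv]
      calc s * b * b * z = s * b * (b * z) := by group
        _ = s * b * (z * b) := by rw [hbz']
        _ = (s * b * z) * b := by group
        _ = z * (s * b) * b := by rw [h1]
        _ = _ := by group
  have hordconj : ∀ g x : G, orderOf (g * x * g⁻¹) = orderOf x := by
    intro g x
    exact orderOf_injective (MulAut.conj g).toMonoidHom (MulAut.conj g).injective x
  -- `b` is not conjugate into `⟨a⟩`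
  have hnotconj : ∀ g : G, g * b * g⁻¹ ∉ M := by
    intro g hg
    have h1 : g * b * g⁻¹ = z := by
      apply hinvol _ hg
      rw [hordconj, hbo]
    -- work in the centralizer of `z`
    let C : Subgroup G := Subgroup.centralizer ({z} : Set G)
    have hmemC : ∀ x, x ∈ C ↔ x * z = z * x := fun x => Subgroup.mem_centralizer_singleton_iff
    have hSC : (S : Subgroup G) ≤ C := fun s hs => (hmemC s).2 (hSz s hs)
    set c' := g * a ^ 2 * g⁻¹ with hc'
    have hc'C : c' ∈ C := by
      rw [hmemC, ← h1, hc']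
      have h2 : b * a ^ 2 = a ^ 2 * b := hbcomm _ hbc
      calc g * a ^ 2 * g⁻¹ * (g * b * g⁻¹) = g * (a ^ 2 * b) * g⁻¹ := by group
        _ = g * (b * a ^ 2) * g⁻¹ := by rw [h2]
        _ = _ := by group
    have hc'p : IsPGroup 2 (Subgroup.zpowers c') := by
      apply IsPGroup.of_card (n := m + 2)
      rw [Nat.card_zpowers, hc', hordconj, h4q]
      have h3 : orderOf (a ^ 2) = 8 * q / (8 * q).gcd 2 := by
        rw [orderOf_pow' a (by norm_num), hao]
      rw [h3, show (8 * q).gcd 2 = 2 from Nat.gcd_eq_right (Dvd.intro_left (4 * q) (by ring))]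
      omega
    obtain ⟨u, huC, hu⟩ := Cfsg.Agent.Lib.H5Cyc.conj_into S C hSC (Subgroup.zpowers c')
      ((Subgroup.zpowers_le).2 hc'C) hc'p
    set w := u * g with hw
    have hwb : w * b * w⁻¹ = z := by
      have h2 : u * z * u⁻¹ = z := by
        rw [(hmemC u).1 huC]
        group
      calc w * b * w⁻¹ = u * (g * b * g⁻¹) * u⁻¹ := by rw [hw]; group
        _ = z := by rw [h1, h2]
    have hc₁S : w * a ^ 2 * w⁻¹ ∈ (S : Subgroup G) := by
      have := hu c' (Subgroup.mem_zpowers c')
      rw [hc'] at this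
      have h2 : u * (g * a ^ 2 * g⁻¹) * u⁻¹ = w * a ^ 2 * w⁻¹ := by rw [hw]; group
      rwa [h2] at this
    set y := (w * a ^ 2 * w⁻¹) ^ q with hy
    have hyS : y ∈ (S : Subgroup G) := Subgroup.pow_mem _ hc₁S q
    have hyy : y * y ∈ M := by
      have := Subgroup.mul_self_mem_of_index_two hhalf (⟨y, hyS⟩ : (S : Subgroup G))
      exact this
    have hyy' : y * y = w * z * w⁻¹ := by
      rw [← pow_two, hy, ← pow_mul, conj_pow, ← pow_mul, hz, show 2 * (q * 2) = 4 * q by ring]
    have hwz : w * z * w⁻¹ = z := by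
      apply hinvol
      · rw [← hyy']
        exact hyy
      · rw [hordconj, hzord]
    apply hbnot
    have h5 : w * b * w⁻¹ = w * z * w⁻¹ := by rw [hwb, hwz]
    have h6 : b = z := by
      have := congrArg (fun t => w⁻¹ * t * w) h5
      simpa [mul_assoc] using this
    rw [h6]
    exact hzM
  -- the sign character of `S` with kernel `M`
  let φ : (S : Subgroup G) →* ℤˣ := MonoidHom.mk'
    (fun s => if s ∈ M.subgroupOf (S : Subgroup G) then 1 else -1) (by
      intro x y
      have h := Subgroup.mul_mem_iff_of_index_two hhalf (a := x) (b := y)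
      by_cases ha : x ∈ M.subgroupOf (S : Subgroup G) <;>
      by_cases hb : y ∈ M.subgroupOf (S : Subgroup G) <;>
      simp [ha, hb, h])
  have hφ1 : ∀ s : (S : Subgroup G), (s : G) ∈ M → φ s = 1 := by
    intro s hs
    have : s ∈ M.subgroupOf (S : Subgroup G) := hs
    simp [φ, this]
  have hφ2 : ∀ s : (S : Subgroup G), (s : G) ∉ M → φ s = -1 := by
    intro s hs
    have : s ∉ M.subgroupOf (S : Subgroup G) := hs
    simp [φ, this]
  have : (S : Subgroup G).FiniteIndex := inferInstance
  let : Fintype (G ⧸ (S : Subgroup G)) := Fintype.ofFinite _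
  let : Fintype (Quotient (MulAction.orbitRel (Subgroup.zpowers b) (G ⧸ (S : Subgroup G)))) :=
    Fintype.ofFinite _
  have hV := MonoidHom.transfer_eq_prod_quotient_orbitRel_zpowers_quot φ b
  have hb2 : b ^ 2 = 1 := by rw [← hbo]; exact pow_orderOf_eq_one b
  have hfactor : ∀ q' : Quotient (MulAction.orbitRel (Subgroup.zpowers b) (G ⧸ (S : Subgroup G))),
      φ ⟨q'.out.out⁻¹ * b ^ Function.minimalPeriod (b • ·) q'.out * q'.out.out,
        QuotientGroup.out_conj_pow_minimalPeriod_mem (S : Subgroup G) b q'.out⟩ =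
      (-1) ^ Function.minimalPeriod (b • ·) q'.out := by
    intro q'
    set k := Function.minimalPeriod (b • ·) q'.out with hk
    have hkd : k ∣ 2 := by
      apply Function.IsPeriodicPt.minimalPeriod_dvd
      unfold Function.IsPeriodicPt Function.IsFixedPt
      rw [smul_iterate, hb2]; simp
    rcases (Nat.dvd_prime Nat.prime_two).1 hkd with hk1 | hk1
    · have hyM : q'.out.out⁻¹ * b ^ k * q'.out.out ∉ M := by
        have := hnotconj (q'.out.out⁻¹)
        rw [hk1, pow_one]
        simpa using this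
      rw [hφ2 _ hyM, ← hk, hk1, pow_one]
    · have hyM : q'.out.out⁻¹ * b ^ k * q'.out.out ∈ M := by
        rw [hk1, hb2]
        simp [M.one_mem]
      rw [hφ1 _ hyM, ← hk, hk1]
      simp
  have hτb : MonoidHom.transfer φ b = -1 := by
    rw [hV]
    rw [Finset.prod_congr rfl (fun q _ => hfactor q), Finset.prod_pow_eq_pow_sum]
    have hsum : ∑ q : Quotient (MulAction.orbitRel (Subgroup.zpowers b) (G ⧸ (S : Subgroup G))),
        Function.minimalPeriod (b • ·) q.out = (S : Subgroup G).index := by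
      exact (Subgroup.index_eq_sum_minimalPeriod (S : Subgroup G) b).symm
    rw [hsum]
    have hodd : Odd (S : Subgroup G).index := by
      rw [← Nat.not_even_iff_odd, even_iff_two_dvd]
      exact S.not_dvd_index
    exact hodd.neg_one_pow
  set τ := MonoidHom.transfer φ with hτ
  have hG₁n : τ.ker.Normal := inferInstance
  set G₁ := τ.ker with hG₁
  have hmemG₁ : ∀ x, x ∈ G₁ ↔ τ x = 1 := fun x => MonoidHom.mem_ker
  have hunits : ∀ u : ℤˣ, u = 1 ∨ u = -1 := Int.units_eq_one_or
  have hbG₁ : b ∉ G₁ := by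
    rw [hmemG₁, hτb]
    decide
  have hG₁idx : G₁.index = 2 := by
    rw [hG₁, Subgroup.index_ker]
    have htop : τ.range = ⊤ := by
      rw [eq_top_iff]
      intro u _
      rcases hunits u with rfl | rfl
      · exact Subgroup.one_mem _
      · exact ⟨b, hτb⟩
    rw [htop, Subgroup.card_top]
    simp
  have hG₁card : Nat.card G₁ * 2 = Nat.card G := by
    have := Subgroup.card_mul_index G₁
    rwa [hG₁idx] at this
  have hrelS : G₁.relIndex (S : Subgroup G) = 2 := by
    have h1 : G₁.relIndex (S : Subgroup G) ∣ 2 := by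
      have := Subgroup.relIndex_dvd_index_of_normal G₁ (S : Subgroup G)
      rwa [hG₁idx] at this
    rcases (Nat.dvd_prime Nat.prime_two).1 h1 with h2 | h2
    · exact absurd (Subgroup.relIndex_eq_one.1 h2 hb) hbG₁
    · exact h2
  set S₁ := G₁ ⊓ (S : Subgroup G) with hS₁
  have hS₁card : Nat.card S₁ = 8 * q := by
    have h1 : Nat.card S₁ * 2 = 16 * q := by
      have h1 := Cfsg.Agent.Lib.H5Basic.card_inf_mul_relIndex G₁ (S : Subgroup G)
      rw [hrelS, hScard] at h1
      exact h1
    omega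
  -- a generator of `S₁`
  obtain ⟨d, hdS₁, hdord⟩ : ∃ d ∈ S₁, orderOf d = 8 * q := by
    rcases hunits (τ a) with h | h
    · exact ⟨a, ⟨(hmemG₁ a).2 h, ha⟩, hao⟩
    · refine ⟨a * b, ⟨(hmemG₁ _).2 (by rw [map_mul, h, hτb]; decide), Subgroup.mul_mem _ ha hb⟩, ?_⟩
      · -- the order of `a * b`
        have hsq : (a * b) ^ 2 = a ^ (4 * q + 2) := by
          have h1 : b * a = a ^ (4 * q + 1) * b := by
            calc b * a = b * a * b⁻¹ * b := by group
              _ = _ := by rw [hrel]
          calc (a * b) ^ 2 = a * (b * a) * b := by rw [pow_two]; group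
            _ = a * (a ^ (4 * q + 1) * b) * b := by rw [h1]
            _ = a * a ^ (4 * q + 1) * (b * b) := by group
            _ = a * a ^ (4 * q + 1) := by rw [← pow_two b, hb2, mul_one]
            _ = a ^ (4 * q + 2) := by rw [← pow_succ']
        have hp1 : (a * b) ^ (4 * q) = z := by
          rw [show 4 * q = 2 * (2 * q) by ring, pow_mul, hsq, ← pow_mul,
            show (4 * q + 2) * (2 * q) = 8 * q * q + 4 * q by ring, pow_add, pow_mul, han, one_pow,
            one_mul]
        have h2pow : (8 : ℕ) * q = 2 ^ (m + 2 + 1) := by rw [hq, pow_add, pow_add]; ring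
        rw [h2pow]
        apply orderOf_eq_prime_pow
        · rw [show 2 ^ (m + 2) = 4 * q from h4q, hp1]
          exact hz1
        · rw [show 2 ^ (m + 2 + 1) = 4 * q * 2 by omega, pow_mul, hp1, hz2]
  have hS₁eq : S₁ = Subgroup.zpowers d := by
    symm
    apply Subgroup.eq_of_le_of_card_ge ((Subgroup.zpowers_le).2 hdS₁)
    rw [hS₁card, Nat.card_zpowers, hdord]
  have hS₁cyc : IsCyclic S₁ := by
    rw [hS₁eq]
    exact Subgroup.isCyclic_zpowers d
  have hS₁G₁ : S₁ ≤ G₁ := inf_le_left
  -- `S₁` is Sylow in `G₁`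
  have hS₁p : IsPGroup 2 (S₁.subgroupOf G₁) :=
    (hS2.to_le (inf_le_right : S₁ ≤ (S : Subgroup G))).of_equiv (Subgroup.subgroupOfEquivOfLe hS₁G₁).symm
  have hoddidx : ¬ 2 ∣ (S₁.subgroupOf G₁).index := by
    have h1 : Nat.card S₁ * S₁.relIndex G₁ = Nat.card G₁ :=
      Cfsg.Agent.Lib.H5Basic.card_mul_relIndex_of_le hS₁G₁
    have h2 : Nat.card (S : Subgroup G) * (S : Subgroup G).index = Nat.card G :=
      Subgroup.card_mul_index _
    rw [hS₁card] at h1
    rw [hScard, ← hG₁card, ← h1] at h2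
    have h3 : S₁.relIndex G₁ = (S : Subgroup G).index := by
      have h4 : 16 * q * S₁.relIndex G₁ = 16 * q * (S : Subgroup G).index := by
        rw [h2]; ring
      exact (Nat.eq_of_mul_eq_mul_left (by positivity) h4)
    show ¬ 2 ∣ S₁.relIndex G₁
    rw [h3]
    exact S.not_dvd_index
  let P₁ : Sylow 2 G₁ := hS₁p.toSylow hoddidx
  have hP₁ : (P₁ : Subgroup G₁) = S₁.subgroupOf G₁ := rfl
  have hP₁cyc : IsCyclic (P₁ : Subgroup G₁) := by
    rw [hP₁]
    exact isCyclic_of_surjective _ (Subgroup.subgroupOfEquivOfLe hS₁G₁).symm.surjective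
  obtain ⟨K, hKn, hKc⟩ := Cfsg.Agent.Lib.H5Cyc.exists_normal_complement P₁ hP₁cyc
  have hP₁card : Nat.card (P₁ : Subgroup G₁) = 8 * q := by
    rw [hP₁, ← hS₁card]
    exact Nat.card_congr (Subgroup.subgroupOfEquivOfLe hS₁G₁).toEquiv
  have hKcard : Nat.card K * (8 * q) = Nat.card G₁ := by
    rw [← hP₁card]
    exact hKc.card_mul_card
  have hKodd : ¬ 2 ∣ Nat.card K := by
    intro h
    apply hoddidx
    have h1 : Nat.card (P₁ : Subgroup G₁) * (P₁ : Subgroup G₁).index = Nat.card G₁ :=
      Subgroup.card_mul_index _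
    rw [hP₁card, ← hKcard, mul_comm] at h1
    have h2 := Nat.eq_of_mul_eq_mul_right (by positivity) h1
    show 2 ∣ (P₁ : Subgroup G₁).index
    rw [h2]
    exact h
  have hKindex : K.index = 8 * q := by
    have h1 := Subgroup.card_mul_index K
    rw [← hKcard] at h1
    exact Nat.eq_of_mul_eq_mul_left Nat.card_pos h1
  -- the complement as a subgroup of `G`
  set K₀ := K.map G₁.subtype with hK₀
  have hK₀card : Nat.card K₀ = Nat.card K :=
    Subgroup.card_map_of_injective (Subgroup.subtype_injective _)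
  have hK₀n : K₀.Normal := by
    constructor
    rintro _ ⟨x, hx, rfl⟩ g
    have hy : g * (x : G) * g⁻¹ ∈ G₁ := hG₁n.conj_mem _ x.2 _
    refine ⟨⟨_, hy⟩, ?_, rfl⟩
    -- odd order and `2`-power index
    rw [SetLike.mem_coe, ← QuotientGroup.eq_one_iff]
    apply orderOf_eq_one_iff.1
    have h1 : orderOf (QuotientGroup.mk (⟨_, hy⟩ : G₁) : G₁ ⧸ K) ∣ 2 ^ (m + 3) := by
      rw [h8q, ← hKindex]
      exact orderOf_dvd_natCard _
    have h2 : orderOf (QuotientGroup.mk (⟨_, hy⟩ : G₁) : G₁ ⧸ K) ∣ orderOf x := by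
      have h3 : orderOf (⟨_, hy⟩ : G₁) = orderOf x := by
        rw [← Subgroup.orderOf_coe, ← Subgroup.orderOf_coe x]
        exact hordconj g x
      rw [← h3]
      exact orderOf_map_dvd (QuotientGroup.mk' K) _
    have h3 : orderOf x ∣ Nat.card K := by
      have := orderOf_dvd_natCard (⟨x, hx⟩ : K)
      rwa [← Subgroup.orderOf_coe] at this
    obtain ⟨j, -, hj⟩ := (Nat.dvd_prime_pow Nat.prime_two).1 h1
    rcases j with _ | j
    · simpa using hj
    · exfalso
      apply hKodd
      rw [hj] at h2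
      exact (dvd_pow_self 2 (Nat.succ_ne_zero j)).trans (h2.trans h3)
  refine ⟨S, K₀, hK₀n, ?_⟩
  apply Subgroup.isComplement'_of_coprime
  · rw [hK₀card, hScard, ← hG₁card, ← hKcard]
    ring
  · rw [hK₀card, hScard]
    have h1 : (16 * q) = 2 ^ (m + 4) := by rw [hq, pow_add]; ring
    rw [h1]
    exact Nat.Coprime.pow_right _ ((Nat.Prime.coprime_iff_not_dvd Nat.prime_two).2 hKodd).symm

end Cfsg.Agent.S3178
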