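import Mathlib
import Cfsg.Agent.Lib.H5Basic
import Cfsg.Statements.S3180
-- import your own Cfsg.Agent.* helpers here

set_option autoImplicit false
open Cfsg

namespace Cfsg.Agent.S3180

/-- Let P be a Sylow p-subgroup of a finite group J and P₁ a subgroup of P that is weakly closed in P with respect to J. If J acts on a set and two points, each fixed by every element of P₁, lie in one J-orbit, then they lie in one orbit of the normalizer of P₁ in J. -/
theorem result {J : Type*} [Group J] [Finite J]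
    {p : ℕ} [Fact p.Prime] (P : Sylow p J) (P₁ : Subgroup J) (hW : Cfsg.IsWeaklyClosed P₁ (P : Subgroup J))
    {Ω : Type*} [MulAction J Ω] (x y : Ω) (hx : ∀ g ∈ P₁, g • x = x) (hy : ∀ g ∈ P₁, g • y = y)
    (hc : ∃ g : J, g • x = y) :
    ∃ g ∈ Subgroup.normalizer (P₁ : Set J), g • x = y := by
  classical
  obtain ⟨g₀, hg₀⟩ := hc
  obtain ⟨hle, hW⟩ := hW
  have hP₁p : IsPGroup p P₁ := P.isPGroup'.to_le hle
  -- the stabilizer of `y`
  set St : Subgroup J := MulAction.stabilizer J y with hSt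
  have h1 : P₁ ≤ St := fun a ha => hy a ha
  have h2 : P₁.map (MulAut.conj g₀).toMonoidHom ≤ St := by
    rintro _ ⟨a, ha, rfl⟩
    show (g₀ * a * g₀⁻¹) • y = y
    rw [← hg₀, mul_smul, mul_smul, inv_smul_smul, hx a ha]
  have hmemnorm : ∀ c : J, P₁.map (MulAut.conj c).toMonoidHom = P₁ →
      c ∈ Subgroup.normalizer (P₁ : Set J) := fun c hc =>
    Cfsg.Agent.Lib.H5Basic.mem_normalizer_of_map_conj_le hc.le
  have hp1 : IsPGroup p (P₁.subgroupOf St) := hP₁p.comap_of_injective St.subtype St.subtype_injective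
  have hP₂p : IsPGroup p (P₁.map (MulAut.conj g₀).toMonoidHom) := hP₁p.map _
  have hp2 : IsPGroup p ((P₁.map (MulAut.conj g₀).toMonoidHom).subgroupOf St) :=
    hP₂p.comap_of_injective St.subtype St.subtype_injective
  obtain ⟨T, hT⟩ := hp1.exists_le_sylow
  obtain ⟨T2, hT2⟩ := hp2.exists_le_sylow
  obtain ⟨h, hh⟩ := MulAction.exists_smul_eq (↥St) T2 T
  have hTp : IsPGroup p ((T : Subgroup St).map St.subtype) := T.isPGroup'.map _
  obtain ⟨R, hR⟩ := hTp.exists_le_sylow
  obtain ⟨k, hk⟩ := MulAction.exists_smul_eq J P R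
  have hmemR : ∀ a, a ∈ (R : Subgroup J) → k⁻¹ * a * k ∈ (P : Subgroup J) := by
    intro a ha
    rw [← hk] at ha
    exact Cfsg.Agent.Lib.H5Basic.mem_of_mem_smul_sylow P k a ha
  have hTR : ∀ t : St, t ∈ (T : Subgroup St) → (t : J) ∈ (R : Subgroup J) := fun t ht =>
    hR ⟨t, ht, rfl⟩
  -- (A)
  have hA : P₁.map (MulAut.conj k⁻¹).toMonoidHom = P₁ := by
    apply hW
    rintro _ ⟨a, ha, rfl⟩
    have := hmemR a (hTR ⟨a, h1 ha⟩ (hT ha))
    simpa [MulAut.conj_apply] using this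
  -- (B)
  have hB : P₁.map (MulAut.conj (k⁻¹ * h * g₀)).toMonoidHom = P₁ := by
    apply hW
    rintro _ ⟨a, ha, rfl⟩
    have hmem2 : (⟨g₀ * a * g₀⁻¹, h2 ⟨a, ha, rfl⟩⟩ : St) ∈ (T2 : Subgroup St) :=
      hT2 (show _ ∈ P₁.map (MulAut.conj g₀).toMonoidHom from ⟨a, ha, rfl⟩)
    have hmem3 := Cfsg.Agent.Lib.H5Basic.conj_mem_smul_sylow T2 h _ hmem2
    rw [hh] at hmem3
    have := hmemR _ (hTR _ hmem3)
    simp only [MulEquiv.coe_toMonoidHom, MulAut.conj_apply]
    convert this using 1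
    simp only [Subgroup.coe_mul, Subgroup.coe_inv]
    group
  have hN1 := hmemnorm _ hA
  have hN2 := hmemnorm _ hB
  have hN3 : h * g₀ * 1 ∈ Subgroup.normalizer (P₁ : Set J) := by
    have := Subgroup.mul_mem _ (Subgroup.inv_mem _ hN1) hN2
    simpa [mul_assoc] using this
  refine ⟨(h : J) * g₀, by simpa using hN3, ?_⟩
  rw [mul_smul, hg₀]
  exact h.2

end Cfsg.Agent.S3180
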