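import Mathlib
import Cfsg.Agent.Lib.H5Basic
import Cfsg.Statements.S3183
-- import your own Cfsg.Agent.* helpers here

set_option autoImplicit false
open Cfsg

namespace Cfsg.Agent.S3183

/-- Let G be a finite group in which the intersection of any two distinct Sylow 2-subgroups is contained in the centre of some Sylow 2-subgroup, and let S be a Sylow 2-subgroup. Then for every x in S the centralizer of x in S is a Sylow 2-subgroup of the centralizer of x in G (no 2-subgroup centralizing x is larger), and for every other Sylow 2-subgroup T the intersection S ∩ T lies in both the centre of S and the centre of T. -/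
theorem result {G : Type*} [Group G] [Finite G]
    (hCI : ∀ S T : Sylow 2 G, S ≠ T → ∃ U : Sylow 2 G,
      (S : Subgroup G) ⊓ (T : Subgroup G) ≤ (Subgroup.center ↥(U : Subgroup G)).map (U : Subgroup G).subtype)
    (S : Sylow 2 G) :
    (∀ x ∈ (S : Subgroup G), ∀ P : Subgroup G, IsPGroup 2 ↥P → P ≤ Subgroup.centralizer ({x} : Set G) →
        Nat.card ↥P ≤ Nat.card ↥((S : Subgroup G) ⊓ Subgroup.centralizer ({x} : Set G))) ∧
    (∀ T : Sylow 2 G, T ≠ S →
        (S : Subgroup G) ⊓ (T : Subgroup G) ≤
          (Subgroup.center ↥(S : Subgroup G)).map (S : Subgroup G).subtype ⊓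
            (Subgroup.center ↥(T : Subgroup G)).map (T : Subgroup G).subtype) := by
  classical
  haveI : Fact (Nat.Prime 2) := ⟨Nat.prime_two⟩
  -- helper: membership in the centre of a Sylow subgroup
  have hmemZ : ∀ (U : Sylow 2 G) (z : G), z ∈ (Subgroup.center ↥(U : Subgroup G)).map (U : Subgroup G).subtype ↔
      z ∈ (U : Subgroup G) ∧ ∀ u ∈ (U : Subgroup G), u * z = z * u := by
    intro U z
    constructor
    · rintro ⟨w, hw, rfl⟩
      refine ⟨w.2, fun u hu => ?_⟩
      have := Subgroup.mem_center_iff.1 hw ⟨u, hu⟩
      exact congrArg Subtype.val this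
    · rintro ⟨h1, h2⟩
      exact ⟨⟨z, h1⟩, Subgroup.mem_center_iff.2 (fun u => Subtype.ext (h2 u u.2)), rfl⟩
  -- main claim by downward induction on the size of the intersection
  have claim : ∀ (n : ℕ) (S T : Sylow 2 G), S ≠ T →
      Nat.card (S : Subgroup G) ≤ Nat.card ↥((S : Subgroup G) ⊓ (T : Subgroup G)) + n →
      ∀ z ∈ (S : Subgroup G) ⊓ (T : Subgroup G), ∀ s ∈ (S : Subgroup G), s * z = z * s := by
    intro n
    induction n with
    | zero =>
      intro S T hST hc
      exfalso
      have h1 : (S : Subgroup G) ⊓ (T : Subgroup G) = (S : Subgroup G) :=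
        Subgroup.eq_of_le_of_card_ge inf_le_left (by simpa using hc)
      have h2 : (S : Subgroup G) ≤ T := by
        rw [← h1]; exact inf_le_right
      apply hST
      exact Sylow.ext (S.is_maximal' T.isPGroup' h2).symm
    | succ n ih =>
      intro S T hST hc z hz s hs
      set D : Subgroup G := (S : Subgroup G) ⊓ (T : Subgroup G) with hD
      obtain ⟨U, hU⟩ := hCI S T hST
      have hDU : ∀ d ∈ D, d ∈ (U : Subgroup G) ∧ ∀ u ∈ (U : Subgroup G), u * d = d * u := fun d hd =>
        (hmemZ U d).1 (hU hd)
      have hSpp : IsPGroup 2 (S : Subgroup G) := S.isPGroup'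
      have hgt : ∀ E : Subgroup G, D ≤ E → ∀ e ∈ E, e ∉ D → Nat.card D < Nat.card E := by
        intro E hDE e heE heD
        by_contra hcon
        push Not at hcon
        have := Subgroup.eq_of_le_of_card_ge hDE hcon
        exact heD (this ▸ heE)
      by_cases hSU : S = U
      · -- then `D` is central in `S`
        subst hSU
        exact (hDU z hz).2 s hs
      -- `D ≠ S`
      have hDS : D ≠ (S : Subgroup G) := by
        intro h
        have h2 : (S : Subgroup G) ≤ T := by rw [← h]; exact inf_le_right
        exact hST (Sylow.ext (S.is_maximal' T.isPGroup' h2).symm)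
      by_cases hbig : ∃ e ∈ (S : Subgroup G) ⊓ (U : Subgroup G), e ∉ D
      · -- bigger intersection with `U`
        obtain ⟨e, he, heD⟩ := hbig
        have hle : D ≤ (S : Subgroup G) ⊓ (U : Subgroup G) := fun d hd =>
          Subgroup.mem_inf.2 ⟨(Subgroup.mem_inf.1 hd).1, (hDU d hd).1⟩
        have hlt := hgt _ hle e he heD
        exact ih S U hSU (by omega) z (hle hz) s hs
      · push Not at hbig
        -- `S ∩ U = D`; use the normalizer
        obtain ⟨y, hyS, hyD, hyN⟩ := Cfsg.Agent.Lib.H5Basic.exists_mem_normalizer_of_lt hSpp inf_le_left hDS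
        set M : Subgroup G := Subgroup.normalizer (D : Set G) with hM
        have hUM : (U : Subgroup G) ≤ M := by
          intro u hu
          rw [hM, Subgroup.mem_normalizer_iff]
          intro d
          constructor
          · intro hd
            rw [(hDU d hd).2 u hu]
            simpa using hd
          · intro hd
            have h1 := (hDU _ hd).2 u⁻¹ (Subgroup.inv_mem _ hu)
            have h2 : d = u * d * u⁻¹ := by
              calc d = u⁻¹ * (u * d * u⁻¹) * u := by group
                _ = (u * d * u⁻¹) * u⁻¹ * u := by rw [h1]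
                _ = u * d * u⁻¹ := by group
            rw [h2]; exact hd
        -- a Sylow subgroup of `M` containing `N_S(D)`, conjugate to `U` inside `M`
        have hAp : IsPGroup 2 (((S : Subgroup G) ⊓ M).subgroupOf M) :=
          (hSpp.to_le inf_le_left).comap_of_injective M.subtype M.subtype_injective
        obtain ⟨V, hV⟩ := hAp.exists_le_sylow
        -- `U` inside `M` is Sylow
        have hUM' : IsPGroup 2 ((U : Subgroup G).subgroupOf M) :=
          U.isPGroup'.comap_of_injective M.subtype M.subtype_injective
        have hindex : ¬ 2 ∣ ((U : Subgroup G).subgroupOf M).index := by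
          intro hd
          have h1 : ((U : Subgroup G).subgroupOf M).index ∣ (U : Subgroup G).index :=
            Subgroup.relIndex_dvd_index_of_le hUM
          exact U.not_dvd_index (hd.trans h1)
        obtain ⟨m, hm⟩ := MulAction.exists_smul_eq (↥M) V (hUM'.toSylow hindex)
        -- the conjugate `S^m`
        set S' : Sylow 2 G := (m : G) • S with hS'
        have hmemS' : ∀ a ∈ (S : Subgroup G), (m : G) * a * (m : G)⁻¹ ∈ (S' : Subgroup G) := fun a ha =>
          Cfsg.Agent.Lib.H5Basic.conj_mem_smul_sylow S (m : G) a ha
        have hDconj : ∀ d ∈ D, (m : G) * d * (m : G)⁻¹ ∈ D := fun d hd =>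
          (Subgroup.mem_normalizer_iff.1 m.2 d).1 hd
        have hDconj' : ∀ d ∈ D, (m : G)⁻¹ * d * m ∈ D := fun d hd => by
          have := (Subgroup.mem_normalizer_iff.1 (M.inv_mem m.2) d).1 hd
          simpa using this
        -- elements of `N_S(D)` are moved into `U`
        have hmoveU : ∀ a ∈ (S : Subgroup G), a ∈ M → (m : G) * a * (m : G)⁻¹ ∈ (U : Subgroup G) := by
          intro a ha haM
          have h1 : (⟨a, haM⟩ : M) ∈ (V : Subgroup M) := hV (Subgroup.mem_inf.2 ⟨ha, haM⟩)
          have h2 := Cfsg.Agent.Lib.H5Basic.conj_mem_smul_sylow V m _ h1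
          rw [hm] at h2
          exact h2
        have hdU : D ≤ (S' : Subgroup G) ⊓ (U : Subgroup G) := by
          intro d hd
          refine Subgroup.mem_inf.2 ⟨?_, (hDU d hd).1⟩
          have := hmemS' _ (Subgroup.mem_inf.1 (hDconj' d hd)).1
          simpa [mul_assoc] using this
        have hyy : (m : G) * y * (m : G)⁻¹ ∈ (S' : Subgroup G) ⊓ (U : Subgroup G) :=
          Subgroup.mem_inf.2 ⟨hmemS' y hyS, hmoveU y hyS hyN⟩
        have hyyD : (m : G) * y * (m : G)⁻¹ ∉ D := by
          intro h
          apply hyD
          have h2 := hDconj' _ h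
          have e : (m : G)⁻¹ * ((m : G) * y * (m : G)⁻¹) * (m : G) = y := by group
          rw [e] at h2
          exact h2
        have hlt := hgt _ hdU _ hyy hyyD
        -- conjugate back: `D` is central in `S'`
        have hzconj : ∀ z ∈ D, ∀ s' ∈ (S' : Subgroup G), s' * z = z * s' := by
          intro z hz s' hs'
          by_cases hS'U : S' = U
          · rw [hS'U] at hs'
            exact (hDU z hz).2 s' hs'
          · have hcardS' : Nat.card (S' : Subgroup G) = Nat.card (S : Subgroup G) := by
              rw [hS', Sylow.coe_subgroup_smul, Subgroup.pointwise_smul_def]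
              exact Subgroup.card_map_of_injective (MulAut.conj (m : G)).injective
            exact ih S' U hS'U (by omega) z (hdU hz) s' hs'
        -- transfer back to `S`
        have h1 := hzconj _ (hDconj z hz) _ (hmemS' s hs)
        have h2 : (m : G) * (s * z) * (m : G)⁻¹ = (m : G) * (z * s) * (m : G)⁻¹ := by
          calc (m : G) * (s * z) * (m : G)⁻¹ = ((m : G) * s * (m : G)⁻¹) * ((m : G) * z * (m : G)⁻¹) := by group
            _ = ((m : G) * z * (m : G)⁻¹) * ((m : G) * s * (m : G)⁻¹) := h1
            _ = _ := by group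
        simpa using h2
  have hcentral : ∀ S T : Sylow 2 G, S ≠ T → ∀ z ∈ (S : Subgroup G) ⊓ (T : Subgroup G),
      ∀ s ∈ (S : Subgroup G), s * z = z * s := by
    intro S T hST
    exact claim (Nat.card (S : Subgroup G)) S T hST (by omega)
  constructor
  · intro x hx P hP hPC
    -- a Sylow subgroup containing `P` and `x`
    have hxp : IsPGroup 2 (Subgroup.zpowers x) :=
      (S.isPGroup'.to_le (by rw [Subgroup.zpowers_le]; exact hx))
    have hle : P ≤ Subgroup.normalizer ((Subgroup.zpowers x : Subgroup G) : Set G) := by
      intro g hg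
      rw [Subgroup.mem_normalizer_iff]
      have hc : g * x = x * g := Subgroup.mem_centralizer_singleton_iff.1 (hPC hg)
      have hconj : ∀ a ∈ Subgroup.zpowers x, g * a * g⁻¹ = a := by
        intro a ha
        obtain ⟨k, rfl⟩ := Subgroup.mem_zpowers_iff.1 ha
        have h2 : Commute g (x ^ k) := (show Commute g x from hc).zpow_right k
        rw [h2.eq]; group
      intro a
      constructor
      · intro ha
        rw [hconj a ha]; exact ha
      · intro ha
        have h3 := hconj _ ha
        have h4 : g * a * g⁻¹ = a := by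
          have h5 : g⁻¹ * (g * a * g⁻¹) * g = a := by group
          have h6 : g⁻¹ * (g * a * g⁻¹) * g = g * a * g⁻¹ := by
            obtain ⟨k, hk⟩ := Subgroup.mem_zpowers_iff.1 ha
            rw [← hk]
            have h2 : Commute g⁻¹ (x ^ k) := ((show Commute g x from hc).inv_left).zpow_right k
            rw [h2.eq]; group
          rw [← h6, h5]
        rw [← h4]; exact ha
    have hsup := IsPGroup.to_sup_of_normal_right' hP hxp hle
    obtain ⟨T, hT⟩ := hsup.exists_le_sylow
    have hPT : P ≤ (T : Subgroup G) := le_sup_left.trans hT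
    have hxT : x ∈ (T : Subgroup G) := hT (Subgroup.mem_sup_right (Subgroup.mem_zpowers x))
    by_cases hTS : T = S
    · subst hTS
      exact Subgroup.card_le_of_le (le_inf hPT hPC)
    · have hS1 := hcentral S T (Ne.symm hTS) x (Subgroup.mem_inf.2 ⟨hx, hxT⟩)
      have hSC : (S : Subgroup G) ≤ Subgroup.centralizer ({x} : Set G) := by
        intro s hs
        exact Subgroup.mem_centralizer_singleton_iff.2 (hS1 s hs)
      rw [inf_eq_left.2 hSC]
      have h1 : Nat.card P ≤ Nat.card (T : Subgroup G) := Subgroup.card_le_of_le hPT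
      have h2 : Nat.card (T : Subgroup G) = Nat.card (S : Subgroup G) := by
        rw [Sylow.card_eq_multiplicity, Sylow.card_eq_multiplicity]
      omega
  · intro T hTS z hz
    refine Subgroup.mem_inf.2 ⟨(hmemZ S z).2 ⟨(Subgroup.mem_inf.1 hz).1, ?_⟩, (hmemZ T z).2 ⟨(Subgroup.mem_inf.1 hz).2, ?_⟩⟩
    · exact hcentral S T (Ne.symm hTS) z hz
    · exact hcentral T S hTS z (by rwa [inf_comm])

end Cfsg.Agent.S3183
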