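import Mathlib
import Cfsg.Agent.Lib.H5Basic
import Cfsg.Agent.Lib.PGroupBasic
import Cfsg.Statements.S3190
-- import your own Cfsg.Agent.* helpers here

set_option autoImplicit false
open Cfsg

namespace Cfsg.Agent.S3190

/-- Let p be an odd prime and, inside a finite group, let P be a p-subgroup normalized by a Klein four-group T. Let R be a subgroup of P, normal in P and normalized by T, such that P is the product of R with the centralizer of T in P. If T centralizes the centre of P, then T centralizes the centre of R. -/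
theorem result {X : Type*} [Group X] [Finite X]
    {p : ℕ} (hp : p.Prime) (hodd : Odd p) (P T R : Subgroup X) (hP : IsPGroup p ↥P) (hT : IsKleinFour ↥T)
    (hTP : T ≤ Subgroup.normalizer (P : Set X)) (hRP : R ≤ P) (hRn : (R.subgroupOf P).Normal)
    (hTR : T ≤ Subgroup.normalizer (R : Set X)) (hfac : R ⊔ (P ⊓ Subgroup.centralizer (T : Set X)) = P)
    (hZ : T ≤ Subgroup.centralizer (((Subgroup.center ↥P).map P.subtype : Subgroup X) : Set X)) :
    T ≤ Subgroup.centralizer (((Subgroup.center ↥R).map R.subtype : Subgroup X) : Set X) := by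
  classical
  haveI : Fact p.Prime := ⟨hp⟩
  haveI := hT
  intro t ht
  -- `t` is an involution or trivial
  have ht2 : t * t = 1 := by
    have h := IsKleinFour.mul_self (⟨t, ht⟩ : T)
    exact congrArg Subtype.val h
  have htinv : t⁻¹ = t := inv_eq_of_mul_eq_one_left ht2
  set Z : Subgroup X := (Subgroup.center ↥R).map R.subtype with hZdef
  have hZR : Z ≤ R := by
    rintro _ ⟨z, -, rfl⟩
    exact z.2
  have hmemZ : ∀ z, z ∈ Z ↔ z ∈ R ∧ ∀ r ∈ R, r * z = z * r := by
    intro z
    constructor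
    · rintro ⟨w, hw, rfl⟩
      refine ⟨w.2, fun r hr => ?_⟩
      have := Subgroup.mem_center_iff.1 hw ⟨r, hr⟩
      exact congrArg Subtype.val this
    · rintro ⟨h1, h2⟩
      exact ⟨⟨z, h1⟩, Subgroup.mem_center_iff.2 (fun u => Subtype.ext (h2 u u.2)), rfl⟩
  have hZcomm : ∀ a ∈ Z, ∀ b ∈ Z, a * b = b * a := fun a ha b hb =>
    ((hmemZ b).1 hb).2 a (hZR ha) |>.symm ▸ rfl
  -- a conjugation normalizing `R` normalizes `Z`
  have hconjZ : ∀ y ∈ Subgroup.normalizer (R : Set X), ∀ z ∈ Z, y * z * y⁻¹ ∈ Z := by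
    intro y hy z hz
    obtain ⟨hz1, hz2⟩ := (hmemZ z).1 hz
    refine (hmemZ _).2 ⟨(Subgroup.mem_normalizer_iff.1 hy z).1 hz1, ?_⟩
    intro r hr
    have hr' : y⁻¹ * r * y ∈ R := by
      have := (Subgroup.mem_normalizer_iff.1 (Subgroup.inv_mem _ hy) r).1 hr
      simpa using this
    have h3 := hz2 _ hr'
    calc r * (y * z * y⁻¹) = y * ((y⁻¹ * r * y) * z) * y⁻¹ := by group
      _ = y * (z * (y⁻¹ * r * y)) * y⁻¹ := by rw [h3]
      _ = _ := by group
  have htR := hTR ht
  -- the inverted part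
  let I : Subgroup X :=
    { carrier := {z | z ∈ Z ∧ t * z * t⁻¹ = z⁻¹}
      mul_mem' := by
        rintro a b ⟨ha, ha'⟩ ⟨hb, hb'⟩
        refine ⟨Z.mul_mem ha hb, ?_⟩
        have e : t * (a * b) * t⁻¹ = (t * a * t⁻¹) * (t * b * t⁻¹) := by group
        rw [e, ha', hb', mul_inv_rev]
        exact hZcomm _ (Z.inv_mem ha) _ (Z.inv_mem hb)
      one_mem' := ⟨Z.one_mem, by simp⟩
      inv_mem' := by
        rintro a ⟨ha, ha'⟩
        refine ⟨Z.inv_mem ha, ?_⟩
        have e : t * a⁻¹ * t⁻¹ = (t * a * t⁻¹)⁻¹ := by group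
        rw [e, ha'] }
  have hIZ : I ≤ Z := fun _ h => h.1
  have hIP : I ≤ P := hIZ.trans (hZR.trans hRP)
  -- `P` normalizes `I`
  have hPI : P ≤ Subgroup.normalizer (I : Set X) := by
    rw [← hfac]
    apply sup_le
    · intro r hr
      apply Cfsg.Agent.Lib.H5Basic.mem_normalizer_of_map_conj_le
      rintro _ ⟨z, hz, rfl⟩
      have h1 := ((hmemZ z).1 (hIZ hz)).2 r hr
      have h2 : (MulAut.conj r).toMonoidHom z = z := by
        simp only [MulEquiv.coe_toMonoidHom, MulAut.conj_apply]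
        rw [h1]; group
      rw [h2]; exact hz
    · rintro c ⟨hcP, hcT⟩
      apply Cfsg.Agent.Lib.H5Basic.mem_normalizer_of_map_conj_le
      rintro _ ⟨z, ⟨hz1, hz2⟩, rfl⟩
      have hcR : c ∈ Subgroup.normalizer (R : Set X) := by
        rw [Subgroup.mem_normalizer_iff]
        have hn := (Subgroup.normal_subgroupOf_iff hRP).1 hRn
        intro r
        constructor
        · intro hr
          exact hn r c hr hcP
        · intro hr
          have := hn _ c⁻¹ hr (P.inv_mem hcP)
          simpa [mul_assoc] using this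
      have hct : t * c = c * t := by
        have := Subgroup.mem_centralizer_iff.1 hcT t ht
        exact this
      refine ⟨hconjZ c hcR z hz1, ?_⟩
      simp only [MulEquiv.coe_toMonoidHom, MulAut.conj_apply]
      calc t * (c * z * c⁻¹) * t⁻¹ = (t * c) * z * (t * c)⁻¹ * (t * t⁻¹) * 1 * (t * t⁻¹) := by group
        _ = (c * t) * z * (c * t)⁻¹ := by rw [hct]; simp
        _ = c * (t * z * t⁻¹) * c⁻¹ := by group
        _ = c * z⁻¹ * c⁻¹ := by rw [hz2]
        _ = (c * z * c⁻¹)⁻¹ := by group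
  -- so `I = 1`
  have hI1 : I = ⊥ := by
    by_contra hne
    set I' : Subgroup P := I.subgroupOf P with hI'
    haveI : I'.Normal := by
      constructor
      intro x hx g
      have h1 := (Subgroup.mem_normalizer_iff.1 (hPI g.2) x).1 hx
      exact h1
    have hI'ne : I' ≠ ⊥ := by
      intro hb
      apply hne
      rw [eq_bot_iff]
      intro z hz
      have : (⟨z, hIP hz⟩ : P) ∈ I' := hz
      rw [hb, Subgroup.mem_bot] at this
      have h2 := congrArg Subtype.val this
      simpa using h2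
    obtain ⟨z, hz, hz1, hzc⟩ := Cfsg.Agent.Lib.PGroupBasic.exists_ne_one_mem_center_of_normal hP I' hI'ne
    have hzZ : (z : X) ∈ (Subgroup.center ↥P).map P.subtype := ⟨z, hzc, rfl⟩
    have hcomm := Subgroup.mem_centralizer_iff.1 (hZ ht) _ hzZ
    have hinv : t * (z : X) * t⁻¹ = (z : X)⁻¹ := hz.2
    have hzz : ((z : X)) ^ 2 = 1 := by
      have e : t * (z : X) * t⁻¹ = (z : X) := by
        rw [← hcomm]; group
      rw [e] at hinv
      rw [pow_two]
      calc (z : X) * z = (z : X)⁻¹ * z := by rw [← hinv]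
        _ = 1 := by group
    obtain ⟨k, hk⟩ := IsPGroup.iff_orderOf.1 hP z
    have hzo : orderOf (z : X) = p ^ k := by rw [← hk]; exact Subgroup.orderOf_coe z
    have hd : orderOf (z : X) ∣ 2 := orderOf_dvd_of_pow_eq_one hzz
    rw [hzo] at hd
    have hk0 : k = 0 := by
      by_contra hk0
      have h1 : p ∣ 2 := (dvd_pow_self p hk0).trans hd
      have h2 : p = 2 := (Nat.prime_dvd_prime_iff_eq hp Nat.prime_two).1 h1
      rw [h2] at hodd
      exact absurd hodd (by decide)
    rw [hk0, pow_zero, orderOf_eq_one_iff] at hzo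
    apply hz1
    exact Subtype.ext hzo
  -- conclude
  rw [Subgroup.mem_centralizer_iff]
  intro z hz
  have hzt : t * z * t⁻¹ ∈ Z := hconjZ t htR z hz
  set w : X := z * (t * z * t⁻¹)⁻¹ with hw
  have hwI : w ∈ I := by
    refine ⟨Z.mul_mem hz (Z.inv_mem hzt), ?_⟩
    have e1 : t * w * t⁻¹ = (t * z * t⁻¹) * (t * (t * z * t⁻¹) * t⁻¹)⁻¹ := by
      rw [hw]; group
    have e2 : t * (t * z * t⁻¹) * t⁻¹ = z := by
      calc t * (t * z * t⁻¹) * t⁻¹ = (t * t) * z * (t * t)⁻¹ := by group
        _ = z := by rw [ht2]; group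
    rw [e1, e2, hw, mul_inv_rev, inv_inv]
  rw [hI1, Subgroup.mem_bot] at hwI
  have h5 : z = t * z * t⁻¹ := by
    have := mul_inv_eq_one.1 hwI
    exact this
  have h6 : t * z = z * t := by
    calc t * z = (t * z * t⁻¹) * t := by group
      _ = z * t := by rw [← h5]
  exact h6.symm

end Cfsg.Agent.S3190
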