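import Mathlib
import Cfsg.Prelude
import Cfsg.Agent.Lib.BaerSuzuki
import Cfsg.Agent.Lib.PCore
import Cfsg.Statements.S3195
-- import your own Cfsg.Agent.* helpers here

set_option autoImplicit false
open Cfsg

namespace Cfsg.Agent.S3195

/-- Let A be a Klein four-subgroup of a finite group G. If every G-conjugate of every involution of A commutes with some involution of A (its centralizer meets A nontrivially), then A meets the largest normal 2-subgroup O₂(G) nontrivially. -/
theorem result {G : Type*} [Group G] [Finite G]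
    (A : Subgroup G) (hA : IsKleinFour ↥A)
    (h : ∀ a ∈ A, a ≠ 1 → ∀ g : G, A ⊓ Subgroup.centralizer ({g * a * g⁻¹} : Set G) ≠ ⊥) :
    A ⊓ Cfsg.pCore 2 G ≠ ⊥ := by
  classical
  -- `A` is elementary abelian of order four
  haveI : Finite A := inferInstance
  have hcardA : Nat.card A = 4 := by
    exact hA.card_four
  have hsqA : ∀ a ∈ A, a ^ 2 = 1 := by
    intro a ha
    have h1 : (⟨a, ha⟩ : A) ^ 2 = 1 := by
      have := hA.exponent_two
      have h2 := Monoid.pow_exponent_eq_one (⟨a, ha⟩ : A)
      rwa [this] at h2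
    exact congrArg Subtype.val h1
  have hcommA : IsMulCommutative A := by
    haveI := hA.isMulCommutative
    infer_instance
  have hEA : Cfsg.IsElementaryAbelian 2 A := ⟨hcommA, hsqA⟩
  have hA1 : A ≠ ⊥ := by
    intro hbot
    rw [hbot] at hcardA
    simp at hcardA
  apply Cfsg.Agent.Lib.BaerSuzuki.sidki_le_four A hEA hA1 _ hcardA.le
  -- the Sidki condition
  intro y v hv hyo hinv
  by_cases hv1 : v = 1
  · -- then `y` has square one
    subst hv1
    refine ?_
    have hy : y * y = 1 := by
      have h1 : y = y⁻¹ := by simpa using hinv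
      nth_rw 1 [h1]
      simp
    have hy1 := Cfsg.Agent.Lib.BaerSuzuki.eq_one_of_sq_of_odd hy hyo
    have hne : ∃ w ∈ A, w ≠ 1 := by
      by_contra hcon
      push Not at hcon
      apply hA1
      rw [eq_bot_iff]
      intro x hx
      exact hcon x hx
    obtain ⟨w, hw, hw1⟩ := hne
    exact ⟨w, hw, hw1, by rw [hy1]; simp⟩
  · obtain ⟨s, hs, hss⟩ := Cfsg.Agent.Lib.BaerSuzuki.exists_sqrt hyo
    obtain ⟨i, hi⟩ := hs
    have hsinv : v * s * v⁻¹ = s⁻¹ := by
      rw [← hi]
      simp only
      rw [← conj_zpow, hinv]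
      simp
    have hv2 : v * v = 1 := by
      rw [← pow_two]
      exact hsqA v hv
    have hvinv : v⁻¹ = v := by
      rw [inv_eq_iff_mul_eq_one]
      exact hv2
    -- `v y` is conjugate to `v`
    have hconj : s⁻¹ * v * (s⁻¹)⁻¹ = v * y := by
      rw [← hss]
      have h1 : s⁻¹ * v = v * s := by
        have h2 : v * s * v = s⁻¹ := by rwa [hvinv] at hsinv
        calc s⁻¹ * v = (v * s * v) * v := by rw [h2]
          _ = v * s * (v * v) := by group
          _ = v * s := by rw [hv2, mul_one]
      rw [h1]
      group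
    have h1 := h v hv hv1 s⁻¹
    rw [hconj] at h1
    obtain ⟨⟨w, hw, hwc⟩, hw1⟩ := Subgroup.ne_bot_iff_exists_ne_one.1 h1
    replace hw : w ∈ A := hw
    replace hwc : w ∈ Subgroup.centralizer {v * y} := hwc
    rw [Subgroup.mem_centralizer_singleton_iff] at hwc
    have hw1' : w ≠ 1 := by
      intro hh
      apply hw1
      exact Subtype.ext hh
    refine ⟨w, hw, hw1', ?_⟩
    have hvw : w * v = v * w := by
      have := mul_comm' (⟨w, hw⟩ : A) ⟨v, hv⟩
      exact congrArg Subtype.val this
    have h2 : v * (w * y) = v * (y * w) := by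
      calc v * (w * y) = (w * v) * y := by rw [hvw]; group
        _ = w * (v * y) := by group
        _ = (v * y) * w := by exact hwc
        _ = _ := by group
    exact mul_left_cancel h2

end Cfsg.Agent.S3195
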