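import Mathlib
import Cfsg.Prelude
import Cfsg.Agent.Lib.BaerSuzuki
import Cfsg.Agent.Lib.PCore
import Cfsg.Agent.Lib.H2Basic
import Cfsg.Agent.Lib.Replacement
import Cfsg.Agent.Lib.PGroupBasic
import Cfsg.Statements.S3196
-- import your own Cfsg.Agent.* helpers here

set_option autoImplicit false
open Cfsg

namespace Cfsg.Agent.S3196


/-- elementwise commuting subgroups -/
def Cm {G : Type*} [Group G] (X Y : Subgroup G) : Prop := ∀ x ∈ X, ∀ y ∈ Y, x * y = y * x

lemma mem_sup_comm {G : Type*} [Group G] {U W : Subgroup G} (h : Cm U W) {e : G} (he : e ∈ U ⊔ W) :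
    ∃ u ∈ U, ∃ w ∈ W, e = u * w :=
  Cfsg.Agent.Lib.Replacement.mem_sup_of_le_normalizer
    (fun u hu => Cfsg.Agent.Lib.H2Basic.mem_normalizer_of_forall_comm (fun a ha => h u hu a ha)) he

lemma comm_of_mem_sup {G : Type*} [Group G] {U W : Subgroup G} {g : G} (h1 : ∀ u ∈ U, g * u = u * g)
    (h2 : ∀ w ∈ W, g * w = w * g) {e : G} (he : e ∈ U ⊔ W) : g * e = e * g := by
  have h : U ⊔ W ≤ Subgroup.centralizer {g} := by
    apply sup_le
    · intro u hu
      rw [Subgroup.mem_centralizer_singleton_iff]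
      exact (h1 u hu).symm
    · intro u hu
      rw [Subgroup.mem_centralizer_singleton_iff]
      exact (h2 u hu).symm
  have := h he
  rw [Subgroup.mem_centralizer_singleton_iff] at this
  exact this.symm

lemma comm_of_mem_zpowers {G : Type*} [Group G] {a b g : G} (h : g * a = a * g) (hb : b ∈ Subgroup.zpowers a) :
    g * b = b * g := by
  obtain ⟨k, rfl⟩ := hb
  exact ((Commute.zpow_right (show Commute g a from h) k)).eq

theorem radical_exists {G : Type*} [Group G] [Finite G] {p : ℕ} (hp : p.Prime) (K : Set (Subgroup G))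
    (hK : ∀ X ∈ K, Nat.card ↥X = p)
    (hKc : ∀ X ∈ K, ∀ g : G, X.map (MulAut.conj g).toMonoidHom ∈ K)
    (hex : ∃ X ∈ K, ∃ Y ∈ K, X ≠ Y ∧ ∀ x ∈ X, ∀ y ∈ Y, x * y = y * x)
    (ha : ∀ X ∈ K, ∀ Y ∈ K, X ≠ Y → (∀ x ∈ X, ∀ y ∈ Y, x * y = y * x) →
      ∀ Z : Subgroup G, Z ≤ X ⊔ Y → Nat.card ↥Z = p → Z ∈ K)
    (hb : ∀ X ∈ K, ∀ Y ∈ K, X ≠ Y → (∀ x ∈ X, ∀ y ∈ Y, x * y = y * x) →
      ∀ W ∈ K, (X ⊔ Y) ⊓ Subgroup.centralizer (W : Set G) ≠ ⊥) :
    ∃ V ∈ K, ∀ W ∈ K, Cm V W := by
  classical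
  haveI : Fact p.Prime := ⟨hp⟩
  have hpow : ∀ X ∈ K, ∀ x ∈ X, x ^ p = 1 := by
    intro X hX x hx
    have h1 := pow_card_eq_one' (x := (⟨x, hx⟩ : X))
    rw [hK X hX] at h1
    exact congrArg Subtype.val h1
  have hpt : ∀ X ∈ K, ∀ x ∈ X, x ≠ 1 → X = Subgroup.zpowers x := by
    intro X hX x hx hx1
    symm
    apply Subgroup.eq_of_le_of_card_ge ((Subgroup.zpowers_le).2 hx)
    rw [hK X hX, Nat.card_zpowers, orderOf_eq_prime (hpow X hX x hx) hx1]
  have hab : ∀ X ∈ K, Cm X X := by
    intro X hX a ha' b hb'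
    by_cases ha1 : a = 1
    · rw [ha1]; simp
    · have h := hpt X hX a ha' ha1
      rw [h] at hb'
      exact comm_of_mem_zpowers rfl hb'
  have hline : ∀ U ∈ K, ∀ W ∈ K, U ≠ W → Cm U W → ∀ e ∈ U ⊔ W, e ≠ 1 → Subgroup.zpowers e ∈ K := by
    intro U hU W hW hUW hc e he he1
    have he' := he
    obtain ⟨u, hu, w, hw, rfl⟩ := mem_sup_comm hc he
    have hc' : Commute u w := hc u hu w hw
    have hep : (u * w) ^ p = 1 := by rw [hc'.mul_pow, hpow U hU u hu, hpow W hW w hw, one_mul]
    have hord : orderOf (u * w) = p := orderOf_eq_prime hep he1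
    apply ha U hU W hW hUW hc _ ((Subgroup.zpowers_le).2 he')
    rw [Nat.card_zpowers, hord]
  have hnb : ∀ U ∈ K, ∀ W ∈ K, U ≠ W → Cm U W → ∀ T ∈ K,
      ∃ e ∈ U ⊔ W, e ≠ 1 ∧ (∀ t ∈ T, t * e = e * t) := by
    intro U hU W hW hUW hc T hT
    have h := hb U hU W hW hUW hc T hT
    obtain ⟨⟨e, he, hec⟩, he1⟩ := Subgroup.ne_bot_iff_exists_ne_one.1 h
    replace he : e ∈ U ⊔ W := he
    replace hec : e ∈ Subgroup.centralizer (T : Set G) := hec
    refine ⟨e, he, ?_, ?_⟩
    · intro h'
      apply he1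
      exact Subtype.ext h'
    · exact Subgroup.mem_centralizer_iff.1 hec
  -- exchange
  have hexch : ∀ Q ∈ K, ∀ W ∈ K, Cm Q W → ∀ t ∈ Q ⊔ W, t ∉ Q → W ≤ Q ⊔ Subgroup.zpowers t := by
    intro Q hQ W hW hc t ht htQ
    obtain ⟨q, hq, w, hw, rfl⟩ := mem_sup_comm hc ht
    have hw1 : w ≠ 1 := by
      rintro rfl
      apply htQ
      simpa using hq
    rw [hpt W hW w hw hw1, Subgroup.zpowers_le]
    have h2 : q⁻¹ * (q * w) ∈ Q ⊔ Subgroup.zpowers (q * w) := Subgroup.mul_mem _ (Subgroup.mem_sup_left (Q.inv_mem hq))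
      (Subgroup.mem_sup_right (Subgroup.mem_zpowers _))
    simpa using h2
  -- every point lies on a line
  have honline : ∀ X ∈ K, ∃ Z ∈ K, Z ≠ X ∧ Cm X Z := by
    intro X hX
    obtain ⟨X₀, hX₀, Y₀, hY₀, hne₀, hc₀⟩ := hex
    obtain ⟨e, he, he1, hec⟩ := hnb X₀ hX₀ Y₀ hY₀ hne₀ hc₀ X hX
    have hZ := hline X₀ hX₀ Y₀ hY₀ hne₀ hc₀ e he he1
    by_cases hZX : Subgroup.zpowers e = X
    · -- take a point of the line other than `X`
      have hXle : X ≤ X₀ ⊔ Y₀ := by
        rw [← hZX, Subgroup.zpowers_le]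
        exact he
      have hA : ∀ x ∈ X, ∀ u ∈ X₀, x * u = u * x := by
        intro x hx u hu
        exact (comm_of_mem_sup (fun v hv => hab X₀ hX₀ u hu v hv) (fun v hv => hc₀ u hu v hv) (hXle hx)).symm
      have hB : ∀ x ∈ X, ∀ u ∈ Y₀, x * u = u * x := by
        intro x hx u hu
        exact (comm_of_mem_sup (fun v hv => (hc₀ v hv u hu).symm) (fun v hv => hab Y₀ hY₀ u hu v hv) (hXle hx)).symm
      by_cases h : X₀ = X
      · exact ⟨Y₀, hY₀, fun h' => hne₀ (h.trans h'.symm), hB⟩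
      · exact ⟨X₀, hX₀, h, hA⟩
    · refine ⟨_, hZ, hZX, ?_⟩
      intro x hx y hy
      exact comm_of_mem_zpowers (hec x hx) hy
  -- the perp
  let perp : Subgroup G → Set (Subgroup G) := fun U => {W | W ∈ K ∧ Cm U W}
  have hne : K.Nonempty := by
    obtain ⟨X, hX, -⟩ := hex
    exact ⟨X, hX⟩
  obtain ⟨Q, hQ, hmax⟩ := Set.exists_max_image K (fun U => (perp U).ncard) (Set.toFinite K) hne
  refine ⟨Q, hQ, ?_⟩
  by_contra hcon
  push Not at hcon
  obtain ⟨X, hX, hnc⟩ := hcon
  have hstrict : ∀ U ∈ K, perp Q ⊆ perp U → X ∈ perp U → False := by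
    intro U hU h1 h2
    have h3 : perp Q ⊂ perp U := by
      refine ⟨h1, fun h4 => ?_⟩
      exact hnc (h4 h2).2
    have h4 := Set.ncard_lt_ncard h3 (Set.toFinite _)
    have h5 : (perp U).ncard ≤ (perp Q).ncard := hmax U hU
    omega
  have hnotX : ∀ x ∈ X, x ≠ 1 → ¬ (∀ q ∈ Q, q * x = x * q) := by
    intro x hx hx1 h
    apply hnc
    intro q hq y hy
    rw [hpt X hX x hx hx1] at hy
    exact comm_of_mem_zpowers (h q hq) hy
  obtain ⟨Z₀, hZ₀, hZ₀X, hcX⟩ := honline X hX
  obtain ⟨z, hzE, hz1, hzQ⟩ := hnb X hX Z₀ hZ₀ hZ₀X.symm hcX Q hQ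
  have hzX : z ∉ X := fun h => hnotX z h hz1 hzQ
  have hXz : ∀ x ∈ X, x * z = z * x := by
    intro x hx
    exact comm_of_mem_sup (fun v hv => hab X hX x hx v hv) (fun v hv => hcX x hx v hv) hzE
  have hZZ := hline X hX Z₀ hZ₀ hZ₀X.symm hcX z hzE hz1
  -- any point collinear with `Q` is spanned by `Q` and a neighbour of `X`
  have hspan : ∀ W ∈ K, W ≠ Q → Cm Q W → ∃ t : G, Subgroup.zpowers t ∈ K ∧ (∀ x ∈ X, x * t = t * x) ∧
      (∀ q ∈ Q, q * t = t * q) ∧ Subgroup.zpowers t ≠ Q ∧ W ≤ Q ⊔ Subgroup.zpowers t := by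
    intro W hW hWQ hc
    obtain ⟨t, ht, ht1, htX⟩ := hnb Q hQ W hW hWQ.symm hc X hX
    have htQ : t ∉ Q := by
      intro h
      apply hnc
      rw [hpt Q hQ t h ht1]
      intro q hq x hx
      exact (comm_of_mem_zpowers (htX x hx) hq).symm
    refine ⟨t, hline Q hQ W hW hWQ.symm hc t ht ht1, htX, ?_, ?_, hexch Q hQ W hW hc t ht htQ⟩
    · intro q hq
      exact comm_of_mem_sup (fun v hv => hab Q hQ q hq v hv) (fun v hv => hc q hq v hv) ht
    · intro h
      apply htQ
      rw [← h]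
      exact Subgroup.mem_zpowers t
  -- the key claim
  have hH : ∀ x ∈ X, ∀ q ∈ Q, ∀ q' ∈ Q, q * (x * q' * x⁻¹) = (x * q' * x⁻¹) * q := by
    intro x hx q hq q' hq'
    by_cases hx1 : x = 1
    · rw [hx1]
      simpa using hab Q hQ q hq q' hq'
    set y := x * z with hy
    have hyE : y ∈ X ⊔ Z₀ := Subgroup.mul_mem _ (Subgroup.mem_sup_left hx) hzE
    have hy1 : y ≠ 1 := by
      intro h
      apply hzX
      have h2 : z = x⁻¹ := eq_inv_of_mul_eq_one_right h
      rw [h2]
      exact X.inv_mem hx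
    have hYK := hline X hX Z₀ hZ₀ hZ₀X.symm hcX y hyE hy1
    have hconj : y * q' * y⁻¹ = x * q' * x⁻¹ := by
      have h1 : z * q' = q' * z := (hzQ q' hq').symm
      calc y * q' * y⁻¹ = x * (z * q') * z⁻¹ * x⁻¹ := by rw [hy]; group
        _ = x * (q' * z) * z⁻¹ * x⁻¹ := by rw [h1]
        _ = _ := by group
    have hxy : x = y * z⁻¹ := by rw [hy]; group
    by_cases hcase : ∃ P ∈ K, P ≠ Q ∧ Cm Q P ∧ (∀ p₀ ∈ P, p₀ * x = x * p₀) ∧ ¬ (∀ p₀ ∈ P, p₀ * y = y * p₀)
    · obtain ⟨P, hP, hPQ, hQP, hPx, hPy⟩ := hcase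
      obtain ⟨t, ht, ht1, htY⟩ := hnb Q hQ P hP hPQ.symm hQP _ hYK
      have hty : y * t = t * y := htY y (Subgroup.mem_zpowers y)
      have htP : t ∉ P := by
        intro h
        apply hPy
        intro p₀ hp₀
        rw [hpt P hP t h ht1] at hp₀
        have := comm_of_mem_zpowers hty hp₀
        exact this.symm
      have htq' : t * q' = q' * t :=
        (comm_of_mem_sup (fun v hv => hab Q hQ q' hq' v hv) (fun v hv => hQP q' hq' v hv) ht).symm
      obtain ⟨q₁, hq₁, p₁, hp₁, htdec⟩ := mem_sup_comm hQP ht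
      have hq₁1 : q₁ ≠ 1 := by
        rintro rfl
        apply htP
        rw [htdec, one_mul]
        exact hp₁
      -- `t` and `P` commute with `r`
      set r := x * q' * x⁻¹ with hr
      have hPr : ∀ p₀ ∈ P, r * p₀ = p₀ * r := by
        intro p₀ hp₀
        have h1 : p₀ * x = x * p₀ := hPx p₀ hp₀
        have h2 : q' * p₀ = p₀ * q' := hQP q' hq' p₀ hp₀
        have h3 : x⁻¹ * p₀ = p₀ * x⁻¹ := by
          have := (Commute.inv_right (show Commute p₀ x from h1)).eq
          exact this.symm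
        calc r * p₀ = x * q' * (x⁻¹ * p₀) := by rw [hr]; group
          _ = x * (q' * p₀) * x⁻¹ := by rw [h3]; group
          _ = x * (p₀ * q') * x⁻¹ := by rw [h2]
          _ = (x * p₀) * q' * x⁻¹ := by group
          _ = (p₀ * x) * q' * x⁻¹ := by rw [h1]
          _ = p₀ * r := by rw [hr]; group
      have htr : r * t = t * r := by
        have h1 : r = y * q' * y⁻¹ := hconj.symm
        have h3 : y⁻¹ * t = t * y⁻¹ := by
          have := (Commute.inv_left (show Commute y t from hty)).eq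
          exact this
        rw [h1]
        calc y * q' * y⁻¹ * t = y * q' * (y⁻¹ * t) := by group
          _ = y * (q' * t) * y⁻¹ := by rw [h3]; group
          _ = y * (t * q') * y⁻¹ := by rw [htq']
          _ = (y * t) * q' * y⁻¹ := by group
          _ = (t * y) * q' * y⁻¹ := by rw [hty]
          _ = _ := by group
      have hq₁r : r * q₁ = q₁ * r := by
        have h1 : q₁ = t * p₁⁻¹ := by rw [htdec]; group
        rw [h1]
        have h2 : r * p₁⁻¹ = p₁⁻¹ * r := by
          have := (Commute.inv_right (show Commute r p₁ from hPr p₁ hp₁)).eq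
          exact this
        calc r * (t * p₁⁻¹) = (r * t) * p₁⁻¹ := by group
          _ = t * (r * p₁⁻¹) := by rw [htr]; group
          _ = t * (p₁⁻¹ * r) := by rw [h2]
          _ = _ := by group
      rw [hpt Q hQ q₁ hq₁ hq₁1] at hq
      exact (comm_of_mem_zpowers hq₁r hq).symm
    · exfalso
      push Not at hcase
      apply hstrict _ hZZ
      · rintro W ⟨hW, hQW⟩
        refine ⟨hW, ?_⟩
        intro a ha' w hw
        obtain ⟨k, rfl⟩ := ha'
        have hzw : z * w = w * z := by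
          by_cases hWQ : W = Q
          · rw [hWQ] at hw
            exact (hzQ w hw).symm
          · obtain ⟨t, htK, htX, htQ, htne, hle⟩ := hspan W hW hWQ hQW
            have hQT : Cm Q (Subgroup.zpowers t) := by
              intro q hq s hs
              exact comm_of_mem_zpowers (htQ q hq) hs
            have h1 := hcase _ htK htne hQT (fun p₀ hp₀ => by
              obtain ⟨j, rfl⟩ := hp₀
              exact (comm_of_mem_zpowers (htX x hx) (Subgroup.zpow_mem_zpowers t j)).symm)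
            have hty : t * y = y * t := h1 t (Subgroup.mem_zpowers t)
            have htx : t * x = x * t := (htX x hx).symm
            have htz : t * z = z * t := by
              have h2 : z = x⁻¹ * y := by rw [hy]; group
              have h3 : t * x⁻¹ = x⁻¹ * t := by
                have := (Commute.inv_right (show Commute t x from htx)).eq
                exact this
              rw [h2]
              calc t * (x⁻¹ * y) = (t * x⁻¹) * y := by group
                _ = x⁻¹ * (t * y) := by rw [h3]; group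
                _ = x⁻¹ * (y * t) := by rw [hty]
                _ = _ := by group
            exact comm_of_mem_sup (fun v hv => (hzQ v hv).symm)
              (fun v hv => (comm_of_mem_zpowers htz.symm hv)) (hle hw)
        exact ((Commute.zpow_left (show Commute z w from hzw) k)).eq
      · refine ⟨hX, ?_⟩
        intro a ha' x' hx'
        obtain ⟨k, rfl⟩ := ha'
        exact ((Commute.zpow_left (show Commute z x' from (hXz x' hx').symm) k)).eq
  -- the conjugates have larger perp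
  have hI : ∀ x ∈ X, ∀ W ∈ K, Cm Q W → ∀ w ∈ W, ∀ q' ∈ Q, w * (x * q' * x⁻¹) = (x * q' * x⁻¹) * w := by
    intro x hx W hW hQW w hw q' hq'
    by_cases hWQ : W = Q
    · rw [hWQ] at hw
      exact hH x hx w hw q' hq'
    · obtain ⟨t, htK, htX, htQ, htne, hle⟩ := hspan W hW hWQ hQW
      set r := x * q' * x⁻¹ with hr
      have htx : t * x = x * t := (htX x hx).symm
      have htq' : t * q' = q' * t := (htQ q' hq').symm
      have h3 : t * x⁻¹ = x⁻¹ * t := by
        have := (Commute.inv_right (show Commute t x from htx)).eq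
        exact this
      have htr : r * t = t * r := by
        rw [hr]
        calc x * q' * x⁻¹ * t = x * q' * (x⁻¹ * t) := by group
          _ = x * q' * (t * x⁻¹) := by rw [h3]
          _ = x * (q' * t) * x⁻¹ := by group
          _ = x * (t * q') * x⁻¹ := by rw [htq']
          _ = (x * t) * q' * x⁻¹ := by group
          _ = (t * x) * q' * x⁻¹ := by rw [htx]
          _ = _ := by group
      have := comm_of_mem_sup (g := r) (fun v hv => (hH x hx v hv q' hq').symm)
        (fun v hv => comm_of_mem_zpowers htr hv) (hle hw)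
      exact this.symm
  -- the subgroup generated by the conjugates of `Q` under `X`
  let S : Set G := {e | ∃ u ∈ X, ∃ q ∈ Q, e = u * q * u⁻¹}
  let A : Subgroup G := Subgroup.closure S
  have hSS : ∀ a ∈ S, ∀ b ∈ S, a * b = b * a := by
    rintro _ ⟨u₁, hu₁, q₁, hq₁, rfl⟩ _ ⟨u₂, hu₂, q₂, hq₂, rfl⟩
    have h1 := hH (u₁⁻¹ * u₂) (X.mul_mem (X.inv_mem hu₁) hu₂) q₁ hq₁ q₂ hq₂
    have h2 : u₁ * (q₁ * ((u₁⁻¹ * u₂) * q₂ * (u₁⁻¹ * u₂)⁻¹)) * u₁⁻¹ = u₁ * (((u₁⁻¹ * u₂) * q₂ * (u₁⁻¹ * u₂)⁻¹) * q₁) * u₁⁻¹ := by rw [h1]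
    calc u₁ * q₁ * u₁⁻¹ * (u₂ * q₂ * u₂⁻¹) = u₁ * (q₁ * ((u₁⁻¹ * u₂) * q₂ * (u₁⁻¹ * u₂)⁻¹)) * u₁⁻¹ := by group
      _ = u₁ * (((u₁⁻¹ * u₂) * q₂ * (u₁⁻¹ * u₂)⁻¹) * q₁) * u₁⁻¹ := h2
      _ = _ := by group
  have hAc : ∀ a ∈ A, ∀ b ∈ A, a * b = b * a := by
    have h1 : ∀ s ∈ S, A ≤ Subgroup.centralizer {s} := by
      intro s hs
      apply (Subgroup.closure_le _).2
      intro b hb
      show b ∈ Subgroup.centralizer {s}
      rw [Subgroup.mem_centralizer_singleton_iff]
      exact hSS b hb s hs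
    have h2 : ∀ b ∈ A, A ≤ Subgroup.centralizer {b} := by
      intro b hb
      apply (Subgroup.closure_le _).2
      intro s hs
      have := h1 s hs hb
      rw [Subgroup.mem_centralizer_singleton_iff] at this
      show s ∈ Subgroup.centralizer {b}
      rw [Subgroup.mem_centralizer_singleton_iff]
      exact this.symm
    intro a ha' b hb'
    have := h2 b hb' ha'
    rw [Subgroup.mem_centralizer_singleton_iff] at this
    exact this
  have hSsub : ∀ s ∈ S, s ∈ A := fun s hs => Subgroup.subset_closure hs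
  have hAp : ∀ a ∈ A, a ^ p = 1 := by
    intro a ha'
    induction ha' using Subgroup.closure_induction with
    | mem e he =>
      obtain ⟨u, hu, q, hq, rfl⟩ := he
      rw [conj_pow, hpow Q hQ q hq]
      group
    | one => simp
    | mul a b ha' hb' iha ihb =>
      have hc : Commute a b := hAc a ha' b hb'
      rw [hc.mul_pow, iha, ihb, one_mul]
    | inv a ha' iha =>
      rw [inv_pow, iha, inv_one]
  have hAK : ∀ a ∈ A, a ≠ 1 → Subgroup.zpowers a ∈ K := by
    intro a ha'
    induction ha' using Subgroup.closure_induction with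
    | mem e he =>
      obtain ⟨u, hu, q, hq, rfl⟩ := he
      intro h1
      have hq1 : q ≠ 1 := by
        rintro rfl
        apply h1
        group
      have h2 := hKc Q hQ u
      rw [hpt Q hQ q hq hq1, MonoidHom.map_zpowers] at h2
      simpa [MulAut.conj_apply] using h2
    | one => intro h; exact absurd rfl h
    | mul a b ha' hb' iha ihb =>
      intro h1
      by_cases ha1 : a = 1
      · rw [ha1, one_mul] at h1 ⊢
        exact ihb h1
      by_cases hb1 : b = 1
      · rw [hb1, mul_one] at h1 ⊢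
        exact iha h1
      have h2 := iha ha1
      have h3 := ihb hb1
      by_cases h4 : Subgroup.zpowers a = Subgroup.zpowers b
      · have h5 : a * b ∈ Subgroup.zpowers a :=
          Subgroup.mul_mem _ (Subgroup.mem_zpowers a) (h4 ▸ Subgroup.mem_zpowers b)
        rw [← hpt _ h2 _ h5 h1]
        exact h2
      · have hcm : Cm (Subgroup.zpowers a) (Subgroup.zpowers b) := by
          rintro _ ⟨i, rfl⟩ _ ⟨j, rfl⟩
          exact ((show Commute a b from hAc a ha' b hb').zpow_zpow i j).eq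
        exact hline _ h2 _ h3 h4 hcm _
          (Subgroup.mul_mem _ (Subgroup.mem_sup_left (Subgroup.mem_zpowers a))
            (Subgroup.mem_sup_right (Subgroup.mem_zpowers b))) h1
    | inv a ha' iha =>
      intro h1
      rw [Subgroup.zpowers_inv]
      exact iha (by simpa using h1)
  -- a point of `A` fixed by `X`
  have hAnorm : X ≤ Subgroup.normalizer (A : Set G) := by
    intro u hu
    rw [Subgroup.mem_normalizer_iff]
    have hconjA : ∀ v ∈ X, ∀ a ∈ A, v * a * v⁻¹ ∈ A := by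
      intro v hv a ha'
      induction ha' using Subgroup.closure_induction with
      | mem e he =>
        obtain ⟨u', hu', q, hq, rfl⟩ := he
        apply hSsub
        exact ⟨v * u', X.mul_mem hv hu', q, hq, by group⟩
      | one => simp [A.one_mem]
      | mul a b _ _ iha ihb =>
        have : v * (a * b) * v⁻¹ = (v * a * v⁻¹) * (v * b * v⁻¹) := by group
        rw [this]
        exact A.mul_mem iha ihb
      | inv a _ iha =>
        have : v * a⁻¹ * v⁻¹ = (v * a * v⁻¹)⁻¹ := by group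
        rw [this]
        exact A.inv_mem iha
    intro a
    constructor
    · exact hconjA u hu a
    · intro h
      have h1 := hconjA u⁻¹ (X.inv_mem hu) _ h
      have h2 : u⁻¹ * (u * a * u⁻¹) * u⁻¹⁻¹ = a := by group
      rwa [h2] at h1
  have hApg : IsPGroup p A := by
    intro a
    refine ⟨1, ?_⟩
    rw [pow_one]
    apply Subtype.ext
    exact hAp a a.2
  have hXpg : IsPGroup p X := by
    apply IsPGroup.of_card (n := 1)
    rw [hK X hX, pow_one]
  have hBpg : IsPGroup p ↥(A ⊔ X) := IsPGroup.to_sup_of_normal_left' hApg hXpg hAnorm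
  have hAle : A ≤ A ⊔ X := le_sup_left
  haveI hAn : (A.subgroupOf (A ⊔ X)).Normal := by
    rw [Subgroup.normal_subgroupOf_iff_le_normalizer hAle]
    exact sup_le Subgroup.le_normalizer hAnorm
  have hQne : ∃ q ∈ Q, q ≠ 1 := by
    by_contra h
    push Not at h
    have h1 : Q = ⊥ := by
      rw [eq_bot_iff]
      intro x hx
      exact h x hx
    have := hK Q hQ
    rw [h1] at this
    simp at this
    exact hp.one_lt.ne this
  obtain ⟨q₀, hq₀, hq₀1⟩ := hQne
  have hq₀A : q₀ ∈ A := hSsub q₀ ⟨1, X.one_mem, q₀, hq₀, by group⟩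
  have hAne : A.subgroupOf (A ⊔ X) ≠ ⊥ := by
    intro h
    have h1 : (⟨q₀, hAle hq₀A⟩ : ↥(A ⊔ X)) ∈ A.subgroupOf (A ⊔ X) := hq₀A
    rw [h, Subgroup.mem_bot] at h1
    exact hq₀1 (congrArg Subtype.val h1)
  obtain ⟨a, haA, ha1, hacen⟩ :=
    Cfsg.Agent.Lib.PGroupBasic.exists_ne_one_mem_center_of_normal hBpg _ hAne
  have ha1' : (a : G) ≠ 1 := fun h => ha1 (Subtype.ext h)
  have haA' : (a : G) ∈ A := haA
  have haX : ∀ x ∈ X, x * (a : G) = (a : G) * x := by
    intro x hx
    have h1 := Subgroup.mem_center_iff.1 hacen ⟨x, (le_sup_right : X ≤ A ⊔ X) hx⟩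
    exact congrArg Subtype.val h1
  apply hstrict _ (hAK a haA' ha1')
  · rintro W ⟨hW, hQW⟩
    refine ⟨hW, ?_⟩
    rintro _ ⟨k, rfl⟩ w hw
    have hcen : A ≤ Subgroup.centralizer {w} := by
      apply (Subgroup.closure_le _).2
      rintro _ ⟨u, hu, q, hq, rfl⟩
      show u * q * u⁻¹ ∈ Subgroup.centralizer {w}
      rw [Subgroup.mem_centralizer_singleton_iff]
      exact (hI u hu W hW hQW w hw q hq).symm
    have h1 := hcen haA'
    rw [Subgroup.mem_centralizer_singleton_iff] at h1
    exact ((Commute.zpow_left (show Commute (a : G) w from h1) k)).eq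
  · refine ⟨hX, ?_⟩
    rintro _ ⟨k, rfl⟩ x hx
    exact ((Commute.zpow_left (show Commute (a : G) x from (haX x hx).symm) k)).eq


/-- Let p be a prime and K a set of subgroups of order p of a finite group G, closed under conjugation, such that at least two distinct members of K commute elementwise, and whenever two distinct members X, Y of K commute: every subgroup of order p of the group XY they generate belongs to K, and every member W of K has centralizer meeting XY nontrivially. Then some member V of K commutes elementwise with every member of K and lies in O_p(G); in particular G is not simple. -/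
theorem result {G : Type*} [Group G] [Finite G]
    {p : ℕ} (hp : p.Prime) (K : Set (Subgroup G)) (hK : ∀ X ∈ K, Nat.card ↥X = p)
    (hKc : ∀ X ∈ K, ∀ g : G, X.map (MulAut.conj g).toMonoidHom ∈ K)
    (hex : ∃ X ∈ K, ∃ Y ∈ K, X ≠ Y ∧ ∀ x ∈ X, ∀ y ∈ Y, x * y = y * x)
    (ha : ∀ X ∈ K, ∀ Y ∈ K, X ≠ Y → (∀ x ∈ X, ∀ y ∈ Y, x * y = y * x) →
      ∀ Z : Subgroup G, Z ≤ X ⊔ Y → Nat.card ↥Z = p → Z ∈ K)
    (hb : ∀ X ∈ K, ∀ Y ∈ K, X ≠ Y → (∀ x ∈ X, ∀ y ∈ Y, x * y = y * x) →
      ∀ W ∈ K, (X ⊔ Y) ⊓ Subgroup.centralizer (W : Set G) ≠ ⊥) :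
    (∃ V ∈ K, (∀ W ∈ K, ∀ v ∈ V, ∀ w ∈ W, v * w = w * v) ∧ V ≤ Cfsg.pCore p G) ∧ ¬ IsSimpleGroup G := by
  classical
  haveI : Fact p.Prime := ⟨hp⟩
  obtain ⟨V, hV, hVr⟩ := radical_exists hp K hK hKc hex ha hb
  have hcp : ∀ X ∈ K, IsPGroup p X := by
    intro X hX
    apply IsPGroup.of_card (n := 1)
    rw [hK X hX, pow_one]
  have hVO : V ≤ Cfsg.pCore p G := by
    apply Cfsg.Agent.Lib.BaerSuzuki.le_pCore_of_conj V (hcp V hV)
    intro g
    have hm := hKc V hV g
    apply IsPGroup.to_sup_of_normal_left' (hcp V hV) (hcp _ hm)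
    intro y hy
    apply Cfsg.Agent.Lib.H2Basic.mem_normalizer_of_forall_comm
    intro a ha'
    exact (hVr _ hm a ha' y hy).symm
  refine ⟨⟨V, hV, fun W hW v hv w hw => hVr W hW v hv w hw, hVO⟩, ?_⟩
  intro hsim
  have hcard1 : ∀ X ∈ K, X ≠ ⊥ := by
    intro X hX hbot
    have := hK X hX
    rw [hbot] at this
    simp at this
    exact hp.one_lt.ne this
  rcases hsim.eq_bot_or_eq_top_of_normal (Cfsg.pCore p G) (Cfsg.Agent.Lib.PCore.pCore_normal p G) with h | h
  · apply hcard1 V hV
    rw [eq_bot_iff, ← h]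
    exact hVO
  · have hGp : IsPGroup p G := by
      have := Cfsg.Agent.Lib.PCore.isPGroup_pCore p G
      rw [h] at this
      exact this.of_equiv Subgroup.topEquiv
    haveI : Nontrivial G := hsim.toNontrivial
    have hcn := hGp.center_nontrivial
    have hctop : Subgroup.center G = ⊤ := by
      rcases hsim.eq_bot_or_eq_top_of_normal (Subgroup.center G) inferInstance with h' | h'
      · rw [h'] at hcn
        exact absurd hcn (not_nontrivial_iff_subsingleton.2 inferInstance)
      · exact h'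
    have hcomm : ∀ a b : G, a * b = b * a := by
      intro a b
      have : b ∈ Subgroup.center G := by rw [hctop]; trivial
      exact (Subgroup.mem_center_iff.1 this a)
    obtain ⟨X, hX, Y, hY, hXY, -⟩ := hex
    have hXn : X.Normal := ⟨fun n hn g => by rw [hcomm g n, mul_assoc, mul_inv_cancel, mul_one]; exact hn⟩
    rcases hsim.eq_bot_or_eq_top_of_normal X hXn with h' | h'
    · exact hcard1 X hX h'
    · apply hXY
      symm
      apply Subgroup.eq_of_le_of_card_ge (by rw [h']; exact le_top)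
      rw [hK X hX, hK Y hY]

end Cfsg.Agent.S3196
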