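import Mathlib
import Cfsg.Agent.Lib.FitCore
import Cfsg.Agent.Lib.Hall
import Cfsg.Agent.Lib.CharBurnside
import Cfsg.Statements.S3200
-- import your own Cfsg.Agent.* helpers here

set_option autoImplicit false
open Cfsg

namespace Cfsg.Agent.S3200


open Cfsg.Agent.Lib

universe u

lemma card_subgroupOf_eq {G : Type*} [Group G] (A B : Subgroup G) :
    Nat.card (A.subgroupOf B) = Nat.card (A ⊓ B : Subgroup G) := by
  apply Nat.card_congr
  exact
    { toFun := fun x => ⟨x.1.1, x.2, x.1.2⟩
      invFun := fun x => ⟨⟨x.1, x.2.2⟩, x.2.1⟩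
      left_inv := fun _ => rfl
      right_inv := fun _ => rfl }

/-- Numerical form of the hypothesis. -/
def P2 (G : Type u) [Group G] : Prop :=
  ∃ P C : Subgroup G, IsPGroup 2 P ∧ IsMulCommutative C ∧ Odd (Nat.card C) ∧
    Nat.card P * Nat.card C = Nat.card G

lemma coprime_of_odd {P C : ℕ} (hP : ∃ n, P = 2 ^ n) (hC : Odd C) : P.Coprime C := by
  obtain ⟨n, rfl⟩ := hP
  exact Nat.Coprime.pow_left _ (Nat.coprime_two_left.2 hC)

lemma odd_of_dvd {a b : ℕ} (h : a ∣ b) (hb : Odd b) : Odd a := by
  rcases Nat.even_or_odd a with ha | ha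
  · exact absurd (ha.two_dvd.trans h) (by
      rw [Nat.two_dvd_ne_zero]
      exact Nat.odd_iff.1 hb)
  · exact ha

lemma comm_sub {G : Type*} [Group G] {C : Subgroup G} (hC : IsMulCommutative C) :
    ∀ a ∈ C, ∀ b ∈ C, a * b = b * a := by
  intro a ha b hb
  have := hC.is_comm.comm ⟨a, ha⟩ ⟨b, hb⟩
  exact congrArg Subtype.val this

lemma p2_normal {G : Type u} [Group G] [Finite G] (h : P2 G) (N : Subgroup G) [N.Normal] :
    P2 N := by
  obtain ⟨P, C, hP, hC, hoC, hc⟩ := h
  refine ⟨P.subgroupOf N, C.subgroupOf N, ?_, ?_, ?_, ?_⟩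
  · exact hP.comap_of_injective N.subtype N.subtype_injective
  · refine ⟨⟨fun a b => ?_⟩⟩
    apply Subtype.ext
    apply Subtype.ext
    exact comm_sub hC _ a.2 _ b.2
  · rw [card_subgroupOf_eq]
    exact odd_of_dvd (Subgroup.card_dvd_of_le inf_le_left) hoC
  · have h1 := (P.subgroupOf N).card_mul_index
    have h2 := (C.subgroupOf N).card_mul_index
    have hu : (P.subgroupOf N).index ∣ P.index := FitCore.relIndex_dvd_index_of_normal_right P N
    have hv : (C.subgroupOf N).index ∣ C.index := FitCore.relIndex_dvd_index_of_normal_right C N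
    have hPi : P.index = Nat.card C := by
      have h3 := P.card_mul_index
      have h4 : 0 < Nat.card P := Nat.card_pos
      exact Nat.eq_of_mul_eq_mul_left h4 (h3.trans hc.symm)
    have hCi : C.index = Nat.card P := by
      have h3 := C.card_mul_index
      have h4 : 0 < Nat.card C := Nat.card_pos
      rw [mul_comm] at hc
      exact Nat.eq_of_mul_eq_mul_left h4 (h3.trans hc.symm)
    rw [hPi] at hu
    rw [hCi] at hv
    set a := Nat.card (P.subgroupOf N) with ha
    set b := Nat.card (C.subgroupOf N) with hb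
    set u := (P.subgroupOf N).index with hu'
    set v := (C.subgroupOf N).index with hv'
    have hPpow := (IsPGroup.iff_card.1 hP)
    obtain ⟨n, hn⟩ := hPpow
    have ha2 : ∃ e, a = 2 ^ e := by
      have : IsPGroup 2 (P.subgroupOf N) := hP.comap_of_injective N.subtype N.subtype_injective
      exact IsPGroup.iff_card.1 this
    have hv2 : ∃ e, v = 2 ^ e := by
      rw [hn] at hv
      obtain ⟨w, -, hw⟩ := (Nat.dvd_prime_pow Nat.prime_two).1 hv
      exact ⟨w, hw⟩
    have hbodd : Odd b := by
      rw [hb, card_subgroupOf_eq]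
      exact odd_of_dvd (Subgroup.card_dvd_of_le inf_le_left) hoC
    have huodd : Odd u := odd_of_dvd hu hoC
    have hauv : a * u = b * v := by rw [h1, h2]
    have e1 : a ∣ v := by
      have h3 : a ∣ b * v := ⟨u, hauv.symm⟩
      exact (coprime_of_odd ha2 hbodd).dvd_of_dvd_mul_left h3
    have e2 : v ∣ a := by
      have h3 : v ∣ a * u := ⟨b, by rw [hauv, mul_comm]⟩
      exact (coprime_of_odd hv2 huodd).dvd_of_dvd_mul_right h3
    have e3 : a = v := Nat.dvd_antisymm e1 e2
    have ha0 : 0 < a := Nat.card_pos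
    have e4 : u = b := by
      apply Nat.eq_of_mul_eq_mul_left ha0
      rw [hauv, e3, mul_comm]
    rw [← e4]
    exact h1

lemma p2_quot {G : Type u} [Group G] [Finite G] {P C : Subgroup G} (hP : IsPGroup 2 P)
    (hoC : Odd (Nat.card C)) (hc : Nat.card P * Nat.card C = Nat.card G) (N : Subgroup G) [N.Normal] :
    IsPGroup 2 (P.map (QuotientGroup.mk' N)) ∧ Odd (Nat.card (C.map (QuotientGroup.mk' N))) ∧
      Nat.card (P.map (QuotientGroup.mk' N)) * Nat.card (C.map (QuotientGroup.mk' N)) = Nat.card (G ⧸ N) := by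
  set f := QuotientGroup.mk' N with hf
  have h1 : IsPGroup 2 (P.map f) := hP.map f
  have h2 : Odd (Nat.card (C.map f)) :=
    odd_of_dvd (Subgroup.card_dvd_of_surjective (f.subgroupMap C) (f.subgroupMap_surjective C)) hoC
  refine ⟨h1, h2, ?_⟩
  have hcop : (Nat.card (P.map f)).Coprime (Nat.card (C.map f)) :=
    coprime_of_odd (IsPGroup.iff_card.1 h1) h2
  have hd : Nat.card (P.map f) * Nat.card (C.map f) ∣ Nat.card (G ⧸ N) :=
    hcop.mul_dvd_of_dvd_of_dvd (Subgroup.card_subgroup_dvd_card _) (Subgroup.card_subgroup_dvd_card _)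
  apply le_antisymm (Nat.le_of_dvd Nat.card_pos hd)
  have hPcop : (Nat.card P).Coprime (Nat.card C) := coprime_of_odd (IsPGroup.iff_card.1 hP) hoC
  have hcompl := Subgroup.isComplement'_of_coprime hc hPcop
  let F : (P.map f) × (C.map f) → G ⧸ N := fun x => (x.1 : G ⧸ N) * (x.2 : G ⧸ N)
  have hF : Function.Surjective F := by
    intro q
    obtain ⟨g, rfl⟩ := QuotientGroup.mk_surjective q
    obtain ⟨⟨p, c⟩, hpc⟩ := hcompl.2 g
    refine ⟨(⟨f p, ⟨p, p.2, rfl⟩⟩, ⟨f c, ⟨c, c.2, rfl⟩⟩), ?_⟩
    simp only [F]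
    rw [← hpc, ← map_mul]
    rfl
  have := Nat.card_le_card_of_surjective F hF
  rwa [Nat.card_prod] at this

theorem solv : ∀ (k : ℕ) (G : Type u) [Group G] [Finite G], Nat.card G = k → P2 G → Group.IsSolvable G := by
  intro k
  induction k using Nat.strong_induction_on with
  | _ k ih =>
    intro G _ _ hk h2
    by_cases hN : ∃ N : Subgroup G, N.Normal ∧ N ≠ ⊥ ∧ N ≠ ⊤
    · obtain ⟨N, hNn, hb, ht⟩ := hN
      haveI := hNn
      have h3 := N.card_mul_index
      have hI0 : 0 < N.index := Nat.pos_of_ne_zero Subgroup.index_ne_zero_of_finite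
      have hI1 : N.index ≠ 1 := fun h => ht (Subgroup.index_eq_one.1 h)
      have hN0 : 0 < Nat.card N := Nat.card_pos
      have hcardN : Nat.card N < k := by
        rw [← hk, ← h3]
        have : 2 ≤ N.index := by omega
        nlinarith
      have hN1 : 1 < Nat.card N := by
        have : Nontrivial N := (Subgroup.nontrivial_iff_ne_bot N).2 hb
        exact Finite.one_lt_card
      have hcardQ : Nat.card (G ⧸ N) < k := by
        rw [← Subgroup.index_eq_card, ← hk, ← h3]
        nlinarith
      have hsN : Group.IsSolvable N := ih _ hcardN N rfl (p2_normal h2 N)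
      obtain ⟨P, C, hP, hC, hoC, hc⟩ := h2
      obtain ⟨q1, q2, q3⟩ := p2_quot hP hoC hc N
      have hsQ : Group.IsSolvable (G ⧸ N) := ih _ hcardQ (G ⧸ N) rfl
        ⟨P.map (QuotientGroup.mk' N), C.map (QuotientGroup.mk' N), q1, ⟨⟨by
          rintro ⟨_, a, ha, rfl⟩ ⟨_, b, hb, rfl⟩
          apply Subtype.ext
          show (QuotientGroup.mk' N) a * (QuotientGroup.mk' N) b = (QuotientGroup.mk' N) b * (QuotientGroup.mk' N) a
          rw [← map_mul, ← map_mul, comm_sub hC a ha b hb]⟩⟩, q2, q3⟩
      exact Group.isSolvable_of_ker_le_range N.subtype (QuotientGroup.mk' N) (by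
        rw [QuotientGroup.ker_mk', Subgroup.range_subtype])
    · push Not at hN
      rcases subsingleton_or_nontrivial G with hs | hnt
      · infer_instance
      · haveI hsimple : IsSimpleGroup G := ⟨by
          intro N hNn
          by_cases hb : N = ⊥
          · exact Or.inl hb
          · exact Or.inr (hN N hNn hb)⟩
        obtain ⟨P, C, hP, hC, hoC, hc⟩ := h2
        by_cases hCb : C = ⊥
        · have h3 : Nat.card P = Nat.card G := by
            rw [← hc, hCb, Subgroup.card_bot, mul_one]
          obtain ⟨n, hn⟩ := IsPGroup.iff_card.1 hP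
          have hpg : IsPGroup 2 G := IsPGroup.of_card (n := n) (by rw [← h3, hn])
          haveI : Group.IsNilpotent G := hpg.isNilpotent
          infer_instance
        · obtain ⟨c, hc1⟩ := (Subgroup.ne_bot_iff_exists_ne_one.1 hCb)
          have hc1' : (c : G) ≠ 1 := fun h => hc1 (Subtype.ext h)
          letI := Fintype.ofFinite G
          have hle : C ≤ Subgroup.centralizer ({(c : G)} : Set G) := by
            intro w hw
            rw [Subgroup.mem_centralizer_singleton_iff]
            exact comm_sub hC _ hw _ c.2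
          have hdvd : (Subgroup.centralizer ({(c : G)} : Set G)).index ∣ C.index :=
            Subgroup.index_dvd_of_le hle
          have hCi : C.index = Nat.card P := by
            have h3 := C.card_mul_index
            have h4 : 0 < Nat.card C := Nat.card_pos
            rw [mul_comm] at hc
            exact Nat.eq_of_mul_eq_mul_left h4 (h3.trans hc.symm)
          obtain ⟨n, hn⟩ := IsPGroup.iff_card.1 hP
          rw [hCi, hn] at hdvd
          obtain ⟨j, -, hj⟩ := (Nat.dvd_prime_pow Nat.prime_two).1 hdvd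
          have hpr := CharBurnside.prime_card_of_class_prime_power 2 j Nat.prime_two (c : G) hc1' hj
          haveI := Fact.mk hpr
          haveI : IsCyclic G := isCyclic_of_prime_card rfl
          letI : CommGroup G := IsCyclic.commGroup
          exact Group.isSolvable_of_comm (fun a b => mul_comm a b)


/-- Let H be a finite group in which a Sylow 2-subgroup has an abelian complement (an abelian subgroup meeting it trivially whose product with it is all of H). Then H is solvable, and every subgroup and every quotient group of H again has a Sylow 2-subgroup with an abelian complement. -/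
theorem result {H : Type*} [Group H] [Finite H]
    (S : Sylow 2 H) (C : Subgroup H) (hC : IsMulCommutative ↥C) (hSC : Subgroup.IsComplement' (S : Subgroup H) C) :
    Group.IsSolvable H ∧
    (∀ L : Subgroup H, ∃ (P : Sylow 2 ↥L) (D : Subgroup ↥L), IsMulCommutative ↥D ∧ Subgroup.IsComplement' (P : Subgroup ↥L) D) ∧
    (∀ (N : Subgroup H) [N.Normal], ∃ (P : Sylow 2 (H ⧸ N)) (D : Subgroup (H ⧸ N)),
      IsMulCommutative ↥D ∧ Subgroup.IsComplement' (P : Subgroup (H ⧸ N)) D) := by
  classical
  have hc1 : Nat.card (S : Subgroup H) * Nat.card C = Nat.card H := hSC.card_mul_card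
  have hidx : (S : Subgroup H).index = Nat.card C := by
    have h3 := (S : Subgroup H).card_mul_index
    have h4 : 0 < Nat.card (S : Subgroup H) := Nat.card_pos
    exact Nat.eq_of_mul_eq_mul_left h4 (h3.trans hc1.symm)
  have hoC : Odd (Nat.card C) := by
    rw [← hidx]
    have := S.not_dvd_index
    rw [Nat.two_dvd_ne_zero] at this
    exact Nat.odd_iff.2 this
  have hsolv : Group.IsSolvable H := solv _ H rfl ⟨S, C, S.2, hC, hoC, hc1⟩
  refine ⟨hsolv, ?_, ?_⟩
  · intro L
    haveI : Group.IsSolvable L := inferInstance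
    obtain ⟨P⟩ : Nonempty (Sylow 2 L) := inferInstance
    have hLc := (P : Subgroup L).card_mul_index
    have hcop := P.card_coprime_index
    obtain ⟨D, hD⟩ := Hall.hall_exists _ L (P : Subgroup L).index (Nat.card (P : Subgroup L)) rfl
      (by rw [mul_comm]; exact hLc.symm) hcop.symm
    have hDodd : Odd (Nat.card D) := by
      rw [hD]
      have := P.not_dvd_index
      rw [Nat.two_dvd_ne_zero] at this
      exact Nat.odd_iff.2 this
    have hcopHall : (Nat.card (D.map L.subtype)).Coprime (Nat.card (S : Subgroup H)) := by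
      rw [Subgroup.card_map_of_injective L.subtype_injective]
      exact (coprime_of_odd (IsPGroup.iff_card.1 S.2) hDodd).symm
    obtain ⟨g, hg⟩ := Hall.hall_conj _ H (Nat.card C) (Nat.card (S : Subgroup H)) rfl
      (by rw [mul_comm]; exact hc1.symm)
      (coprime_of_odd (IsPGroup.iff_card.1 S.2) hoC).symm C (D.map L.subtype) rfl hcopHall
    refine ⟨P, D, ⟨⟨?_⟩⟩, ?_⟩
    · rintro ⟨a, ha⟩ ⟨b, hb⟩
      apply Subtype.ext
      apply Subtype.ext
      obtain ⟨a', ha', ea⟩ := hg ⟨a, ha, rfl⟩
      obtain ⟨b', hb', eb⟩ := hg ⟨b, hb, rfl⟩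
      show (a : H) * b = b * a
      have e1 : (a : H) = g * a' * g⁻¹ := ea.symm
      have e2 : (b : H) = g * b' * g⁻¹ := eb.symm
      rw [e1, e2]
      calc g * a' * g⁻¹ * (g * b' * g⁻¹) = g * (a' * b') * g⁻¹ := by group
        _ = g * (b' * a') * g⁻¹ := by rw [comm_sub hC a' ha' b' hb']
        _ = _ := by group
    · apply Subgroup.isComplement'_of_coprime
      · rw [hD, mul_comm]
        rw [mul_comm]
        exact hLc
      · exact coprime_of_odd (IsPGroup.iff_card.1 P.2) hDodd
  · intro N _
    obtain ⟨q1, q2, q3⟩ := p2_quot S.2 hoC hc1 N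
    have hidx2 : (((S : Subgroup H).map (QuotientGroup.mk' N))).index = Nat.card (C.map (QuotientGroup.mk' N)) := by
      have h3 := ((S : Subgroup H).map (QuotientGroup.mk' N)).card_mul_index
      have h4 : 0 < Nat.card ((S : Subgroup H).map (QuotientGroup.mk' N)) := Nat.card_pos
      exact Nat.eq_of_mul_eq_mul_left h4 (h3.trans q3.symm)
    have hnd : ¬ 2 ∣ ((S : Subgroup H).map (QuotientGroup.mk' N)).index := by
      rw [hidx2, Nat.two_dvd_ne_zero]
      exact Nat.odd_iff.1 q2
    refine ⟨q1.toSylow hnd, C.map (QuotientGroup.mk' N), ⟨⟨?_⟩⟩, ?_⟩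
    · rintro ⟨_, a, ha, rfl⟩ ⟨_, b, hb, rfl⟩
      apply Subtype.ext
      show (QuotientGroup.mk' N) a * (QuotientGroup.mk' N) b = (QuotientGroup.mk' N) b * (QuotientGroup.mk' N) a
      rw [← map_mul, ← map_mul, comm_sub hC a ha b hb]
    · rw [IsPGroup.toSylow_coe]
      exact Subgroup.isComplement'_of_coprime q3 (coprime_of_odd (IsPGroup.iff_card.1 q1) q2)

end Cfsg.Agent.S3200
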