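import Cfsg.Statements.S3201
import Cfsg.Agent.Lib.UniqueSub

set_option autoImplicit false
set_option linter.all false
open Cfsg

namespace Cfsg.Agent.S3201


theorem q8_conj : ∀ b g : QuaternionGroup 2, g ≠ 1 → g ≠ b → g ≠ b ^ 2 → g ≠ b ^ 3 →
    g * b * g⁻¹ = b⁻¹ := by
  decide

theorem a_inv' {n : ℕ} (i : ZMod (2 * n)) :
    (QuaternionGroup.a i : QuaternionGroup n)⁻¹ = QuaternionGroup.a (-i) := by
  apply inv_eq_of_mul_eq_one_right
  rw [QuaternionGroup.a_mul_a, add_neg_cancel, QuaternionGroup.a_zero]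

theorem xa_a_ne {k : ℕ} (hk : 1 ≤ k) (i : ZMod (2 * 2 ^ k)) :
    (QuaternionGroup.xa i : QuaternionGroup (2 ^ k)) * QuaternionGroup.a 1 ≠
      QuaternionGroup.a 1 * QuaternionGroup.xa i := by
  intro h
  rw [QuaternionGroup.xa_mul_a, QuaternionGroup.a_mul_xa] at h
  have h1 : i + 1 = i - 1 := QuaternionGroup.xa.inj h
  have h2 : ((2 : ℕ) : ZMod (2 * 2 ^ k)) = 0 := by
    push_cast
    linear_combination h1
  rw [ZMod.natCast_eq_zero_iff] at h2
  have h3 := Nat.le_of_dvd (by norm_num) h2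
  have h4 : 2 ^ 1 ≤ 2 ^ k := Nat.pow_le_pow_right (by norm_num) hk
  omega

theorem inverts_quat (k : ℕ) (hk : 1 ≤ k) (B : Subgroup (QuaternionGroup (2 ^ k)))
    (hBc : ∀ x ∈ B, ∀ y ∈ B, x * y = y * x)
    (hB2 : ∀ x y, x ∉ B → y ∉ B → x * y ∈ B) (g : QuaternionGroup (2 ^ k)) (hg : g ∉ B)
    (b : QuaternionGroup (2 ^ k)) (hb : b ∈ B) : g * b * g⁻¹ = b⁻¹ := by
  rcases Nat.lt_or_ge 1 k with hk2 | hk1
  · haveI : NeZero (2 * 2 ^ k) := ⟨by positivity⟩
    have ha1 : (QuaternionGroup.a 1 : QuaternionGroup (2 ^ k)) ∈ B := by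
      by_contra h
      have h2 : (QuaternionGroup.a 2 : QuaternionGroup (2 ^ k)) ∈ B := by
        have := hB2 _ _ h h
        rwa [QuaternionGroup.a_mul_a, one_add_one_eq_two] at this
      obtain ⟨i, hi⟩ : ∃ i, (QuaternionGroup.xa i : QuaternionGroup (2 ^ k)) ∈ B := by
        by_cases h0 : (QuaternionGroup.xa 0 : QuaternionGroup (2 ^ k)) ∈ B
        · exact ⟨0, h0⟩
        · refine ⟨1, ?_⟩
          have := hB2 _ _ h0 h
          rwa [QuaternionGroup.xa_mul_a, zero_add] at this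
      have h3 := hBc _ hi _ h2
      rw [QuaternionGroup.xa_mul_a, QuaternionGroup.a_mul_xa] at h3
      have h4 : i + 2 = i - 2 := QuaternionGroup.xa.inj h3
      have h5 : ((4 : ℕ) : ZMod (2 * 2 ^ k)) = 0 := by
        push_cast
        linear_combination h4
      rw [ZMod.natCast_eq_zero_iff] at h5
      have h6 := Nat.le_of_dvd (by norm_num) h5
      have h7 : 2 ^ 2 ≤ 2 ^ k := Nat.pow_le_pow_right (by norm_num) hk2
      omega
    have hall : ∀ j, (QuaternionGroup.a j : QuaternionGroup (2 ^ k)) ∈ B := by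
      intro j
      have := pow_mem ha1 j.val
      rwa [QuaternionGroup.a_one_pow, ZMod.natCast_zmod_val] at this
    rcases g with i | i
    · exact absurd (hall i) hg
    rcases b with j | j
    · rw [mul_inv_eq_iff_eq_mul, a_inv', QuaternionGroup.xa_mul_a, QuaternionGroup.a_mul_xa,
        sub_neg_eq_add]
    · exact absurd (hBc _ hb _ ha1) (xa_a_ne hk j)
  · have hk1' : k = 1 := by omega
    subst hk1'
    have h1 : g ≠ 1 := fun h => hg (h ▸ one_mem _)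
    have h2 : g ≠ b := fun h => hg (h ▸ hb)
    have h3 : g ≠ b ^ 2 := fun h => hg (h ▸ pow_mem hb 2)
    have h4 : g ≠ b ^ 3 := fun h => hg (h ▸ pow_mem hb 3)
    exact q8_conj b g h1 h2 h3 h4

theorem inverts_iso {Q : Type*} [Group Q] (k : ℕ) (hk : 1 ≤ k) (e : Q ≃* QuaternionGroup (2 ^ k))
    (B : Subgroup Q) (hBc : ∀ x ∈ B, ∀ y ∈ B, x * y = y * x)
    (hB2 : ∀ x y, x ∉ B → y ∉ B → x * y ∈ B) (g : Q) (hg : g ∉ B) (b : Q) (hb : b ∈ B) :
    g * b * g⁻¹ = b⁻¹ := by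
  have hmem : ∀ x : Q, e x ∈ B.map e.toMonoidHom ↔ x ∈ B := by
    intro x
    constructor
    · rintro ⟨y, hy, hxy⟩
      have : y = x := e.injective hxy
      rwa [← this]
    · intro hx
      exact ⟨x, hx, rfl⟩
  have hall : ∀ y : QuaternionGroup (2 ^ k), ∃ x : Q, e x = y := e.surjective
  have := inverts_quat k hk (B.map e.toMonoidHom) ?_ ?_ (e g) ((hmem g).not.2 hg) (e b) ((hmem b).2 hb)
  · apply e.injective
    rw [map_mul, map_mul, map_inv, map_inv]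
    exact this
  · intro x hx y hy
    obtain ⟨x', rfl⟩ := hall x
    obtain ⟨y', rfl⟩ := hall y
    rw [← map_mul, ← map_mul, hBc _ ((hmem x').1 hx) _ ((hmem y').1 hy)]
  · intro x y hx hy
    obtain ⟨x', rfl⟩ := hall x
    obtain ⟨y', rfl⟩ := hall y
    rw [← map_mul, hmem]
    exact hB2 _ _ ((hmem x').not.1 hx) ((hmem y').not.1 hy)

theorem quat_of {Q : Type*} [Group Q] [Finite Q] (hQ : IsPGroup 2 Q) (hna : ¬ IsMulCommutative Q)
    (hu : ∃! x : Q, orderOf x = 2) : ∃ k : ℕ, 1 ≤ k ∧ Nonempty (Q ≃* QuaternionGroup (2 ^ k)) := by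
  obtain ⟨u₀, -, huniq⟩ := hu
  haveI : Fact (Nat.Prime 2) := ⟨Nat.prime_two⟩
  have hU : Cfsg.Agent.Lib.UniqueSub.UniqueP 2 Q := by
    intro x y hx hy
    rw [huniq x hx, huniq y hy]
    exact Subgroup.mem_zpowers _
  rcases Cfsg.Agent.Lib.UniqueSub.cyclic_or_quaternion hQ hU with hc | ⟨-, k, hk, he⟩
  · exfalso
    apply hna
    exact ⟨⟨fun a b => by
      haveI := hc
      exact (IsCyclic.commGroup (α := Q)).mul_comm a b⟩⟩
  · exact ⟨k, hk, he⟩

def aSub (n : ℕ) : Subgroup (QuaternionGroup n) where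
  carrier := {x | ∃ i, x = QuaternionGroup.a i}
  mul_mem' := by
    rintro _ _ ⟨i, rfl⟩ ⟨j, rfl⟩
    exact ⟨i + j, QuaternionGroup.a_mul_a i j⟩
  one_mem' := ⟨0, QuaternionGroup.one_def⟩
  inv_mem' := by
    rintro _ ⟨i, rfl⟩
    exact ⟨-i, a_inv' i⟩

theorem index_two_of_coatom {Z : Type*} [Group Z] [Finite Z] (hZ : IsPGroup 2 Z)
    (hc : ∀ x y : Z, x * y = y * x) (C : Subgroup Z) (hC : IsCoatom C) : C.index = 2 := by
  classical
  haveI hn : C.Normal := ⟨fun n hn g => by rw [hc g n, mul_inv_cancel_right]; exact hn⟩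
  haveI : Fact (Nat.Prime 2) := ⟨Nat.prime_two⟩
  have hidx : C.index ≠ 1 := fun h => hC.1 (Subgroup.index_eq_one.1 h)
  have hQ : IsPGroup 2 (Z ⧸ C) := hZ.to_quotient C
  have hnt : Nontrivial (Z ⧸ C) := by
    rw [← Finite.one_lt_card_iff_nontrivial]
    have h0 : C.index ≠ 0 := Subgroup.index_ne_zero_of_finite
    change 1 < C.index
    omega
  obtain ⟨x, hx⟩ : ∃ x : Z ⧸ C, orderOf x = 2 := by
    have h2 : 2 ∣ Nat.card (Z ⧸ C) := by
      obtain ⟨m, hm⟩ := IsPGroup.iff_card.1 hQ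
      rw [hm]
      have hm0 : m ≠ 0 := by
        intro h
        rw [h, pow_zero] at hm
        have := Finite.one_lt_card (α := Z ⧸ C)
        omega
      exact dvd_pow_self 2 hm0
    exact exists_prime_orderOf_dvd_card' 2 h2
  let H : Subgroup Z := (Subgroup.zpowers x).comap (QuotientGroup.mk' C)
  have hCH : C < H := by
    refine lt_of_le_of_ne ?_ ?_
    · intro c hc'
      change (QuotientGroup.mk c : Z ⧸ C) ∈ Subgroup.zpowers x
      rw [(QuotientGroup.eq_one_iff c).2 hc']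
      exact one_mem _
    · intro h
      obtain ⟨y, rfl⟩ := QuotientGroup.mk_surjective x
      have hy : y ∈ H := by
        change (QuotientGroup.mk y : Z ⧸ C) ∈ Subgroup.zpowers _
        exact Subgroup.mem_zpowers _
      rw [← h] at hy
      have h1 : (QuotientGroup.mk y : Z ⧸ C) = 1 := (QuotientGroup.eq_one_iff y).2 hy
      rw [h1, orderOf_one] at hx
      omega
  have hHt : H = ⊤ := hC.2 H hCH
  have htop : Subgroup.zpowers x = ⊤ := by
    rw [eq_top_iff]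
    intro q _
    obtain ⟨y, rfl⟩ := QuotientGroup.mk_surjective q
    have : y ∈ H := by rw [hHt]; exact Subgroup.mem_top y
    exact this
  have hcard : Nat.card (Z ⧸ C) = 2 := by
    rw [← hx, ← Nat.card_zpowers, htop, Subgroup.card_top]
  exact hcard

theorem main_aux {S : Type*} [Group S] [Finite S] (hS : IsPGroup 2 S) {ι : Type*} (D : ι → Subgroup S)
    [hDn : ∀ i, (D i).Normal]
    (hD1 : ∀ i, D i ≤ Subgroup.center S)
    (hD2 : ∀ i, ∀ z ∈ Subgroup.center S, z ^ 2 ∈ D i)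
    (hD3 : ∀ i, ∀ z ∈ Subgroup.center S, ∀ z' ∈ Subgroup.center S, z ∉ D i → z' ∉ D i → z * z' ∈ D i)
    (hD3' : ∀ i, ∃ z ∈ Subgroup.center S, z ∉ D i)
    (hD4 : ∀ x : S, (∀ i, x ∈ D i) → x = 1)
    (hD5 : ∀ i, ¬ IsMulCommutative (S ⧸ D i))
    (hD6 : ∀ i, ∃! x : S ⧸ D i, orderOf x = 2)
    (j₀ : ι) :
    ∃ E Q : Subgroup S, Cfsg.IsInternalDirectProduct E Q ⊤ ∧ Cfsg.IsElementaryAbelian 2 E ∧
      ¬ IsMulCommutative ↥Q ∧ ∃! x : ↥Q, orderOf x = 2 := by
  classical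
  have hsq1 : ∀ z ∈ Subgroup.center S, z ^ 2 = 1 := fun z hz => hD4 _ (fun i => hD2 i z hz)
  have hmk1 : ∀ i (x : S), (QuotientGroup.mk x : S ⧸ D i) = 1 ↔ x ∈ D i := fun i x =>
    QuotientGroup.eq_one_iff x
  have hcen : ∀ i, ∀ d ∈ D i, ∀ g : S, g * d = d * g := fun i d hd g =>
    Subgroup.mem_center_iff.1 (hD1 i hd) g
  have hstar : ∀ i g, g ^ 2 ∈ D i → g ∈ Subgroup.center S := by
    intro i g hg
    by_cases hgD : g ∈ D i
    · exact hD1 i hgD
    obtain ⟨z, hzZ, hzD⟩ := hD3' i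
    obtain ⟨u, -, huu⟩ := hD6 i
    have ho : ∀ x : S, x ∉ D i → x ^ 2 ∈ D i → (QuotientGroup.mk x : S ⧸ D i) = u := by
      intro x hx hx2
      apply huu
      apply orderOf_eq_prime
      · change (QuotientGroup.mk (x ^ 2) : S ⧸ D i) = 1
        exact (hmk1 i _).2 hx2
      · intro h; exact hx ((hmk1 i _).1 h)
    have h1 := ho g hgD hg
    have h2 := ho z hzD (hD2 i z hzZ)
    have h3 : z⁻¹ * g ∈ D i := QuotientGroup.eq.1 (h2.trans h1.symm)
    have : g = z * (z⁻¹ * g) := by group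
    rw [this]
    exact mul_mem hzZ (hD1 i h3)
  obtain ⟨k, hk, ⟨e⟩⟩ := quat_of (hS.to_quotient (D j₀)) (hD5 j₀) (hD6 j₀)
  haveI : NeZero (2 ^ k) := ⟨pow_ne_zero _ (by norm_num)⟩
  haveI : NeZero (2 * 2 ^ k) := ⟨by positivity⟩
  let φ : S →* QuaternionGroup (2 ^ k) := e.toMonoidHom.comp (QuotientGroup.mk' (D j₀))
  have hφ1 : ∀ x, φ x = 1 ↔ x ∈ D j₀ := by
    intro x
    rw [← hmk1 j₀ x]
    exact map_eq_one_iff e (e.injective)
  have hφs : Function.Surjective φ := e.surjective.comp (QuotientGroup.mk'_surjective _)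
  obtain ⟨a₀, ha₀⟩ := hφs (QuaternionGroup.a 1)
  obtain ⟨τ, hτ⟩ := hφs (QuaternionGroup.xa 0)
  have hφeq : ∀ x y, φ x = φ y → ∃ d ∈ D j₀, x = y * d := by
    intro x y h
    refine ⟨y⁻¹ * x, (hφ1 _).1 ?_, by group⟩
    rw [map_mul, map_inv, h, inv_mul_cancel]
  let A : Subgroup S := (aSub (2 ^ k)).comap φ
  have hmemA : ∀ x, x ∈ A ↔ ∃ i, φ x = QuaternionGroup.a i := fun x => Iff.rfl
  have ha₀A : a₀ ∈ A := ⟨1, ha₀⟩
  have hAform : ∀ x ∈ A, ∃ m : ℕ, ∃ d ∈ D j₀, x = a₀ ^ m * d := by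
    rintro x ⟨i, hi⟩
    obtain ⟨d, hd, hx⟩ := hφeq x (a₀ ^ i.val) (by
      rw [hi, map_pow, ha₀, QuaternionGroup.a_one_pow, ZMod.natCast_zmod_val])
    exact ⟨i.val, d, hd, hx⟩
  have hAc : ∀ x ∈ A, ∀ y ∈ A, x * y = y * x := by
    intro x hx y hy
    obtain ⟨m, d, hd, rfl⟩ := hAform x hx
    obtain ⟨m', d', hd', rfl⟩ := hAform y hy
    have h1 : Commute (a₀ ^ m * d) (a₀ ^ m' * d') := by
      apply Commute.mul_left
      · apply Commute.mul_right
        · exact (Commute.refl a₀).pow_pow m m'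
        · exact hcen j₀ d' hd' _
      · exact (hcen j₀ d hd _).symm
    exact h1
  have hnotA : ∀ x, x ∉ A → ∃ i, φ x = QuaternionGroup.xa i := by
    intro x hx
    rcases h : φ x with i | i
    · exact absurd ⟨i, h⟩ hx
    · exact ⟨i, rfl⟩
  have hA2 : ∀ x y, x ∉ A → y ∉ A → x * y ∈ A := by
    intro x y hx hy
    obtain ⟨i, hi⟩ := hnotA x hx
    obtain ⟨j, hj⟩ := hnotA y hy
    refine ⟨((2 ^ k : ℕ) : ZMod (2 * 2 ^ k)) + j - i, ?_⟩
    rw [map_mul, hi, hj, QuaternionGroup.xa_mul_xa]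
  have hZA : Subgroup.center S ≤ A := by
    intro z hz
    by_contra hzA
    obtain ⟨i, hi⟩ := hnotA z hzA
    have h1 : φ (z * a₀) = φ (a₀ * z) := by
      rw [Subgroup.mem_center_iff.1 hz a₀]
    rw [map_mul, map_mul, hi, ha₀] at h1
    exact xa_a_ne hk i h1
  have hτA : τ ∉ A := by
    rintro ⟨i, hi⟩
    rw [hτ] at hi
    cases hi
  -- the action of τ on A
  have hinvmod : ∀ i, ∀ b ∈ A, τ * b * τ⁻¹ * b ∈ D i := by
    intro i b hb
    obtain ⟨k', hk', ⟨e'⟩⟩ := quat_of (hS.to_quotient (D i)) (hD5 i) (hD6 i)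
    let q : S →* S ⧸ D i := QuotientGroup.mk' (D i)
    have hq : ∀ y, y ∈ A.map q ↔ ∃ x ∈ A, q x = y := fun y => Iff.rfl
    have hqA : ∀ x, x ∉ A → q x ∉ A.map q := by
      rintro x hx ⟨y, hy, hxy⟩
      have h1 : y⁻¹ * x ∈ D i := QuotientGroup.eq.1 hxy
      have h2 : x = y * (y⁻¹ * x) := by group
      rw [h2] at hx
      exact hx (mul_mem hy (hZA (hD1 i h1)))
    have h1 := inverts_iso k' hk' e' (A.map q) ?_ ?_ (q τ) (hqA τ hτA) (q b) ⟨b, hb, rfl⟩
    · have h2 : q (τ * b * τ⁻¹ * b) = 1 := by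
        rw [map_mul, map_mul, map_mul, map_inv, h1, inv_mul_cancel]
      exact (hmk1 i _).1 h2
    · rintro _ ⟨x, hx, rfl⟩ _ ⟨y, hy, rfl⟩
      rw [← map_mul, hAc x hx y hy, map_mul]
    · intro x y hx hy
      obtain ⟨x', rfl⟩ := QuotientGroup.mk'_surjective (D i) x
      obtain ⟨y', rfl⟩ := QuotientGroup.mk'_surjective (D i) y
      have hx' : x' ∉ A := fun h => hx ⟨x', h, rfl⟩
      have hy' : y' ∉ A := fun h => hy ⟨y', h, rfl⟩
      exact ⟨x' * y', hA2 _ _ hx' hy', map_mul _ _ _⟩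
  have hinv : ∀ b ∈ A, τ * b * τ⁻¹ = b⁻¹ := by
    intro b hb
    have h1 := hD4 _ (fun i => hinvmod i b hb)
    exact eq_inv_of_mul_eq_one_left h1
  have hτ2A : τ ^ 2 ∈ A := by
    rw [pow_two]
    exact hA2 _ _ hτA hτA
  have hτ2D : ∀ i, τ ^ 2 ∉ D i := fun i h => hτA (hZA (hstar i τ h))
  have hτ2Z : τ ^ 2 ∈ Subgroup.center S := by
    rw [Subgroup.mem_center_iff]
    intro g
    by_cases hg : g ∈ A
    · exact hAc _ hg _ hτ2A
    · have h1 : g * τ ∈ A := hA2 _ _ hg hτA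
      have h2 := hAc _ h1 _ hτ2A
      have h3 : g = g * τ * τ⁻¹ := by group
      calc g * τ ^ 2 = (g * τ) * τ := by rw [pow_two, mul_assoc]
        _ = (g * τ) * τ ^ 2 * τ⁻¹ := by rw [pow_two]; group
        _ = τ ^ 2 * (g * τ) * τ⁻¹ := by rw [h2]
        _ = τ ^ 2 * g := by group
  -- w
  obtain ⟨m, hm⟩ : ∃ m : ℕ, 2 ^ k = m * 2 := by
    refine ⟨2 ^ (k - 1), ?_⟩
    rw [← pow_succ]
    congr 1
    omega
  obtain ⟨w, hw⟩ : ∃ w : S, w = a₀ ^ (2 ^ k) := ⟨_, rfl⟩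
  have hφw : φ w = QuaternionGroup.a ((2 ^ k : ℕ) : ZMod (2 * 2 ^ k)) := by
    rw [hw, map_pow, ha₀, QuaternionGroup.a_one_pow]
  have hwne : w ∉ D j₀ := by
    intro h
    have h1 := (hφ1 w).2 h
    rw [hφw, QuaternionGroup.one_def] at h1
    have h2 : ((2 ^ k : ℕ) : ZMod (2 * 2 ^ k)) = 0 := QuaternionGroup.a.inj h1
    rw [ZMod.natCast_eq_zero_iff] at h2
    have h3 := Nat.le_of_dvd (by positivity) h2
    have h4 : 0 < 2 ^ k := by positivity
    omega
  have hwne1 : w ≠ 1 := fun h => hwne (h ▸ one_mem _)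
  have hwsq : w = (a₀ ^ m) ^ 2 := by
    rw [hw, ← pow_mul, hm]
  have hwD : ∀ i, w ∉ D i := by
    intro i h
    rw [hwsq] at h
    have h1 := hstar i _ h
    have h2 := hsq1 _ h1
    rw [← hwsq] at h2
    exact hwne1 h2
  have hφτ2 : φ (τ ^ 2) = φ w := by
    rw [map_pow, hτ, QuaternionGroup.xa_sq, hφw]
  have hwZ : w ∈ Subgroup.center S := by
    obtain ⟨d, hd, h⟩ := hφeq w (τ ^ 2) hφτ2.symm
    rw [h]
    exact mul_mem hτ2Z (hD1 _ hd)
  have hτw : τ ^ 2 = w := by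
    have h1 : τ ^ 2 * w⁻¹ = 1 := by
      apply hD4
      intro i
      refine hD3 i _ hτ2Z _ (inv_mem hwZ) (hτ2D i) ?_
      intro h
      exact hwD i (by simpa using inv_mem h)
    exact mul_inv_eq_one.1 h1
  have hw2 : a₀ ^ (2 ^ k * 2) = 1 := by
    rw [pow_mul, ← hw]
    exact hsq1 w hwZ
  have hrel : ∀ i : ℤ, τ * a₀ ^ i = a₀ ^ (-i) * τ := by
    intro i
    have h1 := hinv (a₀ ^ i) (zpow_mem ha₀A i)
    rw [zpow_neg, ← h1]
    group
  -- the complement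
  let Q : Subgroup S :=
    { carrier := {g | ∃ i : ℤ, g = a₀ ^ i ∨ g = τ * a₀ ^ i}
      mul_mem' := by
        rintro _ _ ⟨i, rfl | rfl⟩ ⟨j, rfl | rfl⟩
        · exact ⟨i + j, Or.inl (zpow_add _ _ _).symm⟩
        · refine ⟨-i + j, Or.inr ?_⟩
          have h1 := hrel (-i)
          rw [neg_neg] at h1
          rw [zpow_add, ← mul_assoc, ← mul_assoc, h1]
        · refine ⟨i + j, Or.inr ?_⟩
          rw [zpow_add, mul_assoc]
        · refine ⟨(2 ^ k : ℕ) + (-i + j), Or.inl ?_⟩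
          have h1 := hrel (-i)
          rw [neg_neg] at h1
          have h2 : τ * τ = a₀ ^ ((2 ^ k : ℕ) : ℤ) := by
            rw [← pow_two, hτw, hw, zpow_natCast]
          calc τ * a₀ ^ i * (τ * a₀ ^ j) = τ * (a₀ ^ i * τ) * a₀ ^ j := by group
            _ = τ * (τ * a₀ ^ (-i)) * a₀ ^ j := by rw [h1]
            _ = (τ * τ) * (a₀ ^ (-i) * a₀ ^ j) := by group
            _ = _ := by rw [h2, zpow_add, zpow_add]
      one_mem' := ⟨0, Or.inl (zpow_zero _).symm⟩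
      inv_mem' := by
        rintro _ ⟨i, rfl | rfl⟩
        · exact ⟨-i, Or.inl (zpow_neg _ _).symm⟩
        · refine ⟨i + -((2 ^ k : ℕ) : ℤ), Or.inr ?_⟩
          have h2 : τ * τ = a₀ ^ ((2 ^ k : ℕ) : ℤ) := by
            rw [← pow_two, hτw, hw, zpow_natCast]
          have h1 := hrel (-i)
          rw [neg_neg] at h1
          apply inv_eq_of_mul_eq_one_right
          calc τ * a₀ ^ i * (τ * a₀ ^ (i + -((2 ^ k : ℕ) : ℤ)))
              = τ * (a₀ ^ i * τ) * a₀ ^ (i + -((2 ^ k : ℕ) : ℤ)) := by group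
            _ = τ * (τ * a₀ ^ (-i)) * a₀ ^ (i + -((2 ^ k : ℕ) : ℤ)) := by rw [h1]
            _ = (τ * τ) * (a₀ ^ (-i) * a₀ ^ (i + -((2 ^ k : ℕ) : ℤ))) := by group
            _ = a₀ ^ ((2 ^ k : ℕ) : ℤ) * a₀ ^ (-((2 ^ k : ℕ) : ℤ)) := by
                rw [h2, ← zpow_add]; congr 2; ring
            _ = 1 := by rw [← zpow_add, add_neg_cancel, zpow_zero] }
  have hQD : ∀ x ∈ Q, x ∈ D j₀ → x = 1 := by
    rintro x ⟨i, rfl | rfl⟩ hx
    · have h1 : (QuaternionGroup.a 1 : QuaternionGroup (2 ^ k)) ^ i = 1 := by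
        rw [← ha₀, ← map_zpow]
        exact (hφ1 _).2 hx
      have h2 := orderOf_dvd_iff_zpow_eq_one.2 h1
      rw [QuaternionGroup.orderOf_a_one] at h2
      obtain ⟨c, rfl⟩ := h2
      rw [zpow_mul, zpow_natCast, mul_comm 2, hw2, one_zpow]
    · exfalso
      have h1 : τ * a₀ ^ i ∈ A := hZA (hD1 _ hx)
      have h2 : a₀ ^ i ∈ A := zpow_mem ha₀A i
      have h3 : τ = τ * a₀ ^ i * (a₀ ^ i)⁻¹ := by group
      rw [h3] at hτA
      exact hτA (mul_mem h1 (inv_mem h2))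
  have hdecomp : ∀ g : S, ∃ q ∈ Q, ∃ d ∈ D j₀, g = q * d := by
    intro g
    by_cases hg : g ∈ A
    · obtain ⟨m', d, hd, h⟩ := hAform g hg
      exact ⟨a₀ ^ m', ⟨(m' : ℤ), Or.inl (zpow_natCast _ _).symm⟩, d, hd, h⟩
    · obtain ⟨i, hi⟩ := hnotA g hg
      obtain ⟨d, hd, h⟩ := hφeq g (τ * a₀ ^ i.val) (by
        rw [hi, map_mul, map_pow, ha₀, hτ, QuaternionGroup.a_one_pow, ZMod.natCast_zmod_val,
          QuaternionGroup.xa_mul_a, zero_add])
      exact ⟨τ * a₀ ^ i.val, ⟨(i.val : ℤ), Or.inr (by rw [zpow_natCast])⟩, d, hd, h⟩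
  have hwQ : w ∈ Q := ⟨((2 ^ k : ℕ) : ℤ), Or.inl (by rw [hw, zpow_natCast])⟩
  refine ⟨D j₀, Q, ⟨le_top, le_top, fun a ha b _ => (hcen j₀ a ha b).symm, ?_, ?_⟩, ⟨?_, ?_⟩, ?_, ?_⟩
  · rw [eq_bot_iff]
    rintro x ⟨hx1, hx2⟩
    exact hQD x hx2 hx1
  · rw [eq_top_iff]
    intro g _
    obtain ⟨q, hq, d, hd, rfl⟩ := hdecomp g
    rw [hcen j₀ d hd q]
    exact Subgroup.mul_mem_sup hd hq
  · exact ⟨⟨fun a b => Subtype.ext (hcen j₀ b b.2 a)⟩⟩
  · intro a ha
    exact hsq1 a (hD1 _ ha)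
  · intro hc
    apply hD5 j₀
    refine ⟨⟨fun x y => ?_⟩⟩
    obtain ⟨g, rfl⟩ := QuotientGroup.mk_surjective x
    obtain ⟨h, rfl⟩ := QuotientGroup.mk_surjective y
    obtain ⟨q, hq, d, hd, rfl⟩ := hdecomp g
    obtain ⟨q', hq', d', hd', rfl⟩ := hdecomp h
    have h1 : (QuotientGroup.mk (q * d) : S ⧸ D j₀) = QuotientGroup.mk q := by
      apply QuotientGroup.eq.2
      have : q⁻¹ * q * d = d := by group
      have h2 : (q * d)⁻¹ * q = d⁻¹ := by group
      rw [h2]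
      exact inv_mem hd
    have h2 : (QuotientGroup.mk (q' * d') : S ⧸ D j₀) = QuotientGroup.mk q' := by
      apply QuotientGroup.eq.2
      have h2 : (q' * d')⁻¹ * q' = d'⁻¹ := by group
      rw [h2]
      exact inv_mem hd'
    rw [h1, h2]
    have h3 : q * q' = q' * q := by
      have := hc.is_comm.comm ⟨q, hq⟩ ⟨q', hq'⟩
      exact congrArg Subtype.val this
    change (QuotientGroup.mk (q * q') : S ⧸ D j₀) = QuotientGroup.mk (q' * q)
    rw [h3]
  · obtain ⟨u, -, huu⟩ := hD6 j₀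
    have ho : ∀ x : S, x ^ 2 = 1 → x ∉ D j₀ → (QuotientGroup.mk x : S ⧸ D j₀) = u := by
      intro x hx1 hx2
      apply huu
      apply orderOf_eq_prime
      · change (QuotientGroup.mk (x ^ 2) : S ⧸ D j₀) = 1
        rw [hx1]
        rfl
      · intro h; exact hx2 ((hmk1 j₀ _).1 h)
    refine ⟨⟨w, hwQ⟩, ?_, ?_⟩
    · change orderOf (⟨w, hwQ⟩ : Q) = 2
      rw [Subgroup.orderOf_mk]
      exact orderOf_eq_prime (hsq1 w hwZ) hwne1
    · rintro ⟨x, hxQ⟩ hx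
      change orderOf (⟨x, hxQ⟩ : Q) = 2 at hx
      rw [Subgroup.orderOf_mk] at hx
      have hx1 : x ^ 2 = 1 := by rw [← hx]; exact pow_orderOf_eq_one x
      have hx2 : x ∉ D j₀ := by
        intro h
        rw [hQD x hxQ h, orderOf_one] at hx
        omega
      have h1 := ho x hx1 hx2
      have h2 := ho w (hsq1 w hwZ) hwne
      have h3 : x⁻¹ * w ∈ D j₀ := QuotientGroup.eq.1 (h1.trans h2.symm)
      have h4 : x⁻¹ * w ∈ Q := mul_mem (inv_mem hxQ) hwQ
      have h5 := hQD _ h4 h3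
      apply Subtype.ext
      exact (inv_mul_eq_one.1 h5)


/-- Let S be a finite 2-group whose centre Z(S) has n ≥ 2 distinct maximal subgroups C₁, …, Cₙ with trivial intersection such that each quotient S/Cᵢ is a non-abelian group with exactly one involution (a generalized quaternion group). Then S is the internal direct product of an elementary abelian subgroup and a non-abelian subgroup with exactly one involution. -/
theorem result {S : Type*} [Group S] [Finite S]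
    (hS : IsPGroup 2 S) (n : ℕ) (hn : 2 ≤ n) (C : Fin n → Subgroup ↥(Subgroup.center S))
    (hCmax : ∀ i, IsCoatom (C i)) (hCinj : Function.Injective C) (hCint : ⨅ i, C i = ⊥)
    (hCq : ∀ i, ∃ (_ : ((C i).map (Subgroup.center S).subtype).Normal),
      ¬ IsMulCommutative (S ⧸ (C i).map (Subgroup.center S).subtype) ∧
      ∃! x : S ⧸ (C i).map (Subgroup.center S).subtype, orderOf x = 2) :
    ∃ E Q : Subgroup S, Cfsg.IsInternalDirectProduct E Q ⊤ ∧ Cfsg.IsElementaryAbelian 2 E ∧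
      ¬ IsMulCommutative ↥Q ∧ ∃! x : ↥Q, orderOf x = 2 := by

  classical
  have hZp : IsPGroup 2 ↥(Subgroup.center S) := hS.to_subgroup _
  have hZc : ∀ x y : ↥(Subgroup.center S), x * y = y * x := fun x y => Subtype.ext (Subgroup.mem_center_iff.1 y.2 x.1)
  let D : Fin n → Subgroup S := fun i => (C i).map (Subgroup.center S).subtype
  have hidx : ∀ i, (C i).index = 2 := fun i => index_two_of_coatom hZp hZc (C i) (hCmax i)
  have hmemD : ∀ i (x : S) (hx : x ∈ Subgroup.center S), x ∈ D i ↔ (⟨x, hx⟩ : ↥(Subgroup.center S)) ∈ C i := by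
    intro i x hx
    constructor
    · rintro ⟨y, hy, rfl⟩
      exact hy
    · intro h
      exact ⟨⟨x, hx⟩, h, rfl⟩
  have hD1 : ∀ i, D i ≤ Subgroup.center S := fun i => by
    rintro _ ⟨y, -, rfl⟩
    exact y.2
  haveI hDn : ∀ i, (D i).Normal := fun i => (hCq i).choose
  refine main_aux hS D hD1 ?_ ?_ ?_ ?_ (fun i => (hCq i).choose_spec.1) (fun i => (hCq i).choose_spec.2)
    (⟨0, by omega⟩ : Fin n)
  · intro i z hz
    rw [hmemD i _ (pow_mem hz 2)]
    exact Subgroup.sq_mem_of_index_two (hidx i) ⟨z, hz⟩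
  · intro i z hz z' hz' h1 h2
    rw [hmemD i _ (mul_mem hz hz')]
    rw [hmemD i _ hz] at h1
    rw [hmemD i _ hz'] at h2
    exact (Subgroup.mul_mem_iff_of_index_two (hidx i)).2 (iff_of_false h1 h2)
  · intro i
    obtain ⟨z, hz⟩ := SetLike.exists_not_mem_of_ne_top (C i) (hCmax i).1 rfl
    refine ⟨z.1, z.2, ?_⟩
    rw [hmemD i _ z.2]
    exact hz
  · intro x hx
    have hxZ : x ∈ Subgroup.center S := hD1 ⟨0, by omega⟩ (hx ⟨0, by omega⟩)
    have h1 : (⟨x, hxZ⟩ : ↥(Subgroup.center S)) ∈ ⨅ i, C i := by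
      rw [Subgroup.mem_iInf]
      intro i
      exact (hmemD i x hxZ).1 (hx i)
    rw [hCint, Subgroup.mem_bot] at h1
    exact congrArg Subtype.val h1

end Cfsg.Agent.S3201
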