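import Cfsg.Statements.S3202
import Cfsg.Agent.Lib.UniqueSub

set_option autoImplicit false
set_option linter.all false
open Cfsg

namespace Cfsg.Agent.S3202

open scoped commutatorElement

/-- Let S be a finite 2-group of 2-rank exactly 2 and D a maximal subgroup of the centre of S such that S/D is a non-abelian group with exactly one involution (a generalized quaternion group). Then S has a nontrivial cyclic characteristic subgroup. -/
theorem result {S : Type*} [Group S]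
    [Finite S] (hS : IsPGroup 2 S) (hr2 : Cfsg.PRankLE 2 2 S) (hr1 : ¬ Cfsg.PRankLE 2 1 S)
    (D : Subgroup ↥(Subgroup.center S)) (hD : IsCoatom D)
    (hq : ∃ (_ : (D.map (Subgroup.center S).subtype).Normal),
      ¬ IsMulCommutative (S ⧸ D.map (Subgroup.center S).subtype) ∧
      ∃! x : S ⧸ D.map (Subgroup.center S).subtype, orderOf x = 2) :
    ∃ C : Subgroup S, C ≠ ⊥ ∧ IsCyclic ↥C ∧ C.Characteristic := by

  classical
  obtain ⟨hN, hna, hex⟩ := hq
  generalize hD' : D.map (Subgroup.center S).subtype = D' at hN hna hex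
  obtain ⟨u₀, -, huniq⟩ := hex
  have hD'c : ∀ d ∈ D', d ∈ Subgroup.center S := by
    intro d hd
    rw [← hD'] at hd
    obtain ⟨z, -, rfl⟩ := hd
    exact z.2
  haveI : Fact (Nat.Prime 2) := ⟨Nat.prime_two⟩
  have hQ : IsPGroup 2 (S ⧸ D') := hS.to_quotient D'
  have hU : Cfsg.Agent.Lib.UniqueSub.UniqueP 2 (S ⧸ D') := by
    intro x y hx hy
    rw [huniq x hx, huniq y hy]
    exact Subgroup.mem_zpowers _
  rcases Cfsg.Agent.Lib.UniqueSub.cyclic_or_quaternion hQ hU with hc | ⟨-, k, hk, ⟨e⟩⟩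
  · exfalso
    apply hna
    exact ⟨⟨fun a b => by
      haveI := hc
      exact (IsCyclic.commGroup (α := S ⧸ D')).mul_comm a b⟩⟩
  haveI : NeZero (2 ^ k) := ⟨pow_ne_zero _ (by norm_num)⟩
  -- the generators
  obtain ⟨a₀, ha₀⟩ : ∃ a₀ : S, e (QuotientGroup.mk a₀) = QuaternionGroup.a 1 := by
    obtain ⟨q, hq⟩ := e.surjective (QuaternionGroup.a 1)
    obtain ⟨a₀, rfl⟩ := QuotientGroup.mk_surjective q
    exact ⟨a₀, hq⟩
  obtain ⟨τ, hτ⟩ : ∃ τ : S, e (QuotientGroup.mk τ) = QuaternionGroup.xa 0 := by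
    obtain ⟨q, hq⟩ := e.surjective (QuaternionGroup.xa 0)
    obtain ⟨τ, rfl⟩ := QuotientGroup.mk_surjective q
    exact ⟨τ, hq⟩
  have hform : ∀ g : S, ∃ (n : ℕ) (d : S), d ∈ Subgroup.center S ∧
      (g = a₀ ^ n * d ∨ g = τ * a₀ ^ n * d) := by
    intro g
    have hpow : ∀ n : ℕ, e (QuotientGroup.mk (a₀ ^ n)) = QuaternionGroup.a (n : ZMod (2 * 2 ^ k)) := by
      intro n
      have : (QuotientGroup.mk (a₀ ^ n) : S ⧸ D') = (QuotientGroup.mk a₀) ^ n := rfl
      rw [this, map_pow, ha₀, QuaternionGroup.a_one_pow]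
    have hmkeq : ∀ h : S, e (QuotientGroup.mk g) = e (QuotientGroup.mk h) → ∃ d, d ∈ Subgroup.center S ∧ g = h * d := by
      intro h hh
      have h1 : (QuotientGroup.mk h : S ⧸ D') = QuotientGroup.mk g := (e.injective hh).symm
      have h2 : h⁻¹ * g ∈ D' := QuotientGroup.eq.1 h1
      exact ⟨h⁻¹ * g, hD'c _ h2, by group⟩
    rcases he : e (QuotientGroup.mk g) with i | i
    · obtain ⟨d, hd, hgd⟩ := hmkeq (a₀ ^ i.val) (by
        rw [he, hpow, ZMod.natCast_zmod_val])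
      exact ⟨i.val, d, hd, Or.inl hgd⟩
    · obtain ⟨d, hd, hgd⟩ := hmkeq (τ * a₀ ^ i.val) (by
        have : (QuotientGroup.mk (τ * a₀ ^ i.val) : S ⧸ D') = QuotientGroup.mk τ * QuotientGroup.mk (a₀ ^ i.val) := rfl
        rw [he, this, map_mul, hpow, hτ, ZMod.natCast_zmod_val, QuaternionGroup.xa_mul_a, zero_add])
      exact ⟨i.val, d, hd, Or.inr hgd⟩
  -- the relation
  obtain ⟨d₀, hd₀, hrel⟩ : ∃ d₀ : S, d₀ ∈ Subgroup.center S ∧ τ * a₀ * τ⁻¹ = a₀⁻¹ * d₀ := by
    have h1 : (QuotientGroup.mk (a₀⁻¹) : S ⧸ D') = QuotientGroup.mk (τ * a₀ * τ⁻¹) := by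
      apply e.injective
      have h2 : (QuotientGroup.mk (τ * a₀ * τ⁻¹) : S ⧸ D') =
        QuotientGroup.mk τ * QuotientGroup.mk a₀ * (QuotientGroup.mk τ)⁻¹ := rfl
      have h3 : (QuotientGroup.mk (a₀⁻¹) : S ⧸ D') = (QuotientGroup.mk a₀)⁻¹ := rfl
      rw [h2, h3, map_inv, map_mul, map_mul, map_inv, ha₀, hτ]
      rw [eq_mul_inv_iff_mul_eq, QuaternionGroup.xa_mul_a]
      have h4 : (QuaternionGroup.a 1 : QuaternionGroup (2 ^ k))⁻¹ = QuaternionGroup.a (-1) := by
        apply inv_eq_of_mul_eq_one_right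
        rw [QuaternionGroup.a_mul_a, add_neg_cancel, QuaternionGroup.a_zero]
      rw [h4, QuaternionGroup.a_mul_xa]
      simp
    have h2 : (a₀⁻¹)⁻¹ * (τ * a₀ * τ⁻¹) ∈ D' := QuotientGroup.eq.1 h1
    exact ⟨_, hD'c _ h2, by group⟩
  have hd₀c : ∀ g : S, g * d₀ = d₀ * g := fun g => (Subgroup.mem_center_iff.1 hd₀ g)
  have hd₀ic : ∀ g : S, g * d₀⁻¹ = d₀⁻¹ * g := fun g => (Subgroup.mem_center_iff.1 (inv_mem hd₀) g)
  obtain ⟨z, hz⟩ : ∃ z : S, z = a₀ * τ * a₀⁻¹ * τ⁻¹ := ⟨_, rfl⟩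
  have hz2 : z = a₀ * a₀ * d₀⁻¹ := by
    calc z = a₀ * (τ * a₀ * τ⁻¹)⁻¹ := by rw [hz]; group
      _ = a₀ * (a₀⁻¹ * d₀)⁻¹ := by rw [hrel]
      _ = a₀ * (d₀⁻¹ * a₀) := by group
      _ = a₀ * (a₀ * d₀⁻¹) := by rw [hd₀ic a₀]
      _ = _ := by group
  have htz : τ * z * τ⁻¹ = z⁻¹ := by
    calc τ * z * τ⁻¹ = (τ * a₀ * τ⁻¹) * (τ * a₀ * τ⁻¹) * (τ * d₀⁻¹ * τ⁻¹) := by rw [hz2]; group
      _ = (a₀⁻¹ * d₀) * (a₀⁻¹ * d₀) * d₀⁻¹ := by
          rw [hrel, hd₀ic τ]; group
      _ = a₀⁻¹ * (d₀ * a₀⁻¹) := by group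
      _ = a₀⁻¹ * (a₀⁻¹ * d₀) := by rw [hd₀c a₀⁻¹]
      _ = z⁻¹ := by
          rw [hz2, mul_inv_rev, inv_inv, mul_inv_rev, ← hd₀c]; group
  have haz : Commute a₀ z := by
    change a₀ * z = z * a₀
    rw [hz2]
    calc a₀ * (a₀ * a₀ * d₀⁻¹) = a₀ * a₀ * (a₀ * d₀⁻¹) := by group
      _ = a₀ * a₀ * (d₀⁻¹ * a₀) := by rw [hd₀ic a₀]
      _ = _ := by group
  have hcz : ∀ d ∈ Subgroup.center S, ∀ g : S, Commute d g := fun d hd g =>
    (Subgroup.mem_center_iff.1 hd g).symm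
  have hNn : (Subgroup.zpowers z).Normal := by
    refine ⟨fun n hn g => ?_⟩
    obtain ⟨i, rfl⟩ := Subgroup.mem_zpowers_iff.1 hn
    rw [← conj_zpow]
    refine zpow_mem ?_ i
    obtain ⟨m, d, hd, rfl | rfl⟩ := hform g
    · have hc : Commute (a₀ ^ m * d) z := (haz.pow_left m).mul_left (hcz d hd z)
      have : a₀ ^ m * d * z * (a₀ ^ m * d)⁻¹ = z := by
        rw [hc.eq]; group
      rw [this]
      exact Subgroup.mem_zpowers z
    · have hc : Commute (a₀ ^ m * d) z := (haz.pow_left m).mul_left (hcz d hd z)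
      have : τ * a₀ ^ m * d * z * (τ * a₀ ^ m * d)⁻¹ = z⁻¹ := by
        calc τ * a₀ ^ m * d * z * (τ * a₀ ^ m * d)⁻¹
            = τ * ((a₀ ^ m * d) * z) * (a₀ ^ m * d)⁻¹ * τ⁻¹ := by group
          _ = τ * (z * (a₀ ^ m * d)) * (a₀ ^ m * d)⁻¹ * τ⁻¹ := by rw [hc.eq]
          _ = τ * z * τ⁻¹ := by group
          _ = z⁻¹ := htz
      rw [this]
      exact inv_mem (Subgroup.mem_zpowers z)
  have hle : commutator S ≤ Subgroup.zpowers z := by
    rw [commutator_def, Subgroup.commutator_le]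
    intro g _ h _
    let q : S →* S ⧸ Subgroup.zpowers z := QuotientGroup.mk' _
    have hq1 : q z = 1 := (QuotientGroup.eq_one_iff z).2 (Subgroup.mem_zpowers z)
    have hat : Commute (q a₀) (q τ) := by
      have h1 : q (a₀ * τ * a₀⁻¹ * τ⁻¹) = 1 := by rw [← hz]; exact hq1
      rw [map_mul, map_mul, map_mul, map_inv, map_inv] at h1
      rw [mul_inv_eq_one, mul_inv_eq_iff_eq_mul] at h1
      exact h1
    have hqc : ∀ d ∈ Subgroup.center S, ∀ g : S, Commute (q d) (q g) := fun d hd g =>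
      (hcz d hd g).map q
    have hall : ∀ g h : S, Commute (q g) (q h) := by
      have ha1 : ∀ (m : ℕ) (d : S) (hd : d ∈ Subgroup.center S) (g : S), Commute (q a₀) (q g) → Commute (q τ) (q g) → True := fun _ _ _ _ _ _ => trivial
      have hgen : ∀ g : S, Commute (q g) (q a₀) ∧ Commute (q g) (q τ) := by
        intro g
        obtain ⟨m, d, hd, rfl | rfl⟩ := hform g
        · constructor
          · rw [map_mul, map_pow]
            exact ((Commute.refl _).pow_left m).mul_left (hqc d hd _)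
          · rw [map_mul, map_pow]
            exact (hat.pow_left m).mul_left (hqc d hd _)
        · constructor
          · rw [map_mul, map_mul, map_pow]
            exact (hat.symm.mul_left ((Commute.refl _).pow_left m)).mul_left (hqc d hd _)
          · rw [map_mul, map_mul, map_pow]
            exact ((Commute.refl _).mul_left (hat.pow_left m)).mul_left (hqc d hd _)
      intro g h
      obtain ⟨m, d, hd, rfl | rfl⟩ := hform h
      · rw [map_mul, map_pow]
        exact ((hgen g).1.pow_right m).mul_right (hqc d hd _).symm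
      · rw [map_mul, map_mul, map_pow]
        exact ((hgen g).2.mul_right ((hgen g).1.pow_right m)).mul_right (hqc d hd _).symm
    have h1 : q ⁅g, h⁆ = 1 := by
      rw [map_commutatorElement]
      exact commutatorElement_eq_one_iff_commute.2 (hall g h)
    exact (QuotientGroup.eq_one_iff _).1 h1
  refine ⟨commutator S, ?_, ?_, inferInstance⟩
  · intro hbot
    apply hna
    refine ⟨⟨fun x y => ?_⟩⟩
    obtain ⟨a, rfl⟩ := QuotientGroup.mk_surjective x
    obtain ⟨b, rfl⟩ := QuotientGroup.mk_surjective y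
    have h1 : ⁅a, b⁆ ∈ commutator S := by
      rw [commutator_def]
      exact Subgroup.commutator_mem_commutator (Subgroup.mem_top a) (Subgroup.mem_top b)
    rw [hbot, Subgroup.mem_bot] at h1
    have h2 : a * b = b * a := commutatorElement_eq_one_iff_mul_comm.1 h1
    change (QuotientGroup.mk (a * b) : S ⧸ D') = QuotientGroup.mk (b * a)
    rw [h2]
  · exact isCyclic_of_injective (Subgroup.inclusion hle) (Subgroup.inclusion_injective hle)

end Cfsg.Agent.S3202
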