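import Mathlib
import Cfsg.Agent.Lib.H5Basic
import Cfsg.Statements.S3208
-- import your own Cfsg.Agent.* helpers here

set_option autoImplicit false
open Cfsg

namespace Cfsg.Agent.S3208

/-- Let j be an involution of a finite group G, H a subgroup of G, and T a Sylow 2-subgroup of H ∩ C_G(j) containing j such that ⟨j⟩ is a characteristic subgroup of T. Then T is a Sylow 2-subgroup of H. -/
theorem result {G : Type*} [Group G] [Finite G]
    (j : G) (hj : orderOf j = 2) (H T : Subgroup G) (hT : T ≤ H ⊓ Subgroup.centralizer ({j} : Set G)) (h2 : IsPGroup 2 ↥T)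
    (hSyl : ¬ 2 ∣ T.relIndex (H ⊓ Subgroup.centralizer ({j} : Set G))) (hjT : j ∈ T)
    (hchar : ((Subgroup.zpowers j).subgroupOf T).Characteristic) :
    ¬ 2 ∣ T.relIndex H := by
  classical
  have hTH : T ≤ H := hT.trans inf_le_left
  set L : Subgroup G := H ⊓ Subgroup.centralizer ({j} : Set G) with hL
  set T' : Subgroup H := T.subgroupOf H with hT'
  obtain ⟨n, hn⟩ := IsPGroup.iff_card.1 h2
  have hcardT' : Nat.card T' = 2 ^ n := by
    rw [← hn]
    exact Nat.card_congr (Subgroup.subgroupOfEquivOfLe hTH).toEquiv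
  haveI : Fact (Nat.Prime 2) := ⟨Nat.prime_two⟩
  have hmod := Sylow.card_quotient_normalizer_modEq_card_quotient (G := H) (p := 2) (H := T') hcardT'
  -- the normalizer of `T` in `H` centralizes `j`
  have hNL : (Subgroup.normalizer (T' : Set H)).map H.subtype ≤ L := by
    rintro _ ⟨x, hx, rfl⟩
    refine ⟨x.2, ?_⟩
    show (x : G) ∈ Subgroup.centralizer ({j} : Set G)
    rw [Subgroup.mem_centralizer_singleton_iff]
    replace hx := Subgroup.mem_normalizer_iff.1 hx
    have hxT : ∀ t ∈ T, (x : G) * t * (x : G)⁻¹ ∈ T := by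
      intro t ht
      have := (hx ⟨t, hTH ht⟩).1 ht
      exact this
    have hxT' : ∀ t ∈ T, (x : G)⁻¹ * t * x ∈ T := by
      intro t ht
      have h3 : (x * ⟨(x : G)⁻¹ * t * x, H.mul_mem (H.mul_mem (H.inv_mem x.2) (hTH ht)) x.2⟩ * x⁻¹ : H) ∈ T' := by
        have : (x * ⟨(x : G)⁻¹ * t * x, H.mul_mem (H.mul_mem (H.inv_mem x.2) (hTH ht)) x.2⟩ * x⁻¹ : H) = ⟨t, hTH ht⟩ := by
          apply Subtype.ext
          simp [mul_assoc]
        rw [this]
        exact ht
      exact (hx _).2 h3
    let φ : T ≃* T :=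
      { toFun := fun t => ⟨(x : G) * t * (x : G)⁻¹, hxT t t.2⟩
        invFun := fun t => ⟨(x : G)⁻¹ * t * x, hxT' t t.2⟩
        left_inv := fun t => by
          apply Subtype.ext
          simp [mul_assoc]
        right_inv := fun t => by
          apply Subtype.ext
          simp [mul_assoc]
        map_mul' := fun a b => by
          apply Subtype.ext
          simp [mul_assoc] }
    have hfix := hchar.fixed φ.symm
    have hj0 : (⟨j, hjT⟩ : T) ∈ (Subgroup.zpowers j).subgroupOf T := by
      show j ∈ Subgroup.zpowers j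
      exact Subgroup.mem_zpowers j
    have hj1 : φ ⟨j, hjT⟩ ∈ (Subgroup.zpowers j).subgroupOf T := by
      rw [← hfix, Subgroup.mem_comap]
      show φ.symm (φ ⟨j, hjT⟩) ∈ (Subgroup.zpowers j).subgroupOf T
      simpa using hj0
    have hj2 : (x : G) * j * (x : G)⁻¹ ∈ Subgroup.zpowers j := hj1
    obtain ⟨k, hk⟩ := Subgroup.mem_zpowers_iff.1 hj2
    have hk2 : j ^ (k % 2) = (x : G) * j * (x : G)⁻¹ := by
      have h9 := zpow_mod_orderOf j k
      rw [hj] at h9
      rw [← hk]
      exact_mod_cast h9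
    have hk3 : k % 2 = 0 ∨ k % 2 = 1 := by omega
    rcases hk3 with h0 | h1
    · exfalso
      rw [h0, zpow_zero] at hk2
      have : j = 1 := by
        have h3 : (x : G)⁻¹ * ((x : G) * j * (x : G)⁻¹) * x = (x : G)⁻¹ * 1 * x := by rw [← hk2]
        simpa [mul_assoc] using h3
      rw [this, orderOf_one] at hj
      omega
    · rw [h1, zpow_one] at hk2
      have : (x : G) * j = j * x := by
        have h3 : (x : G) * j * (x : G)⁻¹ * x = j * x := by rw [← hk2]
        simpa [mul_assoc] using h3
      exact this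
  -- index computation
  have hrel : T'.relIndex (Subgroup.normalizer (T' : Set H)) = T.relIndex ((Subgroup.normalizer (T' : Set H)).map H.subtype) := by
    have h3 := Subgroup.relIndex_map_map_of_injective T' (Subgroup.normalizer (T' : Set H)) H.subtype_injective
    rw [← h3]
    congr 1
    rw [hT', Subgroup.subgroupOf_map_subtype, inf_eq_left.2 hTH]
  have hTN : T ≤ (Subgroup.normalizer (T' : Set H)).map H.subtype := by
    intro t ht
    exact ⟨⟨t, hTH ht⟩, Subgroup.le_normalizer (show _ ∈ T' from ht), rfl⟩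
  have hdvd := Subgroup.relIndex_mul_relIndex T _ L hTN hNL
  intro hcon
  have h3 : 2 ∣ Nat.card (H ⧸ T') := hcon
  have h4 : 2 ∣ Nat.card (Subgroup.normalizer (T' : Set H) ⧸ T'.comap (Subgroup.normalizer (T' : Set H)).subtype) := by
    exact (Nat.ModEq.dvd_iff hmod (dvd_refl 2)).2 h3
  have h5 : 2 ∣ T'.relIndex (Subgroup.normalizer (T' : Set H)) := h4
  rw [hrel] at h5
  apply hSyl
  rw [← hdvd]
  exact Dvd.dvd.mul_right h5 _

end Cfsg.Agent.S3208
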