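import Mathlib
import Cfsg.Agent.Lib.H2Basic
import Cfsg.Agent.Lib.Replacement
import Cfsg.Statements.S3209
-- import your own Cfsg.Agent.* helpers here

set_option autoImplicit false
open Cfsg

namespace Cfsg.Agent.S3209

open Cfsg.Agent.Lib

open Matrix

local notation "SL₂" => Matrix.SpecialLinearGroup (Fin 2)

/-- The standard element squaring to `-1`. -/
def wW (F : Type*) [Field F] : SL₂ F :=
  ⟨!![0, -1; 1, 0], by simp [Matrix.det_fin_two]⟩

lemma two_ne {F : Type*} [Field F] [Fintype F] (hF : Odd (Fintype.card F)) : (2 : F) ≠ 0 := by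
  apply Ring.two_ne_zero
  intro h
  have h2 := FiniteField.even_card_iff_char_two.1 h
  rw [Nat.odd_iff] at hF
  omega

lemma entries {F : Type*} [Field F] (A : SL₂ F) :
    ∃ a b c d : F, (A : Matrix (Fin 2) (Fin 2) F) = !![a, b; c, d] ∧ a * d - b * c = 1 := by
  refine ⟨A.1 0 0, A.1 0 1, A.1 1 0, A.1 1 1, (Matrix.eta_fin_two _), ?_⟩
  have := A.2
  rw [Matrix.det_fin_two] at this
  exact this

lemma wW_sq_coe (F : Type*) [Field F] :
    ((wW F * wW F : SL₂ F) : Matrix (Fin 2) (Fin 2) F) = !![-1, 0; 0, -1] := by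
  show (!![0, -1; 1, 0] : Matrix (Fin 2) (Fin 2) F) * !![0, -1; 1, 0] = _
  simp [Matrix.mul_fin_two]

/-- A unimodular matrix squaring to `1` is `±1`. -/
lemma sq_one {F : Type*} [Field F] [Fintype F] (hF : Odd (Fintype.card F)) (A : SL₂ F)
    (hA : A * A = 1) : A = 1 ∨ A = wW F * wW F := by
  have h2 := two_ne hF
  obtain ⟨a, b, c, d, hm, hdet⟩ := entries A
  have hA' : (A : Matrix (Fin 2) (Fin 2) F) * (A : Matrix (Fin 2) (Fin 2) F) = 1 := by
    have := congrArg (fun M : SL₂ F => (M : Matrix (Fin 2) (Fin 2) F)) hA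
    simpa using this
  rw [hm] at hA'
  have e00 := congrFun (congrFun hA' 0) 0
  have e01 := congrFun (congrFun hA' 0) 1
  have e10 := congrFun (congrFun hA' 1) 0
  have e11 := congrFun (congrFun hA' 1) 1
  simp [Matrix.mul_apply, Fin.sum_univ_two] at e00 e01 e10 e11
  have ht : a + d ≠ 0 := by
    intro ht
    have hd : d = -a := by linear_combination ht
    subst hd
    apply h2
    linear_combination -e00 - hdet
  have hb : b = 0 := by
    have : b * (a + d) = 0 := by linear_combination e01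
    exact (mul_eq_zero.1 this).resolve_right ht
  have hc : c = 0 := by
    have : c * (a + d) = 0 := by linear_combination e10
    exact (mul_eq_zero.1 this).resolve_right ht
  subst hb hc
  have ha : a ≠ 0 := by
    rintro rfl
    simp at hdet
  have had : a = d := by
    have : a * (a - d) = 0 := by linear_combination e00 - hdet
    have h3 := (mul_eq_zero.1 this).resolve_left ha
    linear_combination h3
  subst had
  have h1 : (a - 1) * (a + 1) = 0 := by linear_combination e00
  rcases mul_eq_zero.1 h1 with h | h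
  · left
    have : a = 1 := by linear_combination h
    subst this
    apply Subtype.ext
    rw [hm]
    ext i j
    fin_cases i <;> fin_cases j <;> simp
  · right
    have : a = -1 := by linear_combination h
    subst this
    apply Subtype.ext
    rw [hm, wW_sq_coe]

/-- A unimodular matrix squaring to `-1` is conjugate to the standard one. -/
lemma sq_neg_one {F : Type*} [Field F] [Fintype F] (hF : Odd (Fintype.card F)) (A : SL₂ F)
    (hA : A * A = wW F * wW F) : ∃ P : SL₂ F, P * wW F * P⁻¹ = A := by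
  have h2 := two_ne hF
  obtain ⟨a, b, c, d, hm, hdet⟩ := entries A
  have hA' : (A : Matrix (Fin 2) (Fin 2) F) * (A : Matrix (Fin 2) (Fin 2) F) = !![-1, 0; 0, -1] := by
    have h0 : ((A * A : SL₂ F) : Matrix (Fin 2) (Fin 2) F) = ((wW F * wW F : SL₂ F) : Matrix (Fin 2) (Fin 2) F) := by rw [hA]
    rw [wW_sq_coe] at h0
    exact h0
  rw [hm] at hA'
  have e00 := congrFun (congrFun hA' 0) 0
  have e01 := congrFun (congrFun hA' 0) 1
  have e10 := congrFun (congrFun hA' 1) 0
  have e11 := congrFun (congrFun hA' 1) 1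
  simp [Matrix.mul_apply, Fin.sum_univ_two] at e00 e01 e10 e11
  have ht : a + d = 0 := by
    by_contra ht
    have hb : b = 0 := by
      have : b * (a + d) = 0 := by linear_combination e01
      exact (mul_eq_zero.1 this).resolve_right ht
    have hc : c = 0 := by
      have : c * (a + d) = 0 := by linear_combination e10
      exact (mul_eq_zero.1 this).resolve_right ht
    subst hb hc
    have : a * (a + d) = 0 := by linear_combination e00 + hdet
    have ha := (mul_eq_zero.1 this).resolve_right ht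
    subst ha
    simp at hdet
  have hd : d = -a := by linear_combination ht
  subst hd
  -- a vector with determinant one
  have hex : ∃ x y : F, c * x ^ 2 - 2 * a * x * y - b * y ^ 2 = 1 := by
    by_cases hc : c = 0
    · subst hc
      have ha2 : a ≠ 0 := by
        rintro rfl
        simp at hdet
      refine ⟨(-1 - b) / (2 * a), 1, ?_⟩
      field_simp
      ring
    · have hcard : Fintype.card F % 2 = 1 := Nat.odd_iff.1 hF
      obtain ⟨u, w, huw⟩ := FiniteField.exists_root_sum_quadratic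
        (f := Polynomial.C c * Polynomial.X ^ 2)
        (g := Polynomial.C c⁻¹ * Polynomial.X ^ 2 - Polynomial.C 1)
        (by rw [Polynomial.degree_C_mul_X_pow 2 hc]; rfl)
        (by
          rw [Polynomial.degree_sub_C]
          · rw [Polynomial.degree_C_mul_X_pow 2 (inv_ne_zero hc)]; rfl
          · rw [Polynomial.degree_C_mul_X_pow 2 (inv_ne_zero hc)]; decide)
        hcard
      simp only [Polynomial.eval_mul, Polynomial.eval_C, Polynomial.eval_pow, Polynomial.eval_X,
        Polynomial.eval_sub] at huw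
      refine ⟨u + (a / c) * w, w, ?_⟩
      have hbc : b * c = - a ^ 2 - 1 := by linear_combination -hdet
      have hb : b = (- a ^ 2 - 1) / c := by
        field_simp
        linear_combination hbc
      rw [hb]
      have hu : c * u ^ 2 = 1 - c⁻¹ * w ^ 2 := by linear_combination huw
      field_simp at hu ⊢
      linear_combination hu
  obtain ⟨x, y, hxy⟩ := hex
  let P : SL₂ F := ⟨!![x, a * x + b * y; y, c * x - a * y], by
    rw [Matrix.det_fin_two_of]
    linear_combination hxy⟩
  refine ⟨P, ?_⟩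
  rw [mul_inv_eq_iff_eq_mul]
  apply Subtype.ext
  change !![x, a * x + b * y; y, c * x - a * y] * !![0, -1; 1, 0] = (A : Matrix (Fin 2) (Fin 2) F) * !![x, a * x + b * y; y, c * x - a * y]
  rw [hm]
  ext i j
  fin_cases i <;> fin_cases j <;>
    simp [Matrix.mul_apply, Fin.sum_univ_two]
  · linear_combination (-x) * e00
  · ring
  · linear_combination (-y) * e00

lemma key {G F : Type*} [Group G] [Field F] [Fintype F] (hF : Odd (Fintype.card F))
    (L : Subgroup G) (e : ↥L ≃* SL₂ F) (j : G) (hjL : j ∈ L) (hj : orderOf j = 2) :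
    ∃ a₀ ∈ L, a₀ * a₀ = j ∧ (∀ y ∈ L, y * y = 1 → y = 1 ∨ y = j) ∧
      (∀ y ∈ L, y * y = j → ∃ g ∈ L, g * a₀ * g⁻¹ = y) := by
  have hjj : j * j = 1 := by
    rw [← pow_two, ← hj, pow_orderOf_eq_one]
  have hj1 : j ≠ 1 := by
    rintro rfl
    simp at hj
  have hej : e ⟨j, hjL⟩ = wW F * wW F := by
    rcases sq_one hF (e ⟨j, hjL⟩) (by
      rw [← map_mul]
      have : (⟨j, hjL⟩ : L) * ⟨j, hjL⟩ = 1 := Subtype.ext hjj
      rw [this, map_one]) with h | h
    · exfalso
      apply hj1
      have h1 : (⟨j, hjL⟩ : L) = 1 := e.injective (by rw [h, map_one])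
      exact congrArg Subtype.val h1
    · exact h
  refine ⟨(e.symm (wW F) : L), (e.symm (wW F)).2, ?_, ?_, ?_⟩
  · have : (e.symm (wW F)) * (e.symm (wW F)) = (⟨j, hjL⟩ : L) := by
      apply e.injective
      rw [map_mul, hej]
      simp
    exact congrArg Subtype.val this
  · intro y hy hyy
    have h1 : e ⟨y, hy⟩ * e ⟨y, hy⟩ = 1 := by
      rw [← map_mul]
      have : (⟨y, hy⟩ : L) * ⟨y, hy⟩ = 1 := Subtype.ext hyy
      rw [this, map_one]
    rcases sq_one hF _ h1 with h | h
    · left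
      have h2 : (⟨y, hy⟩ : L) = 1 := e.injective (by rw [h, map_one])
      exact congrArg Subtype.val h2
    · right
      have h2 : (⟨y, hy⟩ : L) = ⟨j, hjL⟩ := e.injective (by rw [h, hej])
      exact congrArg Subtype.val h2
  · intro y hy hyy
    have h1 : e ⟨y, hy⟩ * e ⟨y, hy⟩ = wW F * wW F := by
      rw [← map_mul, ← hej]
      congr 1
      exact Subtype.ext hyy
    obtain ⟨P, hP⟩ := sq_neg_one hF _ h1
    refine ⟨(e.symm P : L), (e.symm P).2, ?_⟩
    have : (e.symm P) * (e.symm (wW F)) * (e.symm P)⁻¹ = (⟨y, hy⟩ : L) := by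
      apply e.injective
      simp [hP]
    exact congrArg Subtype.val this

lemma conj_prod {G : Type*} [Group G] {a b g h : G} (h1 : h * a = a * h) (h2 : g * b = b * g)
    (h3 : g * h = h * g) : g * h * (a * b) * (g * h)⁻¹ = g * a * g⁻¹ * (h * b * h⁻¹) := by
  have c : Commute g (h * b * h⁻¹) :=
    (Commute.mul_right h3 h2).mul_right (Commute.inv_right h3)
  have c2 : g⁻¹ * (h * b * h⁻¹) = (h * b * h⁻¹) * g⁻¹ := c.inv_left
  calc g * h * (a * b) * (g * h)⁻¹ = g * (h * a) * b * h⁻¹ * g⁻¹ := by group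
    _ = g * a * (h * b * h⁻¹) * g⁻¹ := by rw [h1]; group
    _ = g * a * ((h * b * h⁻¹) * g⁻¹) := by group
    _ = g * a * (g⁻¹ * (h * b * h⁻¹)) := by rw [c2]
    _ = g * a * g⁻¹ * (h * b * h⁻¹) := by group


/-- Let L₁ ≅ SL₂(q₁) and L₂ ≅ SL₂(q₂), q₁ and q₂ odd, be elementwise-commuting subgroups of a finite group meeting in ⟨j⟩ for an involution j. Then L₁L₂ has exactly two conjugacy classes of involutions: the central involution j, and one further class (there is an involution x ≠ j in L₁L₂, and every involution of L₁L₂ other than j is conjugate to x by an element of L₁L₂). -/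
theorem result {G : Type*} [Group G] [Finite G]
    {F₁ : Type*} [Field F₁] [Fintype F₁] {F₂ : Type*} [Field F₂] [Fintype F₂]
    (hF₁ : Odd (Fintype.card F₁)) (hF₂ : Odd (Fintype.card F₂)) (L₁ L₂ : Subgroup G)
    (e₁ : ↥L₁ ≃* Matrix.SpecialLinearGroup (Fin 2) F₁) (e₂ : ↥L₂ ≃* Matrix.SpecialLinearGroup (Fin 2) F₂)
    (hc : ∀ x ∈ L₁, ∀ y ∈ L₂, x * y = y * x) (j : G) (hj : orderOf j = 2) (hm : L₁ ⊓ L₂ = Subgroup.zpowers j) :
    ∃ x ∈ L₁ ⊔ L₂, orderOf x = 2 ∧ x ≠ j ∧
      ∀ y ∈ L₁ ⊔ L₂, orderOf y = 2 → y = j ∨ ∃ g ∈ L₁ ⊔ L₂, g * x * g⁻¹ = y := by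
  classical
  have hjm : j ∈ L₁ ⊓ L₂ := by
    rw [hm]
    exact Subgroup.mem_zpowers j
  obtain ⟨hj₁, hj₂⟩ := hjm
  have hjj : j * j = 1 := by
    rw [← pow_two, ← hj, pow_orderOf_eq_one]
  have hj1 : j ≠ 1 := by
    rintro rfl
    simp at hj
  obtain ⟨a₀, ha₀, hsa, ha1, ha2⟩ := key hF₁ L₁ e₁ j hj₁ hj
  obtain ⟨b₀, hb₀, hsb, hb1, hb2⟩ := key hF₂ L₂ e₂ j hj₂ hj
  have hzp : ∀ w ∈ L₁, w ∈ L₂ → w = 1 ∨ w = j := by
    intro w h1 h2
    have h3 : w ∈ L₁ ⊓ L₂ := ⟨h1, h2⟩
    rw [hm, Subgroup.mem_zpowers_iff] at h3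
    obtain ⟨k, rfl⟩ := h3
    rcases Int.even_or_odd' k with ⟨c, rfl | rfl⟩
    · left
      rw [_root_.zpow_mul, zpow_ofNat, pow_two, hjj, _root_.one_zpow]
    · right
      rw [_root_.zpow_add, _root_.zpow_mul, zpow_ofNat, pow_two, hjj, _root_.one_zpow, one_mul, zpow_one]
  have hcab : a₀ * b₀ = b₀ * a₀ := hc a₀ ha₀ b₀ hb₀
  have hxx : (a₀ * b₀) * (a₀ * b₀) = 1 := by
    calc (a₀ * b₀) * (a₀ * b₀) = a₀ * (b₀ * a₀) * b₀ := by group
      _ = a₀ * (a₀ * b₀) * b₀ := by rw [hcab]
      _ = (a₀ * a₀) * (b₀ * b₀) := by group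
      _ = 1 := by rw [hsa, hsb, hjj]
  have ha₀n : ¬ a₀ ∈ L₂ := by
    intro h
    rcases hzp a₀ ha₀ h with h1 | h1
    · rw [h1] at hsa
      apply hj1
      rw [← hsa, one_mul]
    · rw [h1, hjj] at hsa
      exact hj1 hsa.symm
  have hx1 : a₀ * b₀ ≠ 1 := by
    intro h
    apply ha₀n
    have : a₀ = b₀⁻¹ := eq_inv_of_mul_eq_one_left h
    rw [this]
    exact L₂.inv_mem hb₀
  have hxj : a₀ * b₀ ≠ j := by
    intro h
    apply ha₀n
    have : a₀ = j * b₀⁻¹ := by rw [← h]; group
    rw [this]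
    exact L₂.mul_mem hj₂ (L₂.inv_mem hb₀)
  refine ⟨a₀ * b₀, Subgroup.mul_mem _ (Subgroup.mem_sup_left ha₀) (Subgroup.mem_sup_right hb₀), ?_, hxj, ?_⟩
  · exact orderOf_eq_prime (by rw [pow_two]; exact hxx) hx1
  · intro y hy hoy
    have hNorm : L₁ ≤ Subgroup.normalizer (L₂ : Set G) :=
      fun w hw => H2Basic.mem_normalizer_of_forall_comm (fun v hv => (hc w hw v hv))
    obtain ⟨a, ha, b, hb, rfl⟩ := Replacement.mem_sup_of_le_normalizer hNorm hy
    have hcab' : a * b = b * a := hc a ha b hb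
    have hyy : (a * a) * (b * b) = 1 := by
      have h1 : (a * b) ^ 2 = 1 := by rw [← hoy, pow_orderOf_eq_one]
      rw [pow_two] at h1
      calc (a * a) * (b * b) = a * (a * b) * b := by group
        _ = a * (b * a) * b := by rw [hcab']
        _ = (a * b) * (a * b) := by group
        _ = 1 := h1
    have hab : b * b = (a * a)⁻¹ := eq_inv_of_mul_eq_one_right hyy
    have haa : a * a ∈ L₂ := by
      have h1 : (b * b)⁻¹ = a * a := by rw [hab, inv_inv]
      rw [← h1]
      exact L₂.inv_mem (L₂.mul_mem hb hb)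
    rcases hzp (a * a) (L₁.mul_mem ha ha) haa with h | h
    · -- `a * a = 1`
      have hbb : b * b = 1 := by rw [hab, h, inv_one]
      left
      have h1 : a * b ≠ 1 := by
        intro h0
        rw [h0] at hoy
        simp at hoy
      rcases ha1 a ha h with h2 | h2 <;> rcases hb1 b hb hbb with h3 | h3
      · exact absurd (by rw [h2, h3, one_mul]) h1
      · rw [h2, h3, one_mul]
      · rw [h2, h3, mul_one]
      · exact absurd (by rw [h2, h3, hjj]) h1
    · -- `a * a = j`
      have hbb : b * b = j := by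
        rw [hab, h]
        exact inv_eq_of_mul_eq_one_left hjj
      right
      obtain ⟨g₁, hg₁, e1⟩ := ha2 a ha h
      obtain ⟨g₂, hg₂, e2⟩ := hb2 b hb hbb
      refine ⟨g₁ * g₂, Subgroup.mul_mem _ (Subgroup.mem_sup_left hg₁) (Subgroup.mem_sup_right hg₂), ?_⟩
      rw [← e1, ← e2]
      exact conj_prod (hc a₀ ha₀ g₂ hg₂).symm (hc g₁ hg₁ b₀ hb₀) (hc g₁ hg₁ g₂ hg₂)

end Cfsg.Agent.S3209
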