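import Mathlib
import Cfsg.Agent.Lib.H5Basic
import Cfsg.Agent.Lib.H6Basic
import Cfsg.Agent.Lib.Dihedral
import Cfsg.Agent.Lib.Order8
import Cfsg.Agent.Lib.Replacement
import Cfsg.Statements.S3224
-- import your own Cfsg.Agent.* helpers here

set_option autoImplicit false
open Cfsg

namespace Cfsg.Agent.S3224


open Subgroup
open Cfsg.Agent.Lib

section Algebra

variable {S : Type*} [Group S]

lemma conj_t_zpow {t a : S} (htt : t * t = 1) (hta : t * a * t = a⁻¹) (i : ℤ) :
    t * a ^ i * t = a ^ (-i) := by
  have ht : t⁻¹ = t := inv_eq_of_mul_eq_one_left htt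
  have h := conj_zpow (a := t) (b := a) (i := i)
  rw [ht, hta] at h
  rw [← h, inv_zpow, zpow_neg]

lemma zpow_mul_t {t a : S} (htt : t * t = 1) (hta : t * a * t = a⁻¹) (i : ℤ) :
    a ^ i * t = t * a ^ (-i) := by
  calc a ^ i * t = t * (t * a ^ i * t) := by
        rw [← mul_assoc, ← mul_assoc, htt, one_mul]
    _ = _ := by rw [conj_t_zpow htt hta]

lemma commute_of_conj {t a g : S} (htt : t * t = 1) (hta : t * a * t = a⁻¹) (i : ℤ)
    (h : g * t * g⁻¹ = t * a ^ (2 * i)) : (a ^ i * g) * t = t * (a ^ i * g) := by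
  have h1 : g * t = t * a ^ (2 * i) * g := by rw [← h]; group
  have e : -i + 2 * i = i := by ring
  calc a ^ i * g * t = a ^ i * (g * t) := by group
    _ = (a ^ i * t) * a ^ (2 * i) * g := by rw [h1]; group
    _ = t * (a ^ (-i) * a ^ (2 * i)) * g := by rw [zpow_mul_t htt hta]; group
    _ = t * (a ^ i * g) := by rw [← zpow_add, e]; group

lemma mem_norm_zpowers {t r : S} (htt : t * t = 1) (l : ℤ) (h : t * r * t = r ^ l) :
    t ∈ normalizer (zpowers r : Set S) := by
  have ht : t⁻¹ = t := inv_eq_of_mul_eq_one_left htt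
  have fwd : ∀ w ∈ zpowers r, t * w * t⁻¹ ∈ zpowers r := by
    intro w hw
    obtain ⟨i, rfl⟩ := hw
    show t * r ^ i * t⁻¹ ∈ zpowers r
    rw [← conj_zpow, ht, h]
    exact zpow_mem (zpow_mem (mem_zpowers r) _) _
  rw [mem_normalizer_iff]
  intro w
  refine ⟨fwd w, fun hw => ?_⟩
  have := fwd _ hw
  have e : t * (t * w * t⁻¹) * t⁻¹ = w := by
    rw [ht]
    calc t * (t * w * t) * t = (t * t) * w * (t * t) := by group
      _ = w := by rw [htt]; group
  rwa [e] at this

lemma mem_form {t r y : S} (hN : t ∈ normalizer (zpowers r : Set S)) (htt : t * t = 1)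
    (hy : y ∈ zpowers r ⊔ zpowers t) : ∃ i : ℤ, y = r ^ i ∨ y = t * r ^ i := by
  rw [sup_comm] at hy
  have hle : zpowers t ≤ normalizer (zpowers r : Set S) := (zpowers_le (H := normalizer (zpowers r : Set S))).2 hN
  obtain ⟨a, ha, b, hb, rfl⟩ := Replacement.mem_sup_of_le_normalizer hle hy
  obtain ⟨n, rfl⟩ := ha
  obtain ⟨i, rfl⟩ := hb
  refine ⟨i, ?_⟩
  simp only
  rcases Int.even_or_odd' n with ⟨c, rfl | rfl⟩
  · left
    rw [zpow_mul, zpow_ofNat, pow_two, htt, one_zpow, one_mul]
  · right
    rw [zpow_add, zpow_mul, zpow_ofNat, pow_two, htt, one_zpow, one_mul, zpow_one]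

lemma normalizer_form {t r g : S} {e : ℕ} (hN : t ∈ normalizer (zpowers r : Set S))
    (htt : t * t = 1) (he : ∀ i : ℤ, (t * r ^ i) ^ e = 1) (hre : r ^ e ≠ 1)
    (hg : g ∈ normalizer ((zpowers r ⊔ zpowers t : Subgroup S) : Set S)) (htn : t ∉ zpowers r) :
    (∃ k : ℤ, g * r * g⁻¹ = r ^ k) ∧ ∃ j : ℤ, g * t * g⁻¹ = t * r ^ j := by
  have key : ∀ h ∈ normalizer ((zpowers r ⊔ zpowers t : Subgroup S) : Set S),
      ∃ k : ℤ, h * r * h⁻¹ = r ^ k := by
    intro h hh
    rw [mem_normalizer_iff] at hh
    have h1 : h * r * h⁻¹ ∈ zpowers r ⊔ zpowers t :=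
      (hh r).1 (mem_sup_left (mem_zpowers r))
    obtain ⟨i, h2 | h2⟩ := mem_form hN htt h1
    · exact ⟨i, h2⟩
    · exfalso
      apply hre
      have h3 := he i
      rw [← h2, conj_pow] at h3
      have h4 : r ^ e = h⁻¹ * (h * r ^ e * h⁻¹) * h := by group
      rw [h4, h3]
      group
  refine ⟨key g hg, ?_⟩
  have hg' := hg
  rw [mem_normalizer_iff] at hg'
  have h1 : g * t * g⁻¹ ∈ zpowers r ⊔ zpowers t := (hg' t).1 (mem_sup_right (mem_zpowers t))
  obtain ⟨i, h2 | h2⟩ := mem_form hN htt h1
  · exfalso
    apply htn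
    obtain ⟨k, hk⟩ := key g⁻¹ (inv_mem hg)
    have h3 : t = g⁻¹ * r ^ i * g := by
      rw [← h2]
      group
    have h4 : g⁻¹ * r ^ i * g = (g⁻¹ * r * g⁻¹⁻¹) ^ i := by
      rw [conj_zpow, inv_inv]
    rw [h3, h4, hk]
    exact zpow_mem (zpow_mem (mem_zpowers r) _) _
  · exact ⟨i, h2⟩

lemma odd_of_conj {a g : S} {W : ℕ} (hW : 0 < W) (hoa : orderOf a = 4 * W) {k : ℤ}
    (h : g * a * g⁻¹ = a ^ k) : k % 2 = 1 := by
  by_contra hcon
  have hk : ∃ c : ℤ, k = 2 * c := ⟨k / 2, by omega⟩
  obtain ⟨c, rfl⟩ := hk
  have h1 : (g * a * g⁻¹) ^ (2 * W) = g * a ^ (2 * W) * g⁻¹ := conj_pow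
  rw [h] at h1
  have h2 : (a ^ (2 * c)) ^ (2 * W) = 1 := by
    rw [← zpow_natCast, ← zpow_mul]
    have e : 2 * c * ((2 * W : ℕ) : ℤ) = (orderOf a : ℤ) * c := by
      rw [hoa]; push_cast; ring
    rw [e, zpow_mul, zpow_natCast, pow_orderOf_eq_one, one_zpow]
  rw [h2] at h1
  have h3 : a ^ (2 * W) = 1 := by
    have : a ^ (2 * W) = g⁻¹ * (g * a ^ (2 * W) * g⁻¹) * g := by group
    rw [this, ← h1]
    group
  have h4 := orderOf_dvd_of_pow_eq_one h3
  rw [hoa] at h4
  have := Nat.le_of_dvd (by omega) h4
  omega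

lemma card_of_sup_top [Finite S] {t r : S} (htt : t * t = 1)
    (hN : t ∈ normalizer (zpowers r : Set S)) (htn : t ∉ zpowers r)
    (htop : zpowers r ⊔ zpowers t = ⊤) : Nat.card S = 2 * orderOf r := by
  have hidx : (zpowers r).index = 2 := by
    rw [index_eq_two_iff]
    refine ⟨t, fun b => ?_⟩
    have hb : b ∈ zpowers r ⊔ zpowers t := by rw [htop]; trivial
    obtain ⟨i, rfl | rfl⟩ := mem_form hN htt hb
    · right
      refine ⟨zpow_mem (mem_zpowers r) _, fun h => htn ?_⟩
      have := mul_mem (inv_mem (zpow_mem (mem_zpowers r) i)) h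
      simpa using this
    · left
      constructor
      · have h1 : t * r ^ i * t ∈ zpowers r := by
          have h2 := ((mem_normalizer_iff.1 hN) (r ^ i)).1 (zpow_mem (mem_zpowers r) _)
          rwa [inv_eq_of_mul_eq_one_left htt] at h2
        exact h1
      · intro h
        apply htn
        have := mul_mem h (inv_mem (zpow_mem (mem_zpowers r) i))
        simpa using this
  have h1 := (zpowers r).card_mul_index
  rw [hidx, Nat.card_zpowers] at h1
  omega

end Algebra

section Main

variable {S : Type*} [Group S] [Finite S]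

lemma pow_eq_one_of_le (hS : IsPGroup 2 S) (g : S) {K : ℕ} (h : orderOf g ≤ 2 ^ K) :
    g ^ 2 ^ K = 1 := by
  obtain ⟨w, hw⟩ := (IsPGroup.iff_orderOf.1 hS) g
  have hwK : w ≤ K := by
    rw [hw] at h
    exact (Nat.pow_le_pow_iff_right (by norm_num)).1 h
  rw [← orderOf_dvd_iff_pow_eq_one, hw]
  exact pow_dvd_pow 2 hwK

theorem level2 (hS : IsPGroup 2 S) {t a y : S} {L : ℕ} (hoa : orderOf a = 2 ^ (L + 2))
    (htt : t * t = 1) (hta : t * a * t = a⁻¹)
    (hC : ∀ c : S, c * t = t * c →
      c = 1 ∨ c = a ^ (2 * 2 ^ L) ∨ c = t ∨ c = t * a ^ (2 * 2 ^ L))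
    (hmax : ∀ g : S, orderOf (t * (g * t * g⁻¹)) ≤ 2 ^ (L + 2))
    {k : ℤ} (hyt : y * t * y⁻¹ = t * a) (hya : y * a * y⁻¹ = a ^ k) (hk : k % 4 = 1) :
    (∃ n : ℕ, Nonempty (S ≃* DihedralGroup n)) ∨ Cfsg.IsQuasiDihedral S := by
  set W : ℕ := 2 ^ L with hW
  have hW0 : 0 < W := by positivity
  replace hoa : orderOf a = 4 * W := by rw [hoa, hW]; ring
  have hWz : (0 : ℤ) < (W : ℤ) := by exact_mod_cast hW0
  have ht : t⁻¹ = t := inv_eq_of_mul_eq_one_left htt
  have ha_dvd : ∀ i : ℤ, a ^ i = 1 ↔ (4 * (W : ℤ)) ∣ i := by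
    intro i
    rw [← orderOf_dvd_iff_zpow_eq_one, hoa]
    push_cast
    rfl
  have hyaz : ∀ i : ℤ, y * a ^ i * y⁻¹ = a ^ (k * i) := by
    intro i
    rw [← conj_zpow, hya, zpow_mul]
  -- `y ^ 2` modulo the centralizer of `t`
  obtain ⟨c, rfl⟩ : ∃ c : ℤ, k = 4 * c + 1 := ⟨k / 4, by omega⟩
  set e : ℤ := 2 * c + 1 with he
  have hy2 : (y * y) * t * (y * y)⁻¹ = t * a ^ (2 * e) := by
    calc (y * y) * t * (y * y)⁻¹ = y * (y * t * y⁻¹) * y⁻¹ := by group
      _ = y * (t * a) * y⁻¹ := by rw [hyt]
      _ = (y * t * y⁻¹) * (y * a * y⁻¹) := by group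
      _ = t * a ^ (2 * e) := by
        rw [hyt, hya, mul_assoc, ← zpow_one_add]
        congr 2
        rw [he]; ring
  have hcomm := commute_of_conj htt hta e hy2
  -- the case where `y ^ 2` lies outside `⟨a⟩`
  have hno : ∀ s : ℤ, y * y ≠ t * a ^ s := by
    intro s hs
    have h1 : y * (y * y) * y⁻¹ = y * y := by group
    rw [hs] at h1
    have h2 : y * (t * a ^ s) * y⁻¹ = (y * t * y⁻¹) * (y * a ^ s * y⁻¹) := by group
    rw [h2, hyt, hyaz, mul_assoc, ← zpow_one_add] at h1
    have h3 : a ^ (1 + (4 * c + 1) * s) = a ^ s := mul_left_cancel h1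
    have h4 : a ^ (1 + (4 * c + 1) * s - s) = 1 := by
      rw [zpow_sub, h3, mul_inv_cancel]
    rw [ha_dvd] at h4
    obtain ⟨d, hd⟩ := h4
    have h5 : 1 + 4 * (c * s) = 4 * ((W : ℤ) * d) := by linear_combination hd
    omega
  have hz2 : (a ^ (2 * W : ℕ)) = a ^ (2 * (W : ℤ)) := by
    rw [← zpow_natCast]; push_cast; rfl
  have hs : ∃ s : ℤ, s % 2 = 1 ∧ y * y = a ^ s := by
    rcases hC _ hcomm with h | h | h | h
    · refine ⟨-e, by omega, ?_⟩
      rw [zpow_neg]
      exact eq_inv_of_mul_eq_one_right h
    · refine ⟨-e + 2 * W, by omega, ?_⟩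
      rw [zpow_add, zpow_neg, ← hz2, ← h]
      group
    · exfalso
      apply hno e
      have h1 : y * y = a ^ (-e) * t := by
        rw [zpow_neg, eq_inv_mul_iff_mul_eq]; exact h
      rw [h1, zpow_mul_t htt hta, neg_neg]
    · exfalso
      apply hno (e + 2 * W)
      have h1 : y * y = a ^ (-e) * (t * a ^ (2 * W)) := by
        rw [zpow_neg, eq_inv_mul_iff_mul_eq]; exact h
      rw [h1, ← mul_assoc, zpow_mul_t htt hta, neg_neg, mul_assoc, ← zpow_natCast a (2 * W), ← zpow_add]
      push_cast
      rfl
  obtain ⟨s, hs2, hys⟩ := hs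
  -- order of `y`
  have hyz : ∀ i : ℤ, (y * y) ^ i = a ^ (s * i) := by
    intro i
    rw [hys, zpow_mul]
  have hy_sq : ∀ i : ℤ, y ^ (2 * i) = a ^ (s * i) := by
    intro i
    rw [zpow_mul, zpow_two, hyz]
  have hy4W : y ^ (2 ^ (L + 2)) ≠ 1 := by
    intro h
    have h1 : y ^ (2 * (2 * (W : ℤ))) = 1 := by
      rw [← zpow_natCast] at h
      rw [← h]
      congr 1
      rw [hW]; push_cast; ring
    rw [hy_sq, ha_dvd] at h1
    obtain ⟨d, hd⟩ := h1
    have h2 : s = 2 * d := by
      have : (2 * (W : ℤ)) * s = (2 * (W : ℤ)) * (2 * d) := by linear_combination hd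
      exact mul_left_cancel₀ (by omega) this
    omega
  have hy8W : y ^ (2 ^ (L + 3)) = 1 := by
    have h1 : y ^ (2 * (4 * (W : ℤ))) = 1 := by
      rw [hy_sq, ha_dvd]
      exact Dvd.intro_left s rfl
    rw [← zpow_natCast, ← h1]
    congr 1
    rw [hW]; push_cast; ring
  have hoy : orderOf y = 2 ^ (L + 3) := orderOf_eq_prime_pow hy4W hy8W
  have hoy' : orderOf y = 8 * W := by rw [hoy, hW]; ring
  have hy_dvd : ∀ i : ℤ, y ^ i = 1 ↔ (8 * (W : ℤ)) ∣ i := by
    intro i
    rw [← orderOf_dvd_iff_zpow_eq_one, hoy']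
    push_cast
    rfl
  -- `a` is a power of `y ^ 2`
  have hoyy : orderOf (y * y) = 4 * W := by
    rw [← pow_two, orderOf_pow_of_dvd (by norm_num) (by rw [hoy']; omega), hoy']
    omega
  have hzz : zpowers (y * y) = zpowers a := by
    apply Subgroup.eq_of_le_of_card_ge
    · rw [zpowers_le, hys]
      exact zpow_mem (mem_zpowers a) _
    · rw [Nat.card_zpowers, Nat.card_zpowers, hoyy, hoa]
  have haf : a ∈ zpowers (y * y) := by rw [hzz]; exact mem_zpowers a
  obtain ⟨f, hf⟩ := haf
  simp only at hf
  have hf2 : f % 2 = 1 := by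
    by_contra hcon
    obtain ⟨d, rfl⟩ : ∃ d : ℤ, f = 2 * d := ⟨f / 2, by omega⟩
    have h1 : a ^ (2 * (W : ℤ)) = 1 := by
      rw [← hf, hyz, ← zpow_mul, ha_dvd]
      exact ⟨s * d, by ring⟩
    rw [ha_dvd] at h1
    obtain ⟨d', hd'⟩ := h1
    have : (2 * (W : ℤ)) * (1 - 2 * d') = 0 := by linear_combination hd'
    rcases mul_eq_zero.1 this with h | h <;> omega
  -- the action of `t` on `y`
  set l : ℤ := 2 * f + 1 with hl
  have hty : t * y * t = y ^ l := by
    have h1 : y * t = t * a * y := by rw [← hyt]; group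
    calc t * y * t = t * (y * t) := by group
      _ = t * (t * a * y) := by rw [h1]
      _ = (t * t) * a * y := by group
      _ = a * y := by rw [htt, one_mul]
      _ = y ^ l := by
        rw [← hf, hl, zpow_add, zpow_mul, zpow_two, zpow_one]
  have hty_z : ∀ i : ℤ, t * y ^ i * t = y ^ (l * i) := by
    intro i
    have h := conj_zpow (a := t) (b := y) (i := i)
    rw [ht, hty] at h
    rw [← h, zpow_mul]
  have hll : y ^ (l * l - 1) = 1 := by
    have h1 : t * (t * y * t) * t = y := by
      calc t * (t * y * t) * t = (t * t) * y * (t * t) := by group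
        _ = y := by rw [htt]; group
    rw [hty, hty_z] at h1
    rw [zpow_sub, h1, zpow_one, mul_inv_cancel]
  rw [hy_dvd] at hll
  obtain ⟨d, hd⟩ := hll
  have hfd : f * (f + 1) = 2 * (W : ℤ) * d := by
    have h4 : (4 : ℤ) * (f * (f + 1)) = 4 * (2 * (W : ℤ) * d) := by
      rw [hl] at hd
      linear_combination hd
    exact mul_left_cancel₀ (by norm_num) h4
  have hcop : IsCoprime (2 * (W : ℤ)) f := by
    have h1 : IsCoprime (2 : ℤ) f := by
      refine ⟨-(f / 2), 1, ?_⟩
      have : f = 2 * (f / 2) + 1 := by omega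
      linarith
    have h2 : (2 * (W : ℤ)) = 2 ^ (L + 1) := by rw [hW]; push_cast; ring
    rw [h2]
    exact h1.pow_left
  have hdvd : (2 * (W : ℤ)) ∣ f + 1 := hcop.dvd_of_dvd_mul_left ⟨d, hfd⟩
  obtain ⟨g, hg⟩ := hdvd
  have hl1 : l + 1 = 4 * (W : ℤ) * g := by rw [hl]; linear_combination 2 * hg
  -- elements outside `⟨y⟩`
  have hfour : ∀ i : ℤ, (t * y ^ i) ^ 4 = 1 := by
    intro i
    have h1 : (t * y ^ i) * (t * y ^ i) = y ^ ((l + 1) * i) := by
      calc (t * y ^ i) * (t * y ^ i) = (t * y ^ i * t) * y ^ i := by group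
        _ = y ^ (l * i + i) := by rw [hty_z, zpow_add]
        _ = _ := by congr 1; ring
    have h2 : (t * y ^ i) ^ 4 = ((t * y ^ i) * (t * y ^ i)) * ((t * y ^ i) * (t * y ^ i)) := by
      rw [show (4 : ℕ) = 2 + 2 from rfl, pow_add, pow_two]
    rw [h2, h1, ← zpow_add, hy_dvd, hl1]
    exact ⟨g * i, by ring⟩
  have hy4 : y ^ 4 ≠ 1 := by
    intro h
    have h1 := orderOf_dvd_of_pow_eq_one h
    rw [hoy'] at h1
    have := Nat.le_of_dvd (by norm_num) h1
    omega
  have htn : t ∉ zpowers y := by
    intro h
    obtain ⟨i, hi⟩ := h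
    simp only at hi
    have h1 : t * y = y * t := by
      rw [← hi, ← zpow_add_one, ← zpow_one_add, add_comm]
    have h2 : a * y = y := by
      have h3 : y * t = t * a * y := by rw [← hyt]; group
      have h4 : t * (y * t) = t * (t * a * y) := by rw [h3]
      rw [← h1] at h3
      have h5 : t * y * t = a * y := by
        calc t * y * t = t * (y * t) := by group
          _ = (t * t) * a * y := by rw [h4]; group
          _ = a * y := by rw [htt, one_mul]
      rw [h1, mul_assoc, htt, mul_one] at h5
      exact h5.symm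
    have h6 : a = 1 := by simpa using h2
    rw [h6, orderOf_one] at hoa
    have : 1 ≤ W := hW0
    omega
  have hN : t ∈ normalizer (zpowers y : Set S) := mem_norm_zpowers htt l hty
  have ha_y : a ∈ zpowers y := by
    rw [← hf]
    exact zpow_mem (mul_mem (mem_zpowers y) (mem_zpowers y)) _
  by_cases hD : zpowers y ⊔ zpowers t = ⊤
  · have hcard := card_of_sup_top htt hN htn hD
    -- the two forms
    rcases Int.emod_two_eq_zero_or_one g with hg2 | hg2
    · left
      refine ⟨8 * W, ?_⟩
      haveI : NeZero (8 * W) := ⟨by omega⟩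
      refine Dihedral.nonempty_mulEquiv_dihedral (8 * W) y t hoy' (by rw [pow_two, htt]) ?_ htn (by rw [hcard, hoy'])
      have h1 : y ^ (l + 1) = 1 := by
        rw [hy_dvd, hl1]
        refine ⟨g / 2, ?_⟩
        have : g = 2 * (g / 2) := by omega
        conv_lhs => rw [this]
        ring
      rw [zpow_add_one] at h1
      rw [ht, hty]
      exact eq_inv_of_mul_eq_one_left h1
    · right
      have ht1 : t ≠ 1 := by
        rintro rfl
        exact htn (one_mem _)
      refine ⟨L + 3, by omega, ?_, y, t, hoy, orderOf_eq_prime (by rw [pow_two, htt]) ht1, ?_⟩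
      · rw [hcard, hoy]; ring
      · rw [ht, hty]
        have h1 : y ^ (l - (4 * (W : ℤ) - 1)) = 1 := by
          rw [hy_dvd]
          refine ⟨g / 2, ?_⟩
          have h3 : g = 2 * (g / 2) + 1 := by omega
          have h4 : l = 4 * (W : ℤ) * g - 1 := by linarith
          rw [h4]
          conv_lhs => rw [h3]
          ring
        rw [zpow_sub, mul_inv_eq_one] at h1
        rw [h1, ← zpow_natCast]
        congr 1
        have h5 : 1 ≤ 2 ^ (L + 3 - 1) := Nat.one_le_two_pow
        rw [Nat.cast_sub h5]
        have h6 : L + 3 - 1 = L + 2 := by omega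
        rw [h6, hW]
        push_cast
        ring
  · obtain ⟨u, -, huD, huN⟩ := H5Basic.exists_mem_normalizer_of_lt (p := 2) (H := zpowers y ⊔ zpowers t)
      (J := ⊤) (IsPGroup.of_equiv hS Subgroup.topEquiv.symm) le_top hD
    obtain ⟨-, j, hj⟩ := normalizer_form hN htt hfour hy4 huN htn
    exfalso
    have hmemD : ∀ w : S, w * t = t * w → w ∈ zpowers y ⊔ zpowers t := by
      intro w hw
      have hat : a ^ (2 * 2 ^ L) ∈ zpowers y ⊔ zpowers t :=
        pow_mem (mem_sup_left ha_y) _
      have htD : t ∈ zpowers y ⊔ zpowers t := mem_sup_right (mem_zpowers t)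
      rcases hC w hw with rfl | rfl | rfl | rfl
      · exact one_mem _
      · exact hat
      · exact htD
      · exact mul_mem htD hat
    rcases Int.emod_two_eq_zero_or_one j with hj2 | hj2
    · obtain ⟨c', rfl⟩ : ∃ c' : ℤ, j = 2 * c' := ⟨j / 2, by omega⟩
      have hj' : u * t * u⁻¹ = t * a ^ (s * c') := by
        rw [hj, hy_sq]
      rcases Int.emod_two_eq_zero_or_one (s * c') with hh | hh
      · obtain ⟨i, hi⟩ : ∃ i : ℤ, s * c' = 2 * i := ⟨(s * c') / 2, by omega⟩
        rw [hi] at hj'
        have h1 := hmemD _ (commute_of_conj htt hta i hj')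
        apply huD
        have h2 := mul_mem (inv_mem (zpow_mem (mem_sup_left ha_y : a ∈ zpowers y ⊔ zpowers t) i)) h1
        simpa using h2
      · obtain ⟨i, hi⟩ : ∃ i : ℤ, s * c' = 2 * i + 1 := ⟨(s * c') / 2, by omega⟩
        rw [hi] at hj'
        -- conjugate back by `y`
        have h3 : (y⁻¹ * (a ^ i * u)) * t = t * (y⁻¹ * (a ^ i * u)) := by
          have h4 : a ^ i * u * t * (a ^ i * u)⁻¹ = t * a := by
            calc a ^ i * u * t * (a ^ i * u)⁻¹ = a ^ i * (u * t * u⁻¹) * a ^ (-i) := by
                  rw [zpow_neg]; group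
              _ = (a ^ i * t) * a ^ (2 * i + 1) * a ^ (-i) := by rw [hj']; group
              _ = t * (a ^ (-i) * a ^ (2 * i + 1) * a ^ (-i)) := by rw [zpow_mul_t htt hta]; group
              _ = t * a := by
                rw [← zpow_add, ← zpow_add]
                congr 1
                have : -i + (2 * i + 1) + -i = 1 := by ring
                rw [this, zpow_one]
          have h5 : a ^ i * u * t = t * a * (a ^ i * u) := by rw [← h4]; group
          have h6 : y * t = t * a * y := by rw [← hyt]; group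
          have h7 : y⁻¹ * (t * a) = t * y⁻¹ := by
            calc y⁻¹ * (t * a) = y⁻¹ * (t * a * y) * y⁻¹ := by group
              _ = y⁻¹ * (y * t) * y⁻¹ := by rw [h6]
              _ = t * y⁻¹ := by group
          calc y⁻¹ * (a ^ i * u) * t = y⁻¹ * (a ^ i * u * t) := by group
            _ = y⁻¹ * (t * a * (a ^ i * u)) := by rw [h5]
            _ = (y⁻¹ * (t * a)) * (a ^ i * u) := by group
            _ = t * (y⁻¹ * (a ^ i * u)) := by rw [h7]; group
        have h8 := hmemD _ h3
        apply huD
        have h9 : u = (a ^ i)⁻¹ * (y * (y⁻¹ * (a ^ i * u))) := by group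
        rw [h9]
        exact mul_mem (inv_mem (zpow_mem (mem_sup_left ha_y) i))
          (mul_mem (mem_sup_left (mem_zpowers y)) h8)
    · have h1 := hmax u
      have h2 : t * (u * t * u⁻¹) = y ^ j := by
        rw [hj, ← mul_assoc, htt, one_mul]
      rw [h2] at h1
      have h3 := pow_eq_one_of_le hS _ h1
      rw [← zpow_natCast, ← zpow_mul, hy_dvd] at h3
      obtain ⟨d', hd'⟩ := h3
      have h4 : (4 * (W : ℤ)) * j = (4 * (W : ℤ)) * (2 * d') := by
        have : ((2 ^ (L + 2) : ℕ) : ℤ) = 4 * (W : ℤ) := by rw [hW]; push_cast; ring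
        rw [this] at hd'
        linear_combination hd'
      have h5 := mul_left_cancel₀ (by omega) h4
      omega

end Main


/-- A finite 2-group containing an involution whose centralizer has order 4 is dihedral, quasi-dihedral (semidihedral), or of order 4. -/
theorem result {S : Type*} [Group S] [Finite S] (hS : IsPGroup 2 S)
    (x : S) (hx : orderOf x = 2) (hC : Nat.card ↥(Subgroup.centralizer ({x} : Set S)) = 4) :
    (∃ n : ℕ, Nonempty (S ≃* DihedralGroup n)) ∨ Cfsg.IsQuasiDihedral S ∨ Nat.card S = 4 := by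
  classical
  obtain ⟨g₀, hg₀⟩ := Finite.exists_max (fun g : S => orderOf (x * (g * x * g⁻¹)))
  have hxx : x * x = 1 := by rw [← pow_two, ← hx, pow_orderOf_eq_one]
  have hxi : x⁻¹ = x := inv_eq_of_mul_eq_one_left hxx
  have hx1 : x ≠ 1 := by
    rintro rfl
    simp at hx
  have hS2 : ∀ g : S, ∃ w, orderOf g = 2 ^ w := IsPGroup.iff_orderOf.1 hS
  set t' : S := g₀ * x * g₀⁻¹ with ht'
  set a : S := x * t' with ha
  have ht't' : t' * t' = 1 := by
    rw [ht']
    calc g₀ * x * g₀⁻¹ * (g₀ * x * g₀⁻¹) = g₀ * (x * x) * g₀⁻¹ := by group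
      _ = 1 := by rw [hxx]; group
  have ht'i : t'⁻¹ = t' := inv_eq_of_mul_eq_one_left ht't'
  have hta : x * a * x = a⁻¹ := by
    rw [ha, mul_inv_rev, hxi, ht'i]
    calc x * (x * t') * x = (x * x) * t' * x := by group
      _ = t' * x := by rw [hxx, one_mul]
  have hmemC : ∀ c : S, c ∈ Subgroup.centralizer ({x} : Set S) ↔ c * x = x * c := by
    intro c
    rw [Subgroup.mem_centralizer_singleton_iff]
  obtain ⟨K, hK⟩ := hS2 a
  have hmaxK : ∀ g : S, orderOf (x * (g * x * g⁻¹)) ≤ 2 ^ K := by
    intro g
    rw [← hK]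
    exact hg₀ g
  -- the three cases
  rcases Nat.lt_or_ge K 2 with hK2 | hK2
  · interval_cases K
    · -- `x` is central
      right; right
      have hcen : ∀ g : S, g * x = x * g := by
        intro g
        have h1 := hmaxK g
        have h2 := pow_eq_one_of_le hS _ h1
        simp only [pow_zero, pow_one] at h2
        have h3 : g * x * g⁻¹ = x := by
          have := eq_inv_of_mul_eq_one_right h2
          rwa [hxi] at this
        calc g * x = (g * x * g⁻¹) * g := by group
          _ = x * g := by rw [h3]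
      have htop : Subgroup.centralizer ({x} : Set S) = ⊤ := by
        rw [Subgroup.eq_top_iff']
        intro g
        exact (hmemC g).2 (hcen g)
      rw [htop, Subgroup.card_top] at hC
      exact hC
    · -- order eight
      left
      have hsq : ∀ g : S, (x * (g * x * g⁻¹)) * (x * (g * x * g⁻¹)) = 1 := by
        intro g
        have h1 := hmaxK g
        have h2 := pow_eq_one_of_le hS _ h1
        rw [pow_one, pow_two] at h2
        exact h2
      have hcomm : ∀ g : S, (g * x * g⁻¹) * x = x * (g * x * g⁻¹) := by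
        intro g
        have h1 := hsq g
        have hgg : (g * x * g⁻¹) * (g * x * g⁻¹) = 1 := by
          calc g * x * g⁻¹ * (g * x * g⁻¹) = g * (x * x) * g⁻¹ := by group
            _ = 1 := by rw [hxx]; group
        have h2 := eq_inv_of_mul_eq_one_left h1
        rw [mul_inv_rev, hxi, inv_eq_of_mul_eq_one_left hgg] at h2
        exact h2.symm
      have ha_ne : a ≠ 1 := by
        intro h
        rw [h, orderOf_one] at hK
        norm_num at hK
      have hxt' : x ≠ t' := by
        intro h
        apply ha_ne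
        rw [ha, ← h, hxx]
      have haa : a * a = 1 := by
        have := pow_orderOf_eq_one a
        rw [hK, pow_one, pow_two] at this
        exact this
      -- conjugates of `x` lie in three elements
      have hC4 : ∀ c : S, c * x = x * c → c = 1 ∨ c = x ∨ c = t' ∨ c = a := by
        intro c hc
        by_contra hcon
        push Not at hcon
        obtain ⟨c1, c2, c3, c4⟩ := hcon
        let F : Finset S := {c, 1, x, t', a}
        have hFcard : F.card = 5 := by
          have h1 : (1 : S) ≠ x := hx1.symm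
          have h2 : (1 : S) ≠ t' := by
            intro h
            rw [ht'] at h
            apply hx1
            have : x = g₀⁻¹ * (g₀ * x * g₀⁻¹) * g₀ := by group
            rw [this, ← h]
            group
          have h3 : (1 : S) ≠ a := ha_ne.symm
          have h4 : x ≠ a := by
            intro h
            have : t' = 1 := by
              rw [ha] at h
              simpa using h.symm
            exact h2 this.symm
          have h5 : t' ≠ a := by
            intro h
            have : x = 1 := by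
              rw [ha] at h
              simpa using h.symm
            exact hx1 this
          simp [F, Finset.card_insert_of_notMem, c1, c2, c3, c4, h1, h2, h3, h4, hxt', h5]
        have hFsub : (F : Set S) ⊆ (Subgroup.centralizer ({x} : Set S) : Set S) := by
          intro w hw
          simp only [F, Finset.coe_insert, Finset.coe_singleton, Set.mem_insert_iff, Set.mem_singleton_iff] at hw
          rw [SetLike.mem_coe, hmemC]
          rcases hw with rfl | rfl | rfl | rfl | rfl
          · exact hc
          · simp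
          · rfl
          · exact hcomm g₀
          · rw [ha, mul_assoc, hcomm g₀, ← mul_assoc]
        have h5 : (F : Set S).ncard ≤ (Subgroup.centralizer ({x} : Set S) : Set S).ncard :=
          Set.ncard_le_ncard hFsub (Set.toFinite _)
        rw [Set.ncard_coe_finset, hFcard] at h5
        have h6 : (Subgroup.centralizer ({x} : Set S) : Set S).ncard = 4 := by
          rw [← hC]
          exact (Nat.card_coe_set_eq _).symm
        omega
      have hidx : (Subgroup.centralizer ({x} : Set S)).index = 2 := by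
        have hcl := H6Basic.card_class_eq_index x
        have hle : Nat.card {y : S // IsConj x y} ≤ 3 := by
          have hsub : {y : S | IsConj x y} ⊆ ({x, t', a} : Finset S) := by
            intro y hy
            obtain ⟨c, rfl⟩ := isConj_iff.1 hy
            have h1 := hC4 _ (hcomm c)
            simp only [Finset.coe_insert, Finset.coe_singleton, Set.mem_insert_iff, Set.mem_singleton_iff]
            rcases h1 with h | h | h | h
            · exfalso
              apply hx1
              have : x = c⁻¹ * (c * x * c⁻¹) * c := by group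
              rw [this, h]
              group
            · exact Or.inl h
            · exact Or.inr (Or.inl h)
            · exact Or.inr (Or.inr h)
          have h2 := Set.ncard_le_ncard hsub (Set.toFinite _)
          rw [Set.ncard_coe_finset] at h2
          have h3 : ({x, t', a} : Finset S).card ≤ 3 := Finset.card_le_three
          have h4 : Nat.card {y : S // IsConj x y} = {y : S | IsConj x y}.ncard :=
            Nat.card_coe_set_eq _
          omega
        rw [hcl] at hle
        have h1 := (Subgroup.centralizer ({x} : Set S)).card_mul_index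
        rw [hC] at h1
        obtain ⟨n, hn⟩ := (IsPGroup.iff_card.1 hS)
        have hdvd : (Subgroup.centralizer ({x} : Set S)).index ∣ 2 ^ n := by
          rw [← hn, ← h1]
          exact dvd_mul_left _ _
        obtain ⟨w, -, hw⟩ := (Nat.dvd_prime_pow Nat.prime_two).1 hdvd
        have hne1 : (Subgroup.centralizer ({x} : Set S)).index ≠ 1 := by
          intro h
          rw [Subgroup.index_eq_one] at h
          have h2 : g₀ ∈ Subgroup.centralizer ({x} : Set S) := by rw [h]; trivial
          rw [hmemC] at h2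
          apply hxt'
          rw [ht', h2]
          simp
        rw [hw] at hle hne1 ⊢
        have hw1 : w = 1 := by
          rcases w with _ | _ | w
          · simp at hne1
          · rfl
          · exfalso
            have h2 : 2 ^ (w + 1 + 1) = 4 * 2 ^ w := by ring
            have h3 := Nat.one_le_two_pow (n := w)
            omega
        rw [hw1]
        norm_num
      have hcard : Nat.card S = 8 := by
        have h1 := (Subgroup.centralizer ({x} : Set S)).card_mul_index
        rw [hC, hidx] at h1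
        omega
      have hnc : ¬ ∀ a b : S, a * b = b * a := by
        intro h
        apply hxt'
        rw [ht', h g₀ x]
        simp
      obtain ⟨b, hb⟩ := Order8.exists_order_four hcard hnc
      have hnot : x ∉ zpowers b ∨ t' ∉ zpowers b := by
        by_contra hcon
        push Not at hcon
        obtain ⟨h1, h2⟩ := hcon
        have hinv : ∀ w ∈ zpowers b, w * w = 1 → w ≠ 1 → w = b ^ 2 := by
          intro w hw hww hw1
          rcases Order8.mem_zpowers_four hb hw with rfl | rfl | rfl | rfl
          · exact absurd rfl hw1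
          · exfalso
            have := orderOf_dvd_of_pow_eq_one (show w ^ 2 = 1 by rw [pow_two]; exact hww)
            rw [hb] at this
            norm_num at this
          · rfl
          · exfalso
            have h3 : b ^ 2 = 1 := by
              have h4 : b * b = 1 := by
                have := congrArg (fun u => u⁻¹) hww
                simpa using this
              rw [pow_two]; exact h4
            have := orderOf_dvd_of_pow_eq_one h3
            rw [hb] at this
            norm_num at this
        have ht'1 : t' ≠ 1 := by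
          intro h
          apply hx1
          have : x = g₀⁻¹ * (g₀ * x * g₀⁻¹) * g₀ := by group
          rw [this, ← ht', h]
          group
        exact hxt' ((hinv x h1 hxx hx1).trans (hinv t' h2 ht't' ht'1).symm)
      rcases hnot with hn | hn
      · exact ⟨4, Order8.nonempty_mulEquiv_dihedral_four hcard hnc hb (by rw [pow_two, hxx]) hn⟩
      · exact ⟨4, Order8.nonempty_mulEquiv_dihedral_four hcard hnc hb (by rw [pow_two, ht't']) hn⟩
  · -- the main case
    obtain ⟨L, rfl⟩ : ∃ L, K = L + 2 := ⟨K - 2, by omega⟩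
    set W : ℕ := 2 ^ L with hW
    have hW0 : 0 < W := by positivity
    have hoa : orderOf a = 4 * W := by rw [hK, hW]; ring
    have ha_dvd : ∀ i : ℤ, a ^ i = 1 ↔ (4 * (W : ℤ)) ∣ i := by
      intro i
      rw [← orderOf_dvd_iff_zpow_eq_one, hoa]
      push_cast
      rfl
    have hz_ne : a ^ (2 * W) ≠ 1 := by
      intro h
      have h1 := orderOf_dvd_of_pow_eq_one h
      rw [hoa] at h1
      have := Nat.le_of_dvd (by omega) h1
      omega
    have ha_sq : a ^ 2 ≠ 1 := by
      intro h
      have h1 := orderOf_dvd_of_pow_eq_one h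
      rw [hoa] at h1
      have := Nat.le_of_dvd (by omega) h1
      omega
    have htn : x ∉ zpowers a := by
      intro h
      obtain ⟨i, hi⟩ := h
      simp only at hi
      have h1 : x * a = a * x := by
        rw [← hi, ← zpow_add_one, ← zpow_one_add, add_comm]
      have h2 : x * a * x = a := by rw [h1, mul_assoc, hxx, mul_one]
      rw [hta] at h2
      apply ha_sq
      rw [pow_two]
      nth_rewrite 1 [← h2]
      simp
    have hN : x ∈ normalizer (zpowers a : Set S) :=
      mem_norm_zpowers hxx (-1) (by rw [hta, zpow_neg_one])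
    set z : S := a ^ (2 * W) with hz
    have hz' : z = a ^ (2 * (W : ℤ)) := by
      rw [hz, ← zpow_natCast]; push_cast; rfl
    have hzx : z * x = x * z := by
      rw [hz', zpow_mul_t hxx hta]
      congr 1
      rw [zpow_eq_zpow_iff_modEq, hoa]
      push_cast
      exact Int.modEq_iff_dvd.2 ⟨1, by ring⟩
    have hzn : z ≠ x := fun h => htn (by rw [← h, hz]; exact pow_mem (mem_zpowers a) _)
    have hC4 : ∀ c : S, c * x = x * c → c = 1 ∨ c = z ∨ c = x ∨ c = x * z := by
      intro c hc
      by_contra hcon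
      push Not at hcon
      obtain ⟨c1, c2, c3, c4⟩ := hcon
      let F : Finset S := {c, 1, z, x, x * z}
      have hFcard : F.card = 5 := by
        have h1 : (1 : S) ≠ z := hz_ne.symm
        have h2 : (1 : S) ≠ x := hx1.symm
        have h3 : (1 : S) ≠ x * z := by
          intro h
          apply hzn
          have := eq_inv_of_mul_eq_one_right h.symm
          rwa [hxi] at this
        have h4 : z ≠ x * z := by
          intro h
          apply hx1
          have : x * z * z⁻¹ = z * z⁻¹ := by rw [← h]
          simpa using this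
        have h5 : x ≠ x * z := by
          intro h
          apply hz_ne
          have : x⁻¹ * (x * z) = x⁻¹ * x := by rw [← h]
          simpa using this
        simp [F, Finset.card_insert_of_notMem, c1, c2, c3, c4, h1, h2, h3, h4, h5, hzn]
      have hFsub : (F : Set S) ⊆ (Subgroup.centralizer ({x} : Set S) : Set S) := by
        intro w hw
        simp only [F, Finset.coe_insert, Finset.coe_singleton, Set.mem_insert_iff, Set.mem_singleton_iff] at hw
        rw [SetLike.mem_coe, hmemC]
        rcases hw with rfl | rfl | rfl | rfl | rfl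
        · exact hc
        · simp
        · exact hzx
        · rfl
        · rw [mul_assoc, hzx]
      have h5 : (F : Set S).ncard ≤ (Subgroup.centralizer ({x} : Set S) : Set S).ncard :=
        Set.ncard_le_ncard hFsub (Set.toFinite _)
      rw [Set.ncard_coe_finset, hFcard] at h5
      have h6 : (Subgroup.centralizer ({x} : Set S) : Set S).ncard = 4 := by
        rw [← hC]
        exact (Nat.card_coe_set_eq _).symm
      omega
    have hmemD : ∀ w : S, w * x = x * w → w ∈ zpowers a ⊔ zpowers x := by
      intro w hw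
      have hzD : z ∈ zpowers a ⊔ zpowers x := mem_sup_left (pow_mem (mem_zpowers a) _)
      have htD : x ∈ zpowers a ⊔ zpowers x := mem_sup_right (mem_zpowers x)
      rcases hC4 w hw with rfl | rfl | rfl | rfl
      · exact one_mem _
      · exact hzD
      · exact htD
      · exact mul_mem htD hzD
    have hsq : ∀ i : ℤ, (x * a ^ i) ^ 2 = 1 := by
      intro i
      rw [pow_two]
      calc (x * a ^ i) * (x * a ^ i) = (x * a ^ i * x) * a ^ i := by group
        _ = 1 := by rw [conj_t_zpow hxx hta, zpow_neg]; group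
    by_cases hD : zpowers a ⊔ zpowers x = ⊤
    · left
      haveI : NeZero (4 * W) := ⟨by omega⟩
      refine ⟨4 * W, Dihedral.nonempty_mulEquiv_dihedral (4 * W) a x hoa (by rw [pow_two, hxx]) (by rw [hxi, hta]) htn ?_⟩
      rw [card_of_sup_top hxx hN htn hD, hoa]
    · obtain ⟨y, -, hyD, hyN⟩ := H5Basic.exists_mem_normalizer_of_lt (p := 2) (H := zpowers a ⊔ zpowers x)
        (J := ⊤) (IsPGroup.of_equiv hS Subgroup.topEquiv.symm) le_top hD
      obtain ⟨⟨k, hk⟩, j, hj⟩ := normalizer_form hN hxx hsq ha_sq hyN htn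
      have hk2 := odd_of_conj hW0 hoa hk
      -- `j` is odd
      have hj2 : j % 2 = 1 := by
        by_contra hcon
        obtain ⟨i, rfl⟩ : ∃ i : ℤ, j = 2 * i := ⟨j / 2, by omega⟩
        apply hyD
        have h1 := hmemD _ (commute_of_conj hxx hta i hj)
        have h2 := mul_mem (inv_mem (zpow_mem (mem_sup_left (mem_zpowers a) : a ∈ zpowers a ⊔ zpowers x) i)) h1
        simpa using h2
      obtain ⟨i, rfl⟩ : ∃ i : ℤ, j = 2 * i + 1 := ⟨j / 2, by omega⟩
      set y₁ : S := a ^ i * y with hy₁
      have hy₁a : y₁ * a * y₁⁻¹ = a ^ k := by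
        calc y₁ * a * y₁⁻¹ = a ^ i * (y * a * y⁻¹) * (a ^ i)⁻¹ := by rw [hy₁]; group
          _ = a ^ k := by
            rw [hk, ← zpow_add, ← zpow_sub]
            congr 1
            ring
      have hy₁x : y₁ * x * y₁⁻¹ = x * a := by
        calc y₁ * x * y₁⁻¹ = a ^ i * (y * x * y⁻¹) * a ^ (-i) := by rw [hy₁, zpow_neg]; group
          _ = (a ^ i * x) * a ^ (2 * i + 1) * a ^ (-i) := by rw [hj]; group
          _ = x * (a ^ (-i) * a ^ (2 * i + 1) * a ^ (-i)) := by rw [zpow_mul_t hxx hta]; group
          _ = x * a := by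
            rw [← zpow_add, ← zpow_add]
            have : -i + (2 * i + 1) + -i = 1 := by ring
            rw [this, zpow_one]
      have hC' : ∀ c : S, c * x = x * c →
          c = 1 ∨ c = a ^ (2 * 2 ^ L) ∨ c = x ∨ c = x * a ^ (2 * 2 ^ L) := fun c hc => hC4 c hc
      rcases (by omega : k % 4 = 1 ∨ k % 4 = 3) with h4 | h4
      · rcases level2 hS hK hxx hta hC' hmaxK hy₁x hy₁a h4 with h | h
        · exact Or.inl h
        · exact Or.inr (Or.inl h)
      · have hy₂a : (y₁ * x) * a * (y₁ * x)⁻¹ = a ^ (-k) := by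
          calc (y₁ * x) * a * (y₁ * x)⁻¹ = y₁ * (x * a * x⁻¹) * y₁⁻¹ := by group
            _ = y₁ * a⁻¹ * y₁⁻¹ := by rw [hxi, hta]
            _ = (y₁ * a * y₁⁻¹)⁻¹ := by group
            _ = a ^ (-k) := by rw [hy₁a, zpow_neg]
        have hy₂x : (y₁ * x) * x * (y₁ * x)⁻¹ = x * a := by
          rw [← hy₁x]
          group
        rcases level2 hS hK hxx hta hC' hmaxK hy₂x hy₂a (by omega) with h | h
        · exact Or.inl h
        · exact Or.inr (Or.inl h)

end Cfsg.Agent.S3224
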