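import Mathlib
import Cfsg.Statements.S3225
-- import your own Cfsg.Agent.* helpers here

set_option autoImplicit false
open Cfsg

namespace Cfsg.Agent.S3225

/-- Let G be a finite group of even order with no subgroup of index 2, S a Sylow 2-subgroup of G and M a subgroup of index 2 in S such that, for some n ≥ 1, every element of S outside M has order greater than 2^(n−1). Then every element of S of order 2ⁿ is conjugate in G to an element of M. -/
theorem result {G : Type*} [Group G] [Finite G] (hev : Even (Nat.card G))
    (hG : ∀ H : Subgroup G, H.index ≠ 2) (S : Sylow 2 G) (M : Subgroup G) (hMS : M ≤ (S : Subgroup G)) (hM : M.relIndex (S : Subgroup G) = 2)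
    (n : ℕ) (hn : 1 ≤ n) (hord : ∀ y ∈ (S : Subgroup G), y ∉ M → 2 ^ (n - 1) < orderOf y)
    (x : G) (hx : x ∈ (S : Subgroup G)) (hxn : orderOf x = 2 ^ n) :
    ∃ g : G, g * x * g⁻¹ ∈ M := by
  classical
  by_contra hcon
  push Not at hcon
  have hhalf : (M.subgroupOf (S : Subgroup G)).index = 2 := hM
  -- the sign character of `S` with kernel `M`
  let φ : (S : Subgroup G) →* ℤˣ := MonoidHom.mk'
    (fun s => if s ∈ M.subgroupOf (S : Subgroup G) then 1 else -1) (by
      intro a b
      have h := Subgroup.mul_mem_iff_of_index_two hhalf (a := a) (b := b)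
      by_cases ha : a ∈ M.subgroupOf (S : Subgroup G) <;>
      by_cases hb : b ∈ M.subgroupOf (S : Subgroup G) <;>
      simp [ha, hb, h])
  have hφ1 : ∀ s : (S : Subgroup G), (s : G) ∈ M → φ s = 1 := by
    intro s hs
    have : s ∈ M.subgroupOf (S : Subgroup G) := hs
    simp [φ, this]
  have hφ2 : ∀ s : (S : Subgroup G), (s : G) ∉ M → φ s = -1 := by
    intro s hs
    have : s ∉ M.subgroupOf (S : Subgroup G) := hs
    simp [φ, this]
  have : (S : Subgroup G).FiniteIndex := inferInstance
  let : Fintype (G ⧸ (S : Subgroup G)) := Fintype.ofFinite _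
  let : Fintype (Quotient (MulAction.orbitRel (Subgroup.zpowers x) (G ⧸ (S : Subgroup G)))) :=
    Fintype.ofFinite _
  have hV := MonoidHom.transfer_eq_prod_quotient_orbitRel_zpowers_quot φ x
  -- each factor is `(-1)^(period)`
  have hfactor : ∀ q : Quotient (MulAction.orbitRel (Subgroup.zpowers x) (G ⧸ (S : Subgroup G))),
      φ ⟨q.out.out⁻¹ * x ^ Function.minimalPeriod (x • ·) q.out * q.out.out,
        QuotientGroup.out_conj_pow_minimalPeriod_mem (S : Subgroup G) x q.out⟩ =
      (-1) ^ Function.minimalPeriod (x • ·) q.out := by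
    intro q
    set k := Function.minimalPeriod (x • ·) q.out with hk
    have hkpos : 0 < k := by
      apply Function.minimalPeriod_pos_of_mem_periodicPts
      have hfin : x ^ (2 ^ n) = 1 := by rw [← hxn]; exact pow_orderOf_eq_one x
      refine ⟨2 ^ n, by positivity, ?_⟩
      show Function.IsPeriodicPt (x • ·) (2 ^ n) q.out
      unfold Function.IsPeriodicPt Function.IsFixedPt
      rw [smul_iterate, hfin]; simp
    have hkd : k ∣ 2 ^ n := by
      apply Function.IsPeriodicPt.minimalPeriod_dvd
      have hfin : x ^ (2 ^ n) = 1 := by rw [← hxn]; exact pow_orderOf_eq_one x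
      unfold Function.IsPeriodicPt Function.IsFixedPt
      rw [smul_iterate, hfin]; simp
    set y : G := q.out.out⁻¹ * x ^ k * q.out.out with hy
    by_cases hk1 : k = 1
    · -- conjugate of `x` itself
      have : y ∉ M := by
        have := hcon (q.out.out⁻¹)
        rw [hy, hk1, pow_one]
        simpa using this
      rw [hφ2 _ this, ← hk, hk1, pow_one]
    · -- `k` is even and the conjugate has small order
      have h2k : 2 ∣ k := by
        obtain ⟨j, -, hj⟩ := (Nat.dvd_prime_pow Nat.prime_two).1 hkd
        rw [hj]
        rcases j with _ | j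
        · exact absurd (by simpa using hj) hk1
        · exact dvd_pow_self 2 (Nat.succ_ne_zero j)
      have hyM : y ∈ M := by
        by_contra hyM
        have hyS : y ∈ (S : Subgroup G) := QuotientGroup.out_conj_pow_minimalPeriod_mem (S : Subgroup G) x q.out
        have h1 := hord y hyS hyM
        have h2 : y ^ (2 ^ (n - 1)) = 1 := by
          have h3 : y = q.out.out⁻¹ * x ^ k * (q.out.out⁻¹)⁻¹ := by rw [hy, inv_inv]
          rw [h3, conj_pow, ← pow_mul]
          obtain ⟨c, hc⟩ := h2k
          have : k * 2 ^ (n - 1) = 2 ^ n * c := by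
            rw [hc]
            obtain ⟨m, rfl⟩ : ∃ m, n = m + 1 := ⟨n - 1, by omega⟩
            simp only [Nat.add_sub_cancel]
            ring
          rw [this, pow_mul, ← hxn, pow_orderOf_eq_one, one_pow]
          group
        have h4 : orderOf y ≤ 2 ^ (n - 1) := orderOf_le_of_pow_eq_one (by positivity) h2
        omega
      rw [hφ1 _ hyM]
      obtain ⟨c, hc⟩ := h2k
      rw [← hk, hc, pow_mul]
      simp
  have hprod : MonoidHom.transfer φ x = -1 := by
    rw [hV]
    rw [Finset.prod_congr rfl (fun q _ => hfactor q), Finset.prod_pow_eq_pow_sum]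
    -- sum of periods is the index, which is odd
    have hsum : ∑ q : Quotient (MulAction.orbitRel (Subgroup.zpowers x) (G ⧸ (S : Subgroup G))),
        Function.minimalPeriod (x • ·) q.out = (S : Subgroup G).index := by
      exact (Subgroup.index_eq_sum_minimalPeriod (S : Subgroup G) x).symm
    rw [hsum]
    have hodd : Odd (S : Subgroup G).index := by
      rw [← Nat.not_even_iff_odd, even_iff_two_dvd]
      exact S.not_dvd_index
    exact hodd.neg_one_pow
  -- so the transfer gives a subgroup of index two
  apply hG (MonoidHom.transfer φ).ker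
  rw [Subgroup.index_ker]
  have htop : (MonoidHom.transfer φ).range = ⊤ := by
    rw [eq_top_iff]
    intro u _
    rcases Int.units_eq_one_or u with rfl | rfl
    · exact Subgroup.one_mem _
    · exact ⟨x, hprod⟩
  rw [htop, Subgroup.card_top]
  simp

end Cfsg.Agent.S3225
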