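import Cfsg.Statements.S3247
import Mathlib
import Cfsg.Agent.Lib.PConstr
import Cfsg.Agent.Lib.CompsLocal
import Cfsg.Agent.Lib.PComps2
import Cfsg.Agent.Lib.PComps
import Cfsg.Agent.Lib.Layer
import Cfsg.Agent.Lib.Comps
import Cfsg.Agent.Lib.CoprimeAct

set_option autoImplicit false
open Cfsg

namespace Cfsg.Agent.S3247

open Subgroup Cfsg Cfsg.Agent.Lib Cfsg.Agent.Lib.PComps2 Cfsg.Agent.Lib.PComps Cfsg.Agent.Lib.PConstr
open scoped commutatorElement

theorem pLayer_of_centralizer' {M : Type*} [Group M] [Finite M] {p : ℕ} [Fact p.Prime]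
    (T₀ : Subgroup M) [hT₀n : T₀.Normal] (hT₀ : IsPGroup p T₀) (x : M) (hx : x ∈ T₀)
    (hS : pLayer p (centralizer ({x} : Set M)) = ⊥) : pLayer p M = ⊥ := by
  by_contra hne
  have hex : ∃ K : Subgroup M, IsPComponent p K := by
    by_contra hno
    apply hne
    unfold pLayer
    rw [eq_bot_iff]
    refine sSup_le fun K hK => ?_
    exact absurd ⟨K, hK⟩ hno
  obtain ⟨K, hK⟩ := hex
  haveI hOn : (pPrimeCore p M).Normal := FitCore.pPrimeCore_normal p
  have hsolv : Group.IsSolvable (T₀.map (QuotientGroup.mk' (pPrimeCore p M))) := by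
    haveI := (hT₀.map (QuotientGroup.mk' (pPrimeCore p M)) : IsPGroup p _).isNilpotent
    infer_instance
  have hnorm : (T₀.map (QuotientGroup.mk' (pPrimeCore p M))).Normal :=
    Subgroup.Normal.map hT₀n _ (QuotientGroup.mk'_surjective _)
  have hcomm := Comps.comp_comm_of_normal_solvable hK.2.1 hnorm hsolv
  have hKS : K ≤ centralizer ({x} : Set M) := by
    intro k hk
    rw [Subgroup.mem_centralizer_singleton_iff]
    have h1 : ⁅(QuotientGroup.mk' (pPrimeCore p M)) k, (QuotientGroup.mk' (pPrimeCore p M)) x⁆ = 1 := by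
      have : ⁅(QuotientGroup.mk' (pPrimeCore p M)) k, (QuotientGroup.mk' (pPrimeCore p M)) x⁆ ∈
          ⁅K.map (QuotientGroup.mk' (pPrimeCore p M)), T₀.map (QuotientGroup.mk' (pPrimeCore p M))⁆ :=
        Subgroup.commutator_mem_commutator ⟨k, hk, rfl⟩ ⟨x, hx, rfl⟩
      rw [hcomm] at this
      exact this
    have h2 : ⁅k, x⁆ ∈ pPrimeCore p M := by
      rw [← QuotientGroup.eq_one_iff]
      have : ((⁅k, x⁆ : M) : M ⧸ pPrimeCore p M) = ⁅(QuotientGroup.mk' (pPrimeCore p M)) k, (QuotientGroup.mk' (pPrimeCore p M)) x⁆ := by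
        simp [commutatorElement_def]
      rw [this]; exact h1
    have h3 : ⁅k, x⁆ ∈ T₀ := by
      rw [commutatorElement_def]
      exact T₀.mul_mem (hT₀n.conj_mem x hx k) (T₀.inv_mem hx)
    have h4 : ⁅k, x⁆ = 1 := by
      have hc : (Nat.card (pPrimeCore p M)).Coprime p := card_coprime_pPrimeCore
      have h5 : orderOf (⟨_, h2⟩ : pPrimeCore p M) ∣ Nat.card (pPrimeCore p M) := orderOf_dvd_natCard _
      rw [Subgroup.orderOf_mk] at h5
      have h6 : (orderOf (⁅k, x⁆ : M)).Coprime p := Nat.Coprime.coprime_dvd_left h5 hc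
      exact CoprimeAct.eq_one_of_mem_pgroup_of_coprime hT₀ h3 h6
    have h7 : k * x * k⁻¹ * x⁻¹ = 1 := h4
    have h8 : k * x = x * k := by
      calc k * x = (k * x * k⁻¹ * x⁻¹) * (x * k) := by group
        _ = x * k := by rw [h7, one_mul]
    exact h8
  have h1 : (K.subgroupOf (centralizer ({x} : Set M))).IsSubnormal := by
    have := hK.1.comap (centralizer ({x} : Set M)).subtype
    exact this
  have h2 := pLayer_subnormal hS h1
  have h3 : IsPConstrained p K :=
    constrained_of_equiv (Subgroup.subgroupOfEquivOfLe hKS) (isPConstrained_iff.2 h2)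
  have h4 : layer (K ⧸ pPrimeCore p K) = ⊥ := pLayer_eq_bot_iff.1 (isPConstrained_iff.1 h3)
  have h5 : IsQuasisimple (K ⧸ pPrimeCore p K) := quasisimple_quot hK
  have h6 : IsComponent (⊤ : Subgroup (K ⧸ pPrimeCore p K)) :=
    ⟨Subgroup.Normal.isSubnormal inferInstance, Layer.isQuasisimple_congr Subgroup.topEquiv.symm h5⟩
  have h7 : (⊤ : Subgroup (K ⧸ pPrimeCore p K)) ≤ layer (K ⧸ pPrimeCore p K) := le_sSup h6
  rw [h4] at h7
  exact Comps.comp_ne_bot h6 (le_bot_iff.1 h7)

/-- Let G be a finite group and p a prime; here a p-local subgroup means the normalizer of a nontrivial p-subgroup, other than G itself. If every p-local subgroup of G that is maximal among p-local subgroups is p-constrained, or if the centralizer of every element of order p of G is p-constrained, then every p-local subgroup of G is p-constrained. -/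
theorem result {G : Type*} [Group G] [Finite G] (p : ℕ) [hp : Fact p.Prime]
    (h : (∀ M : Subgroup G, (∃ T : Subgroup G, IsPGroup p ↥T ∧ T ≠ ⊥ ∧ M = Subgroup.normalizer (T : Set G)) → M ≠ ⊤ →
        (∀ M' : Subgroup G, (∃ T' : Subgroup G, IsPGroup p ↥T' ∧ T' ≠ ⊥ ∧ M' = Subgroup.normalizer (T' : Set G)) → M' ≠ ⊤ → M ≤ M' → M = M') →
        Cfsg.IsPConstrained p ↥M) ∨
      (∀ x : G, orderOf x = p → Cfsg.IsPConstrained p ↥(Subgroup.centralizer ({x} : Set G))))
    (T : Subgroup G) (hT : IsPGroup p ↥T) (hT1 : T ≠ ⊥) (hTG : Subgroup.normalizer (T : Set G) ≠ ⊤) :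
    Cfsg.IsPConstrained p ↥(Subgroup.normalizer (T : Set G)) := by
  classical
  rcases h with h | h
  · -- maximal locals
    have hmem : normalizer (T : Set G) ∈ {M : Subgroup G | (∃ T' : Subgroup G, IsPGroup p ↥T' ∧ T' ≠ ⊥ ∧ M = normalizer (T' : Set G)) ∧ M ≠ ⊤} :=
      ⟨⟨T, hT, hT1, rfl⟩, hTG⟩
    obtain ⟨M, hle, hmax⟩ := (Set.toFinite {M : Subgroup G | (∃ T' : Subgroup G, IsPGroup p ↥T' ∧ T' ≠ ⊥ ∧ M = normalizer (T' : Set G)) ∧ M ≠ ⊤}).exists_le_maximal hmem
    have hM := h M hmax.1.1 hmax.1.2 (fun M' hM' hne hMM' => le_antisymm hMM' (hmax.2 ⟨hM', hne⟩ hMM'))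
    have hTM : T ≤ M := (le_normalizer).trans hle
    have h2 := (constrained_normalizer_centralizer hM (T.subgroupOf M)
      (hT.comap_of_injective M.subtype M.subtype_injective)).1
    have hmap : (normalizer ((T.subgroupOf M : Subgroup M) : Set M)).map M.subtype = normalizer (T : Set G) := by
      ext x
      constructor
      · rintro ⟨y, hy, rfl⟩
        exact (CompsLocal.mem_normalizer_subgroupOf_iff hTM y).1 hy
      · intro hx
        exact ⟨⟨x, hle hx⟩, (CompsLocal.mem_normalizer_subgroupOf_iff hTM ⟨x, hle hx⟩).2 hx, rfl⟩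
    exact constrained_of_equiv ((Subgroup.equivMapOfInjective _ M.subtype M.subtype_injective).trans
      (MulEquiv.subgroupCongr hmap)) h2
  · -- centralizers
    rw [isPConstrained_iff]
    -- a central element of order `p`
    obtain ⟨t, htT, htp, htc⟩ : ∃ t ∈ T, orderOf t = p ∧ ∀ a ∈ T, a * t = t * a := by
      haveI : Nontrivial T := (Subgroup.nontrivial_iff_ne_bot T).2 hT1
      haveI := hT.center_nontrivial
      have hc : IsPGroup p (center T) := hT.to_subgroup _
      obtain ⟨z, hz⟩ := exists_ne (1 : center T)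
      obtain ⟨m, hm⟩ := IsPGroup.iff_orderOf.1 hc z
      have hm0 : m ≠ 0 := by
        rintro rfl
        rw [pow_zero, orderOf_eq_one_iff] at hm
        exact hz hm
      have hd : p ∣ orderOf z := by rw [hm]; exact dvd_pow_self p hm0
      have hp0 : orderOf z ≠ 0 := by rw [hm]; exact pow_ne_zero _ hp.out.ne_zero
      have hk := orderOf_pow_orderOf_div hp0 hd
      refine ⟨((z ^ (orderOf z / p) : center T) : T), ((z ^ (orderOf z / p) : center T) : T).2, ?_, ?_⟩
      · rw [Subgroup.orderOf_coe, Subgroup.orderOf_coe, hk]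
      · intro a ha
        have := Subgroup.mem_center_iff.1 (z ^ (orderOf z / p) : center T).2 ⟨a, ha⟩
        exact congrArg Subtype.val this
    have hX := h t htp
    set X := centralizer ({t} : Set G) with hXdef
    have hTX : T ≤ X := by
      intro a ha
      rw [hXdef, Subgroup.mem_centralizer_singleton_iff]
      exact htc a ha
    have h2 := (constrained_normalizer_centralizer hX (T.subgroupOf X)
      (hT.comap_of_injective X.subtype X.subtype_injective)).1
    set M := normalizer (T : Set G) with hM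
    have htM : t ∈ M := Subgroup.le_normalizer htT
    set S := centralizer ({(⟨t, htM⟩ : M)} : Set M) with hS
    have hW : (normalizer ((T.subgroupOf X : Subgroup X) : Set X)).map X.subtype = S.map M.subtype := by
      ext w
      constructor
      · rintro ⟨x, hx, rfl⟩
        have h3 : (x : G) ∈ M := (CompsLocal.mem_normalizer_subgroupOf_iff hTX x).1 hx
        refine ⟨⟨x, h3⟩, ?_, rfl⟩
        show (⟨x, h3⟩ : M) ∈ S
        rw [hS, Subgroup.mem_centralizer_singleton_iff]
        apply Subtype.ext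
        exact Subgroup.mem_centralizer_singleton_iff.1 x.2
      · rintro ⟨y, hy, rfl⟩
        have hyX : (y : G) ∈ X := by
          rw [hXdef, Subgroup.mem_centralizer_singleton_iff]
          have hy' : y ∈ S := hy
          rw [hS, Subgroup.mem_centralizer_singleton_iff] at hy'
          exact congrArg Subtype.val hy'
        refine ⟨⟨y, hyX⟩, ?_, rfl⟩
        exact (CompsLocal.mem_normalizer_subgroupOf_iff hTX ⟨y, hyX⟩).2 y.2
    let e : (normalizer ((T.subgroupOf X : Subgroup X) : Set X)) ≃* S :=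
      (Subgroup.equivMapOfInjective _ X.subtype X.subtype_injective).trans
        ((MulEquiv.subgroupCongr hW).trans
          (Subgroup.equivMapOfInjective S M.subtype M.subtype_injective).symm)
    have hSc : pLayer p S = ⊥ := isPConstrained_iff.1 (constrained_of_equiv e h2)
    haveI hTn : (T.subgroupOf M).Normal := Subgroup.normal_in_normalizer
    exact pLayer_of_centralizer' (T.subgroupOf M) (hT.comap_of_injective M.subtype M.subtype_injective)
      ⟨t, htM⟩ htT hSc

end Cfsg.Agent.S3247
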