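import Mathlib
import Cfsg.Statements.S3276
-- import your own Cfsg.Agent.* helpers here

set_option autoImplicit false
open Cfsg

namespace Cfsg.Agent.S3276

/-- Let x and y be commuting, non-conjugate involutions of a finite group G, and suppose that for every involution u commuting with x, each conjugate of y that commutes with u also commutes with y. Then the normal closure of y is a proper, normal, elementary abelian 2-subgroup of G; and if y is the only involution of that normal closure commuting with x, it has order at most 4. -/
theorem result {G : Type*} [Group G] [Finite G] (x y : G) (hx : orderOf x = 2) (hy : orderOf y = 2)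
    (hxy : Commute x y) (hnc : ¬ IsConj x y)
    (hstar : ∀ u : G, orderOf u = 2 → Commute u x → ∀ g : G, Commute (g * y * g⁻¹) u → Commute (g * y * g⁻¹) y) :
    Subgroup.normalClosure ({y} : Set G) ≠ ⊤ ∧ Cfsg.IsElementaryAbelian 2 (Subgroup.normalClosure ({y} : Set G)) ∧
      ((∀ u ∈ Subgroup.normalClosure ({y} : Set G), orderOf u = 2 → Commute u x → u = y) →
        Nat.card ↥(Subgroup.normalClosure ({y} : Set G)) ≤ 4) := by
  classical
  have hx2 : x * x = 1 := by
    have := pow_orderOf_eq_one x
    rwa [hx, pow_two] at this
  have hy2 : y * y = 1 := by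
    have := pow_orderOf_eq_one y
    rwa [hy, pow_two] at this
  have hxinv : x⁻¹ = x := inv_eq_of_mul_eq_one_left hx2
  -- each conjugate of `y` commutes with `y`
  have hconj : ∀ g : G, Commute (g * y * g⁻¹) y := by
    intro g
    set z : G := g * y * g⁻¹ with hz
    have hz2 : z * z = 1 := by
      rw [hz]
      calc g * y * g⁻¹ * (g * y * g⁻¹) = g * (y * y) * g⁻¹ := by group
        _ = 1 := by rw [hy2]; group
    have hzinv : z⁻¹ = z := inv_eq_of_mul_eq_one_left hz2
    set d : G := x * z with hd
    have hdinv : d⁻¹ = z * x := by rw [hd, mul_inv_rev, hzinv, hxinv]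
    have hxd : x * d * x⁻¹ = d⁻¹ := by
      rw [hdinv, hd, hxinv]
      calc x * (x * z) * x = (x * x) * z * x := by group
        _ = z * x := by rw [hx2]; group
    have hzd : z * d * z⁻¹ = d⁻¹ := by
      rw [hdinv, hd, hzinv]
      calc z * (x * z) * z = z * x * (z * z) := by group
        _ = z * x := by rw [hz2]; group
    rcases Nat.even_or_odd (orderOf d) with he | ho
    · obtain ⟨m, hm⟩ := he
      have hm0 : m ≠ 0 := by
        intro h0
        have := orderOf_pos d
        omega
      set u : G := d ^ m with hu
      have hordu : orderOf u = 2 := by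
        rw [hu]
        have h1 : orderOf (d ^ m) = orderOf d / Nat.gcd (orderOf d) m := orderOf_pow' d hm0
        rw [h1, hm]
        have h2 : Nat.gcd (m + m) m = m := by
          rw [← two_mul]; exact Nat.gcd_eq_right (Dvd.intro_left 2 rfl)
        rw [h2, ← two_mul]
        exact Nat.mul_div_cancel _ (Nat.pos_of_ne_zero hm0)
      have hu2 : u⁻¹ = u := by
        have h1 : u * u = 1 := by
          rw [hu, ← pow_add, ← hm, pow_orderOf_eq_one]
        exact inv_eq_of_mul_eq_one_left h1
      have hxu : x * u * x⁻¹ = u := by
        rw [hu, ← conj_pow, hxd, inv_pow, ← hu, hu2]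
      have hzu : z * u * z⁻¹ = u := by
        rw [hu, ← conj_pow, hzd, inv_pow, ← hu, hu2]
      have hcux : Commute u x := by
        show u * x = x * u
        calc u * x = (x * u * x⁻¹) * x := by rw [hxu]
          _ = x * u := by group
      have hczu : Commute z u := by
        show z * u = u * z
        calc z * u = (z * u * z⁻¹) * z := by group
          _ = u * z := by rw [hzu]
      exact hstar u hordu hcux g hczu
    · -- odd order: `x` and `z` are conjugate
      exfalso
      obtain ⟨m, hm⟩ := ho
      have hpow : ∀ k : ℕ, d ^ k * x * (d ^ k)⁻¹ = d ^ (2 * k) * x := by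
        intro k
        have h1 : x * (d ^ k)⁻¹ = d ^ k * x := by
          have h2 : x * d ^ k * x⁻¹ = (d ^ k)⁻¹ := by
            rw [← conj_pow, hxd, inv_pow]
          have h3 : (d ^ k)⁻¹ = x * d ^ k * x := by rw [← h2, hxinv]
          rw [h3]
          calc x * (x * d ^ k * x) = (x * x) * d ^ k * x := by group
            _ = d ^ k * x := by rw [hx2]; group
        rw [mul_assoc, h1, ← mul_assoc, ← pow_add, two_mul]
      have h1 := hpow m
      have h2 : d ^ (2 * m) = d⁻¹ := by
        have h3 : d ^ (2 * m + 1) = 1 := by rw [← hm, pow_orderOf_eq_one]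
        rw [pow_succ] at h3
        exact eq_inv_of_mul_eq_one_left h3
      rw [h2, hdinv] at h1
      have h3 : z * x * x = z := by rw [mul_assoc, hx2, mul_one]
      rw [h3] at h1
      apply hnc
      have h4 : IsConj x z := by
        rw [isConj_iff]
        exact ⟨d ^ m, h1⟩
      have h5 : IsConj z y := by
        rw [isConj_iff]
        exact ⟨g⁻¹, by rw [hz]; group⟩
      exact h4.trans h5
  -- all conjugates commute pairwise
  have hpair : ∀ a b : G, Commute (a * y * a⁻¹) (b * y * b⁻¹) := by
    intro a b
    have h := hconj (b⁻¹ * a)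
    have e1 : (b⁻¹ * a) * y * (b⁻¹ * a)⁻¹ = b⁻¹ * (a * y * a⁻¹) * b := by group
    rw [e1] at h
    show a * y * a⁻¹ * (b * y * b⁻¹) = b * y * b⁻¹ * (a * y * a⁻¹)
    have h' : (b⁻¹ * (a * y * a⁻¹) * b) * y = y * (b⁻¹ * (a * y * a⁻¹) * b) := h
    calc a * y * a⁻¹ * (b * y * b⁻¹) = b * ((b⁻¹ * (a * y * a⁻¹) * b) * y) * b⁻¹ := by group
      _ = b * (y * (b⁻¹ * (a * y * a⁻¹) * b)) * b⁻¹ := by rw [h']
      _ = _ := by group
  set N := Subgroup.normalClosure ({y} : Set G) with hN
  have hNeq : N = Subgroup.closure (Group.conjugatesOfSet ({y} : Set G)) := rfl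
  have hcl : ∀ c ∈ Group.conjugatesOfSet ({y} : Set G), ∃ a : G, c = a * y * a⁻¹ := by
    intro c hc
    rw [Group.mem_conjugatesOfSet_iff] at hc
    obtain ⟨a, rfl, hac⟩ := hc
    rw [isConj_iff] at hac
    obtain ⟨b, hb⟩ := hac
    exact ⟨b, hb.symm⟩
  -- `N` is commutative
  have hcomm : ∀ u ∈ N, ∀ v ∈ N, u * v = v * u := by
    have hc1 : ∀ c ∈ Group.conjugatesOfSet ({y} : Set G), ∀ c' ∈ Group.conjugatesOfSet ({y} : Set G), c * c' = c' * c := by
      intro c hc c' hc'
      obtain ⟨a, rfl⟩ := hcl c hc
      obtain ⟨b, rfl⟩ := hcl c' hc'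
      exact hpair a b
    intro u hu v hv
    have hle : N ≤ Subgroup.centralizer (Subgroup.closure (Group.conjugatesOfSet ({y} : Set G)) : Set G) := by
      rw [hNeq, Subgroup.closure_le, Subgroup.centralizer_closure]
      intro c hc
      rw [SetLike.mem_coe, Subgroup.mem_centralizer_iff]
      intro c' hc'
      exact hc1 c' hc' c hc
    have h2 := Subgroup.mem_centralizer_iff.1 (hle hu) v hv
    exact h2.symm
  -- elements of `N` are involutive
  have hsq : ∀ u ∈ N, u ^ 2 = 1 := by
    intro u hu
    rw [hNeq] at hu
    induction hu using Subgroup.closure_induction with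
    | mem c hc =>
      obtain ⟨a, rfl⟩ := hcl c hc
      rw [pow_two]
      calc a * y * a⁻¹ * (a * y * a⁻¹) = a * (y * y) * a⁻¹ := by group
        _ = 1 := by rw [hy2]; group
    | one => simp
    | mul p q hp hq ihp ihq =>
      have h1 : p * q = q * p := hcomm p (by rw [hNeq]; exact hp) q (by rw [hNeq]; exact hq)
      have h2 : Commute p q := h1
      rw [h2.mul_pow, ihp, ihq, one_mul]
    | inv p _ ih =>
      rw [inv_pow, ih, inv_one]
  have hyN : y ∈ N := Subgroup.subset_normalClosure rfl
  have hNn : N.Normal := Subgroup.normalClosure_normal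
  refine ⟨?_, ⟨⟨⟨fun a b => Subtype.ext (hcomm a a.2 b b.2)⟩⟩, hsq⟩, ?_⟩
  · intro htop
    -- then `G` is commutative and generated by `y`
    have hcG : ∀ a b : G, a * b = b * a := fun a b =>
      hcomm a (by rw [htop]; trivial) b (by rw [htop]; trivial)
    have hle : N ≤ Subgroup.zpowers y := by
      rw [hNeq, Subgroup.closure_le]
      intro c hc
      obtain ⟨a, rfl⟩ := hcl c hc
      have : a * y * a⁻¹ = y := by rw [hcG a y]; group
      rw [this]
      exact Subgroup.mem_zpowers y
    have hxz : x ∈ Subgroup.zpowers y := hle (by rw [htop]; trivial)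
    obtain ⟨k, hk⟩ := Subgroup.mem_zpowers_iff.1 hxz
    have hk2 : y ^ (k % 2) = x := by
      have h9 := zpow_mod_orderOf y k
      rw [hy] at h9
      rw [← hk]
      exact_mod_cast h9
    have hk3 : k % 2 = 0 ∨ k % 2 = 1 := by omega
    rcases hk3 with h0 | h1
    · rw [h0, zpow_zero] at hk2
      rw [← hk2, orderOf_one] at hx
      omega
    · rw [h1, zpow_one] at hk2
      exact hnc (by rw [hk2])
  · intro honly
    -- the set of values
    have hfix : ∀ z ∈ N, x * z * x⁻¹ = z → z = 1 ∨ z = y := by
      intro z hz hzx
      by_cases hz1 : z = 1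
      · exact Or.inl hz1
      right
      apply honly z hz
      · have h2 := hsq z hz
        exact orderOf_eq_prime h2 hz1
      · show z * x = x * z
        calc z * x = (x * z * x⁻¹) * x := by rw [hzx]
          _ = x * z := by group
    -- for every `z`, `z * (x z x⁻¹)` is fixed
    have hval : ∀ z ∈ N, x * z * x⁻¹ = z ∨ x * z * x⁻¹ = z * y := by
      intro z hz
      have hzc : x * z * x⁻¹ ∈ N := hNn.conj_mem z hz x
      have hw : z * (x * z * x⁻¹) ∈ N := N.mul_mem hz hzc
      have hfixw : x * (z * (x * z * x⁻¹)) * x⁻¹ = z * (x * z * x⁻¹) := by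
        have e : x * (z * (x * z * x⁻¹)) * x⁻¹ = (x * z * x⁻¹) * ((x * x) * z * (x * x)⁻¹) := by
          group
        rw [e, hx2]
        simp only [one_mul, inv_one, mul_one]
        exact hcomm _ hzc _ hz
      have hz2 : z * z = 1 := by
        have := hsq z hz
        rwa [pow_two] at this
      have hzinv : z⁻¹ = z := inv_eq_of_mul_eq_one_left hz2
      rcases hfix _ hw hfixw with h | h
      · left
        have : x * z * x⁻¹ = z⁻¹ := eq_inv_of_mul_eq_one_right h
        rw [this, hzinv]
      · right
        have : x * z * x⁻¹ = z⁻¹ * y := by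
          rw [← h]; group
        rw [this, hzinv]
    by_cases hall : ∀ z ∈ N, z = 1 ∨ z = y
    · -- at most two elements
      have hsub : (N : Set G) ⊆ (({1, y} : Finset G) : Set G) := by
        intro z hz
        rcases hall z hz with h | h <;> simp [h]
      have hc := Nat.card_mono (Finset.finite_toSet _) hsub
      have h3 : Nat.card (({1, y} : Finset G) : Set G) ≤ 2 := by
        rw [Nat.card_coe_set_eq, Set.ncard_coe_finset]
        exact Finset.card_le_two
      have h4 : Nat.card (N : Set G) = Nat.card N := rfl
      omega
    · push Not at hall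
      obtain ⟨z, hz, hz1, hzy⟩ := hall
      have hzval : x * z * x⁻¹ = z * y := by
        rcases hval z hz with h | h
        · exact absurd (hfix z hz h) (by tauto)
        · exact h
      have hsub : (N : Set G) ⊆ (({1, y, z, z * y} : Finset G) : Set G) := by
        intro w hw
        rcases hval w hw with h | h
        · rcases hfix w hw h with h1 | h1 <;> simp [h1]
        · -- then `w z` is fixed
          have hwz : w * z ∈ N := N.mul_mem hw hz
          have hfixwz : x * (w * z) * x⁻¹ = w * z := by
            have e : x * (w * z) * x⁻¹ = (x * w * x⁻¹) * (x * z * x⁻¹) := by group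
            rw [e, h, hzval]
            have hyc : y * z = z * y := hcomm y hyN z hz
            calc w * y * (z * y) = w * (y * z) * y := by group
              _ = w * (z * y) * y := by rw [hyc]
              _ = w * z * (y * y) := by group
              _ = w * z := by rw [hy2]; group
          have hz2 : z * z = 1 := by
            have := hsq z hz
            rwa [pow_two] at this
          rcases hfix _ hwz hfixwz with h1 | h1
          · have : w = z := by
              have h5 : w = z⁻¹ := eq_inv_of_mul_eq_one_left h1
              rw [h5]; exact inv_eq_of_mul_eq_one_left hz2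
            simp [this]
          · have : w = z * y := by
              have h5 : w = y * z⁻¹ := eq_mul_inv_of_mul_eq h1
              rw [h5, inv_eq_of_mul_eq_one_left hz2]
              exact hcomm y hyN z hz
            simp [this]
      have hc := Nat.card_mono (Finset.finite_toSet _) hsub
      have h3 : Nat.card (({1, y, z, z * y} : Finset G) : Set G) ≤ 4 := by
        rw [Nat.card_coe_set_eq, Set.ncard_coe_finset]
        exact Finset.card_le_four
      have h4 : Nat.card (N : Set G) = Nat.card N := rfl
      omega

end Cfsg.Agent.S3276
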