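import Cfsg.Statements.S3279
import Cfsg.Agent.Lib.ThreeInv
import Cfsg.Agent.Lib.GrunFusion
-- import your own Cfsg.Agent.* helpers here

set_option autoImplicit false
open Cfsg

namespace Cfsg.Agent.S3279

/-- Let G be a finite simple group and x an involution of G whose centralizer contains at most three involutions. Then C_G(x) contains a Sylow 2-subgroup of G, and all involutions of G are conjugate. -/
theorem result {G : Type*} [Group G] [Finite G] [IsSimpleGroup G] (x : G) (hx : orderOf x = 2)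
    (h3 : Nat.card {u : ↥(Subgroup.centralizer ({x} : Set G)) // orderOf u = 2} ≤ 3) :
    (∃ S : Sylow 2 G, (S : Subgroup G) ≤ Subgroup.centralizer ({x} : Set G)) ∧
      ∀ u v : G, orderOf u = 2 → orderOf v = 2 → IsConj u v := by
  classical
  have hxx : x * x = 1 := by
    have := pow_orderOf_eq_one x
    rwa [hx, pow_two] at this
  have hx1 : x ≠ 1 := by
    intro e
    rw [e, orderOf_one] at hx
    omega
  have hT := Cfsg.Agent.Lib.ThreeInv.three_of_card hxx hx1 h3
  have mem : ∀ {a b : G}, a * b = b * a → a ∈ Subgroup.centralizer ({b} : Set G) := by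
    intro a b ha
    rw [Subgroup.mem_centralizer_iff]
    intro c hc
    rw [Set.mem_singleton_iff.1 hc]
    exact ha.symm
  have mem' : ∀ {a b : G}, a ∈ Subgroup.centralizer ({b} : Set G) → a * b = b * a := by
    intro a b ha
    rw [Subgroup.mem_centralizer_iff] at ha
    exact (ha b rfl).symm
  have ofOrd : ∀ {u : G}, orderOf u = 2 → u * u = 1 ∧ u ≠ 1 := by
    intro u hu
    refine ⟨?_, ?_⟩
    · have := pow_orderOf_eq_one u
      rwa [hu, pow_two] at this
    · intro e
      rw [e, orderOf_one] at hu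
      omega
  by_cases hc : ∀ a b : G, a * b = b * a
  · -- commutative case
    have key : ∀ u : G, u * u = 1 → u ≠ 1 → u = x := by
      intro u huu hu1
      haveI : (Subgroup.zpowers u).Normal := by
        constructor
        intro n hn g
        rw [hc g n, mul_assoc, mul_inv_cancel, mul_one]
        exact hn
      rcases (inferInstance : (Subgroup.zpowers u).Normal).eq_bot_or_eq_top with e | e
      · exfalso
        rw [Subgroup.zpowers_eq_bot] at e
        exact hu1 e
      · have hxm : x ∈ Subgroup.zpowers u := e ▸ Subgroup.mem_top x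
        have hcard : orderOf u = 2 := orderOf_eq_prime (by rw [pow_two]; exact huu) hu1
        rw [Subgroup.mem_zpowers_iff] at hxm
        obtain ⟨k, hk⟩ := hxm
        rcases Int.even_or_odd' k with ⟨m, rfl | rfl⟩
        · exfalso
          apply hx1
          rw [← hk, zpow_mul]
          have : u ^ (2 : ℤ) = 1 := by
            rw [show (2 : ℤ) = ((2 : ℕ) : ℤ) from rfl, zpow_natCast, pow_two]; exact huu
          rw [this, one_zpow]
        · rw [← hk, zpow_add, zpow_mul]
          have : u ^ (2 : ℤ) = 1 := by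
            rw [show (2 : ℤ) = ((2 : ℕ) : ℤ) from rfl, zpow_natCast, pow_two]; exact huu
          rw [this, one_zpow, one_mul, zpow_one]
    refine ⟨?_, ?_⟩
    · obtain ⟨S⟩ : Nonempty (Sylow 2 G) := inferInstance
      exact ⟨S, fun a _ => mem (hc a x)⟩
    · intro u v hu hv
      have h1 := key u (ofOrd hu).1 (ofOrd hu).2
      have h2 := key v (ofOrd hv).1 (ofOrd hv).2
      rw [h1, h2]
  -- noncommutative case
  have stepA : ∀ y h : G, y = h * x * h⁻¹ → y * x = x * y → y ≠ x → IsConj x (x * y) := by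
    intro y h hy hyx hne
    by_contra hnc
    have hyy : y * y = 1 := by
      rw [hy]
      calc h * x * h⁻¹ * (h * x * h⁻¹) = h * (x * x) * h⁻¹ := by group
        _ = 1 := by rw [hxx]; group
    have hz1 : x * y ≠ 1 := by
      intro e
      apply hne
      have : y = x⁻¹ := eq_inv_of_mul_eq_one_right e
      rw [this, Cfsg.Agent.Lib.ThreeInv.inv_eq_of_sq hxx]
    exact hc (Cfsg.Agent.Lib.ThreeInv.comm_of_conj_comm hz1
      (Cfsg.Agent.Lib.ThreeInv.all_commute hxx hx1 hT hy hyx hne hnc))
  -- `x` is not isolated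
  obtain ⟨g₀, hg₀c, hg₀n⟩ : ∃ g : G, (g * x * g⁻¹) * x = x * (g * x * g⁻¹) ∧ g * x * g⁻¹ ≠ x := by
    by_contra hcon
    push Not at hcon
    have hiso : IsIsolatedInvolution x := ⟨hx, fun g hg => hcon g hg.eq.symm⟩
    obtain ⟨N, hN, hNo, hNg⟩ := Cfsg.Agent.Lib.ZStar.zstar x (Cfsg.Agent.Lib.ZStar.iso_of_isolated hiso)
    rcases hN.eq_bot_or_eq_top with e | e
    · apply hc
      refine Cfsg.Agent.Lib.ThreeInv.comm_of_conj_comm hx1 ?_
      intro g
      have h1 := hNg g
      rw [e, Subgroup.mem_bot] at h1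
      have h2 : x * g * x⁻¹ = g := by
        exact mul_inv_eq_one.1 h1
      have h3' : g * x * g⁻¹ = x := by
        have h4 : x * g = g * x := by
          calc x * g = x * g * x⁻¹ * x := by group
            _ = g * x := by rw [h2]
        rw [← h4]; group
      rw [h3']
    · rw [e] at hNo
      have h2 : 2 ∣ Nat.card (⊤ : Subgroup G) := by
        rw [Nat.card_congr Subgroup.topEquiv.toEquiv, ← hx]
        exact orderOf_dvd_natCard x
      exact (Nat.not_even_iff_odd.2 hNo) (even_iff_two_dvd.2 h2)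
  have hzc : IsConj x (x * (g₀ * x * g₀⁻¹)) := stepA _ g₀ rfl hg₀c hg₀n
  -- Sylow part
  have hS : ∃ S : Sylow 2 G, (S : Subgroup G) ≤ Subgroup.centralizer ({x} : Set G) := by
    set C := Subgroup.centralizer ({x} : Set G) with hC
    obtain ⟨⟨S₀, hS₀C, hS₀p⟩, hmax⟩ : ∃ R : {R : Subgroup G // R ≤ C ∧ IsPGroup 2 R},
        ∀ R' : {R : Subgroup G // R ≤ C ∧ IsPGroup 2 R}, Nat.card R'.1 ≤ Nat.card R.1 := by
      haveI : Nonempty {R : Subgroup G // R ≤ C ∧ IsPGroup 2 R} :=
        ⟨⟨⊥, bot_le, IsPGroup.of_bot⟩⟩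
      exact Finite.exists_max (fun R : {R : Subgroup G // R ≤ C ∧ IsPGroup 2 R} => Nat.card R.1)
    have hmax' : ∀ R : Subgroup G, R ≤ C → IsPGroup 2 R → S₀ ≤ R → S₀ = R := by
      intro R h1 h2 h3'
      exact Subgroup.eq_of_le_of_card_ge h3' (hmax ⟨R, h1, h2⟩)
    obtain ⟨S, hS⟩ := hS₀p.exists_le_sylow
    refine ⟨S, ?_⟩
    by_cases hEq : S₀ = (S : Subgroup G)
    · rw [← hEq]; exact hS₀C
    exfalso
    obtain ⟨_, hnot⟩ := Cfsg.Agent.Lib.TameInter.lt_inf_normalizer S.isPGroup' hS hEq
    obtain ⟨g₁, hg₁m, hg₁n⟩ := SetLike.not_le_iff_exists.1 hnot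
    have hSn : IsPGroup 2 ((S : Subgroup G) ⊓ Subgroup.normalizer (S₀ : Set G) : Subgroup G) :=
      S.isPGroup'.to_le inf_le_left
    -- choose `g` with square in `S₀`
    obtain ⟨g, hgm, hgn, hgs⟩ : ∃ g ∈ ((S : Subgroup G) ⊓ Subgroup.normalizer (S₀ : Set G) : Subgroup G),
        g ∉ S₀ ∧ g * g ∈ S₀ := by
      obtain ⟨k, hk⟩ := hSn ⟨g₁, hg₁m⟩
      have hk' : g₁ ^ (2 ^ k) = 1 := by
        have := congrArg Subtype.val hk
        simpa using this
      have hex : ∃ k, g₁ ^ (2 ^ k) ∈ S₀ := ⟨k, hk' ▸ S₀.one_mem⟩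
      have h0 : Nat.find hex ≠ 0 := by
        intro e
        have := Nat.find_spec hex
        rw [e] at this
        simp at this
        exact hg₁n this
      obtain ⟨l, hl⟩ := Nat.exists_eq_succ_of_ne_zero h0
      have hmin := Nat.find_min hex (m := l) (by omega)
      have hsp := Nat.find_spec hex
      rw [hl] at hsp
      refine ⟨g₁ ^ (2 ^ l), Subgroup.pow_mem _ hg₁m _, hmin, ?_⟩
      rw [← pow_add, ← two_mul, ← pow_succ']
      exact hsp
    have hgN : g ∈ Subgroup.normalizer (S₀ : Set G) := hgm.2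
    have hgS : g ∈ (S : Subgroup G) := hgm.1
    -- `x ∈ S₀`
    have hxS₀ : x ∈ S₀ := by
      have hle : S₀ ≤ Subgroup.normalizer ((Subgroup.zpowers x : Subgroup G) : Set G) := by
        intro s hs
        rw [Subgroup.mem_normalizer_iff]
        have hsx := mem' (hS₀C hs)
        have hcw : ∀ w ∈ Subgroup.zpowers x, s * w * s⁻¹ = w := by
          rintro w ⟨k, rfl⟩
          have h7 : Commute s x := hsx
          have h8 := (h7.zpow_right k).eq
          simp only
          rw [h8]; group
        intro w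
        constructor
        · intro hw
          rw [hcw w hw]; exact hw
        · intro hw
          have h9 := hcw _ hw
          have h10 : s * w * s⁻¹ = w := by
            have h11 : s * (s * w * s⁻¹) * s⁻¹ = s * w * s⁻¹ := h9
            have h12 : s * (s * w * s⁻¹) = s * w := by
              calc s * (s * w * s⁻¹) = s * (s * w * s⁻¹) * s⁻¹ * s := by group
                _ = s * w * s⁻¹ * s := by rw [h11]
                _ = s * w := by group
            exact mul_left_cancel h12
          rw [← h10]; exact hw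
      have hp : IsPGroup 2 (Subgroup.zpowers x) := by
        apply IsPGroup.of_card (n := 1)
        rw [Nat.card_zpowers, hx, pow_one]
      have h2 : IsPGroup 2 ((S₀ ⊔ Subgroup.zpowers x : Subgroup G)) :=
        hS₀p.to_sup_of_normal_right' hp hle
      have h3' : S₀ ⊔ Subgroup.zpowers x ≤ C := by
        refine sup_le hS₀C ?_
        rw [Subgroup.zpowers_le]
        exact mem rfl
      have := hmax' _ h3' h2 le_sup_left
      rw [this]
      exact Subgroup.mem_sup_right (Subgroup.mem_zpowers x)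
    -- `g` moves `x`
    have hgx : g * x * g⁻¹ ≠ x := by
      intro e
      have hgC : g ∈ C := by
        apply mem
        calc g * x = g * x * g⁻¹ * g := by group
          _ = x * g := by rw [e]
      have h4 := hmax' (((S : Subgroup G) ⊓ Subgroup.normalizer (S₀ : Set G)) ⊓ C) inf_le_right
        (hSn.to_le inf_le_left) (le_inf (le_inf hS Subgroup.le_normalizer) hS₀C)
      apply hgn
      rw [h4]
      exact ⟨hgm, hgC⟩
    set y := g * x * g⁻¹ with hy
    have hyS₀ : y ∈ S₀ := (Subgroup.mem_normalizer_iff.1 hgN x).1 hxS₀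
    have hyx : y * x = x * y := mem' (hS₀C hyS₀)
    have hconj := stepA y g hy hyx hgx
    obtain ⟨h, hh⟩ := isConj_iff.1 hconj
    set z := x * y with hz
    have hS₀y : ∀ s ∈ S₀, s * y = y * s := by
      intro s hs
      have h1 : g⁻¹ * s * g ∈ S₀ := by
        have h2 := (Subgroup.mem_normalizer_iff.1 (Subgroup.inv_mem _ hgN) s).1 hs
        simpa using h2
      have h2 := mem' (hS₀C h1)
      have h3' : g * (g⁻¹ * s * g * x) * g⁻¹ = g * (x * (g⁻¹ * s * g)) * g⁻¹ := by rw [h2]
      calc s * y = g * (g⁻¹ * s * g * x) * g⁻¹ := by rw [hy]; group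
        _ = g * (x * (g⁻¹ * s * g)) * g⁻¹ := h3'
        _ = y * s := by rw [hy]; group
    have hS₀z : ∀ s ∈ S₀, s * z = z * s := by
      intro s hs
      have h1 := mem' (hS₀C hs)
      have h2 := hS₀y s hs
      calc s * z = (s * x) * y := by rw [hz]; group
        _ = x * (s * y) := by rw [h1]; group
        _ = z * s := by rw [h2, hz]; group
    have hgz : g * z = z * g := by
      have h1 : (g * g) * x = x * (g * g) := mem' (hS₀C hgs)
      have h2 : g * y * g⁻¹ = x := by
        have : g * y * g⁻¹ = (g * g) * x * (g * g)⁻¹ := by rw [hy]; group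
        rw [this, h1]; group
      have h3' : g * z * g⁻¹ = z := by
        calc g * z * g⁻¹ = (g * x * g⁻¹) * (g * y * g⁻¹) := by rw [hz]; group
          _ = y * x := by rw [h2]
          _ = z := hyx
      calc g * z = g * z * g⁻¹ * g := by group
        _ = z * g := by rw [h3']
    -- a larger 2-subgroup in `C(z)`
    set R : Subgroup G := ((S : Subgroup G) ⊓ Subgroup.normalizer (S₀ : Set G)) ⊓
      Subgroup.centralizer ({z} : Set G) with hR
    have hRp : IsPGroup 2 R := hSn.to_le inf_le_left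
    have hS₀R : S₀ ≤ R := fun s hs => ⟨⟨hS hs, Subgroup.le_normalizer hs⟩, mem (hS₀z s hs)⟩
    have hgR : g ∈ R := ⟨hgm, mem hgz⟩
    have hlt : Nat.card S₀ < Nat.card R := by
      have hne : S₀ ≠ R := fun e => hgn (e ▸ hgR)
      have hle := Subgroup.card_dvd_of_le hS₀R
      have hpos : 0 < Nat.card R := Nat.card_pos
      have := Nat.le_of_dvd hpos hle
      refine lt_of_le_of_ne this ?_
      intro e
      exact hne (Subgroup.eq_of_le_of_card_ge hS₀R e.ge)
    have hRC : Cfsg.Agent.Lib.ConjFamily.cj h⁻¹ R ≤ C := by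
      intro w hw
      rw [Cfsg.Agent.Lib.ConjFamily.mem_cj] at hw
      have h1 := mem' hw.2
      rw [← hh] at h1
      apply mem
      have h2 : (h⁻¹)⁻¹ * w * h⁻¹ = h * w * h⁻¹ := by group
      rw [h2] at h1
      have h3' : h⁻¹ * (h * w * h⁻¹ * (h * x * h⁻¹)) * h = h⁻¹ * (h * x * h⁻¹ * (h * w * h⁻¹)) * h := by
        rw [h1]
      calc w * x = h⁻¹ * (h * w * h⁻¹ * (h * x * h⁻¹)) * h := by group
        _ = h⁻¹ * (h * x * h⁻¹ * (h * w * h⁻¹)) * h := h3'
        _ = x * w := by group
    have hRcp : IsPGroup 2 (Cfsg.Agent.Lib.ConjFamily.cj h⁻¹ R) := hRp.map _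
    have h9 := hmax ⟨_, hRC, hRcp⟩
    simp only at h9
    rw [Cfsg.Agent.Lib.ConjFamily.card_cj] at h9
    omega
  refine ⟨hS, ?_⟩
  obtain ⟨S, hSC⟩ := hS
  have hall : ∀ u : G, orderOf u = 2 → IsConj x u := by
    intro u hu
    have hp : IsPGroup 2 (Subgroup.zpowers u) := by
      apply IsPGroup.of_card (n := 1)
      rw [Nat.card_zpowers, hu, pow_one]
    obtain ⟨a, ha⟩ := Cfsg.Agent.Lib.GrunFusion.exists_conj_le_sylow hp S
    have h1 : a * u * a⁻¹ ∈ (S : Subgroup G) := ha (Cfsg.Agent.Lib.ConjFamily.cj_mem (Subgroup.mem_zpowers u))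
    have h2 := mem' (hSC h1)
    have huu := (ofOrd hu).1
    have hu1 := (ofOrd hu).2
    have h3' : (a * u * a⁻¹) * (a * u * a⁻¹) = 1 := by
      calc (a * u * a⁻¹) * (a * u * a⁻¹) = a * (u * u) * a⁻¹ := by group
        _ = 1 := by rw [huu]; group
    have h4 : a * u * a⁻¹ ≠ 1 := by
      intro e
      apply hu1
      have : u = a⁻¹ * (a * u * a⁻¹) * a := by group
      rw [this, e]; group
    have hy1 : g₀ * x * g₀⁻¹ ≠ 1 := by
      intro e
      apply hx1
      have : x = g₀⁻¹ * (g₀ * x * g₀⁻¹) * g₀ := by group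
      rw [this, e]; group
    have hyy : (g₀ * x * g₀⁻¹) * (g₀ * x * g₀⁻¹) = 1 := by
      calc (g₀ * x * g₀⁻¹) * (g₀ * x * g₀⁻¹) = g₀ * (x * x) * g₀⁻¹ := by group
        _ = 1 := by rw [hxx]; group
    have h5 : IsConj x (a * u * a⁻¹) := by
      rcases hT _ _ hyy hy1 hg₀c hg₀n h3' h4 h2 with e | e | e
      · rw [e]
      · rw [e]; exact isConj_iff.2 ⟨g₀, rfl⟩
      · rw [e]; exact hzc
    have h6 : IsConj u (a * u * a⁻¹) := isConj_iff.2 ⟨a, rfl⟩
    exact h5.trans h6.symm
  intro u v hu hv
  exact (hall u hu).symm.trans (hall v hv)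

end Cfsg.Agent.S3279
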