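import Mathlib
import Cfsg.Agent.Lib.SolvCore
import Cfsg.Statements.S3305
-- import your own Cfsg.Agent.* helpers here

set_option autoImplicit false
open Cfsg

namespace Cfsg.Agent.S3305

/-- If any two distinct Sylow 2-subgroups of the finite group G intersect in a cyclic group, then the same holds in every quotient group G/H, H a normal subgroup of G. -/
theorem result {G : Type*} [Group G] [Finite G]
    (hC : ∀ S T : Sylow 2 G, S ≠ T → IsCyclic ↥((S : Subgroup G) ⊓ (T : Subgroup G))) (H : Subgroup G) [H.Normal] :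
    ∀ S T : Sylow 2 (G ⧸ H), S ≠ T → IsCyclic ↥((S : Subgroup (G ⧸ H)) ⊓ (T : Subgroup (G ⧸ H))) := by
  classical
  intro Sb Tb hST
  set π := QuotientGroup.mk' H with hπ
  set C := ((Sb : Subgroup (G ⧸ H)) ⊓ (Tb : Subgroup (G ⧸ H))).comap π with hCdef
  obtain ⟨W⟩ : Nonempty (Sylow 2 C) := inferInstance
  set U := (W : Subgroup C).map C.subtype with hU
  have hUp : IsPGroup 2 U := W.isPGroup'.map _
  have hUC : U ≤ C := by
    rintro _ ⟨w, -, rfl⟩
    exact w.2
  obtain ⟨S₁, hS₁, hS₁m⟩ := Cfsg.Agent.Lib.SolvCore.exists_sylow_of_le_comap Sb hUp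
    (fun u hu => (hUC hu).1)
  obtain ⟨T₁, hT₁, hT₁m⟩ := Cfsg.Agent.Lib.SolvCore.exists_sylow_of_le_comap Tb hUp
    (fun u hu => (hUC hu).2)
  have hne : S₁ ≠ T₁ := by
    intro he
    apply hST
    apply Sylow.ext
    rw [← hS₁m, ← hT₁m, he]
  have hcyc := hC S₁ T₁ hne
  have hUcyc : IsCyclic U := Subgroup.isCyclic_of_le (le_inf hS₁ hT₁)
  -- the image of `U` is everything
  have hsurj : Function.Surjective (QuotientGroup.mk' H) := QuotientGroup.mk'_surjective H
  set X := (Sb : Subgroup (G ⧸ H)) ⊓ (Tb : Subgroup (G ⧸ H)) with hX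
  have hXp : IsPGroup 2 X := Sb.isPGroup'.to_le inf_le_left
  have hmap : U.map π = X := by
    apply le_antisymm
    · rintro _ ⟨u, hu, rfl⟩
      exact hUC hu
    · -- use indices
      let f : C →* X := (π.comp C.subtype).codRestrict X (fun c => c.2)
      have hf : Function.Surjective f := by
        rintro ⟨x, hx⟩
        obtain ⟨g, rfl⟩ := hsurj x
        exact ⟨⟨g, hx⟩, rfl⟩
      have h1 : ((W : Subgroup C).map f).index ∣ (W : Subgroup C).index :=
        Subgroup.index_map_dvd _ hf
      obtain ⟨k, hk⟩ := hXp.index ((W : Subgroup C).map f)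
      have h2 : ¬ 2 ∣ (W : Subgroup C).index := W.not_dvd_index
      have h3 : ((W : Subgroup C).map f).index = 1 := by
        rw [hk] at h1 ⊢
        rcases k with _ | k
        · simp
        · exfalso
          exact h2 ((dvd_pow_self 2 (Nat.succ_ne_zero k)).trans h1)
      have h4 := Subgroup.index_eq_one.1 h3
      intro x hx
      have h5 : (⟨x, hx⟩ : X) ∈ (W : Subgroup C).map f := by rw [h4]; trivial
      obtain ⟨c, hc, hfc⟩ := h5
      refine ⟨(c : G), ⟨c, hc, rfl⟩, ?_⟩
      exact congrArg Subtype.val hfc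
  rw [← hmap]
  exact isCyclic_of_surjective (π.subgroupMap U) (π.subgroupMap_surjective U)

end Cfsg.Agent.S3305
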