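import Mathlib
import Cfsg.Agent.Lib.SolvCore
import Cfsg.Agent.S3305
import Cfsg.Statements.S3303
-- import your own Cfsg.Agent.* helpers here

set_option autoImplicit false
open Cfsg

namespace Cfsg.Agent.S3303

/-- Let G be a finite solvable group in which the intersection of any two distinct Sylow 2-subgroups is cyclic. Then G/O(G) has a normal Sylow 2-subgroup, where O(G) is the largest normal subgroup of odd order. -/
theorem result {G : Type*} [Group G] [Finite G] (hs : Group.IsSolvable G)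
    (hC : ∀ S T : Sylow 2 G, S ≠ T → IsCyclic ↥((S : Subgroup G) ⊓ (T : Subgroup G))) :
    ∃ P : Sylow 2 (G ⧸ Cfsg.oddCore G), (P : Subgroup (G ⧸ Cfsg.oddCore G)).Normal := by
  classical
  have hH := fun (S T : Sylow 2 (G ⧸ Cfsg.oddCore G)) hne => Cfsg.Agent.S3305.result hC (Cfsg.oddCore G) S T hne
  have hs' : Group.IsSolvable (G ⧸ Cfsg.oddCore G) := inferInstance
  have hcore : Cfsg.pPrimeCore 2 (G ⧸ Cfsg.oddCore G) = ⊥ := Cfsg.Agent.Lib.SolvCore.pPrimeCore_quot_eq_bot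
  obtain ⟨P⟩ : Nonempty (Sylow 2 (G ⧸ Cfsg.oddCore G)) := inferInstance
  refine ⟨P, ?_⟩
  by_contra hnot
  -- another Sylow subgroup
  obtain ⟨g, hg⟩ : ∃ g : G ⧸ Cfsg.oddCore G, g • P ≠ P := by
    by_contra hall
    push Not at hall
    apply hnot
    rw [← Subgroup.normalizer_eq_top_iff, eq_top_iff]
    intro g _
    exact Sylow.smul_eq_iff_mem_normalizer.1 (hall g)
  have hcyc := hH (g • P) P hg
  have hle : Cfsg.pCore 2 (G ⧸ Cfsg.oddCore G) ≤ ((g • P : Sylow 2 _) : Subgroup _) ⊓ (P : Subgroup _) :=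
    le_inf (Cfsg.Agent.Lib.FitCore.pCore_le_sylow 2 _) (Cfsg.Agent.Lib.FitCore.pCore_le_sylow 2 _)
  have hPc : IsCyclic (Cfsg.pCore 2 (G ⧸ Cfsg.oddCore G)) := Subgroup.isCyclic_of_le hle
  have hA := Cfsg.Agent.Lib.SolvCore.isPGroup_mulAut_of_cyclic
    (Cfsg.Agent.Lib.FitCore.pCore_isPGroup 2) hPc
  have h2 := Cfsg.Agent.Lib.SolvCore.isPGroup_of_mulAut_pCore hs' hcore hA
  apply hnot
  have : (P : Subgroup (G ⧸ Cfsg.oddCore G)) = ⊤ := (P.is_maximal' (h2.to_subgroup ⊤) le_top).symm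
  rw [this]
  infer_instance

end Cfsg.Agent.S3303
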