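import Mathlib
import Cfsg.Agent.Lib.SchurZ2
import Cfsg.Statements.S3335
-- import your own Cfsg.Agent.* helpers here

set_option autoImplicit false
open Cfsg

namespace Cfsg.Agent.S3335


open Equiv Subgroup

section Abstract

variable {K : Type*} [Group K]

structure Rel (g : ℕ → K) (T : ℕ) : Prop where
  h0 : g 0 ^ 3 = 1
  h1 : ∀ i, 1 ≤ i → i ≤ T → g i ^ 2 = 1
  h2 : ∀ i, i + 1 ≤ T → (g i * g (i + 1)) ^ 3 = 1
  h3 : ∀ i j, i + 1 < j → j ≤ T → (g i * g j) ^ 2 = 1

def wd (g : ℕ → K) (T : ℕ) : ℕ → K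
  | 0 => 1
  | d + 1 => wd g T d * g (T - d)

variable {g : ℕ → K} {T : ℕ}

lemma Rel.mono (hR : Rel g T) {S : ℕ} (h : S ≤ T) : Rel g S :=
  ⟨hR.h0, fun i h1 h2 => hR.h1 i h1 (h2.trans h), fun i h1 => hR.h2 i (h1.trans h),
    fun i j h1 h2 => hR.h3 i j h1 (h2.trans h)⟩

lemma sq_g (hR : Rel g T) {a : ℕ} (ha : 1 ≤ a) (haT : a ≤ T) : g a * g a = 1 := by
  rw [← pow_two]
  exact hR.h1 a ha haT

lemma inv_g' (hR : Rel g T) {a : ℕ} (ha : 1 ≤ a) (haT : a ≤ T) : (g a)⁻¹ = g a :=
  inv_eq_of_mul_eq_one_left (sq_g hR ha haT)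

lemma inv_g (hR : Rel g T) {a j : ℕ} (ha : 1 ≤ a) (haT : a ≤ T) (hja : j + 1 < a) :
    g a * g j * g a = (g j)⁻¹ := by
  have h2 := hR.h3 j a hja haT
  rw [pow_two] at h2
  apply eq_inv_of_mul_eq_one_right
  calc g j * (g a * g j * g a) = g j * g a * (g j * g a) := by group
    _ = 1 := h2

lemma mul_zpow_g (hR : Rel g T) {a j : ℕ} (ha : 1 ≤ a) (haT : a ≤ T) (hja : j + 1 < a) (i : ℤ) :
    g a * g j ^ i = g j ^ (-i) * g a := by
  have h1 := conj_zpow (a := g a) (b := g j) (i := i)
  rw [inv_g' hR ha haT, inv_g hR ha haT hja] at h1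
  have h2 : g a * g j ^ i * g a = g j ^ (-i) := by
    rw [← h1, inv_zpow, zpow_neg]
  rw [← h2, mul_assoc, mul_assoc, sq_g hR ha haT, mul_one]

lemma comm_g (hR : Rel g T) {a j : ℕ} (ha : 1 ≤ a) (haj : a + 1 < j) (hjT : j ≤ T) :
    g a * g j = g j * g a := by
  have h := hR.h3 a j haj hjT
  rw [pow_two] at h
  have h1 := eq_inv_of_mul_eq_one_left h
  rw [mul_inv_rev, inv_g' hR (by omega) hjT, inv_g' hR ha (by omega)] at h1
  exact h1

lemma braid_g (hR : Rel g T) {j : ℕ} (hj1 : 1 ≤ j) (hjT : j + 1 ≤ T) :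
    g (j + 1) * g j * g (j + 1) = g j * g (j + 1) * g j := by
  have h := hR.h2 j hjT
  have h3 : (g j * g (j + 1)) ^ 3 = g j * (g (j + 1) * g j * g (j + 1)) * (g j * g (j + 1)) := by
    rw [pow_succ, pow_two]
    group
  rw [h3] at h
  have h4 : g (j + 1) * g j * g (j + 1) = (g j)⁻¹ * (g j * g (j + 1))⁻¹ := by
    have h5 := eq_inv_of_mul_eq_one_left h
    rw [eq_inv_mul_iff_mul_eq] at *
    exact h5
  rw [h4, mul_inv_rev, inv_g' hR hj1 (by omega), inv_g' hR (by omega) hjT]
  group

lemma L2 (hR : Rel g T) : ∀ (d j : ℕ), j + d < T → ∀ i : ℤ, ∃ i' : ℤ,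
    wd g T d * g j ^ i = g j ^ i' * wd g T d := by
  intro d
  induction d with
  | zero =>
    intro j _ i
    exact ⟨i, by simp [wd]⟩
  | succ d ih =>
    intro j hj i
    obtain ⟨i', hi'⟩ := ih j (by omega) (-i)
    refine ⟨i', ?_⟩
    have ha : 1 ≤ T - d := by omega
    have haT : T - d ≤ T := by omega
    have hja : j + 1 < T - d := by omega
    calc wd g T (d + 1) * g j ^ i = wd g T d * (g (T - d) * g j ^ i) := by
          simp [wd, mul_assoc]
      _ = wd g T d * (g j ^ (-i) * g (T - d)) := by rw [mul_zpow_g hR ha haT hja]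
      _ = (wd g T d * g j ^ (-i)) * g (T - d) := by rw [mul_assoc]
      _ = g j ^ i' * wd g T d * g (T - d) := by rw [hi']
      _ = g j ^ i' * wd g T (d + 1) := by simp [wd, mul_assoc]

lemma L4 (hR : Rel g T) {j : ℕ} (h1 : 1 ≤ j) (hT : j + 1 ≤ T) :
    ∀ d, T - (j + 1) + 2 ≤ d → d ≤ T → ∃ i' : ℤ, wd g T d * g (j + 1) = g j ^ i' * wd g T d := by
  intro d hd
  induction d, hd using Nat.le_induction with
  | base =>
    intro _
    set u := T - (j + 1) with hu
    have e1 : T - u = j + 1 := by omega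
    have e2 : T - (u + 1) = j := by omega
    have hw : wd g T (u + 2) = wd g T u * g (j + 1) * g j := by
      show wd g T u * g (T - u) * g (T - (u + 1)) = _
      rw [e1, e2]
    obtain ⟨i', hi'⟩ := L2 hR u j (by omega) 1
    rw [zpow_one] at hi'
    refine ⟨i', ?_⟩
    rw [hw]
    calc wd g T u * g (j + 1) * g j * g (j + 1) = wd g T u * (g (j + 1) * g j * g (j + 1)) := by group
      _ = wd g T u * (g j * g (j + 1) * g j) := by rw [braid_g hR h1 hT]
      _ = (wd g T u * g j) * g (j + 1) * g j := by group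
      _ = g j ^ i' * wd g T u * g (j + 1) * g j := by rw [hi']
      _ = g j ^ i' * (wd g T u * g (j + 1) * g j) := by group
  | succ d hd ih =>
    intro hdT
    obtain ⟨i', hi'⟩ := ih (by omega)
    refine ⟨i', ?_⟩
    have ha : 1 ≤ T - d := by omega
    have haj : T - d + 1 < j + 1 := by omega
    calc wd g T (d + 1) * g (j + 1) = wd g T d * (g (T - d) * g (j + 1)) := by
          simp [wd, mul_assoc]
      _ = wd g T d * (g (j + 1) * g (T - d)) := by rw [comm_g hR ha haj hT]
      _ = (wd g T d * g (j + 1)) * g (T - d) := by group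
      _ = g j ^ i' * wd g T d * g (T - d) := by rw [hi']
      _ = g j ^ i' * wd g T (d + 1) := by simp [wd, mul_assoc]

/-- coset representatives -/
def cc (g : ℕ → K) (T : ℕ) (l : ℕ) : K :=
  if l ≤ T then wd g T l else if l = T + 1 then wd g T T * g 0 else wd g T T * g 0 * g 0

lemma g0_inv (hR : Rel g T) : (g 0)⁻¹ = g 0 * g 0 := by
  have h := hR.h0
  apply inv_eq_of_mul_eq_one_left
  rw [← h, pow_succ, pow_two]

lemma g0_inv_inv (hR : Rel g T) : (g 0)⁻¹ * (g 0)⁻¹ = g 0 := by
  rw [g0_inv hR]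
  have h := hR.h0
  calc g 0 * g 0 * (g 0 * g 0) = g 0 ^ 3 * g 0 := by
        rw [pow_succ, pow_two]; group
    _ = g 0 := by rw [h, one_mul]

lemma key_a (hR : Rel g T) {a : ℕ} (ha : 2 ≤ a) (haT : a ≤ T) : g 0 * g a = g a * (g 0)⁻¹ := by
  have h := inv_g hR (a := a) (j := 0) (by omega) haT (by omega)
  rw [← h]
  calc g 0 * g a = (g a * g a) * g 0 * g a := by rw [sq_g hR (by omega) haT, one_mul]
    _ = g a * (g a * g 0 * g a) := by group

lemma key_1 (hR : Rel g T) (h1 : 1 ≤ T) : g 1 * g 0 * g 1 = (g 0)⁻¹ * g 1 * (g 0)⁻¹ := by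
  have h := hR.h2 0 h1
  simp only [zero_add] at h
  have h3 : (g 0 * g 1) ^ 3 = g 0 * (g 1 * g 0 * g 1) * (g 0 * g 1) := by
    rw [pow_succ, pow_two]
    group
  rw [h3] at h
  have h5 := eq_inv_of_mul_eq_one_left h
  have h6 : g 1 * g 0 * g 1 = (g 0)⁻¹ * (g 0 * g 1)⁻¹ := eq_inv_mul_iff_mul_eq.2 h5
  rw [h6, mul_inv_rev, inv_g' hR (by omega) h1]
  group

lemma key_1' (hR : Rel g T) (h1 : 1 ≤ T) : g 1 * (g 0)⁻¹ * g 1 = g 0 * g 1 * g 0 := by
  have h := key_1 hR h1
  have h2 := congrArg (fun w => w⁻¹) h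
  simp only [mul_inv_rev, inv_inv, inv_g' hR (le_refl 1) h1] at h2
  calc g 1 * (g 0)⁻¹ * g 1 = g 1 * ((g 0)⁻¹ * g 1) := by group
    _ = g 0 * (g 1 * g 0) := h2
    _ = _ := by group

lemma step (hR : Rel g T) (l j : ℕ) (hl : l ≤ T + 2) (hj : j ≤ T) :
    ∃ h ∈ closure (g '' Set.Iio T), ∃ l' ≤ T + 2, cc g T l * g j = h * cc g T l' := by
  have hH : ∀ (j : ℕ), j < T → ∀ i : ℤ, g j ^ i ∈ closure (g '' Set.Iio T) := by
    intro j hj i
    exact zpow_mem (Subgroup.subset_closure (show g j ∈ g '' Set.Iio T from ⟨j, hj, rfl⟩)) i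
  have c0 : ∀ l, l ≤ T → cc g T l = wd g T l := fun l h => if_pos h
  have c1 : cc g T (T + 1) = wd g T T * g 0 := by
    simp [cc]
  have c2 : cc g T (T + 2) = wd g T T * g 0 * g 0 := by
    simp [cc]
  rcases Nat.lt_or_ge T l with hlT | hlT
  · rcases (by omega : l = T + 1 ∨ l = T + 2) with rfl | rfl
    · rw [c1]
      rcases Nat.lt_trichotomy j 1 with h | h | h
      · have : j = 0 := by omega
        subst this
        exact ⟨1, one_mem _, T + 2, by omega, by rw [c2, one_mul]⟩
      · subst h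
        obtain ⟨T₀, rfl⟩ : ∃ T₀, T = T₀ + 1 := ⟨T - 1, by omega⟩
        have hw : wd g (T₀ + 1) (T₀ + 1) = wd g (T₀ + 1) T₀ * g 1 := by
          show wd g (T₀ + 1) T₀ * g (T₀ + 1 - T₀) = _
          congr 2
          omega
        obtain ⟨i', hi'⟩ := L2 hR T₀ 0 (by omega) (-1)
        rw [zpow_neg_one] at hi'
        refine ⟨g 0 ^ i', hH 0 (by omega) _, T₀ + 1 + 2, by omega, ?_⟩
        rw [c2, hw]
        calc wd g (T₀ + 1) T₀ * g 1 * g 0 * g 1
            = wd g (T₀ + 1) T₀ * (g 1 * g 0 * g 1) := by group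
          _ = wd g (T₀ + 1) T₀ * ((g 0)⁻¹ * g 1 * (g 0)⁻¹) := by rw [key_1 hR (by omega)]
          _ = (wd g (T₀ + 1) T₀ * (g 0)⁻¹) * g 1 * (g 0)⁻¹ := by group
          _ = g 0 ^ i' * wd g (T₀ + 1) T₀ * g 1 * (g 0)⁻¹ := by rw [hi']
          _ = g 0 ^ i' * (wd g (T₀ + 1) T₀ * g 1 * g 0 * g 0) := by
            rw [g0_inv hR]; group
      · obtain ⟨j', rfl⟩ : ∃ j', j = j' + 1 := ⟨j - 1, by omega⟩
        obtain ⟨i', hi'⟩ := L4 hR (j := j') (by omega) hj T (by omega) le_rfl
        refine ⟨g j' ^ i', hH j' (by omega) _, T + 2, by omega, ?_⟩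
        rw [c2]
        calc wd g T T * g 0 * g (j' + 1) = wd g T T * (g 0 * g (j' + 1)) := by group
          _ = wd g T T * (g (j' + 1) * (g 0)⁻¹) := by rw [key_a hR (by omega) hj]
          _ = (wd g T T * g (j' + 1)) * (g 0)⁻¹ := by group
          _ = g j' ^ i' * wd g T T * (g 0)⁻¹ := by rw [hi']
          _ = g j' ^ i' * (wd g T T * g 0 * g 0) := by rw [g0_inv hR]; group
    · rw [c2]
      rcases Nat.lt_trichotomy j 1 with h | h | h
      · have : j = 0 := by omega
        subst this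
        refine ⟨1, one_mem _, T, by omega, ?_⟩
        rw [c0 T le_rfl, one_mul]
        calc wd g T T * g 0 * g 0 * g 0 = wd g T T * g 0 ^ 3 := by
              rw [pow_succ, pow_two]; group
          _ = wd g T T := by rw [hR.h0, mul_one]
      · subst h
        obtain ⟨T₀, rfl⟩ : ∃ T₀, T = T₀ + 1 := ⟨T - 1, by omega⟩
        have hw : wd g (T₀ + 1) (T₀ + 1) = wd g (T₀ + 1) T₀ * g 1 := by
          show wd g (T₀ + 1) T₀ * g (T₀ + 1 - T₀) = _
          congr 2
          omega
        obtain ⟨i', hi'⟩ := L2 hR T₀ 0 (by omega) 1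
        rw [zpow_one] at hi'
        refine ⟨g 0 ^ i', hH 0 (by omega) _, T₀ + 1 + 1, by omega, ?_⟩
        rw [c1, hw]
        calc wd g (T₀ + 1) T₀ * g 1 * g 0 * g 0 * g 1
            = wd g (T₀ + 1) T₀ * (g 1 * (g 0 * g 0) * g 1) := by group
          _ = wd g (T₀ + 1) T₀ * (g 0 * g 1 * g 0) := by rw [← g0_inv hR, key_1' hR (by omega)]
          _ = (wd g (T₀ + 1) T₀ * g 0) * g 1 * g 0 := by group
          _ = g 0 ^ i' * wd g (T₀ + 1) T₀ * g 1 * g 0 := by rw [hi']
          _ = g 0 ^ i' * (wd g (T₀ + 1) T₀ * g 1 * g 0) := by group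
      · obtain ⟨j', rfl⟩ : ∃ j', j = j' + 1 := ⟨j - 1, by omega⟩
        obtain ⟨i', hi'⟩ := L4 hR (j := j') (by omega) hj T (by omega) le_rfl
        refine ⟨g j' ^ i', hH j' (by omega) _, T + 1, by omega, ?_⟩
        rw [c1]
        calc wd g T T * g 0 * g 0 * g (j' + 1) = wd g T T * g 0 * (g 0 * g (j' + 1)) := by group
          _ = wd g T T * g 0 * (g (j' + 1) * (g 0)⁻¹) := by rw [key_a hR (by omega) hj]
          _ = wd g T T * (g 0 * g (j' + 1)) * (g 0)⁻¹ := by group
          _ = wd g T T * (g (j' + 1) * (g 0)⁻¹) * (g 0)⁻¹ := by rw [key_a hR (by omega) hj]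
          _ = (wd g T T * g (j' + 1)) * ((g 0)⁻¹ * (g 0)⁻¹) := by group
          _ = g j' ^ i' * wd g T T * g 0 := by rw [hi', g0_inv_inv hR]
          _ = g j' ^ i' * (wd g T T * g 0) := by group
  · rw [c0 l hlT]
    rcases Nat.lt_trichotomy (j + l) T with h | h | h
    · obtain ⟨i', hi'⟩ := L2 hR l j h 1
      rw [zpow_one] at hi'
      exact ⟨g j ^ i', hH j (by omega) _, l, hl, by rw [c0 l hlT, hi']⟩
    · by_cases hlt : l < T
      · refine ⟨1, one_mem _, l + 1, by omega, ?_⟩
        rw [c0 (l + 1) (by omega), one_mul]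
        show _ = wd g T l * g (T - l)
        congr 2
        omega
      · have hlT' : l = T := by omega
        subst hlT'
        have : j = 0 := by omega
        subst this
        exact ⟨1, one_mem _, l + 1, by omega, by rw [c1, one_mul]⟩
    · rcases Nat.lt_or_ge (j + l) (T + 2) with h2 | h2
      · obtain ⟨l₀, rfl⟩ : ∃ l₀, l = l₀ + 1 := ⟨l - 1, by omega⟩
        refine ⟨1, one_mem _, l₀, by omega, ?_⟩
        rw [c0 l₀ (by omega), one_mul]
        have e : T - l₀ = j := by omega
        show wd g T l₀ * g (T - l₀) * g j = _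
        rw [e, mul_assoc, sq_g hR (by omega) hj, mul_one]
      · obtain ⟨j', rfl⟩ : ∃ j', j = j' + 1 := ⟨j - 1, by omega⟩
        obtain ⟨i', hi'⟩ := L4 hR (j := j') (by omega) hj l (by omega) hlT
        exact ⟨g j' ^ i', hH j' (by omega) _, l, hl, by rw [c0 l hlT, hi']⟩

lemma covers (hR : Rel g T) (hgen : closure (g '' Set.Iic T) = ⊤) (y : K) :
    ∃ h ∈ closure (g '' Set.Iio T), ∃ l ≤ T + 2, y = h * cc g T l := by
  have hstep : ∀ y : K, (∃ h ∈ closure (g '' Set.Iio T), ∃ l ≤ T + 2, y = h * cc g T l) →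
      ∀ j ≤ T, (∃ h ∈ closure (g '' Set.Iio T), ∃ l ≤ T + 2, y * g j = h * cc g T l) := by
    rintro y ⟨h, hh, l, hl, rfl⟩ j hj
    obtain ⟨h', hh', l', hl', e⟩ := step hR l j hl hj
    refine ⟨h * h', mul_mem hh hh', l', hl', ?_⟩
    rw [mul_assoc, e, mul_assoc]
  have hy : y ∈ closure (g '' Set.Iic T) := by rw [hgen]; trivial
  induction hy using closure_induction_right with
  | one =>
    refine ⟨1, one_mem _, 0, by omega, ?_⟩
    simp [cc, wd]
  | mul_right x _ s hs ih =>
    obtain ⟨j, hj, rfl⟩ := hs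
    exact hstep x ih j hj
  | mul_inv_cancel x _ s hs ih =>
    obtain ⟨j, hj, rfl⟩ := hs
    rcases Nat.eq_zero_or_pos j with rfl | h0
    · rw [g0_inv hR, ← mul_assoc]
      exact hstep _ (hstep x ih 0 hj) 0 hj
    · rw [inv_g' hR h0 hj]
      exact hstep x ih j hj

lemma card_bound (hR : Rel g T) (hgen : closure (g '' Set.Iic T) = ⊤)
    [Finite (closure (g '' Set.Iio T))] :
    Finite K ∧ Nat.card K ≤ (T + 3) * Nat.card (closure (g '' Set.Iio T)) := by
  let f : (Fin (T + 3)) × (closure (g '' Set.Iio T)) → K := fun p => (p.2 : K) * cc g T p.1.val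
  have hf : Function.Surjective f := by
    intro y
    obtain ⟨h, hh, l, hl, e⟩ := covers hR hgen y
    exact ⟨(⟨l, by omega⟩, ⟨h, hh⟩), e.symm⟩
  refine ⟨Finite.of_surjective f hf, ?_⟩
  have := Nat.card_le_card_of_surjective f hf
  rwa [Nat.card_prod, Nat.card_fin] at this

end Abstract

section Presentation

def rels (k : ℕ) : Set (FreeGroup (Fin k)) :=
  {g : FreeGroup (Fin k) | ∃ i : Fin k, i.val = 0 ∧ g = FreeGroup.of i ^ 3} ∪
       {g | ∃ i : Fin k, 1 ≤ i.val ∧ g = FreeGroup.of i ^ 2} ∪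
       {g | ∃ i j : Fin k, j.val = i.val + 1 ∧ g = (FreeGroup.of i * FreeGroup.of j) ^ 3} ∪
       {g | ∃ i j : Fin k, i.val + 1 < j.val ∧ g = (FreeGroup.of i * FreeGroup.of j) ^ 2}

def gen (T : ℕ) (i : ℕ) : PresentedGroup (rels (T + 1)) :=
  if h : i < T + 1 then PresentedGroup.of ⟨i, h⟩ else 1

lemma gen_of (T i : ℕ) (h : i < T + 1) :
    gen T i = PresentedGroup.mk (rels (T + 1)) (FreeGroup.of ⟨i, h⟩) := by
  simp only [gen, dif_pos h]
  rfl

lemma rel_gen (T : ℕ) : Rel (gen T) T := by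
  refine ⟨?_, ?_, ?_, ?_⟩
  · rw [gen_of T 0 (by omega), ← map_pow]
    exact PresentedGroup.one_of_mem (Or.inl (Or.inl (Or.inl ⟨⟨0, by omega⟩, rfl, rfl⟩)))
  · intro i h1 h2
    rw [gen_of T i (by omega), ← map_pow]
    exact PresentedGroup.one_of_mem (Or.inl (Or.inl (Or.inr ⟨⟨i, by omega⟩, h1, rfl⟩)))
  · intro i h
    rw [gen_of T i (by omega), gen_of T (i + 1) (by omega), ← map_mul, ← map_pow]
    exact PresentedGroup.one_of_mem (Or.inl (Or.inr ⟨⟨i, by omega⟩, ⟨i + 1, by omega⟩, rfl, rfl⟩))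
  · intro i j h1 h2
    rw [gen_of T i (by omega), gen_of T j (by omega), ← map_mul, ← map_pow]
    exact PresentedGroup.one_of_mem (Or.inr ⟨⟨i, by omega⟩, ⟨j, by omega⟩, h1, rfl⟩)

lemma gen_top (T : ℕ) : closure (gen T '' Set.Iic T) = ⊤ := by
  rw [eq_top_iff, ← PresentedGroup.closure_range_of]
  apply Subgroup.closure_mono
  rintro _ ⟨i, rfl⟩
  refine ⟨i.val, by simpa using Nat.lt_succ_iff.1 i.2, ?_⟩
  exact dif_pos i.2

variable {K : Type*} [Group K]

def toK (g : ℕ → K) {T : ℕ} (hR : Rel g T) : PresentedGroup (rels (T + 1)) →* K :=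
  PresentedGroup.toGroup (f := fun i : Fin (T + 1) => g i.val) (by
    intro r hr
    rcases hr with ((⟨i, hi, rfl⟩ | ⟨i, hi, rfl⟩) | ⟨i, j, hij, rfl⟩) | ⟨i, j, hij, rfl⟩
    · simp only [map_pow, FreeGroup.lift_apply_of, hi]
      exact hR.h0
    · simp only [map_pow, FreeGroup.lift_apply_of]
      exact hR.h1 _ hi (by omega)
    · simp only [map_pow, map_mul, FreeGroup.lift_apply_of, hij]
      exact hR.h2 _ (by omega)
    · simp only [map_pow, map_mul, FreeGroup.lift_apply_of]
      exact hR.h3 _ _ hij (by omega))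

lemma toK_gen (g : ℕ → K) {T : ℕ} (hR : Rel g T) (i : ℕ) (h : i < T + 1) :
    toK g hR (gen T i) = g i := by
  simp only [gen, dif_pos h]
  exact PresentedGroup.toGroup.of _

theorem upper (T : ℕ) : Finite (PresentedGroup (rels (T + 1))) ∧
    2 * Nat.card (PresentedGroup (rels (T + 1))) ≤ (T + 3).factorial := by
  induction T with
  | zero =>
    have hbot : closure (gen 0 '' Set.Iio 0) = ⊥ := by
      simp
    haveI : Finite (closure (gen 0 '' Set.Iio 0)) := by
      rw [hbot]
      infer_instance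
    obtain ⟨h1, h2⟩ := card_bound (rel_gen 0) (gen_top 0)
    refine ⟨h1, ?_⟩
    rw [hbot, Subgroup.card_bot] at h2
    have : (0 + 3).factorial = 6 := rfl
    omega
  | succ T ih =>
    obtain ⟨hfin, hle⟩ := ih
    let ψ := toK (gen (T + 1)) ((rel_gen (T + 1)).mono (Nat.le_succ T))
    have hsub : closure (gen (T + 1) '' Set.Iio (T + 1)) ≤ ψ.range := by
      rw [closure_le]
      rintro _ ⟨i, hi, rfl⟩
      exact ⟨gen T i, toK_gen _ _ i hi⟩
    haveI := hfin
    haveI : Finite ψ.range := Finite.of_surjective ψ.rangeRestrict ψ.rangeRestrict_surjective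
    haveI : Finite (closure (gen (T + 1) '' Set.Iio (T + 1))) :=
      Finite.of_injective _ (Subgroup.inclusion_injective hsub)
    obtain ⟨h1, h2⟩ := card_bound (rel_gen (T + 1)) (gen_top (T + 1))
    refine ⟨h1, ?_⟩
    have h3 : Nat.card (closure (gen (T + 1) '' Set.Iio (T + 1))) ≤ Nat.card ψ.range :=
      Nat.card_le_card_of_injective _ (Subgroup.inclusion_injective hsub)
    have h4 : Nat.card ψ.range ≤ Nat.card (PresentedGroup (rels (T + 1))) := by
      exact Nat.card_le_card_of_surjective _ ψ.rangeRestrict_surjective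
    have h5 : (T + 1 + 3).factorial = (T + 4) * (T + 3).factorial := by
      rw [show T + 1 + 3 = (T + 3) + 1 by omega, Nat.factorial_succ]
    rw [h5]
    calc 2 * Nat.card (PresentedGroup (rels (T + 1 + 1)))
        ≤ 2 * ((T + 1 + 3) * Nat.card (closure (gen (T + 1) '' Set.Iio (T + 1)))) :=
          Nat.mul_le_mul_left _ h2
      _ ≤ 2 * ((T + 4) * Nat.card (PresentedGroup (rels (T + 1)))) := by
          apply Nat.mul_le_mul_left
          exact Nat.mul_le_mul_left _ (h3.trans h4)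
      _ = (T + 4) * (2 * Nat.card (PresentedGroup (rels (T + 1)))) := by ring
      _ ≤ _ := Nat.mul_le_mul_left _ hle

end Presentation

section Perms

variable {α : Type*} [DecidableEq α] [Fintype α]

omit [Fintype α] in
lemma comm_swap {a b c d : α} (hac : a ≠ c) (had : a ≠ d) (hbc : b ≠ c) (hbd : b ≠ d) :
    Commute (swap a b) (swap c d) := by
  apply Equiv.Perm.Disjoint.commute
  intro x
  by_cases hxa : x = a
  · right
    rw [hxa]
    exact swap_apply_of_ne_of_ne hac had
  · by_cases hxb : x = b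
    · right
      rw [hxb]
      exact swap_apply_of_ne_of_ne hbc hbd
    · left
      exact swap_apply_of_ne_of_ne hxa hxb

omit [Fintype α] in
lemma sq_disj {a b c d : α} (hac : a ≠ c) (had : a ≠ d) (hbc : b ≠ c) (hbd : b ≠ d) :
    (swap a b * swap c d) ^ 2 = 1 := by
  have hcomm : Commute (swap a b) (swap c d) := comm_swap hac had hbc hbd
  rw [hcomm.mul_pow, pow_two, pow_two, swap_mul_self, swap_mul_self, one_mul]

lemma cube_swap {a b c : α} (hab : a ≠ b) (hac : a ≠ c) (hbc : b ≠ c) :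
    (swap a b * swap b c) ^ 3 = 1 := by
  have h := Equiv.Perm.isThreeCycle_swap_mul_swap_same (a := b) (b := a) (c := c) hab.symm hbc hac
  rw [swap_comm a b, ← h.orderOf]
  exact pow_orderOf_eq_one _

def ee (T a : ℕ) : Fin (T + 3) := ⟨a % (T + 3), Nat.mod_lt _ (by omega)⟩

lemma ee_val {T a : ℕ} (h : a < T + 3) : (ee T a).val = a := Nat.mod_eq_of_lt h

lemma ee_ne {T a b : ℕ} (ha : a < T + 3) (hb : b < T + 3) (h : a ≠ b) : ee T a ≠ ee T b := by
  intro e
  apply h
  have := congrArg Fin.val e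
  rwa [ee_val ha, ee_val hb] at this

def pp (T i : ℕ) : Equiv.Perm (Fin (T + 3)) :=
  if i = 0 then swap (ee T 0) (ee T 1) * swap (ee T 1) (ee T 2)
  else swap (ee T 0) (ee T 1) * swap (ee T (i + 1)) (ee T (i + 2))

lemma pp_zero (T : ℕ) : pp T 0 = swap (ee T 0) (ee T 1) * swap (ee T 1) (ee T 2) := if_pos rfl

lemma pp_pos (T : ℕ) {i : ℕ} (h : 1 ≤ i) :
    pp T i = swap (ee T 0) (ee T 1) * swap (ee T (i + 1)) (ee T (i + 2)) :=
  if_neg (by omega)

lemma s02 (T : ℕ) : swap (ee T 0) (ee T 1) * swap (ee T 1) (ee T 2) * swap (ee T 0) (ee T 1)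
    = swap (ee T 0) (ee T 2) := by
  have h01 : ee T 0 ≠ ee T 1 := ee_ne (by omega) (by omega) (by omega)
  have h02 : ee T 0 ≠ ee T 2 := ee_ne (by omega) (by omega) (by omega)
  have h12 : ee T 1 ≠ ee T 2 := ee_ne (by omega) (by omega) (by omega)
  have := swap_mul_swap_mul_swap (x := ee T 2) (y := ee T 1) (z := ee T 0) h12.symm h02.symm
  rw [swap_comm (ee T 1) (ee T 0), swap_comm (ee T 2) (ee T 1)] at this
  exact this

lemma rel_pp (T : ℕ) : Rel (pp T) T := by
  have h01 : ee T 0 ≠ ee T 1 := ee_ne (by omega) (by omega) (by omega)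
  have h02 : ee T 0 ≠ ee T 2 := ee_ne (by omega) (by omega) (by omega)
  have h12 : ee T 1 ≠ ee T 2 := ee_ne (by omega) (by omega) (by omega)
  have hc : ∀ i, 1 ≤ i → i ≤ T → Commute (swap (ee T 0) (ee T 1)) (swap (ee T (i + 1)) (ee T (i + 2))) := by
    intro i h1 h2
    exact comm_swap (ee_ne (by omega) (by omega) (by omega))
      (ee_ne (by omega) (by omega) (by omega)) (ee_ne (by omega) (by omega) (by omega))
      (ee_ne (by omega) (by omega) (by omega))
  have hp : ∀ i, 1 ≤ i → i ≤ T → ∀ w : Equiv.Perm (Fin (T + 3)),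
      pp T i * (swap (ee T 0) (ee T 1) * w) = swap (ee T (i + 1)) (ee T (i + 2)) * w := by
    intro i h1 h2 w
    rw [pp_pos T h1, (hc i h1 h2).eq]
    calc swap (ee T (i + 1)) (ee T (i + 2)) * swap (ee T 0) (ee T 1) * (swap (ee T 0) (ee T 1) * w)
        = swap (ee T (i + 1)) (ee T (i + 2)) * (swap (ee T 0) (ee T 1) * swap (ee T 0) (ee T 1)) * w := by
          group
      _ = _ := by rw [swap_mul_self, mul_one]
  refine ⟨?_, ?_, ?_, ?_⟩
  · rw [pp_zero]
    exact cube_swap h01 h02 h12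
  · intro i h1 h2
    rw [pp_pos T h1]
    exact sq_disj (ee_ne (by omega) (by omega) (by omega)) (ee_ne (by omega) (by omega) (by omega))
      (ee_ne (by omega) (by omega) (by omega)) (ee_ne (by omega) (by omega) (by omega))
  · intro i h
    rcases Nat.eq_zero_or_pos i with rfl | h1
    · rw [pp_zero, pp_pos T (by omega)]
      have e : swap (ee T 0) (ee T 1) * swap (ee T 1) (ee T 2) * (swap (ee T 0) (ee T 1) * swap (ee T (0 + 1 + 1)) (ee T (0 + 1 + 2)))
          = swap (ee T 0) (ee T 2) * swap (ee T 2) (ee T 3) := by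
        rw [← mul_assoc, s02]
      rw [e]
      exact cube_swap h02 (ee_ne (by omega) (by omega) (by omega)) (ee_ne (by omega) (by omega) (by omega))
    · rw [pp_pos T (i := i + 1) (by omega), hp i h1 (by omega)]
      exact cube_swap (ee_ne (by omega) (by omega) (by omega)) (ee_ne (by omega) (by omega) (by omega))
        (ee_ne (by omega) (by omega) (by omega))
  · intro i j h1 h2
    rcases Nat.eq_zero_or_pos i with rfl | h3
    · rw [pp_zero, pp_pos T (by omega), ← mul_assoc, s02]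
      exact sq_disj (ee_ne (by omega) (by omega) (by omega)) (ee_ne (by omega) (by omega) (by omega))
        (ee_ne (by omega) (by omega) (by omega)) (ee_ne (by omega) (by omega) (by omega))
    · rw [pp_pos T (i := j) (by omega), hp i h3 (by omega)]
      exact sq_disj (ee_ne (by omega) (by omega) (by omega)) (ee_ne (by omega) (by omega) (by omega))
        (ee_ne (by omega) (by omega) (by omega)) (ee_ne (by omega) (by omega) (by omega))

lemma pp_mem (T i : ℕ) (hi : i ≤ T) : pp T i ∈ alternatingGroup (Fin (T + 3)) := by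
  rw [Equiv.Perm.mem_alternatingGroup]
  rcases Nat.eq_zero_or_pos i with rfl | h3
  · rw [pp_zero, map_mul, Equiv.Perm.sign_swap (ee_ne (by omega) (by omega) (by omega)),
      Equiv.Perm.sign_swap (ee_ne (by omega) (by omega) (by omega))]
    rfl
  · rw [pp_pos T h3, map_mul, Equiv.Perm.sign_swap (ee_ne (by omega) (by omega) (by omega)),
      Equiv.Perm.sign_swap (ee_ne (by omega) (by omega) (by omega))]
    rfl

def ppA (T i : ℕ) : alternatingGroup (Fin (T + 3)) :=
  if h : i ≤ T then ⟨pp T i, pp_mem T i h⟩ else 1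

lemma ppA_coe (T i : ℕ) (h : i ≤ T) : ((ppA T i : alternatingGroup (Fin (T + 3))) : Equiv.Perm (Fin (T + 3))) = pp T i := by
  simp [ppA, h]

lemma rel_ppA (T : ℕ) : Rel (ppA T) T := by
  have hR := rel_pp T
  refine ⟨?_, ?_, ?_, ?_⟩
  · apply Subtype.ext
    simp only [Subgroup.coe_pow, Subgroup.coe_one, ppA_coe T 0 (by omega)]
    exact hR.h0
  · intro i h1 h2
    apply Subtype.ext
    simp only [Subgroup.coe_pow, Subgroup.coe_one, ppA_coe T i h2]
    exact hR.h1 i h1 h2
  · intro i h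
    apply Subtype.ext
    simp only [Subgroup.coe_pow, Subgroup.coe_one, Subgroup.coe_mul, ppA_coe T i (by omega), ppA_coe T (i + 1) h]
    exact hR.h2 i h
  · intro i j h1 h2
    apply Subtype.ext
    simp only [Subgroup.coe_pow, Subgroup.coe_one, Subgroup.coe_mul, ppA_coe T i (by omega), ppA_coe T j h2]
    exact hR.h3 i j h1 h2

/-- The subgroup generated by the `pp T i` has index at most two. -/
lemma lower (T : ℕ) : (T + 3).factorial ≤ 2 * Nat.card (closure (pp T '' Set.Iic T)) := by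
  set K' := closure (pp T '' Set.Iic T) with hK'
  set t : Equiv.Perm (Fin (T + 3)) := swap (ee T 0) (ee T 1) with ht
  have h01 : ee T 0 ≠ ee T 1 := ee_ne (by omega) (by omega) (by omega)
  have h12 : ee T 1 ≠ ee T 2 := ee_ne (by omega) (by omega) (by omega)
  have htt : t * t = 1 := swap_mul_self _ _
  have hti : t⁻¹ = t := inv_eq_of_mul_eq_one_left htt
  have hmem : ∀ i, i ≤ T → pp T i ∈ K' := fun i hi => Subgroup.subset_closure ⟨i, hi, rfl⟩
  have hconj : ∀ h ∈ K', t * h * t⁻¹ ∈ K' := by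
    intro h hh
    induction hh using Subgroup.closure_induction with
    | mem x hx =>
      obtain ⟨i, hi, rfl⟩ := hx
      have hi' : i ≤ T := hi
      rcases Nat.eq_zero_or_pos i with rfl | h3
      · have e : t * pp T 0 * t⁻¹ = (pp T 0)⁻¹ := by
          rw [pp_zero, hti, mul_inv_rev, swap_inv, swap_inv]
          calc t * (t * swap (ee T 1) (ee T 2)) * t = (t * t) * swap (ee T 1) (ee T 2) * t := by group
            _ = _ := by rw [htt, one_mul]
        rw [e]
        exact inv_mem (hmem 0 (by omega))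
      · have hc : Commute t (swap (ee T (i + 1)) (ee T (i + 2))) :=
          comm_swap (ee_ne (by omega) (by omega) (by omega))
            (ee_ne (by omega) (by omega) (by omega)) (ee_ne (by omega) (by omega) (by omega))
            (ee_ne (by omega) (by omega) (by omega))
        have e : t * pp T i * t⁻¹ = pp T i := by
          rw [pp_pos T h3, hti]
          calc t * (t * swap (ee T (i + 1)) (ee T (i + 2))) * t
              = t * (swap (ee T (i + 1)) (ee T (i + 2)) * t) * t := by rw [hc.eq]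
            _ = _ := by
              calc _ = t * swap (ee T (i + 1)) (ee T (i + 2)) * (t * t) := by group
                _ = _ := by rw [htt, mul_one]
        rw [e]
        exact hmem i hi
    | one => simp
    | mul x y _ _ hx hy =>
      have e : t * (x * y) * t⁻¹ = (t * x * t⁻¹) * (t * y * t⁻¹) := by group
      rw [e]
      exact mul_mem hx hy
    | inv x _ hx =>
      have e : t * x⁻¹ * t⁻¹ = (t * x * t⁻¹)⁻¹ := by group
      rw [e]
      exact inv_mem hx
  have htN : zpowers t ≤ normalizer (K' : Set (Equiv.Perm (Fin (T + 3)))) := by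
    rw [zpowers_le, mem_normalizer_iff]
    intro h
    refine ⟨hconj h, fun hh => ?_⟩
    have := hconj _ hh
    have e : t * (t * h * t⁻¹) * t⁻¹ = h := by
      rw [hti]
      calc t * (t * h * t) * t = (t * t) * h * (t * t) := by group
        _ = h := by rw [htt]; group
    rwa [e] at this
  have hc := Cfsg.Agent.Lib.SchurZ2.card_sup_mul_card_inf K' (zpowers t) htN
  have htop : K' ⊔ zpowers t = ⊤ := by
    rw [eq_top_iff]
    intro σ _
    have hσ : σ ∈ Submonoid.closure (Set.range fun i : Fin (T + 2) => swap i.castSucc i.succ) := by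
      rw [Equiv.Perm.mclosure_swap_castSucc_succ]
      trivial
    have hle : Submonoid.closure (Set.range fun i : Fin (T + 2) => swap i.castSucc i.succ) ≤
        (K' ⊔ zpowers t).toSubmonoid := by
      rw [Submonoid.closure_le]
      rintro _ ⟨i, rfl⟩
      have htm : t ∈ K' ⊔ zpowers t := mem_sup_right (mem_zpowers t)
      show swap i.castSucc i.succ ∈ K' ⊔ zpowers t
      have he : ∀ a : ℕ, a ≤ T + 2 → ∀ f : Fin (T + 3), f.val = a → f = ee T a := by
        intro a ha f hf
        apply Fin.ext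
        rw [ee_val (by omega), hf]
      have e1 : i.castSucc = ee T i.val := he _ (by omega) _ rfl
      have e2 : i.succ = ee T (i.val + 1) := he _ (by omega) _ rfl
      rw [e1, e2]
      rcases (by omega : i.val = 0 ∨ i.val = 1 ∨ 2 ≤ i.val) with h | h | h
      · rw [h]
        exact htm
      · rw [h]
        have e : swap (ee T 1) (ee T (1 + 1)) = t * pp T 0 := by
          rw [pp_zero, ← mul_assoc, htt, one_mul]
        rw [e]
        exact mul_mem htm (mem_sup_left (hmem 0 (by omega)))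
      · obtain ⟨k, hk⟩ : ∃ k, i.val = k + 2 := ⟨i.val - 2, by omega⟩
        have hi2 := i.2
        have e : swap (ee T i.val) (ee T (i.val + 1)) = t * pp T (k + 1) := by
          rw [pp_pos T (by omega), ← mul_assoc, htt, one_mul, hk]
        rw [e]
        exact mul_mem htm (mem_sup_left (hmem (k + 1) (by omega)))
    exact hle hσ
  rw [htop, Subgroup.card_top] at hc
  have h2 : Nat.card (zpowers t) = 2 := by
    rw [Nat.card_zpowers]
    exact orderOf_eq_prime (by rw [pow_two, htt]) (by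
      intro h
      exact h01 (swap_eq_one_iff.1 h))
  have h3 : 0 < Nat.card (K' ⊓ zpowers t : Subgroup _) := Nat.card_pos
  have h4 : Nat.card (Equiv.Perm (Fin (T + 3))) = (T + 3).factorial := by
    rw [Nat.card_perm, Nat.card_eq_fintype_card, Fintype.card_fin]
  rw [h4, h2] at hc
  calc (T + 3).factorial ≤ (T + 3).factorial * Nat.card (K' ⊓ zpowers t : Subgroup _) :=
        Nat.le_mul_of_pos_right _ h3
    _ = Nat.card K' * 2 := hc
    _ = _ := by ring

theorem main (T : ℕ) : Nonempty (PresentedGroup (rels (T + 1)) ≃* alternatingGroup (Fin (T + 3))) := by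
  obtain ⟨hfin, hup⟩ := upper T
  haveI := hfin
  let φ := toK (ppA T) (rel_ppA T)
  have hlow := lower T
  have hcardA : 2 * Nat.card (alternatingGroup (Fin (T + 3))) = (T + 3).factorial := by
    rw [two_mul_nat_card_alternatingGroup, Nat.card_perm, Nat.card_eq_fintype_card, Fintype.card_fin]
  -- the range contains `K'`
  have hle : closure (pp T '' Set.Iic T) ≤ φ.range.map (alternatingGroup (Fin (T + 3))).subtype := by
    rw [closure_le]
    rintro _ ⟨i, hi, rfl⟩
    refine ⟨ppA T i, ⟨gen T i, toK_gen _ _ i (Nat.lt_succ_of_le hi)⟩, ?_⟩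
    exact ppA_coe T i hi
  have hc1 : Nat.card (closure (pp T '' Set.Iic T)) ≤ Nat.card φ.range := by
    have h1 := Nat.card_le_card_of_injective _ (Subgroup.inclusion_injective hle)
    rwa [Subgroup.card_map_of_injective (Subgroup.subtype_injective _)] at h1
  have hc2 : Nat.card φ.range ≤ Nat.card (PresentedGroup (rels (T + 1))) :=
    Nat.card_le_card_of_surjective _ φ.rangeRestrict_surjective
  have hc3 : Nat.card φ.range ≤ Nat.card (alternatingGroup (Fin (T + 3))) :=
    Subgroup.card_le_card_group _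
  have hr : φ.range = ⊤ := by
    apply Subgroup.eq_top_of_card_eq
    omega
  have hsurj : Function.Surjective φ := MonoidHom.range_eq_top.1 hr
  have hbij : Function.Bijective φ :=
    (Nat.bijective_iff_surjective_and_card φ).2 ⟨hsurj, by omega⟩
  exact ⟨MulEquiv.ofBijective φ hbij⟩

end Perms


/-- A presentation of the alternating group of degree n ≥ 3 on generators x_1, …, x_{n−2} (indexed here by 0, …, n−3): the first generator cubes to 1, every other generator squares to 1, the product of two consecutive generators has order dividing 3, and the product of two generators at distance at least 2 has order dividing 2. The group so presented is isomorphic to the alternating group of degree n. -/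
theorem result (n : ℕ) (hn : 3 ≤ n) :
    Nonempty (PresentedGroup
      ({g : FreeGroup (Fin (n - 2)) | ∃ i : Fin (n - 2), i.val = 0 ∧ g = FreeGroup.of i ^ 3} ∪
       {g | ∃ i : Fin (n - 2), 1 ≤ i.val ∧ g = FreeGroup.of i ^ 2} ∪
       {g | ∃ i j : Fin (n - 2), j.val = i.val + 1 ∧ g = (FreeGroup.of i * FreeGroup.of j) ^ 3} ∪
       {g | ∃ i j : Fin (n - 2), i.val + 1 < j.val ∧ g = (FreeGroup.of i * FreeGroup.of j) ^ 2})
      ≃* alternatingGroup (Fin n)) := by
  obtain ⟨T, rfl⟩ : ∃ T, n = T + 3 := ⟨n - 3, by omega⟩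
  exact main T

end Cfsg.Agent.S3335
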