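import Cfsg.Statements.S3349
-- import your own Cfsg.Agent.* helpers here

set_option autoImplicit false
open Cfsg

namespace Cfsg.Agent.S3349

/-- Let Q be a finite extraspecial p-group and α an automorphism of Q fixing every element of some maximal abelian subgroup of Q. Then the order of α is a power of p. -/
theorem result {Q : Type*} [Group Q] [Finite Q]
    (p : ℕ) [Fact p.Prime] (hQ : Cfsg.IsExtraspecial p Q) (α : MulAut Q)
    (A : Subgroup Q) (hA : IsMulCommutative A) (hmax : ∀ B : Subgroup Q, A ≤ B → IsMulCommutative B → B = A)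
    (hfix : ∀ a ∈ A, α a = a) :
    ∃ k : ℕ, orderOf α = p ^ k := by
  classical
  obtain ⟨⟨hp, hfr, hcomm⟩, hcard⟩ := hQ
  have hAcomm : ∀ a ∈ A, ∀ b ∈ A, a * b = b * a := by
    intro a ha b hb
    have := (hA.is_comm.comm ⟨a, ha⟩ ⟨b, hb⟩)
    exact congrArg Subtype.val this
  -- the centre is inside `A`
  have hZA : Subgroup.center Q ≤ A := by
    have hle : A ≤ A ⊔ Subgroup.center Q := le_sup_left
    have : IsMulCommutative ↥(A ⊔ Subgroup.center Q) := by
      refine ⟨⟨?_⟩⟩
      have hcl : ∀ x ∈ A ⊔ Subgroup.center Q, ∃ a ∈ A, ∃ z ∈ Subgroup.center Q, x = a * z := by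
        intro x hx
        rw [Subgroup.sup_eq_closure_mul] at hx
        induction hx using Subgroup.closure_induction with
        | mem x hx =>
          obtain ⟨a, ha, z, hz, rfl⟩ := hx
          exact ⟨a, ha, z, hz, rfl⟩
        | one => exact ⟨1, A.one_mem, 1, Subgroup.one_mem _, by simp⟩
        | mul x y _ _ ihx ihy =>
          obtain ⟨a, ha, z, hz, rfl⟩ := ihx
          obtain ⟨b, hb, w, hw, rfl⟩ := ihy
          refine ⟨a * b, A.mul_mem ha hb, z * w, Subgroup.mul_mem _ hz hw, ?_⟩
          have := Subgroup.mem_center_iff.1 hz b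
          calc a * z * (b * w) = a * (z * b) * w := by group
            _ = a * (b * z) * w := by rw [this.symm]
            _ = a * b * (z * w) := by group
        | inv x _ ih =>
          obtain ⟨a, ha, z, hz, rfl⟩ := ih
          refine ⟨a⁻¹, A.inv_mem ha, z⁻¹, Subgroup.inv_mem _ hz, ?_⟩
          have := Subgroup.mem_center_iff.1 (Subgroup.inv_mem _ hz) a⁻¹
          rw [mul_inv_rev, this]
      rintro ⟨x, hx⟩ ⟨y, hy⟩
      obtain ⟨a, ha, z, hz, rfl⟩ := hcl x hx
      obtain ⟨b, hb, w, hw, rfl⟩ := hcl y hy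
      apply Subtype.ext
      show a * z * (b * w) = b * w * (a * z)
      have h1 := Subgroup.mem_center_iff.1 hz b
      have h2 := Subgroup.mem_center_iff.1 hw (a * z)
      calc a * z * (b * w) = a * (z * b) * w := by group
        _ = a * (b * z) * w := by rw [h1.symm]
        _ = (a * b) * z * w := by simp [mul_assoc]
        _ = (b * a) * z * w := by rw [hAcomm a ha b hb]
        _ = b * (a * z * w) := by simp [mul_assoc]
        _ = b * (w * (a * z)) := by rw [h2]
        _ = b * w * (a * z) := by simp [mul_assoc]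
    have h := hmax _ hle this
    rw [← h]
    exact le_sup_right
  -- `α x * x⁻¹` centralizes `A`
  have hcomm_center : ∀ x y : Q, x * y * x⁻¹ * y⁻¹ ∈ Subgroup.center Q := by
    intro x y
    rw [← hcomm]
    exact Subgroup.commutator_mem_commutator (Subgroup.mem_top x) (Subgroup.mem_top y)
  have hαz : ∀ z ∈ Subgroup.center Q, α z = z := fun z hz => hfix z (hZA hz)
  have hmem : ∀ x : Q, α x * x⁻¹ ∈ A := by
    intro x
    have hc : ∀ a ∈ A, (α x * x⁻¹) * a = a * (α x * x⁻¹) := by
      intro a ha
      have h1 := hcomm_center x a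
      have h2 := hαz _ h1
      simp only [map_mul, map_inv, hfix a ha] at h2
      -- α x * a * (α x)⁻¹ * a⁻¹ = x * a * x⁻¹ * a⁻¹
      have h3 : α x * a * (α x)⁻¹ = x * a * x⁻¹ := by
        have := congrArg (fun t => t * a) h2
        simpa [mul_assoc] using this
      calc (α x * x⁻¹) * a = (x⁻¹ * x) * (α x * x⁻¹) * a := by group
        _ = x⁻¹ * (x * α x * x⁻¹) * a := by group
        _ = α x * x⁻¹ * a := by group
        _ = a * (α x * x⁻¹) := ?_
      have h4 : (α x)⁻¹ * a * α x = x⁻¹ * a * x := by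
        have h5 := hcomm_center x⁻¹ a
        have h6 := hαz _ h5
        simp only [map_mul, map_inv, hfix a ha, inv_inv] at h6
        have := congrArg (fun t => t * a) h6
        simpa [mul_assoc] using this
      have h7 : x⁻¹ * a * x = (α x)⁻¹ * a * α x := h4.symm
      have h8 : a * (α x * x⁻¹) = α x * ((α x)⁻¹ * a * α x) * x⁻¹ := by group
      rw [h8, h4]; group
    by_contra hnot
    have hle : A ≤ A ⊔ Subgroup.zpowers (α x * x⁻¹) := le_sup_left
    have hcm : IsMulCommutative ↥(A ⊔ Subgroup.zpowers (α x * x⁻¹)) := by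
      set t := α x * x⁻¹ with ht
      have hcA : ∀ a ∈ A, ∀ n : ℤ, t ^ n * a = a * t ^ n := by
        intro a ha n
        exact (Commute.zpow_left (show Commute t a from hc a ha) n)
      have hcl : ∀ y ∈ A ⊔ Subgroup.zpowers t, ∃ a ∈ A, ∃ n : ℤ, y = a * t ^ n := by
        intro y hy
        rw [Subgroup.sup_eq_closure_mul] at hy
        induction hy using Subgroup.closure_induction with
        | mem y hy =>
          obtain ⟨a, ha, z, hz, rfl⟩ := hy
          obtain ⟨n, rfl⟩ := Subgroup.mem_zpowers_iff.1 hz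
          exact ⟨a, ha, n, rfl⟩
        | one => exact ⟨1, A.one_mem, 0, by simp⟩
        | mul y w _ _ ihy ihw =>
          obtain ⟨a, ha, n, rfl⟩ := ihy
          obtain ⟨b, hb, m, rfl⟩ := ihw
          refine ⟨a * b, A.mul_mem ha hb, n + m, ?_⟩
          rw [zpow_add]
          calc a * t ^ n * (b * t ^ m) = a * (t ^ n * b) * t ^ m := by group
            _ = a * (b * t ^ n) * t ^ m := by rw [hcA b hb n]
            _ = a * b * (t ^ n * t ^ m) := by group
        | inv y _ ih =>
          obtain ⟨a, ha, n, rfl⟩ := ih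
          refine ⟨a⁻¹, A.inv_mem ha, -n, ?_⟩
          rw [mul_inv_rev, zpow_neg]
          exact ((Commute.zpow_left (show Commute t a⁻¹ from (Commute.inv_right (show Commute t a from hc a ha))) n).inv_left).eq
      refine ⟨⟨?_⟩⟩
      rintro ⟨y, hy⟩ ⟨w, hw⟩
      obtain ⟨a, ha, n, rfl⟩ := hcl y hy
      obtain ⟨b, hb, m, rfl⟩ := hcl w hw
      apply Subtype.ext
      show a * t ^ n * (b * t ^ m) = b * t ^ m * (a * t ^ n)
      calc a * t ^ n * (b * t ^ m) = a * (t ^ n * b) * t ^ m := by group
        _ = a * (b * t ^ n) * t ^ m := by rw [hcA b hb n]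
        _ = (a * b) * (t ^ n * t ^ m) := by group
        _ = (b * a) * (t ^ m * t ^ n) := by
            rw [hAcomm a ha b hb, ← zpow_add, ← zpow_add, add_comm]
        _ = b * (a * t ^ m) * t ^ n := by group
        _ = b * (t ^ m * a) * t ^ n := by rw [hcA a ha m]
        _ = b * t ^ m * (a * t ^ n) := by group
    have h := hmax _ hle hcm
    apply hnot
    rw [← h]
    exact Subgroup.mem_sup_right (Subgroup.mem_zpowers _)
  -- iterate
  obtain ⟨n, hn⟩ := IsPGroup.iff_card.1 hp
  have hiter : ∀ (k : ℕ) (x : Q), (α ^ k) x = (α x * x⁻¹) ^ k * x := by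
    intro k x
    induction k with
    | zero => simp
    | succ k ih =>
      rw [pow_succ', MulAut.mul_apply, ih, map_mul, map_pow, hfix _ (hmem x)]
      rw [pow_succ]; group
  have hone : α ^ (p ^ n) = 1 := by
    ext x
    rw [hiter, ← hn, pow_card_eq_one']
    simp
  obtain ⟨k, -, hk⟩ := (Nat.dvd_prime_pow (Fact.out : p.Prime)).1 (orderOf_dvd_of_pow_eq_one hone)
  exact ⟨k, hk⟩

end Cfsg.Agent.S3349
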