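import Mathlib
import Cfsg.Agent.Lib.SylowCount
import Cfsg.Agent.Lib.H5Basic
import Cfsg.Statements.S3389
-- import your own Cfsg.Agent.* helpers here

set_option autoImplicit false
open Cfsg

namespace Cfsg.Agent.S3389


open Cfsg.Agent.Lib.SylowCount in
/-- Two orbits with non-trivial stabilizers, each non-identity element fixing at most one point of
their union: impossible. -/
theorem two_orbits {X Ω : Type*} [Group X] [Finite X] [MulAction X Ω] [Finite Ω] (b c : Ω)
    (hd : ∀ x : X, x • c ≠ b) (hb : ∃ x : X, x ≠ 1 ∧ x • b = b) (hc : ∃ x : X, x ≠ 1 ∧ x • c = c)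
    (hfix : ∀ x : X, x ≠ 1 → ∀ u v : Ω, (u ∈ MulAction.orbit X b ∪ MulAction.orbit X c) →
      (v ∈ MulAction.orbit X b ∪ MulAction.orbit X c) → x • u = u → x • v = v → u = v) : False := by
  classical
  have := Fintype.ofFinite X
  have := Fintype.ofFinite Ω
  -- sums over an orbit
  have hsum : ∀ w : Ω, (∃ x : X, x ≠ 1 ∧ x • w = w) →
      ∃ t : Finset Ω, (∀ u, u ∈ t ↔ u ∈ MulAction.orbit X w) ∧
        2 * t.card ≤ Nat.card X ∧ ∑ u ∈ t, Nat.card (MulAction.stabilizer X u) = Nat.card X := by
    intro w hw
    refine ⟨Finset.univ.filter (fun u => u ∈ MulAction.orbit X w), by simp, ?_, ?_⟩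
    all_goals
      have hcard : (Finset.univ.filter (fun u => u ∈ MulAction.orbit X w)).card = Nat.card (MulAction.orbit X w) := by
        rw [Nat.card_eq_fintype_card, Fintype.card_subtype]
      have hst := card_orbit_mul_card_stabilizer (H := X) w
    · rw [hcard]
      obtain ⟨x, hx1, hxw⟩ := hw
      have h2 : 2 ≤ Nat.card (MulAction.stabilizer X w) := by
        have h3 : Nontrivial (MulAction.stabilizer X w) := by
          refine ⟨⟨⟨x, hxw⟩, 1, ?_⟩⟩
          intro h
          exact hx1 (congrArg Subtype.val h)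
        exact Finite.one_lt_card
      rw [← hst, mul_comm]
      exact Nat.mul_le_mul_left _ h2
    · have h1 : ∀ u ∈ Finset.univ.filter (fun u => u ∈ MulAction.orbit X w),
          Nat.card (MulAction.stabilizer X u) = Nat.card (MulAction.stabilizer X w) := by
        intro u hu
        have hu' : u ∈ MulAction.orbit X w := by simpa using hu
        have h2 : MulAction.orbit X u = MulAction.orbit X w := MulAction.orbit_eq_iff.2 hu'
        have h3 := card_orbit_mul_card_stabilizer (H := X) u
        rw [h2, ← hst] at h3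
        haveI : Nonempty (MulAction.orbit X w) := ⟨⟨w, MulAction.mem_orbit_self w⟩⟩
        exact Nat.eq_of_mul_eq_mul_left Nat.card_pos h3
      rw [Finset.sum_congr rfl h1, Finset.sum_const, hcard, smul_eq_mul]
      exact hst
  obtain ⟨tb, htb, h2b, hsb⟩ := hsum b hb
  obtain ⟨tc, htc, h2c, hsc⟩ := hsum c hc
  have hdisj : Disjoint tb tc := by
    rw [Finset.disjoint_left]
    intro u hub huc
    rw [htb] at hub
    rw [htc] at huc
    obtain ⟨x, hx⟩ := hub
    obtain ⟨y, hy⟩ := huc
    apply hd (x⁻¹ * y)
    have hx' : x • b = u := hx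
    have hy' : y • c = u := hy
    rw [mul_smul, hy', ← hx', inv_smul_smul]
  set U := tb ∪ tc with hU
  have hUsum : ∑ u ∈ U, Nat.card (MulAction.stabilizer X u) = 2 * Nat.card X := by
    rw [hU, Finset.sum_union hdisj, hsb, hsc]
    ring
  have hUcard : U.card = tb.card + tc.card := by
    rw [hU, Finset.card_union_of_disjoint hdisj]
  -- double counting
  let r : X → Ω → Prop := fun x u => x • u = u
  have hdc := Finset.sum_card_bipartiteAbove_eq_sum_card_bipartiteBelow (s := (Finset.univ : Finset X)) (t := U) r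
  have hstab : ∀ u, (Finset.bipartiteBelow r (Finset.univ : Finset X) u).card = Nat.card (MulAction.stabilizer X u) := by
    intro u
    rw [Nat.card_eq_fintype_card, Fintype.card_subtype]
    rfl
  simp only [hstab] at hdc
  rw [hUsum] at hdc
  have hle : ∀ x ∈ (Finset.univ : Finset X).erase 1, (Finset.bipartiteAbove r U x).card ≤ 1 := by
    intro x hx
    have hx1 : x ≠ 1 := (Finset.mem_erase.1 hx).1
    rw [Finset.card_le_one]
    intro u hu v hv
    have hu' := Finset.mem_filter.1 hu
    have hv' := Finset.mem_filter.1 hv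
    have hmem : ∀ u, u ∈ U → u ∈ MulAction.orbit X b ∪ MulAction.orbit X c := by
      intro u hu
      rcases Finset.mem_union.1 hu with h | h
      · exact Or.inl ((htb u).1 h)
      · exact Or.inr ((htc u).1 h)
    exact hfix x hx1 u v (hmem u hu'.1) (hmem v hv'.1) hu'.2 hv'.2
  have hsplit : (Finset.bipartiteAbove r U (1 : X)).card +
      ∑ x ∈ (Finset.univ : Finset X).erase 1, (Finset.bipartiteAbove r U x).card =
      ∑ x ∈ (Finset.univ : Finset X), (Finset.bipartiteAbove r U x).card :=
    Finset.add_sum_erase (Finset.univ : Finset X)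
      (fun x => (Finset.bipartiteAbove r U x).card) (Finset.mem_univ (1 : X))
  have hone : (Finset.bipartiteAbove r U (1 : X)).card = U.card := by
    have : Finset.bipartiteAbove r U (1 : X) = U := by
      apply Finset.filter_true_of_mem
      intro u _
      exact one_smul _ _
    rw [this]
  have hbound : ∑ x ∈ (Finset.univ : Finset X).erase 1, (Finset.bipartiteAbove r U x).card ≤
      (Finset.univ : Finset X).card - 1 := by
    have := Finset.sum_le_card_nsmul _ _ 1 hle
    simpa [Finset.card_erase_of_mem] using this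
  have hcX : (Finset.univ : Finset X).card = Nat.card X := by
    rw [Finset.card_univ, Nat.card_eq_fintype_card]
  have hpos : 0 < Nat.card X := Nat.card_pos
  rw [hone] at hsplit
  rw [hcX] at hbound
  omega


/-- Let G be a finite group acting faithfully and transitively on a finite set Ω with fixity k ≥ 1: every non-identity element fixes at most k points and some non-identity element fixes exactly k points. Then |Z(G)| divides k; if k = 2 then |G| is even; and for every prime p > k dividing |G| and every point α, either p does not divide |G_α| or G_α contains a Sylow p-subgroup of G. -/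
theorem result {G : Type*} [Group G] [Finite G] {Ω : Type*} [Fintype Ω] [MulAction G Ω] [FaithfulSMul G Ω]
    (htr : MulAction.IsPretransitive G Ω) (k : ℕ) (hk : 1 ≤ k)
    (hfix : ∀ g : G, g ≠ 1 → Nat.card (MulAction.fixedBy Ω g) ≤ k) (hex : ∃ g : G, g ≠ 1 ∧ Nat.card (MulAction.fixedBy Ω g) = k) :
    Nat.card (Subgroup.center G) ∣ k ∧ (k = 2 → 2 ∣ Nat.card G) ∧
      ∀ (p : ℕ), p.Prime → k < p → p ∣ Nat.card G → ∀ α : Ω,
        ¬ p ∣ Nat.card (MulAction.stabilizer G α) ∨ ¬ p ∣ (MulAction.stabilizer G α).index := by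
  classical
  refine ⟨?_, ?_, ?_⟩
  · -- the centre acts freely on the fixed points of `g`
    obtain ⟨g, hg1, hgk⟩ := hex
    let F : SubMulAction (Subgroup.center G) Ω :=
      { carrier := MulAction.fixedBy Ω g
        smul_mem' := by
          intro z ω hω
          have hω' : g • ω = ω := hω
          show g • (z • ω) = z • ω
          have h1 : (z : G) * g = g * z := (Subgroup.mem_center_iff.1 z.2 g).symm
          have h2 : z • ω = (z : G) • ω := rfl
          rw [h2, ← mul_smul, ← h1, mul_smul, hω'] }
    have hfree : ∀ (z : Subgroup.center G) (ω : Ω), z • ω = ω → z = 1 := by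
      intro z ω hz
      apply Subtype.ext
      apply FaithfulSMul.eq_of_smul_eq_smul (α := Ω)
      intro ω'
      obtain ⟨h, rfl⟩ := htr.exists_smul_eq ω ω'
      have h1 : (z : G) * h = h * z := (Subgroup.mem_center_iff.1 z.2 h).symm
      have hz' : (z : G) • ω = ω := hz
      rw [← mul_smul, h1, mul_smul, hz']
      simp
    have hcardF : Nat.card F = k := hgk
    rw [← hcardF]
    apply Cfsg.Agent.Lib.SylowCount.dvd_card_of_dvd_orbits (H := Subgroup.center G)
    intro x
    have h1 := Cfsg.Agent.Lib.SylowCount.card_orbit_mul_card_stabilizer (H := Subgroup.center G) x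
    have h2 : MulAction.stabilizer (Subgroup.center G) x = ⊥ := by
      rw [eq_bot_iff]
      intro z hz
      have hz' : z • x = x := hz
      exact hfree z x (congrArg Subtype.val hz')
    rw [h2] at h1
    rw [← h1]
    simp
  · intro hk2
    subst hk2
    obtain ⟨g, hg1, hgk⟩ := hex
    obtain ⟨⟨a, ha⟩, ⟨b, hb⟩, hab, habu⟩ := Nat.card_eq_two_iff.1 hgk
    have hga : g • a = a := ha
    have hgb : g • b = b := hb
    have hab' : a ≠ b := fun h => hab (Subtype.ext h)
    have hthree : ∀ x : G, x ≠ 1 → ∀ u v w : Ω, x • u = u → x • v = v → x • w = w →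
        u ≠ v → u ≠ w → v ≠ w → False := by
      intro x hx u v w hu hv hw huv huw hvw
      have h1 := hfix x hx
      rw [Nat.card_coe_set_eq] at h1
      have h2 : ({u, v, w} : Set Ω) ⊆ MulAction.fixedBy Ω x := by
        intro y hy
        rcases hy with rfl | rfl | rfl
        · exact hu
        · exact hv
        · exact hw
      have h3 := Set.ncard_le_ncard h2 (Set.toFinite _)
      have h4 : ({u, v, w} : Set Ω).ncard = 3 := Set.ncard_eq_three.2 ⟨u, v, w, huv, huw, hvw, rfl⟩
      omega
    obtain ⟨h, hh⟩ := htr.exists_smul_eq b a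
    have hca : h • a ≠ a := by
      intro hc
      apply hab'
      apply smul_left_cancel h
      rw [hc, hh]
    -- `h • a` lies in the orbit of `b` under the stabilizer of `a`
    have hmain : ∃ x : MulAction.stabilizer G a, x • (h • a) = b := by
      by_contra hcon
      push Not at hcon
      have hb₁ : ∃ x : MulAction.stabilizer G a, x ≠ 1 ∧ x • b = b :=
        ⟨⟨g, hga⟩, fun h => hg1 (congrArg Subtype.val h), hgb⟩
      have hc₁ : ∃ x : MulAction.stabilizer G a, x ≠ 1 ∧ x • (h • a) = h • a := by
        refine ⟨⟨h * g * h⁻¹, ?_⟩, ?_, ?_⟩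
        · show (h * g * h⁻¹) • a = a
          have : h⁻¹ • a = b := by
            rw [← hh, inv_smul_smul]
          rw [mul_smul, mul_smul, this, hgb, hh]
        · intro h1
          apply hg1
          have h2 : h * g * h⁻¹ = 1 := congrArg Subtype.val h1
          have h3 := congrArg (fun t => h⁻¹ * t * h) h2
          simpa [mul_assoc] using h3
        · show (h * g * h⁻¹) • (h • a) = h • a
          rw [mul_smul, mul_smul, inv_smul_smul, hga]
      apply two_orbits b (h • a) hcon hb₁ hc₁
      intro x hx u v hu hv hxu hxv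
      by_contra huv
      have hxa : (x : G) • a = a := x.2
      have hx1 : (x : G) ≠ 1 := fun h => hx (Subtype.ext h)
      have hne : ∀ w, w ∈ MulAction.orbit (MulAction.stabilizer G a) b ∪
          MulAction.orbit (MulAction.stabilizer G a) (h • a) → a ≠ w := by
        rintro w (⟨y, rfl⟩ | ⟨y, rfl⟩) hay
        · apply hab'
          apply smul_left_cancel (y : G)
          have hya : (y : G) • a = a := y.2
          rw [hya]
          exact hay
        · apply hca
          apply smul_left_cancel (y : G)
          have hya : (y : G) • a = a := y.2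
          rw [hya]
          exact hay.symm
      exact hthree x hx1 a u v hxa hxu hxv (hne u hu) (hne v hv) huv
    obtain ⟨x, hx⟩ := hmain
    have hx' : (x : G) • (h • a) = b := hx
    have hxa : (x : G) • a = a := x.2
    set w : G := x * h with hw
    have hwa : w • a = b := by rw [hw, mul_smul, hx']
    have hwb : w • b = a := by rw [hw, mul_smul, hh, hxa]
    have heven : ∀ k : ℕ, w ^ (2 * k) • a = a := by
      intro k
      induction k with
      | zero => simp
      | succ k ih =>
        rw [show 2 * (k + 1) = 2 + 2 * k by ring, pow_add, mul_smul, ih, pow_two, mul_smul, hwa, hwb]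
    have h2 : 2 ∣ orderOf w := by
      by_contra hodd
      obtain ⟨k, hk⟩ := Nat.odd_iff.2 (Nat.mod_two_ne_zero.1 (fun h => hodd (Nat.dvd_of_mod_eq_zero h)))
      apply hab'
      have h3 := pow_orderOf_eq_one w
      rw [hk, show 2 * k + 1 = 1 + 2 * k by ring, pow_add, pow_one] at h3
      have h4 : (w * w ^ (2 * k)) • a = b := by rw [mul_smul, heven, hwa]
      rw [h3, one_smul] at h4
      exact h4
    exact h2.trans (orderOf_dvd_natCard w)
  · intro p hp hkp hdvd α
    by_contra hcon
    push Not at hcon
    obtain ⟨h1, h2⟩ := hcon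
    haveI : Fact p.Prime := ⟨hp⟩
    set X := MulAction.stabilizer G α with hX
    obtain ⟨S⟩ : Nonempty (Sylow p X) := inferInstance
    set S₀ : Subgroup G := (S : Subgroup X).map X.subtype with hS₀
    have hSmem : ∀ z : X, z ∈ (S : Subgroup X) ↔ (z : G) ∈ S₀ := by
      intro z
      exact (Subgroup.mem_map_iff_mem (Subgroup.subtype_injective X)).symm
    have hS₀p : IsPGroup p S₀ := S.isPGroup'.map _
    obtain ⟨P, hP⟩ := hS₀p.exists_le_sylow
    have hne : S₀ ≠ P := by
      intro h
      have h3 : (P : Subgroup G) ≤ X := by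
        rw [← h, hS₀]
        exact Subgroup.map_subtype_le _
      have h4 : X.index ∣ (P : Subgroup G).index := Subgroup.index_dvd_of_le h3
      exact P.not_dvd_index (h2.trans h4)
    obtain ⟨y, hyP, hyS, hyN⟩ := Cfsg.Agent.Lib.H5Basic.exists_mem_normalizer_of_lt P.isPGroup' hP hne
    -- a non-identity element of `S`
    have hSne : (S : Subgroup X) ≠ ⊥ := S.ne_bot_of_dvd_card h1
    obtain ⟨s, hs1⟩ := Subgroup.ne_bot_iff_exists_ne_one.1 hSne
    have hs₀ : ((s : X) : G) ∈ S₀ := (hSmem _).1 s.2
    have hs₁ : ((s : X) : G) ≠ 1 := by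
      intro h
      apply hs1
      exact Subtype.ext (Subtype.ext h)
    -- the fixed points of `S`
    let Δ : Set Ω := {ω | ∀ t ∈ S₀, t • ω = ω}
    have hαΔ : α ∈ Δ := by
      intro t ht
      obtain ⟨t', _, rfl⟩ := ht
      exact t'.2
    have hΔcard : Nat.card Δ ≤ k := by
      refine le_trans ?_ (hfix _ hs₁)
      apply Nat.card_mono (Set.toFinite _)
      intro ω hω
      exact hω _ hs₀
    have hyΔ : ∀ i : ℤ, ∀ ω ∈ Δ, y ^ i • ω ∈ Δ := by
      intro i ω hω t ht
      have h3 : y ^ i ∈ Subgroup.normalizer (S₀ : Set G) := Subgroup.zpow_mem _ hyN i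
      have h4 := (Subgroup.mem_normalizer_iff''.1 h3 t).1 ht
      have h5 := hω _ h4
      calc t • y ^ i • ω = y ^ i • ((y ^ i)⁻¹ * t * y ^ i) • ω := by
            simp only [← mul_smul]
            congr 1
            group
        _ = y ^ i • ω := by rw [h5]
    obtain ⟨e, he⟩ := P.isPGroup' ⟨y, hyP⟩
    have hpow : y ^ p ^ e = 1 := congrArg Subtype.val he
    have hAp : IsPGroup p (Subgroup.zpowers y) := by
      rw [IsPGroup.iff_card, Nat.card_zpowers]
      obtain ⟨b, -, hb⟩ := (Nat.dvd_prime_pow hp).1 (orderOf_dvd_of_pow_eq_one hpow)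
      exact ⟨b, hb⟩
    obtain ⟨e', he'⟩ := IsPGroup.iff_card.1 hAp
    have horbsub : MulAction.orbit (Subgroup.zpowers y) α ⊆ Δ := by
      rintro _ ⟨⟨_, i, rfl⟩, rfl⟩
      exact hyΔ i α hαΔ
    have hcardorb : Nat.card (MulAction.orbit (Subgroup.zpowers y) α) ≤ k :=
      (Nat.card_mono (Set.toFinite _) horbsub).trans hΔcard
    have hdvd' : Nat.card (MulAction.orbit (Subgroup.zpowers y) α) ∣ p ^ e' := by
      rw [← he']
      exact Dvd.intro _ (Cfsg.Agent.Lib.SylowCount.card_orbit_mul_card_stabilizer (H := Subgroup.zpowers y) α)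
    obtain ⟨j, -, hj⟩ := (Nat.dvd_prime_pow hp).1 hdvd'
    have hj0 : j = 0 := by
      by_contra h0
      have h3 : p ^ 1 ≤ p ^ j := Nat.pow_le_pow_right hp.pos (Nat.pos_of_ne_zero h0)
      rw [pow_one, ← hj] at h3
      omega
    rw [hj0, pow_zero] at hj
    have hyα : y • α = α := by
      obtain ⟨hsub, -⟩ := Nat.card_eq_one_iff_unique.1 hj
      have h3 := @Subsingleton.elim _ hsub
        ⟨(⟨y, Subgroup.mem_zpowers y⟩ : Subgroup.zpowers y) • α, MulAction.mem_orbit _ _⟩
        ⟨α, MulAction.mem_orbit_self α⟩
      exact congrArg Subtype.val h3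
    have hyX : y ∈ X := hyα
    have hn : (⟨y, hyX⟩ : X) ∈ Subgroup.normalizer ((S : Subgroup X) : Set X) := by
      rw [Subgroup.mem_normalizer_iff]
      intro z
      rw [hSmem, hSmem]
      exact Subgroup.mem_normalizer_iff.1 hyN (z : G)
    have h3 := Cfsg.Agent.Lib.H5Basic.mem_of_isPGroup_of_le_normalizer S (x := (⟨y, hyX⟩ : X))
      ⟨e, Subtype.ext hpow⟩ hn
    exact hyS ((hSmem _).1 h3)

end Cfsg.Agent.S3389
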