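import Mathlib
import Cfsg.Statements.S3495
-- import your own Cfsg.Agent.* helpers here

set_option autoImplicit false
open Cfsg

namespace Cfsg.Agent.S3495

/-- Let a finite group G act faithfully and primitively on a finite set Ω with non-trivial point stabilizers, each acting primitively on every one of its orbits (an extremely primitive group), and suppose G has an elementary abelian normal p-subgroup N acting regularly on Ω (affine type). Then every non-trivial subgroup M of a point stabilizer G_α that is normal in G_α has the same orbits on Ω as G_α, and normalizes no subgroup of N other than 1 and N. -/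
theorem result {G : Type*} [Group G] [Finite G] {Ω : Type*} [Fintype Ω] [MulAction G Ω] [FaithfulSMul G Ω] (hprim : MulAction.IsPreprimitive G Ω) (hH : ∀ α : Ω, MulAction.stabilizer G α ≠ ⊥) (hep : ∀ (α : Ω) (ω : Ω), MulAction.IsPreprimitive (MulAction.stabilizer G α) (MulAction.orbit (MulAction.stabilizer G α) ω))
    (N : Subgroup G) [N.Normal] (hNc : IsMulCommutative N) (p : ℕ) (hp : p.Prime) (hNp : ∀ n ∈ N, n ^ p = 1)
    (hNtr : MulAction.IsPretransitive N Ω) (hNreg : ∀ ω : Ω, MulAction.stabilizer N ω = ⊥) (α : Ω) (M : Subgroup G) (hM : M ≠ ⊥) (hMle : M ≤ MulAction.stabilizer G α)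
    (hMn : MulAction.stabilizer G α ≤ Subgroup.normalizer (M : Set G)) :
    (∀ ω : Ω, MulAction.orbit M ω = MulAction.orbit (MulAction.stabilizer G α) ω) ∧
    (∀ L : Subgroup G, L ≤ N → M ≤ Subgroup.normalizer (L : Set G) → L = ⊥ ∨ L = N) := by
  classical
  set H := MulAction.stabilizer G α with hHdef
  have hHm : ∀ h, h ∈ H ↔ h • α = α := fun h => MulAction.mem_stabilizer_iff
  -- regularity
  have hreg : ∀ (ω : Ω) (a b : G), a ∈ N → b ∈ N → a • ω = b • ω → a = b := by
    intro ω a b ha hb hab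
    have h1 : (⟨a⁻¹ * b, N.mul_mem (N.inv_mem ha) hb⟩ : N) ∈ MulAction.stabilizer N ω := by
      rw [MulAction.mem_stabilizer_iff, Subgroup.smul_def]
      show (a⁻¹ * b) • ω = ω
      rw [mul_smul, ← hab, inv_smul_smul]
    rw [hNreg ω, Subgroup.mem_bot] at h1
    have h2 : a⁻¹ * b = 1 := congrArg Subtype.val h1
    exact (inv_mul_eq_one.1 h2)
  -- commutativity in `N`
  have hNcomm : ∀ a ∈ N, ∀ b ∈ N, a * b = b * a := by
    intro a ha b hb
    have := mul_comm' (⟨a, ha⟩ : N) ⟨b, hb⟩
    exact congrArg Subtype.val this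
  -- irreducibility
  have hirr : ∀ L' : Subgroup G, L' ≤ N → (∀ h ∈ H, ∀ y, y ∈ L' → h * y * h⁻¹ ∈ L') → L' = ⊥ ∨ L' = N := by
    intro L' hL' hinv
    have hn : L'.Normal := by
      constructor
      intro x hx g
      obtain ⟨n, hn⟩ := hNtr.exists_smul_eq α (g • α)
      have hn' : (n : G) • α = g • α := hn
      have hh : (n : G)⁻¹ * g ∈ H := by
        rw [hHm, mul_smul, ← hn', inv_smul_smul]
      have h1 := hinv _ hh x hx
      have h2 : n * ((n : G)⁻¹ * g * x * ((n : G)⁻¹ * g)⁻¹) * (n : G)⁻¹ = (n : G)⁻¹ * g * x * ((n : G)⁻¹ * g)⁻¹ := by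
        rw [hNcomm _ n.2 _ (hL' h1)]
        group
      have h3 : g * x * g⁻¹ = n * ((n : G)⁻¹ * g * x * ((n : G)⁻¹ * g)⁻¹) * (n : G)⁻¹ := by group
      rw [h3, h2]
      exact h1
    have hb : MulAction.IsBlock G (MulAction.orbit L' α) := MulAction.IsBlock.orbit_of_normal α
    rcases hprim.isTrivialBlock_of_isBlock hb with h | h
    · left
      rw [eq_bot_iff]
      intro l hl
      have h1 : (⟨l, hl⟩ : L') • α ∈ MulAction.orbit L' α := MulAction.mem_orbit _ _
      have h2 : α ∈ MulAction.orbit L' α := MulAction.mem_orbit_self _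
      have h3 : l • α = (1 : G) • α := by
        rw [one_smul]
        exact h h1 h2
      exact hreg α l 1 (hL' hl) N.one_mem h3
    · right
      apply le_antisymm hL'
      intro n hn'
      have h1 : n • α ∈ MulAction.orbit L' α := by
        rw [h]
        trivial
      obtain ⟨l, hl⟩ := h1
      have hl' : (l : G) • α = n • α := hl
      have h5 := hreg α l n (hL' l.2) hn' hl'
      rw [← h5]
      exact l.2
  -- `C_N(M) = 1`
  have hMinv : ∀ h ∈ H, ∀ m ∈ M, h⁻¹ * m * h ∈ M := by
    intro h hh m hm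
    have := (Subgroup.mem_normalizer_iff.1 (hMn (H.inv_mem hh)) m).1 hm
    simpa using this
  have hC : ∀ n ∈ N, (∀ m ∈ M, m * n * m⁻¹ = n) → n = 1 := by
    let L₀ : Subgroup G := N ⊓ Subgroup.centralizer (M : Set G)
    have hL₀ : ∀ n, n ∈ L₀ ↔ n ∈ N ∧ ∀ m ∈ M, m * n * m⁻¹ = n := by
      intro n
      rw [Subgroup.mem_inf, Subgroup.mem_centralizer_iff]
      constructor
      · rintro ⟨h1, h2⟩
        refine ⟨h1, fun m hm => ?_⟩
        have := h2 m hm
        rw [this]
        group
      · rintro ⟨h1, h2⟩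
        refine ⟨h1, fun m hm => ?_⟩
        have := h2 m hm
        calc m * n = m * n * m⁻¹ * m := by group
          _ = n * m := by rw [this]
    rcases hirr L₀ inf_le_left (by
      intro h hh y hy
      rw [hL₀] at hy ⊢
      refine ⟨‹N.Normal›.conj_mem _ hy.1 _, fun m hm => ?_⟩
      have h1 := hy.2 _ (hMinv h hh m hm)
      calc m * (h * y * h⁻¹) * m⁻¹ = h * ((h⁻¹ * m * h) * y * (h⁻¹ * m * h)⁻¹) * h⁻¹ := by group
        _ = h * y * h⁻¹ := by rw [h1]) with h0 | h0
    · intro n hn hnm
      have : n ∈ L₀ := (hL₀ n).2 ⟨hn, hnm⟩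
      rw [h0] at this
      exact this
    · exfalso
      apply hM
      rw [eq_bot_iff]
      intro m hm
      have hfix : ∀ ω : Ω, m • ω = ω := by
        intro ω
        obtain ⟨n, hn⟩ := hNtr.exists_smul_eq α ω
        have hn' : (n : G) • α = ω := hn
        have h1 : (n : G) ∈ L₀ := by rw [h0]; exact n.2
        have h2 := ((hL₀ _).1 h1).2 m hm
        have h3 : m • α = α := (hHm m).1 (hMle hm)
        rw [← hn']
        have h4 : m * n = n * m := by
          calc m * n = m * n * m⁻¹ * m := by group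
            _ = n * m := by rw [h2]
        calc m • ((n : G) • α) = (m * n) • α := by rw [mul_smul]
          _ = (n * m) • α := by rw [h4]
          _ = (n : G) • α := by rw [mul_smul, h3]
      have := FaithfulSMul.eq_of_smul_eq_smul (α := Ω) (m₁ := m) (m₂ := (1 : G)) (by simpa using hfix)
      exact this
  -- equality of orbits
  have hM' : (M.subgroupOf H).Normal := by
    rw [Subgroup.normal_subgroupOf_iff_le_normalizer hMle]
    exact hMn
  have horb : ∀ ω : Ω, MulAction.orbit M ω = MulAction.orbit H ω := by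
    intro ω
    apply Set.Subset.antisymm
    · rintro _ ⟨m, rfl⟩
      exact ⟨⟨m, hMle m.2⟩, rfl⟩
    · haveI := hep α ω
      let ω' : MulAction.orbit H ω := ⟨ω, MulAction.mem_orbit_self ω⟩
      have hb : MulAction.IsBlock H (MulAction.orbit (M.subgroupOf H) ω') :=
        MulAction.IsBlock.orbit_of_normal ω'
      rcases (hep α ω).isTrivialBlock_of_isBlock hb with h | h
      · -- `M` fixes `ω`
        have hfix : ∀ m ∈ M, m • ω = ω := by
          intro m hm
          have h1 : (⟨⟨m, hMle hm⟩, hm⟩ : M.subgroupOf H) • ω' ∈ MulAction.orbit (M.subgroupOf H) ω' :=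
            MulAction.mem_orbit _ _
          have h2 : ω' ∈ MulAction.orbit (M.subgroupOf H) ω' := MulAction.mem_orbit_self _
          have h3 := h h1 h2
          exact congrArg Subtype.val h3
        obtain ⟨n, hn⟩ := hNtr.exists_smul_eq α ω
        have hn' : (n : G) • α = ω := hn
        have hn1 : (n : G) = 1 := by
          apply hC _ n.2
          intro m hm
          apply hreg α _ _ (‹N.Normal›.conj_mem _ n.2 _) n.2
          have h3 : m⁻¹ • α = α := (hHm _).1 (H.inv_mem (hMle hm))
          rw [mul_smul, mul_smul, h3, hn', hfix m hm]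
        have hω : ω = α := by rw [← hn', hn1, one_smul]
        subst hω
        rintro _ ⟨h', rfl⟩
        have h4 : (h' : G) • ω = ω := (hHm _).1 h'.2
        have h5 : h' • ω = ω := h4
        show h' • ω ∈ _
        rw [h5]
        exact MulAction.mem_orbit_self _
      · intro u hu
        have h1 : (⟨u, hu⟩ : MulAction.orbit H ω) ∈ MulAction.orbit (M.subgroupOf H) ω' := by
          rw [h]
          trivial
        obtain ⟨m, hm⟩ := h1
        have h2 : ((m : H) : G) • ω = u := congrArg Subtype.val hm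
        exact ⟨⟨((m : H) : G), m.2⟩, h2⟩
  refine ⟨horb, ?_⟩
  intro L hLN hML
  by_cases hL : L = ⊥
  · exact Or.inl hL
  right
  obtain ⟨⟨l, hl⟩, hl1⟩ := Subgroup.ne_bot_iff_exists_ne_one.1 hL
  have hl1' : l ≠ 1 := fun h => hl1 (Subtype.ext h)
  -- the `H`-core of `L`
  let L' : Subgroup G :=
    { carrier := {x | x ∈ N ∧ ∀ h ∈ H, h * x * h⁻¹ ∈ L}
      one_mem' := ⟨N.one_mem, fun h _ => by simp [L.one_mem]⟩
      mul_mem' := by
        rintro a b ⟨ha, ha'⟩ ⟨hb, hb'⟩
        refine ⟨N.mul_mem ha hb, fun h hh => ?_⟩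
        have := L.mul_mem (ha' h hh) (hb' h hh)
        have h2 : h * a * h⁻¹ * (h * b * h⁻¹) = h * (a * b) * h⁻¹ := by group
        rwa [h2] at this
      inv_mem' := by
        rintro a ⟨ha, ha'⟩
        refine ⟨N.inv_mem ha, fun h hh => ?_⟩
        have := L.inv_mem (ha' h hh)
        have h2 : (h * a * h⁻¹)⁻¹ = h * a⁻¹ * h⁻¹ := by group
        rwa [h2] at this }
  have hlL' : l ∈ L' := by
    refine ⟨hLN hl, fun h hh => ?_⟩
    -- `h • (l • α)` is an `M`-image of `l • α`
    have h1 : (⟨h, hh⟩ : H) • (l • α) ∈ MulAction.orbit H (l • α) := MulAction.mem_orbit _ _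
    rw [← horb] at h1
    obtain ⟨m, hm⟩ := h1
    have hm' : (m : G) • (l • α) = h • (l • α) := hm
    have hmH : (m : G)⁻¹ • α = α := (hHm _).1 (H.inv_mem (hMle m.2))
    have hhH : h⁻¹ • α = α := (hHm _).1 (H.inv_mem hh)
    have h2 : h * l * h⁻¹ = m * l * (m : G)⁻¹ := by
      apply hreg α _ _ (‹N.Normal›.conj_mem _ (hLN hl) _) (‹N.Normal›.conj_mem _ (hLN hl) _)
      rw [mul_smul, mul_smul, hhH, mul_smul, mul_smul, hmH, hm']
    rw [h2]
    exact (Subgroup.mem_normalizer_iff.1 (hML m.2) l).1 hl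
  have hL'N : L' ≤ N := fun x hx => hx.1
  rcases hirr L' hL'N (by
    rintro h hh y ⟨hy, hy'⟩
    refine ⟨‹N.Normal›.conj_mem _ hy _, fun h' hh' => ?_⟩
    have := hy' (h' * h) (H.mul_mem hh' hh)
    have h2 : h' * (h * y * h⁻¹) * h'⁻¹ = h' * h * y * (h' * h)⁻¹ := by group
    rwa [h2]) with h0 | h0
  · exfalso
    rw [h0] at hlL'
    exact hl1' hlL'
  · apply le_antisymm hLN
    intro n hn
    have h1 : n ∈ L' := by rw [h0]; exact hn
    have h2 := h1.2 1 H.one_mem
    simpa using h2

end Cfsg.Agent.S3495
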