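import Mathlib
import Cfsg.Agent.Lib.H5Basic
import Cfsg.Agent.Lib.SylowCount
import Cfsg.Agent.Lib.Replacement
import Cfsg.Agent.Lib.PGroupBasic
import Cfsg.Agent.Lib.CoprimeSylow
import Cfsg.Statements.S3498
-- import your own Cfsg.Agent.* helpers here

set_option autoImplicit false
open Cfsg

namespace Cfsg.Agent.S3498

/-- A maximal subgroup of a finite almost simple group does not have prime order. Here G is almost simple in the sense that it has a non-abelian simple normal subgroup T with trivial centralizer. -/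
theorem result {G : Type*} [Group G] [Finite G] (T : Subgroup G) [T.Normal] (hT : IsSimpleGroup T) (hTc : ¬ IsMulCommutative T)
    (hC : Subgroup.centralizer (T : Set G) = ⊥) (H : Subgroup G) (hmax : IsCoatom H) : ¬ (Nat.card H).Prime := by
  classical
  intro hq
  haveI := hT
  set q := Nat.card H with hqdef
  haveI : Fact q.Prime := ⟨hq⟩
  have hH2 : IsPGroup q H := IsPGroup.of_card (n := 1) (by rw [pow_one])
  haveI hHcyc : IsCyclic H := isCyclic_of_prime_card rfl
  have hHcomm : ∀ a ∈ H, ∀ b ∈ H, a * b = b * a := by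
    intro a ha b hb
    have := mul_comm' (⟨a, ha⟩ : H) ⟨b, hb⟩
    exact congrArg Subtype.val this
  have hTnot : ¬ ∀ a ∈ T, ∀ b ∈ T, a * b = b * a := by
    intro h
    apply hTc
    exact ⟨⟨fun a b => Subtype.ext (h a a.2 b b.2)⟩⟩
  -- `T` is not a `p`-group
  have hTp : ∀ r : ℕ, r.Prime → ¬ IsPGroup r T := by
    intro r hr hP
    haveI : Fact r.Prime := ⟨hr⟩
    haveI hnt : Nontrivial (Subgroup.center T) := hP.center_nontrivial
    have h1 : Subgroup.center T = ⊤ := by
      rcases IsSimpleGroup.eq_bot_or_eq_top_of_normal (Subgroup.center T) inferInstance with h | h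
      · exfalso
        rw [h] at hnt
        exact not_nontrivial _ hnt
      · exact h
    apply hTnot
    intro a ha b hb
    have h2 : (⟨a, ha⟩ : T) ∈ Subgroup.center T := by rw [h1]; trivial
    have h3 := (Subgroup.mem_center_iff.1 h2) ⟨b, hb⟩
    exact (congrArg Subtype.val h3).symm
  have hHne : H ≠ ⊥ := by
    intro h
    have h1 : Nat.card H = 1 := by rw [h]; simp
    rw [← hqdef] at h1
    exact hq.one_lt.ne' h1
  obtain ⟨Q, hQ⟩ := hH2.exists_le_sylow
  by_cases hle : H ≤ T
  · -- `H ≤ T`, so `T = G`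
    have hT' : T = ⊤ := by
      apply hmax.2
      refine lt_of_le_of_ne hle ?_
      intro h
      apply hTnot
      rw [← h]
      exact hHcomm
    haveI hsimple : IsSimpleGroup G :=
      (((MulEquiv.subgroupCongr hT').trans Subgroup.topEquiv).symm).isSimpleGroup
    have hGnc : ¬ IsMulCommutative G := by
      intro hc
      apply hTnot
      intro a _ b _
      exact mul_comm' a b
    have hnotnormal : ¬ H.Normal := by
      intro hn
      rcases IsSimpleGroup.eq_bot_or_eq_top_of_normal H hn with h | h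
      · exact hHne h
      · exact hmax.1 h
    have hNH : Subgroup.normalizer (H : Set G) = H := by
      by_contra h
      apply hnotnormal
      have h1 : H < Subgroup.normalizer (H : Set G) := lt_of_le_of_ne Subgroup.le_normalizer (Ne.symm h)
      have h2 := hmax.2 _ h1
      exact Subgroup.normalizer_eq_top_iff.1 h2
    have hHQ : H = Q := by
      by_contra h
      obtain ⟨x, hxQ, hxH, hxN⟩ := Cfsg.Agent.Lib.H5Basic.exists_mem_normalizer_of_lt Q.isPGroup' hQ h
      rw [hNH] at hxN
      exact hxH hxN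
    have hdvd : q ∣ Nat.card G := Subgroup.card_subgroup_dvd_card H
    apply Cfsg.Agent.Lib.SylowCount.not_normalizer_le_centralizer_of_simple hGnc Q hdvd
    rw [← hHQ, hNH]
    intro a ha
    rw [Subgroup.mem_centralizer_iff]
    intro b hb
    exact hHcomm b hb a ha
  -- `H ∩ T = 1`
  have hinf : ∀ x ∈ H, x ∈ T → x = 1 := by
    intro x hxH hxT
    have h1 : Nat.card ↥(H ⊓ T) ∣ q := Subgroup.card_dvd_of_le inf_le_left
    rcases (Nat.dvd_prime hq).1 h1 with h2 | h2
    · have h3 : H ⊓ T = ⊥ := Subgroup.eq_bot_of_card_eq _ h2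
      have h4 : x ∈ H ⊓ T := ⟨hxH, hxT⟩
      rw [h3] at h4
      exact h4
    · exfalso
      apply hle
      have h3 : H ⊓ T = H := Subgroup.eq_of_le_of_card_ge inf_le_left (by rw [h2])
      rw [← h3]
      exact inf_le_right
  -- step A
  have stepA : ∀ R : Subgroup G, R ≠ ⊥ → R ≤ T → R ≠ T → (∀ a ∈ H, ∀ x ∈ R, a * x * a⁻¹ ∈ R) → False := by
    intro R hR hRT hRne hinv
    have hHN : H ≤ Subgroup.normalizer (R : Set G) := by
      intro a ha
      apply Cfsg.Agent.Lib.H5Basic.mem_normalizer_of_map_conj_le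
      rintro _ ⟨x, hx, rfl⟩
      exact hinv a ha x hx
    by_cases hRH : R ≤ H
    · apply hR
      rw [eq_bot_iff]
      intro x hx
      exact hinf x (hRH hx) (hRT hx)
    · have h1 : H < H ⊔ R := lt_of_le_of_ne le_sup_left (fun h => hRH (by
        rw [h]; exact le_sup_right))
      have h2 := hmax.2 _ h1
      apply hRne
      apply le_antisymm hRT
      intro x hx
      have h3 : x ∈ H ⊔ R := by rw [h2]; trivial
      obtain ⟨a, ha, b, hb, rfl⟩ := Cfsg.Agent.Lib.Replacement.mem_sup_of_le_normalizer hHN h3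
      have h4 : a ∈ T := by
        have := T.mul_mem hx (T.inv_mem (hRT hb))
        simpa using this
      rw [hinf a ha h4, one_mul]
      exact hb
  by_cases hqT : q ∣ Nat.card T
  · -- a central element of a Sylow subgroup inside `T`
    obtain ⟨t, ht⟩ := exists_prime_orderOf_dvd_card' q hqT
    have ht1 : (t : G) ≠ 1 := by
      intro h
      have h1 : t = 1 := Subtype.ext h
      rw [h1, orderOf_one] at ht
      exact hq.one_lt.ne ht
    have htord : orderOf (t : G) = q := by rw [Subgroup.orderOf_coe]; exact ht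
    have hzp : IsPGroup q (Subgroup.zpowers (t : G)) := by
      apply IsPGroup.of_card (n := 1)
      rw [Nat.card_zpowers, htord, pow_one]
    obtain ⟨P', hP'⟩ := hzp.exists_le_sylow
    obtain ⟨g, hg⟩ := MulAction.exists_smul_eq G P' Q
    have h1 : g * t * g⁻¹ ∈ (Q : Subgroup G) := by
      rw [← hg]
      exact Cfsg.Agent.Lib.H5Basic.conj_mem_smul_sylow P' g t (hP' (Subgroup.mem_zpowers _))
    have h2 : g * t * g⁻¹ ∈ T := ‹T.Normal›.conj_mem _ t.2 _
    have h3 : g * (t : G) * g⁻¹ ≠ 1 := by
      intro h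
      apply ht1
      have := congrArg (fun x => g⁻¹ * x * g) h
      simpa [mul_assoc] using this
    have hD : (T.subgroupOf (Q : Subgroup G)) ≠ ⊥ := by
      intro h
      have h4 : (⟨_, h1⟩ : (Q : Subgroup G)) ∈ T.subgroupOf (Q : Subgroup G) := h2
      rw [h] at h4
      exact h3 (congrArg Subtype.val h4)
    obtain ⟨x, hxD, hx1, hxc⟩ :=
      Cfsg.Agent.Lib.PGroupBasic.exists_ne_one_mem_center_of_normal Q.isPGroup' _ hD
    have hxT : (x : G) ∈ T := hxD
    have hx1' : (x : G) ≠ 1 := fun h => hx1 (Subtype.ext h)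
    apply stepA (Subgroup.zpowers (x : G))
    · intro h
      rw [Subgroup.zpowers_eq_bot] at h
      exact hx1' h
    · rw [Subgroup.zpowers_le]
      exact hxT
    · intro h
      apply hTnot
      intro a ha b hb
      rw [← h] at ha hb
      obtain ⟨i, rfl⟩ := ha
      obtain ⟨j, rfl⟩ := hb
      exact (Commute.zpow_zpow_self _ i j)
    · intro a ha y hy
      obtain ⟨i, rfl⟩ := hy
      have h5 : (⟨a, hQ ha⟩ : (Q : Subgroup G)) * x = x * ⟨a, hQ ha⟩ :=
        (Subgroup.mem_center_iff.1 hxc _)
      have h6 : a * (x : G) = x * a := congrArg Subtype.val h5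
      have h7 : Commute a (x : G) := h6
      show a * (x : G) ^ i * a⁻¹ ∈ _
      rw [(h7.zpow_right i).eq, mul_assoc, mul_inv_cancel, mul_one]
      exact ⟨i, rfl⟩
  · -- coprime case: an invariant Sylow subgroup
    have hcardT : Nat.card T ≠ 1 := Finite.one_lt_card.ne'
    obtain ⟨r, hr, hrT⟩ := Nat.exists_prime_and_dvd hcardT
    haveI : Fact r.Prime := ⟨hr⟩
    obtain ⟨R, -, hRT, hRr, hRcard, hRinv⟩ := Cfsg.Agent.Lib.CoprimeSylow.exists_invariant_sylow_ge
      (p := q) (r := r) H T ⊥ hH2 hqT (fun a _ l hl => ‹T.Normal›.conj_mem _ hl _) bot_le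
      IsPGroup.of_bot (fun a _ x hx => by
        rw [Subgroup.mem_bot] at hx ⊢
        simp [hx])
    apply stepA R ?_ hRT ?_ hRinv
    · intro h
      rw [h, Nat.card_eq_one_iff_unique.2 ⟨inferInstance, inferInstance⟩] at hRcard
      have h0 : (Nat.card T).factorization r ≠ 0 := by
        rw [← Finsupp.mem_support_iff, Nat.support_factorization, Nat.mem_primeFactors]
        exact ⟨hr, hrT, Nat.card_pos.ne'⟩
      have h2 : r ^ 1 ≤ r ^ (Nat.card T).factorization r :=
        Nat.pow_le_pow_right hr.pos (Nat.pos_of_ne_zero h0)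
      rw [← hRcard, pow_one] at h2
      exact absurd h2 (by have := hr.two_le; omega)
    · intro h
      rw [h] at hRr
      exact hTp r hr hRr

end Cfsg.Agent.S3498
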