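import Mathlib
import Cfsg.Statements.S3504
-- import your own Cfsg.Agent.* helpers here

set_option autoImplicit false
open Cfsg

namespace Cfsg.Agent.S3504

/-- For n ≥ 5, the fixed-point-free permutations of prime order in the symmetric group of degree n form a single conjugacy class if and only if n is a prime power. -/
theorem result (n : ℕ) (hn : 5 ≤ n) :
    Nat.card {c : ConjClasses (Equiv.Perm (Fin n)) // ∃ g : Equiv.Perm (Fin n), ConjClasses.mk g = c ∧ (orderOf g).Prime ∧ ∀ i : Fin n, g i ≠ i} = 1 ↔ IsPrimePow n := by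
  classical
  have hn0 : n ≠ 0 := by omega
  have hcard : Fintype.card (Fin n) = n := Fintype.card_fin n
  -- structure of fixed-point-free permutations of prime order
  have A : ∀ g : Equiv.Perm (Fin n), (orderOf g).Prime → (∀ i, g i ≠ i) →
      orderOf g ∣ n ∧ g.cycleType = Multiset.replicate (n / orderOf g) (orderOf g) := by
    intro g hp hfix
    obtain ⟨k, hk⟩ := Equiv.Perm.cycleType_prime_order hp
    have hs : g.support = Finset.univ := by
      ext i
      simp [Equiv.Perm.mem_support, hfix i]
    have hsum := Equiv.Perm.sum_cycleType g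
    rw [hs, Finset.card_univ, hcard, hk, Multiset.sum_replicate, smul_eq_mul] at hsum
    have hd : orderOf g ∣ n := ⟨k + 1, hsum.symm.trans (mul_comm _ _)⟩
    refine ⟨hd, ?_⟩
    have hq : n / orderOf g = k + 1 := Nat.div_eq_of_eq_mul_left hp.pos hsum.symm
    rw [hq]
    exact hk
  -- existence
  have B : ∀ p : ℕ, p ∈ n.primeFactors → ∃ g : Equiv.Perm (Fin n), orderOf g = p ∧ (∀ i, g i ≠ i) := by
    intro p hp
    have hpp := Nat.prime_of_mem_primeFactors hp
    have hpd := Nat.dvd_of_mem_primeFactors hp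
    have hqpos : 0 < n / p := Nat.div_pos (Nat.le_of_dvd (by omega) hpd) hpp.pos
    have hsum : (Multiset.replicate (n / p) p).sum = n := by
      rw [Multiset.sum_replicate, smul_eq_mul]
      exact Nat.div_mul_cancel hpd
    obtain ⟨g, hg⟩ := (Equiv.Perm.exists_with_cycleType_iff (Fin n)
      (m := Multiset.replicate (n / p) p)).2 ⟨by rw [hsum, hcard], by
        intro a ha
        rw [Multiset.eq_of_mem_replicate ha]
        exact hpp.two_le⟩
    refine ⟨g, ?_, ?_⟩
    · rw [← Equiv.Perm.lcm_cycleType, hg]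
      obtain ⟨k, hk⟩ : ∃ k, n / p = k + 1 := ⟨n / p - 1, by omega⟩
      rw [hk]
      clear hk hg
      induction k with
      | zero => simp
      | succ k ih =>
        rw [Multiset.replicate_succ, Multiset.lcm_cons, ih]
        simp
    · have hs := Equiv.Perm.sum_cycleType g
      rw [hg, hsum] at hs
      have hs2 : g.support = Finset.univ := by
        apply Finset.eq_univ_of_card
        rw [← hs, hcard]
      intro i
      have : i ∈ g.support := by rw [hs2]; exact Finset.mem_univ i
      exact Equiv.Perm.mem_support.1 this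
  have C : ∀ g g' : Equiv.Perm (Fin n), (orderOf g).Prime → (∀ i, g i ≠ i) → (∀ i, g' i ≠ i) →
      orderOf g = orderOf g' → ConjClasses.mk g = ConjClasses.mk g' := by
    intro g g' hp hfix hfix' ho
    rw [ConjClasses.mk_eq_mk_iff_isConj, Equiv.Perm.isConj_iff_cycleType_eq]
    rw [(A g hp hfix).2, (A g' (ho ▸ hp) hfix').2, ho]
  choose! w hw₁ hw₂ using B
  have hcardS : Nat.card {c : ConjClasses (Equiv.Perm (Fin n)) // ∃ g : Equiv.Perm (Fin n),
      ConjClasses.mk g = c ∧ (orderOf g).Prime ∧ ∀ i : Fin n, g i ≠ i} = n.primeFactors.card := by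
    let φ : {p // p ∈ n.primeFactors} → {c : ConjClasses (Equiv.Perm (Fin n)) // ∃ g : Equiv.Perm (Fin n),
        ConjClasses.mk g = c ∧ (orderOf g).Prime ∧ ∀ i : Fin n, g i ≠ i} := fun p =>
      ⟨ConjClasses.mk (w p.1), w p.1, rfl, by
        rw [hw₁ p.1 p.2]; exact Nat.prime_of_mem_primeFactors p.2, hw₂ p.1 p.2⟩
    have hφ : Function.Bijective φ := by
      constructor
      · rintro ⟨p, hp⟩ ⟨q, hq⟩ h
        have h1 : ConjClasses.mk (w p) = ConjClasses.mk (w q) := congrArg Subtype.val h
        rw [ConjClasses.mk_eq_mk_iff_isConj, Equiv.Perm.isConj_iff_cycleType_eq] at h1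
        apply Subtype.ext
        show p = q
        rw [← hw₁ p hp, ← hw₁ q hq, ← Equiv.Perm.lcm_cycleType, ← Equiv.Perm.lcm_cycleType, h1]
      · rintro ⟨c, g, rfl, hp, hfix⟩
        have hmem : orderOf g ∈ n.primeFactors :=
          Nat.mem_primeFactors.2 ⟨hp, (A g hp hfix).1, hn0⟩
        refine ⟨⟨orderOf g, hmem⟩, Subtype.ext ?_⟩
        show ConjClasses.mk (w (orderOf g)) = ConjClasses.mk g
        apply C _ _ _ (hw₂ _ hmem) hfix (hw₁ _ hmem)
        rw [hw₁ _ hmem]
        exact hp
    rw [← Nat.card_congr (Equiv.ofBijective φ hφ), Nat.card_eq_fintype_card, Fintype.card_coe]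
  rw [hcardS, isPrimePow_iff_card_primeFactors_eq_one]

end Cfsg.Agent.S3504
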