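import Mathlib
import Cfsg.Statements.S3508
-- import your own Cfsg.Agent.* helpers here

set_option autoImplicit false
open Cfsg

namespace Cfsg.Agent.S3508


/-- The linear-algebra core: an affine map of `p`-power order on a space of dimension `m`. -/
theorem affine_core {p : ℕ} [Fact p.Prime] {V : Type*} [AddCommGroup V] [Module (ZMod p) V] [Finite V]
    (A : V →ₗ[ZMod p] V) (c : V) (m r : ℕ) (hcard : Nat.card V = p ^ m)
    (hF : ∀ v, (fun v => A v + c)^[p ^ r] v = v) (hq : m + 1 ≤ p ^ (r - 1)) :
    ∀ v, (fun v => A v + c)^[p ^ (r - 1)] v = v := by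
  classical
  set F : V → V := fun v => A v + c with hFdef
  let W := V × ZMod p
  let T : Module.End (ZMod p) W :=
    (A.comp (LinearMap.fst (ZMod p) V (ZMod p)) +
      (LinearMap.toSpanSingleton (ZMod p) V c).comp (LinearMap.snd (ZMod p) V (ZMod p))).prod
      (LinearMap.snd (ZMod p) V (ZMod p))
  have hT : ∀ (v : V) (t : ZMod p), T (v, t) = (A v + t • c, t) := by
    intro v t
    rfl
  have hTk : ∀ (k : ℕ) (v : V), (T ^ k) (v, (1 : ZMod p)) = (F^[k] v, (1 : ZMod p)) := by
    intro k
    induction k with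
    | zero =>
      intro v
      simp
    | succ k ih =>
      intro v
      rw [pow_succ', Module.End.mul_apply, ih, hT, one_smul, Function.iterate_succ_apply']
  have hspan : ∀ k : ℕ, (∀ v, F^[k] v = v) → T ^ k = 1 := by
    intro k hk
    apply LinearMap.ext
    rintro ⟨v, t⟩
    have e : ((v, t) : V × ZMod p) = (v, (1 : ZMod p)) - (0, (1 : ZMod p)) + t • ((0 : V), (1 : ZMod p)) := by
      ext <;> simp
    rw [e, map_add, map_sub, map_smul, hTk, hTk, hk, hk]
    rfl
  haveI : Nontrivial W := inferInstance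
  haveI : CharP (Module.End (ZMod p) W) p :=
    charP_of_injective_algebraMap (algebraMap (ZMod p) (Module.End (ZMod p) W)).injective p
  have hTpow : T ^ p ^ r = 1 := hspan _ hF
  have hnil : IsNilpotent (T - 1) := by
    refine ⟨p ^ r, ?_⟩
    rw [sub_pow_char_pow_of_commute p r (Commute.one_right T), hTpow, one_pow, sub_self]
  haveI : Finite W := inferInstance
  haveI : Module.Finite (ZMod p) W := Module.Finite.of_finite
  have hfin : Module.finrank (ZMod p) W = m + 1 := by
    have h1 : Nat.card W = p ^ (m + 1) := by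
      show Nat.card (V × ZMod p) = _
      rw [Nat.card_prod, hcard, Nat.card_eq_fintype_card, ZMod.card, pow_succ]
    have h2 := Module.natCard_eq_pow_finrank (K := ZMod p) (V := W)
    rw [h1, Nat.card_eq_fintype_card, ZMod.card] at h2
    exact (Nat.pow_right_injective (Fact.out : p.Prime).two_le h2).symm
  have hzero : (T - 1) ^ (m + 1) = 0 := by
    have h1 := (LinearMap.isNilpotent_iff_charpoly (T - 1)).1 hnil
    have h2 := LinearMap.aeval_self_charpoly (T - 1)
    rw [h1, hfin] at h2
    simpa using h2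
  have hTq : T ^ p ^ (r - 1) = 1 := by
    have h1 : (T - 1) ^ p ^ (r - 1) = 0 := pow_eq_zero_of_le hq hzero
    rw [sub_pow_char_pow_of_commute p (r - 1) (Commute.one_right T), one_pow, sub_eq_zero] at h1
    exact h1
  intro v
  have h1 := hTk (p ^ (r - 1)) v
  rw [hTq] at h1
  have h2 : ((v, (1 : ZMod p)) : V × ZMod p) = (F^[p ^ (r - 1)] v, (1 : ZMod p)) := h1
  exact (congrArg Prod.fst h2).symm

theorem core_group {N : Type*} [CommGroup N] [Finite N] {p : ℕ} [Fact p.Prime] (hNp : ∀ x : N, x ^ p = 1)
    (A₀ : N →* N) (c₀ : N) (m r : ℕ) (hcard : Nat.card N = p ^ m)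
    (hF : ∀ n, (fun n => A₀ n * c₀)^[p ^ r] n = n) (hq : m + 1 ≤ p ^ (r - 1)) :
    ∀ n, (fun n => A₀ n * c₀)^[p ^ (r - 1)] n = n := by
  have hVp : ∀ x : Additive N, p • x = 0 := by
    intro x
    apply Additive.toMul.injective
    exact hNp _
  letI iM : Module (ZMod p) (Additive N) := AddCommGroup.zmodModule hVp
  exact affine_core (V := Additive N) ((A₀.toAdditive).toZModLinearMap p) (Additive.ofMul c₀) m r hcard hF hq

theorem arith_two (m : ℕ) (hm : 2 ^ (m - 1) ≤ m) : m ≤ 2 := by
  by_contra h
  push Not at h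
  obtain ⟨k, rfl⟩ : ∃ k, m = k + 3 := ⟨m - 3, by omega⟩
  have : ∀ k : ℕ, k + 3 < 2 ^ (k + 2) := by
    intro k
    induction k with
    | zero => norm_num
    | succ k ih =>
      rw [show k + 1 + 2 = (k + 2) + 1 by ring, pow_succ]
      omega
  have h2 := this k
  rw [show k + 3 - 1 = k + 2 by omega] at hm
  omega

theorem arith_three (m : ℕ) (hm : 3 ^ (m - 1) ≤ m) : m ≤ 1 := by
  by_contra h
  push Not at h
  obtain ⟨k, rfl⟩ : ∃ k, m = k + 2 := ⟨m - 2, by omega⟩
  have : ∀ k : ℕ, k + 2 < 3 ^ (k + 1) := by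
    intro k
    induction k with
    | zero => norm_num
    | succ k ih =>
      rw [pow_succ]
      omega
  have h2 := this k
  rw [show k + 2 - 1 = k + 1 by omega] at hm
  omega


/-- Let a finite group G act faithfully on a set Ω with p ^ m points (p prime) and have an elementary abelian normal p-subgroup N acting regularly on Ω (so G is a group of affine transformations of an m-dimensional space over the field with p elements). If G contains an element of order p ^ r with r ≥ 1, then p ^ (r − 1) ≤ m. In particular an element of order p ^ m forces m ≤ 2, and m ≤ 1 when p is odd. -/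
theorem result {G : Type*} [Group G] [Finite G] {Ω : Type*} [Fintype Ω] [MulAction G Ω] [FaithfulSMul G Ω] (p m : ℕ) (hp : p.Prime) (hcard : Fintype.card Ω = p ^ m)
    (N : Subgroup G) [N.Normal] (hNc : IsMulCommutative N) (hNp : ∀ n ∈ N, n ^ p = 1)
    (hNtr : MulAction.IsPretransitive N Ω) (hNreg : ∀ ω : Ω, MulAction.stabilizer N ω = ⊥)
    (g : G) (r : ℕ) (hr : 1 ≤ r) (hg : orderOf g = p ^ r) :
    p ^ (r - 1) ≤ m ∧ (r = m → m ≤ 2 ∧ (2 < p → m ≤ 1)) := by
  classical
  haveI : Fact p.Prime := ⟨hp⟩
  have hp2 := hp.two_le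
  -- arithmetic for the second part
  suffices h : p ^ (r - 1) ≤ m by
    refine ⟨h, fun hrm => ?_⟩
    subst hrm
    constructor
    · exact arith_two r ((Nat.pow_le_pow_left hp2 _).trans h)
    · intro h2p
      exact arith_three r ((Nat.pow_le_pow_left h2p _).trans h)
  by_contra hlt
  push Not at hlt
  -- the commutative structure on `N`
  haveI : Nonempty Ω := by
    have : Fintype.card Ω ≠ 0 := by
      rw [hcard]
      exact pow_ne_zero _ hp.ne_zero
    exact Fintype.card_pos_iff.1 (Nat.pos_of_ne_zero this)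
  obtain ⟨α⟩ := ‹Nonempty Ω›
  letI iC : CommGroup N := { (inferInstance : Group N) with mul_comm := fun a b => mul_comm' a b }
  haveI hfN : Finite N := inferInstance
  have hregular : ∀ a b : N, (a : G) • α = (b : G) • α → a = b := by
    intro a b hab
    have h1 : a⁻¹ * b ∈ MulAction.stabilizer N α := by
      rw [MulAction.mem_stabilizer_iff]
      show ((a : G)⁻¹ * (b : G)) • α = α
      rw [mul_smul, ← hab, inv_smul_smul]
    rw [hNreg α, Subgroup.mem_bot] at h1
    exact inv_mul_eq_one.1 h1
  obtain ⟨c₀, hc₀⟩ := hNtr.exists_smul_eq α (g • α)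
  have hc₀' : (c₀ : G) • α = g • α := hc₀
  let A₀ : N →* N := (MulAut.conjNormal g : MulAut N).toMonoidHom
  let F : N → N := fun n => A₀ n * c₀
  let act : N → Ω := fun n => (n : G) • α
  have hstep : ∀ n, act (F n) = g • act n := by
    intro n
    show (((MulAut.conjNormal g n * c₀ : N)) : G) • α = g • ((n : G) • α)
    rw [Subgroup.coe_mul, mul_smul, hc₀', MulAut.conjNormal_apply, ← mul_smul, ← mul_smul]
    congr 1
    group
  have hiter : ∀ (k : ℕ) (v : N), act (F^[k] v) = g ^ k • act v := by
    intro k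
    induction k with
    | zero =>
      intro v
      simp
    | succ k ih =>
      intro v
      rw [Function.iterate_succ_apply', hstep, ih, pow_succ', mul_smul]
  have hFid : ∀ v, F^[p ^ r] v = v := by
    intro v
    apply hregular
    show act _ = act _
    rw [hiter, ← hg, pow_orderOf_eq_one, one_smul]
  have hcardV : Nat.card N = p ^ m := by
    rw [← hcard, ← Nat.card_eq_fintype_card]
    apply Nat.card_congr
    refine Equiv.ofBijective act ⟨fun v w h => hregular v w h, fun ω => ?_⟩
    obtain ⟨n, hn⟩ := hNtr.exists_smul_eq α ω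
    exact ⟨n, hn⟩
  have hNp' : ∀ x : N, x ^ p = 1 := by
    intro x
    apply Subtype.ext
    exact hNp _ x.2
  have hq := core_group hNp' A₀ c₀ m r hcardV hFid hlt
  have hgq : g ^ p ^ (r - 1) = 1 := by
    apply FaithfulSMul.eq_of_smul_eq_smul (α := Ω)
    intro ω
    obtain ⟨n, hn⟩ := hNtr.exists_smul_eq α ω
    have hn' : act n = ω := hn
    rw [one_smul, ← hn', ← hiter]
    exact congrArg act (hq _)
  have hd := orderOf_dvd_of_pow_eq_one hgq
  rw [hg, Nat.pow_dvd_pow_iff_le_right hp.one_lt] at hd
  omega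

end Cfsg.Agent.S3508
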