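import Cfsg.Statements.S3511
-- import your own Cfsg.Agent.* helpers here

set_option autoImplicit false
open Cfsg

namespace Cfsg.Agent.S3511

/-- Let a finite group G act faithfully on a set Ω. If every element of G of square-free order has a regular cycle (an orbit of the cyclic group it generates with trivial stabilizer), then every element of G has a regular cycle. -/
theorem result {G : Type*} [Group G] [Finite G] {Ω : Type*} [MulAction G Ω] [FaithfulSMul G Ω]
    (h : ∀ g : G, Squarefree (orderOf g) → ∃ ω : Ω, MulAction.stabilizer (Subgroup.zpowers g) ω = ⊥) (g : G) :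
    ∃ ω : Ω, MulAction.stabilizer (Subgroup.zpowers g) ω = ⊥ := by
  classical
  set n := orderOf g with hn
  have hn0 : n ≠ 0 := (orderOf_pos g).ne'
  set r : ℕ := UniqueFactorizationMonoid.radical n with hr
  have hrd : r ∣ n := UniqueFactorizationMonoid.radical_dvd_self
  have hrsq : Squarefree r := UniqueFactorizationMonoid.squarefree_radical
  set k : G := g ^ (n / r) with hk
  have hordk : orderOf k = r := by
    rw [hk]; exact orderOf_pow_orderOf_div hn0 hrd
  obtain ⟨ω, hω⟩ := h k (hordk ▸ hrsq)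
  refine ⟨ω, ?_⟩
  rw [eq_bot_iff]
  intro s hs
  rw [Subgroup.mem_bot]
  by_contra hs1
  have hs' : (s : G) • ω = ω := hs
  have hs1' : (s : G) ≠ 1 := fun e => hs1 (Subtype.ext e)
  set m := orderOf (s : G) with hm
  have hm1 : m ≠ 1 := by
    rw [hm, Ne, orderOf_eq_one_iff]; exact hs1'
  set p := m.minFac with hp
  have hpp : p.Prime := Nat.minFac_prime hm1
  have hm0 : m ≠ 0 := (orderOf_pos (s : G)).ne'
  have hpm : p ∣ m := Nat.minFac_dvd m
  set t : G := (s : G) ^ (m / p) with ht
  have hordt : orderOf t = p := by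
    rw [ht]; exact orderOf_pow_orderOf_div hm0 hpm
  have htω : t • ω = ω := by
    rw [ht]
    have : ∀ j : ℕ, ((s : G) ^ j) • ω = ω := by
      intro j
      induction j with
      | zero => simp
      | succ j ih => rw [pow_succ, mul_smul, hs', ih]
    exact this _
  have htg : t ∈ Subgroup.zpowers g := by
    rw [ht]; exact Subgroup.pow_mem _ s.2 _
  -- find the exponent
  obtain ⟨l, hl⟩ : ∃ l : ℕ, g ^ l = t := by
    have hfin : IsOfFinOrder g := isOfFinOrder_of_finite g
    rcases (hfin.mem_powers_iff_mem_zpowers).2 htg with ⟨l, hl⟩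
    exact ⟨l, hl⟩
  have hordl : n / Nat.gcd n l = p := by
    rw [← hordt, ← hl, orderOf_pow]
  have hgd : Nat.gcd n l ∣ n := Nat.gcd_dvd_left n l
  have hnp : n = p * Nat.gcd n l := by
    rw [← hordl]; exact (Nat.div_mul_cancel hgd).symm
  have hpn : p ∣ n := ⟨_, hnp⟩
  have hpr : p ∣ r := by
    rw [hr, Nat.radical_eq_prod_primeFactors]
    exact Finset.dvd_prod_of_mem _ (Nat.mem_primeFactors.2 ⟨hpp, hpn, hn0⟩)
  obtain ⟨e, he⟩ := hpr
  obtain ⟨c, hc⟩ := hrd
  have hr0 : 0 < r := Nat.pos_of_ne_zero hrsq.ne_zero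
  have hnr : n / r = c := by
    rw [hc]; exact Nat.mul_div_cancel_left _ hr0
  have hgcd : Nat.gcd n l = e * c := by
    have : p * Nat.gcd n l = p * (e * c) := by
      rw [← hnp, hc, he]; ring
    exact Nat.eq_of_mul_eq_mul_left hpp.pos this
  have hcl : c ∣ l := by
    have : e * c ∣ l := hgcd ▸ Nat.gcd_dvd_right n l
    exact dvd_trans (Dvd.intro_left e rfl) this
  obtain ⟨u, hu⟩ := hcl
  have htk : t ∈ Subgroup.zpowers k := by
    have : t = k ^ u := by
      rw [hk, hnr, ← pow_mul, ← hu, hl]
    rw [this]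
    exact Subgroup.pow_mem _ (Subgroup.mem_zpowers k) _
  have hmem : (⟨t, htk⟩ : Subgroup.zpowers k) ∈ MulAction.stabilizer (Subgroup.zpowers k) ω := htω
  rw [hω, Subgroup.mem_bot] at hmem
  have ht1 : t = 1 := congrArg Subtype.val hmem
  rw [ht1, orderOf_one] at hordt
  exact hpp.one_lt.ne hordt

end Cfsg.Agent.S3511
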