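import Mathlib
import Cfsg.Agent.Lib.FitCore
import Cfsg.Agent.Lib.H5Basic
import Cfsg.Statements.S3514
-- import your own Cfsg.Agent.* helpers here

set_option autoImplicit false
open Cfsg

namespace Cfsg.Agent.S3514

/-- Let p be a prime, V a finite vector space over the field with p elements, and H a group of linear transformations of V all of whose orbits on V have size coprime to p. (i) Every normal subgroup K of H has all its orbits on V of size coprime to p. (ii) If N is a group of linear transformations of V of order coprime to p that is normalized by H, then the group generated by N and H has all its orbits on V of size coprime to p. -/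
theorem result (p : ℕ) [Fact p.Prime] {V : Type*} [AddCommGroup V] [Module (ZMod p) V] [Finite V]
    (H : Subgroup (V ≃ₗ[ZMod p] V)) (hH : ∀ v : V, ¬ p ∣ Nat.card {u : V | ∃ h ∈ H, h v = u}) :
    (∀ K : Subgroup (V ≃ₗ[ZMod p] V), K ≤ H → H ≤ Subgroup.normalizer (K : Set (V ≃ₗ[ZMod p] V)) →
        ∀ v : V, ¬ p ∣ Nat.card {u : V | ∃ k ∈ K, k v = u}) ∧
    (∀ N : Subgroup (V ≃ₗ[ZMod p] V), ¬ p ∣ Nat.card N → H ≤ Subgroup.normalizer (N : Set (V ≃ₗ[ZMod p] V)) →
        ∀ v : V, ¬ p ∣ Nat.card {u : V | ∃ x ∈ N ⊔ H, x v = u}) := by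
  classical
  haveI hfinG : Finite (V ≃ₗ[ZMod p] V) :=
    Finite.of_injective (fun e : V ≃ₗ[ZMod p] V => (e : V → V)) DFunLike.coe_injective
  -- orbit sizes are indices
  have horb : ∀ (X : Subgroup (V ≃ₗ[ZMod p] V)) (v : V),
      Nat.card {u : V | ∃ x ∈ X, x v = u} = (MulAction.stabilizer (V ≃ₗ[ZMod p] V) v).relIndex X := by
    intro X v
    have h1 := MulAction.index_stabilizer X v
    have h2 : MulAction.stabilizer X v = (MulAction.stabilizer (V ≃ₗ[ZMod p] V) v).subgroupOf X := by
      ext x
      rfl
    have h3 : MulAction.orbit X v = {u : V | ∃ x ∈ X, x v = u} := by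
      ext u
      constructor
      · rintro ⟨x, rfl⟩
        exact ⟨x, x.2, rfl⟩
      · rintro ⟨x, hx, rfl⟩
        exact ⟨⟨x, hx⟩, rfl⟩
    rw [Subgroup.relIndex, ← h2, h1, h3]
    rfl
  refine ⟨?_, ?_⟩
  · intro K hKH hKn v
    have h0 := hH v
    rw [horb] at h0 ⊢
    set S := MulAction.stabilizer (V ≃ₗ[ZMod p] V) v with hS
    intro hd
    apply h0
    haveI : (K.subgroupOf H).Normal := by
      rw [Subgroup.normal_subgroupOf_iff_le_normalizer hKH]
      exact hKn
    have h1 := Cfsg.Agent.Lib.FitCore.relIndex_dvd_index_of_normal_right (S.subgroupOf H) (K.subgroupOf H)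
    rw [Subgroup.relIndex_subgroupOf hKH] at h1
    exact hd.trans h1
  · intro N hN hHN v
    have h0 := hH v
    rw [horb] at h0 ⊢
    set S := MulAction.stabilizer (V ≃ₗ[ZMod p] V) v with hS
    set X := N ⊔ H with hX
    have hNX : N ≤ X := le_sup_left
    have hHX : H ≤ X := le_sup_right
    -- `[X : H]` is prime to `p`
    have hXH : ¬ p ∣ H.relIndex X := by
      haveI : (N.subgroupOf X).Normal := by
        rw [Subgroup.normal_subgroupOf_iff_le_normalizer hNX]
        apply sup_le
        · exact Subgroup.le_normalizer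
        · exact hHN
      have h1 : H.subgroupOf X ⊔ N.subgroupOf X = ⊤ := by
        rw [← Subgroup.subgroupOf_sup hHX hNX, sup_comm, Subgroup.subgroupOf_self]
      have h2 := Cfsg.Agent.Lib.FitCore.relIndex_sup_of_normal (H.subgroupOf X) (N.subgroupOf X)
      rw [sup_comm, h1, Subgroup.relIndex_top_right] at h2
      have h3 := Cfsg.Agent.Lib.H5Basic.card_inf_mul_relIndex (H.subgroupOf X) (N.subgroupOf X)
      rw [← h2] at h3
      have h4 : Nat.card (N.subgroupOf X) = Nat.card N := by
        exact Nat.card_congr (Subgroup.subgroupOfEquivOfLe hNX).toEquiv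
      rw [h4] at h3
      intro hd
      apply hN
      rw [← h3]
      exact Dvd.dvd.mul_left hd _
    intro hd
    have h1 : S.relIndex X ∣ (S ⊓ H).relIndex X := Subgroup.relIndex_dvd_of_le_left X inf_le_left
    have h2 : (S ⊓ H).relIndex H * H.relIndex X = (S ⊓ H).relIndex X :=
      Subgroup.relIndex_mul_relIndex _ _ _ inf_le_right hHX
    rw [Subgroup.inf_relIndex_right] at h2
    have h3 : p ∣ S.relIndex H * H.relIndex X := by
      rw [h2]
      exact hd.trans h1
    rcases (Nat.Prime.dvd_mul Fact.out).1 h3 with h4 | h4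
    · exact h0 h4
    · exact hXH h4

end Cfsg.Agent.S3514
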