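import Mathlib
import Cfsg.Agent.Lib.Aff3
import Cfsg.Statements.S3515
-- import your own Cfsg.Agent.* helpers here

set_option autoImplicit false
open Cfsg

namespace Cfsg.Agent.S3515


theorem cases_two : ∀ x : Fin 2 → ZMod 2, x = 0 ∨ x = Pi.single 0 1 ∨ x = Pi.single 1 1 ∨
    x = Pi.single 0 1 + Pi.single 1 1 := by
  decide

theorem ne_two : (Pi.single 0 1 + Pi.single 1 1 : Fin 2 → ZMod 2) ≠ 0 ∧
    (Pi.single 0 1 + Pi.single 1 1 : Fin 2 → ZMod 2) ≠ Pi.single 0 1 ∧
    (Pi.single 0 1 + Pi.single 1 1 : Fin 2 → ZMod 2) ≠ Pi.single 1 1 := by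
  decide


/-- Every primitive affine permutation group of degree p² is 3-closed. Let p be a prime and G a group of permutations of the plane V = F_p² consisting of affine maps x ↦ Ax + b, containing all translations, and acting primitively on V. Then any permutation σ of V that agrees on every triple of points with some element of G (σ preserves every G-orbit on ordered triples) already lies in G. -/
theorem result (p : ℕ) [Fact p.Prime] (G : Subgroup (Equiv.Perm (Fin 2 → ZMod p)))
    (haff : (G : Set (Equiv.Perm (Fin 2 → ZMod p))) ⊆ {τ : Equiv.Perm (Fin 2 → ZMod p) | ∃ (A : (Fin 2 → ZMod p) ≃ₗ[ZMod p] (Fin 2 → ZMod p)) (b : Fin 2 → ZMod p), ∀ x, τ x = A x + b})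
    (htrans : ∀ b : Fin 2 → ZMod p, ∃ g ∈ G, ∀ x, g x = x + b) (hprim : MulAction.IsPreprimitive G (Fin 2 → ZMod p))
    (σ : Equiv.Perm (Fin 2 → ZMod p)) (hσ : (∀ t : Fin 3 → (Fin 2 → ZMod p), ∃ g ∈ G, ∀ i, σ (t i) = g (t i))) : σ ∈ G := by
  classical
  let e₀ : Fin 2 → ZMod p := Pi.single 0 1
  let e₁ : Fin 2 → ZMod p := Pi.single 1 1
  obtain ⟨g, hg, hgt⟩ := hσ ![0, e₀, e₁]
  have hg0 : σ 0 = g 0 := hgt 0
  have hg1 : σ e₀ = g e₀ := hgt 1
  have hg2 : σ e₁ = g e₁ := hgt 2
  suffices h : σ = g by rw [h]; exact hg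
  by_cases hp : p = 2
  · subst hp
    ext1 x
    have hcases : ∀ x : Fin 2 → ZMod 2, x = 0 ∨ x = e₀ ∨ x = e₁ ∨ x = e₀ + e₁ := cases_two
    have hne0 : e₀ + e₁ ≠ 0 := ne_two.1
    have hne1 : e₀ + e₁ ≠ e₀ := ne_two.2.1
    have hne2 : e₀ + e₁ ≠ e₁ := ne_two.2.2
    have hinvapp : ∀ y, g (g⁻¹ y) = y := fun y => g.apply_symm_apply y
    have hw : σ (e₀ + e₁) = g (e₀ + e₁) := by
      have hz : g⁻¹ (σ (e₀ + e₁)) = e₀ + e₁ := by
        rcases hcases (g⁻¹ (σ (e₀ + e₁))) with h | h | h | h
        · exfalso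
          have : σ (e₀ + e₁) = g 0 := by
            have h5 := hinvapp (σ (e₀ + e₁))
            rw [h] at h5
            exact h5.symm
          rw [← hg0] at this
          exact hne0 (σ.injective this)
        · exfalso
          have : σ (e₀ + e₁) = g e₀ := by
            have h5 := hinvapp (σ (e₀ + e₁))
            rw [h] at h5
            exact h5.symm
          rw [← hg1] at this
          exact hne1 (σ.injective this)
        · exfalso
          have : σ (e₀ + e₁) = g e₁ := by
            have h5 := hinvapp (σ (e₀ + e₁))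
            rw [h] at h5
            exact h5.symm
          rw [← hg2] at this
          exact hne2 (σ.injective this)
        · exact h
      have h5 := hinvapp (σ (e₀ + e₁))
      rw [hz] at h5
      exact h5.symm
    rcases hcases x with rfl | rfl | rfl | rfl
    · exact hg0
    · exact hg1
    · exact hg2
    · exact hw
  · -- odd characteristic
    obtain ⟨f, hf⟩ := Cfsg.Agent.Lib.Aff3.linear_of_triples hp σ (fun x y z => by
      obtain ⟨g', hg', hgt'⟩ := hσ ![x, y, z]
      obtain ⟨A, b, hAb⟩ := haff hg'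
      refine ⟨(A : (Fin 2 → ZMod p) →ₗ[ZMod p] (Fin 2 → ZMod p)), b, ?_, ?_, ?_⟩
      · have := hgt' 0
        rw [hAb] at this
        exact this
      · have := hgt' 1
        rw [hAb] at this
        exact this
      · have := hgt' 2
        rw [hAb] at this
        exact this)
    obtain ⟨A, b, hAb⟩ := haff hg
    have h0 : σ 0 = b := by rw [hg0, hAb]; simp
    have hfA : f = (A : (Fin 2 → ZMod p) →ₗ[ZMod p] (Fin 2 → ZMod p)) := by
      apply (Pi.basisFun (ZMod p) (Fin 2)).ext
      intro i
      rw [Pi.basisFun_apply]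
      have h1 : f e₀ = A e₀ := by
        have h2 := hf e₀
        rw [hg1, hAb, h0] at h2
        exact (add_right_cancel h2).symm
      have h3 : f e₁ = A e₁ := by
        have h2 := hf e₁
        rw [hg2, hAb, h0] at h2
        exact (add_right_cancel h2).symm
      match i with
      | 0 => exact h1
      | 1 => exact h3
    ext1 x
    rw [hf x, hAb x, hfA, h0]
    rfl

end Cfsg.Agent.S3515
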