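import Mathlib
import Cfsg.Agent.Lib.Aff3
import Cfsg.Statements.S3516
-- import your own Cfsg.Agent.* helpers here

set_option autoImplicit false
open Cfsg

namespace Cfsg.Agent.S3516

/-- Let p be an odd prime, d ≥ 3, and G a group of affine permutations x ↦ Ax + b of V = F_p^d containing all translations and all maps x ↦ Ax with A of determinant 1. Then the 3-closure of G is the full affine group: a permutation σ of V agrees on every triple of points with some element of G if and only if σ is an affine map. -/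
theorem result (p : ℕ) [Fact p.Prime] (hp : p ≠ 2) (d : ℕ) (hd : 3 ≤ d) (G : Subgroup (Equiv.Perm (Fin d → ZMod p)))
    (haff : (G : Set (Equiv.Perm (Fin d → ZMod p))) ⊆ {τ : Equiv.Perm (Fin d → ZMod p) | ∃ (A : (Fin d → ZMod p) ≃ₗ[ZMod p] (Fin d → ZMod p)) (b : Fin d → ZMod p), ∀ x, τ x = A x + b})
    (htrans : ∀ b : Fin d → ZMod p, ∃ g ∈ G, ∀ x, g x = x + b)
    (hsl : ∀ A : (Fin d → ZMod p) ≃ₗ[ZMod p] (Fin d → ZMod p), LinearMap.det (A : (Fin d → ZMod p) →ₗ[ZMod p] (Fin d → ZMod p)) = 1 → ∃ g ∈ G, ∀ x, g x = A x)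
    (σ : Equiv.Perm (Fin d → ZMod p)) :
    (∀ t : Fin 3 → (Fin d → ZMod p), ∃ g ∈ G, ∀ i, σ (t i) = g (t i)) ↔ σ ∈ {τ : Equiv.Perm (Fin d → ZMod p) | ∃ (A : (Fin d → ZMod p) ≃ₗ[ZMod p] (Fin d → ZMod p)) (b : Fin d → ZMod p), ∀ x, τ x = A x + b} := by
  classical
  constructor
  · intro hσ
    obtain ⟨f, hf⟩ := Cfsg.Agent.Lib.Aff3.linear_of_triples hp σ (fun x y z => by
      obtain ⟨g', hg', hgt'⟩ := hσ ![x, y, z]
      obtain ⟨A, b, hAb⟩ := haff hg'
      refine ⟨(A : (Fin d → ZMod p) →ₗ[ZMod p] (Fin d → ZMod p)), b, ?_, ?_, ?_⟩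
      · have := hgt' 0
        rw [hAb] at this
        exact this
      · have := hgt' 1
        rw [hAb] at this
        exact this
      · have := hgt' 2
        rw [hAb] at this
        exact this)
    have hinj : Function.Injective f := by
      intro x y hxy
      apply σ.injective
      rw [hf x, hf y, hxy]
    have hsurj : Function.Surjective f := by
      intro y
      refine ⟨σ⁻¹ (y + σ 0), ?_⟩
      have := hf (σ⁻¹ (y + σ 0))
      rw [show σ (σ⁻¹ (y + σ 0)) = y + σ 0 from σ.apply_symm_apply _] at this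
      exact (add_right_cancel this).symm
    exact ⟨LinearEquiv.ofBijective f ⟨hinj, hsurj⟩, σ 0, fun x => hf x⟩
  · rintro ⟨A, b, hAb⟩ t
    set u₁ := t 1 - t 0 with hu₁
    set u₂ := t 2 - t 0 with hu₂
    let W : Submodule (ZMod p) (Fin d → ZMod p) := Submodule.span (ZMod p) (Set.range ![u₁, u₂])
    have hW : W < ⊤ := by
      apply lt_top_iff_ne_top.2
      intro h
      have h1 : Module.finrank (ZMod p) W ≤ 2 := by
        have := finrank_range_le_card (R := ZMod p) ![u₁, u₂]
        rw [Fintype.card_fin] at this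
        exact this
      rw [h, finrank_top, Module.finrank_fin_fun] at h1
      omega
    obtain ⟨φ, hφ0, hφW⟩ := Submodule.exists_le_ker_of_lt_top W hW
    obtain ⟨e, he⟩ : ∃ e, φ e ≠ 0 := by
      by_contra hcon
      push Not at hcon
      exact hφ0 (LinearMap.ext hcon)
    set ψ : Module.Dual (ZMod p) (Fin d → ZMod p) := (φ e)⁻¹ • φ with hψ
    have hψe : ψ e = 1 := by
      simp [hψ, he]
    have hψW : ∀ x ∈ W, ψ x = 0 := by
      intro x hx
      have := hφW hx
      rw [LinearMap.mem_ker] at this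
      simp [hψ, this]
    set a := LinearMap.det (A : (Fin d → ZMod p) →ₗ[ZMod p] (Fin d → ZMod p)) with ha
    have ha0 : a ≠ 0 := by
      have := (LinearEquiv.isUnit_det' A).ne_zero
      exact this
    set v := (a⁻¹ - 1) • e with hv
    have hψv : 1 + ψ v = a⁻¹ := by
      rw [hv, map_smul, hψe]
      simp
    have hunit : IsUnit (1 + ψ v) := by
      rw [hψv]
      exact (inv_ne_zero ha0).isUnit
    let B := LinearEquiv.dilatransvection hunit
    have hBapp : ∀ x, B x = x + ψ x • v := by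
      intro x
      exact LinearEquiv.dilatransvection.apply
    have hBdet : LinearMap.det (B : (Fin d → ZMod p) →ₗ[ZMod p] (Fin d → ZMod p)) = a⁻¹ := by
      have h1 : (B : (Fin d → ZMod p) →ₗ[ZMod p] (Fin d → ZMod p)) = LinearMap.transvection ψ v :=
        LinearEquiv.dilatransvection.coe_toLinearMap
      rw [h1, LinearMap.transvection.det, hψv]
    let A' : (Fin d → ZMod p) ≃ₗ[ZMod p] (Fin d → ZMod p) := B.trans A
    have hA'det : LinearMap.det (A' : (Fin d → ZMod p) →ₗ[ZMod p] (Fin d → ZMod p)) = 1 := by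
      have h1 : (A' : (Fin d → ZMod p) →ₗ[ZMod p] (Fin d → ZMod p)) =
          (A : (Fin d → ZMod p) →ₗ[ZMod p] (Fin d → ZMod p)) ∘ₗ
            (B : (Fin d → ZMod p) →ₗ[ZMod p] (Fin d → ZMod p)) := rfl
      rw [h1, LinearMap.det_comp, hBdet, ← ha, mul_inv_cancel₀ ha0]
    obtain ⟨g₁, hg₁, hg₁x⟩ := hsl A' hA'det
    obtain ⟨g₂, hg₂, hg₂x⟩ := htrans (A (t 0) + b - A' (t 0))
    refine ⟨g₂ * g₁, G.mul_mem hg₂ hg₁, fun i => ?_⟩
    have hfix : ∀ x ∈ W, A' x = A x := by
      intro x hx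
      show A (B x) = A x
      rw [hBapp, hψW x hx, zero_smul, add_zero]
    have hu₁W : u₁ ∈ W := Submodule.subset_span ⟨0, rfl⟩
    have hu₂W : u₂ ∈ W := Submodule.subset_span ⟨1, rfl⟩
    show σ (t i) = g₂ (g₁ (t i))
    rw [hg₁x, hg₂x, hAb]
    match i with
    | 0 => abel
    | 1 =>
      have h1 := hfix u₁ hu₁W
      rw [hu₁, map_sub, map_sub] at h1
      have h2 : A' (t 1) = A (t 1) - A (t 0) + A' (t 0) := by rw [← h1]; abel
      rw [h2]; abel
    | 2 =>
      have h1 := hfix u₂ hu₂W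
      rw [hu₂, map_sub, map_sub] at h1
      have h2 : A' (t 2) = A (t 2) - A (t 0) + A' (t 0) := by rw [← h1]; abel
      rw [h2]; abel

end Cfsg.Agent.S3516
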