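import Mathlib
import Cfsg.Agent.Lib.Aff3
import Cfsg.Statements.S3517
-- import your own Cfsg.Agent.* helpers here

set_option autoImplicit false
open Cfsg

namespace Cfsg.Agent.S3517

/-- For d ≥ 3, the 3-closure of the affine group AGL_d(2) acting on F_2^d is the full symmetric group: every permutation of F_2^d agrees on every ordered triple of points with some affine map (AGL_d(2) is 3-transitive). -/
theorem result (d : ℕ) (hd : 3 ≤ d) (σ : Equiv.Perm (Fin d → ZMod 2)) (t : Fin 3 → (Fin d → ZMod 2)) :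
    ∃ (A : (Fin d → ZMod 2) ≃ₗ[ZMod 2] (Fin d → ZMod 2)) (b : Fin d → ZMod 2), ∀ i, σ (t i) = A (t i) + b := by
  classical
  have hinj : ∀ x y, σ x = σ y ↔ x = y := fun x y => σ.injective.eq_iff
  -- it suffices to map the differences
  suffices h : ∃ A : (Fin d → ZMod 2) ≃ₗ[ZMod 2] (Fin d → ZMod 2),
      A (t 1 - t 0) = σ (t 1) - σ (t 0) ∧ A (t 2 - t 0) = σ (t 2) - σ (t 0) by
    obtain ⟨A, h1, h2⟩ := h
    refine ⟨A, σ (t 0) - A (t 0), fun i => ?_⟩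
    rw [map_sub] at h1 h2
    have h1' : A (t 1) = σ (t 1) - σ (t 0) + A (t 0) := by rw [← h1]; abel
    have h2' : A (t 2) = σ (t 2) - σ (t 0) + A (t 0) := by rw [← h2]; abel
    match i with
    | 0 => abel
    | 1 => rw [h1']; abel
    | 2 => rw [h2']; abel
  have hz1 : t 1 - t 0 = 0 ↔ σ (t 1) - σ (t 0) = 0 := by
    rw [sub_eq_zero, sub_eq_zero, hinj]
  have hz2 : t 2 - t 0 = 0 ↔ σ (t 2) - σ (t 0) = 0 := by
    rw [sub_eq_zero, sub_eq_zero, hinj]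
  have hz3 : t 1 - t 0 = t 2 - t 0 ↔ σ (t 1) - σ (t 0) = σ (t 2) - σ (t 0) := by
    rw [sub_left_inj, sub_left_inj, hinj]
  by_cases h1 : t 1 - t 0 = 0
  · by_cases h2 : t 2 - t 0 = 0
    · exact ⟨LinearEquiv.refl _ _, by simp [h1, hz1.1 h1], by simp [h2, hz2.1 h2]⟩
    · obtain ⟨A, hA⟩ := Cfsg.Agent.Lib.Aff3.exists_equiv_one (K := ZMod 2) _ _ h2 (fun h => h2 (hz2.2 h))
      exact ⟨A, by simp [h1, hz1.1 h1], hA⟩
  · by_cases h2 : t 2 - t 0 = 0
    · obtain ⟨A, hA⟩ := Cfsg.Agent.Lib.Aff3.exists_equiv_one (K := ZMod 2) _ _ h1 (fun h => h1 (hz1.2 h))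
      exact ⟨A, hA, by simp [h2, hz2.1 h2]⟩
    · by_cases h3 : t 1 - t 0 = t 2 - t 0
      · obtain ⟨A, hA⟩ := Cfsg.Agent.Lib.Aff3.exists_equiv_one (K := ZMod 2) _ _ h1 (fun h => h1 (hz1.2 h))
        exact ⟨A, hA, by rw [← h3, ← hz3.1 h3, hA]⟩
      · obtain ⟨A, hA⟩ := Cfsg.Agent.Lib.Aff3.exists_equiv_of_linearIndependent _ _
          (Cfsg.Agent.Lib.Aff3.linearIndependent_pair_zmod_two _ _ h1 h2 h3)
          (Cfsg.Agent.Lib.Aff3.linearIndependent_pair_zmod_two (σ (t 1) - σ (t 0)) (σ (t 2) - σ (t 0))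
            (fun h => h1 (hz1.2 h)) (fun h => h2 (hz2.2 h)) (fun h => h3 (hz3.2 h)))
        exact ⟨A, hA 0, hA 1⟩

end Cfsg.Agent.S3517
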