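import Cfsg.Statements.S3518


set_option autoImplicit false
set_option linter.all false
open Cfsg

namespace Cfsg.Agent.S3518


open Polynomial Cfsg

/-- Polynomial functions of bounded degree. -/
noncomputable def polyFun (p m : ℕ) [Fact p.Prime] : Submodule (ZMod p) (ZMod p → ZMod p) where
  carrier := {f | ∃ P : (ZMod p)[X], P.natDegree ≤ m ∧ ∀ x, f x = P.eval x}
  add_mem' := by
    rintro f g ⟨P, hP, hf⟩ ⟨Q, hQ, hg⟩
    exact ⟨P + Q, (natDegree_add_le _ _).trans (max_le hP hQ), fun x => by simp [hf, hg]⟩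
  zero_mem' := ⟨0, by simp, fun x => by simp⟩
  smul_mem' := by
    rintro c f ⟨P, hP, hf⟩
    exact ⟨c • P, (natDegree_smul_le _ _).trans hP, fun x => by simp [hf]⟩

variable {p : ℕ} [Fact p.Prime]

theorem coeff_zero_of_vanish {n : ℕ} (hn : n < p) (a : ℕ → ZMod p)
    (h : ∀ v : ZMod p, ∑ k ∈ Finset.range (n + 1), v ^ k * a k = 0) : ∀ k ∈ Finset.range (n + 1), a k = 0 := by
  let P : (ZMod p)[X] := ∑ k ∈ Finset.range (n + 1), C (a k) * X ^ k
  have hdeg : P.natDegree ≤ n := by
    apply natDegree_sum_le_of_forall_le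
    intro k hk
    refine (natDegree_C_mul_X_pow_le _ _).trans ?_
    have := Finset.mem_range.1 hk
    omega
  have hzero : P = 0 := by
    apply eq_zero_of_natDegree_lt_card_of_eval_eq_zero P (f := id) Function.injective_id
    · intro v
      simp only [P, id, eval_finset_sum, eval_mul, eval_C, eval_pow, eval_X]
      rw [← h v]
      exact Finset.sum_congr rfl fun k _ => mul_comm _ _
    · rw [ZMod.card]
      omega
  intro k hk
  have h1 : P.coeff k = a k := by
    simp only [P, finset_sum_coeff, coeff_C_mul_X_pow]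
    rw [Finset.sum_eq_single k]
    · simp
    · intro b _ hb
      rw [if_neg (Ne.symm hb)]
    · intro h2
      exact absurd hk h2
  rw [← h1, hzero]
  simp

theorem vec_of_vanish {V : Type*} [AddCommGroup V] [Module (ZMod p) V] (E : Submodule (ZMod p) V) {n : ℕ} (hn : n < p)
    (g : ℕ → V) (h : ∀ v : ZMod p, ∑ k ∈ Finset.range (n + 1), v ^ k • g k ∈ E) :
    ∀ k ∈ Finset.range (n + 1), g k ∈ E := by
  intro k hk
  by_contra hnot
  obtain ⟨f, hf1, hf2⟩ := Submodule.exists_dual_map_eq_bot_of_notMem hnot inferInstance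
  apply hf1
  refine coeff_zero_of_vanish hn (fun k => f (g k)) (fun v => ?_) k hk
  have h1 := h v
  have h2 : f (∑ k ∈ Finset.range (n + 1), v ^ k • g k) ∈ E.map f := Submodule.mem_map_of_mem h1
  rw [hf2, Submodule.mem_bot, map_sum] at h2
  rw [← h2]
  refine Finset.sum_congr rfl fun k _ => ?_
  rw [map_smul, smul_eq_mul]

theorem choose_ne_zero {m k : ℕ} (hm : m < p) (hk : k ≤ m) : ((m.choose k : ℕ) : ZMod p) ≠ 0 := by
  rw [Ne, ZMod.natCast_eq_zero_iff]
  intro h
  have h1 := Nat.choose_mul_factorial_mul_factorial hk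
  have h2 : p ∣ m.factorial := by
    rw [← h1]
    exact Dvd.dvd.mul_right (Dvd.dvd.mul_right h _) _
  have h3 := ((Fact.out : p.Prime).dvd_factorial).1 h2
  omega

/-- Powers of `σ` are polynomial functions. -/
theorem pow_mem {m : ℕ} (hm : m < p) (σ : Equiv.Perm (ZMod p))
    (hσ : ∀ x y, (σ x - σ y) ^ m = (x - y) ^ m) :
    ∀ j ≤ m, (fun x => σ x ^ j) ∈ polyFun p m := by
  have key : ∀ k ∈ Finset.range (m + 1), (fun x => ((m.choose k : ℕ) : ZMod p) * σ x ^ (m - k)) ∈ polyFun p m := by
    apply vec_of_vanish (polyFun p m) hm (fun k => (fun x => ((m.choose k : ℕ) : ZMod p) * σ x ^ (m - k)))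
    intro v
    -- take `y` with `- σ y = v`
    let y := σ.symm (-v)
    have hy : -σ y = v := by simp [y]
    refine ⟨∑ k ∈ Finset.range (m + 1), C ((-y) ^ k * ((m.choose k : ℕ) : ZMod p)) * X ^ (m - k), ?_, ?_⟩
    · apply natDegree_sum_le_of_forall_le
      intro k _
      exact (natDegree_C_mul_X_pow_le _ _).trans (Nat.sub_le _ _)
    · intro x
      have h1 := hσ x y
      rw [sub_eq_add_neg, sub_eq_add_neg, add_comm, add_comm x, add_pow, add_pow, hy] at h1
      simp only [Finset.sum_apply, Pi.smul_apply, smul_eq_mul, eval_finset_sum, eval_mul, eval_C, eval_pow, eval_X]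
      have e1 : ∑ k ∈ Finset.range (m + 1), v ^ k * (((m.choose k : ℕ) : ZMod p) * σ x ^ (m - k)) =
          ∑ k ∈ Finset.range (m + 1), v ^ k * σ x ^ (m - k) * ((m.choose k : ℕ) : ZMod p) :=
        Finset.sum_congr rfl fun k _ => by ring
      have e2 : ∑ k ∈ Finset.range (m + 1), (-y) ^ k * ((m.choose k : ℕ) : ZMod p) * x ^ (m - k) =
          ∑ k ∈ Finset.range (m + 1), (-y) ^ k * x ^ (m - k) * ((m.choose k : ℕ) : ZMod p) :=
        Finset.sum_congr rfl fun k _ => by ring
      rw [e1, e2]
      exact h1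
  intro j hj
  have h1 := key (m - j) (Finset.mem_range.2 (by omega))
  have hne := choose_ne_zero (p := p) (m := m) (k := m - j) hm (by omega)
  have h2 := (polyFun p m).smul_mem (((m.choose (m - j) : ℕ) : ZMod p)⁻¹) h1
  convert h2 using 1
  funext x
  have e : m - (m - j) = j := by omega
  simp only [Pi.smul_apply, smul_eq_mul, e]
  rw [← mul_assoc, inv_mul_cancel₀ hne, one_mul]

/-- A permutation all of whose small powers are polynomial of small degree is affine. -/
theorem affine_of_pow {m : ℕ} (hm : 1 ≤ m) (h2m : 2 * m ≤ p - 1) (σ : Equiv.Perm (ZMod p))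
    (hσ : ∀ j ≤ m, (fun x => σ x ^ j) ∈ polyFun p m) : ∃ a b : ZMod p, ∀ x, σ x = a * x + b := by
  have hp := (Fact.out : p.Prime).two_le
  obtain ⟨Q, hQ1, hQ2⟩ := hσ 1 hm
  simp only [pow_one] at hQ2
  have hD : Q.natDegree ≤ 1 := by
    by_contra hD
    push Not at hD
    set D := Q.natDegree with hDdef
    have hD0 : 0 < D := by omega
    set k := m / D + 1 with hk
    have hk1 : m < k * D := by
      rw [hk, add_mul, one_mul]
      have := Nat.div_add_mod m D
      have h3 := Nat.mod_lt m hD0
      rw [mul_comm] at this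
      omega
    have hk2 : k * D ≤ m + D := by
      rw [hk, add_mul, one_mul]
      have := Nat.div_mul_le_self m D
      omega
    have hk3 : k ≤ m := by
      have h4 : m / D ≤ m / 2 := Nat.div_le_div_left hD (by norm_num)
      have h5 : 2 ≤ m := by omega
      omega
    obtain ⟨R, hR1, hR2⟩ := hσ k hk3
    have hdeg : (Q ^ k).natDegree = k * D := natDegree_pow Q k
    have hz : Q ^ k - R = 0 := by
      apply eq_zero_of_natDegree_lt_card_of_eval_eq_zero _ (f := id) Function.injective_id
      · intro x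
        simp only [id, eval_sub, eval_pow]
        rw [← hQ2, ← hR2 x]
        ring
      · rw [ZMod.card]
        have h6 : (Q ^ k - R).natDegree ≤ k * D := by
          refine (natDegree_sub_le _ _).trans (max_le hdeg.le ?_)
          omega
        omega
    have h7 : (Q ^ k - R).natDegree = k * D := by
      rw [natDegree_sub_eq_left_of_natDegree_lt, hdeg]
      rw [hdeg]
      omega
    rw [hz, natDegree_zero] at h7
    omega
  refine ⟨Q.coeff 1, Q.coeff 0, fun x => ?_⟩
  rw [hQ2]
  nth_rewrite 1 [eq_X_add_C_of_natDegree_le_one hD]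
  simp

/-- The affine permutation with given slope. -/
def affP (a : (ZMod p)ˣ) (b : ZMod p) : Equiv.Perm (ZMod p) where
  toFun x := (a : ZMod p) * x + b
  invFun x := ((a⁻¹ : (ZMod p)ˣ) : ZMod p) * (x - b)
  left_inv x := by
    simp only [add_sub_cancel_right, Units.inv_mul_cancel_left]
  right_inv x := by
    simp only [Units.mul_inv_cancel_left, sub_add_cancel]

theorem affP_mem (a : (ZMod p)ˣ) (b : ZMod p) : affP a b ∈ affineGroup (ZMod p) := ⟨a, b, fun _ => rfl⟩

/-- The slopes occurring in `G`. -/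
def slopes (G : Subgroup (Equiv.Perm (ZMod p))) : Subgroup (ZMod p)ˣ where
  carrier := {a | ∃ g ∈ G, ∃ b : ZMod p, ∀ x, g x = (a : ZMod p) * x + b}
  one_mem' := ⟨1, G.one_mem, 0, fun x => by simp⟩
  mul_mem' := by
    rintro a c ⟨g, hg, b, hb⟩ ⟨h, hh, d, hd⟩
    refine ⟨g * h, G.mul_mem hg hh, (a : ZMod p) * d + b, fun x => ?_⟩
    simp only [Equiv.Perm.coe_mul, Function.comp_apply, hd, hb, Units.val_mul]
    ring
  inv_mem' := by
    rintro a ⟨g, hg, b, hb⟩
    refine ⟨g⁻¹, G.inv_mem hg, -(((a⁻¹ : (ZMod p)ˣ) : ZMod p) * b), fun x => ?_⟩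
    have h1 := hb (g⁻¹ x)
    have h2 : g (g⁻¹ x) = x := by simp
    rw [h2] at h1
    have h4 : x - b = (a : ZMod p) * g⁻¹ x := by
      rw [sub_eq_iff_eq_add]
      exact h1
    have h3 : g⁻¹ x = ((a⁻¹ : (ZMod p)ˣ) : ZMod p) * (x - b) := by
      rw [h4, Units.inv_mul_cancel_left]
    rw [h3]
    ring


/-- Closures of subgroups of the one-dimensional affine group. Let p be a prime and G a group of permutations of F_p lying in the affine group AGL₁(p) = {x ↦ ax + b, a ≠ 0} and containing all translations. (1) If G is a proper subgroup of AGL₁(p), then G is 2-closed: a permutation of F_p agreeing on every ordered pair of points with some element of G lies in G. (2) Every permutation of F_p agrees on every ordered pair with some element of AGL₁(p) (the 2-closure of AGL₁(p) is the symmetric group). (3) AGL₁(p) is 3-closed: a permutation agreeing on every ordered triple with some affine map is affine. -/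
theorem result (p : ℕ) [Fact p.Prime] (G : Subgroup (Equiv.Perm (ZMod p))) (hG : G ≤ Cfsg.affineGroup (ZMod p))
    (htrans : ∀ b : ZMod p, ∃ g ∈ G, ∀ x, g x = x + b) :
    (G ≠ Cfsg.affineGroup (ZMod p) → ∀ σ : Equiv.Perm (ZMod p), (∀ t : Fin 2 → ZMod p, ∃ g ∈ G, ∀ i, σ (t i) = g (t i)) → σ ∈ G) ∧
    (∀ σ : Equiv.Perm (ZMod p), (∀ t : Fin 2 → ZMod p, ∃ g ∈ Cfsg.affineGroup (ZMod p), ∀ i, σ (t i) = g (t i))) ∧
    (∀ σ : Equiv.Perm (ZMod p), (∀ t : Fin 3 → ZMod p, ∃ g ∈ Cfsg.affineGroup (ZMod p), ∀ i, σ (t i) = g (t i)) → σ ∈ Cfsg.affineGroup (ZMod p)) := by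

  classical
  refine ⟨?_, ?_, ?_⟩
  · intro hne σ hσ
    -- the slope group is proper
    have hA : slopes G ≠ ⊤ := by
      intro htop
      apply hne
      apply le_antisymm hG
      rintro h ⟨a, b, hb⟩
      obtain ⟨g, hg, d, hd⟩ : a ∈ slopes G := by rw [htop]; trivial
      obtain ⟨t, ht, hte⟩ := htrans (b - d)
      have : h = t * g := by
        ext x
        simp only [Equiv.Perm.coe_mul, Function.comp_apply, hte, hd, hb]
        ring_nf
      rw [this]
      exact G.mul_mem ht hg
    set m := Nat.card (slopes G) with hm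
    have hm1 : 1 ≤ m := Nat.card_pos
    have hp := (Fact.out : p.Prime).two_le
    have hdiv : m ∣ p - 1 := by
      rw [← ZMod.card_units p, ← Nat.card_eq_fintype_card]
      exact Subgroup.card_subgroup_dvd_card _
    have hne2 : m ≠ p - 1 := by
      intro h
      apply hA
      apply Subgroup.eq_top_of_card_eq
      rw [← hm, h, Nat.card_eq_fintype_card, ZMod.card_units p]
    have h2m : 2 * m ≤ p - 1 := by
      obtain ⟨c, hc⟩ := hdiv
      have hc0 : c ≠ 0 := by
        rintro rfl
        omega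
      have hc1 : c ≠ 1 := by
        rintro rfl
        omega
      have : 2 ≤ c := by omega
      rw [hc]
      calc 2 * m = m * 2 := by ring
        _ ≤ m * c := Nat.mul_le_mul_left m this
    have hpow : ∀ a ∈ slopes G, a ^ m = 1 := by
      intro a ha
      have := pow_card_eq_one' (G := slopes G) (x := ⟨a, ha⟩)
      exact congrArg Subtype.val this
    have hagree : ∀ x y, ∃ a ∈ slopes G, ∃ b : ZMod p, σ x = (a : ZMod p) * x + b ∧ σ y = (a : ZMod p) * y + b := by
      intro x y
      obtain ⟨g, hg, hgt⟩ := hσ ![x, y]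
      obtain ⟨a, b, hb⟩ := hG hg
      refine ⟨a, ⟨g, hg, b, hb⟩, b, ?_, ?_⟩
      · have := hgt 0
        simp only [Matrix.cons_val_zero] at this
        rw [this, hb]
      · have := hgt 1
        simp only [Matrix.cons_val_one, Matrix.cons_val_zero] at this
        rw [this, hb]
    have hmm : ∀ x y, (σ x - σ y) ^ m = (x - y) ^ m := by
      intro x y
      obtain ⟨a, ha, b, h1, h2⟩ := hagree x y
      rw [h1, h2]
      have : (a : ZMod p) * x + b - ((a : ZMod p) * y + b) = (a : ZMod p) * (x - y) := by ring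
      rw [this, mul_pow]
      have h3 : ((a : ZMod p)) ^ m = 1 := by
        have := congrArg Units.val (hpow a ha)
        simpa using this
      rw [h3, one_mul]
    obtain ⟨a, b, hab⟩ := affine_of_pow hm1 h2m σ (pow_mem (by omega) σ hmm)
    obtain ⟨a', ha', b', h1, h2⟩ := hagree 0 1
    have hb : b = b' := by
      have := hab 0
      rw [h1] at this
      simpa using this.symm
    have ha : a = (a' : ZMod p) := by
      have := hab 1
      rw [h2, hb] at this
      simpa using this.symm
    obtain ⟨g, hg, d, hd⟩ := ha'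
    obtain ⟨t, ht, hte⟩ := htrans (b - d)
    have : σ = t * g := by
      ext x
      simp only [Equiv.Perm.coe_mul, Function.comp_apply, hte, hd, hab, ha]
      ring_nf
    rw [this]
    exact G.mul_mem ht hg
  · intro σ t
    by_cases h : t 0 = t 1
    · refine ⟨affP 1 (σ (t 0) - t 0), affP_mem _ _, fun i => ?_⟩
      have hi : t i = t 0 := by
        fin_cases i
        · rfl
        · exact h.symm
      rw [hi]
      simp [affP]
    · have h1 : t 1 - t 0 ≠ 0 := sub_ne_zero.2 (Ne.symm h)
      have h2 : σ (t 1) - σ (t 0) ≠ 0 := sub_ne_zero.2 (fun h3 => h (σ.injective h3).symm)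
      let a : (ZMod p)ˣ := Units.mk0 ((σ (t 1) - σ (t 0)) / (t 1 - t 0)) (div_ne_zero h2 h1)
      refine ⟨affP a (σ (t 0) - (a : ZMod p) * t 0), affP_mem _ _, fun i => ?_⟩
      fin_cases i
      · show σ (t 0) = (a : ZMod p) * t 0 + (σ (t 0) - (a : ZMod p) * t 0)
        ring
      · show σ (t 1) = (a : ZMod p) * t 1 + (σ (t 0) - (a : ZMod p) * t 0)
        have e : (a : ZMod p) = (σ (t 1) - σ (t 0)) / (t 1 - t 0) := rfl
        have e2 : (a : ZMod p) * (t 1 - t 0) = σ (t 1) - σ (t 0) := by
          rw [e, div_mul_cancel₀ _ h1]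
        linear_combination -e2
  · intro σ hσ
    have h01 : (0 : ZMod p) ≠ 1 := zero_ne_one
    have h2 : σ 1 - σ 0 ≠ 0 := sub_ne_zero.2 (fun h3 => h01 (σ.injective h3).symm)
    refine ⟨Units.mk0 (σ 1 - σ 0) h2, σ 0, fun x => ?_⟩
    obtain ⟨g, ⟨c, d, hg⟩, hgt⟩ := hσ ![0, 1, x]
    have h3 := hgt 0
    have h4 := hgt 1
    have h5 := hgt 2
    simp only [Matrix.cons_val_zero, Matrix.cons_val_one, Matrix.cons_val] at h3 h4 h5
    rw [hg] at h3 h4 h5
    simp only [mul_zero, zero_add, mul_one] at h3 h4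
    rw [Units.val_mk0, h5, h3, h4]
    ring

end Cfsg.Agent.S3518
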