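import Cfsg.Statements.S3546
import Cfsg.Agent.Lib.H6Derange
-- import your own Cfsg.Agent.* helpers here

set_option autoImplicit false
open Cfsg

namespace Cfsg.Agent.S3546

/-- Let G act faithfully and transitively on a finite set and let D be the subgroup of G generated by the derangements (the elements fixing no point). Then D is itself transitive, and D contains every element of G whose number of fixed points is different from 1. -/
theorem result {G Ω : Type*} [Group G] [Finite G] [MulAction G Ω] [FaithfulSMul G Ω] [Finite Ω]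
    (htrans : MulAction.IsPretransitive G Ω) :
    MulAction.IsPretransitive ↥(Subgroup.closure {g : G | ∀ ω : Ω, g • ω ≠ ω}) Ω ∧
    ∀ g : G, Nat.card (MulAction.fixedBy Ω g) ≠ 1 → g ∈ Subgroup.closure {g : G | ∀ ω : Ω, g • ω ≠ ω} := by
  classical
  rcases isEmpty_or_nonempty Ω with hΩ | hΩ
  · refine ⟨⟨fun x => (hΩ.false x).elim⟩, fun g _ => Subgroup.subset_closure fun ω => (hΩ.false ω).elim⟩
  · have hT : ∀ x y : Ω, ∃ g : G, g • x = y := htrans.exists_smul_eq
    refine ⟨⟨fun x y => ?_⟩, fun g hg => ?_⟩
    · obtain ⟨d, hd, hdx⟩ := Cfsg.Agent.Lib.H6Derange.D_transitive (G := G) hT x y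
      exact ⟨⟨d, hd⟩, hdx⟩
    · by_contra hcon
      exact hg (Cfsg.Agent.Lib.H6Derange.card_fixedBy_eq_one hT g hcon)

end Cfsg.Agent.S3546
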