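import Cfsg.Statements.S3547
import Cfsg.Agent.Lib.H6Derange
-- import your own Cfsg.Agent.* helpers here

set_option autoImplicit false
open Cfsg

namespace Cfsg.Agent.S3547

open MulAction in
theorem burnside_pairs {H Ω : Type*} [Group H] [Fintype H] [MulAction H Ω] [Finite Ω] :
    ∑ g : H, Nat.card (fixedBy Ω g) ^ 2 = Nat.card (orbitRel.Quotient H (Ω × Ω)) * Nat.card H := by
  classical
  haveI := Fintype.ofFinite Ω
  haveI : ∀ g : H, Fintype (fixedBy (Ω × Ω) g) := fun _ => Fintype.ofFinite _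
  haveI : Fintype (orbitRel.Quotient H (Ω × Ω)) := Fintype.ofFinite _
  have h := MulAction.sum_card_fixedBy_eq_card_orbits_mul_card_group (G := H) (X := Ω × Ω)
  rw [Nat.card_eq_fintype_card, Nat.card_eq_fintype_card, ← h]
  refine Finset.sum_congr rfl fun g _ => ?_
  have e : fixedBy (Ω × Ω) g ≃ fixedBy Ω g × fixedBy Ω g :=
    { toFun := fun p => ⟨⟨p.1.1, congrArg Prod.fst p.2⟩, ⟨p.1.2, congrArg Prod.snd p.2⟩⟩
      invFun := fun p => ⟨(p.1.1, p.2.1), Prod.ext p.1.2 p.2.2⟩
      left_inv := fun p => rfl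
      right_inv := fun p => rfl }
  rw [← Nat.card_eq_fintype_card, Nat.card_congr e, Nat.card_prod, pow_two]


/-- Let G act faithfully and transitively on a finite set Ω, let D be the subgroup generated by the derangements, and let r_G and r_D be the numbers of orbits of G and of D on ordered pairs of points (the permutation ranks). Then r_D − 1 = (r_G − 1)·[G : D]. -/
theorem result {G Ω : Type*} [Group G] [Finite G] [MulAction G Ω] [FaithfulSMul G Ω] [Finite Ω]
    (htrans : MulAction.IsPretransitive G Ω) :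
    Nat.card (MulAction.orbitRel.Quotient ↥(Subgroup.closure {g : G | ∀ ω : Ω, g • ω ≠ ω}) (Ω × Ω)) - 1 =
      (Nat.card (MulAction.orbitRel.Quotient G (Ω × Ω)) - 1) * (Subgroup.closure {g : G | ∀ ω : Ω, g • ω ≠ ω}).index := by
  classical
  rcases isEmpty_or_nonempty Ω with hΩ | hΩ
  · have h1 : IsEmpty (Ω × Ω) := inferInstance
    have e1 : IsEmpty (MulAction.orbitRel.Quotient G (Ω × Ω)) :=
      ⟨fun q => by
        induction q using Quotient.inductionOn' with | h x => exact h1.false x⟩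
    have e2 : IsEmpty (MulAction.orbitRel.Quotient (Subgroup.closure {g : G | ∀ ω : Ω, g • ω ≠ ω}) (Ω × Ω)) :=
      ⟨fun q => by
        induction q using Quotient.inductionOn' with | h x => exact h1.false x⟩
    rw [Nat.card_of_isEmpty, Nat.card_of_isEmpty]
    simp
  have hT : ∀ x y : Ω, ∃ g : G, g • x = y := htrans.exists_smul_eq
  haveI := Fintype.ofFinite G
  set D := Subgroup.closure {g : G | ∀ ω : Ω, g • ω ≠ ω} with hD
  have hG := burnside_pairs (H := G) (Ω := Ω)
  have hDb := burnside_pairs (H := D) (Ω := Ω)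
  have hsplit := Fintype.sum_subtype_add_sum_subtype (fun g : G => g ∈ D)
    (fun g : G => Nat.card (MulAction.fixedBy Ω g) ^ 2)
  have hout : ∀ g : {g : G // ¬ g ∈ D}, Nat.card (MulAction.fixedBy Ω (g : G)) ^ 2 = 1 := by
    intro g
    rw [Cfsg.Agent.Lib.H6Derange.card_fixedBy_eq_one hT g.1 g.2]; simp
  have h1 : ∑ i : {g : G // g ∈ D}, Nat.card (MulAction.fixedBy Ω (i : G)) ^ 2 =
      ∑ d : D, Nat.card (MulAction.fixedBy Ω d) ^ 2 := rfl
  have h2 : ∑ i : {g : G // ¬ g ∈ D}, Nat.card (MulAction.fixedBy Ω (i : G)) ^ 2 =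
      Nat.card {g : G // ¬ g ∈ D} := by
    rw [Finset.sum_congr rfl (fun i _ => hout i)]
    simp [Nat.card_eq_fintype_card]
  have hc1 : Nat.card D + Nat.card {g : G // ¬ g ∈ D} = Nat.card G := by
    rw [← Nat.card_congr (Equiv.sumCompl (fun g : G => g ∈ D)), Nat.card_sum]
  rw [h1, h2, hDb, hG] at hsplit
  have hidx := D.card_mul_index
  set a := Nat.card (MulAction.orbitRel.Quotient G (Ω × Ω)) with ha
  set b := Nat.card (MulAction.orbitRel.Quotient D (Ω × Ω)) with hb
  set N := Nat.card {g : G // ¬ g ∈ D} with hN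
  set c := Nat.card D with hc
  set k := D.index with hk
  have hc0 : 0 < c := Nat.card_pos
  have haq : 0 < a := by
    haveI : Nonempty (MulAction.orbitRel.Quotient G (Ω × Ω)) := by
      obtain ⟨ω⟩ := hΩ
      exact ⟨Quotient.mk'' (ω, ω)⟩
    exact Nat.card_pos
  have hbq : 0 < b := by
    haveI : Nonempty (MulAction.orbitRel.Quotient D (Ω × Ω)) := by
      obtain ⟨ω⟩ := hΩ
      exact ⟨Quotient.mk'' (ω, ω)⟩
    exact Nat.card_pos
  have hmain : c * (a * k + 1) = c * (b + k) := by
    rw [← hidx] at hsplit hc1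
    calc c * (a * k + 1) = a * (c * k) + c := by ring
      _ = b * c + N + c := by rw [← hsplit]
      _ = b * c + (c + N) := by ring
      _ = b * c + c * k := by rw [hc1]
      _ = c * (b + k) := by ring
  have hmain2 := Nat.eq_of_mul_eq_mul_left hc0 hmain
  obtain ⟨a', ha'⟩ : ∃ a', a = a' + 1 := ⟨a - 1, by omega⟩
  obtain ⟨b', hb'⟩ : ∃ b', b = b' + 1 := ⟨b - 1, by omega⟩
  rw [ha', hb'] at hmain2 ⊢
  simp only [Nat.add_sub_cancel]
  nlinarith

end Cfsg.Agent.S3547
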