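import Cfsg.Statements.S3548
import Cfsg.Agent.Lib.H6Derange
-- import your own Cfsg.Agent.* helpers here

set_option autoImplicit false
open Cfsg

namespace Cfsg.Agent.S3548

/-- Let G act faithfully and transitively on a finite set with n ≥ 2 points and let D be the subgroup generated by the derangements. Then the index of D in G divides n − 1, and if it equals n − 1 then n is a prime power. -/
theorem result {G Ω : Type*} [Group G] [Finite G] [MulAction G Ω] [FaithfulSMul G Ω] [Finite Ω]
    (htrans : MulAction.IsPretransitive G Ω) (hΩ : 2 ≤ Nat.card Ω) :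
    (Subgroup.closure {g : G | ∀ ω : Ω, g • ω ≠ ω}).index ∣ Nat.card Ω - 1 ∧
    ((Subgroup.closure {g : G | ∀ ω : Ω, g • ω ≠ ω}).index = Nat.card Ω - 1 → IsPrimePow (Nat.card Ω)) := by
  classical
  have hT : ∀ x y : Ω, ∃ g : G, g • x = y := htrans.exists_smul_eq
  haveI hΩne : Nonempty Ω := (Nat.card_pos_iff.mp (by omega)).1
  obtain ⟨a⟩ := id hΩne
  set D := Subgroup.closure {g : G | ∀ ω : Ω, g • ω ≠ ω} with hD
  have hDT : ∀ x y : Ω, ∃ d ∈ D, d • x = y := Cfsg.Agent.Lib.H6Derange.D_transitive (G := G) hT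
  haveI hDn : D.Normal := Cfsg.Agent.Lib.H6Derange.D_normal (G := G) (Ω := Ω)
  let H := MulAction.stabilizer G a
  have hsup : D ⊔ H = ⊤ := by
    rw [eq_top_iff]
    intro g _
    obtain ⟨d, hd, hda⟩ := hDT a (g • a)
    have h1 : d⁻¹ * g ∈ H := by
      rw [MulAction.mem_stabilizer_iff, mul_smul, ← hda]; simp
    have h2 : g = d * (d⁻¹ * g) := by group
    rw [h2]
    exact mul_mem (Subgroup.mem_sup_left hd) (Subgroup.mem_sup_right h1)
  let A : Subgroup H := D.subgroupOf H
  have hAidx : A.index = D.index := by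
    have h1 := Subgroup.relIndex_sup_left H D
    rw [hsup, Subgroup.relIndex_top_right] at h1
    exact h1.symm
  let Y := SubMulAction.ofStabilizer G a
  have hYcard : Nat.card Y + 1 = Nat.card Ω := SubMulAction.nat_card_ofStabilizer_add_one_eq G a
  have hSA : ∀ y : Y, MulAction.stabilizer H y ≤ A := by
    intro y s hs
    have h1 : (s : G) • (y : Ω) = y := congrArg Subtype.val hs
    have h2 : (y : Ω) ≠ a := by
      have := y.2
      rw [SubMulAction.mem_ofStabilizer_iff] at this
      exact this
    exact Cfsg.Agent.Lib.H6Derange.mem_D_of_two_fixed hT (s : G) h2 h1 s.2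
  have horb : ∀ y : Y, ∃ t, Nat.card (MulAction.orbit H y) = D.index * t ∧
      Nat.card A = Nat.card (MulAction.stabilizer H y) * t := by
    intro y
    obtain ⟨t, ht⟩ := Subgroup.card_dvd_of_le (hSA y)
    refine ⟨t, ?_, ht⟩
    have h1 := Cfsg.Agent.Lib.SylowCount.card_orbit_mul_card_stabilizer (H := H) y
    have h2 := A.card_mul_index
    rw [hAidx, ht] at h2
    have hpos : 0 < Nat.card (MulAction.stabilizer H y) := Nat.card_pos
    have h3 : Nat.card (MulAction.stabilizer H y) * Nat.card (MulAction.orbit H y) =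
        Nat.card (MulAction.stabilizer H y) * (D.index * t) := by
      rw [mul_comm, h1, ← h2]; ring
    exact Nat.eq_of_mul_eq_mul_left hpos h3
  have hdvd : D.index ∣ Nat.card Y :=
    Cfsg.Agent.Lib.SylowCount.dvd_card_of_dvd_orbits (H := H) _ fun y => by
      obtain ⟨t, ht, -⟩ := horb y
      exact ⟨t, ht⟩
  have hsub : Nat.card Ω - 1 = Nat.card Y := by omega
  rw [hsub]
  refine ⟨hdvd, fun hk => ?_⟩
  have hYpos : 0 < Nat.card Y := by omega
  have hfull : ∀ y : Y, Nat.card (MulAction.orbit H y) = Nat.card Y ∧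
      Nat.card A = Nat.card (MulAction.stabilizer H y) := by
    intro y
    obtain ⟨t, ht, ht'⟩ := horb y
    rw [hk] at ht
    have hle : Nat.card (MulAction.orbit H y) ≤ Nat.card Y := Finite.card_subtype_le _
    haveI : Nonempty (MulAction.orbit H y) := ⟨⟨y, MulAction.mem_orbit_self y⟩⟩
    have hpos : 0 < Nat.card (MulAction.orbit H y) := Nat.card_pos
    have ht1 : t = 1 := by
      rw [ht] at hle hpos
      have h1 : t ≤ 1 := by
        by_contra hcon
        push Not at hcon
        nlinarith
      have h2 : 0 < t := Nat.pos_of_mul_pos_left hpos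
      omega
    subst ht1
    exact ⟨by simpa using ht, by simpa using ht'⟩
  have hA_fix : ∀ d : H, d ∈ A → ∀ y : Y, d • y = y := by
    intro d hd y
    have h1 : MulAction.stabilizer H y = A :=
      Subgroup.eq_of_le_of_card_ge (hSA y) (by rw [(hfull y).2])
    rw [← h1] at hd
    exact hd
  have htriv : ∀ d ∈ D, d • a = a → d = 1 := by
    intro d hd hda
    apply FaithfulSMul.eq_of_smul_eq_smul (α := Ω)
    intro ω
    rw [one_smul]
    by_cases hω : ω = a
    · rw [hω]; exact hda
    · have h1 := hA_fix ⟨d, hda⟩ hd ⟨ω, hω⟩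
      exact congrArg Subtype.val h1
  have hTrans : ∀ y y' : Y, ∃ h : H, h • y = y' := by
    intro y y'
    have h1 : MulAction.orbit H y = Set.univ := by
      apply Set.eq_of_subset_of_ncard_le (Set.subset_univ _)
      rw [Set.ncard_univ, ← Nat.card_coe_set_eq]
      exact (hfull y).1.ge
    have h2 : y' ∈ MulAction.orbit H y := by rw [h1]; trivial
    exact h2
  have hconj : ∀ u ∈ D, ∀ v ∈ D, u ≠ 1 → v ≠ 1 → orderOf u = orderOf v := by
    intro u hu v hv hu1 hv1
    have hua : u • a ≠ a := fun h => hu1 (htriv u hu h)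
    have hva : v • a ≠ a := fun h => hv1 (htriv v hv h)
    obtain ⟨h, hh⟩ := hTrans ⟨u • a, hua⟩ ⟨v • a, hva⟩
    have hh' : (h : G) • u • a = v • a := congrArg Subtype.val hh
    have hha : (h : G)⁻¹ • a = a := by
      rw [inv_smul_eq_iff]; exact h.2.symm
    have hmem : v⁻¹ * ((h : G) * u * (h : G)⁻¹) ∈ D :=
      mul_mem (inv_mem hv) (hDn.conj_mem u hu h)
    have hfix : (v⁻¹ * ((h : G) * u * (h : G)⁻¹)) • a = a := by
      simp only [mul_smul]
      rw [hha, hh', inv_smul_smul]
    have h1 := htriv _ hmem hfix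
    have h2 : (h : G) * u * (h : G)⁻¹ = v := by
      rw [inv_mul_eq_one] at h1
      exact h1.symm
    rw [← h2]
    exact (orderOf_injective (MulAut.conj (h : G)).toMonoidHom (MulAut.conj (h : G)).injective u).symm
  have hcardD : Nat.card D = Nat.card Ω := by
    have h1 := Cfsg.Agent.Lib.SylowCount.card_orbit_mul_card_stabilizer (H := D) a
    have h2 : MulAction.orbit D a = Set.univ := by
      ext y
      simp only [Set.mem_univ, iff_true]
      obtain ⟨d, hd, hdy⟩ := hDT a y
      exact ⟨⟨d, hd⟩, hdy⟩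
    have h3 : MulAction.stabilizer D a = ⊥ := by
      rw [eq_bot_iff]
      intro d hd
      have := htriv d d.2 hd
      exact Subgroup.mem_bot.mpr (Subtype.ext this)
    rw [h2, h3] at h1
    simpa using h1.symm
  have hp : (Nat.card Ω).minFac.Prime := Nat.minFac_prime (by omega)
  set p := (Nat.card Ω).minFac with hpdef
  haveI : Fact p.Prime := ⟨hp⟩
  have hpdvd : p ∣ Nat.card D := by
    rw [hcardD]; exact Nat.minFac_dvd _
  obtain ⟨u, hu⟩ := exists_prime_orderOf_dvd_card' p hpdvd
  have hu1 : (u : G) ≠ 1 := by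
    intro h
    have : orderOf u = 1 := by
      rw [← Subgroup.orderOf_coe, h, orderOf_one]
    rw [this] at hu
    exact hp.one_lt.ne hu
  have hP : IsPGroup p D := by
    intro x
    by_cases hx : (x : G) = 1
    · exact ⟨0, by simpa using Subtype.ext hx⟩
    · refine ⟨1, ?_⟩
      have h1 := hconj (x : G) x.2 u u.2 hx hu1
      have h2 : orderOf (x : G) = p := by
        rw [h1, Subgroup.orderOf_coe]; exact hu
      apply Subtype.ext
      simp only [pow_one, Subgroup.coe_pow, Subgroup.coe_one]
      rw [← h2]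
      exact pow_orderOf_eq_one _
  obtain ⟨m, hm⟩ := IsPGroup.iff_card.mp hP
  rw [(isPrimePow_nat_iff _)]
  refine ⟨p, m, hp, ?_, ?_⟩
  · rcases Nat.eq_zero_or_pos m with rfl | h
    · simp only [pow_zero] at hm
      omega
    · exact h
  · rw [← hm, hcardD]

end Cfsg.Agent.S3548
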