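import Cfsg.Statements.S3549
import Cfsg.Agent.Lib.H6Derange
import Cfsg.Agent.Lib.SylowCount
-- import your own Cfsg.Agent.* helpers here

set_option autoImplicit false
open Cfsg

namespace Cfsg.Agent.S3549

open MulAction Pointwise

/-- Average fixed point count in a subset over a coset of a subgroup transitive on that subset. -/
theorem sum_fix_set {G X : Type*} [Group G] [MulAction G X] [Finite X] (C : Set X) (hC : C.Nonempty)
    (N : Subgroup G) [Fintype N] (hN : ∀ n ∈ N, ∀ x ∈ C, n • x ∈ C)
    (hT : ∀ x ∈ C, ∀ y ∈ C, ∃ n ∈ N, n • x = y) (g : G) (hg : ∀ x ∈ C, g⁻¹ • x ∈ C) :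
    ∑ n : N, Nat.card {x : C // (g * (n : G)) • (x : X) = x} = Nat.card N := by
  classical
  haveI := Fintype.ofFinite C
  have e : (Σ n : N, {x : C // (g * (n : G)) • (x : X) = x}) ≃
      (Σ x : C, {n : N // (g * (n : G)) • (x : X) = x}) :=
    { toFun := fun p => ⟨p.2.1, p.1, p.2.2⟩
      invFun := fun p => ⟨p.2.1, p.1, p.2.2⟩
      left_inv := fun p => rfl
      right_inv := fun p => rfl }
  rw [← Nat.card_sigma, Nat.card_congr e, Nat.card_sigma]
  have hc : ∀ x : C, Nat.card {n : N // (g * (n : G)) • (x : X) = x} =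
      Nat.card (stabilizer N (x : X)) := by
    intro x
    obtain ⟨n₀, hn₀, hn₀x⟩ := hT x x.2 (g⁻¹ • (x : X)) (hg x x.2)
    have e2 : {n : N // (g * (n : G)) • (x : X) = x} ≃ stabilizer N (x : X) :=
      { toFun := fun n => ⟨(⟨n₀, hn₀⟩ : N)⁻¹ * n.1, by
          rw [mem_stabilizer_iff, mul_smul]
          have h1 : (n.1 : G) • (x : X) = g⁻¹ • (x : X) := by
            have := n.2
            rw [mul_smul] at this
            exact eq_inv_smul_iff.mpr this
          have h2 : (n.1 • (x : X) : X) = (n.1 : G) • (x : X) := rfl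
          rw [h2, h1, ← hn₀x]
          change (n₀⁻¹ : G) • n₀ • (x : X) = x
          simp⟩
        invFun := fun s => ⟨(⟨n₀, hn₀⟩ : N) * s.1, by
          have h1 : (s.1 : N) • (x : X) = x := s.2
          have h2 : ((s.1 : N) : G) • (x : X) = x := h1
          rw [Subgroup.coe_mul, mul_smul, mul_smul, h2]
          change g • n₀ • (x : X) = x
          rw [hn₀x]; simp⟩
        left_inv := fun n => by
          apply Subtype.ext
          simp
        right_inv := fun s => by
          apply Subtype.ext
          simp }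
    exact Nat.card_congr e2
  have ho : ∀ x : C, Nat.card C * Nat.card (stabilizer N (x : X)) = Nat.card N := by
    intro x
    have h1 := Cfsg.Agent.Lib.SylowCount.card_orbit_mul_card_stabilizer (H := N) (x : X)
    have h2 : orbit N (x : X) = C := by
      ext y
      constructor
      · rintro ⟨n, rfl⟩
        exact hN n n.2 x x.2
      · intro hy
        obtain ⟨n, hn, hny⟩ := hT x x.2 y hy
        exact ⟨⟨n, hn⟩, hny⟩
    rw [h2] at h1
    exact h1
  obtain ⟨x₀, hx₀⟩ := hC
  have hc2 : ∀ x : C, Nat.card {n : N // (g * (n : G)) • (x : X) = x} =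
      Nat.card (stabilizer N ((⟨x₀, hx₀⟩ : C) : X)) := by
    intro x
    rw [hc]
    have h1 := ho x
    have h2 := ho ⟨x₀, hx₀⟩
    haveI : Nonempty C := ⟨⟨x₀, hx₀⟩⟩
    have hpos : 0 < Nat.card C := Nat.card_pos
    exact Nat.eq_of_mul_eq_mul_left hpos (h1.trans h2.symm)
  simp only [hc2]
  rw [Finset.sum_const, smul_eq_mul, Finset.card_univ, ← Nat.card_eq_fintype_card]
  exact ho ⟨x₀, hx₀⟩


/-- Let G act faithfully, transitively but imprimitively on a finite set with n points, and let D be the subgroup generated by the derangements. Then the index of D in G is at most √n − 1. -/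
theorem result {G Ω : Type*} [Group G] [Finite G] [MulAction G Ω] [FaithfulSMul G Ω] [Finite Ω]
    (htrans : MulAction.IsPretransitive G Ω) (himp : ¬ MulAction.IsPreprimitive G Ω) :
    ((Subgroup.closure {g : G | ∀ ω : Ω, g • ω ≠ ω}).index : ℝ) ≤ Real.sqrt (Nat.card Ω) - 1 := by
  classical
  have hT : ∀ x y : Ω, ∃ g : G, g • x = y := htrans.exists_smul_eq
  -- a nontrivial block
  obtain ⟨B₀, hB₀, hB₀nt⟩ : ∃ B : Set Ω, IsBlock G B ∧ ¬ IsTrivialBlock B := by
    by_contra hcon
    push Not at hcon
    exact himp { toIsPretransitive := htrans, isTrivialBlock_of_isBlock := fun {B} hB => hcon B hB }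
  unfold IsTrivialBlock at hB₀nt
  push Not at hB₀nt
  obtain ⟨hns, hnu⟩ := hB₀nt
  obtain ⟨a, haB, b, hbB, hab⟩ := hns
  haveI hΩne : Nonempty Ω := ⟨a⟩
  set B := B₀ with hBdef
  have hB := hB₀
  set D := Subgroup.closure {g : G | ∀ ω : Ω, g • ω ≠ ω} with hD
  have hDT : ∀ x y : Ω, ∃ d ∈ D, d • x = y := Cfsg.Agent.Lib.H6Derange.D_transitive (G := G) hT
  haveI hDn : D.Normal := Cfsg.Agent.Lib.H6Derange.D_normal (G := G) (Ω := Ω)
  let H := MulAction.stabilizer G a
  have hsup : H ⊔ D = ⊤ := by
    rw [eq_top_iff]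
    intro g _
    obtain ⟨d, hd, hda⟩ := hDT a (g • a)
    have h1 : d⁻¹ * g ∈ H := by
      rw [MulAction.mem_stabilizer_iff, mul_smul, ← hda]; simp
    have h2 : g = d * (d⁻¹ * g) := by group
    rw [h2]
    exact mul_mem (Subgroup.mem_sup_right hd) (Subgroup.mem_sup_left h1)
  -- representatives of G/D in H
  have hrep : ∀ c : G ⧸ D, ∃ t ∈ H, (t : G ⧸ D) = c := by
    intro c
    induction c using QuotientGroup.induction_on with | H g => ?_
    have hg : g ∈ ((H ⊔ D : Subgroup G) : Set G) := by rw [hsup]; trivial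
    rw [Subgroup.mul_normal] at hg
    obtain ⟨h, hh, d, hd, rfl⟩ := hg
    refine ⟨h, hh, ?_⟩
    rw [QuotientGroup.eq]
    simpa using hd
  choose t ht1 ht2 using hrep
  have htinj : ∀ c c' : G ⧸ D, (t c')⁻¹ * t c ∈ D → c = c' := by
    intro c c' h
    rw [← ht2 c, ← ht2 c']
    exact (QuotientGroup.eq.mpr h).symm
  have htB : ∀ c, t c • B = B := fun c =>
    hB.smul_eq_of_mem haB (by
      have : t c • a = a := ht1 c
      rw [this]; exact haB)
  -- first bound
  have hk1 : D.index + 1 ≤ B.ncard := by
    rw [← Set.ncard_sdiff_singleton_add_one haB (Set.toFinite B)]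
    apply Nat.add_le_add_right
    rw [← Nat.card_coe_set_eq (B \ {a})]
    let f : G ⧸ D → ↥(B \ {a}) := fun c => ⟨t c • b, by
      refine ⟨?_, ?_⟩
      · rw [← htB c]; exact Set.smul_mem_smul_set hbB
      · intro h
        have h1 : t c • a = a := ht1 c
        have h2 : t c • b = t c • a := by rw [h1]; exact h
        exact hab (smul_left_cancel _ h2).symm⟩
    have hf : Function.Injective f := by
      intro c c' h
      have h1 : t c • b = t c' • b := congrArg Subtype.val h
      apply htinj
      apply Cfsg.Agent.Lib.H6Derange.mem_D_of_two_fixed hT _ hab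
      · have h2 : t c • a = a := ht1 c
        have h3 : t c' • a = a := ht1 c'
        rw [mul_smul, h2, inv_smul_eq_iff, h3]
      · rw [mul_smul, h1, inv_smul_smul]
    exact Nat.card_le_card_of_injective f hf
  have hk2 : D.index + 1 ≤ (MulAction.orbit G B).ncard := by
    have hBorb : B ∈ MulAction.orbit G B := MulAction.mem_orbit_self B
    rw [← Set.ncard_sdiff_singleton_add_one hBorb (Set.toFinite _)]
    apply Nat.add_le_add_right
    obtain ⟨y, hy⟩ := (Set.ne_univ_iff_exists_notMem _).mp hnu
    obtain ⟨g, hg⟩ := hT a y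
    set C := g • B with hCdef
    have hyC : y ∈ C := ⟨a, haB, hg⟩
    have hCB : C ≠ B := fun h => hy (h ▸ hyC)
    have hC : IsBlock G C := hB.translate g
    have hdisj : Disjoint C B := (hB.smul_eq_or_disjoint g).resolve_left hCB
    -- fixed points in C
    have hfixC : ∀ u : G, u ∉ D → u • C = C → ∃ z ∈ C, u • z = z := by
      intro u hu huC
      by_contra hcon
      push Not at hcon
      let N : Subgroup G := D ⊓ MulAction.stabilizer G C
      haveI : Fintype N := Fintype.ofFinite N
      have hsum := sum_fix_set C ⟨y, hyC⟩ N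
        (fun n hn x hx => by
          have h1 : n • C = C := hn.2
          rw [← h1]
          exact Set.smul_mem_smul_set hx)
        (fun x hx y' hy' => by
          obtain ⟨d, hd, hdy⟩ := hDT x y'
          refine ⟨d, ⟨hd, ?_⟩, hdy⟩
          exact hC.smul_eq_of_mem hx (by rw [hdy]; exact hy'))
        u (fun x hx => by
          rw [← huC] at hx
          obtain ⟨w, hw, rfl⟩ := hx
          simpa using hw)
      have hle : ∀ n : N, Nat.card {x : C // (u * (n : G)) • (x : Ω) = x} ≤ 1 := by
        intro n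
        have hun : u * (n : G) ∉ D := fun h => hu (by
          have := mul_mem h (inv_mem n.2.1)
          simpa using this)
        have h1 := Cfsg.Agent.Lib.H6Derange.card_fixedBy_eq_one hT _ hun
        rw [← h1]
        exact Nat.card_le_card_of_injective
          (fun x => (⟨x.1.1, x.2⟩ : MulAction.fixedBy Ω (u * (n : G)))) (fun x x' h => Subtype.ext (Subtype.ext (Subtype.mk.inj h)))
      have hzero : Nat.card {x : C // (u * ((1 : N) : G)) • (x : Ω) = x} < 1 := by
        have : IsEmpty {x : C // (u * ((1 : N) : G)) • (x : Ω) = x} :=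
          ⟨fun x => hcon x.1.1 x.1.2 (by simpa using x.2)⟩
        rw [Nat.card_of_isEmpty]
        norm_num
      have hlt : ∑ n : N, Nat.card {x : C // (u * (n : G)) • (x : Ω) = x} < ∑ _n : N, 1 :=
        Finset.sum_lt_sum (fun n _ => hle n) ⟨1, Finset.mem_univ _, hzero⟩
      rw [hsum] at hlt
      simp [Nat.card_eq_fintype_card] at hlt
    rw [← Nat.card_coe_set_eq]
    let f : G ⧸ D → ↥(MulAction.orbit G B \ {B}) := fun c => ⟨t c • C, by
      refine ⟨⟨t c * g, ?_⟩, ?_⟩
      · change (t c * g) • B = t c • C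
        rw [mul_smul]
      · intro h
        have h1 : t c • C = B := h
        apply hCB
        rw [← htB c] at h1
        exact smul_left_cancel _ h1⟩
    have hf : Function.Injective f := by
      intro c c' h
      have h1 : t c • C = t c' • C := congrArg Subtype.val h
      apply htinj
      by_contra hu
      have huC : ((t c')⁻¹ * t c) • C = C := by
        rw [mul_smul, h1, inv_smul_smul]
      obtain ⟨z, hz, hzfix⟩ := hfixC _ hu huC
      have hza : a ≠ z := by
        rintro rfl
        exact Set.disjoint_left.mp hdisj hz haB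
      apply hu
      apply Cfsg.Agent.Lib.H6Derange.mem_D_of_two_fixed hT _ hza _ hzfix
      have h2 : t c • a = a := ht1 c
      have h3 : t c' • a = a := ht1 c'
      rw [mul_smul, h2, inv_smul_eq_iff, h3]
    exact Nat.card_le_card_of_injective f hf
  have hprod := IsBlock.ncard_block_mul_ncard_orbit_eq hB ⟨a, haB⟩
  have hle : (D.index + 1) ^ 2 ≤ Nat.card Ω := by
    rw [← hprod, pow_two]
    exact Nat.mul_le_mul hk1 hk2
  have hcast : ((D.index : ℝ) + 1) ^ 2 ≤ (Nat.card Ω : ℝ) := by exact_mod_cast hle
  have h1 : (D.index : ℝ) + 1 ≤ Real.sqrt (Nat.card Ω) := Real.le_sqrt_of_sq_le hcast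
  linarith

end Cfsg.Agent.S3549
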