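import Cfsg.Statements.S3560


set_option autoImplicit false
set_option linter.all false
open Cfsg

namespace Cfsg.Agent.S3560


open scoped Pointwise

/-- The isometry group of a distance function. -/
def isoSub {X : Type*} (d : X → X → ℕ) : Subgroup (Equiv.Perm X) where
  carrier := {π | ∀ x y, d (π x) (π y) = d x y}
  one_mem' := fun x y => rfl
  mul_mem' := fun {a b} ha hb x y => by
    simp only [Equiv.Perm.coe_mul, Function.comp_apply]
    rw [ha, hb]
  inv_mem' := fun {a} ha x y => by
    have := ha (a⁻¹ x) (a⁻¹ y)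
    simpa using this.symm

theorem iso_prim {X : Type*} (d : X → X → ℕ)
    (h0 : ∀ x y, d x y = 0 ↔ x = y)
    (h2 : ∀ x y x' y', d x y = d x' y' → ∃ g ∈ isoSub d, g x = x' ∧ g y = y')
    (h3 : ∀ x y, 2 ≤ d x y → ∃ y', d x y' = d x y ∧ d y y' = 1)
    (h4 : ∀ B : Set X, B.Nonempty → (∀ u ∈ B, ∀ v, d u v = 1 → v ∈ B) → B = Set.univ) :
    MulAction.IsPreprimitive ↥(isoSub d) X := by
  have htr : MulAction.IsPretransitive ↥(isoSub d) X := ⟨fun x y => by
      obtain ⟨g, hg, h1, _⟩ := h2 x x y y (by rw [(h0 x x).2 rfl, (h0 y y).2 rfl])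
      exact ⟨⟨g, hg⟩, h1⟩⟩
  refine { toIsPretransitive := htr, isTrivialBlock_of_isBlock := ?_ }
  intro B hB
  by_cases hs : B.Subsingleton
  · exact Or.inl hs
  right
  rw [Set.not_subsingleton_iff] at hs
  obtain ⟨x, hx, y, hy, hxy⟩ := hs
  -- the closure property
  have hC : ∀ x ∈ B, ∀ y ∈ B, ∀ u ∈ B, ∀ v, d u v = d x y → v ∈ B := by
    intro x hx y hy u hu v hd
    obtain ⟨g, hg, h1, h22⟩ := h2 x y u v hd.symm
    have h5 : (⟨g, hg⟩ : ↥(isoSub d)) • B = B := by
      apply (MulAction.IsBlock.smul_eq_of_mem hB)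
      · exact hx
      · show g x ∈ B
        rw [h1]
        exact hu
    have h6 : v ∈ (⟨g, hg⟩ : ↥(isoSub d)) • B := by
      refine ⟨y, hy, ?_⟩
      exact h22
    rwa [h5] at h6
  -- a pair at distance one
  have hpair : ∃ a ∈ B, ∃ b ∈ B, d a b = 1 := by
    have hne : d x y ≠ 0 := fun h => hxy ((h0 x y).1 h)
    by_cases h1 : d x y = 1
    · exact ⟨x, hx, y, hy, h1⟩
    · obtain ⟨y', h5, h6⟩ := h3 x y (by omega)
      exact ⟨y, hy, y', hC x hx y hy x hx y' h5, h6⟩
  obtain ⟨a, ha, b, hb, hab⟩ := hpair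
  apply h4 B ⟨x, hx⟩
  intro u hu v hv
  exact hC a ha b hb u hu v (by rw [hv, hab])

theorem iso_not_two {X : Type*} (d : X → X → ℕ) {x y x' y' : X} (hxy : x ≠ y) (hxy' : x' ≠ y')
    (hd : d x y ≠ d x' y') : ¬ MulAction.IsMultiplyPretransitive ↥(isoSub d) X 2 := by
  intro h
  let f : Fin 2 ↪ X := ⟨![x, y], by
    intro i j hij
    fin_cases i <;> fin_cases j <;> simp_all⟩
  let f' : Fin 2 ↪ X := ⟨![x', y'], by
    intro i j hij
    fin_cases i <;> fin_cases j <;> simp_all⟩
  obtain ⟨g, hg⟩ := h.exists_smul_eq f f'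
  have h0 := DFunLike.congr_fun hg 0
  have h1 := DFunLike.congr_fun hg 1
  have h0' : (g : Equiv.Perm X) x = x' := h0
  have h1' : (g : Equiv.Perm X) y = y' := h1
  apply hd
  rw [← h0', ← h1']
  exact (g.2 x y).symm

section Ham

variable {ι : Type*} [Fintype ι] [DecidableEq ι] {m : ℕ}

/-- Hamming distance. -/
def dH (x y : ι → Fin m) : ℕ := (Finset.univ.filter (fun i => x i ≠ y i)).card

theorem dH_zero (x y : ι → Fin m) : dH x y = 0 ↔ x = y := by
  rw [dH, Finset.card_eq_zero, Finset.filter_eq_empty_iff]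
  constructor
  · intro h
    funext i
    by_contra h1
    exact h (Finset.mem_univ i) h1
  · rintro rfl i _ h
    exact h rfl

/-- The monomial permutations. -/
def monoP (τ : Equiv.Perm ι) (σ : ι → Equiv.Perm (Fin m)) : Equiv.Perm (ι → Fin m) where
  toFun x j := σ (τ.symm j) (x (τ.symm j))
  invFun z i := (σ i).symm (z (τ i))
  left_inv x := by
    funext i
    simp
  right_inv z := by
    funext j
    simp

theorem monoP_iso (τ : Equiv.Perm ι) (σ : ι → Equiv.Perm (Fin m)) (x y : ι → Fin m) :
    dH (monoP τ σ x) (monoP τ σ y) = dH x y := by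
  unfold dH
  apply Finset.card_bij (fun j _ => τ.symm j)
  · intro j hj
    simp only [Finset.mem_filter, Finset.mem_univ, true_and] at hj ⊢
    intro h
    apply hj
    show σ (τ.symm j) (x (τ.symm j)) = σ (τ.symm j) (y (τ.symm j))
    rw [h]
  · intro a _ b _ h
    exact τ.symm.injective h
  · intro i hi
    refine ⟨τ i, ?_, by simp⟩
    simp only [Finset.mem_filter, Finset.mem_univ, true_and] at hi ⊢
    intro h
    apply hi
    have h1 : σ (τ.symm (τ i)) (x (τ.symm (τ i))) = σ (τ.symm (τ i)) (y (τ.symm (τ i))) := h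
    simp only [Equiv.symm_apply_apply] at h1
    exact (σ i).injective h1

theorem perm_two {m : ℕ} (a b c e : Fin m) (h : a = b ↔ c = e) : ∃ σ : Equiv.Perm (Fin m), σ a = c ∧ σ b = e := by
  by_cases hab : a = b
  · subst hab
    have := h.1 rfl
    subst this
    exact ⟨Equiv.swap a c, by simp, by simp⟩
  · have hce : c ≠ e := fun h1 => hab (h.2 h1)
    refine ⟨Equiv.swap (Equiv.swap a c b) e * Equiv.swap a c, ?_, ?_⟩
    · simp only [Equiv.Perm.coe_mul, Function.comp_apply, Equiv.swap_apply_left]
      apply Equiv.swap_apply_of_ne_of_ne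
      · intro h1
        apply hab
        apply (Equiv.swap a c).injective
        rw [Equiv.swap_apply_left]
        exact h1
      · exact hce
    · simp

theorem dH_trans (x y x' y' : ι → Fin m) (h : dH x y = dH x' y') :
    ∃ g : Equiv.Perm (ι → Fin m), (∀ u v, dH (g u) (g v) = dH u v) ∧ g x = x' ∧ g y = y' := by
  classical
  have hcard : Fintype.card {i // x i ≠ y i} = Fintype.card {i // x' i ≠ y' i} := by
    rw [Fintype.card_subtype, Fintype.card_subtype]
    exact h
  let e0 : {i // x i ≠ y i} ≃ {i // x' i ≠ y' i} := Fintype.equivOfCardEq hcard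
  let τ : Equiv.Perm ι := e0.extendSubtype
  have hτ : ∀ i, x i ≠ y i ↔ x' (τ i) ≠ y' (τ i) := by
    intro i
    constructor
    · intro h1
      exact e0.extendSubtype_mem i h1
    · intro h1
      by_contra h2
      exact e0.extendSubtype_not_mem i (fun h3 => h3 h2) h1
  have hσ : ∀ i, ∃ σ : Equiv.Perm (Fin m), σ (x i) = x' (τ i) ∧ σ (y i) = y' (τ i) := by
    intro i
    apply perm_two
    have := hτ i
    tauto
  choose σ h1 h2 using hσ
  refine ⟨monoP τ σ, monoP_iso τ σ, ?_, ?_⟩
  · funext j
    show σ (τ.symm j) (x (τ.symm j)) = x' j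
    rw [h1]
    simp
  · funext j
    show σ (τ.symm j) (y (τ.symm j)) = y' j
    rw [h2]
    simp

theorem exists_third {m : ℕ} (hm : 3 ≤ m) (a b : Fin m) : ∃ w : Fin m, w ≠ a ∧ w ≠ b := by
  by_contra hcon
  push Not at hcon
  have h1 : (Finset.univ : Finset (Fin m)) ⊆ {a, b} := by
    intro w _
    by_cases h : w = a
    · simp [h]
    · simp [hcon w h]
  have h2 := Finset.card_le_card h1
  have h3 : ({a, b} : Finset (Fin m)).card ≤ 2 := Finset.card_le_two
  simp at h2
  omega

theorem dH_step (hm : 3 ≤ m) (x y : ι → Fin m) (h : 2 ≤ dH x y) : ∃ y', dH x y' = dH x y ∧ dH y y' = 1 := by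
  have hne : x ≠ y := fun h1 => by
    have := (dH_zero x y).2 h1
    omega
  obtain ⟨i, hi⟩ := Function.ne_iff.1 hne
  obtain ⟨w, hw1, hw2⟩ := exists_third hm (x i) (y i)
  refine ⟨Function.update y i w, ?_, ?_⟩
  · unfold dH
    congr 1
    ext j
    simp only [Finset.mem_filter, Finset.mem_univ, true_and]
    by_cases hj : j = i
    · subst hj
      simp only [Function.update_self]
      exact ⟨fun _ => hi, fun _ => hw1.symm⟩
    · rw [Function.update_of_ne hj]
  · unfold dH
    rw [Finset.card_eq_one]
    refine ⟨i, ?_⟩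
    ext j
    simp only [Finset.mem_filter, Finset.mem_univ, true_and, Finset.mem_singleton]
    constructor
    · intro h1
      by_contra hj
      rw [Function.update_of_ne hj] at h1
      exact h1 rfl
    · rintro rfl
      simp only [Function.update_self]
      exact hw2.symm

theorem dH_conn (B : Set (ι → Fin m)) (hB : B.Nonempty) (h : ∀ u ∈ B, ∀ v, dH u v = 1 → v ∈ B) : B = Set.univ := by
  obtain ⟨u₀, hu₀⟩ := hB
  have key : ∀ k, ∀ u ∈ B, ∀ v, dH u v = k → v ∈ B := by
    intro k
    induction k with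
    | zero =>
      intro u hu v hv
      rwa [← (dH_zero u v).1 hv]
    | succ k ih =>
      intro u hu v hv
      have hne : u ≠ v := fun h1 => by
        have := (dH_zero u v).2 h1
        omega
      obtain ⟨i, hi⟩ := Function.ne_iff.1 hne
      have h1 : dH u (Function.update u i (v i)) = 1 := by
        unfold dH
        rw [Finset.card_eq_one]
        refine ⟨i, ?_⟩
        ext j
        simp only [Finset.mem_filter, Finset.mem_univ, true_and, Finset.mem_singleton]
        constructor
        · intro h1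
          by_contra hj
          rw [Function.update_of_ne hj] at h1
          exact h1 rfl
        · rintro rfl
          simp only [Function.update_self]
          exact hi
      have hu' := h u hu _ h1
      apply ih _ hu' v
      have h2 : (Finset.univ.filter (fun j => u j ≠ v j)) = insert i (Finset.univ.filter (fun j => Function.update u i (v i) j ≠ v j)) := by
        ext j
        simp only [Finset.mem_filter, Finset.mem_univ, true_and, Finset.mem_insert]
        by_cases hj : j = i
        · subst hj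
          simp [hi]
        · simp [Function.update_of_ne hj, hj]
      have h3 : dH u v = (insert i (Finset.univ.filter (fun j => Function.update u i (v i) j ≠ v j))).card := by
        unfold dH
        rw [h2]
      rw [Finset.card_insert_of_notMem (by simp)] at h3
      unfold dH
      omega
  ext v
  simp only [Set.mem_univ, iff_true]
  exact key _ u₀ hu₀ v rfl

theorem dH_pairs (hm : 3 ≤ m) (hr : 2 ≤ Fintype.card ι) : ∃ x y x' y' : ι → Fin m, dH x y = 1 ∧ dH x' y' = 2 := by
  obtain ⟨i, j, hij⟩ := Fintype.one_lt_card_iff.1 (by omega : 1 < Fintype.card ι)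
  let z : Fin m := ⟨0, by omega⟩
  let o : Fin m := ⟨1, by omega⟩
  have hzo : z ≠ o := by
    intro h
    have := congrArg Fin.val h
    simp [z, o] at this
  let x₀ : ι → Fin m := fun _ => z
  refine ⟨x₀, Function.update x₀ i o, x₀, Function.update (Function.update x₀ i o) j o, ?_, ?_⟩
  · unfold dH
    rw [Finset.card_eq_one]
    refine ⟨i, ?_⟩
    ext k
    simp only [Finset.mem_filter, Finset.mem_univ, true_and, Finset.mem_singleton]
    by_cases hk : k = i
    · subst hk
      simp [x₀, hzo]
    · simp [Function.update_of_ne hk, hk, x₀]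
  · unfold dH
    rw [Finset.card_eq_two]
    refine ⟨i, j, hij, ?_⟩
    ext k
    simp only [Finset.mem_filter, Finset.mem_univ, true_and, Finset.mem_insert, Finset.mem_singleton]
    by_cases hk : k = j
    · subst hk
      simp [x₀, hzo]
    · by_cases hk2 : k = i
      · subst hk2
        simp [Function.update_of_ne hk, x₀, hzo]
      · simp [Function.update_of_ne hk, Function.update_of_ne hk2, hk, hk2, x₀]

end Ham


/-- Let K be a finite group isomorphic to a direct product of r ≥ 2 groups all of the same order m ≥ 3. Then K is not a B-group: there is a primitive but not doubly transitive permutation group (on some finite set) containing a regular subgroup isomorphic to K. -/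
theorem result {K : Type*} [Group K] [Finite K] {ι : Type*} [Fintype ι] (F : ι → Type*) [∀ i, Group (F i)]
    (hr : 2 ≤ Fintype.card ι) (m : ℕ) (hm : 3 ≤ m) (hcard : ∀ i, Nat.card (F i) = m) (e : K ≃* (∀ i, F i)) :
    ∃ (n : ℕ) (G R : Subgroup (Equiv.Perm (Fin n))), R ≤ G ∧ Nonempty (↥R ≃* K) ∧
      MulAction.IsPretransitive ↥R (Fin n) ∧ (∀ a : Fin n, MulAction.stabilizer ↥R a = ⊥) ∧
      MulAction.IsPreprimitive ↥G (Fin n) ∧ ¬ MulAction.IsMultiplyPretransitive ↥G (Fin n) 2 := by

  classical
  haveI : ∀ i, Finite (F i) := fun i => Nat.finite_of_card_ne_zero (by rw [hcard]; omega)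
  let b : ∀ i, F i ≃ Fin m := fun i => Finite.equivFinOfCardEq (hcard i)
  let ζ : K ≃ (ι → Fin m) := e.toEquiv.trans (Equiv.piCongrRight b)
  let ε : (ι → Fin m) ≃ Fin (Fintype.card (ι → Fin m)) := Fintype.equivFin _
  let θ : K ≃ Fin (Fintype.card (ι → Fin m)) := ζ.trans ε
  let d : Fin (Fintype.card (ι → Fin m)) → Fin (Fintype.card (ι → Fin m)) → ℕ := fun a c => dH (ε.symm a) (ε.symm c)
  let ρ : K →* Equiv.Perm (Fin (Fintype.card (ι → Fin m))) :=
    { toFun := fun k => θ.permCongr (Equiv.mulLeft k)
      map_one' := by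
        ext a
        simp [Equiv.permCongr_apply]
      map_mul' := fun k l => by
        ext a
        simp [Equiv.permCongr_apply, mul_assoc] }
  have hρa : ∀ k a, ρ k a = θ (k * θ.symm a) := fun k a => rfl
  have hρinj : Function.Injective ρ := by
    intro k l h
    have h1 := DFunLike.congr_fun h (θ 1)
    rw [hρa, hρa] at h1
    simpa using h1
  have hd0 : ∀ x y, d x y = 0 ↔ x = y := by
    intro x y
    show dH _ _ = 0 ↔ _
    rw [dH_zero, ε.symm.injective.eq_iff]
  have hiso : ∀ k, ρ k ∈ isoSub d := by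
    intro k a c
    show dH (ε.symm (ρ k a)) (ε.symm (ρ k c)) = dH (ε.symm a) (ε.symm c)
    have h1 : ∀ u, ε.symm (ρ k (θ u)) = ζ (k * u) := by
      intro u
      rw [hρa]
      simp [θ]
    have h2 : ∀ u, ε.symm (θ u) = ζ u := by
      intro u
      simp [θ]
    obtain ⟨u, rfl⟩ := θ.surjective a
    obtain ⟨w, rfl⟩ := θ.surjective c
    rw [h1, h1, h2, h2]
    unfold dH
    congr 1
    ext i
    simp only [Finset.mem_filter, Finset.mem_univ, true_and, ne_eq]
    apply not_congr
    have h3 : ∀ v, ζ v i = b i (e v i) := fun v => rfl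
    rw [h3, h3, h3, h3, (b i).injective.eq_iff, (b i).injective.eq_iff, map_mul, map_mul, Pi.mul_apply, Pi.mul_apply,
      mul_right_inj]
  refine ⟨Fintype.card (ι → Fin m), isoSub d, ρ.range, ?_, ⟨(MonoidHom.ofInjective hρinj).symm⟩, ?_, ?_, ?_, ?_⟩
  · rintro _ ⟨k, rfl⟩
    exact hiso k
  · refine ⟨fun a c => ⟨⟨ρ (θ.symm c * (θ.symm a)⁻¹), ⟨_, rfl⟩⟩, ?_⟩⟩
    show ρ (θ.symm c * (θ.symm a)⁻¹) a = c
    rw [hρa]
    simp
  · intro a
    rw [Subgroup.eq_bot_iff_forall]
    rintro ⟨_, k, rfl⟩ hr
    have h1 : ρ k a = a := hr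
    rw [hρa] at h1
    have h2 : k * θ.symm a = θ.symm a := by
      rw [← θ.injective.eq_iff, h1]
      simp
    have h3 : k = 1 := by simpa using h2
    apply Subtype.ext
    show ρ k = 1
    rw [h3, map_one]
  · apply iso_prim d hd0
    · intro x y x' y' h
      obtain ⟨g, hg, h1, h2⟩ := dH_trans _ _ _ _ h
      refine ⟨ε.permCongr g, ?_, ?_, ?_⟩
      · intro u v
        show dH (ε.symm (ε.permCongr g u)) (ε.symm (ε.permCongr g v)) = dH (ε.symm u) (ε.symm v)
        simp only [Equiv.permCongr_apply, Equiv.symm_apply_apply]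
        exact hg _ _
      · rw [Equiv.permCongr_apply, h1]
        simp
      · rw [Equiv.permCongr_apply, h2]
        simp
    · intro x y h
      obtain ⟨y', h1, h2⟩ := dH_step hm _ _ h
      refine ⟨ε y', ?_, ?_⟩
      · show dH (ε.symm x) (ε.symm (ε y')) = _
        rw [ε.symm_apply_apply]
        exact h1
      · show dH (ε.symm y) (ε.symm (ε y')) = _
        rw [ε.symm_apply_apply]
        exact h2
    · intro B hB h
      have h1 : {x | ε x ∈ B} = Set.univ := by
        apply dH_conn
        · obtain ⟨a, ha⟩ := hB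
          exact ⟨ε.symm a, by simpa using ha⟩
        · intro u hu v hv
          apply h _ hu
          show dH (ε.symm (ε u)) (ε.symm (ε v)) = 1
          rw [ε.symm_apply_apply, ε.symm_apply_apply]
          exact hv
      ext a
      simp only [Set.mem_univ, iff_true]
      have h2 : ε.symm a ∈ {x | ε x ∈ B} := by
        rw [h1]
        trivial
      simpa using h2
  · obtain ⟨x, y, x', y', h1, h2⟩ := dH_pairs hm hr (ι := ι)
    have hd : ∀ u v, d (ε u) (ε v) = dH u v := by
      intro u v
      show dH (ε.symm (ε u)) (ε.symm (ε v)) = _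
      rw [ε.symm_apply_apply, ε.symm_apply_apply]
    apply iso_not_two d (x := ε x) (y := ε y) (x' := ε x') (y' := ε y')
    · intro h
      have := (hd0 _ _).2 h
      rw [hd] at this
      omega
    · intro h
      have := (hd0 _ _).2 h
      rw [hd] at this
      omega
    · rw [hd, hd]
      omega

end Cfsg.Agent.S3560
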