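import Mathlib
import Cfsg.Statements.S3573
-- import your own Cfsg.Agent.* helpers here

set_option autoImplicit false
open Cfsg

namespace Cfsg.Agent.S3573

open Equiv Equiv.Perm

section
variable {α : Type*} [Fintype α] [DecidableEq α]

theorem supp_card (σ : Perm α) (r : ℕ) (hr : r.Prime) (h : orderOf σ = r) :
    ∃ c, 1 ≤ c ∧ σ.support.card = c * r := by
  obtain ⟨c, hc⟩ := cycleType_prime_order (σ := σ) (h ▸ hr)
  refine ⟨c + 1, by omega, ?_⟩
  rw [← sum_cycleType, hc, h]
  simp
  ring

theorem lcm_rep (r c : ℕ) : (Multiset.replicate (c + 1) r).lcm = r := by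
  induction c with
  | zero => simp
  | succ c ih =>
    rw [Multiset.replicate_succ, Multiset.lcm_cons, ih]
    simp

theorem exists_inv (σ : Perm α) (r : ℕ) (hr : r.Prime) (h : orderOf σ = r) (a b : ℕ)
    (ha : a * r ≤ σ.support.card) (hb : b ≤ (σ.supportᶜ).card) :
    ∃ s : Finset α, s.card = a * r + b ∧ s.image σ = s := by
  have hall : ∀ c ∈ σ.cycleFactorsFinset, c.support.card = r := by
    intro c hc
    have h1 : c.support.card ∈ σ.cycleType := by
      rw [cycleType_def]
      exact Multiset.mem_map_of_mem (Finset.card ∘ support) hc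
    have h2 := dvd_of_mem_cycleType h1
    rw [h] at h2
    have h3 := two_le_of_mem_cycleType h1
    exact (hr.eq_one_or_self_of_dvd _ h2).resolve_left (by omega)
  have hcard : σ.support.card = σ.cycleFactorsFinset.card * r := by
    rw [← sum_cycleType, cycleType_def]
    change ∑ c ∈ σ.cycleFactorsFinset, c.support.card = _
    rw [Finset.sum_congr rfl (fun c hc => hall c hc)]
    simp
  have ha' : a ≤ σ.cycleFactorsFinset.card := by
    rw [hcard] at ha
    exact Nat.le_of_mul_le_mul_right ha hr.pos
  obtain ⟨C, hC, hCa⟩ := Finset.exists_subset_card_eq ha'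
  obtain ⟨B, hB, hBb⟩ := Finset.exists_subset_card_eq hb
  let T : Finset α := C.biUnion support
  have hT : T.card = a * r := by
    rw [Finset.card_biUnion]
    · rw [Finset.sum_congr rfl (fun c hc => hall c (hC hc))]
      simp [hCa]
    · intro x hx y hy hxy
      exact (disjoint_iff_disjoint_support.1
        (cycleFactorsFinset_pairwise_disjoint σ (hC hx) (hC hy) hxy))
  have hTsup : T ⊆ σ.support := by
    intro x hx
    obtain ⟨c, hc, hxc⟩ := Finset.mem_biUnion.1 hx
    exact mem_cycleFactorsFinset_support_le (hC hc) hxc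
  have hdisj : Disjoint T B := by
    rw [Finset.disjoint_left]
    intro x hx hxB
    exact (Finset.mem_compl.1 (hB hxB)) (hTsup hx)
  have hinv : ∀ x ∈ T ∪ B, σ x ∈ T ∪ B := by
    intro x hx
    rcases Finset.mem_union.1 hx with hx | hx
    · obtain ⟨c, hc, hxc⟩ := Finset.mem_biUnion.1 hx
      have h1 := (mem_cycleFactorsFinset_iff.1 (hC hc)).2 x hxc
      rw [← h1]
      exact Finset.mem_union_left _
        (Finset.mem_biUnion.2 ⟨c, hc, apply_mem_support.2 hxc⟩)
    · have h1 : x ∉ σ.support := Finset.mem_compl.1 (hB hx)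
      rw [notMem_support.1 h1]
      exact Finset.mem_union_right _ hx
  refine ⟨T ∪ B, ?_, ?_⟩
  · rw [Finset.card_union_of_disjoint hdisj, hT, hBb]
  · apply Finset.eq_of_subset_of_card_le
    · intro y hy
      obtain ⟨x, hx, rfl⟩ := Finset.mem_image.1 hy
      exact hinv x hx
    · rw [Finset.card_image_of_injective _ σ.injective]

theorem mod_fixed (σ : Perm α) (r : ℕ) (hr : r.Prime) (hσ : σ ^ r = 1) (s : Finset α)
    (hs : s.image σ = s) : s.card ≡ (s.filter fun x => σ x = x).card [MOD r] := by
  classical
  haveI : Fact r.Prime := ⟨hr⟩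
  have hmem : ∀ x ∈ s, σ x ∈ s := by
    intro x hx
    rw [← hs]
    exact Finset.mem_image_of_mem _ hx
  let f : Function.End s := fun x => ⟨σ x.1, hmem _ x.2⟩
  have hpow : ∀ (k : ℕ) (x : s), ((f ^ k) x).1 = (σ ^ k) x.1 := by
    intro k
    induction k with
    | zero => intro x; rfl
    | succ k ih =>
      intro x
      rw [pow_succ, pow_succ]
      exact ih (f x)
  have hf : f ^ r ^ 1 = 1 := by
    rw [pow_one]
    funext x
    apply Subtype.ext
    rw [hpow, hσ]
    rfl
  have h1 := Equiv.Perm.card_fixedPoints_modEq (f := f) (p := r) (n := 1) hf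
  have h2 : Fintype.card s = s.card := Fintype.card_coe s
  have h3 : Fintype.card (Function.fixedPoints f) = (s.filter fun x => σ x = x).card := by
    rw [← Fintype.card_coe (s.filter fun x => σ x = x)]
    apply Fintype.card_congr
    exact
      { toFun := fun x => ⟨x.1.1, Finset.mem_filter.2 ⟨x.1.2, congrArg Subtype.val x.2⟩⟩
        invFun := fun x => ⟨⟨x.1, (Finset.mem_filter.1 x.2).1⟩,
          Subtype.ext (Finset.mem_filter.1 x.2).2⟩
        left_inv := fun _ => rfl
        right_inv := fun _ => rfl }
  rw [h2, h3] at h1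
  exact h1

end

theorem main_equiv (n k r : ℕ) (hkn : k ≤ n) (hr : r.Prime) (hrd : r ∣ Nat.choose n k) :
    (∀ σ : Equiv.Perm (Fin n), orderOf σ = r → ∃ s : Finset (Fin n), s.card = k ∧ s.image σ = s) ↔
      (r ≤ k ∧ k % r ≤ n % r) := by
  classical
  haveI : Fact r.Prime := ⟨hr⟩
  constructor
  · intro hall
    have hrn : r ≤ n := by
      have h1 : Nat.choose n k ∣ n.factorial :=
        ⟨k.factorial * (n - k).factorial, by
          rw [← mul_assoc]; exact (Nat.choose_mul_factorial_mul_factorial hkn).symm⟩
      exact hr.dvd_factorial.1 (hrd.trans h1)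
    have hc1 : 1 ≤ n / r := Nat.div_pos hrn hr.pos
    obtain ⟨g, hg⟩ : ∃ g : Equiv.Perm (Fin n), g.cycleType = Multiset.replicate (n / r) r := by
      rw [Equiv.Perm.exists_with_cycleType_iff]
      constructor
      · simp only [Multiset.sum_replicate, smul_eq_mul, Fintype.card_fin]
        exact Nat.div_mul_le_self n r
      · intro a ha
        rw [Multiset.eq_of_mem_replicate ha]
        exact hr.two_le
    have hord : orderOf g = r := by
      rw [← lcm_cycleType, hg]
      rw [show n / r = (n / r - 1) + 1 by omega]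
      exact lcm_rep r _
    have hsup : g.support.card = n / r * r := by
      rw [← sum_cycleType, hg]; simp
    obtain ⟨s, hsk, hsinv⟩ := hall g hord
    have hmod := mod_fixed g r hr (by rw [← hord]; exact pow_orderOf_eq_one g) s hsinv
    rw [hsk] at hmod
    have hfilter : (s.filter fun x => g x = x).card ≤ n % r := by
      have h1 : (s.filter fun x => g x = x) ⊆ g.supportᶜ := by
        intro x hx
        rw [Finset.mem_compl, notMem_support]
        exact (Finset.mem_filter.1 hx).2
      have h2 := Finset.card_le_card h1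
      rw [Finset.card_compl, Fintype.card_fin, hsup] at h2
      have h3 : n - n / r * r = n % r := by
        have := Nat.div_add_mod' n r
        omega
      omega
    have hlt : n % r < r := Nat.mod_lt _ hr.pos
    have hkmod : k % r ≤ n % r := by
      have h1 : k % r = (s.filter fun x => g x = x).card % r := hmod
      rw [h1]
      exact le_trans (Nat.mod_le _ _) hfilter
    refine ⟨?_, hkmod⟩
    by_contra hlt2
    push_neg at hlt2
    have h1 : k % r = k := Nat.mod_eq_of_lt hlt2
    have h2 : k / r = 0 := Nat.div_eq_of_lt hlt2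
    have h3 := Choose.choose_modEq_choose_mod_mul_choose_div_nat (n := n) (k := k) (p := r)
    rw [h1, h2, Nat.choose_zero_right, mul_one] at h3
    have h4 : r ∣ Nat.choose (n % r) k := (Nat.modEq_zero_iff_dvd.1
      (h3.symm.trans (Nat.modEq_zero_iff_dvd.2 hrd)))
    rw [h1] at hkmod
    have h5 : Nat.choose (n % r) k ∣ (n % r).factorial :=
      ⟨k.factorial * (n % r - k).factorial, by
        rw [← mul_assoc]; exact (Nat.choose_mul_factorial_mul_factorial hkmod).symm⟩
    have h6 := hr.dvd_factorial.1 (h4.trans h5)
    omega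
  · rintro ⟨-, hmod⟩ σ hσ
    obtain ⟨c, hc1, hc⟩ := supp_card σ r hr hσ
    have hsupn : σ.support.card ≤ n := by
      simpa using Finset.card_le_univ σ.support
    have hcompl : (σ.supportᶜ).card = n - c * r := by
      rw [Finset.card_compl, Fintype.card_fin, hc]
    by_cases hcase : k / r ≤ c
    · obtain ⟨s, hs1, hs2⟩ := exists_inv σ r hr hσ (k / r) (k % r)
        (by rw [hc]; exact Nat.mul_le_mul_right _ hcase)
        (by
          rw [hcompl]
          have h1 : (n - c * r) % r = n % r := by
            rw [hc] at hsupn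
            obtain ⟨d, hd⟩ : ∃ d, n = c * r + d := ⟨n - c * r, by omega⟩
            rw [hd, Nat.add_sub_cancel_left, Nat.mul_add_mod']
          have h2 := Nat.mod_le (n - c * r) r
          omega)
      refine ⟨s, ?_, hs2⟩
      rw [hs1, Nat.div_add_mod']
    · push_neg at hcase
      have h1 : c * r ≤ k := by
        have h3 : (c + 1) * r ≤ k / r * r := Nat.mul_le_mul_right _ hcase
        calc c * r ≤ (c + 1) * r := Nat.mul_le_mul_right _ (by omega)
          _ ≤ k / r * r := h3
          _ ≤ k := Nat.div_mul_le_self k r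
      obtain ⟨s, hs1, hs2⟩ := exists_inv σ r hr hσ c (k - c * r) (by rw [hc])
        (by rw [hcompl]; omega)
      refine ⟨s, ?_, hs2⟩
      rw [hs1]
      omega


/-- Let 1 ≤ k with 2k < n and consider the symmetric group of degree n acting on the k-subsets of an n-set. Let r be a prime dividing the number C(n,k) of k-subsets. If r is odd, then every permutation of order r fixes some k-subset if and only if r ≤ k and the remainder of k modulo r is at most the remainder of n modulo r. If r = 2, then every involution fixes some k-subset if and only if k is even or n is odd. -/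
theorem result (n k : ℕ) (hk : 1 ≤ k) (hkn : 2 * k < n) (r : ℕ) (hr : r.Prime) (hrd : r ∣ Nat.choose n k) :
    (r ≠ 2 → ((∀ σ : Equiv.Perm (Fin n), orderOf σ = r → ∃ s : Finset (Fin n), s.card = k ∧ s.image σ = s) ↔
      (r ≤ k ∧ k % r ≤ n % r))) ∧
    (r = 2 → ((∀ σ : Equiv.Perm (Fin n), orderOf σ = 2 → ∃ s : Finset (Fin n), s.card = k ∧ s.image σ = s) ↔
      (Even k ∨ Odd n))) := by
  have hE := main_equiv n k r (by omega) hr hrd
  refine ⟨fun _ => hE, ?_⟩
  rintro rfl
  rw [hE]
  constructor
  · rintro ⟨-, h⟩
    by_cases hk2 : k % 2 = 0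
    · exact Or.inl (Nat.even_iff.2 hk2)
    · right
      rw [Nat.odd_iff]
      omega
  · rintro (h | h)
    · have h1 := Nat.even_iff.1 h
      refine ⟨?_, ?_⟩
      · omega
      · omega
    · have h1 := Nat.odd_iff.1 h
      refine ⟨?_, ?_⟩
      · by_contra hlt
        have hk1 : k = 1 := by omega
        subst hk1
        rw [Nat.choose_one_right] at hrd
        omega
      · have := Nat.mod_lt k (show 2 > 0 by norm_num)
        omega

end Cfsg.Agent.S3573
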