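import Mathlib
import Cfsg.Statements.S3575
-- import your own Cfsg.Agent.* helpers here

set_option autoImplicit false
open Cfsg

namespace Cfsg.Agent.S3575


set_option autoImplicit false
set_option linter.all false

section H6Part

variable {X : Type} [Fintype X] [DecidableEq X]

/-- Forward-closed finite sets. -/
def InvS (σ : Equiv.Perm X) (Z : Finset X) : Prop := ∀ x ∈ Z, σ x ∈ Z

theorem InvS.pow {σ : Equiv.Perm X} {Z : Finset X} (h : InvS σ Z) (k : ℕ) {x : X} (hx : x ∈ Z) : (σ ^ k) x ∈ Z := by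
  induction k with
  | zero => simpa using hx
  | succ k ih =>
    rw [pow_succ', Equiv.Perm.mul_apply]
    exact h _ ih

theorem InvS.back {σ : Equiv.Perm X} {Z : Finset X} (h : InvS σ Z) {r : ℕ} (hr : 1 ≤ r) (hσ : σ ^ r = 1) {x : X}
    (hx : σ x ∈ Z) : x ∈ Z := by
  have h1 := h.pow (r - 1) hx
  have h2 : (σ ^ (r - 1)) (σ x) = x := by
    rw [← Equiv.Perm.mul_apply, ← pow_succ, Nat.sub_add_cancel hr, hσ]
    rfl
  rwa [h2] at h1

theorem InvS.back_pow {σ : Equiv.Perm X} {Z : Finset X} (h : InvS σ Z) {r : ℕ} (hr : 1 ≤ r) (hσ : σ ^ r = 1) {x : X}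
    (i : ℕ) (hx : (σ ^ i) x ∈ Z) : x ∈ Z := by
  induction i with
  | zero => simpa using hx
  | succ i ih =>
    rw [pow_succ', Equiv.Perm.mul_apply] at hx
    exact ih (h.back hr hσ hx)

theorem InvS.union {σ : Equiv.Perm X} {Z₁ Z₂ : Finset X} (h₁ : InvS σ Z₁) (h₂ : InvS σ Z₂) : InvS σ (Z₁ ∪ Z₂) := by
  intro x hx
  rcases Finset.mem_union.1 hx with h | h
  · exact Finset.mem_union_left _ (h₁ x h)
  · exact Finset.mem_union_right _ (h₂ x h)

theorem InvS.inter {σ : Equiv.Perm X} {Z₁ Z₂ : Finset X} (h₁ : InvS σ Z₁) (h₂ : InvS σ Z₂) : InvS σ (Z₁ ∩ Z₂) := by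
  intro x hx
  rw [Finset.mem_inter] at hx ⊢
  exact ⟨h₁ x hx.1, h₂ x hx.2⟩

theorem InvS.sdiff {σ : Equiv.Perm X} {Z₁ Z₂ : Finset X} {r : ℕ} (hr : 1 ≤ r) (hσ : σ ^ r = 1) (h₁ : InvS σ Z₁)
    (h₂ : InvS σ Z₂) : InvS σ (Z₁ \ Z₂) := by
  intro x hx
  rw [Finset.mem_sdiff] at hx ⊢
  exact ⟨h₁ x hx.1, fun h => hx.2 (h₂.back hr hσ h)⟩

theorem invS_support (σ : Equiv.Perm X) : InvS σ σ.support := fun _ hx => Equiv.Perm.apply_mem_support.2 hx

/-- The cycle through a point. -/
def cycS (σ : Equiv.Perm X) (r : ℕ) (x : X) : Finset X := (Finset.range r).image (fun i => (σ ^ i) x)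

theorem mem_cycS {σ : Equiv.Perm X} {r : ℕ} {x y : X} : y ∈ cycS σ r x ↔ ∃ i, i < r ∧ (σ ^ i) x = y := by
  simp [cycS]

theorem cycS_inj {σ : Equiv.Perm X} {r : ℕ} (hr : r.Prime) (hσ : σ ^ r = 1) {x : X} (hx : σ x ≠ x) {i j : ℕ}
    (hi : i < r) (hj : j < r) (h : (σ ^ i) x = (σ ^ j) x) : i = j := by
  wlog hij : i ≤ j generalizing i j
  · exact (this hj hi h.symm (by omega)).symm
  by_contra hne
  obtain ⟨d, rfl⟩ : ∃ d, j = i + d := ⟨j - i, by omega⟩
  have hd0 : 0 < d := by omega
  have hdr : d < r := by omega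
  have h1 : (σ ^ d) x = x := by
    rw [pow_add, Equiv.Perm.mul_apply] at h
    exact ((σ ^ i).injective h).symm
  have hcop : Nat.Coprime d r := ((Nat.Prime.coprime_iff_not_dvd hr).2 (Nat.not_dvd_of_pos_of_lt hd0 hdr)).symm
  obtain ⟨m, -, hm⟩ := Nat.exists_mul_mod_eq_one_of_coprime hcop hr.one_lt
  have h2 : σ ^ (d * m) = σ := by
    have h3 := Nat.div_add_mod (d * m) r
    rw [← h3, hm, pow_add, pow_mul, hσ]
    simp
  apply hx
  rw [← h2, pow_mul]
  exact Equiv.Perm.pow_apply_eq_self_of_apply_eq_self h1 m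

theorem cycS_card {σ : Equiv.Perm X} {r : ℕ} (hr : r.Prime) (hσ : σ ^ r = 1) {x : X} (hx : σ x ≠ x) :
    (cycS σ r x).card = r := by
  rw [cycS, Finset.card_image_of_injOn, Finset.card_range]
  intro i hi j hj h
  exact cycS_inj hr hσ hx (by simpa using hi) (by simpa using hj) h

theorem cycS_inv {σ : Equiv.Perm X} {r : ℕ} (hr : r.Prime) (hσ : σ ^ r = 1) (x : X) : InvS σ (cycS σ r x) := by
  intro y hy
  obtain ⟨i, hi, rfl⟩ := mem_cycS.1 hy
  rw [mem_cycS]
  by_cases h : i + 1 < r
  · exact ⟨i + 1, h, by rw [pow_succ', Equiv.Perm.mul_apply]⟩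
  · have h1 : i + 1 = r := by omega
    refine ⟨0, hr.pos, ?_⟩
    rw [← Equiv.Perm.mul_apply, ← pow_succ', h1, hσ]
    rfl

theorem cycS_sub {σ : Equiv.Perm X} {r : ℕ} {Z : Finset X} (hZ : InvS σ Z) {x : X} (hx : x ∈ Z) : cycS σ r x ⊆ Z := by
  intro y hy
  obtain ⟨i, _, rfl⟩ := mem_cycS.1 hy
  exact hZ.pow i hx

theorem mem_cycS_self {σ : Equiv.Perm X} {r : ℕ} (hr : r.Prime) (x : X) : x ∈ cycS σ r x :=
  mem_cycS.2 ⟨0, hr.pos, rfl⟩

theorem remove_cycle {σ : Equiv.Perm X} {r : ℕ} (hr : r.Prime) (hσ : σ ^ r = 1) {W : Finset X} (hW : InvS σ W)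
    (hS : W ⊆ σ.support) {x : X} (hx : x ∈ W) :
    InvS σ (W \ cycS σ r x) ∧ (W \ cycS σ r x) ⊆ σ.support ∧ (W \ cycS σ r x).card + r = W.card := by
  have hxS : σ x ≠ x := Equiv.Perm.mem_support.1 (hS hx)
  refine ⟨hW.sdiff hr.pos hσ (cycS_inv hr hσ x), Finset.sdiff_subset.trans hS, ?_⟩
  have h1 := Finset.card_sdiff_add_card_eq_card (cycS_sub (r := r) hW hx)
  rwa [cycS_card hr hσ hxS] at h1

theorem dvd_card {σ : Equiv.Perm X} {r : ℕ} (hr : r.Prime) (hσ : σ ^ r = 1) :
    ∀ W : Finset X, InvS σ W → W ⊆ σ.support → r ∣ W.card := by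
  intro W
  induction W using Finset.strongInduction with
  | H W ih =>
    intro hW hS
    rcases W.eq_empty_or_nonempty with rfl | ⟨x, hx⟩
    · simp
    obtain ⟨h1, h2, h3⟩ := remove_cycle hr hσ hW hS hx
    have hlt : W \ cycS σ r x ⊂ W := by
      refine Finset.ssubset_iff_subset_ne.2 ⟨Finset.sdiff_subset, fun h => ?_⟩
      rw [h] at h3
      have := hr.pos
      omega
    have h4 := ih _ hlt h1 h2
    rw [← h3]
    exact Nat.dvd_add h4 (dvd_refl r)

theorem exists_sub {σ : Equiv.Perm X} {r : ℕ} (hr : r.Prime) (hσ : σ ^ r = 1) {W₀ : Finset X} (hW : InvS σ W₀)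
    (hS : W₀ ⊆ σ.support) (u : ℕ) (hu : r * u ≤ W₀.card) :
    ∃ W₁ ⊆ W₀, InvS σ W₁ ∧ W₁.card = r * u := by
  induction u with
  | zero => exact ⟨∅, by simp, fun x hx => by simp at hx, by simp⟩
  | succ u ih =>
    have hr0 := hr.pos
    rw [Nat.mul_succ] at hu
    obtain ⟨W₁, h1, h2, h3⟩ := ih (by omega)
    have h4 : ∃ x ∈ W₀, x ∉ W₁ := by
      by_contra hcon
      push Not at hcon
      have h5 := Finset.card_le_card hcon
      omega
    obtain ⟨x, hx, hx1⟩ := h4
    have hxS : σ x ≠ x := Equiv.Perm.mem_support.1 (hS hx)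
    have hdisj : Disjoint W₁ (cycS σ r x) := by
      rw [Finset.disjoint_left]
      intro y hy1 hy2
      obtain ⟨i, _, rfl⟩ := mem_cycS.1 hy2
      exact hx1 (h2.back_pow hr.pos hσ i hy1)
    refine ⟨W₁ ∪ cycS σ r x, Finset.union_subset h1 (cycS_sub hW hx), h2.union (cycS_inv hr hσ x), ?_⟩
    rw [Finset.card_union_of_disjoint hdisj, h3, cycS_card hr hσ hxS, Nat.mul_succ]

theorem exists_cycle_label {σ : Equiv.Perm X} {r : ℕ} (hr : r.Prime) (hσ : σ ^ r = 1) {x : X} (hx : σ x ≠ x) :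
    ∃ h : X → ℕ, ∀ i, i < r → h ((σ ^ i) x) = i := by
  classical
  refine ⟨fun y => if hy : ∃ i, i < r ∧ (σ ^ i) x = y then hy.choose else 0, ?_⟩
  intro i hi
  have hy : ∃ j, j < r ∧ (σ ^ j) x = (σ ^ i) x := ⟨i, hi, rfl⟩
  simp only [dif_pos hy]
  exact cycS_inj hr hσ hx hy.choose_spec.1 hi hy.choose_spec.2

theorem exists_block {σ : Equiv.Perm X} {r : ℕ} (hr : r.Prime) (hσ : σ ^ r = 1) : ∀ (u : ℕ) (W : Finset X),
    InvS σ W → W ⊆ σ.support → W.card = r * u →
    ∃ h : X → ℕ, (∀ y ∈ W, h y < r) ∧ (∀ j, j < r → (W.filter (fun y => h y = j)).card = u) ∧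
      (∀ y ∈ W, h (σ y) = (h y + 1) % r) := by
  intro u
  induction u with
  | zero =>
    intro W _ _ hc
    have h0 : W = ∅ := by simpa using hc
    subst h0
    exact ⟨fun _ => 0, by simp, by simp, by simp⟩
  | succ u ih =>
    intro W hW hS hc
    have hr0 := hr.pos
    have hne : W.Nonempty := by
      rw [← Finset.card_pos, hc, Nat.mul_succ]
      omega
    obtain ⟨x, hx⟩ := hne
    obtain ⟨h1, h2, h3⟩ := remove_cycle hr hσ hW hS hx
    obtain ⟨h', hh1, hh2, hh3⟩ := ih _ h1 h2 (by rw [Nat.mul_succ] at hc; omega)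
    have hxS : σ x ≠ x := Equiv.Perm.mem_support.1 (hS hx)
    obtain ⟨l, hl⟩ := exists_cycle_label hr hσ hxS
    refine ⟨fun y => if y ∈ cycS σ r x then l y else h' y, ?_, ?_, ?_⟩
    · intro y hy
      by_cases hyc : y ∈ cycS σ r x
      · obtain ⟨i, hi, rfl⟩ := mem_cycS.1 hyc
        simp only [if_pos hyc]
        rw [hl i hi]
        exact hi
      · simp only [if_neg hyc]
        exact hh1 y (Finset.mem_sdiff.2 ⟨hy, hyc⟩)
    · intro j hj
      have hsplit : W.filter (fun y => (if y ∈ cycS σ r x then l y else h' y) = j) =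
          insert ((σ ^ j) x) ((W \ cycS σ r x).filter (fun y => h' y = j)) := by
        ext y
        simp only [Finset.mem_filter, Finset.mem_insert, Finset.mem_sdiff]
        constructor
        · rintro ⟨hyW, hyj⟩
          by_cases hyc : y ∈ cycS σ r x
          · left
            rw [if_pos hyc] at hyj
            obtain ⟨i, hi, rfl⟩ := mem_cycS.1 hyc
            rw [hl i hi] at hyj
            rw [hyj]
          · right
            rw [if_neg hyc] at hyj
            exact ⟨⟨hyW, hyc⟩, hyj⟩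
        · rintro (rfl | ⟨⟨hyW, hyc⟩, hyj⟩)
          · have hm : (σ ^ j) x ∈ cycS σ r x := mem_cycS.2 ⟨j, hj, rfl⟩
            exact ⟨cycS_sub hW hx hm, by rw [if_pos hm, hl j hj]⟩
          · exact ⟨hyW, by rw [if_neg hyc, hyj]⟩
      rw [hsplit, Finset.card_insert_of_notMem, hh2 j hj]
      intro hm
      have h4 := (Finset.mem_filter.1 hm).1
      exact (Finset.mem_sdiff.1 h4).2 (mem_cycS.2 ⟨j, hj, rfl⟩)
    · intro y hy
      by_cases hyc : y ∈ cycS σ r x
      · have hyc' := cycS_inv hr hσ x y hyc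
        simp only [if_pos hyc, if_pos hyc']
        obtain ⟨i, hi, rfl⟩ := mem_cycS.1 hyc
        rw [hl i hi]
        by_cases h : i + 1 < r
        · rw [← Equiv.Perm.mul_apply, ← pow_succ', hl (i + 1) h, Nat.mod_eq_of_lt h]
        · have h5 : i + 1 = r := by omega
          rw [← Equiv.Perm.mul_apply, ← pow_succ', h5, hσ, Nat.mod_self]
          exact hl 0 hr.pos
      · have hy' : y ∈ W \ cycS σ r x := Finset.mem_sdiff.2 ⟨hy, hyc⟩
        have hy2 := h1 y hy'
        have hyc' := (Finset.mem_sdiff.1 hy2).2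
        simp only [if_neg hyc, if_neg hyc']
        exact hh3 y hy'

/-- Partitions compatible with the permutation. -/
def PartS (σ : Equiv.Perm X) (a : ℕ) (Z : Finset X) (n : ℕ) (g : X → ℕ) : Prop :=
  (∀ x ∈ Z, g x < n) ∧ (∀ j, j < n → (Z.filter (fun x => g x = j)).card = a) ∧
    (∀ x ∈ Z, ∀ y ∈ Z, g x = g y → g (σ x) = g (σ y))

theorem partS_empty (σ : Equiv.Perm X) (a : ℕ) (g : X → ℕ) : PartS σ a ∅ 0 g :=
  ⟨by simp, by simp, by simp⟩

theorem PartS.combine {σ : Equiv.Perm X} {a : ℕ} {Z₁ Z₂ : Finset X} {n₁ n₂ : ℕ} {g₁ g₂ : X → ℕ} (hZ₁ : InvS σ Z₁)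
    (hZ₂ : InvS σ Z₂) (hd : Disjoint Z₁ Z₂) (h₁ : PartS σ a Z₁ n₁ g₁) (h₂ : PartS σ a Z₂ n₂ g₂) :
    PartS σ a (Z₁ ∪ Z₂) (n₁ + n₂) (fun x => if x ∈ Z₁ then g₁ x else n₁ + g₂ x) := by
  refine ⟨?_, ?_, ?_⟩
  · intro x hx
    by_cases hx1 : x ∈ Z₁
    · simp only [if_pos hx1]
      have := h₁.1 x hx1
      omega
    · simp only [if_neg hx1]
      have hx2 : x ∈ Z₂ := (Finset.mem_union.1 hx).resolve_left hx1
      have := h₂.1 x hx2
      omega
  · intro j hj
    by_cases hjn : j < n₁
    · have h3 : (Z₁ ∪ Z₂).filter (fun x => (if x ∈ Z₁ then g₁ x else n₁ + g₂ x) = j) =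
          Z₁.filter (fun x => g₁ x = j) := by
        ext x
        simp only [Finset.mem_filter, Finset.mem_union]
        constructor
        · rintro ⟨hx, hxj⟩
          by_cases hx1 : x ∈ Z₁
          · rw [if_pos hx1] at hxj
            exact ⟨hx1, hxj⟩
          · rw [if_neg hx1] at hxj
            omega
        · rintro ⟨hx1, hxj⟩
          exact ⟨Or.inl hx1, by rw [if_pos hx1]; exact hxj⟩
      rw [h3]
      exact h₁.2.1 j hjn
    · have h3 : (Z₁ ∪ Z₂).filter (fun x => (if x ∈ Z₁ then g₁ x else n₁ + g₂ x) = j) =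
          Z₂.filter (fun x => g₂ x = j - n₁) := by
        ext x
        simp only [Finset.mem_filter, Finset.mem_union]
        constructor
        · rintro ⟨hx, hxj⟩
          by_cases hx1 : x ∈ Z₁
          · rw [if_pos hx1] at hxj
            have := h₁.1 x hx1
            omega
          · rw [if_neg hx1] at hxj
            exact ⟨hx.resolve_left hx1, by omega⟩
        · rintro ⟨hx2, hxj⟩
          have hx1 : x ∉ Z₁ := fun h => Finset.disjoint_left.1 hd h hx2
          exact ⟨Or.inr hx2, by rw [if_neg hx1]; omega⟩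
      rw [h3]
      exact h₂.2.1 (j - n₁) (by omega)
  · intro x hx y hy hxy
    by_cases hx1 : x ∈ Z₁ <;> by_cases hy1 : y ∈ Z₁
    · have hxy' : g₁ x = g₁ y := by simpa only [if_pos hx1, if_pos hy1] using hxy
      simp only [if_pos (hZ₁ x hx1), if_pos (hZ₁ y hy1)]
      exact h₁.2.2 x hx1 y hy1 hxy'
    · have := h₁.1 x hx1
      simp only [if_pos hx1, if_neg hy1] at hxy
      omega
    · have := h₁.1 y hy1
      simp only [if_neg hx1, if_pos hy1] at hxy
      omega
    · have hx2 := (Finset.mem_union.1 hx).resolve_left hx1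
      have hy2 := (Finset.mem_union.1 hy).resolve_left hy1
      have hxy' : g₂ x = g₂ y := by
        simp only [if_neg hx1, if_neg hy1] at hxy
        omega
      have hσx : σ x ∉ Z₁ := fun h => Finset.disjoint_left.1 hd h (hZ₂ x hx2)
      have hσy : σ y ∉ Z₁ := fun h => Finset.disjoint_left.1 hd h (hZ₂ y hy2)
      simp only [if_neg hσx, if_neg hσy]
      rw [h₂.2.2 x hx2 y hy2 hxy']

theorem part1 {σ : Equiv.Perm X} {r : ℕ} (hr : r.Prime) (hσ : σ ^ r = 1) (a : ℕ) : ∀ (t : ℕ) (Z : Finset X),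
    InvS σ Z → Z ⊆ σ.support → Z.card = r * (a * t) → ∃ g, PartS σ a Z (r * t) g := by
  intro t
  induction t with
  | zero =>
    intro Z _ _ hc
    have h0 : Z = ∅ := by simpa using hc
    subst h0
    exact ⟨fun _ => 0, partS_empty σ a _⟩
  | succ t ih =>
    intro Z hZ hS hc
    have hexp : r * (a * (t + 1)) = r * (a * t) + r * a := by ring
    obtain ⟨W, hWZ, hW, hWc⟩ := exists_sub hr hσ hZ hS a (by rw [hc, hexp]; omega)
    have hZ' := hZ.sdiff hr.pos hσ hW
    have hc' : (Z \ W).card = r * (a * t) := by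
      have h5 := Finset.card_sdiff_add_card_eq_card hWZ
      rw [hc, hWc, hexp] at h5
      omega
    obtain ⟨g', hg'⟩ := ih _ hZ' (Finset.sdiff_subset.trans hS) hc'
    obtain ⟨h, hh1, hh2, hh3⟩ := exists_block hr hσ a W hW (hWZ.trans hS) hWc
    have hblock : PartS σ a W r h := ⟨hh1, hh2, fun x hx y hy hxy => by rw [hh3 x hx, hh3 y hy, hxy]⟩
    have h6 := PartS.combine hW hZ' Finset.disjoint_sdiff hblock hg'
    rw [Finset.union_sdiff_of_subset hWZ] at h6
    have e : r * (t + 1) = r + r * t := by ring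
    rw [e]
    exact ⟨_, h6⟩

theorem part2 {σ : Equiv.Perm X} {r : ℕ} (hr : r.Prime) (hσ : σ ^ r = 1) (a q : ℕ) (hq : q * r ≤ a) :
    ∀ (b' : ℕ) (Z : Finset X) (c' : ℕ), InvS σ Z → Z.card = a * b' → (Z ∩ σ.support).card = r * c' →
      c' ≤ b' * q → ∃ g, PartS σ a Z b' g := by
  intro b'
  induction b' with
  | zero =>
    intro Z c' _ hc _ _
    have h0 : Z = ∅ := by simpa using hc
    subst h0
    exact ⟨fun _ => 0, partS_empty σ a _⟩
  | succ b' ih =>
    intro Z c' hZ hc hcS hc'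
    have hZS : InvS σ (Z ∩ σ.support) := hZ.inter (invS_support σ)
    obtain ⟨u, hu1, hu2, hu3, hu4⟩ : ∃ u, u ≤ c' ∧ u ≤ q ∧ c' - u ≤ b' * q ∧ (u = c' ∨ u = q) := by
      refine ⟨min c' q, min_le_left _ _, min_le_right _ _, ?_, ?_⟩
      · rcases le_total c' q with h | h
        · rw [min_eq_left h]
          simp
        · rw [min_eq_right h]
          have : (b' + 1) * q = b' * q + q := by ring
          omega
      · rcases le_total c' q with h | h
        · left
          exact min_eq_left h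
        · right
          exact min_eq_right h
    obtain ⟨W₁, hW₁, hW₁i, hW₁c⟩ := exists_sub hr hσ hZS Finset.inter_subset_right u
      (by rw [hcS]; exact Nat.mul_le_mul_left _ hu1)
    have hru : r * u ≤ a := by
      have : r * u ≤ r * q := Nat.mul_le_mul_left _ hu2
      rw [mul_comm r q] at this
      omega
    have hcard : (Z ∩ σ.support).card + (Z \ σ.support).card = Z.card := Finset.card_inter_add_card_sdiff _ _
    have hfix : a - r * u ≤ (Z \ σ.support).card := by
      rw [hcS, hc] at hcard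
      have e1 : a * (b' + 1) = a * b' + a := by ring
      rcases hu4 with h | h
      · rw [h]
        omega
      · rw [h]
        have h1 : r * c' ≤ r * ((b' + 1) * q) := Nat.mul_le_mul_left _ hc'
        have h2 : r * ((b' + 1) * q) = (q * r) * b' + r * q := by ring
        have h3 : (q * r) * b' ≤ a * b' := Nat.mul_le_mul_right _ hq
        omega
    obtain ⟨W₂, hW₂, hW₂c⟩ := Finset.exists_subset_card_eq hfix
    have hW₂i : InvS σ W₂ := by
      intro x hx
      have hxS : x ∉ σ.support := (Finset.mem_sdiff.1 (hW₂ hx)).2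
      rw [Equiv.Perm.notMem_support] at hxS
      rw [hxS]
      exact hx
    have hd : Disjoint W₁ W₂ := by
      rw [Finset.disjoint_left]
      intro x hx1 hx2
      exact (Finset.mem_sdiff.1 (hW₂ hx2)).2 (Finset.mem_inter.1 (hW₁ hx1)).2
    have hWc : (W₁ ∪ W₂).card = a := by
      rw [Finset.card_union_of_disjoint hd, hW₁c, hW₂c]
      omega
    have hWZ : W₁ ∪ W₂ ⊆ Z :=
      Finset.union_subset (hW₁.trans Finset.inter_subset_left) (hW₂.trans Finset.sdiff_subset)
    have hWi : InvS σ (W₁ ∪ W₂) := hW₁i.union hW₂i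
    have hZ' : InvS σ (Z \ (W₁ ∪ W₂)) := hZ.sdiff hr.pos hσ hWi
    have hc1 : (Z \ (W₁ ∪ W₂)).card = a * b' := by
      have h5 := Finset.card_sdiff_add_card_eq_card hWZ
      rw [hWc, hc] at h5
      have : a * (b' + 1) = a * b' + a := by ring
      omega
    have hc2 : ((Z \ (W₁ ∪ W₂)) ∩ σ.support).card = r * (c' - u) := by
      have h7 : (Z \ (W₁ ∪ W₂)) ∩ σ.support = (Z ∩ σ.support) \ W₁ := by
        ext x
        simp only [Finset.mem_inter, Finset.mem_sdiff, Finset.mem_union]
        constructor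
        · rintro ⟨⟨h1, h2⟩, h3⟩
          exact ⟨⟨h1, h3⟩, fun h => h2 (Or.inl h)⟩
        · rintro ⟨⟨h1, h3⟩, h2⟩
          refine ⟨⟨h1, ?_⟩, h3⟩
          rintro (h | h)
          · exact h2 h
          · exact (Finset.mem_sdiff.1 (hW₂ h)).2 h3
      rw [h7]
      have h5 := Finset.card_sdiff_add_card_eq_card hW₁
      rw [hW₁c, hcS] at h5
      rw [Nat.mul_sub]
      omega
    obtain ⟨g', hg'⟩ := ih _ _ hZ' hc1 hc2 hu3
    have hpart : PartS σ a (W₁ ∪ W₂) 1 (fun _ => 0) := by
      refine ⟨fun _ _ => by simp, ?_, fun _ _ _ _ _ => rfl⟩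
      intro j hj
      have hj0 : j = 0 := by omega
      subst hj0
      simpa using hWc
    have h6 := PartS.combine hWi hZ' Finset.disjoint_sdiff hpart hg'
    rw [Finset.union_sdiff_of_subset hWZ] at h6
    rw [add_comm b' 1]
    exact ⟨_, h6⟩

theorem part_of_cov {σ : Equiv.Perm X} {r a b c q t b' : ℕ} (hr : r.Prime) (hσ : σ ^ r = 1)
    (hX : Fintype.card X = a * b) (hS : σ.support.card = r * c) (hq : q * r ≤ a)
    (hb : b = r * t + b') (h1 : t * a ≤ c) (h2 : c ≤ t * a + b' * q) : ∃ g, PartS σ a Finset.univ b g := by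
  obtain ⟨Y, hY, hYi, hYc⟩ := exists_sub hr hσ (invS_support σ) (Finset.Subset.refl _) (a * t)
    (by rw [hS]; apply Nat.mul_le_mul_left; rw [mul_comm]; exact h1)
  obtain ⟨g₁, hg₁⟩ := part1 hr hσ a t Y hYi hY hYc
  have hinvU : InvS σ (Finset.univ : Finset X) := fun _ _ => Finset.mem_univ _
  have hZ : InvS σ (Finset.univ \ Y) := hinvU.sdiff hr.pos hσ hYi
  have hc1 : (Finset.univ \ Y).card = a * b' := by
    have h5 := Finset.card_sdiff_add_card_eq_card (Finset.subset_univ Y)
    rw [Finset.card_univ, hX, hYc, hb] at h5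
    have h6 : a * (r * t + b') = r * (a * t) + a * b' := by ring
    omega
  have hc2 : ((Finset.univ \ Y) ∩ σ.support).card = r * (c - t * a) := by
    have h7 : (Finset.univ \ Y) ∩ σ.support = σ.support \ Y := by
      ext x
      simp only [Finset.mem_inter, Finset.mem_sdiff, Finset.mem_univ, true_and]
      tauto
    rw [h7]
    have h5 := Finset.card_sdiff_add_card_eq_card hY
    rw [hYc, hS] at h5
    rw [Nat.mul_sub, mul_comm t a]
    omega
  obtain ⟨g₂, hg₂⟩ := part2 hr hσ a q hq b' _ _ hZ hc1 hc2 (by omega)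
  have h6 := PartS.combine hYi hZ Finset.disjoint_sdiff hg₁ hg₂
  rw [Finset.union_sdiff_of_subset (Finset.subset_univ Y)] at h6
  rw [hb]
  exact ⟨_, h6⟩

theorem part_to_statement {σ : Equiv.Perm X} {a b : ℕ} (ha : 1 ≤ a) {g : X → ℕ} (h : PartS σ a Finset.univ b g) :
    ∃ f : X → Fin b, (∀ j : Fin b, Nat.card {x : X // f x = j} = a) ∧
      ∃ π : Equiv.Perm (Fin b), ∀ x, f (σ x) = π (f x) := by
  let f : X → Fin b := fun x => ⟨g x, h.1 x (Finset.mem_univ x)⟩
  have hfib : ∀ j : Fin b, Nat.card {x : X // f x = j} = a := by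
    intro j
    have h1 := h.2.1 j j.2
    rw [Nat.card_eq_fintype_card, Fintype.card_subtype, ← h1]
    congr 1
    ext x
    simp [f, Fin.ext_iff]
  have hsurj : Function.Surjective f := by
    intro j
    have h1 := hfib j
    have h2 : Nonempty {x : X // f x = j} := by
      apply (Nat.card_pos_iff.1 _).1
      omega
    obtain ⟨⟨x, hx⟩⟩ := h2
    exact ⟨x, hx⟩
  have hcompat : ∀ x y, f x = f y → f (σ x) = f (σ y) := by
    intro x y hxy
    apply Fin.ext
    exact h.2.2 x (Finset.mem_univ _) y (Finset.mem_univ _) (congrArg Fin.val hxy)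
  refine ⟨f, hfib, ?_⟩
  let π₀ : Fin b → Fin b := fun j => f (σ (Function.surjInv hsurj j))
  have hπ₀ : ∀ x, f (σ x) = π₀ (f x) := by
    intro x
    exact hcompat _ _ (Function.surjInv_eq hsurj (f x)).symm
  have hπsurj : Function.Surjective π₀ := by
    intro j
    obtain ⟨x, rfl⟩ := hsurj j
    refine ⟨f (σ⁻¹ x), ?_⟩
    rw [← hπ₀]
    simp
  have hbij : Function.Bijective π₀ := ⟨Finite.injective_iff_surjective.2 hπsurj, hπsurj⟩
  exact ⟨Equiv.ofBijective π₀ hbij, fun x => hπ₀ x⟩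

theorem cov_of_part {σ : Equiv.Perm X} {r a b c : ℕ} (hr : r.Prime) (hσ : σ ^ r = 1) (ha : 1 ≤ a)
    (hS : σ.support.card = r * c) (f : X → Fin b) (hf : ∀ j : Fin b, Nat.card {x : X // f x = j} = a)
    (π : Equiv.Perm (Fin b)) (hπ : ∀ x, f (σ x) = π (f x)) :
    ∃ t b', b = r * t + b' ∧ t * a ≤ c ∧ c ≤ t * a + b' * (a / r) := by
  have hfib : ∀ j, (Finset.univ.filter (fun x => f x = j)).card = a := by
    intro j
    have h1 := hf j
    rwa [Nat.card_eq_fintype_card, Fintype.card_subtype] at h1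
  have hsurj : Function.Surjective f := by
    intro j
    have h1 := hfib j
    have h2 : (Finset.univ.filter (fun x => f x = j)).Nonempty := by
      rw [← Finset.card_pos]
      omega
    obtain ⟨x, hx⟩ := h2
    exact ⟨x, (Finset.mem_filter.1 hx).2⟩
  have hpow : ∀ n x, f ((σ ^ n) x) = (π ^ n) (f x) := by
    intro n x
    induction n with
    | zero => rfl
    | succ n ih => rw [pow_succ', pow_succ', Equiv.Perm.mul_apply, Equiv.Perm.mul_apply, hπ, ih]
  have hπr : π ^ r = 1 := by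
    ext j
    obtain ⟨x, rfl⟩ := hsurj j
    rw [← hpow, hσ]
    rfl
  obtain ⟨t, ht⟩ : r ∣ π.support.card := dvd_card hr hπr _ (invS_support π) (Finset.Subset.refl _)
  have hTb : r * t ≤ b := by
    rw [← ht]
    simpa using Finset.card_le_univ π.support
  obtain ⟨b', hb'⟩ := Nat.exists_eq_add_of_le hTb
  refine ⟨t, b', hb', ?_⟩
  have hsum := Finset.card_eq_sum_card_fiberwise (f := f) (s := σ.support) (t := Finset.univ)
    (fun x _ => Finset.mem_coe.2 (Finset.mem_univ _))
  have hA1 : ∀ j ∈ π.support, (σ.support.filter (fun x => f x = j)).card = a := by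
    intro j hj
    rw [← hfib j]
    congr 1
    ext x
    simp only [Finset.mem_filter, Finset.mem_univ, true_and, and_iff_right_iff_imp]
    rintro rfl
    rw [Equiv.Perm.mem_support]
    intro hx
    have h3 := hπ x
    rw [hx] at h3
    exact (Equiv.Perm.mem_support.1 hj) h3.symm
  have hA2 : ∀ j ∈ Finset.univ \ π.support, (σ.support.filter (fun x => f x = j)).card ≤ r * (a / r) := by
    intro j hj
    have hjT : π j = j := by
      have h3 := (Finset.mem_sdiff.1 hj).2
      exact Equiv.Perm.notMem_support.1 h3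
    have hW : InvS σ (σ.support.filter (fun x => f x = j)) := by
      intro x hx
      rw [Finset.mem_filter] at hx ⊢
      exact ⟨Equiv.Perm.apply_mem_support.2 hx.1, by rw [hπ, hx.2, hjT]⟩
    obtain ⟨w, hw⟩ := dvd_card hr hσ _ hW (Finset.filter_subset _ _)
    have hle : (σ.support.filter (fun x => f x = j)).card ≤ a := by
      rw [← hfib j]
      apply Finset.card_le_card
      intro x hx
      rw [Finset.mem_filter] at hx ⊢
      exact ⟨Finset.mem_univ _, hx.2⟩
    rw [hw] at hle ⊢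
    apply Nat.mul_le_mul_left
    rw [Nat.le_div_iff_mul_le hr.pos, mul_comm]
    exact hle
  have hsplit := Finset.sum_sdiff (f := fun j => (σ.support.filter (fun x => f x = j)).card) (Finset.subset_univ π.support)
  have h1 : ∑ j ∈ π.support, (σ.support.filter (fun x => f x = j)).card = π.support.card * a :=
    Finset.sum_const_nat hA1
  have h2 := Finset.sum_le_card_nsmul _ _ _ hA2
  have hcomp : (Finset.univ \ π.support).card = b' := by
    have h5 := Finset.card_sdiff_add_card_eq_card (Finset.subset_univ π.support)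
    rw [Finset.card_univ, Fintype.card_fin, ht] at h5
    omega
  rw [hcomp, smul_eq_mul] at h2
  rw [h1, ht] at hsplit
  rw [hS] at hsum
  have h3 : r * c = ∑ j ∈ Finset.univ \ π.support, (σ.support.filter (fun x => f x = j)).card + r * t * a := by
    rw [hsum, hsplit]
  have hr0 := hr.pos
  constructor
  · apply Nat.le_of_mul_le_mul_left _ hr0
    have h4 : r * (t * a) = r * t * a := by ring
    rw [h4, h3]
    omega
  · apply Nat.le_of_mul_le_mul_left _ hr0
    have h4 : r * (t * a + b' * (a / r)) = r * t * a + b' * (r * (a / r)) := by ring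
    rw [h4, h3]
    omega

end H6Part

section H6Arith

theorem arith_core1 (q l s k r c : ℕ) (hr : 0 < r) (hH : l * k < r) (hG : s = 0 ∨ l ≤ k * q + 1)
    (hc : c * r ≤ (q * r + l) * (s * r + k)) (ha : 0 < q * r + l) :
    ∃ t, r * t ≤ s * r + k ∧ t * (q * r + l) ≤ c ∧ c ≤ q * (s * r + k) + t * l := by
  have hs : c ≤ q * (s * r + k) + s * l := by
    have e1 : (q * r + l) * (s * r + k) = q * (s * r + k) * r + s * l * r + l * k := by ring
    have e2 : (q * (s * r + k) + s * l + 1) * r = q * (s * r + k) * r + s * l * r + r := by ring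
    have h1 : c * r < (q * (s * r + k) + s * l + 1) * r := by
      rw [e2]
      rw [e1] at hc
      omega
    have h2 := Nat.lt_of_mul_lt_mul_right h1
    omega
  refine ⟨min s (c / (q * r + l)), ?_, ?_, ?_⟩
  · have h1 : min s (c / (q * r + l)) ≤ s := min_le_left _ _
    have h2 : r * min s (c / (q * r + l)) ≤ r * s := Nat.mul_le_mul_left _ h1
    rw [mul_comm r s] at h2
    omega
  · have h1 : min s (c / (q * r + l)) ≤ c / (q * r + l) := min_le_right _ _
    exact (Nat.mul_le_mul_right _ h1).trans (Nat.div_mul_le_self _ _)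
  · rcases le_total s (c / (q * r + l)) with h | h
    · rw [min_eq_left h]
      exact hs
    · rw [min_eq_right h]
      generalize ht : c / (q * r + l) = t at h
      have h1 : c < (q * r + l) * (t + 1) := by
        rw [← ht]
        exact Nat.lt_mul_div_succ c ha
      rcases Nat.lt_or_ge t s with hlt | hge
      · have hl : l ≤ k * q + 1 := hG.resolve_left (by omega)
        have h2 : q * r * (t + 1) ≤ q * r * s := Nat.mul_le_mul_left _ (by omega)
        have e1 : (q * r + l) * (t + 1) = q * r * (t + 1) + t * l + l := by ring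
        have e2 : q * (s * r + k) + t * l = q * r * s + k * q + t * l := by ring
        omega
      · have hts : t = s := by omega
        rw [hts]
        exact hs

theorem arith_core2 (q l s k r : ℕ) (hr : 0 < r) (hl : l < r) (hk : k < r) (ha : 2 ≤ q * r + l)
    (h1 : r ≤ (q * r + l) * (s * r + k))
    (hCov : ∀ c, 1 ≤ c → c * r ≤ (q * r + l) * (s * r + k) →
      ∃ t, r * t ≤ s * r + k ∧ t * (q * r + l) ≤ c ∧ c ≤ q * (s * r + k) + t * l) :
    1 ≤ q ∧ l * k < r ∧ (s = 0 ∨ l ≤ k * q + 1) := by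
  have hts : ∀ t, r * t ≤ s * r + k → t ≤ s := by
    intro t ht
    by_contra hcon
    have h2 : r * (s + 1) ≤ r * t := Nat.mul_le_mul_left _ (by omega)
    have h3 : r * (s + 1) = s * r + r := by ring
    omega
  refine ⟨?_, ?_, ?_⟩
  · obtain ⟨t, _, h2, h3⟩ := hCov 1 (le_refl _) (by simpa using h1)
    have ht0 : t = 0 := by
      by_contra hne
      have h4 : 1 * (q * r + l) ≤ t * (q * r + l) := Nat.mul_le_mul_right _ (by omega)
      omega
    subst ht0
    by_contra hq
    have hq0 : q = 0 := by omega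
    subst hq0
    simp at h3
  · by_contra hcon
    have hle : r ≤ l * k := by omega
    have e1 : (q * (s * r + k) + s * l + 1) * r = q * (s * r + k) * r + s * l * r + r := by ring
    have e2 : (q * r + l) * (s * r + k) = q * (s * r + k) * r + s * l * r + l * k := by ring
    obtain ⟨t, h2, h3, h4⟩ := hCov (q * (s * r + k) + s * l + 1) (by omega) (by rw [e1, e2]; omega)
    have h5 := hts t h2
    have h6 : t * l ≤ s * l := Nat.mul_le_mul_right _ h5
    omega
  · by_contra hcon
    push Not at hcon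
    obtain ⟨hs, hlk⟩ := hcon
    obtain ⟨s', rfl⟩ : ∃ s', s = s' + 1 := ⟨s - 1, by omega⟩
    have ha' : 2 ≤ (s' + 1) * (q * r + l) := by
      have h2 : 1 * (q * r + l) ≤ (s' + 1) * (q * r + l) := Nat.mul_le_mul_right _ (by omega)
      omega
    have hbound : ((s' + 1) * (q * r + l) - 1) * r ≤ (q * r + l) * ((s' + 1) * r + k) := by
      calc ((s' + 1) * (q * r + l) - 1) * r ≤ ((s' + 1) * (q * r + l)) * r := Nat.mul_le_mul_right _ (Nat.sub_le _ _)
        _ ≤ (q * r + l) * ((s' + 1) * r + k) := by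
          have e3 : (q * r + l) * ((s' + 1) * r + k) = ((s' + 1) * (q * r + l)) * r + (q * r + l) * k := by ring
          rw [e3]
          exact Nat.le_add_right _ _
    obtain ⟨t, h2, h3, h4⟩ := hCov ((s' + 1) * (q * r + l) - 1) (by omega) hbound
    have h5 := hts t h2
    have h6 : t ≤ s' := by
      by_contra hne
      have h7 : t = s' + 1 := by omega
      subst h7
      omega
    have h7 : t * l ≤ s' * l := Nat.mul_le_mul_right _ h6
    have e1 : (s' + 1) * (q * r + l) = (s' + 1) * r * q + s' * l + l := by ring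
    have e2 : q * ((s' + 1) * r + k) = (s' + 1) * r * q + k * q := by ring
    omega

theorem arith_forward (a b r : ℕ) (hr : r.Prime) (ha : 2 ≤ a) (hb : 2 ≤ b) (hrab : r ≤ a * b)
    (hCov : ∀ c, 1 ≤ c → c * r ≤ a * b → ∃ t b', b = r * t + b' ∧ t * a ≤ c ∧ c ≤ t * a + b' * (a / r)) :
    r ≤ a ∧ (a % r = 0 ∨ (b % r = 0 ∧ a % r = 1) ∨
        (a % r ≠ 0 ∧ b % r ≠ 0 ∧ (b % r) * (a % r) < r ∧ (b < r ∨ (b % r + r) * (a % r) ≤ (b % r) * a + r))) := by
  have hr0 := hr.pos
  obtain ⟨q, l, hq, hl, rfl⟩ : ∃ q l, a / r = q ∧ a % r = l ∧ a = q * r + l :=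
    ⟨_, _, rfl, rfl, (Nat.div_add_mod' a r).symm⟩
  obtain ⟨s, k, hs, hk, rfl⟩ : ∃ s k, b / r = s ∧ b % r = k ∧ b = s * r + k :=
    ⟨_, _, rfl, rfl, (Nat.div_add_mod' b r).symm⟩
  have hlr : l < r := hl ▸ Nat.mod_lt _ hr0
  have hkr : k < r := hk ▸ Nat.mod_lt _ hr0
  rw [hq] at hCov
  rw [hl, hk]
  obtain ⟨h1, h2, h3⟩ := arith_core2 q l s k r hr0 hlr hkr ha hrab (by
    intro c hc1 hc2
    obtain ⟨t, b', hb', h4, h5⟩ := hCov c hc1 hc2
    refine ⟨t, by rw [hb']; exact Nat.le_add_right _ _, h4, ?_⟩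
    rw [hb']
    have e : q * (r * t + b') + t * l = t * (q * r + l) + b' * q := by ring
    rw [e]
    exact h5)
  refine ⟨?_, ?_⟩
  · have h4 : 1 * r ≤ q * r := Nat.mul_le_mul_right _ h1
    omega
  · by_cases hl0 : l = 0
    · exact Or.inl hl0
    right
    by_cases hk0 : k = 0
    · left
      refine ⟨hk0, ?_⟩
      subst hk0
      rcases h3 with h3 | h3
      · subst h3
        simp at hb
      · simp at h3
        omega
    · right
      refine ⟨hl0, hk0, by rw [mul_comm]; exact h2, ?_⟩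
      rcases h3 with h3 | h3
      · left
        subst h3
        simpa using hkr
      · right
        have h4 : r * l ≤ r * (k * q + 1) := Nat.mul_le_mul_left _ h3
        have e1 : (k + r) * l = k * l + r * l := by ring
        have e2 : k * (q * r + l) + r = k * l + r * (k * q + 1) := by ring
        rw [e1, e2]
        omega

theorem arith_backward (a b r c : ℕ) (hr : r.Prime) (ha : 2 ≤ a) (hb : 2 ≤ b)
    (hR : r ≤ a ∧ (a % r = 0 ∨ (b % r = 0 ∧ a % r = 1) ∨
        (a % r ≠ 0 ∧ b % r ≠ 0 ∧ (b % r) * (a % r) < r ∧ (b < r ∨ (b % r + r) * (a % r) ≤ (b % r) * a + r))))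
    (hc : c * r ≤ a * b) : ∃ t b', b = r * t + b' ∧ t * a ≤ c ∧ c ≤ t * a + b' * (a / r) := by
  have hr0 := hr.pos
  obtain ⟨q, l, hq, hl, rfl⟩ : ∃ q l, a / r = q ∧ a % r = l ∧ a = q * r + l :=
    ⟨_, _, rfl, rfl, (Nat.div_add_mod' a r).symm⟩
  obtain ⟨s, k, hs, hk, rfl⟩ : ∃ s k, b / r = s ∧ b % r = k ∧ b = s * r + k :=
    ⟨_, _, rfl, rfl, (Nat.div_add_mod' b r).symm⟩
  have hlr : l < r := hl ▸ Nat.mod_lt _ hr0
  have hkr : k < r := hk ▸ Nat.mod_lt _ hr0
  rw [hl, hk] at hR
  rw [hq]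
  obtain ⟨hH, hG⟩ : l * k < r ∧ (s = 0 ∨ l ≤ k * q + 1) := by
    obtain ⟨_, h0 | ⟨h1, h2⟩ | ⟨_, _, h3, h4⟩⟩ := hR
    · subst h0
      simp [hr0]
    · subst h1
      subst h2
      simp [hr0]
    · refine ⟨by rw [mul_comm]; exact h3, ?_⟩
      rcases h4 with h4 | h4
      · left
        by_contra hs0
        have h5 : 1 * r ≤ s * r := Nat.mul_le_mul_right _ (by omega)
        omega
      · right
        have e1 : (k + r) * l = k * l + r * l := by ring
        have e2 : k * (q * r + l) + r = k * l + r * (k * q + 1) := by ring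
        rw [e1, e2] at h4
        exact Nat.le_of_mul_le_mul_left (by omega) hr0
  obtain ⟨t, h1, h2, h3⟩ := arith_core1 q l s k r c hr0 hH hG hc (by omega)
  obtain ⟨b', hb'⟩ := Nat.exists_eq_add_of_le h1
  refine ⟨t, b', hb', h2, ?_⟩
  rw [hb'] at h3
  have e : q * (r * t + b') + t * l = t * (q * r + l) + b' * q := by ring
  rw [e] at h3
  exact h3

end H6Arith

/-- Let a, b ≥ 2 and consider the symmetric group of degree a·b acting on the partitions of an (a·b)-set into b parts of size a (encoded as maps onto a b-element set all of whose fibres have a elements; a permutation fixes such a partition when it permutes the fibres). Let r be a prime dividing the number (ab)!/((a!)^b·b!) of such partitions, and let ℓ and k be the remainders of a and b modulo r. Then every permutation of order r fixes some such partition if and only if r ≤ a and one of the following holds: ℓ = 0; or k = 0 and ℓ = 1; or ℓ and k are non-zero, k·ℓ < r, and either b < r or (k + r)·ℓ ≤ k·a + r.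 -/
theorem result (a b : ℕ) (ha : 2 ≤ a) (hb : 2 ≤ b) (r : ℕ) (hr : r.Prime)
    (hrd : r ∣ (a * b).factorial / (a.factorial ^ b * b.factorial)) :
    (∀ σ : Equiv.Perm (Fin (a * b)), orderOf σ = r →
        ∃ f : Fin (a * b) → Fin b, (∀ j : Fin b, Nat.card {x : Fin (a * b) // f x = j} = a) ∧
          ∃ π : Equiv.Perm (Fin b), ∀ x : Fin (a * b), f (σ x) = π (f x)) ↔
      (r ≤ a ∧ (a % r = 0 ∨ (b % r = 0 ∧ a % r = 1) ∨
        (a % r ≠ 0 ∧ b % r ≠ 0 ∧ (b % r) * (a % r) < r ∧ (b < r ∨ (b % r + r) * (a % r) ≤ (b % r) * a + r)))) := by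
  have hrab : r ≤ a * b := by
    have hbell := Nat.uniformBell_mul_eq b (n := a) (by omega)
    have hdiv := Nat.uniformBell_eq_div b (n := a) (by omega)
    rw [mul_comm a b] at hrd ⊢
    rw [← hdiv] at hrd
    have h2 : r ∣ (b * a).factorial := by
      rw [← hbell, mul_assoc]
      exact Dvd.dvd.mul_right hrd _
    exact (Nat.Prime.dvd_factorial hr).1 h2
  constructor
  · intro hL
    apply arith_forward a b r hr ha hb hrab
    intro c hc1 hc2
    obtain ⟨σ, hσ⟩ := (Equiv.Perm.exists_with_cycleType_iff (Fin (a * b)) (m := Multiset.replicate c r)).2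
      ⟨by simpa using hc2, by
        intro x hx
        rw [Multiset.mem_replicate] at hx
        rw [hx.2]
        exact hr.two_le⟩
    have hord : orderOf σ = r := by
      have h1 := Equiv.Perm.lcm_cycleType σ
      have hdvd : orderOf σ ∣ r := by
        rw [← h1, Multiset.lcm_dvd]
        intro x hx
        rw [hσ, Multiset.mem_replicate] at hx
        rw [hx.2]
      have hne : σ ≠ 1 := by
        rintro rfl
        rw [Equiv.Perm.cycleType_one] at hσ
        have h2 := congrArg Multiset.card hσ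
        simp at h2
        omega
      rcases (Nat.dvd_prime hr).1 hdvd with h | h
      · exact absurd (orderOf_eq_one_iff.1 h) hne
      · exact h
    have hS : σ.support.card = r * c := by
      rw [← Equiv.Perm.sum_cycleType, hσ, Multiset.sum_replicate, smul_eq_mul, mul_comm]
    obtain ⟨f, hf, π, hπ⟩ := hL σ hord
    exact cov_of_part hr (hord ▸ pow_orderOf_eq_one σ) (by omega) hS f hf π hπ
  · intro hR σ hord
    have hσ : σ ^ r = 1 := hord ▸ pow_orderOf_eq_one σ
    obtain ⟨c, hc⟩ := dvd_card hr hσ σ.support (invS_support σ) (Finset.Subset.refl _)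
    have hcab : c * r ≤ a * b := by
      have h1 := Finset.card_le_univ σ.support
      rw [hc, Fintype.card_fin, mul_comm] at h1
      exact h1
    obtain ⟨t, b', hb', h1, h2⟩ := arith_backward a b r c hr ha hb hR hcab
    obtain ⟨g, hg⟩ := part_of_cov (q := a / r) hr hσ (by simp) hc (Nat.div_mul_le_self a r) hb' h1 h2
    exact part_to_statement (by omega) hg

end Cfsg.Agent.S3575
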