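import Cfsg.Statements.S3619
import Cfsg.Agent.Lib.H6Perm
-- import your own Cfsg.Agent.* helpers here

set_option autoImplicit false
open Cfsg

namespace Cfsg.Agent.S3619

/-- Let G act faithfully on a finite set in such a way that every non-trivial normal subgroup of G is transitive (G is quasiprimitive). Let Γ be a subset with more than one point and not the whole set, such that the pointwise stabilizer of the complement of Γ acts transitively on Γ (a Jordan set). If that pointwise stabilizer acts primitively on Γ, then G is k-fold transitive where k is one more than the number of points outside Γ (the Jordan set is a trivial one). -/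
theorem result {G Ω : Type*} [Group G] [Finite G] [MulAction G Ω] [FaithfulSMul G Ω] [Finite Ω]
    (hqp : ∀ N : Subgroup G, N.Normal → N ≠ ⊥ → MulAction.IsPretransitive ↥N Ω)
    (Γ : Set Ω) (hΓ1 : 1 < Γ.ncard) (hΓ2 : Γ.ncard < Nat.card Ω)
    (hJ : MulAction.IsPretransitive ↥(fixingSubgroup G Γᶜ) ↥(SubMulAction.ofFixingSubgroup G Γᶜ))
    (hJp : MulAction.IsPreprimitive ↥(fixingSubgroup G Γᶜ) ↥(SubMulAction.ofFixingSubgroup G Γᶜ)) :
    MulAction.IsMultiplyPretransitive G Ω (Nat.card Ω - Γ.ncard + 1) := by
  classical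
  obtain ⟨a, ha, b, hb, hab⟩ := (Set.one_lt_ncard (Set.toFinite Γ)).mp hΓ1
  have hG : MulAction.IsPreprimitive G Ω :=
    Cfsg.Agent.Lib.H6Perm.isPreprimitive_of_jordan hqp Γ a b ha hb hab hJp
  have hsum := Set.ncard_add_ncard_compl Γ
  obtain ⟨n, hn⟩ : ∃ n, (Γᶜ).ncard = n + 1 := ⟨(Γᶜ).ncard - 1, by omega⟩
  have hlt : n + 2 < Nat.card Ω := by omega
  have h := hG.isMultiplyPreprimitive hn hlt hJp
  have hk : Nat.card Ω - Γ.ncard + 1 = n + 2 := by omega
  rw [hk]
  exact h.isMultiplyPretransitive

end Cfsg.Agent.S3619
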