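import Mathlib
import Cfsg.Statements.S3639
import Cfsg.Agent.Lib.H6Ext
import Cfsg.Agent.Lib.H6SzFix
-- import your own Cfsg.Agent.* helpers here

set_option autoImplicit false
open Cfsg

namespace Cfsg.Agent.S3639

/-- Let S be the Suzuki group over the field with q = 2^(2m+1) ≥ 8 elements. Then there are finite groups of arbitrarily large order with the same prime graph as S. -/
theorem result {F : Type*} [Field F] [Fintype F] {m : ℕ} (hm : 1 ≤ m) (hF : Fintype.card F = 2 ^ (2 * m + 1)) (N : ℕ) :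
    ∃ (H : Type) (_ : Group H) (_ : Fintype H), N < Fintype.card H ∧ ((∀ r : ℕ, r.Prime → (r ∣ Nat.card ↥(Cfsg.Lie.Sz F (2 ^ (m + 1))) ↔ r ∣ Nat.card H)) ∧
      (∀ r s : ℕ, r.Prime → s.Prime → r ≠ s → ((∃ x : ↥(Cfsg.Lie.Sz F (2 ^ (m + 1))), orderOf x = r * s) ↔ (∃ y : H, orderOf y = r * s)))) := by
  haveI : CharP F 2 := Cfsg.Agent.Lib.Suzuki.charTwo hF
  have hs := Cfsg.Agent.Lib.Suzuki.sqProp hF
  have h4 := Cfsg.Agent.Lib.Suzuki.four_le hm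
  have hq := Cfsg.Agent.Lib.Suzuki.s_lt hm hF
  let ρ : Cfsg.Lie.Sz F (2 ^ (m + 1)) →* GL (Fin 4) F := (Cfsg.Lie.Sz F (2 ^ (m + 1))).subtype
  obtain ⟨H, iG, iF, ⟨e⟩⟩ := Cfsg.Agent.Lib.H6Ext.exists_small (Cfsg.Agent.Lib.H6Ext.K ρ N)
  letI := iG
  have hfix : ∀ (g : Cfsg.Lie.Sz F (2 ^ (m + 1))) (x : Fin 4 → F), x ≠ 0 →
      (ρ g : Matrix (Fin 4) (Fin 4) F).mulVec x = x → ∃ k : ℕ, g ^ (2 ^ k) = 1 :=
    fun g x hx h => ⟨2, Cfsg.Agent.Lib.H6SzFix.fix_pow_four hs h4 hq g x hx h⟩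
  have h2 : 2 ∣ Nat.card (Cfsg.Lie.Sz F (2 ^ (m + 1))) := by
    rw [← Nat.card_congr (Cfsg.Agent.Lib.Suzuki.szIso hs h4 hq).toEquiv,
      Cfsg.Agent.Lib.Suzuki.card_Sz hs h4 hq, hF]
    exact Dvd.dvd.mul_right (Dvd.dvd.mul_right
      (dvd_pow (dvd_pow_self 2 (by omega)) (by norm_num)) _) _
  refine ⟨H, iG, iF, ?_, ?_, ?_⟩
  · rw [← Nat.card_eq_fintype_card, Nat.card_congr e.toEquiv]
    exact Cfsg.Agent.Lib.H6Ext.lt_card_K ρ (by norm_num) N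
  · intro r hr
    rw [Nat.card_congr e.toEquiv, Cfsg.Agent.Lib.H6Ext.prime_dvd_K_iff ρ hr h2]
  · intro r s hr hs' hrs
    constructor
    · rintro ⟨g, hg⟩
      obtain ⟨x, hx⟩ := Cfsg.Agent.Lib.H6Ext.exists_order_K_of_ ρ (n := N) g hg
      refine ⟨e.symm x, ?_⟩
      rw [MulEquiv.orderOf_eq, hx]
    · rintro ⟨y, hy⟩
      rw [← MulEquiv.orderOf_eq e] at hy
      exact Cfsg.Agent.Lib.H6Ext.exists_order_of_K hfix r s hr hs' hrs _ hy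

end Cfsg.Agent.S3639
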