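import Mathlib
import Cfsg.Statements.S3660
import Cfsg.Agent.Lib.H6PG
-- import your own Cfsg.Agent.* helpers here

set_option autoImplicit false
open Cfsg

namespace Cfsg.Agent.S3660

/-- The prime graph of a finite group has the prime divisors of its order as vertices, two distinct primes p, q being joined when the group has an element of order pq; two groups have the same prime graph when they have the same prime divisors and the same joined pairs. Let F be a finite field of characteristic 2 with at least 4 elements. Then there are finite groups of arbitrarily large order with the same prime graph as PSL(2,F); in particular PSL(2,F) is not determined by its prime graph. -/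
theorem result {F : Type*} [Field F] [Fintype F] [CharP F 2] (hF : 4 ≤ Fintype.card F) (N : ℕ) :
    ∃ (H : Type) (_ : Group H) (_ : Finite H), N < Nat.card H ∧
      ((∀ p : ℕ, p.Prime → (p ∣ Nat.card (Matrix.ProjectiveSpecialLinearGroup (Fin 2) F) ↔ p ∣ Nat.card H)) ∧
      (∀ p q : ℕ, p.Prime → q.Prime → p ≠ q → ((∃ g : (Matrix.ProjectiveSpecialLinearGroup (Fin 2) F), orderOf g = p * q) ↔ (∃ g : H, orderOf g = p * q)))) := by
  obtain ⟨H, iG, iF, ⟨e⟩⟩ := Cfsg.Agent.Lib.H6PG.exists_small (Cfsg.Agent.Lib.H6PG.K F N)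
  letI := iG
  refine ⟨H, iG, iF, ?_, ?_, ?_⟩
  · rw [Nat.card_congr e.toEquiv]
    exact Cfsg.Agent.Lib.H6PG.lt_card_K N
  · intro p hp
    rw [Nat.card_congr e.toEquiv, Nat.card_congr Cfsg.Agent.Lib.H6PG.pslEquiv.toEquiv,
      Cfsg.Agent.Lib.H6PG.prime_dvd_K_iff hp]
  · intro p q hp hq hpq
    constructor
    · rintro ⟨g, hg⟩
      rw [← MulEquiv.orderOf_eq Cfsg.Agent.Lib.H6PG.pslEquiv] at hg
      obtain ⟨x, hx⟩ := Cfsg.Agent.Lib.H6PG.exists_order_K_of_SL (n := N) _ hg
      refine ⟨e.symm x, ?_⟩
      rw [MulEquiv.orderOf_eq, hx]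
    · rintro ⟨g, hg⟩
      rw [← MulEquiv.orderOf_eq e] at hg
      obtain ⟨x, hx⟩ := Cfsg.Agent.Lib.H6PG.exists_order_of_K p q hp hq hpq _ hg
      refine ⟨Cfsg.Agent.Lib.H6PG.pslEquiv.symm x, ?_⟩
      rw [MulEquiv.orderOf_eq, hx]

end Cfsg.Agent.S3660
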