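import Mathlib
import Cfsg.Statements.S3678
import Cfsg.Agent.Lib.H6PG
-- import your own Cfsg.Agent.* helpers here

set_option autoImplicit false
open Cfsg

namespace Cfsg.Agent.S3678

/-- The prime graph of a finite group has the prime divisors of its order as vertices, two distinct primes p, q being joined when the group has an element of order pq; two groups have the same prime graph when they have the same prime divisors and the same joined pairs. Let F be the field with 7 elements. There are finite groups of arbitrarily large order with the same prime graph as PSL(2,F) (the graph on {2, 3, 7} with no edges, which is also the prime graph of PSL(2,8)). -/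
theorem result {F : Type*} [Field F] [Fintype F] (hF : Fintype.card F = 7) (N : ℕ) :
    ∃ (H : Type) (_ : Group H) (_ : Finite H), N < Nat.card H ∧
      ((∀ p : ℕ, p.Prime → (p ∣ Nat.card (Matrix.ProjectiveSpecialLinearGroup (Fin 2) F) ↔ p ∣ Nat.card H)) ∧
      (∀ p q : ℕ, p.Prime → q.Prime → p ≠ q → ((∃ g : (Matrix.ProjectiveSpecialLinearGroup (Fin 2) F), orderOf g = p * q) ↔ (∃ g : H, orderOf g = p * q)))) := by
  haveI : Fact (Nat.Prime 2) := ⟨Nat.prime_two⟩
  let E := GaloisField 2 3
  letI : Fintype E := Fintype.ofFinite E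
  have hE : Fintype.card E = 8 := by
    rw [← Nat.card_eq_fintype_card, GaloisField.card 2 3 (by norm_num)]
    norm_num
  refine ⟨Cfsg.Agent.Lib.H6PG.K E N, inferInstance, inferInstance, ?_, ?_, ?_⟩
  · exact Cfsg.Agent.Lib.H6PG.lt_card_K N
  · intro p hp
    rw [Cfsg.Agent.Lib.H6PG.prime_dvd_K_iff hp, Cfsg.Agent.Lib.H6PG.f8_prime hE p hp,
      Cfsg.Agent.Lib.H6PG.f7_prime hF p hp]
  · intro p q hp hq hpq
    constructor
    · rintro ⟨g, hg⟩
      exact (Cfsg.Agent.Lib.H6PG.f7_no_pq hF p q hp hq hpq g hg).elim
    · rintro ⟨g, hg⟩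
      obtain ⟨x, hx⟩ := Cfsg.Agent.Lib.H6PG.exists_order_of_K p q hp hq hpq _ hg
      exact (Cfsg.Agent.Lib.H6PG.f8_no_pq hE p q hp hq hpq x hx).elim

end Cfsg.Agent.S3678
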