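import Mathlib
import Cfsg.Statements.S3680
import Cfsg.Agent.S0721
-- import your own Cfsg.Agent.* helpers here

set_option autoImplicit false
open Cfsg

namespace Cfsg.Agent.S3680

open Subgroup MulAction

/-- The minimal normal subgroups. -/
def MinN {G : Type*} [Group G] (V : Subgroup G) : Prop :=
  V.Normal ∧ V ≠ ⊥ ∧ ∀ M : Subgroup G, M.Normal → M ≤ V → M = ⊥ ∨ M = V

section
variable {G Ω : Type*} [Group G] [MulAction G Ω] [FaithfulSMul G Ω]

theorem transitive_of_normal [IsPreprimitive G Ω] (V : Subgroup G) [V.Normal] (h : V ≠ ⊥) :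
    IsPretransitive V Ω := by
  apply IsQuasiPreprimitive.isPretransitive_of_normal
  intro hfix
  apply h
  rw [eq_bot_iff]
  intro x hx
  refine Subgroup.mem_bot.2 (FaithfulSMul.eq_of_smul_eq_smul (α := Ω) fun a => ?_)
  have : a ∈ fixedPoints V Ω := by rw [hfix]; trivial
  rw [one_smul]
  exact this ⟨x, hx⟩

theorem centralizer_semireg (V : Subgroup G) (htr : IsPretransitive V Ω) {c : G}
    (hc : c ∈ centralizer (V : Set G)) {ω : Ω} (h : c • ω = ω) : c = 1 := by
  refine FaithfulSMul.eq_of_smul_eq_smul (α := Ω) fun a => ?_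
  obtain ⟨v, hv⟩ := exists_smul_eq V ω a
  rw [one_smul, ← hv]
  have hcv : (v : G) * c = c * v := mem_centralizer_iff.mp hc v v.2
  show c • ((v : G) • ω) = (v : G) • ω
  rw [← mul_smul, ← hcv, mul_smul, h]

theorem centralizer_le (V C : Subgroup G) (htr : IsPretransitive V Ω)
    (hC : ∀ c ∈ C, ∀ ω : Ω, c • ω = ω → c = 1) (hVC : V ≤ C) (ω : Ω) : C ≤ V := by
  intro c hc
  obtain ⟨v, hv⟩ := exists_smul_eq V ω (c • ω)
  have hv' : (v : G) • ω = c • ω := hv
  have h1 : ((v : G)⁻¹ * c) • ω = ω := by
    rw [mul_smul, ← hv', ← mul_smul, inv_mul_cancel, one_smul]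
  have h2 := hC _ (C.mul_mem (C.inv_mem (hVC v.2)) hc) ω h1
  have h3 : c = v := (inv_injective (mul_eq_one_iff_eq_inv.mp h2)).symm
  rw [h3]
  exact v.2

end

section
variable {G : Type*} [Group G]

theorem MinN.inf_bot {V W : Subgroup G} (hV : MinN V) (hW : MinN W) (hne : V ≠ W) : V ⊓ W = ⊥ := by
  haveI := hV.1
  haveI := hW.1
  rcases hV.2.2 (V ⊓ W) inferInstance inf_le_left with h | h
  · exact h
  · exfalso
    have hle : V ≤ W := by
      rw [← h]
      exact inf_le_right
    rcases hW.2.2 V hV.1 hle with h1 | h1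
    · exact hV.2.1 h1
    · exact hne h1

theorem MinN.le_centralizer {V W : Subgroup G} (hV : MinN V) (hW : MinN W) (hne : V ≠ W) :
    W ≤ centralizer (V : Set G) := by
  haveI := hV.1
  haveI := hW.1
  have h1 : ⁅W, V⁆ ≤ W ⊓ V := Subgroup.commutator_le_inf W V
  rw [inf_comm, MinN.inf_bot hV hW hne, le_bot_iff] at h1
  exact (Subgroup.commutator_eq_bot_iff_le_centralizer).mp h1

theorem exists_minN [Finite G] [Nontrivial G] : ∃ V : Subgroup G, MinN V := by
  have hne : ({V : Subgroup G | V.Normal ∧ V ≠ ⊥}).Nonempty := ⟨⊤, inferInstance, top_ne_bot⟩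
  obtain ⟨V, ⟨hV1, hV2⟩, hmin⟩ := Set.exists_min_image _ (fun V : Subgroup G => Nat.card V)
    (Set.toFinite _) hne
  refine ⟨V, hV1, hV2, ?_⟩
  intro M hM hMV
  by_cases h : M = ⊥
  · exact Or.inl h
  · right
    exact Subgroup.eq_of_le_of_card_ge hMV (hmin M ⟨hM, h⟩)

theorem elementary_of_abelian [Finite G] {V : Subgroup G} (hV : MinN V)
    (hab : ∀ a ∈ V, ∀ b ∈ V, a * b = b * a) : ∃ p : ℕ, p.Prime ∧ ∀ x ∈ V, x ^ p = 1 := by
  haveI := hV.1
  have hcard : Nat.card V ≠ 1 := by
    intro h
    exact hV.2.1 (Subgroup.card_eq_one.mp h)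
  obtain ⟨p, hp, hpd⟩ := Nat.exists_prime_and_dvd hcard
  refine ⟨p, hp, ?_⟩
  haveI := Fact.mk hp
  let E : Subgroup G :=
    { carrier := {x | x ∈ V ∧ x ^ p = 1}
      one_mem' := ⟨V.one_mem, one_pow _⟩
      inv_mem' := fun {x} hx => ⟨V.inv_mem hx.1, by rw [inv_pow, hx.2, inv_one]⟩
      mul_mem' := fun {a b} ha hb => ⟨V.mul_mem ha.1 hb.1, by
        have hc : Commute a b := hab a ha.1 b hb.1
        rw [hc.mul_pow, ha.2, hb.2, one_mul]⟩ }
  have hEn : E.Normal := by
    constructor
    intro x hx g
    refine ⟨hV.1.conj_mem x hx.1 g, ?_⟩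
    rw [conj_pow, hx.2, mul_one, mul_inv_cancel]
  obtain ⟨y, hy⟩ := exists_prime_orderOf_dvd_card' p hpd
  have hEne : E ≠ ⊥ := by
    intro h
    have h1 : (y : G) ∈ E := ⟨y.2, by
      have := pow_orderOf_eq_one y
      rw [hy] at this
      exact_mod_cast congrArg Subtype.val this⟩
    rw [h, Subgroup.mem_bot] at h1
    have h2 : y = 1 := Subtype.ext h1
    rw [h2, orderOf_one] at hy
    exact hp.one_lt.ne hy
  rcases hV.2.2 E hEn (fun x hx => hx.1) with h | h
  · exact (hEne h).elim
  · intro x hx
    rw [← h] at hx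
    exact hx.2

end

/-- Product of two powers. -/
def appendEquiv (T : Type*) [Group T] (m : ℕ) : (Fin m → T) × (Fin m → T) ≃* (Fin (m + m) → T) where
  toFun x := Fin.append x.1 x.2
  invFun f := (fun i => f (Fin.castAdd m i), fun i => f (Fin.natAdd m i))
  left_inv x := Prod.ext (funext fun i => Fin.append_left _ _ i) (funext fun i => Fin.append_right _ _ i)
  right_inv f := by
    funext i
    refine Fin.addCases (fun j => ?_) (fun j => ?_) i
    · exact Fin.append_left _ _ j
    · exact Fin.append_right _ _ j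
  map_mul' x y := by
    funext i
    refine Fin.addCases (fun j => ?_) (fun j => ?_) i
    · rw [Pi.mul_apply, Fin.append_left, Fin.append_left, Fin.append_left]
      rfl
    · rw [Pi.mul_apply, Fin.append_right, Fin.append_right, Fin.append_right]
      rfl


/-- The socle of a finite primitive permutation group. Let a finite group G act faithfully and primitively on a set Ω, and let N be the subgroup generated by the minimal normal subgroups of G. Then either N is an elementary abelian p-group for some prime p and acts regularly on Ω (transitively with trivial point stabilizers), or N is isomorphic to a direct product of m ≥ 1 copies of a non-abelian simple group. -/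
theorem result {G Ω : Type*} [Group G] [Finite G] [MulAction G Ω] [FaithfulSMul G Ω] [Finite Ω]
    (hprim : MulAction.IsPreprimitive G Ω) (N : Subgroup G)
    (hN : N = sSup {V : Subgroup G | V.Normal ∧ V ≠ ⊥ ∧ ∀ M : Subgroup G, M.Normal → M ≤ V → M = ⊥ ∨ M = V}) :
    (∃ p : ℕ, p.Prime ∧ IsMulCommutative N ∧ (∀ x : N, x ^ p = 1) ∧
      MulAction.IsPretransitive N Ω ∧ ∀ ω : Ω, MulAction.stabilizer N ω = ⊥) ∨
    (∃ (T : Type) (_ : Group T) (m : ℕ), 1 ≤ m ∧ IsSimpleGroup T ∧ ¬ IsMulCommutative T ∧ Nonempty (N ≃* (Fin m → T))) := by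
  classical
  haveI := hprim.toIsPretransitive
  by_cases hG : Nontrivial G
  swap
  · -- trivial group
    rw [not_nontrivial_iff_subsingleton] at hG
    left
    refine ⟨2, Nat.prime_two, ?_, ?_, ?_, ?_⟩
    · exact ⟨⟨fun a b => Subtype.ext (Subsingleton.elim _ _)⟩⟩
    · intro x
      exact Subtype.ext (Subsingleton.elim _ _)
    · constructor
      intro x y
      obtain ⟨g, hg⟩ := exists_smul_eq G x y
      rw [Subsingleton.elim g 1, one_smul] at hg
      exact ⟨1, by rw [one_smul]; exact hg⟩
    · intro ω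
      rw [eq_bot_iff]
      intro x _
      exact Subtype.ext (Subsingleton.elim _ _)
  obtain ⟨V, hV⟩ := exists_minN (G := G)
  haveI hVn := hV.1
  have hmem : ∀ X : Subgroup G, MinN X ↔ X ∈ {V : Subgroup G | V.Normal ∧ V ≠ ⊥ ∧
      ∀ M : Subgroup G, M.Normal → M ≤ V → M = ⊥ ∨ M = V} := fun X => Iff.rfl
  have hVtr : IsPretransitive V Ω := transitive_of_normal V hV.2.1
  have hω : Nonempty Ω := by
    by_contra hn
    rw [not_nonempty_iff] at hn
    apply hV.2.1
    rw [eq_bot_iff]
    intro x _
    exact Subgroup.mem_bot.2 (FaithfulSMul.eq_of_smul_eq_smul (α := Ω) fun a => hn.elim a)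
  obtain ⟨ω₀⟩ := hω
  obtain ⟨T, iT, m, hTs, hm, ⟨eV⟩⟩ := Cfsg.Agent.S0721.result V hV.2.1 hV.2.2
  letI := iT
  by_cases hab : ∀ a ∈ V, ∀ b ∈ V, a * b = b * a
  · -- the abelian case
    left
    have hVC : V ≤ centralizer (V : Set G) := by
      intro x hx
      rw [mem_centralizer_iff]
      intro y hy
      exact hab y hy x hx
    have hCV : centralizer (V : Set G) ≤ V :=
      centralizer_le V _ hVtr (fun c hc ω h => centralizer_semireg V hVtr hc h) hVC ω₀
    have hNV : N = V := by
      rw [hN]
      apply le_antisymm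
      · apply sSup_le
        intro W hW
        by_cases hne : V = W
        · rw [hne]
        · exact ((MinN.le_centralizer hV ((hmem W).mpr hW) hne).trans hCV)
      · exact le_sSup ((hmem V).mp hV)
    obtain ⟨p, hp, hpow⟩ := elementary_of_abelian hV hab
    subst hNV
    refine ⟨p, hp, ?_, ?_, hVtr, ?_⟩
    · exact ⟨⟨fun a b => Subtype.ext (hab a a.2 b b.2)⟩⟩
    · intro x
      exact Subtype.ext (hpow x x.2)
    · intro ω
      rw [eq_bot_iff]
      intro x hx
      have h1 : (x : G) • ω = ω := hx
      have h2 : (x : G) = 1 := centralizer_semireg N hVtr (hVC x.2) h1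
      exact Subgroup.mem_bot.2 (Subtype.ext h2)
  · -- the non-abelian case
    right
    have hTna : ¬ IsMulCommutative T := by
      intro hT
      apply hab
      intro a ha b hb
      have h1 : eV ⟨a, ha⟩ * eV ⟨b, hb⟩ = eV ⟨b, hb⟩ * eV ⟨a, ha⟩ := by
        funext i
        exact hT.is_comm.comm _ _
      rw [← map_mul, ← map_mul] at h1
      have h2 := eV.injective h1
      exact congrArg Subtype.val h2
    by_cases huniq : ∀ W : Subgroup G, MinN W → W = V
    · have hNV : N = V := by
        rw [hN]
        apply le_antisymm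
        · apply sSup_le
          intro W hW
          rw [huniq W ((hmem W).mpr hW)]
        · exact le_sSup ((hmem V).mp hV)
      subst hNV
      exact ⟨T, iT, m, hm, hTs, hTna, ⟨eV⟩⟩
    · push_neg at huniq
      obtain ⟨W, hW, hne⟩ := huniq
      haveI hWn := hW.1
      have hWtr : IsPretransitive W Ω := transitive_of_normal W hW.2.1
      have hWC : W ≤ centralizer (V : Set G) := MinN.le_centralizer hV hW hne.symm
      have hVC : V ≤ centralizer (W : Set G) := MinN.le_centralizer hW hV hne
      have hCW : centralizer (V : Set G) ≤ W :=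
        centralizer_le W _ hWtr (fun c hc ω h => centralizer_semireg V hVtr hc h) hWC ω₀
      have hNV : N = V ⊔ W := by
        rw [hN]
        apply le_antisymm
        · apply sSup_le
          intro X hX
          by_cases hXV : X = V
          · rw [hXV]
            exact le_sup_left
          · exact ((MinN.le_centralizer hV ((hmem X).mpr hX) (Ne.symm hXV)).trans hCW).trans le_sup_right
        · exact sup_le (le_sSup ((hmem V).mp hV)) (le_sSup ((hmem W).mp hW))
      subst hNV
      have hinf : V ⊓ W = ⊥ := MinN.inf_bot hV hW hne.symm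
      -- the isomorphism between `V` and `W`
      have hex : ∀ v : V, ∃ w : W, (w : G) • ω₀ = (v : G) • ω₀ := by
        intro v
        obtain ⟨w, hw⟩ := exists_smul_eq W ω₀ ((v : G) • ω₀)
        exact ⟨w, hw⟩
      choose φ hφ using hex
      have hWsemi : ∀ c ∈ W, ∀ ω : Ω, c • ω = ω → c = 1 := fun c hc ω h =>
        centralizer_semireg V hVtr (hWC hc) h
      have hVsemi : ∀ c ∈ V, ∀ ω : Ω, c • ω = ω → c = 1 := fun c hc ω h =>
        centralizer_semireg W hWtr (hVC hc) h
      have huW : ∀ a b : W, (a : G) • ω₀ = (b : G) • ω₀ → a = b := by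
        intro a b hab
        have h1 : ((b : G)⁻¹ * a) • ω₀ = ω₀ := by
          rw [mul_smul, hab, ← mul_smul, inv_mul_cancel, one_smul]
        have h2 := hWsemi _ (W.mul_mem (W.inv_mem b.2) a.2) ω₀ h1
        have h3 : (a : G) = b := (inv_injective (mul_eq_one_iff_eq_inv.mp h2)).symm
        exact Subtype.ext h3
      have huV : ∀ a b : V, (a : G) • ω₀ = (b : G) • ω₀ → a = b := by
        intro a b hab
        have h1 : ((b : G)⁻¹ * a) • ω₀ = ω₀ := by
          rw [mul_smul, hab, ← mul_smul, inv_mul_cancel, one_smul]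
        have h2 := hVsemi _ (V.mul_mem (V.inv_mem b.2) a.2) ω₀ h1
        have h3 : (a : G) = b := (inv_injective (mul_eq_one_iff_eq_inv.mp h2)).symm
        exact Subtype.ext h3
      have hcomm : ∀ (v : V) (w : W), (v : G) * w = w * v := by
        intro v w
        exact (mem_centralizer_iff.mp (hWC w.2)) v v.2
      have hanti : ∀ a b : V, φ (a * b) = φ b * φ a := by
        intro a b
        apply huW
        rw [hφ]
        show ((a : G) * b) • ω₀ = ((φ b : G) * φ a) • ω₀
        calc ((a : G) * b) • ω₀ = (a : G) • ((b : G) • ω₀) := mul_smul _ _ _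
          _ = (a : G) • ((φ b : G) • ω₀) := by rw [hφ b]
          _ = ((a : G) * φ b) • ω₀ := (mul_smul _ _ _).symm
          _ = ((φ b : G) * a) • ω₀ := by rw [hcomm]
          _ = (φ b : G) • ((a : G) • ω₀) := mul_smul _ _ _
          _ = (φ b : G) • ((φ a : G) • ω₀) := by rw [hφ a]
          _ = ((φ b : G) * φ a) • ω₀ := (mul_smul _ _ _).symm
      let ψ : V →* W :=
        { toFun := fun v => (φ v)⁻¹
          map_one' := by
            have h1 : φ 1 = 1 := by
              apply huW
              rw [hφ]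
              rfl
            rw [h1, inv_one]
          map_mul' := by
            intro a b
            rw [hanti, mul_inv_rev] }
      have hψinj : Function.Injective ψ := by
        intro a b hab
        have h1 : φ a = φ b := inv_injective hab
        apply huV
        rw [← hφ a, ← hφ b, h1]
      have hψsurj : Function.Surjective ψ := by
        intro w
        obtain ⟨v, hv⟩ := exists_smul_eq V ω₀ ((w⁻¹ : W) • ω₀)
        refine ⟨v, ?_⟩
        show (φ v)⁻¹ = w
        have h1 : φ v = w⁻¹ := by
          apply huW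
          rw [hφ]
          exact hv
        rw [h1, inv_inv]
      let eVW : V ≃* W := MulEquiv.ofBijective ψ ⟨hψinj, hψsurj⟩
      -- the product
      let f : V × W →* G := MonoidHom.noncommCoprod V.subtype W.subtype (fun a b => hcomm a b)
      have hfinj : Function.Injective f := by
        rw [injective_iff_map_eq_one]
        rintro ⟨a, b⟩ hab
        have h1 : (a : G) * b = 1 := hab
        have h2 : (a : G) = (b : G)⁻¹ := mul_eq_one_iff_eq_inv.mp h1
        have h3 : (a : G) ∈ V ⊓ W := ⟨a.2, by rw [h2]; exact W.inv_mem b.2⟩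
        rw [hinf, Subgroup.mem_bot] at h3
        have h4 : (b : G) = 1 := by
          rw [h3, one_mul] at h1
          exact h1
        exact Prod.ext (Subtype.ext h3) (Subtype.ext h4)
      have hfr : f.range = V ⊔ W := by
        apply le_antisymm
        · rintro _ ⟨⟨a, b⟩, rfl⟩
          exact Subgroup.mul_mem _ (Subgroup.mem_sup_left a.2) (Subgroup.mem_sup_right b.2)
        · apply sup_le
          · intro x hx
            exact ⟨(⟨x, hx⟩, 1), by show x * ((1 : W) : G) = x; simp⟩
          · intro x hx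
            exact ⟨(1, ⟨x, hx⟩), by show ((1 : V) : G) * x = x; simp⟩
      let e1 : V × W ≃* f.range := MonoidHom.ofInjective hfinj
      let e2 : f.range ≃* ↥(V ⊔ W) := MulEquiv.subgroupCongr hfr
      let e3 : V × W ≃* (Fin m → T) × (Fin m → T) := MulEquiv.prodCongr eV (eVW.symm.trans eV)
      refine ⟨T, iT, m + m, by omega, hTs, hTna, ⟨?_⟩⟩
      exact (e1.trans e2).symm.trans (e3.trans (appendEquiv T m))

end Cfsg.Agent.S3680
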