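import Cfsg.Statements.S3683
-- import your own Cfsg.Agent.* helpers here

set_option autoImplicit false
open Cfsg

namespace Cfsg.Agent.S3683

/-- Let a finite group G act faithfully and primitively on a set Ω, and suppose the stabilizer of a point a fixes a second point b ≠ a (a suborbit of length 1 other than {a}). Then the stabilizer of a is trivial and G is cyclic of prime order. -/
theorem result {G Ω : Type*} [Group G] [Finite G] [MulAction G Ω] [FaithfulSMul G Ω] [Finite Ω]
    (hprim : MulAction.IsPreprimitive G Ω) (a b : Ω) (hab : a ≠ b) (hfix : ∀ g : G, g • a = a → g • b = b) :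
    MulAction.stabilizer G a = ⊥ ∧ IsCyclic G ∧ (Nat.card G).Prime := by
  classical
  haveI : MulAction.IsPretransitive G Ω := hprim.toIsPretransitive
  haveI : Nontrivial Ω := ⟨⟨a, b, hab⟩⟩
  have hcoat : IsCoatom (MulAction.stabilizer G a) :=
    (MulAction.isCoatom_stabilizer_iff_preprimitive G a).mpr hprim
  obtain ⟨g, hg⟩ := MulAction.exists_smul_eq G a b
  have hb : MulAction.stabilizer G b = (MulAction.stabilizer G a).map (MulAut.conj g).toMonoidHom := by
    rw [← hg]
    exact MulAction.stabilizer_smul_eq_stabilizer_map_conj g a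
  have hle : MulAction.stabilizer G a ≤ MulAction.stabilizer G b := fun h hh => hfix h hh
  have hcard : Nat.card (MulAction.stabilizer G b) = Nat.card (MulAction.stabilizer G a) := by
    rw [hb]
    exact Subgroup.card_map_of_injective (MulAut.conj g).injective
  have heq : MulAction.stabilizer G a = MulAction.stabilizer G b :=
    Subgroup.eq_of_le_of_card_ge hle hcard.le
  have hgn : g ∈ Subgroup.normalizer ((MulAction.stabilizer G a : Subgroup G) : Set G) := by
    rw [Subgroup.mem_normalizer_iff_map_conj_eq]
    have := hb.symm.trans heq.symm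
    exact this
  have hgnot : g ∉ MulAction.stabilizer G a := fun h => hab (by
    have : g • a = a := h
    rw [← this, hg])
  have hnorm : Subgroup.normalizer ((MulAction.stabilizer G a : Subgroup G) : Set G) = ⊤ := by
    apply hcoat.2
    refine lt_of_le_of_ne Subgroup.le_normalizer ?_
    intro h
    exact hgnot (h ▸ hgn)
  have hN : (MulAction.stabilizer G a).Normal := Subgroup.normalizer_eq_top_iff.mp hnorm
  have hbot : MulAction.stabilizer G a = ⊥ := by
    rw [eq_bot_iff]
    intro h hh
    rw [Subgroup.mem_bot]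
    apply FaithfulSMul.eq_of_smul_eq_smul (α := Ω)
    intro ω
    obtain ⟨x, rfl⟩ := MulAction.exists_smul_eq G a ω
    have h1 : x⁻¹ * h * x⁻¹⁻¹ ∈ MulAction.stabilizer G a := hN.conj_mem _ hh _
    have h2 : (x⁻¹ * h * x⁻¹⁻¹) • a = a := h1
    have h3 : h • x • a = x • (x⁻¹ * h * x⁻¹⁻¹) • a := by
      rw [← mul_smul, ← mul_smul]
      congr 1
      group
    rw [h3, h2, one_smul]
  have hnt : Nontrivial G := ⟨⟨g, 1, by
    rintro rfl
    exact hab (by rw [← hg, one_smul])⟩⟩
  obtain ⟨p, hp, hpd⟩ := Nat.exists_prime_and_dvd (n := Nat.card G) (Finite.one_lt_card (α := G)).ne'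
  haveI : Fact p.Prime := ⟨hp⟩
  obtain ⟨x, hx⟩ := exists_prime_orderOf_dvd_card' p hpd
  have hcoat' : IsCoatom (⊥ : Subgroup G) := hbot ▸ hcoat
  have hzt : Subgroup.zpowers x = ⊤ := by
    apply hcoat'.2
    rw [bot_lt_iff_ne_bot]
    intro h
    rw [Subgroup.zpowers_eq_bot] at h
    rw [h, orderOf_one] at hx
    exact hp.one_lt.ne hx
  have hG : Nat.card G = p := by
    have h1 : Nat.card (Subgroup.zpowers x) = p := by rw [Nat.card_zpowers, hx]
    rw [hzt, Subgroup.card_top] at h1
    exact h1
  refine ⟨hbot, ?_, by rw [hG]; exact hp⟩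
  exact isCyclic_of_prime_card hG

end Cfsg.Agent.S3683
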