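import Cfsg.Statements.S3684
import Cfsg.Agent.S3683
import Cfsg.Agent.Lib.Dihedral
import Cfsg.Agent.Lib.H5Basic
import Cfsg.Agent.Lib.H6Basic
import Cfsg.Agent.Lib.Replacement
-- import your own Cfsg.Agent.* helpers here

set_option autoImplicit false
open Cfsg

namespace Cfsg.Agent.S3684

/-- Let a finite group G act faithfully and primitively on a set Ω, and suppose the stabilizer of a point a has an orbit of length 2. Then the stabilizer of a has order 2 and G is isomorphic to the dihedral group of order 2p for some prime p. -/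
theorem result {G Ω : Type*} [Group G] [Finite G] [MulAction G Ω] [FaithfulSMul G Ω] [Finite Ω]
    (hprim : MulAction.IsPreprimitive G Ω) (a b : Ω) (h2 : Nat.card (MulAction.orbit (MulAction.stabilizer G a) b) = 2) :
    Nat.card (MulAction.stabilizer G a) = 2 ∧ ∃ p : ℕ, p.Prime ∧ Nonempty (G ≃* DihedralGroup p) := by
  classical
  haveI : MulAction.IsPretransitive G Ω := hprim.toIsPretransitive
  set H := MulAction.stabilizer G a with hHdef
  have hab : a ≠ b := by
    rintro rfl
    have h1 : MulAction.orbit H a = {a} := by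
      ext u
      constructor
      · rintro ⟨h, rfl⟩
        exact h.2
      · intro hu
        rw [Set.mem_singleton_iff] at hu
        subst hu
        exact MulAction.mem_orbit_self _
    rw [h1] at h2
    simp at h2
  haveI : Nontrivial Ω := ⟨⟨a, b, hab⟩⟩
  have hcoat : IsCoatom H := (MulAction.isCoatom_stabilizer_iff_preprimitive G a).mpr hprim
  set B := MulAction.stabilizer G b with hBdef
  have hidx : (B.subgroupOf H).index = 2 := by
    have h3 : MulAction.stabilizer H b = B.subgroupOf H := by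
      ext x
      rfl
    rw [← h3, MulAction.index_stabilizer, ← Nat.card_coe_set_eq]
    exact h2
  obtain ⟨g, hg⟩ := MulAction.exists_smul_eq G a b
  have hBconj : B = H.map (MulAut.conj g).toMonoidHom := by
    rw [hBdef, ← hg]
    exact MulAction.stabilizer_smul_eq_stabilizer_map_conj g a
  have hcardB : Nat.card B = Nat.card H := by
    rw [hBconj]
    exact Subgroup.card_map_of_injective (MulAut.conj g).injective
  let K : Subgroup G := B ⊓ H
  have hKH : Nat.card K * 2 = Nat.card H := by
    have := Cfsg.Agent.Lib.H5Basic.card_inf_mul_relIndex B H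
    rw [show B.relIndex H = 2 from hidx] at this
    exact this
  have hHpos : 0 < Nat.card H := Nat.card_pos
  have hKpos : 0 < Nat.card K := Nat.card_pos
  have hKB : (K.subgroupOf B).index = 2 := by
    have h1 := (K.subgroupOf B).card_mul_index
    have h2' : Nat.card (K.subgroupOf B) = Nat.card K :=
      Nat.card_congr (Subgroup.subgroupOfEquivOfLe (inf_le_left : K ≤ B)).toEquiv
    rw [h2', hcardB, ← hKH] at h1
    exact Nat.eq_of_mul_eq_mul_left hKpos h1
  have hKH' : (K.subgroupOf H).index = 2 := by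
    have h1 := (K.subgroupOf H).card_mul_index
    have h2' : Nat.card (K.subgroupOf H) = Nat.card K :=
      Nat.card_congr (Subgroup.subgroupOfEquivOfLe (inf_le_right : K ≤ H)).toEquiv
    rw [h2', ← hKH] at h1
    exact Nat.eq_of_mul_eq_mul_left hKpos h1
  haveI hn1 : (K.subgroupOf B).Normal := Subgroup.normal_of_index_eq_two hKB
  haveI hn2 : (K.subgroupOf H).Normal := Subgroup.normal_of_index_eq_two hKH'
  have hBH : ¬ B ≤ H := by
    intro hle
    have h1 : B = H := Subgroup.eq_of_le_of_card_ge hle hcardB.ge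
    have h3 : K = H := by
      change B ⊓ H = H
      rw [h1, inf_idem]
    rw [h3] at hKH
    omega
  have hsup : H ⊔ B = ⊤ := hcoat.2 _ (lt_of_le_of_ne le_sup_left (fun h => hBH (by
    rw [h]
    exact le_sup_right)))
  have hKn : K.Normal := by
    rw [← Subgroup.normalizer_eq_top_iff, eq_top_iff, ← hsup]
    refine sup_le ?_ ?_
    · intro x hx
      rw [Subgroup.mem_normalizer_iff]
      intro y
      constructor
      · intro hy
        have h1 : (⟨y, hy.2⟩ : H) ∈ K.subgroupOf H := hy
        exact hn2.conj_mem _ h1 ⟨x, hx⟩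
      · intro hy
        have hyH : y ∈ H := by
          have h3 := hy.2
          have h4 : x⁻¹ * (x * y * x⁻¹) * x⁻¹⁻¹ ∈ H := H.mul_mem (H.mul_mem (H.inv_mem hx) h3) (H.inv_mem (H.inv_mem hx))
          have h5 : x⁻¹ * (x * y * x⁻¹) * x⁻¹⁻¹ = y := by group
          rwa [h5] at h4
        have h1 : (⟨x * y * x⁻¹, hy.2⟩ : H) ∈ K.subgroupOf H := hy
        have h3 := hn2.conj_mem _ h1 (⟨x, hx⟩ : H)⁻¹
        have h5 : ((⟨x, hx⟩ : H)⁻¹ * ⟨x * y * x⁻¹, hy.2⟩ * (⟨x, hx⟩ : H)⁻¹⁻¹ : H) = ⟨y, hyH⟩ := by
          apply Subtype.ext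
          simp only [Subgroup.coe_mul, Subgroup.coe_inv]
          group
        rw [h5] at h3
        exact h3
    · intro x hx
      rw [Subgroup.mem_normalizer_iff]
      intro y
      constructor
      · intro hy
        have h1 : (⟨y, hy.1⟩ : B) ∈ K.subgroupOf B := hy
        exact hn1.conj_mem _ h1 ⟨x, hx⟩
      · intro hy
        have hyB : y ∈ B := by
          have h3 := hy.1
          have h4 : x⁻¹ * (x * y * x⁻¹) * x⁻¹⁻¹ ∈ B := B.mul_mem (B.mul_mem (B.inv_mem hx) h3) (B.inv_mem (B.inv_mem hx))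
          have h5 : x⁻¹ * (x * y * x⁻¹) * x⁻¹⁻¹ = y := by group
          rwa [h5] at h4
        have h1 : (⟨x * y * x⁻¹, hy.1⟩ : B) ∈ K.subgroupOf B := hy
        have h3 := hn1.conj_mem _ h1 (⟨x, hx⟩ : B)⁻¹
        have h5 : ((⟨x, hx⟩ : B)⁻¹ * ⟨x * y * x⁻¹, hy.1⟩ * (⟨x, hx⟩ : B)⁻¹⁻¹ : B) = ⟨y, hyB⟩ := by
          apply Subtype.ext
          simp only [Subgroup.coe_mul, Subgroup.coe_inv]
          group
        rw [h5] at h3
        exact h3
  have hKbot : K = ⊥ := by
    rw [eq_bot_iff]
    intro h hh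
    rw [Subgroup.mem_bot]
    apply FaithfulSMul.eq_of_smul_eq_smul (α := Ω)
    intro ω
    obtain ⟨x, rfl⟩ := MulAction.exists_smul_eq G a ω
    have h1 : x⁻¹ * h * x⁻¹⁻¹ ∈ K := hKn.conj_mem _ hh _
    have h3 : (x⁻¹ * h * x⁻¹⁻¹) • a = a := h1.2
    have h4 : h • x • a = x • (x⁻¹ * h * x⁻¹⁻¹) • a := by
      rw [← mul_smul, ← mul_smul]
      congr 1
      group
    rw [h4, h3, one_smul]
  have hH2 : Nat.card H = 2 := by
    rw [← hKH, hKbot, Subgroup.card_bot]
  refine ⟨hH2, ?_⟩
  -- the involution
  obtain ⟨⟨t, htH⟩, ht1', htu⟩ := (Nat.card_eq_two_iff' (1 : H)).mp hH2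
  have ht1 : t ≠ 1 := fun h => ht1' (Subtype.ext h)
  have hHel : ∀ h ∈ H, h ≠ 1 → h = t := by
    intro h hh hne
    have := htu ⟨h, hh⟩ (fun h' => hne (congrArg Subtype.val h'))
    exact congrArg Subtype.val this
  have htsq : t ^ 2 = 1 := by
    have h1 : (⟨t, htH⟩ : H) ^ Nat.card H = 1 := pow_card_eq_one'
    rw [hH2] at h1
    exact congrArg Subtype.val h1
  have hta : t • a = a := htH
  -- `t` has a unique fixed point
  have hfix : ∀ c : Ω, t • c = c → c = a := by
    intro c hc
    by_contra hne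
    have hres := Cfsg.Agent.S3683.result hprim a c (Ne.symm hne) (by
      intro h hh
      by_cases h1 : h = 1
      · rw [h1, one_smul]
      · rw [hHel h hh h1, hc])
    have h3 := hres.1
    rw [← hHdef] at h3
    rw [h3, Subgroup.card_bot] at hH2
    omega
  -- class of `t`
  let C : G → Prop := fun y => IsConj t y
  have hCform : ∀ y, C y → ∃ x : G, x * t * x⁻¹ = y := fun y hy => isConj_iff.mp hy
  have hCsq : ∀ y, C y → y ^ 2 = 1 := by
    intro y hy
    obtain ⟨x, rfl⟩ := hCform y hy
    rw [conj_pow, htsq]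
    group
  have hCne : ∀ y, C y → y ≠ 1 := by
    intro y hy h1
    obtain ⟨x, hx⟩ := hCform y hy
    rw [h1] at hx
    apply ht1
    have : t = x⁻¹ * (x * t * x⁻¹) * x := by group
    rw [this, hx]
    group
  have hCinv : ∀ y, C y → y⁻¹ = y := by
    intro y hy
    have h1 := hCsq y hy
    rw [pow_two] at h1
    exact (eq_inv_of_mul_eq_one_left h1).symm
  have hCfix : ∀ y, C y → ∃ ω : Ω, y • ω = ω := by
    intro y hy
    obtain ⟨x, rfl⟩ := hCform y hy
    refine ⟨x • a, ?_⟩
    rw [← mul_smul]
    have : x * t * x⁻¹ * x = x * t := by group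
    rw [this, mul_smul, hta]
  -- conjugating a nonidentity element with a fixed point to `t`
  have hconjt : ∀ (y : G) (ω : Ω) (x : G), y ≠ 1 → y • ω = ω → x • a = ω → x⁻¹ * y * x = t := by
    intro y ω x hy hyω hx
    apply hHel
    · change (x⁻¹ * y * x) • a = a
      rw [mul_smul, mul_smul, hx, hyω, ← hx, inv_smul_smul]
    · intro h
      apply hy
      have : y = x * (x⁻¹ * y * x) * x⁻¹ := by group
      rw [this, h]
      group
  have hCshare : ∀ y y', C y → C y' → ∀ ω : Ω, y • ω = ω → y' • ω = ω → y = y' := by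
    intro y y' hy hy' ω h1 h3
    obtain ⟨x, hx⟩ := MulAction.exists_smul_eq G a ω
    have h4 := hconjt y ω x (hCne y hy) h1 hx
    have h5 := hconjt y' ω x (hCne y' hy') h3 hx
    have h6 : x⁻¹ * y * x = x⁻¹ * y' * x := by rw [h4, h5]
    exact mul_left_cancel (mul_right_cancel h6)
  have hCuniq : ∀ y, C y → ∀ c d : Ω, y • c = c → y • d = d → c = d := by
    intro y hy c d hc hd
    obtain ⟨x, rfl⟩ := hCform y hy
    have key : ∀ e : Ω, (x * t * x⁻¹) • e = e → x⁻¹ • e = a := by
      intro e he
      apply hfix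
      have h1 : t • x⁻¹ • e = x⁻¹ • (x * t * x⁻¹) • e := by
        rw [← mul_smul, ← mul_smul]
        congr 1
        group
      rw [h1, he]
    have h1 := (key c hc).trans (key d hd).symm
    exact smul_left_cancel _ h1
  -- products of two members of the class are outside the class
  have hP : ∀ s s', C s → C s' → ¬ C (s * s') := by
    intro s s' hs hs' hu
    obtain ⟨ω, hω⟩ := hCfix _ hu
    have hss : s * s = 1 := by rw [← pow_two]; exact hCsq s hs
    have hss' : s' * s' = 1 := by rw [← pow_two]; exact hCsq s' hs'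
    have h1 : s' • ω = s • ω := by
      calc s' • ω = (s * s) • s' • ω := by rw [hss, one_smul]
        _ = s • (s * s') • ω := by simp only [mul_smul]
        _ = s • ω := by rw [hω]
    by_cases h3 : s • ω = ω
    · have h4 : s = s' := hCshare s s' hs hs' ω h3 (h1.trans h3)
      apply hCne _ hu
      rw [← h4, hss]
    · apply h3
      apply hCuniq _ hu
      · calc (s * s') • s • ω = s • s' • s' • ω := by rw [← h1]; simp only [mul_smul]
          _ = s • ω := by rw [← mul_smul s' s', hss', one_smul]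
      · exact hω
  -- count
  have hcent : Subgroup.centralizer ({t} : Set G) = H := by
    ext c
    rw [Subgroup.mem_centralizer_singleton_iff]
    constructor
    · intro h
      have h1 : t • c • a = c • a := by
        rw [← mul_smul, ← h, mul_smul, hta]
      exact hfix _ h1
    · intro hc
      by_cases h1 : c = 1
      · rw [h1]; group
      · rw [hHel c hc h1]
  set n := H.index with hn
  have hGcard : Nat.card G = 2 * n := by
    rw [← H.card_mul_index, hH2]
  have hCcard : Nat.card {y // C y} = n := by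
    rw [hn, ← hcent]
    exact Cfsg.Agent.Lib.H6Basic.card_class_eq_index t
  have hAcard : Nat.card {y // ¬ C y} = n := by
    have h1 : Nat.card {y // C y} + Nat.card {y // ¬ C y} = Nat.card G := by
      rw [← Nat.card_sum]
      exact Nat.card_congr (Equiv.sumCompl C)
    omega
  have hQ : ∀ y, ¬ C y → C (t * y) := by
    let f : {y // C y} → {y // ¬ C y} := fun s => ⟨t * s.1, hP t s.1 (IsConj.refl t) s.2⟩
    have hf : Function.Injective f := by
      intro s s' h
      have h1 : t * s.1 = t * s'.1 := congrArg Subtype.val h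
      exact Subtype.ext (mul_left_cancel h1)
    have hbij := hf.bijective_of_nat_card_le (by rw [hCcard, hAcard])
    intro y hy
    obtain ⟨s, hs⟩ := hbij.2 ⟨y, hy⟩
    have h1 : t * s.1 = y := congrArg Subtype.val hs
    have htt : t * t = 1 := by rw [← pow_two]; exact htsq
    rw [← h1, ← mul_assoc, htt, one_mul]
    exact s.2
  have hAinv : ∀ y, ¬ C y → ¬ C y⁻¹ := by
    intro y hy h
    apply hy
    have h1 := hCinv _ h
    rw [inv_inv] at h1
    rw [h1]
    exact h
  have hAmul : ∀ y y', ¬ C y → ¬ C y' → ¬ C (y * y') := by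
    intro y y' hy hy'
    have htt : t * t = 1 := by rw [← pow_two]; exact htsq
    have h1 : C (t * y⁻¹) := hQ _ (hAinv y hy)
    have h3 : C (t * y⁻¹)⁻¹ := by
      rw [hCinv _ h1]
      exact h1
    have h4 : (t * y⁻¹)⁻¹ = y * t⁻¹ := by group
    have htinv : t⁻¹ = t := hCinv t (IsConj.refl t)
    rw [h4, htinv] at h3
    have h5 := hP _ _ h3 (hQ y' hy')
    have h6 : y * t * (t * y') = y * y' := by
      calc y * t * (t * y') = y * (t * t) * y' := by group
        _ = y * y' := by rw [htt, mul_one]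
    rwa [h6] at h5
  let A : Subgroup G :=
    { carrier := {y | ¬ C y}
      mul_mem' := fun {x y} hx hy => hAmul x y hx hy
      one_mem' := fun h => hCne 1 h rfl
      inv_mem' := fun {x} hx => hAinv x hx }
  have hAc : Nat.card A = n := hAcard
  have hinvert : ∀ y ∈ A, t * y * t⁻¹ = y⁻¹ := by
    intro y hy
    have h1 := hCsq _ (hQ y hy)
    have htinv : t⁻¹ = t := hCinv t (IsConj.refl t)
    rw [htinv]
    rw [pow_two] at h1
    apply eq_inv_of_mul_eq_one_left
    calc t * y * t * y = t * y * (t * y) := by group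
      _ = 1 := h1
  have hn2 : n ≠ 1 := by
    intro h1
    rw [hn, Subgroup.index_eq_one] at h1
    exact hcoat.1 h1
  obtain ⟨p, hp, hpd⟩ := Nat.exists_prime_and_dvd hn2
  haveI : Fact p.Prime := ⟨hp⟩
  obtain ⟨⟨r, hrA⟩, hr⟩ := exists_prime_orderOf_dvd_card' (G := A) p (by rw [hAc]; exact hpd)
  have hrord : orderOf r = p := by
    rw [← hr]
    exact (Subgroup.orderOf_mk _ _).symm
  have hr1 : r ≠ 1 := by
    rintro rfl
    rw [orderOf_one] at hrord
    exact hp.one_lt.ne hrord
  have hrH : r ∉ H := by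
    intro h
    have h1 := hHel r h hr1
    apply hrA
    rw [h1]
  let Z : Subgroup G := Subgroup.zpowers r
  have hZA : Z ≤ A := by
    rw [Subgroup.zpowers_le]
    exact hrA
  have hsup2 : H ⊔ Z = ⊤ := hcoat.2 _ (lt_of_le_of_ne le_sup_left (fun h => hrH (by
    rw [h]
    exact (le_sup_right : Z ≤ H ⊔ Z) (Subgroup.mem_zpowers r))))
  have hHZ : H ≤ Subgroup.normalizer (Z : Set G) := by
    intro h hh
    by_cases h1 : h = 1
    · rw [h1]
      exact Subgroup.one_mem _
    rw [hHel h hh h1]
    have htinv : t⁻¹ = t := hCinv t (IsConj.refl t)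
    have key : ∀ y ∈ Z, t * y * t⁻¹ ∈ Z := by
      intro y hy
      rw [hinvert y (hZA hy)]
      exact Z.inv_mem hy
    rw [Subgroup.mem_normalizer_iff]
    intro y
    refine ⟨key y, fun hy => ?_⟩
    have h3 := key _ hy
    have h4 : t * (t * y * t⁻¹) * t⁻¹ = y := by
      have htt : t * t = 1 := by rw [← pow_two]; exact htsq
      rw [htinv]
      calc t * (t * y * t) * t = (t * t) * y * (t * t) := by group
        _ = y := by rw [htt]; group
    rwa [h4] at h3
  have hle : Nat.card G ≤ Nat.card H * Nat.card Z := by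
    rw [← Nat.card_prod]
    refine Nat.card_le_card_of_surjective (fun q : H × Z => (q.1 : G) * (q.2 : G)) ?_
    intro y
    have hy : y ∈ H ⊔ Z := by rw [hsup2]; trivial
    obtain ⟨u, hu, v, hv, rfl⟩ := Cfsg.Agent.Lib.Replacement.mem_sup_of_le_normalizer hHZ hy
    exact ⟨(⟨u, hu⟩, ⟨v, hv⟩), rfl⟩
  have hZc : Nat.card Z = p := by
    rw [Nat.card_zpowers, hrord]
  rw [hGcard, hH2, hZc] at hle
  have hnp : n ≤ p := by omega
  have hnpos : 0 < n := Nat.pos_of_ne_zero Subgroup.index_ne_zero_of_finite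
  have hpn : p ≤ n := Nat.le_of_dvd hnpos hpd
  have hpeq : p = n := le_antisymm hpn hnp
  refine ⟨p, hp, ?_⟩
  haveI : NeZero p := ⟨hp.ne_zero⟩
  refine Cfsg.Agent.Lib.Dihedral.nonempty_mulEquiv_dihedral p r t hrord htsq (hinvert r hrA) ?_ (by rw [hGcard, hpeq])
  intro htZ
  exact hZA htZ (IsConj.refl t)

end Cfsg.Agent.S3684
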