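import Mathlib
import Cfsg.Statements.S3696
-- import your own Cfsg.Agent.* helpers here

set_option autoImplicit false
open Cfsg

namespace Cfsg.Agent.S3696

open Real in
/-- Weighted arithmetic-geometric mean inequality for natural numbers. -/
theorem amgm (x y s t : ℕ) (hs : 1 ≤ s) :
    x ^ s * y ^ t * (s + t) ^ (s + t) ≤ (x + y) ^ (s + t) * (s ^ s * t ^ t) := by
  rcases Nat.eq_zero_or_pos t with rfl | ht
  · simp only [pow_zero, mul_one, add_zero]
    calc x ^ s * s ^ s ≤ (x + y) ^ s * s ^ s :=
      Nat.mul_le_mul_right _ (Nat.pow_le_pow_left (Nat.le_add_right _ _) _)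
      _ = _ := by ring
  have hs0 : (0 : ℝ) < s := by exact_mod_cast hs
  have ht0 : (0 : ℝ) < t := by exact_mod_cast ht
  have hk0 : (0 : ℝ) < (s : ℝ) + t := by positivity
  have key := Real.geom_mean_le_arith_mean2_weighted (w₁ := s / (s + t)) (w₂ := t / (s + t))
    (p₁ := x / s) (p₂ := y / t) (by positivity) (by positivity) (by positivity) (by positivity)
    (by field_simp)
  -- raise to the power `s + t`
  have hk1 : ((s : ℝ) + t) ≠ 0 := hk0.ne'
  have h1 : ((x / s : ℝ) ^ ((s : ℝ) / (s + t)) * (y / t : ℝ) ^ ((t : ℝ) / (s + t))) ^ (s + t) =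
      (x / s : ℝ) ^ s * (y / t : ℝ) ^ t := by
    rw [mul_pow, ← Real.rpow_natCast ((x / s : ℝ) ^ _), ← Real.rpow_natCast ((y / t : ℝ) ^ _),
      ← Real.rpow_mul (by positivity), ← Real.rpow_mul (by positivity)]
    have e1 : (s : ℝ) / (s + t) * ((s + t : ℕ) : ℝ) = s := by push_cast; field_simp
    have e2 : (t : ℝ) / (s + t) * ((s + t : ℕ) : ℝ) = t := by push_cast; field_simp
    rw [e1, e2, Real.rpow_natCast, Real.rpow_natCast]
  have h2 : (s : ℝ) / (s + t) * (x / s) + (t : ℝ) / (s + t) * (y / t) = (x + y) / (s + t) := by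
    field_simp
  rw [h2] at key
  have h3 := pow_le_pow_left₀ (by positivity) key (s + t)
  rw [h1, div_pow, div_pow, div_pow] at h3
  have hs1 : (0 : ℝ) < (s : ℝ) ^ s := by positivity
  have ht1 : (0 : ℝ) < (t : ℝ) ^ t := by positivity
  have hk2 : (0 : ℝ) < ((s : ℝ) + t) ^ (s + t) := by positivity
  rw [div_mul_div_comm, div_le_div_iff₀ (by positivity) hk2] at h3
  have h4 : ((x : ℝ) ^ s * y ^ t * ((s : ℝ) + t) ^ (s + t)) ≤
      ((x : ℝ) + y) ^ (s + t) * ((s : ℝ) ^ s * (t : ℝ) ^ t) := h3
  exact_mod_cast h4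

/-- The arithmetic step of the induction. -/
theorem arith (x y s t K : ℕ) (hs : 1 ≤ s) (hx : 2 ^ s ≤ x)
    (hK : K * t ^ t ≤ y ^ t) : x * K * (s + t) ^ (s + t) ≤ (x + y) ^ (s + t) := by
  have h1 : s ^ s ≤ x ^ (s - 1) := by
    have h2 : s ≤ 2 ^ (s - 1) := by
      obtain ⟨u, rfl⟩ : ∃ u, s = u + 1 := ⟨s - 1, by omega⟩
      simp only [Nat.add_sub_cancel]
      have := Nat.lt_two_pow_self (n := u)
      omega
    calc s ^ s ≤ (2 ^ (s - 1)) ^ s := Nat.pow_le_pow_left h2 _
      _ = (2 ^ s) ^ (s - 1) := by rw [← pow_mul, ← pow_mul, mul_comm]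
      _ ≤ x ^ (s - 1) := Nat.pow_le_pow_left hx _
  have h3 : x * s ^ s ≤ x ^ s := by
    calc x * s ^ s ≤ x * x ^ (s - 1) := Nat.mul_le_mul_left _ h1
      _ = x ^ s := by
        rw [← pow_succ']; congr 1; omega
  have hpos : 0 < s ^ s * t ^ t := by
    apply Nat.mul_pos
    · exact Nat.pow_pos (by omega)
    · rcases Nat.eq_zero_or_pos t with rfl | ht
      · simp
      · exact Nat.pow_pos ht
  apply Nat.le_of_mul_le_mul_right _ hpos
  calc x * K * (s + t) ^ (s + t) * (s ^ s * t ^ t)
      = (x * s ^ s) * (K * t ^ t) * (s + t) ^ (s + t) := by ring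
    _ ≤ x ^ s * y ^ t * (s + t) ^ (s + t) := by gcongr
    _ ≤ _ := amgm x y s t hs

open Equiv in
/-- The bound, for groups of permutations with support in a given finite set. -/
theorem main {Ω : Type*} [Fintype Ω] [DecidableEq Ω] (p : ℕ) (hp : p.Prime) :
    ∀ (m : ℕ) (A : Subgroup (Perm Ω)) (U : Finset Ω) (k : ℕ), Nat.card A ≤ m → IsPGroup p A →
      IsMulCommutative A → (∀ g ∈ A, ∀ w, w ∉ U → g w = w) →
      Nat.card {x : A // x ^ p = 1} = p ^ k → Nat.card A * k ^ k ≤ U.card ^ k := by
  intro m
  induction m using Nat.strong_induction_on with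
  | _ m ih =>
  intro A U k hm hA hab hU hk
  classical
  rcases Nat.eq_zero_or_pos k with rfl | hk0
  · -- then `A` is trivial
    simp only [pow_zero, mul_one]
    haveI : Fact p.Prime := ⟨hp⟩
    rw [pow_zero] at hk
    have htriv : ∀ x : A, x = 1 := by
      by_contra hne
      push_neg at hne
      obtain ⟨x, hx⟩ := hne
      haveI : Finite A := inferInstance
      have hx1 : 1 < Nat.card A := by
        rw [Finite.one_lt_card_iff_nontrivial]
        exact ⟨⟨x, 1, hx⟩⟩
      haveI : Nontrivial A := Finite.one_lt_card_iff_nontrivial.1 hx1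
      obtain ⟨z, hz⟩ : ∃ z : A, orderOf z = p := by
        obtain ⟨n, hn⟩ := (IsPGroup.iff_card.1 hA)
        have hdvd : p ∣ Nat.card A := by
          rw [hn]
          refine dvd_pow_self _ ?_
          rintro rfl
          rw [pow_zero] at hn
          omega
        exact exists_prime_orderOf_dvd_card' p hdvd
      have hz2 : z ≠ 1 := by
        intro h; rw [h, orderOf_one] at hz; exact hp.one_lt.ne hz
      have hcard1 : Nat.card {x : A // x ^ p = 1} = 1 := hk
      have := Nat.card_eq_one_iff_unique.1 hcard1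
      exact hz2 (congrArg Subtype.val (this.1.elim ⟨z, by rw [← hz]; exact pow_orderOf_eq_one z⟩ ⟨1, one_pow _⟩))
    have : Nat.card A = 1 := Nat.card_eq_one_iff_unique.2 ⟨⟨fun a b => by rw [htriv a, htriv b]⟩, ⟨1⟩⟩
    omega
  -- otherwise there is an element of order `p` moving a point
  obtain ⟨x0, hx0p, hx0⟩ : ∃ x : A, x ^ p = 1 ∧ x ≠ 1 := by
    by_contra hall
    push_neg at hall
    have : Nat.card {x : A // x ^ p = 1} = 1 := by
      rw [Nat.card_eq_one_iff_unique]
      refine ⟨⟨fun a b => ?_⟩, ⟨⟨1, one_pow _⟩⟩⟩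
      apply Subtype.ext
      rw [hall _ a.2, hall _ b.2]
    rw [this] at hk
    have h2 : 1 < p ^ k := Nat.one_lt_pow hk0.ne' hp.one_lt
    omega
  obtain ⟨w0, hw0⟩ : ∃ w, (x0 : Perm Ω) w ≠ w := by
    by_contra hall
    push_neg at hall
    exact hx0 (Subtype.ext (Equiv.ext hall))
  -- the stabilizer of `w0` in `A`
  let K : Subgroup (Perm Ω) := A ⊓ MulAction.stabilizer (Perm Ω) w0
  let O : Finset Ω := (Finset.univ : Finset Ω).filter fun w => ∃ g ∈ A, g w0 = w
  have hOU : O ⊆ U := by
    intro w hw
    obtain ⟨g, hg, rfl⟩ := (Finset.mem_filter.1 hw).2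
    by_contra hcon
    have h1 : g (g w0) = g w0 := hU g hg _ hcon
    have h2 : g w0 = w0 := g.injective h1
    rw [h2] at hcon
    apply hcon
    by_contra hw0U
    exact hw0 (hU _ x0.2 _ hw0U)
  -- elements of `K` fix the orbit pointwise
  have hcommA : ∀ g ∈ A, ∀ h ∈ A, g * h = h * g := by
    intro g hg h hh
    have := hab.is_comm.comm (⟨g, hg⟩ : A) ⟨h, hh⟩
    exact congrArg Subtype.val this
  have hKO : ∀ g ∈ K, ∀ w ∈ O, g w = w := by
    intro g hg w hw
    obtain ⟨h, hh, rfl⟩ := (Finset.mem_filter.1 hw).2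
    have h1 : g (h w0) = h (g w0) := by
      have := congrArg (fun f : Perm Ω => f w0) (hcommA g hg.1 h hh)
      simpa using this
    rw [h1]
    have h2 : g w0 = w0 := hg.2
    rw [h2]
  have hKU : ∀ g ∈ K, ∀ w, w ∉ U \ O → g w = w := by
    intro g hg w hw
    by_cases hwU : w ∈ U
    · have : w ∈ O := by
        by_contra h
        exact hw (Finset.mem_sdiff.2 ⟨hwU, h⟩)
      exact hKO g hg w this
    · exact hU g hg.1 w hwU
  -- orbit counting: `|A| = |O| * |K|`
  let f : A → O := fun g => ⟨g.1 w0, Finset.mem_filter.2 ⟨Finset.mem_univ _, g.1, g.2, rfl⟩⟩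
  have hcardO : Nat.card A = O.card * Nat.card K := by
    have hfib : ∀ y : O, Nat.card {g : A // f g = y} = Nat.card K := by
      intro y
      obtain ⟨g0, hg0, hg0y⟩ := (Finset.mem_filter.1 y.2).2
      let ψ : K ≃ {g : A // f g = y} :=
        { toFun := fun h => ⟨⟨g0 * h.1, A.mul_mem hg0 h.2.1⟩, by
            apply Subtype.ext
            change (g0 * h.1) w0 = y
            have h2 : h.1 w0 = w0 := h.2.2
            simp [h2, hg0y]⟩
          invFun := fun g => ⟨g0⁻¹ * g.1.1, A.mul_mem (A.inv_mem hg0) g.1.2, by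
            have h1 : g.1.1 w0 = y := congrArg Subtype.val g.2
            change (g0⁻¹ * g.1.1) • w0 = w0
            rw [Perm.smul_def, Perm.mul_apply, h1, ← hg0y]
            simp⟩
          left_inv := fun h => by
            apply Subtype.ext
            simp
          right_inv := fun g => by
            apply Subtype.ext
            apply Subtype.ext
            simp }
      exact (Nat.card_congr ψ).symm
    have h1 : Nat.card A = Nat.card (Σ y : O, {g : A // f g = y}) :=
      Nat.card_congr (Equiv.sigmaFiberEquiv f).symm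
    rw [h1, Nat.card_sigma]
    simp_rw [hfib]
    simp
  -- the elements of exponent `p` in `K`
  have hKlt : Nat.card K < m := by
    have hO2 : 2 ≤ O.card := by
      have h1 : w0 ∈ O := Finset.mem_filter.2 ⟨Finset.mem_univ _, 1, A.one_mem, rfl⟩
      have h2 : (x0 : Perm Ω) w0 ∈ O := Finset.mem_filter.2 ⟨Finset.mem_univ _, x0.1, x0.2, rfl⟩
      calc 2 = ({(x0 : Perm Ω) w0, w0} : Finset Ω).card := (Finset.card_pair hw0).symm
        _ ≤ O.card := Finset.card_le_card (by
          intro y hy
          simp only [Finset.mem_insert, Finset.mem_singleton] at hy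
          rcases hy with rfl | rfl
          · exact h2
          · exact h1)
    have hKpos : 0 < Nat.card K := Nat.card_pos
    have : Nat.card K < Nat.card A := by
      rw [hcardO]; nlinarith
    omega
  have hKp : IsPGroup p K := hA.to_le (inf_le_left)
  have hKab : IsMulCommutative K := by
    constructor
    constructor
    intro a b
    apply Subtype.ext
    exact hcommA a.1 a.2.1 b.1 b.2.1
  -- Counting elements of exponent `p`
  let SA : Subgroup A :=
    { carrier := {x | x ^ p = 1}
      mul_mem' := by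
        intro a b ha hb
        have : a * b = b * a := hab.is_comm.comm a b
        change (a * b) ^ p = 1
        rw [(show Commute a b from this).mul_pow, ha, hb, one_mul]
      one_mem' := one_pow _
      inv_mem' := by
        intro a ha
        change a⁻¹ ^ p = 1
        rw [inv_pow, ha, inv_one] }
  let SK : Subgroup A := SA ⊓ (K.subgroupOf A)
  have hSAcard : Nat.card SA = p ^ k := hk
  obtain ⟨t, ht⟩ : ∃ t, Nat.card SK = p ^ t := by
    have hdvd : Nat.card SK ∣ Nat.card SA := Subgroup.card_dvd_of_le inf_le_left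
    rw [hSAcard] at hdvd
    obtain ⟨t, -, ht⟩ := (Nat.dvd_prime_pow hp).1 hdvd
    exact ⟨t, ht⟩
  have hSKK : Nat.card {x : K // x ^ p = 1} = p ^ t := by
    rw [← ht]
    apply Nat.card_congr
    exact
      { toFun := fun x => ⟨⟨x.1.1, x.1.2.1⟩, by
          constructor
          · apply Subtype.ext
            have := congrArg Subtype.val x.2
            simpa using this
          · exact x.1.2⟩
        invFun := fun x => ⟨⟨x.1.1, x.2.2⟩, by
            apply Subtype.ext
            have := congrArg Subtype.val x.2.1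
            simpa using this⟩
        left_inv := fun x => rfl
        right_inv := fun x => rfl }
  have hSK_lt : t < k := by
    by_contra hcon
    have hle : p ^ k ≤ p ^ t := Nat.pow_le_pow_right hp.pos (by omega)
    have heq : SK = SA := by
      apply Subgroup.eq_of_le_of_card_ge inf_le_left
      rw [ht, hSAcard]; exact hle
    have hx0SA : x0 ∈ SA := hx0p
    rw [← heq] at hx0SA
    have h2 : (x0 : Perm Ω) • w0 = w0 := (Subgroup.mem_subgroupOf.1 hx0SA.2).2
    exact hw0 h2
  -- the index of the elementary part in `K` is bounded by the orbit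
  have hidx : 2 ^ (k - t) ≤ O.card := by
    have h1 : p ^ k = p ^ t * p ^ (k - t) := by
      rw [← pow_add]; congr 1; omega
    -- cosets: the map from `SA` to the orbit has fibres of size at most `|SK|`
    let g : SA → O := fun a => f a.1
    have hfib : ∀ y : O, Nat.card {a : SA // g a = y} ≤ Nat.card SK := by
      intro y
      by_cases hy : ∃ a0 : SA, g a0 = y
      · obtain ⟨a0, ha0⟩ := hy
        let ψ : {a : SA // g a = y} → SK := fun a => ⟨a0.1⁻¹ * a.1.1, by
          refine Subgroup.mem_inf.2 ⟨SA.mul_mem (SA.inv_mem a0.2) a.1.2, ?_⟩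
          rw [Subgroup.mem_subgroupOf]
          refine ⟨(A.mul_mem (A.inv_mem a0.1.2) a.1.1.2), ?_⟩
          have h3 : a.1.1.1 w0 = y := congrArg Subtype.val a.2
          have h4 : a0.1.1 w0 = y := congrArg Subtype.val ha0
          change (a0.1.1⁻¹ * a.1.1.1) • w0 = w0
          rw [Perm.smul_def, Perm.mul_apply, h3, ← h4]
          simp⟩
        apply Nat.card_le_card_of_injective ψ
        intro a b hab'
        have h5 : a0.1⁻¹ * a.1.1 = a0.1⁻¹ * b.1.1 := congrArg Subtype.val hab'
        exact Subtype.ext (Subtype.ext (mul_left_cancel h5))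
      · have : IsEmpty {a : SA // g a = y} := ⟨fun a => hy ⟨a.1, a.2⟩⟩
        simp
    have h2 : Nat.card SA ≤ O.card * Nat.card SK := by
      have h3 : Nat.card SA = Nat.card (Σ y : O, {a : SA // g a = y}) :=
        Nat.card_congr (Equiv.sigmaFiberEquiv g).symm
      rw [h3, Nat.card_sigma]
      calc ∑ y : O, Nat.card {a : SA // g a = y} ≤ ∑ _y : O, Nat.card SK :=
            Finset.sum_le_sum fun y _ => hfib y
        _ = _ := by simp
    rw [hSAcard, ht, h1, mul_comm] at h2
    have hp3 : 0 < p ^ t := Nat.pow_pos hp.pos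
    have h6 : p ^ (k - t) ≤ O.card := Nat.le_of_mul_le_mul_right h2 hp3
    exact le_trans (Nat.pow_le_pow_left hp.two_le _) h6
  -- induction
  have hrec := ih (Nat.card K) hKlt K (U \ O) t le_rfl hKp hKab hKU hSKK
  have hUcard : (U \ O).card + O.card = U.card := Finset.card_sdiff_add_card_eq_card hOU
  obtain ⟨s, hs⟩ : ∃ s, k = t + s := ⟨k - t, by omega⟩
  have hs1 : 1 ≤ s := by omega
  have hfinal := arith O.card (U \ O).card s t (Nat.card K) hs1 (by
    have : k - t = s := by omega
    rwa [this] at hidx) hrec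
  rw [hcardO, hs, ← hUcard]
  rw [show t + s = s + t by ring, add_comm (U \ O).card O.card]
  exact hfinal


/-- Let p be a prime, Ω a finite set with n ≥ p elements, and A an abelian p-subgroup of the symmetric group on Ω whose elements of order dividing p number p^k (so k is the rank of A). Then |A| · k^k ≤ n^k, that is, |A| ≤ (n/k)^k. -/
theorem result {Ω : Type*} [Fintype Ω] [DecidableEq Ω]
    (p : ℕ) (hp : p.Prime) (hn : p ≤ Fintype.card Ω) (A : Subgroup (Equiv.Perm Ω)) (hA : IsPGroup p A) (hab : IsMulCommutative A)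
    (k : ℕ) (hk : Nat.card {x : A // x ^ p = 1} = p ^ k) :
    Nat.card A * k ^ k ≤ Fintype.card Ω ^ k := by
  exact main p hp _ A Finset.univ k le_rfl hA hab (fun g _ w hw => absurd (Finset.mem_univ w) hw) hk

end Cfsg.Agent.S3696
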