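import Mathlib
import Cfsg.Statements.S3703
import Cfsg.Agent.Lib.H6PExp2
-- import your own Cfsg.Agent.* helpers here

set_option autoImplicit false
open Cfsg

namespace Cfsg.Agent.S3703

open Cfsg.Agent.Lib.H6PLen Cfsg.Agent.Lib.H6PExp Cfsg.Agent.Lib.H6PExp2
open scoped Pointwise

/-- Choosing a prime. -/
theorem exists_t {Q : Type*} [Group Q] [Finite Q] (Fb : Subgroup Q) [hFb : Fb.Normal] (h : Q)
    (hfpf : ∀ a ∈ Fb, h * a * h⁻¹ = a → a = 1) (I : Subgroup Q) (hI : ¬ Fb ≤ I) :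
    ∃ t : ℕ, t.Prime ∧ ∃ Tb : Subgroup Q, Tb ≤ Fb ∧ IsPGroup t Tb ∧ (∀ a ∈ Tb, h * a * h⁻¹ ∈ Tb) ∧ ¬ Tb ≤ I := by
  classical
  by_contra hno
  push_neg at hno
  apply hI
  have hD : I ⊓ Fb = Fb := by
    apply eq_of_card_factors _ _ inf_le_right
    intro t ht
    haveI : Fact t.Prime := ⟨ht⟩
    let α : Fb ≃* Fb := MulAut.conjNormal h
    have hα : ∀ a, α a = a → a = 1 := by
      intro a ha
      apply Subtype.ext
      have h1 : h * (a : Q) * h⁻¹ = a := by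
        have := congrArg Subtype.val ha
        simpa [α, MulAut.conjNormal_apply] using this
      exact hfpf a a.2 h1
    obtain ⟨S, hS⟩ := exists_invariant_sylow_fpf α hα t
    let Tb : Subgroup Q := (S : Subgroup Fb).map Fb.subtype
    have hTbF : Tb ≤ Fb := by
      rintro _ ⟨a, _, rfl⟩
      exact a.2
    have hTbp : IsPGroup t Tb := S.isPGroup'.map _
    have hinv : ∀ a ∈ Tb, h * a * h⁻¹ ∈ Tb := by
      rintro _ ⟨a, ha, rfl⟩
      refine ⟨α a, hS a ha, ?_⟩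
      simp [α, MulAut.conjNormal_apply]
    have hle := hno t ht Tb hTbF hTbp hinv
    refine ⟨Tb, le_inf hle hTbF, ?_⟩
    have hc : Nat.card Tb = Nat.card (S : Subgroup Fb) :=
      (Nat.card_congr (Subgroup.equivMapOfInjective _ _ Subtype.val_injective).toEquiv).symm
    rw [hc]
    exact S.card_eq_multiplicity
  rw [← hD]
  exact inf_le_left

/-- Lifting to a `t`-subgroup normalized by a lift of `h`. -/
theorem exists_lift {G : Type*} [Group G] [Finite G] (N : Subgroup G) [hN : N.Normal] (t : ℕ) [ht : Fact t.Prime]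
    (Tb : Subgroup (G ⧸ N)) (hTb : IsPGroup t Tb) (g₀ : G)
    (hinv : ∀ a ∈ Tb, (QuotientGroup.mk g₀ : G ⧸ N) * a * (QuotientGroup.mk g₀ : G ⧸ N)⁻¹ ∈ Tb) :
    ∃ T : Subgroup G, IsPGroup t T ∧ T.map (QuotientGroup.mk' N) = Tb ∧
      ∃ g₁ : G, (QuotientGroup.mk g₁ : G ⧸ N) = QuotientGroup.mk g₀ ∧ ∀ a ∈ T, g₁ * a * g₁⁻¹ ∈ T := by
  classical
  let C₁ : Subgroup G := Tb.comap (QuotientGroup.mk' N)
  obtain ⟨T₁⟩ : Nonempty (Sylow t C₁) := inferInstance
  let T : Subgroup G := (T₁ : Subgroup C₁).map C₁.subtype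
  have hTp : IsPGroup t T := T₁.isPGroup'.map _
  -- surjection onto `Tb`
  let f : C₁ →* Tb := ((QuotientGroup.mk' N).comp C₁.subtype).codRestrict Tb (fun x => x.2)
  have hf : Function.Surjective f := by
    rintro ⟨y, hy⟩
    obtain ⟨x, rfl⟩ := QuotientGroup.mk_surjective y
    exact ⟨⟨x, hy⟩, Subtype.ext rfl⟩
  have hmap : T.map (QuotientGroup.mk' N) = Tb := by
    have h1 : (T₁.mapSurjective hf : Subgroup Tb) = ⊤ := by
      exact ((T₁.mapSurjective hf).is_maximal' (hTb.to_subgroup ⊤) le_top).symm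
    rw [Sylow.coe_mapSurjective] at h1
    apply le_antisymm
    · rintro _ ⟨_, ⟨x, _, rfl⟩, rfl⟩
      exact x.2
    · intro y hy
      have h2 : (⟨y, hy⟩ : Tb) ∈ (T₁ : Subgroup C₁).map f := by rw [h1]; trivial
      obtain ⟨x, hx, hxy⟩ := h2
      exact ⟨x, ⟨x, hx, rfl⟩, congrArg Subtype.val hxy⟩
  refine ⟨T, hTp, hmap, ?_⟩
  -- the Frattini argument
  have hg₀C : ∀ x ∈ C₁, g₀ * x * g₀⁻¹ ∈ C₁ := by
    intro x hx
    show QuotientGroup.mk' N (g₀ * x * g₀⁻¹) ∈ Tb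
    rw [map_mul, map_mul, map_inv]
    exact hinv _ hx
  let φ₀ : C₁ → C₁ := fun x => ⟨g₀ * x * g₀⁻¹, hg₀C x x.2⟩
  have hφ₀ : Function.Injective φ₀ := by
    intro a b hab
    apply Subtype.ext
    have h1 : g₀ * (a : G) * g₀⁻¹ = g₀ * (b : G) * g₀⁻¹ := congrArg Subtype.val hab
    exact mul_left_cancel (mul_right_cancel h1)
  let φ : C₁ →* C₁ :=
    { toFun := φ₀
      map_one' := Subtype.ext (by simp [φ₀])
      map_mul' := fun a b => Subtype.ext (by simp [φ₀, mul_assoc]) }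
  have hφ : Function.Surjective φ := Finite.injective_iff_surjective.1 hφ₀
  let S₂ : Sylow t C₁ := T₁.mapSurjective hφ
  obtain ⟨x, hx⟩ := MulAction.exists_smul_eq C₁ T₁ S₂
  -- `x = n τ`
  have hxmem : QuotientGroup.mk' N (x : G) ∈ Tb := x.2
  rw [← hmap] at hxmem
  obtain ⟨τ, hτ, hτx⟩ := hxmem
  have hn : (x : G) * τ⁻¹ ∈ N := by
    rw [← QuotientGroup.eq_one_iff]
    have h1 : (QuotientGroup.mk τ : G ⧸ N) = QuotientGroup.mk (x : G) := hτx
    rw [QuotientGroup.mk_mul, QuotientGroup.mk_inv, h1]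
    simp
  set n : G := (x : G) * τ⁻¹ with hnd
  refine ⟨n⁻¹ * g₀, ?_, ?_⟩
  · have h1 : (QuotientGroup.mk n : G ⧸ N) = 1 := (QuotientGroup.eq_one_iff n).2 hn
    rw [QuotientGroup.mk_mul, QuotientGroup.mk_inv, h1]
    simp
  · intro a ha
    obtain ⟨a₁, ha₁, rfl⟩ := ha
    have h2 : φ a₁ ∈ (S₂ : Subgroup C₁) := by
      rw [Sylow.coe_mapSurjective]
      exact ⟨a₁, ha₁, rfl⟩
    rw [← hx, Cfsg.Agent.Lib.H6Cover.mem_smul_sylow] at h2
    have h3 : ((x⁻¹ * φ a₁ * x : C₁) : G) ∈ T := ⟨_, h2, rfl⟩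
    have h4 : τ * ((x⁻¹ * φ a₁ * x : C₁) : G) * τ⁻¹ ∈ T := by
      exact T.mul_mem (T.mul_mem hτ h3) (T.inv_mem hτ)
    have h6 : ((x⁻¹ * φ a₁ * x : C₁) : G) = (x : G)⁻¹ * (g₀ * (a₁ : G) * g₀⁻¹) * x := rfl
    rw [h6] at h4
    have h5 : τ * ((x : G)⁻¹ * (g₀ * (a₁ : G) * g₀⁻¹) * x) * τ⁻¹ = n⁻¹ * g₀ * (C₁.subtype a₁) * (n⁻¹ * g₀)⁻¹ := by
      rw [hnd]
      show _ = ((x : G) * τ⁻¹)⁻¹ * g₀ * (a₁ : G) * (((x : G) * τ⁻¹)⁻¹ * g₀)⁻¹
      group
    rw [← h5]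
    exact h4

/-- Choosing a prime `p` and an invariant Sylow `p`-subgroup of `N`. -/
theorem exists_p {G : Type*} [Group G] [Finite G] (N T : Subgroup G) [hN : N.Normal] (t : ℕ) [ht : Fact t.Prime]
    (hT : IsPGroup t T) (htN : ¬ t ∣ Nat.card N) (hnc : ¬ ∀ a ∈ T, ∀ n ∈ N, a * n = n * a) :
    ∃ p : ℕ, p.Prime ∧ ∃ R : Subgroup G, R ≤ N ∧ IsPGroup p R ∧ Nat.card R = p ^ (Nat.card N).factorization p ∧
      (∀ a ∈ T, ∀ r ∈ R, a * r * a⁻¹ ∈ R) ∧ ¬ ∀ a ∈ T, ∀ r ∈ R, a * r = r * a := by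
  classical
  by_contra hno
  push_neg at hno
  apply hnc
  let D : Subgroup G := Subgroup.centralizer (T : Set G) ⊓ N
  have hD : D = N := by
    apply eq_of_card_factors _ _ inf_le_right
    intro p hp
    haveI : Fact p.Prime := ⟨hp⟩
    obtain ⟨R, -, hRN, hRp, hRc, hRinv⟩ := Cfsg.Agent.Lib.CoprimeSylow.exists_invariant_sylow_ge (r := p) T N ⊥ hT htN
      (fun a _ l hl => hN.conj_mem l hl a) bot_le IsPGroup.of_bot (fun a _ r hr => by
        rw [Subgroup.mem_bot] at hr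
        rw [hr]; simp)
    have h1 := hno p hp R hRN hRp hRc hRinv
    refine ⟨R, le_inf ?_ hRN, hRc⟩
    intro r hr
    rw [Subgroup.mem_centralizer_iff]
    intro a ha
    exact h1 a ha r hr
  intro a ha n hn
  have h1 : n ∈ D := by rw [hD]; exact hn
  exact Subgroup.mem_centralizer_iff.1 h1.1 a ha

/-- The conjugacy of the invariant Sylow subgroups. -/
theorem exists_fix_conj {G : Type*} [Group G] [Finite G] (N T R : Subgroup G) [hN : N.Normal] (t p : ℕ)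
    [ht : Fact t.Prime] [hp : Fact p.Prime] (hT : IsPGroup t T) (htN : ¬ t ∣ Nat.card N) (hRN : R ≤ N)
    (hRc : Nat.card R = p ^ (Nat.card N).factorization p) (hRinv : ∀ a ∈ T, ∀ r ∈ R, a * r * a⁻¹ ∈ R)
    (g₁ : G) (hg₁ : g₁ ∈ Subgroup.normalizer (T : Set G)) :
    ∃ c ∈ N, (∀ b ∈ T, b * c * b⁻¹ = c) ∧ ∀ r ∈ R, (c⁻¹ * g₁) * r * (c⁻¹ * g₁)⁻¹ ∈ R := by
  classical
  -- the conjugate
  let R₂ : Subgroup G := R.map (MulAut.conj g₁).toMonoidHom
  have hR₂N : R₂ ≤ N := by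
    rintro _ ⟨r, hr, rfl⟩
    exact hN.conj_mem r (hRN hr) g₁
  have hR₂c : Nat.card R₂ = Nat.card R :=
    (Nat.card_congr (Subgroup.equivMapOfInjective _ _ (MulAut.conj g₁).injective).toEquiv).symm
  have hcardOf : ∀ {W : Subgroup G}, W ≤ N → Nat.card (W.subgroupOf N) = Nat.card W := fun hW =>
    Nat.card_congr (Subgroup.subgroupOfEquivOfLe hW).toEquiv
  let S₁ : Sylow p N := Sylow.ofCard (R.subgroupOf N) (by rw [hcardOf hRN, hRc])
  let S₂ : Sylow p N := Sylow.ofCard (R₂.subgroupOf N) (by rw [hcardOf hR₂N, hR₂c, hRc])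
  obtain ⟨x₀, hx₀⟩ := MulAction.exists_smul_eq N S₁ S₂
  let X : Set G := {x | x ∈ N ∧ ∀ r ∈ R, x * r * x⁻¹ ∈ R₂}
  have hx₀X : (x₀ : G) ∈ X := by
    refine ⟨x₀.2, fun r hr => ?_⟩
    have h1 : (⟨r, hRN hr⟩ : N) ∈ (S₁ : Subgroup N) := by
      rw [Sylow.coe_ofCard, Subgroup.mem_subgroupOf]
      exact hr
    have h2 : x₀ * (⟨r, hRN hr⟩ : N) * x₀⁻¹ ∈ (S₂ : Subgroup N) := by
      rw [← hx₀, Cfsg.Agent.Lib.H6Cover.mem_smul_sylow]
      simpa [mul_assoc] using h1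
    rw [Sylow.coe_ofCard, Subgroup.mem_subgroupOf] at h2
    exact h2
  -- equality from the counting of elements
  have hXeq : ∀ x ∈ X, ∀ y ∈ R₂, x⁻¹ * y * x ∈ R := by
    intro x hx y hy
    have hinj : Function.Injective (fun r : R => (⟨x * r * x⁻¹, hx.2 r r.2⟩ : R₂)) := by
      intro a b hab
      apply Subtype.ext
      have h1 : x * (a : G) * x⁻¹ = x * (b : G) * x⁻¹ := congrArg Subtype.val hab
      exact mul_left_cancel (mul_right_cancel h1)
    have hbij : Function.Bijective (fun r : R => (⟨x * r * x⁻¹, hx.2 r r.2⟩ : R₂)) :=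
      (Nat.bijective_iff_injective_and_card _).2 ⟨hinj, hR₂c.symm⟩
    obtain ⟨r, hr⟩ := hbij.2 ⟨y, hy⟩
    have h1 : x * (r : G) * x⁻¹ = y := congrArg Subtype.val hr
    rw [← h1]
    have e : x⁻¹ * (x * (r : G) * x⁻¹) * x = r := by group
    rw [e]
    exact r.2
  -- the number of elements of `X`
  let Y : Subgroup G := Subgroup.normalizer (R : Set G) ⊓ N
  have hXc : Nat.card X = Nat.card Y := by
    refine Nat.card_congr ⟨fun x => ⟨(x₀ : G)⁻¹ * x, ?_, ?_⟩, fun y => ⟨(x₀ : G) * y, ?_, ?_⟩, ?_, ?_⟩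
    · apply norm_of_conj_le
      intro r hr
      have h1 := x.2.2 r hr
      have h2 := hXeq _ hx₀X _ h1
      have e : ((x₀ : G)⁻¹ * x) * r * ((x₀ : G)⁻¹ * x)⁻¹ = (x₀ : G)⁻¹ * ((x : G) * r * (x : G)⁻¹) * (x₀ : G) := by group
      rw [e]; exact h2
    · exact N.mul_mem (N.inv_mem x₀.2) x.2.1
    · exact N.mul_mem x₀.2 y.2.2
    · intro r hr
      have h1 := (Subgroup.mem_normalizer_iff.1 y.2.1 r).1 hr
      have h2 := hx₀X.2 _ h1
      have e : ((x₀ : G) * y) * r * ((x₀ : G) * y)⁻¹ = (x₀ : G) * ((y : G) * r * (y : G)⁻¹) * (x₀ : G)⁻¹ := by group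
      rw [e]; exact h2
    · intro x
      apply Subtype.ext
      simp
    · intro y
      apply Subtype.ext
      simp
  have hcX : ¬ t ∣ Nat.card X := by
    rw [hXc]
    intro hd
    exact htN (hd.trans (Subgroup.card_dvd_of_le inf_le_right))
  have hXinv : ∀ b ∈ T, ∀ s ∈ X, b * s * b⁻¹ ∈ X := by
    intro b hb s hs
    refine ⟨hN.conj_mem _ hs.1 b, fun r hr => ?_⟩
    -- `b` normalizes `R₂`
    have hb' : g₁⁻¹ * b * g₁ ∈ T := by
      have := (Subgroup.mem_normalizer_iff.1 (Subgroup.inv_mem _ hg₁) b).1 hb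
      simpa using this
    have h1 : b⁻¹ * r * b ∈ R := by
      have := hRinv _ (T.inv_mem hb) r hr
      simpa using this
    have h2 := hs.2 _ h1
    obtain ⟨r₂, hr₂, hr₂e⟩ := h2
    have hr₂e' : g₁ * r₂ * g₁⁻¹ = s * (b⁻¹ * r * b) * s⁻¹ := hr₂e
    have h3 := hRinv _ hb' r₂ hr₂
    refine ⟨_, h3, ?_⟩
    show g₁ * (g₁⁻¹ * b * g₁ * r₂ * (g₁⁻¹ * b * g₁)⁻¹) * g₁⁻¹ = _
    have e : g₁ * (g₁⁻¹ * b * g₁ * r₂ * (g₁⁻¹ * b * g₁)⁻¹) * g₁⁻¹ = b * (g₁ * r₂ * g₁⁻¹) * b⁻¹ := by group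
    rw [e, hr₂e']
    group
  obtain ⟨c, hcX', hcfix⟩ := Cfsg.Agent.Lib.CoprimeGen.exists_fixed_of_coprime hT X hXinv hcX
  refine ⟨c, hcX'.1, hcfix, fun r hr => ?_⟩
  have h1 : g₁ * r * g₁⁻¹ ∈ R₂ := ⟨r, hr, rfl⟩
  have h2 := hXeq _ hcX' _ h1
  have e : (c⁻¹ * g₁) * r * (c⁻¹ * g₁)⁻¹ = c⁻¹ * (g₁ * r * g₁⁻¹) * c := by group
  rw [e]; exact h2

/-- Let N be a normal subgroup of the finite group G such that G/N is a Frobenius group with kernel F and cyclic complement H, where the order of F is coprime to that of N and F is not contained in the image of C_G(N) in G/N. Then G has an element of order p·#H for some prime p dividing the order of N. (A standard tool in recognising groups by their element orders.) -/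
theorem result {G : Type*} [Group G] [Finite G] (N : Subgroup G) [N.Normal]
    (Fb Hb : Subgroup (G ⧸ N)) [Fb.Normal] (hHb : Cfsg.IsFrobeniusComplement Hb) (hker : Cfsg.frobeniusKernel Hb = (Fb : Set (G ⧸ N)))
    (hcyc : IsCyclic Hb) (hcop : (Nat.card Fb).Coprime (Nat.card N))
    (hnot : ¬ Fb ≤ (Subgroup.centralizer (N : Set G)).map (QuotientGroup.mk' N)) :
    ∃ p : ℕ, p.Prime ∧ p ∣ Nat.card N ∧ ∃ g : G, orderOf g = p * Nat.card Hb := by
  classical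
  obtain ⟨h₀, hgen⟩ := hcyc.exists_generator
  set h : G ⧸ N := (h₀ : G ⧸ N) with hh
  set k := Nat.card Hb with hk
  have hord₀ : orderOf h₀ = k := orderOf_eq_card_of_forall_mem_zpowers hgen
  have hord : orderOf h = k := by rw [hh, Subgroup.orderOf_coe, hord₀]
  have hk1 : 1 < k := (Subgroup.one_lt_card_iff_ne_bot Hb).2 hHb.1
  have hfpf : ∀ i, 0 < i → i < k → ∀ a ∈ Fb, h ^ i * a * (h ^ i)⁻¹ = a → a = 1 := by
    intro i hi hik a ha hfix
    by_contra ha1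
    have hker' : a ∈ Cfsg.frobeniusKernel Hb := by rw [hker]; exact ha
    rcases hker' with h1 | h1
    · exact ha1 h1
    · have hnot1 : a ∉ Hb := by
        intro hc
        apply h1 1
        rw [map_one, one_smul]
        exact hc
      have h2 := hHb.2.2 a hnot1
      have hne : h ^ i ≠ 1 := pow_ne_one_of_lt_orderOf hi.ne' (hord ▸ hik)
      apply hne
      have h3 : h ^ i ∈ Hb ⊓ (MulAut.conj a • Hb) := by
        refine Subgroup.mem_inf.2 ⟨Subgroup.pow_mem _ h₀.2 _, ?_⟩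
        rw [Subgroup.mem_pointwise_smul_iff_inv_smul_mem]
        have h4 : (MulAut.conj a)⁻¹ • (h ^ i) = h ^ i := by
          rw [MulAut.smul_def, MulAut.inv_def, MulAut.conj_symm_apply]
          have h5 : h ^ i * a = a * h ^ i := mul_inv_eq_iff_eq_mul.1 hfix
          rw [mul_assoc, h5]
          group
        rw [h4]
        exact Subgroup.pow_mem _ h₀.2 _
      rw [h2, Subgroup.mem_bot] at h3
      exact h3
  have hfpf1 : ∀ a ∈ Fb, h * a * h⁻¹ = a → a = 1 := by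
    intro a ha hfix
    exact hfpf 1 Nat.one_pos hk1 a ha (by simpa using hfix)
  let I : Subgroup (G ⧸ N) := (Subgroup.centralizer (N : Set G)).map (QuotientGroup.mk' N)
  obtain ⟨t, ht, Tb, hTbF, hTbp, hTbinv, hTbI⟩ := exists_t Fb h hfpf1 I hnot
  haveI : Fact t.Prime := ⟨ht⟩
  obtain ⟨g₀, hg₀⟩ := QuotientGroup.mk_surjective h
  have htN : ¬ t ∣ Nat.card N := by
    intro hd
    have hTbne : Tb ≠ ⊥ := by
      rintro rfl
      exact hTbI bot_le
    obtain ⟨n, hn⟩ := IsPGroup.iff_card.1 hTbp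
    have hn0 : n ≠ 0 := by
      rintro rfl
      rw [pow_zero] at hn
      exact hTbne (Subgroup.card_eq_one.1 hn)
    have h1 : t ∣ Nat.card Tb := by
      rw [hn]; exact dvd_pow_self _ hn0
    have h2 : t ∣ Nat.card Fb := h1.trans (Subgroup.card_dvd_of_le hTbF)
    exact Nat.not_coprime_of_dvd_of_dvd ht.one_lt h2 hd hcop
  obtain ⟨T, hTp, hTmap, g₁, hg₁, hg₁T⟩ := exists_lift N t Tb hTbp g₀ (by rw [hg₀]; exact hTbinv)
  have hTN : ∀ a ∈ T, a ∈ N → a = 1 := by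
    intro a ha haN
    obtain ⟨j, hj⟩ := hTp ⟨a, ha⟩
    have h1 : a ^ (t ^ j) = 1 := by simpa using congrArg Subtype.val hj
    have h2 : orderOf a ∣ t ^ j := orderOf_dvd_of_pow_eq_one h1
    have h3 : orderOf a ∣ Nat.card N := Subgroup.orderOf_dvd_natCard N haN
    have h4 : Nat.Coprime (t ^ j) (Nat.card N) :=
      Nat.Coprime.pow_left _ ((Nat.Prime.coprime_iff_not_dvd ht).2 htN)
    have h5 : orderOf a = 1 := Nat.eq_one_of_dvd_coprimes h4 h2 h3
    exact orderOf_eq_one_iff.1 h5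
  have hnc : ¬ ∀ a ∈ T, ∀ n ∈ N, a * n = n * a := by
    intro hc
    apply hTbI
    rw [← hTmap]
    rintro _ ⟨a, ha, rfl⟩
    refine ⟨a, ?_, rfl⟩
    rw [SetLike.mem_coe, Subgroup.mem_centralizer_iff]
    intro n hn
    exact (hc a ha n hn).symm
  obtain ⟨p, hp, R, hRN, hRp, hRc, hRinv, hRnc⟩ := exists_p N T t hTp htN hnc
  haveI : Fact p.Prime := ⟨hp⟩
  have hg₁n : g₁ ∈ Subgroup.normalizer (T : Set G) := norm_of_conj_le T g₁ hg₁T
  obtain ⟨c, hcN, hcT, hcR⟩ := exists_fix_conj N T R t p hTp htN hRN hRc hRinv g₁ hg₁n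
  have hg₂mk : (QuotientGroup.mk (c⁻¹ * g₁) : G ⧸ N) = h := by
    have h1 : (QuotientGroup.mk c : G ⧸ N) = 1 := (QuotientGroup.eq_one_iff c).2 hcN
    rw [QuotientGroup.mk_mul, QuotientGroup.mk_inv, h1, inv_one, one_mul, hg₁, hg₀]
  have hg₂T : ∀ a ∈ T, (c⁻¹ * g₁) * a * (c⁻¹ * g₁)⁻¹ ∈ T := by
    intro a ha
    have h1 := hg₁T a ha
    have h2 := hcT _ h1
    have e : (c⁻¹ * g₁) * a * (c⁻¹ * g₁)⁻¹ = c⁻¹ * (g₁ * a * g₁⁻¹) * c := by group
    rw [e]
    have h3 : (g₁ * a * g₁⁻¹) * c = c * (g₁ * a * g₁⁻¹) := mul_inv_eq_iff_eq_mul.1 h2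
    rw [mul_assoc, h3]
    simpa using h1
  by_cases hall : ∀ v ∈ R, (v * (c⁻¹ * g₁)) ^ k = 1
  · exfalso
    obtain ⟨k', hk'⟩ : ∃ k', k = k' + 1 := Nat.exists_eq_succ_of_ne_zero (by omega)
    have htp : t ≠ p := by
      rintro rfl
      apply hRnc
      have hRbot : ∀ r ∈ R, r = 1 := by
        intro r hr
        obtain ⟨j, hj⟩ := hRp ⟨r, hr⟩
        have h1 : r ^ (t ^ j) = 1 := by simpa using congrArg Subtype.val hj
        have h2 : orderOf r ∣ t ^ j := orderOf_dvd_of_pow_eq_one h1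
        have h3 : orderOf r ∣ Nat.card N := Subgroup.orderOf_dvd_natCard N (hRN hr)
        have h4 : Nat.Coprime (t ^ j) (Nat.card N) :=
          Nat.Coprime.pow_left _ ((Nat.Prime.coprime_iff_not_dvd ht).2 htN)
        exact orderOf_eq_one_iff.1 (Nat.eq_one_of_dvd_coprimes h4 h2 h3)
      intro a _ r hr
      rw [hRbot r hr]; simp
    refine hRnc (final_step htp T R hTp hRp (c⁻¹ * g₁) hcR hRinv hg₂T k' (fun v hv => ?_) ?_)
    · rw [← hk']; exact hall v hv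
    · intro i hi hik a ha hfix
      apply hTN a ha
      have hma : (QuotientGroup.mk a : G ⧸ N) ∈ Fb := by
        apply hTbF
        rw [← hTmap]
        exact ⟨a, ha, rfl⟩
      have h1 : h ^ i * (QuotientGroup.mk a : G ⧸ N) * (h ^ i)⁻¹ = QuotientGroup.mk a := by
        rw [← hg₂mk]
        have := congrArg (QuotientGroup.mk : G → G ⧸ N) hfix
        simpa [QuotientGroup.mk_mul, QuotientGroup.mk_pow, QuotientGroup.mk_inv] using this
      have h2 := hfpf i hi (by omega) _ hma h1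
      exact (QuotientGroup.eq_one_iff a).1 h2
  · push_neg at hall
    obtain ⟨v, hv, hvne⟩ := hall
    refine order_of_lift N (v * (c⁻¹ * g₁)) k ?_ hvne
    have h1 : (QuotientGroup.mk v : G ⧸ N) = 1 := (QuotientGroup.eq_one_iff v).2 (hRN hv)
    rw [QuotientGroup.mk_mul, h1, one_mul, hg₂mk, hord]

end Cfsg.Agent.S3703
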