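import Mathlib
import Cfsg.Statements.S3802
-- import your own Cfsg.Agent.* helpers here

set_option autoImplicit false
open Cfsg

namespace Cfsg.Agent.S3802

open scoped Pointwise

theorem main_aux : ∀ (n : ℕ) (G : Type _) [Group G] [Finite G] (M N : Subgroup G), Nat.card G = n → IsCoatom M → N.IsSubnormal → N ≤ M →
    N ≤ Subgroup.normalCore M := by
  intro n
  induction n using Nat.strong_induction_on with
  | _ n ih =>
  intro G _ _ M N hcard hM hN hNM
  classical
  set K := Subgroup.normalClosure (N : Set G) with hK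
  haveI hKn : K.Normal := Subgroup.normalClosure_normal
  have hNK : N ≤ K := Subgroup.subset_normalClosure
  have hNtop : N ≠ ⊤ := fun h => hM.1 (top_le_iff.mp (h ▸ hNM))
  obtain ⟨K₀, hK₀n, hNK₀, hK₀⟩ := hN.exists_normal_and_le_and_lt_top_of_ne hNtop
  have hKK₀ : K ≤ K₀ := Subgroup.normalClosure_le_normal hNK₀
  have hKtop : K ≠ ⊤ := fun h => hK₀.ne (top_le_iff.mp (h ▸ hKK₀))
  by_cases hKM : K ≤ M
  · exact hNK.trans (Subgroup.normal_le_normalCore.mpr hKM)
  exfalso
  have hsup : M ⊔ K = ⊤ := hM.2 _ (lt_of_le_of_ne le_sup_left (fun h => hKM (h ▸ le_sup_right)))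
  have hM' : M.subgroupOf K ≠ ⊤ := by
    intro h
    apply hKM
    intro k hk
    have : (⟨k, hk⟩ : K) ∈ M.subgroupOf K := h ▸ Subgroup.mem_top _
    exact this
  obtain ⟨X, hX, hMX⟩ := (eq_top_or_exists_le_coatom (M.subgroupOf K)).resolve_left hM'
  have hcardK : Nat.card K < n := by
    rw [← hcard]
    exact lt_of_le_of_ne (Subgroup.card_le_card_group K) (fun h => hKtop (Subgroup.eq_top_of_card_eq K h))
  have key : ∀ (m : G), m ∈ M → ∀ (g : K) (x : G), x ∈ N → (hx : x ∈ K) →
      (⟨m * (g.1 * x * g.1⁻¹) * m⁻¹, hKn.conj_mem _ (K.mul_mem (K.mul_mem g.2 hx) (K.inv_mem g.2)) m⟩ : K) ∈ X := by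
    intro m hm g x hxN hx
    let σ : K ≃* K := MulAut.conjNormal m⁻¹
    let X' : Subgroup K := X.map σ.toMonoidHom
    have hX' : IsCoatom X' := by
      have := (σ.mapSubgroup.isCoatom_iff X).mpr hX
      exact this
    have hmem : ∀ y : K, y ∈ X' ↔ (⟨m * y.1 * m⁻¹, hKn.conj_mem _ y.2 m⟩ : K) ∈ X := by
      intro y
      have : y ∈ X' ↔ σ.symm y ∈ X := Subgroup.mem_map_equiv
      rw [this]
      have h2 : σ.symm y = ⟨m * y.1 * m⁻¹, hKn.conj_mem _ y.2 m⟩ := by
        apply Subtype.ext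
        have := MulAut.conjNormal_symm_apply (H := K) m⁻¹ y
        simpa [σ] using this
      rw [h2]
    have hN' : (N.subgroupOf K) ≤ X' := by
      intro y hy
      rw [hmem]
      apply hMX
      rw [Subgroup.mem_subgroupOf] at hy ⊢
      exact M.mul_mem (M.mul_mem hm (hNM hy)) (M.inv_mem hm)
    have h3 := ih _ hcardK K X' (N.subgroupOf K) rfl hX' hN.subgroupOf hN'
    have h4 : (⟨x, hx⟩ : K) ∈ Subgroup.normalCore X' := h3 (by simpa [Subgroup.mem_subgroupOf] using hxN)
    have h5 := h4 g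
    rw [hmem] at h5
    exact h5
  have hKX : K ≤ X.map K.subtype := by
    change Subgroup.closure (Group.conjugatesOfSet (N : Set G)) ≤ _
    rw [Subgroup.closure_le]
    intro y hy
    rw [Group.mem_conjugatesOfSet_iff] at hy
    obtain ⟨x, hx, hconj⟩ := hy
    obtain ⟨c, rfl⟩ := isConj_iff.mp hconj
    have hc : c ∈ M ⊔ K := hsup ▸ Subgroup.mem_top c
    rw [Subgroup.mem_sup_of_normal_right] at hc
    obtain ⟨m, hm, g, hg, rfl⟩ := hc
    have h6 := key m hm ⟨g, hg⟩ x hx (hNK hx)
    refine ⟨_, h6, ?_⟩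
    simp [mul_assoc]
  apply hX.1
  rw [eq_top_iff]
  intro y _
  obtain ⟨z, hz, hzy⟩ := hKX y.2
  have : z = y := Subtype.ext hzy
  exact this ▸ hz

/-- Let G be a finite group, M a maximal subgroup of G and N a subnormal subgroup of G contained in M. Then N is contained in every conjugate of M, that is, N lies in the core of M in G. -/
theorem result {G : Type*} [Group G] [Finite G] (M N : Subgroup G) (hM : IsCoatom M) (hN : N.IsSubnormal) (hNM : N ≤ M) :
    N ≤ Subgroup.normalCore M := by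
  exact main_aux _ G M N rfl hM hN hNM

end Cfsg.Agent.S3802
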