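import Mathlib
import Cfsg.Statements.S3748
import Cfsg.Agent.S3802
import Cfsg.Agent.Lib.FitCore
-- import your own Cfsg.Agent.* helpers here

set_option autoImplicit false
open Cfsg

namespace Cfsg.Agent.S3748

private theorem subnormal_of_nilpotent {N : Type*} [Group N] [Finite N] [Group.IsNilpotent N] (H : Subgroup N) :
    H.IsSubnormal := by
  refine WellFoundedGT.induction (motive := fun H : Subgroup N => H.IsSubnormal) H ?_
  intro H ih
  by_cases h : H = ⊤
  · subst h; exact .top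
  · have hlt := Group.normalizerCondition_of_isNilpotent (G := N) H (lt_top_iff_ne_top.mpr h)
    exact .step H (Subgroup.normalizer (H : Set N)) hlt.le (ih _ hlt) Subgroup.normal_in_normalizer

private lemma le_normalizer_closure {G : Type*} [Group G] (H : Subgroup G) (S : Set G)
    (hS : ∀ g ∈ H, ∀ s ∈ S, g * s * g⁻¹ ∈ S) : H ≤ Subgroup.normalizer ((Subgroup.closure S : Subgroup G) : Set G) := by
  have fwd : ∀ g ∈ H, ∀ h ∈ Subgroup.closure S, g * h * g⁻¹ ∈ Subgroup.closure S := fun g hg h hh => by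
    have : Subgroup.closure S ≤ (Subgroup.closure S).comap (MulAut.conj g).toMonoidHom :=
      (Subgroup.closure_le _).mpr (fun s hs => Subgroup.subset_closure (hS g hg s hs))
    exact this hh
  intro g hg
  rw [Subgroup.mem_normalizer_iff]
  intro h
  refine ⟨fwd g hg h, fun h1 => ?_⟩
  have := fwd g⁻¹ (H.inv_mem hg) _ h1
  simpa [mul_assoc] using this

private def conjE {G : Type*} [Group G] (R : Subgroup G) (m : G) (hm : m ∈ Subgroup.normalizer (R : Set G)) : R ≃* R where
  toFun y := ⟨m * y * m⁻¹, (Subgroup.mem_normalizer_iff.mp hm y).mp y.2⟩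
  invFun y := ⟨m⁻¹ * y * m⁻¹⁻¹, (Subgroup.mem_normalizer_iff.mp (Subgroup.inv_mem _ hm) y).mp y.2⟩
  left_inv y := by apply Subtype.ext; simp [mul_assoc]
  right_inv y := by apply Subtype.ext; simp [mul_assoc]
  map_mul' a b := by apply Subtype.ext; simp [mul_assoc]

private theorem claim {G : Type*} [Group G] [Finite G] (M L : Subgroup G)
    (hprim : ∀ N : Subgroup G, N ≤ M → M ≤ Subgroup.normalizer (N : Set G) → N ≠ ⊥ → Subgroup.normalizer (N : Set G) = M)
    (hL : L.IsSubnormal) (hLM : L ≤ M) (hL0 : L ≠ ⊥) :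
    ∀ (n : ℕ) (R : Subgroup G), Nat.card R = n → M ≤ Subgroup.normalizer (R : Set G) → ¬ R ≤ M → L ≤ R → False := by
  intro n
  induction n using Nat.strong_induction_on with
  | _ n ih =>
  intro R hn hMR hRM hLR
  classical
  set S : Set G := {y | ∃ x ∈ M, ∃ r ∈ R, ∃ l ∈ L, y = x * (r * l * r⁻¹) * x⁻¹} with hS
  set Y := Subgroup.closure S with hY
  have hconjR : ∀ x ∈ M, ∀ r ∈ R, x * r * x⁻¹ ∈ R := fun x hx r hr =>
    (Subgroup.mem_normalizer_iff.mp (hMR hx) r).mp hr
  have hYM : M ≤ Subgroup.normalizer (Y : Set G) := by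
    apply le_normalizer_closure
    rintro g hg s ⟨x, hx, r, hr, l, hl, rfl⟩
    refine ⟨g * x, M.mul_mem hg hx, r, hr, l, hl, ?_⟩
    group
  have hYR : R ≤ Subgroup.normalizer (Y : Set G) := by
    apply le_normalizer_closure
    rintro g hg s ⟨x, hx, r, hr, l, hl, rfl⟩
    refine ⟨x, hx, (x⁻¹ * g * x⁻¹⁻¹) * r, R.mul_mem (hconjR x⁻¹ (M.inv_mem hx) g hg) hr, l, hl, ?_⟩
    group
  have hLY : L ≤ Y := fun l hl => Subgroup.subset_closure ⟨1, M.one_mem, 1, R.one_mem, l, hl, by group⟩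
  have hY0 : Y ≠ ⊥ := fun h => hL0 (le_bot_iff.mp (h ▸ hLY))
  have hM' : M.subgroupOf R ≠ ⊤ := by
    intro h
    apply hRM
    intro k hk
    have : (⟨k, hk⟩ : R) ∈ M.subgroupOf R := h ▸ Subgroup.mem_top _
    exact this
  obtain ⟨X, hX, hMX⟩ := (eq_top_or_exists_le_coatom (M.subgroupOf R)).resolve_left hM'
  have key : ∀ (m : G) (hm : m ∈ M), ∀ (r : R) (l : G), l ∈ L → (hl : l ∈ R) →
      (⟨m * (r.1 * l * r.1⁻¹) * m⁻¹, hconjR m hm _ (R.mul_mem (R.mul_mem r.2 hl) (R.inv_mem r.2))⟩ : R) ∈ X := by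
    intro m hm r l hlL hl
    let σ : R ≃* R := conjE R m (hMR hm)
    let X' : Subgroup R := X.map σ.symm.toMonoidHom
    have hX' : IsCoatom X' := (σ.symm.mapSubgroup.isCoatom_iff X).mpr hX
    have hmem : ∀ y : R, y ∈ X' ↔ σ y ∈ X := fun y => Subgroup.mem_map_equiv
    have hN' : (L.subgroupOf R) ≤ X' := by
      intro y hy
      rw [hmem]
      apply hMX
      rw [Subgroup.mem_subgroupOf] at hy ⊢
      exact M.mul_mem (M.mul_mem hm (hLM hy)) (M.inv_mem hm)
    have h3 := Cfsg.Agent.S3802.result X' (L.subgroupOf R) hX' hL.subgroupOf hN'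
    have h4 : (⟨l, hl⟩ : R) ∈ Subgroup.normalCore X' := h3 (by simpa [Subgroup.mem_subgroupOf] using hlL)
    have h5 := h4 r
    rw [hmem] at h5
    exact h5
  have hYX : Y ≤ X.map R.subtype := by
    rw [hY, Subgroup.closure_le]
    rintro y ⟨x, hx, r, hr, l, hl, rfl⟩
    exact ⟨_, key x hx ⟨r, hr⟩ l hl (hLR hl), rfl⟩
  have hYleR : Y ≤ R := hYX.trans (Subgroup.map_subtype_le X)
  have hYne : Y ≠ R := by
    intro h
    apply hX.1
    rw [eq_top_iff]
    intro y _
    have hy : (y : G) ∈ Y := by rw [h]; exact y.2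
    obtain ⟨z, hz, hzy⟩ := hYX hy
    have : z = y := Subtype.ext hzy
    exact this ▸ hz
  by_cases hYM' : Y ≤ M
  · have := hprim Y hYM' hYM hY0
    exact hRM (this ▸ hYR)
  · have hlt : Nat.card Y < n := by
      rw [← hn]
      exact lt_of_le_of_ne (Subgroup.card_le_of_le hYleR) (fun h => hYne (Subgroup.eq_of_le_of_card_ge hYleR h.ge))
    exact ih _ hlt Y rfl hYM hYM' hLY

/-- Call a proper subgroup M of G primitive when M = N_G(N) for every non-trivial normal subgroup N of M. If M is a primitive subgroup of the finite group G, then no non-trivial subnormal subgroup of G is contained in M; in particular M ∩ F(G) = 1. -/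
theorem result {G : Type*} [Group G] [Finite G] (M : Subgroup G) (hM : M ≠ ⊤) (hprim : ∀ N : Subgroup G, N ≤ M → M ≤ Subgroup.normalizer (N : Set G) → N ≠ ⊥ → Subgroup.normalizer (N : Set G) = M) : (∀ L : Subgroup G, L.IsSubnormal → L ≤ M → L = ⊥) ∧ M ⊓ Cfsg.fittingSubgroup G = ⊥ := by
  have part1 : ∀ L : Subgroup G, L.IsSubnormal → L ≤ M → L = ⊥ := by
    intro L hL hLM
    by_contra hne
    exact claim M L hprim hL hLM hne _ ⊤ rfl (by intro x _; rw [Subgroup.mem_normalizer_iff]; simp) (fun h => hM (top_le_iff.mp h)) le_top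
  refine ⟨part1, ?_⟩
  apply part1 _ _ inf_le_left
  haveI hFn : (Cfsg.fittingSubgroup G).Normal := Cfsg.Agent.Lib.FitCore.fitting_normal
  haveI hFnil : Group.IsNilpotent (Cfsg.fittingSubgroup G) := Cfsg.Agent.Lib.FitCore.fitting_isNilpotent
  exact Subgroup.IsSubnormal.trans inf_le_right (subnormal_of_nilpotent _) hFn.isSubnormal

end Cfsg.Agent.S3748
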