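import Mathlib
import Cfsg.Statements.S3803
import Cfsg.Agent.Lib.H5Basic
import Cfsg.Agent.Lib.CoprimeAct
import Cfsg.Agent.Lib.H6PGroup
-- import your own Cfsg.Agent.* helpers here

set_option autoImplicit false
open Cfsg

namespace Cfsg.Agent.S3803

open Subgroup Cfsg.Agent.Lib

section
variable {X : Type*} [Group X]

theorem lt_card' [Finite X] {H K : Subgroup X} (h : H ≤ K) (hne : H ≠ K) : Nat.card H < Nat.card K := by
  by_contra hcon
  exact hne (Subgroup.eq_of_le_of_card_ge h (not_lt.mp hcon))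

theorem lemB [Finite X] (a : X) (ho : (orderOf a).Coprime 2) (P : Subgroup X) (hP : IsPGroup 2 P)
    (hfix : ∀ x ∈ P, x ^ 4 = 1 → a * x * a⁻¹ = x) :
    ∀ (n : ℕ) (Q : Subgroup X), Nat.card Q = n → Q ≤ P → (∀ x ∈ Q, a * x * a⁻¹ ∈ Q) →
      ∀ x ∈ Q, a * x * a⁻¹ = x := by
  intro n
  induction n using Nat.strong_induction_on with
  | _ n ih =>
  intro Q hQn hQP hQi
  let D : Subgroup X := closure {c | ∃ x ∈ Q, c = a * x * a⁻¹ * x⁻¹}
  have hDQ : D ≤ Q := by
    rw [Subgroup.closure_le]
    rintro _ ⟨x, hx, rfl⟩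
    exact Q.mul_mem (hQi x hx) (Q.inv_mem hx)
  have hDi : ∀ y ∈ D, a * y * a⁻¹ ∈ D := by
    intro y hy
    induction hy using Subgroup.closure_induction with
    | mem y hy =>
      obtain ⟨x, hx, rfl⟩ := hy
      refine Subgroup.subset_closure ⟨a * x * a⁻¹, hQi x hx, ?_⟩
      group
    | one => simpa using D.one_mem
    | mul y z _ _ hy hz =>
      have : a * (y * z) * a⁻¹ = (a * y * a⁻¹) * (a * z * a⁻¹) := by group
      rw [this]; exact D.mul_mem hy hz
    | inv y _ hy =>
      have : a * y⁻¹ * a⁻¹ = (a * y * a⁻¹)⁻¹ := by group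
      rw [this]; exact D.inv_mem hy
  have hDgen : ∀ x ∈ Q, a * x * a⁻¹ * x⁻¹ ∈ D := fun x hx => Subgroup.subset_closure ⟨x, hx, rfl⟩
  by_cases hDeq : D = Q
  swap
  · have hlt : Nat.card D < n := hQn ▸ lt_card' hDQ hDeq
    have hDfix := ih _ hlt D rfl (hDQ.trans hQP) hDi
    intro x hx
    have hc := hDgen x hx
    have h1 : a * (a * x * a⁻¹ * x⁻¹) * a⁻¹ = a * x * a⁻¹ * x⁻¹ := hDfix _ hc
    have h2 : a * (a * x * a⁻¹ * x⁻¹) = (a * x * a⁻¹ * x⁻¹) * a := by
      calc a * (a * x * a⁻¹ * x⁻¹) = (a * (a * x * a⁻¹ * x⁻¹) * a⁻¹) * a := by group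
        _ = _ := by rw [h1]
    obtain ⟨k, hk⟩ := (IsPGroup.iff_orderOf.1 hP) ⟨_, hQP (hDQ hc)⟩
    rw [Subgroup.orderOf_mk] at hk
    have h3 : a * x * a⁻¹ = (a * x * a⁻¹ * x⁻¹) * x := by group
    have h4 := CoprimeAct.comm_trivial_of_coprime (p := 2) h3 h2 ho hk
    rw [h4, one_mul] at h3
    exact h3
  by_cases hQbot : Q = ⊥
  · intro x hx
    rw [hQbot, Subgroup.mem_bot] at hx
    subst hx
    simp
  let F : Subgroup X := closure {s | ∃ x ∈ Q, s = x ^ 2}
  have hFQ : F ≤ Q := by
    rw [Subgroup.closure_le]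
    rintro _ ⟨x, hx, rfl⟩
    exact Q.pow_mem hx 2
  have hFi : ∀ y ∈ F, a * y * a⁻¹ ∈ F := by
    intro y hy
    induction hy using Subgroup.closure_induction with
    | mem y hy =>
      obtain ⟨x, hx, rfl⟩ := hy
      refine Subgroup.subset_closure ⟨a * x * a⁻¹, hQi x hx, ?_⟩
      rw [conj_pow]
    | one => simpa using F.one_mem
    | mul y z _ _ hy hz =>
      have : a * (y * z) * a⁻¹ = (a * y * a⁻¹) * (a * z * a⁻¹) := by group
      rw [this]; exact F.mul_mem hy hz
    | inv y _ hy =>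
      have : a * y⁻¹ * a⁻¹ = (a * y * a⁻¹)⁻¹ := by group
      rw [this]; exact F.inv_mem hy
  have hFconj : ∀ u ∈ Q, ∀ y ∈ F, u * y * u⁻¹ ∈ F := by
    intro u hu y hy
    induction hy using Subgroup.closure_induction with
    | mem y hy =>
      obtain ⟨x, hx, rfl⟩ := hy
      refine Subgroup.subset_closure ⟨u * x * u⁻¹, Q.mul_mem (Q.mul_mem hu hx) (Q.inv_mem hu), ?_⟩
      rw [conj_pow]
    | one => simpa using F.one_mem
    | mul y z _ _ hy hz =>
      have : u * (y * z) * u⁻¹ = (u * y * u⁻¹) * (u * z * u⁻¹) := by group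
      rw [this]; exact F.mul_mem hy hz
    | inv y _ hy =>
      have : u * y⁻¹ * u⁻¹ = (u * y * u⁻¹)⁻¹ := by group
      rw [this]; exact F.inv_mem hy
  have hFne : F ≠ Q := by
    intro hFeq
    have hQp : IsPGroup 2 Q := hP.to_le hQP
    have h1 : (⊤ : Subgroup Q) ≤ frattini Q := by
      rintro ⟨x, hx⟩ -
      rw [← hFeq] at hx
      have hgen : F.subgroupOf Q ≤ frattini Q := by
        intro u hu
        have hu' : (u : X) ∈ F := hu
        have : ∀ v (hv : v ∈ F), (⟨v, hFQ hv⟩ : Q) ∈ frattini Q := by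
          intro v hv
          induction hv using Subgroup.closure_induction with
          | mem v hv =>
            obtain ⟨w, hw, rfl⟩ := hv
            have := H6PGroup.pow_mem_frattini hQp (⟨w, hw⟩ : Q)
            exact this
          | one => exact (frattini Q).one_mem
          | mul y z hy' hz' hy hz => exact (frattini Q).mul_mem hy hz
          | inv y hy' hy => exact (frattini Q).inv_mem hy
        exact this u hu'
      exact hgen hx
    have h2 : (⊥ : Subgroup Q) ⊔ frattini Q = ⊤ := by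
      rw [bot_sup_eq]
      exact top_le_iff.mp h1
    have h3 := frattini_nongenerating h2
    apply hQbot
    rw [eq_bot_iff]
    intro x hx
    have : (⟨x, hx⟩ : Q) ∈ (⊥ : Subgroup Q) := by rw [h3]; trivial
    rw [Subgroup.mem_bot] at this
    rw [Subgroup.mem_bot]
    exact congrArg Subtype.val this
  have hFlt : Nat.card F < n := hQn ▸ lt_card' hFQ hFne
  have hFfix := ih _ hFlt F rfl (hFQ.trans hQP) hFi
  have hcen : ∀ z ∈ F, ∀ x ∈ Q, x * z = z * x := by
    intro z hz x hx
    have h1 : D ≤ Subgroup.centralizer {z} := by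
      rw [Subgroup.closure_le]
      rintro _ ⟨x, hx, rfl⟩
      show _ ∈ Subgroup.centralizer {z}
      rw [Subgroup.mem_centralizer_iff]
      intro h hh
      rw [Set.mem_singleton_iff] at hh
      rw [hh]
      set y := a * x * a⁻¹ with hy
      have hw : x⁻¹ * z * x * z⁻¹ ∈ F := by
        have h2 := hFconj x⁻¹ (Q.inv_mem hx) z hz
        rw [inv_inv] at h2
        exact F.mul_mem h2 (F.inv_mem hz)
      have h3 := hFfix _ hw
      have h4 : a * (x⁻¹ * z * x * z⁻¹) * a⁻¹ = y⁻¹ * (a * z * a⁻¹) * y * (a * z * a⁻¹)⁻¹ := by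
        rw [hy]; group
      rw [h4, hFfix z hz] at h3
      have h5 : y⁻¹ * z * y = x⁻¹ * z * x := by
        have := mul_right_cancel h3
        exact this
      calc z * (y * x⁻¹) = y * (y⁻¹ * z * y) * x⁻¹ := by group
        _ = y * (x⁻¹ * z * x) * x⁻¹ := by rw [h5]
        _ = _ := by group
    rw [hDeq] at h1
    have h2 := Subgroup.mem_centralizer_iff.mp (h1 hx) z rfl
    exact h2.symm
  have hsq : ∀ x ∈ Q, x ^ 2 ∈ F := fun x hx => Subgroup.subset_closure ⟨x, hx, rfl⟩
  -- the fourth power map is multiplicative on `Q`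
  have hmul : ∀ y ∈ Q, ∀ x ∈ Q, (y * x) ^ 4 = x ^ 4 * y ^ 4 := by
    intro y hy x hx
    set u := y * x * y⁻¹ * x⁻¹ with hu
    have hx2 := hcen _ (hsq x hx)
    have hy2 := hcen _ (hsq y hy)
    have h1 : x * (y ^ 2)⁻¹ = (y ^ 2)⁻¹ * x := by
      have := hy2 x hx
      calc x * (y ^ 2)⁻¹ = (y ^ 2)⁻¹ * (y ^ 2 * x) * (y ^ 2)⁻¹ := by group
        _ = (y ^ 2)⁻¹ * (x * y ^ 2) * (y ^ 2)⁻¹ := by rw [this]
        _ = _ := by group
    have hue : u = (y * x) ^ 2 * (y ^ 2)⁻¹ * (x ^ 2)⁻¹ := by
      calc u = y * x * y * (y ^ 2)⁻¹ * x * (x ^ 2)⁻¹ := by rw [hu]; group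
        _ = y * x * y * ((y ^ 2)⁻¹ * x) * (x ^ 2)⁻¹ := by group
        _ = y * x * y * (x * (y ^ 2)⁻¹) * (x ^ 2)⁻¹ := by rw [h1]
        _ = _ := by rw [sq (y * x)]; group
    have huF : u ∈ F := by
      rw [hue]
      exact F.mul_mem (F.mul_mem (hsq _ (Q.mul_mem hy hx)) (F.inv_mem (hsq y hy)))
        (F.inv_mem (hsq x hx))
    have hucen := hcen u huF
    have hu2 : u ^ 2 = 1 := by
      have h2 : y * x ^ 2 * y⁻¹ = x ^ 2 := by
        rw [hx2 y hy]; group
      rw [← conj_pow] at h2
      have h3 : y * x * y⁻¹ = u * x := by rw [hu]; group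
      rw [h3] at h2
      have h4 : (u * x) ^ 2 = u ^ 2 * x ^ 2 := by
        have hc : Commute u x := (hucen x hx).symm
        exact hc.mul_pow 2
      rw [h4] at h2
      exact mul_eq_right.mp h2
    have h5 : (y * x) ^ 2 = u * x ^ 2 * y ^ 2 := by
      rw [hue]
      generalize (y * x) ^ 2 = t
      generalize y ^ 2 = p
      generalize x ^ 2 = q
      group
    have e4 : ∀ t : X, t ^ 4 = (t ^ 2) ^ 2 := fun t => by rw [← pow_mul]
    rw [e4 (y * x), h5]
    have hc1 : Commute u (x ^ 2) := (hucen _ (Q.pow_mem hx 2)).symm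
    have hc2 : Commute (u * x ^ 2) (y ^ 2) := by
      refine Commute.mul_left ?_ ?_
      · exact (hucen _ (Q.pow_mem hy 2)).symm
      · exact (hx2 _ (Q.pow_mem hy 2)).symm
    rw [hc2.mul_pow, hc1.mul_pow, hu2, one_mul, ← pow_mul, ← pow_mul]
  let K : Subgroup X :=
    { carrier := {x | x ∈ Q ∧ x ^ 4 = 1}
      mul_mem' := by
        rintro s t ⟨hs, hs4⟩ ⟨ht, ht4⟩
        refine ⟨Q.mul_mem hs ht, ?_⟩
        rw [hmul s hs t ht, hs4, ht4, one_mul]
      one_mem' := ⟨Q.one_mem, one_pow 4⟩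
      inv_mem' := by
        rintro s ⟨hs, hs4⟩
        exact ⟨Q.inv_mem hs, by rw [inv_pow, hs4, inv_one]⟩ }
  have hDK : D ≤ K := by
    rw [Subgroup.closure_le]
    rintro _ ⟨x, hx, rfl⟩
    refine ⟨hDQ (hDgen x hx), ?_⟩
    have hy := hQi x hx
    rw [hmul _ hy _ (Q.inv_mem hx)]
    have h1 : x ^ 4 ∈ F := by
      have : x ^ 4 = (x ^ 2) ^ 2 := by rw [← pow_mul]
      rw [this]
      exact F.pow_mem (hsq x hx) 2
    rw [conj_pow, hFfix _ h1, inv_pow]
    group
  intro x hx
  rw [← hDeq] at hx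
  have h1 := (hDK hx).2
  exact hfix x (hQP (hDQ hx)) h1

theorem coatom_index {W : Type*} [Group W] [Finite W] (hW : IsPGroup 2 W) {M : Subgroup W}
    (hM : IsCoatom M) : M.index = 2 := by
  obtain ⟨n, hn⟩ := IsPGroup.iff_card.mp hW
  obtain ⟨s, hs⟩ := IsPGroup.iff_card.mp (hW.to_subgroup M)
  have h1 : Nat.card M ∣ 2 ^ n := by
    rw [← hn]
    exact Subgroup.card_subgroup_dvd_card M
  have hsn : s ≠ n := by
    rintro rfl
    apply hM.1
    exact Subgroup.eq_top_of_card_eq M (by rw [hs, hn])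
  have hle : s ≤ n := by
    rw [hs] at h1
    exact (Nat.pow_dvd_pow_iff_le_right (by norm_num)).mp h1
  obtain ⟨K, hK, hMK⟩ := Sylow.exists_subgroup_card_pow_prime_le (G := W) 2 (n := s) (m := s + 1)
    (by rw [hn]; exact pow_dvd_pow 2 (by omega)) M hs (Nat.le_succ s)
  have hKtop : K = ⊤ := by
    refine hM.2 K (lt_of_le_of_ne hMK ?_)
    rintro rfl
    rw [hs] at hK
    have := Nat.pow_right_injective (le_refl 2) hK
    omega
  have h2 := M.card_mul_index
  rw [hKtop, Subgroup.card_top] at hK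
  rw [hs, hK, pow_succ] at h2
  exact Nat.eq_of_mul_eq_mul_left (by positivity) h2

theorem triv_of_coatoms {W : Type*} [Group W] [Finite W] (hW : IsPGroup 2 W) (α : MulAut W)
    (ho : (orderOf α).Coprime 2) (hM : ∀ M : Subgroup W, IsCoatom M → ∀ y ∈ M, α y ∈ M) : α = 1 := by
  classical
  obtain ⟨n, hn⟩ := IsPGroup.iff_card.mp hW
  have h1 : (frattini W).index ∣ 2 ^ n := by
    rw [← hn]
    exact (frattini W).index_dvd_card
  obtain ⟨r, -, hr⟩ := (Nat.dvd_prime_pow Nat.prime_two).mp h1
  let B : Subgroup (MulAut W) :=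
    { carrier := {β | ∀ M : Subgroup W, IsCoatom M → ∀ y, (y ∈ M ↔ β y ∈ M)}
      mul_mem' := by
        intro β₁ β₂ h₁ h₂ M hc y
        rw [h₂ M hc y, h₁ M hc]
        rfl
      one_mem' := fun M hc y => Iff.rfl
      inv_mem' := by
        intro β h M hc y
        have := h M hc (β⁻¹ y)
        rw [this]
        simp }
  have hαB : α ∈ B := by
    intro M hc y
    constructor
    · exact hM M hc y
    · intro hy
      let f : M → M := fun m => ⟨α m, hM M hc m m.2⟩
      have hf : Function.Injective f := by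
        intro u v huv
        exact Subtype.ext (α.injective (congrArg Subtype.val huv))
      obtain ⟨m, hm⟩ := Finite.injective_iff_surjective.mp hf ⟨α y, hy⟩
      have : α m = α y := congrArg Subtype.val hm
      rw [← α.injective this]
      exact m.2
  have hz : Subgroup.zpowers α ≤ B := Subgroup.zpowers_le.mpr hαB
  have hA : ∀ β ∈ Subgroup.zpowers α, ∀ x : W, β x * x⁻¹ ∈ frattini W := by
    intro β hβ x
    simp only [frattini, Order.radical, Subgroup.mem_iInf]
    intro M hc
    have hi := coatom_index hW hc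
    rw [Subgroup.mul_mem_iff_of_index_two hi, Subgroup.inv_mem_iff]
    exact (hz hβ M hc x).symm
  have h2 := H6PGroup.card_dvd_main hn hr (Subgroup.zpowers α) hA
  rw [Nat.card_zpowers] at h2
  have h3 : (orderOf α).Coprime (2 ^ (r * (n - r))) := Nat.Coprime.pow_right _ ho
  have h4 : orderOf α = 1 := Nat.eq_one_of_dvd_coprimes h3 dvd_rfl h2
  exact orderOf_eq_one_iff.mp h4

theorem cyc_sub {W : Type*} [Group W] [Finite W] [IsCyclic W] (M : Subgroup W) {y : W}
    (h : y ^ (Nat.card M) = 1) : y ∈ M := by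
  classical
  haveI := Fintype.ofFinite W
  set m := Nat.card M with hmdef
  have hm : 0 < m := Nat.card_pos
  have h1 := IsCyclic.card_pow_eq_one_le (α := W) hm
  let S : Finset W := Finset.univ.filter fun a => a ^ m = 1
  let T : Finset W := Finset.univ.filter fun a => a ∈ M
  have hTS : T ⊆ S := by
    intro t ht
    simp only [T, S, Finset.mem_filter, Finset.mem_univ, true_and] at ht ⊢
    have := pow_card_eq_one' (x := (⟨t, ht⟩ : M))
    have h2 := congrArg Subtype.val this
    exact h2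
  have hTc : T.card = m := by
    rw [hmdef, Nat.card_eq_fintype_card, Fintype.card_subtype]
  have heq : T = S := Finset.eq_of_subset_of_card_le hTS (by rw [hTc]; exact h1)
  have hyS : y ∈ S := by simp [S, h]
  rw [← heq] at hyS
  simpa [T] using hyS

theorem norm_apply (W : Subgroup X) (a : X) (ha : a ∈ Subgroup.normalizer (W : Set X)) (y : W) :
    ((W.normalizerMonoidHom ⟨a, ha⟩ y : W) : X) = a * y * a⁻¹ := rfl

theorem norm_order [Finite X] (W : Subgroup X) (a : X) (ha : a ∈ Subgroup.normalizer (W : Set X))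
    (ho : (orderOf a).Coprime 2) : (orderOf (W.normalizerMonoidHom ⟨a, ha⟩)).Coprime 2 := by
  have h1 : orderOf (W.normalizerMonoidHom ⟨a, ha⟩) ∣ orderOf (⟨a, ha⟩ : Subgroup.normalizer (W : Set X)) :=
    orderOf_map_dvd _ _
  rw [Subgroup.orderOf_mk] at h1
  exact Nat.Coprime.coprime_dvd_left h1 ho

theorem triv_amb [Finite X] (W : Subgroup X) (a : X) (ha : a ∈ Subgroup.normalizer (W : Set X))
    (ho : (orderOf a).Coprime 2) (hW : IsPGroup 2 W)
    (hM : ∀ M : Subgroup X, M ≤ W → 2 * Nat.card M = Nat.card W →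
      a ∈ Subgroup.normalizer (M : Set X)) : ∀ y ∈ W, a * y * a⁻¹ = y := by
  have hα : W.normalizerMonoidHom ⟨a, ha⟩ = 1 := by
    refine triv_of_coatoms hW _ (norm_order W a ha ho) ?_
    intro M' hc y hy
    let M : Subgroup X := M'.map W.subtype
    have hMW : M ≤ W := by
      rintro _ ⟨u, -, rfl⟩
      exact u.2
    have hcard : Nat.card M = Nat.card M' :=
      Subgroup.card_map_of_injective W.subtype_injective
    have h2 : 2 * Nat.card M = Nat.card W := by
      rw [hcard, ← coatom_index hW hc, mul_comm]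
      exact M'.card_mul_index
    have h3 := hM M hMW h2
    have h4 : (y : X) ∈ M := ⟨y, hy, rfl⟩
    have h5 : a * y * a⁻¹ ∈ M := (Subgroup.mem_normalizer_iff.mp h3 _).mp h4
    obtain ⟨m, hm, hme⟩ := h5
    have h6 : W.normalizerMonoidHom ⟨a, ha⟩ y = m := by
      apply Subtype.ext
      rw [norm_apply]
      exact hme.symm
    rw [h6]
    exact hm
  intro y hy
  have h1 := norm_apply W a ha ⟨y, hy⟩
  rw [hα] at h1
  exact h1.symm

theorem triv_cyc [Finite X] (W : Subgroup X) (a : X) (ha : a ∈ Subgroup.normalizer (W : Set X))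
    (ho : (orderOf a).Coprime 2) (hW : IsPGroup 2 W) (hc : IsCyclic W) :
    ∀ y ∈ W, a * y * a⁻¹ = y := by
  have hα : W.normalizerMonoidHom ⟨a, ha⟩ = 1 := by
    refine triv_of_coatoms hW _ (norm_order W a ha ho) ?_
    intro M' _ y hy
    apply cyc_sub
    have h1 : y ^ Nat.card M' = 1 := by
      have := pow_card_eq_one' (x := (⟨y, hy⟩ : M'))
      exact congrArg Subtype.val this
    rw [← map_pow, h1, map_one]
  intro y hy
  have h1 := norm_apply W a ha ⟨y, hy⟩
  rw [hα] at h1
  exact h1.symm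

theorem exists_between [Finite X] (U R : Subgroup X) (hU : IsPGroup 2 U) (hRU : R ≤ U) (s m : ℕ)
    (hR : Nat.card R = 2 ^ s) (hsm : s ≤ m) (hd : 2 ^ m ∣ Nat.card U) :
    ∃ M : Subgroup X, R ≤ M ∧ M ≤ U ∧ Nat.card M = 2 ^ m := by
  have hc : Nat.card (R.subgroupOf U) = 2 ^ s := by
    rw [Nat.card_congr (Subgroup.subgroupOfEquivOfLe hRU).toEquiv, hR]
  obtain ⟨K, hK, hRK⟩ := Sylow.exists_subgroup_card_pow_prime_le (G := U) 2 hd (R.subgroupOf U) hc hsm
  refine ⟨K.map U.subtype, ?_, ?_, ?_⟩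
  · intro x hx
    exact ⟨⟨x, hRU hx⟩, hRK hx, rfl⟩
  · rintro _ ⟨u, -, rfl⟩
    exact u.2
  · rw [Subgroup.card_map_of_injective U.subtype_injective, hK]

end


/-- Let P be a 2-subgroup and A a subgroup of odd order of a finite group, with A normalizing P. Let D ≤ P with 1 < |D| < |P|. If every subgroup of P of order |D|, and also every subgroup of P of order 4 in case |D| = 2, is normalized by A, then A centralizes P. -/
theorem result {X : Type*} [Group X] [Finite X] (P A D : Subgroup X) (hP : IsPGroup 2 P) (hA : Odd (Nat.card A))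
    (hAP : A ≤ Subgroup.normalizer (P : Set X)) (hDP : D ≤ P) (hD1 : 1 < Nat.card D) (hD2 : Nat.card D < Nat.card P)
    (hinv : ∀ E : Subgroup X, E ≤ P → (Nat.card E = Nat.card D ∨ (Nat.card D = 2 ∧ Nat.card E = 4)) → A ≤ Subgroup.normalizer (E : Set X)) :
    A ≤ Subgroup.centralizer (P : Set X) := by
  classical
  intro a haA
  have ho : (orderOf a).Coprime 2 := by
    have h1 : orderOf a ∣ Nat.card A := Subgroup.orderOf_dvd_natCard A haA
    exact Nat.Coprime.coprime_dvd_left h1 (Nat.coprime_two_right.mpr hA)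
  have hPa : a ∈ Subgroup.normalizer (P : Set X) := hAP haA
  obtain ⟨n, hn⟩ := IsPGroup.iff_card.mp hP
  obtain ⟨d, hd⟩ := IsPGroup.iff_card.mp (hP.to_le hDP)
  have hdn : d < n := by
    rw [hd, hn] at hD2
    exact (Nat.pow_lt_pow_iff_right (by norm_num)).mp hD2
  have hd1 : 1 ≤ d := by
    rw [hd] at hD1
    by_contra h
    have : d = 0 := by omega
    rw [this] at hD1
    simp at hD1
  have hfix : ∀ x ∈ P, x ^ 4 = 1 → a * x * a⁻¹ = x := by
    intro x hxP hx4
    have hxc : Nat.card (Subgroup.zpowers x) ∣ 2 ^ 2 := by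
      rw [Nat.card_zpowers]
      exact orderOf_dvd_of_pow_eq_one hx4
    obtain ⟨s, hs2, hs⟩ := (Nat.dvd_prime_pow Nat.prime_two).mp hxc
    have hzP : Subgroup.zpowers x ≤ P := Subgroup.zpowers_le.mpr hxP
    have hxmem : x ∈ Subgroup.zpowers x := Subgroup.mem_zpowers x
    by_cases hd2 : d = 1
    · -- the two given families of small subgroups
      have hDc : Nat.card D = 2 := by rw [hd, hd2, pow_one]
      by_cases hs0 : s = 0
      · rw [hs0, pow_zero, Nat.card_zpowers, orderOf_eq_one_iff] at hs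
        subst hs
        simp
      have hnorm : a ∈ Subgroup.normalizer ((Subgroup.zpowers x : Subgroup X) : Set X) := by
        refine hinv _ hzP ?_ haA
        have : s = 1 ∨ s = 2 := by omega
        rcases this with rfl | rfl
        · left
          rw [hs, hDc, pow_one]
        · right
          exact ⟨hDc, by rw [hs]; norm_num⟩
      exact triv_cyc _ a hnorm ho (hP.to_le hzP) inferInstance x hxmem
    · have hd2' : 2 ≤ d := by omega
      obtain ⟨R, hR1, hR2, hR3⟩ := exists_between P _ hP hzP s d hs (by omega)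
        (by rw [hn]; exact pow_dvd_pow 2 hdn.le)
      obtain ⟨U, hU1, hU2, hU3⟩ := exists_between P R hP hR2 d (d + 1) hR3 (Nat.le_succ d)
        (by rw [hn]; exact pow_dvd_pow 2 hdn)
      have hUp : IsPGroup 2 U := hP.to_le hU2
      have hRinv : a ∈ Subgroup.normalizer (R : Set X) := by
        refine hinv R hR2 (Or.inl ?_) haA
        rw [hR3, hd]
      by_cases hUc : IsCyclic U
      · have hRc : IsCyclic R := by
          haveI := hUc
          exact isCyclic_of_injective (Subgroup.inclusion hU1) (Subgroup.inclusion_injective hU1)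
        exact triv_cyc R a hRinv ho (hP.to_le hR2) hRc x (hR1 hxmem)
      · have hUi : a ∈ Subgroup.normalizer (U : Set X) := by
          refine Cfsg.Agent.Lib.H5Basic.mem_normalizer_of_map_conj_le ?_
          rintro _ ⟨u, hu, rfl⟩
          show a * u * a⁻¹ ∈ U
          have hzu : Subgroup.zpowers u ≤ U := Subgroup.zpowers_le.mpr hu
          have hzne : Subgroup.zpowers u ≠ U := by
            intro he
            apply hUc
            rw [← he]
            infer_instance
          obtain ⟨t, ht⟩ := IsPGroup.iff_card.mp (hUp.to_le hzu)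
          have htd : t ≤ d := by
            have h1 : Nat.card (Subgroup.zpowers u) < Nat.card U := lt_card' hzu hzne
            rw [ht, hU3] at h1
            have := (Nat.pow_lt_pow_iff_right (by norm_num)).mp h1
            omega
          obtain ⟨M, hM1, hM2, hM3⟩ := exists_between U _ hUp hzu t d ht htd
            (by rw [hU3]; exact pow_dvd_pow 2 (Nat.le_succ d))
          have hMinv : a ∈ Subgroup.normalizer (M : Set X) := by
            refine hinv M (hM2.trans hU2) (Or.inl ?_) haA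
            rw [hM3, hd]
          exact hM2 ((Subgroup.mem_normalizer_iff.mp hMinv u).mp (hM1 (Subgroup.mem_zpowers u)))
        refine triv_amb U a hUi ho hUp ?_ x (hU1 (hR1 hxmem))
        intro M hM1 hM2
        refine hinv M (hM1.trans hU2) (Or.inl ?_) haA
        rw [hU3, pow_succ, mul_comm] at hM2
        rw [hd]
        exact Nat.eq_of_mul_eq_mul_right (by norm_num) hM2
  have hall := lemB a ho P hP hfix _ P rfl le_rfl
    (fun x hx => (Subgroup.mem_normalizer_iff.mp hPa x).mp hx)
  rw [Subgroup.mem_centralizer_iff]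
  intro h hh
  have := hall h hh
  calc h * a = (a * h * a⁻¹) * a := by rw [this]
    _ = a * h := by group

end Cfsg.Agent.S3803
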