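import Cfsg.Statements.S3815
-- import your own Cfsg.Agent.* helpers here

set_option autoImplicit false
open Cfsg

namespace Cfsg.Agent.S3815

/-- Let G be a finite group, p a prime and d ∈ G an element of order prime to p. If dg has order prime to p for every element g ∈ G of order prime to p, then d ∈ O_{p'}(G). -/
theorem result {G : Type*} [Group G] [Finite G] {p : ℕ} [Fact p.Prime]
    (d : G) (hd : (orderOf d).Coprime p)
    (h : ∀ g : G, (orderOf g).Coprime p → (orderOf (d * g)).Coprime p) :
    d ∈ Cfsg.pPrimeCore p G := by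
  classical
  let P : G → Prop := fun d => (orderOf d).Coprime p ∧ ∀ g : G, (orderOf g).Coprime p → (orderOf (d * g)).Coprime p
  have hone : P 1 := ⟨by simp, fun g hg => by simpa using hg⟩
  have hmul : ∀ a b, P a → P b → P (a * b) := by
    intro a b ha hb
    refine ⟨ha.2 b hb.1, fun g hg => ?_⟩
    rw [mul_assoc]
    exact ha.2 _ (hb.2 g hg)
  have hpow : ∀ a, P a → ∀ n : ℕ, P (a ^ n) := by
    intro a ha n
    induction n with
    | zero => simpa using hone
    | succ n ih =>
      rw [pow_succ]
      exact hmul _ _ ih ha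
  let S : Subgroup G :=
    { carrier := {d | P d}
      mul_mem' := fun {a b} ha hb => hmul a b ha hb
      one_mem' := hone
      inv_mem' := fun {a} ha => by
        have h1 : a⁻¹ = a ^ (orderOf a - 1) := by
          apply inv_eq_of_mul_eq_one_right
          rw [← pow_succ', Nat.sub_add_cancel (orderOf_pos a), pow_orderOf_eq_one]
        change P a⁻¹
        rw [h1]
        exact hpow a ha _ }
  have hconjord : ∀ x y : G, orderOf (x * y * x⁻¹) = orderOf y := by
    intro x y
    have := (MulAut.conj x).orderOf_eq y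
    rwa [MulAut.conj_apply] at this
  have hSn : S.Normal := by
    refine ⟨fun d hd x => ?_⟩
    refine ⟨by rw [hconjord]; exact hd.1, fun g hg => ?_⟩
    have h1 : x * d * x⁻¹ * g = x * (d * (x⁻¹ * g * x⁻¹⁻¹)) * x⁻¹ := by group
    rw [h1, hconjord]
    exact hd.2 _ (by rw [hconjord]; exact hg)
  have hScop : (Nat.card S).Coprime p := by
    rw [Nat.coprime_comm, Nat.Prime.coprime_iff_not_dvd Fact.out]
    intro hdvd
    obtain ⟨x, hx⟩ := exists_prime_orderOf_dvd_card' p hdvd
    have h1 : (orderOf (x : G)).Coprime p := x.2.1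
    rw [Subgroup.orderOf_coe, hx] at h1
    have h2 : p = 1 := by simpa using h1
    exact (Fact.out : p.Prime).one_lt.ne' h2
  have hmem : S ≤ Cfsg.pPrimeCore p G := le_sSup ⟨hSn, hScop⟩
  exact hmem ⟨hd, h⟩

end Cfsg.Agent.S3815
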