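import Cfsg.Statements.S3820

set_option autoImplicit false
open Cfsg

namespace Cfsg.Agent.S3820

/-- Call a subgroup H of G pronormal if H and gHg⁻¹ are conjugate inside ⟨H, gHg⁻¹⟩ for every g ∈ G. Let S ≤ H ≤ G be subgroups of a finite group with S pronormal in G (for instance S a Sylow subgroup). Then H is pronormal in G if and only if H and gHg⁻¹ are conjugate inside ⟨H, gHg⁻¹⟩ for every g ∈ N_G(S). In particular H is pronormal whenever N_G(S) ≤ H. -/
theorem result {G : Type*} [Group G] [Finite G] (S H : Subgroup G) (hSH : S ≤ H)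
    (hS : Cfsg.IsPronormal S) :
    Cfsg.IsPronormal H ↔
      ∀ g ∈ Subgroup.normalizer (S : Set G), ∃ w ∈ H ⊔ H.map (MulAut.conj g).toMonoidHom,
        H.map (MulAut.conj g).toMonoidHom = H.map (MulAut.conj w).toMonoidHom := by
  have hmap : ∀ (K : Subgroup G) (g y : G), y ∈ K.map (MulAut.conj g).toMonoidHom ↔ g⁻¹ * y * g ∈ K := by
    intro K g y
    constructor
    · rintro ⟨z, hz, rfl⟩
      have : g⁻¹ * ((MulAut.conj g).toMonoidHom z) * g = z := by
        simp [MulAut.conj_apply]; group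
      rw [this]; exact hz
    · intro h
      refine ⟨_, h, ?_⟩
      simp [MulAut.conj_apply]; group
  constructor
  · intro hH g _
    exact hH g
  · intro hcrit g
    obtain ⟨t, ht, hteq⟩ := hS g
    -- n = t⁻¹ g normalizes S
    have hSg : S.map (MulAut.conj g).toMonoidHom ≤ H.map (MulAut.conj g).toMonoidHom := Subgroup.map_mono hSH
    have htL : t ∈ H ⊔ H.map (MulAut.conj g).toMonoidHom :=
      (sup_le_sup hSH hSg) ht
    have hn : t⁻¹ * g ∈ Subgroup.normalizer (S : Set G) := by
      rw [Subgroup.mem_normalizer_iff]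
      intro y
      have h1 : g * y * g⁻¹ ∈ S.map (MulAut.conj g).toMonoidHom ↔ y ∈ S := by
        rw [hmap]
        have : g⁻¹ * (g * y * g⁻¹) * g = y := by group
        rw [this]
      rw [hteq, hmap] at h1
      have e : t⁻¹ * (g * y * g⁻¹) * t = t⁻¹ * g * y * (t⁻¹ * g)⁻¹ := by group
      rw [e] at h1
      exact h1.symm
    obtain ⟨w, hw, hweq⟩ := hcrit _ hn
    -- H^n ≤ L
    have hgconj : ∀ y, y ∈ H.map (MulAut.conj g).toMonoidHom ↔ t⁻¹ * y * t ∈ H.map (MulAut.conj (t⁻¹ * g)).toMonoidHom := by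
      intro y
      rw [hmap, hmap]
      have : (t⁻¹ * g)⁻¹ * (t⁻¹ * y * t) * (t⁻¹ * g) = g⁻¹ * y * g := by group
      rw [this]
    have hle : H ⊔ H.map (MulAut.conj (t⁻¹ * g)).toMonoidHom ≤ H ⊔ H.map (MulAut.conj g).toMonoidHom := by
      apply sup_le le_sup_left
      intro y hy
      have h1 : t * y * t⁻¹ ∈ H.map (MulAut.conj g).toMonoidHom := by
        rw [hgconj]
        have : t⁻¹ * (t * y * t⁻¹) * t = y := by group
        rw [this]; exact hy
      have h2 : y = t⁻¹ * (t * y * t⁻¹) * t := by group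
      rw [h2]
      exact Subgroup.mul_mem _ (Subgroup.mul_mem _ (Subgroup.inv_mem _ htL) (Subgroup.mem_sup_right h1)) htL
    refine ⟨t * w, Subgroup.mul_mem _ htL (hle hw), ?_⟩
    ext y
    rw [hgconj, hweq, hmap, hmap]
    have : w⁻¹ * (t⁻¹ * y * t) * w = (t * w)⁻¹ * y * (t * w) := by group
    rw [this]

end Cfsg.Agent.S3820
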