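import Cfsg.Statements.S3821

set_option autoImplicit false
open Cfsg

namespace Cfsg.Agent.S3821

theorem hmap' {X : Type*} [Group X] (K : Subgroup X) (g y : X) :
    y ∈ K.map (MulAut.conj g).toMonoidHom ↔ g⁻¹ * y * g ∈ K := by
  constructor
  · rintro ⟨z, hz, rfl⟩
    have : g⁻¹ * ((MulAut.conj g).toMonoidHom z) * g = z := by
      simp [MulAut.conj_apply]; group
    rw [this]; exact hz
  · intro h
    refine ⟨_, h, ?_⟩
    simp [MulAut.conj_apply]; group

/-- Let A be a normal subgroup of the finite group G and H a subgroup of A. Then H is pronormal in G (H and gHg⁻¹ conjugate inside ⟨H, gHg⁻¹⟩ for every g ∈ G) if and only if H is pronormal in A and G = A · N_G(H). -/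
theorem result {G : Type*} [Group G] [Finite G] (A H : Subgroup G) [A.Normal] (hHA : H ≤ A) :
    Cfsg.IsPronormal H ↔ (Cfsg.IsPronormal (H.subgroupOf A) ∧ A ⊔ Subgroup.normalizer (H : Set G) = ⊤) := by
  have hmap : ∀ (K : Subgroup G) (g y : G), y ∈ K.map (MulAut.conj g).toMonoidHom ↔ g⁻¹ * y * g ∈ K := by
    intro K g y
    constructor
    · rintro ⟨z, hz, rfl⟩
      have : g⁻¹ * ((MulAut.conj g).toMonoidHom z) * g = z := by
        simp [MulAut.conj_apply]; group
      rw [this]; exact hz
    · intro h
      refine ⟨_, h, ?_⟩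
      simp [MulAut.conj_apply]; group
  have hAn : A.Normal := inferInstance
  -- comparing conjugates in A and in G
  have hmapA : ∀ (a : A) (y : A), y ∈ (H.subgroupOf A).map (MulAut.conj a).toMonoidHom ↔ (y : G) ∈ H.map (MulAut.conj (a : G)).toMonoidHom := by
    intro a y
    rw [hmap', hmap', Subgroup.mem_subgroupOf]
    simp
  have hcl : ∀ a : A, ∀ x : A, x ∈ (H.subgroupOf A) ⊔ (H.subgroupOf A).map (MulAut.conj a).toMonoidHom ↔
      (x : G) ∈ H ⊔ H.map (MulAut.conj (a : G)).toMonoidHom := by
    intro a x
    have hm : ((H.subgroupOf A) ⊔ (H.subgroupOf A).map (MulAut.conj a).toMonoidHom).map A.subtype =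
        H ⊔ H.map (MulAut.conj (a : G)).toMonoidHom := by
      rw [Subgroup.map_sup]
      congr 1
      · exact Subgroup.map_subgroupOf_eq_of_le hHA
      · ext y
        rw [hmap]
        constructor
        · rintro ⟨z, hz, rfl⟩
          have := (hmapA a z).1 hz
          rwa [hmap] at this
        · intro hy
          have hyA : y ∈ A := by
            have h1 := hHA hy
            have : y = (a : G) * ((a : G)⁻¹ * y * a) * (a : G)⁻¹ := by group
            rw [this]
            exact A.mul_mem (A.mul_mem a.2 h1) (A.inv_mem a.2)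
          refine ⟨⟨y, hyA⟩, (hmapA a ⟨y, hyA⟩).2 ?_, rfl⟩
          rw [hmap]; exact hy
    rw [← hm]
    constructor
    · intro h; exact ⟨x, h, rfl⟩
    · rintro ⟨z, hz, e⟩
      have : z = x := Subtype.ext e
      rwa [← this]
  constructor
  · intro hH
    constructor
    · intro a
      obtain ⟨x, hx, he⟩ := hH (a : G)
      have hxA : x ∈ A := by
        have hle : H ⊔ H.map (MulAut.conj (a : G)).toMonoidHom ≤ A := by
          apply sup_le hHA
          intro y hy
          rw [hmap] at hy
          have h1 := hHA hy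
          have : y = (a : G) * ((a : G)⁻¹ * y * a) * (a : G)⁻¹ := by group
          rw [this]
          exact A.mul_mem (A.mul_mem a.2 h1) (A.inv_mem a.2)
        exact hle hx
      refine ⟨⟨x, hxA⟩, (hcl a _).2 hx, ?_⟩
      ext y
      rw [hmapA, hmapA, he]
    · rw [eq_top_iff]
      intro g _
      obtain ⟨x, hx, he⟩ := hH g
      have hxA : x ∈ A := by
        have hle : H ⊔ H.map (MulAut.conj g).toMonoidHom ≤ A := by
          apply sup_le hHA
          intro y hy
          rw [hmap] at hy
          have h1 := hHA hy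
          have : y = g * (g⁻¹ * y * g) * g⁻¹ := by group
          rw [this]
          exact hAn.conj_mem _ h1 g
        exact hle hx
      have hn : x⁻¹ * g ∈ Subgroup.normalizer (H : Set G) := by
        rw [Subgroup.mem_normalizer_iff]
        intro y
        have h1 : g * y * g⁻¹ ∈ H.map (MulAut.conj g).toMonoidHom ↔ y ∈ H := by
          rw [hmap]
          have : g⁻¹ * (g * y * g⁻¹) * g = y := by group
          rw [this]
        rw [he, hmap] at h1
        have e : x⁻¹ * (g * y * g⁻¹) * x = x⁻¹ * g * y * (x⁻¹ * g)⁻¹ := by group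
        rw [e] at h1
        exact h1.symm
      have : g = x * (x⁻¹ * g) := by group
      rw [this]
      exact Subgroup.mul_mem _ (Subgroup.mem_sup_left hxA) (Subgroup.mem_sup_right hn)
  · rintro ⟨hHA', hsup⟩ g
    have hg : g ∈ A ⊔ Subgroup.normalizer (H : Set G) := hsup ▸ Subgroup.mem_top g
    rw [Subgroup.mem_sup_of_normal_left] at hg
    obtain ⟨a, ha, n, hn, rfl⟩ := hg
    have hconj : H.map (MulAut.conj (a * n)).toMonoidHom = H.map (MulAut.conj a).toMonoidHom := by
      ext y
      rw [hmap, hmap]
      have e : (a * n)⁻¹ * y * (a * n) = n⁻¹ * (a⁻¹ * y * a) * n := by group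
      rw [e]
      have h1 := Subgroup.mem_normalizer_iff.1 (Subgroup.inv_mem _ hn) (a⁻¹ * y * a)
      rw [inv_inv] at h1
      exact h1.symm
    obtain ⟨x, hx, he⟩ := hHA' ⟨a, ha⟩
    refine ⟨x, ?_, ?_⟩
    · rw [hconj]
      exact (hcl ⟨a, ha⟩ x).1 hx
    · rw [hconj]
      ext y
      constructor
      · intro hy
        have hyA : y ∈ A := by
          rw [hmap] at hy
          have h1 := hHA hy
          have : y = a * (a⁻¹ * y * a) * a⁻¹ := by group
          rw [this]
          exact A.mul_mem (A.mul_mem ha h1) (A.inv_mem ha)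
        have h2 := (hmapA ⟨a, ha⟩ ⟨y, hyA⟩).2 hy
        rw [he, hmapA] at h2
        exact h2
      · intro hy
        have hyA : y ∈ A := by
          rw [hmap] at hy
          have h1 := hHA hy
          have : y = (x : G) * ((x : G)⁻¹ * y * x) * (x : G)⁻¹ := by group
          rw [this]
          exact A.mul_mem (A.mul_mem x.2 h1) (A.inv_mem x.2)
        have h2 := (hmapA x ⟨y, hyA⟩).2 hy
        rw [← he, hmapA] at h2
        exact h2

end Cfsg.Agent.S3821
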