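import Mathlib
import Cfsg.Statements.S3825
-- import your own Cfsg.Agent.* helpers here

set_option autoImplicit false
open Cfsg

namespace Cfsg.Agent.S3825

/-- A fixed point free involutive automorphism. -/
theorem fpf {Q : Type*} [Group Q] [Finite Q] (β : Q →* Q) (h2 : ∀ x, β (β x) = x)
    (hfix : ∀ x, β x = x → x = 1) :
    (∀ x y : Q, x * y = y * x) ∧ ¬ 2 ∣ Nat.card Q := by
  classical
  have hinj : Function.Injective (fun x : Q => x⁻¹ * β x) := by
    intro x y hxy
    have h3 : x⁻¹ * β x = y⁻¹ * β y := hxy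
    have h4 : y * x⁻¹ = β y * (β x)⁻¹ := by
      calc y * x⁻¹ = y * (x⁻¹ * β x) * (β x)⁻¹ := by group
        _ = y * (y⁻¹ * β y) * (β x)⁻¹ := by rw [h3]
        _ = _ := by group
    have h5 : β (y * x⁻¹) = y * x⁻¹ := by
      rw [map_mul, map_inv]
      exact h4.symm
    have h6 := hfix _ h5
    rw [mul_inv_eq_one] at h6
    exact h6.symm
  have hsurj : Function.Surjective (fun x : Q => x⁻¹ * β x) := Finite.injective_iff_surjective.mp hinj
  have hinv : ∀ z, β z = z⁻¹ := by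
    intro z
    obtain ⟨x, rfl⟩ := hsurj z
    simp only [map_mul, map_inv, h2, mul_inv_rev, inv_inv]
  constructor
  · intro x y
    have h3 := map_mul β x y
    rw [hinv, hinv, hinv, mul_inv_rev] at h3
    have h4 : y⁻¹ * x⁻¹ = x⁻¹ * y⁻¹ := h3
    have h5 : (y⁻¹ * x⁻¹)⁻¹ = (x⁻¹ * y⁻¹)⁻¹ := by rw [h4]
    simpa using h5
  · intro hd
    haveI : Fact (Nat.Prime 2) := ⟨Nat.prime_two⟩
    obtain ⟨t, ht⟩ := exists_prime_orderOf_dvd_card' 2 hd
    have h3 : t ^ 2 = 1 := by rw [← ht]; exact pow_orderOf_eq_one t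
    have h4 : t⁻¹ = t := by
      rw [pow_two] at h3
      exact inv_eq_of_mul_eq_one_left h3
    have h5 : t = 1 := hfix t (by rw [hinv, h4])
    rw [h5, orderOf_one] at ht
    omega


/-- Let U be a subgroup of a finite group H and w an involution of H normalizing U and commuting with exactly two elements of U, the identity and y. If V is a non-cyclic elementary abelian 2-subgroup of U containing y which is normal in U and invariant under w, then V is a Sylow 2-subgroup of U, V has order 4, and U/V is abelian. -/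
theorem result {H : Type*} [Group H] [Finite H] (U : Subgroup H) (w : H) (hw : orderOf w = 2)
    (hwU : w ∈ Subgroup.normalizer (U : Set H)) (y : H) (hy : y ≠ 1) (hyU : y ∈ U)
    (hfix : ∀ u ∈ U, w * u * w⁻¹ = u ↔ (u = 1 ∨ u = y))
    (V : Subgroup H) (hVU : V ≤ U) (hVn : (V.subgroupOf U).Normal) (hVw : ∀ v ∈ V, w * v * w⁻¹ ∈ V)
    (hVe : Cfsg.IsElementaryAbelian 2 V) (hVc : ¬ IsCyclic ↥V) (hyV : y ∈ V) :
    ¬ 2 ∣ V.relIndex U ∧ Nat.card ↥V = 4 ∧ ⁅U, U⁆ ≤ V := by
  classical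
  have hwsq : w * w = 1 := by
    have : w ^ 2 = 1 := by rw [← hw]; exact pow_orderOf_eq_one w
    rwa [pow_two] at this
  have hwinv : w⁻¹ = w := inv_eq_of_mul_eq_one_left hwsq
  have hVcomm : ∀ a ∈ V, ∀ b ∈ V, a * b = b * a := by
    intro a ha b hb
    have := hVe.1.is_comm.comm (⟨a, ha⟩ : V) ⟨b, hb⟩
    exact congrArg Subtype.val this
  have hVsq : ∀ a ∈ V, a * a = 1 := by
    intro a ha
    have := hVe.2 a ha
    rwa [pow_two] at this
  have hVinv : ∀ a ∈ V, a⁻¹ = a := fun a ha => inv_eq_of_mul_eq_one_left (hVsq a ha)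
  have hww : ∀ x : H, w * (w * x * w⁻¹) * w⁻¹ = x := by
    intro x
    rw [hwinv]
    calc w * (w * x * w) * w = (w * w) * x * (w * w) := by group
      _ = x := by rw [hwsq]; group
  -- the map `v ↦ v * w(v)`
  have hfixV : ∀ v ∈ V, w * v * w⁻¹ = v → v = 1 ∨ v = y := fun v hv h => (hfix v (hVU hv)).mp h
  have hψmem : ∀ v : V, v.1 * (w * v.1 * w⁻¹) ∈ V := fun v => V.mul_mem v.2 (hVw v.1 v.2)
  let ψ : V →* V :=
    { toFun := fun v => ⟨v.1 * (w * v.1 * w⁻¹), hψmem v⟩
      map_one' := by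
        apply Subtype.ext
        simp
      map_mul' := by
        intro a b
        apply Subtype.ext
        change (a.1 * b.1) * (w * (a.1 * b.1) * w⁻¹) = (a.1 * (w * a.1 * w⁻¹)) * (b.1 * (w * b.1 * w⁻¹))
        have h1 : b.1 * (w * a.1 * w⁻¹) = (w * a.1 * w⁻¹) * b.1 := hVcomm _ b.2 _ (hVw a.1 a.2)
        calc (a.1 * b.1) * (w * (a.1 * b.1) * w⁻¹) = a.1 * (b.1 * (w * a.1 * w⁻¹)) * (w * b.1 * w⁻¹) := by group
          _ = a.1 * ((w * a.1 * w⁻¹) * b.1) * (w * b.1 * w⁻¹) := by rw [h1]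
          _ = _ := by group }
  have hψ : ∀ v : V, (ψ v).1 = v.1 * (w * v.1 * w⁻¹) := fun _ => rfl
  have hψfix : ∀ v : V, (ψ v).1 = 1 ∨ (ψ v).1 = y := by
    intro v
    apply hfixV _ (ψ v).2
    rw [hψ]
    have h1 : w * (v.1 * (w * v.1 * w⁻¹)) * w⁻¹ = (w * v.1 * w⁻¹) * (w * (w * v.1 * w⁻¹) * w⁻¹) := by group
    rw [h1, hww]
    exact hVcomm _ (hVw v.1 v.2) _ v.2
  have hψker : ∀ v : V, ψ v = 1 → v.1 = 1 ∨ v.1 = y := by
    intro v hv
    have h1 : v.1 * (w * v.1 * w⁻¹) = 1 := congrArg Subtype.val hv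
    apply hfixV v.1 v.2
    have h2 : w * v.1 * w⁻¹ = v.1⁻¹ := eq_inv_of_mul_eq_one_right h1
    rw [h2, hVinv v.1 v.2]
  have hcardle : ∀ S : Subgroup V, (∀ v ∈ S, v.1 = 1 ∨ v.1 = y) → Nat.card S ≤ 2 := by
    intro S hS
    have hinj : Function.Injective (fun s : S => (⟨s.1.1, hS s.1 s.2⟩ : ({1, y} : Set H))) := by
      intro a b hab
      have h1 : a.1.1 = b.1.1 := congrArg (fun t : ({1, y} : Set H) => (t : H)) hab
      exact Subtype.ext (Subtype.ext h1)
    have h1 := Nat.card_le_card_of_injective _ hinj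
    have h2 : Nat.card ({1, y} : Set H) ≤ 2 := by
      rw [Nat.card_coe_set_eq]
      refine (Set.ncard_insert_le 1 {y}).trans ?_
      simp
    exact h1.trans h2
  have hVle : Nat.card V ≤ 4 := by
    have h1 := ψ.ker.card_mul_index
    rw [Subgroup.index_ker] at h1
    have h2 := hcardle ψ.ker (fun v hv => hψker v hv)
    have h3 : Nat.card ψ.range ≤ 2 := by
      apply hcardle
      rintro _ ⟨v, rfl⟩
      exact hψfix v
    rw [← h1]
    exact Nat.mul_le_mul h2 h3
  have hVp : IsPGroup 2 V := by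
    rw [IsPGroup.iff_orderOf]
    intro v
    haveI : Fact (Nat.Prime 2) := ⟨Nat.prime_two⟩
    have h1 : v ^ 2 = 1 := Subtype.ext (hVe.2 v.1 v.2)
    by_cases hv : v = 1
    · exact ⟨0, by simp [hv]⟩
    · exact ⟨1, by rw [pow_one]; exact orderOf_eq_prime h1 hv⟩
  obtain ⟨n, hn⟩ := IsPGroup.iff_card.mp hVp
  have hV4 : Nat.card V = 4 := by
    have hn2 : n ≤ 2 := by
      by_contra h
      have h1 : 2 ^ 3 ≤ 2 ^ n := Nat.pow_le_pow_right (by norm_num) (by omega)
      omega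
    interval_cases n
    · exfalso
      apply hVc
      rw [pow_zero] at hn
      have : Subsingleton V := (Nat.card_eq_one_iff_unique.mp hn).1
      infer_instance
    · exfalso
      apply hVc
      rw [pow_one] at hn
      exact isCyclic_of_prime_card hn
    · rw [hn]
      norm_num
  -- an element of `V` not fixed by `w`
  obtain ⟨⟨a, haV⟩, ha1⟩ : ∃ a : V, a.1 ≠ 1 ∧ a.1 ≠ y := by
    by_contra hcon
    push Not at hcon
    have h1 := hcardle ⊤ (fun v _ => by
      by_cases h : v.1 = 1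
      · exact Or.inl h
      · exact Or.inr (hcon v h))
    rw [Subgroup.card_top, hV4] at h1
    omega
  have haψ : a * (w * a * w⁻¹) = y := by
    have h1 := hψfix ⟨a, haV⟩
    rw [hψ] at h1
    rcases h1 with h1 | h1
    · exfalso
      have h2 : w * a * w⁻¹ = a⁻¹ := eq_inv_of_mul_eq_one_right h1
      rw [hVinv a haV] at h2
      rcases hfixV a haV h2 with h3 | h3
      · exact ha1.1 h3
      · exact ha1.2 h3
    · exact h1
  have hwa : w * a * w⁻¹ = a * y := by
    calc w * a * w⁻¹ = (a * a) * (w * a * w⁻¹) := by rw [hVsq a haV]; group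
      _ = a * (a * (w * a * w⁻¹)) := by group
      _ = a * y := by rw [haψ]
  -- the quotient
  have hconjU : ∀ u ∈ U, w * u * w⁻¹ ∈ U := fun u hu => (Subgroup.mem_normalizer_iff.mp hwU u).mp hu
  let β : U →* U :=
    { toFun := fun u => ⟨w * u.1 * w⁻¹, hconjU u.1 u.2⟩
      map_one' := by
        apply Subtype.ext
        simp
      map_mul' := by
        intro a b
        apply Subtype.ext
        change w * (a.1 * b.1) * w⁻¹ = (w * a.1 * w⁻¹) * (w * b.1 * w⁻¹)
        group }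
  have hβ : ∀ u : U, (β u).1 = w * u.1 * w⁻¹ := fun _ => rfl
  haveI := hVn
  let V' : Subgroup U := V.subgroupOf U
  have hV'β : V' ≤ V'.comap β := fun v hv => hVw v.1 hv
  let β' : (U ⧸ V') →* (U ⧸ V') := QuotientGroup.map V' V' β hV'β
  have hβ' : ∀ u : U, β' (u : U ⧸ V') = ((β u : U) : U ⧸ V') := fun _ => rfl
  have hβ2 : ∀ x, β' (β' x) = x := by
    intro x
    obtain ⟨u, rfl⟩ := QuotientGroup.mk_surjective x
    rw [hβ', hβ']
    congr 1
    apply Subtype.ext
    rw [hβ, hβ]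
    exact hww u.1
  have hβfix : ∀ x, β' x = x → x = 1 := by
    intro x hx
    obtain ⟨u, rfl⟩ := QuotientGroup.mk_surjective x
    rw [hβ'] at hx
    have h1 : u.1⁻¹ * (w * u.1 * w⁻¹) ∈ V := by
      have := QuotientGroup.eq.mp hx.symm
      exact this
    set v := u.1⁻¹ * (w * u.1 * w⁻¹) with hv
    have hwu : w * u.1 * w⁻¹ = u.1 * v := by
      rw [hv]
      group
    -- applying `w` again
    have h2 : u.1 = (u.1 * v) * (w * v * w⁻¹) := by
      have h3 := hww u.1
      rw [hwu] at h3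
      have h4 : w * (u.1 * v) * w⁻¹ = (w * u.1 * w⁻¹) * (w * v * w⁻¹) := by group
      rw [h4, hwu] at h3
      exact h3.symm
    have h3 : v * (w * v * w⁻¹) = 1 := by
      have h4 : u.1 * (v * (w * v * w⁻¹)) = u.1 * 1 := by
        rw [mul_one]
        nth_rewrite 2 [h2]
        group
      exact mul_left_cancel h4
    have h5 : w * v * w⁻¹ = v := by
      have h6 : w * v * w⁻¹ = v⁻¹ := eq_inv_of_mul_eq_one_right h3
      rw [h6, hVinv v h1]
    have hmemV : u.1 ∈ V := by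
      rcases hfixV v h1 h5 with h6 | h6
      · -- `u` is fixed
        rw [h6, mul_one] at hwu
        rcases (hfix u.1 u.2).mp hwu with h7 | h7
        · rw [h7]
          exact V.one_mem
        · rw [h7]
          exact hyV
      · -- `u * a` is fixed
        have h7 : w * (u.1 * a) * w⁻¹ = u.1 * a := by
          have h8 : w * (u.1 * a) * w⁻¹ = (w * u.1 * w⁻¹) * (w * a * w⁻¹) := by group
          rw [h8, hwu, hwa, h6]
          have h9 : y * (a * y) = a * (y * y) := by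
            rw [← mul_assoc, hVcomm y hyV a haV, mul_assoc]
          rw [mul_assoc, h9, hVsq y hyV, mul_one]
        have h8 : u.1 * a ∈ V := by
          rcases (hfix _ (U.mul_mem u.2 (hVU haV))).mp h7 with h9 | h9
          · rw [h9]
            exact V.one_mem
          · rw [h9]
            exact hyV
        have h9 := V.mul_mem h8 (V.inv_mem haV)
        simpa using h9
    exact (QuotientGroup.eq_one_iff u).mpr hmemV
  obtain ⟨hQcomm, hQodd⟩ := fpf β' hβ2 hβfix
  refine ⟨hQodd, hV4, ?_⟩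
  rw [Subgroup.commutator_le]
  intro a ha b hb
  let a' : U := ⟨a, ha⟩
  let b' : U := ⟨b, hb⟩
  have h1 : ((b'⁻¹ * a'⁻¹ : U) : U ⧸ V') = ((a'⁻¹ * b'⁻¹ : U) : U ⧸ V') := by
    rw [QuotientGroup.mk_mul, QuotientGroup.mk_mul]
    exact hQcomm _ _
  have h2 := QuotientGroup.eq.mp h1
  have h3 : (((b'⁻¹ * a'⁻¹)⁻¹ * (a'⁻¹ * b'⁻¹) : U) : H) ∈ V := h2
  have h4 : (((b'⁻¹ * a'⁻¹)⁻¹ * (a'⁻¹ * b'⁻¹) : U) : H) = a * b * a⁻¹ * b⁻¹ := by
    change (b⁻¹ * a⁻¹)⁻¹ * (a⁻¹ * b⁻¹) = a * b * a⁻¹ * b⁻¹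
    group
  change a * b * a⁻¹ * b⁻¹ ∈ V
  rw [← h4]
  exact h3

end Cfsg.Agent.S3825
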