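import Mathlib
import Cfsg.Statements.S3857
import Cfsg.Agent.S0041
import Cfsg.Agent.Lib.NilCyc
import Cfsg.Agent.Lib.FitSolv
import Cfsg.Agent.Lib.SchurZ
import Cfsg.Agent.Lib.FitCore
import Cfsg.Agent.Lib.PCore
import Cfsg.Agent.Lib.SchurZ2
import Cfsg.Agent.Lib.UniqueSub
import Cfsg.Agent.Lib.ThompsonFpf
-- import your own Cfsg.Agent.* helpers here

set_option autoImplicit false
open Cfsg

namespace Cfsg.Agent.S3857


set_option autoImplicit false
set_option linter.all false

section H6Main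

open Subgroup Cfsg Cfsg.Agent.Lib.FitCore
open scoped Pointwise

theorem mem_conj' {G : Type*} [Group G] (H : Subgroup G) (x y : G) : x ∈ MulAut.conj y • H ↔ y⁻¹ * x * y ∈ H := by
  rw [Subgroup.mem_pointwise_smul_iff_inv_smul_mem]
  simp [MulAut.smul_def]

theorem frob_of_fpf {Γ : Type*} [Group Γ] [Finite Γ] (N S : Subgroup Γ) [hN : N.Normal] (hc : IsComplement' N S)
    (hN1 : N ≠ ⊥) (hS1 : S ≠ ⊥) (hfpf : ∀ s ∈ S, s ≠ 1 → ∀ n ∈ N, n * s = s * n → n = 1) :
    IsFrobeniusComplement S ∧ frobeniusKernel S = (N : Set Γ) := by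
  have hdis : ∀ x, x ∈ N → x ∈ S → x = 1 := by
    intro x hx hxS
    have h1 : x ∈ N ⊓ S := ⟨hx, hxS⟩
    rw [hc.disjoint.eq_bot] at h1
    exact Subgroup.mem_bot.1 h1
  refine ⟨⟨hS1, ?_, ?_⟩, ?_⟩
  · intro h
    apply hN1
    rw [eq_bot_iff]
    intro x hx
    exact Subgroup.mem_bot.2 (hdis x hx (by rw [h]; trivial))
  · intro g hg
    rw [eq_bot_iff]
    rintro x ⟨hxS, hxg₀⟩
    have hxg := (mem_conj' S x g).1 hxg₀
    obtain ⟨⟨n, s⟩, hns⟩ := hc.2 g
    have hns' : (n : Γ) * s = g := hns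
    have hn1 : (n : Γ) ≠ 1 := by
      intro h
      apply hg
      rw [← hns', h, one_mul]
      exact s.2
    rw [Subgroup.mem_bot]
    by_contra hx1
    apply hn1
    have h2 : (n : Γ)⁻¹ * x * n ∈ S := by
      have h3 := S.mul_mem (S.mul_mem s.2 hxg) (S.inv_mem s.2)
      have h4 : (s : Γ) * (g⁻¹ * x * g) * (s : Γ)⁻¹ = (n : Γ)⁻¹ * x * n := by
        rw [← hns']
        group
      rwa [h4] at h3
    have h5 : x⁻¹ * ((n : Γ)⁻¹ * x * n) ∈ N := by
      have h6 : x⁻¹ * ((n : Γ)⁻¹ * x * n) = (x⁻¹ * (n : Γ)⁻¹ * x) * n := by group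
      rw [h6]
      refine N.mul_mem ?_ n.2
      have := hN.conj_mem _ (N.inv_mem n.2) x⁻¹
      simpa using this
    have h7 := hdis _ h5 (S.mul_mem (S.inv_mem hxS) h2)
    have h8 : (n : Γ) * x = x * n := by
      have h9 : (n : Γ)⁻¹ * x * n = x := by
        calc (n : Γ)⁻¹ * x * n = x * (x⁻¹ * ((n : Γ)⁻¹ * x * n)) := by group
          _ = x := by rw [h7, mul_one]
      calc (n : Γ) * x = n * ((n : Γ)⁻¹ * x * n) := by rw [h9]
        _ = x * n := by group
    exact hfpf x hxS hx1 n n.2 h8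
  · ext x
    constructor
    · rintro (rfl | hx)
      · exact N.one_mem
      · by_contra hxN
        obtain ⟨⟨n, s⟩, hns⟩ := hc.2 x
        have hns' : (n : Γ) * s = x := hns
        have hs1 : (s : Γ) ≠ 1 := by
          intro h
          apply hxN
          rw [← hns', h, mul_one]
          exact n.2
        let f : N → N := fun m => ⟨m * ((s : Γ) * (m : Γ)⁻¹ * (s : Γ)⁻¹), N.mul_mem m.2 (hN.conj_mem _ (N.inv_mem m.2) _)⟩
        have hfinj : Function.Injective f := by
          intro a b hab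
          have h1 : (a : Γ) * ((s : Γ) * (a : Γ)⁻¹ * (s : Γ)⁻¹) = b * ((s : Γ) * (b : Γ)⁻¹ * (s : Γ)⁻¹) := congrArg Subtype.val hab
          have h3 : (a : Γ) * s * (a : Γ)⁻¹ = b * s * (b : Γ)⁻¹ := by
            have h4 : (a : Γ) * s * (a : Γ)⁻¹ * (s : Γ)⁻¹ = b * s * (b : Γ)⁻¹ * (s : Γ)⁻¹ := by
              calc (a : Γ) * s * (a : Γ)⁻¹ * (s : Γ)⁻¹ = (a : Γ) * ((s : Γ) * (a : Γ)⁻¹ * (s : Γ)⁻¹) := by group
                _ = b * ((s : Γ) * (b : Γ)⁻¹ * (s : Γ)⁻¹) := h1
                _ = _ := by group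
            exact mul_right_cancel h4
          have h2 : (b : Γ)⁻¹ * a * s = s * ((b : Γ)⁻¹ * a) := by
            calc (b : Γ)⁻¹ * a * s = (b : Γ)⁻¹ * ((a : Γ) * s * (a : Γ)⁻¹) * a := by group
              _ = (b : Γ)⁻¹ * (b * s * (b : Γ)⁻¹) * a := by rw [h3]
              _ = _ := by group
          have h6 := hfpf s s.2 hs1 _ (N.mul_mem (N.inv_mem b.2) a.2) h2
          apply Subtype.ext
          have h9 : (a : Γ) = b * ((b : Γ)⁻¹ * a) := by group
          rw [h9, h6, mul_one]
        obtain ⟨m, hm⟩ := (Finite.injective_iff_surjective.1 hfinj) n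
        have h1 : (m : Γ) * ((s : Γ) * (m : Γ)⁻¹ * (s : Γ)⁻¹) = n := congrArg Subtype.val hm
        apply hx (m : Γ)
        rw [mem_conj', ← hns', ← h1]
        have h2 : (m : Γ)⁻¹ * ((m : Γ) * ((s : Γ) * (m : Γ)⁻¹ * (s : Γ)⁻¹) * s) * m = s := by group
        rw [h2]
        exact s.2
    · intro hx
      by_cases hx1 : x = 1
      · exact Or.inl hx1
      · right
        intro g hg
        rw [mem_conj'] at hg
        have h1 : g⁻¹ * x * g ∈ N := by
          have := hN.conj_mem x hx g⁻¹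
          simpa using this
        have h2 := hdis _ h1 hg
        apply hx1
        calc x = g * (g⁻¹ * x * g) * g⁻¹ := by group
          _ = 1 := by rw [h2]; group

/-- All primes dividing `n` lie in `π`. -/
def IsPi (π : Set ℕ) (n : ℕ) : Prop := ∀ p : ℕ, p.Prime → p ∣ n → p ∈ π

theorem IsPi.mul {π : Set ℕ} {a b : ℕ} (ha : IsPi π a) (hb : IsPi π b) : IsPi π (a * b) := by
  intro p hp hd
  rcases (hp.dvd_mul).1 hd with h | h
  · exact ha p hp h
  · exact hb p hp h

theorem IsPi.dvd {π : Set ℕ} {a b : ℕ} (hb : IsPi π b) (hab : a ∣ b) : IsPi π a :=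
  fun p hp hd => hb p hp (hd.trans hab)

theorem IsPi.coprime {π : Set ℕ} {a b : ℕ} (ha : IsPi π a) (hb : IsPi πᶜ b) : Nat.Coprime a b := by
  by_contra h
  obtain ⟨p, hp, h1, h2⟩ := Nat.Prime.not_coprime_iff_dvd.1 h
  exact hb p hp h2 (ha p hp h1)

/-- No elements of order `a * b`. -/
def Cross (π : Set ℕ) (X : Type*) [Group X] : Prop :=
  ∀ a b : ℕ, a.Prime → b.Prime → a ∈ π → b ∉ π → ¬ ∃ g : X, orderOf g = a * b

section basics

variable {X : Type*} [Group X] [Finite X]

theorem exists_max (π : Set ℕ) (X : Type*) [Group X] [Finite X] :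
    ∃ N : Subgroup X, N.Normal ∧ IsPi π (Nat.card N) ∧ ∀ M : Subgroup X, M.Normal → IsPi π (Nat.card M) → M ≤ N := by
  let S : Set (Subgroup X) := {M | M.Normal ∧ IsPi π (Nat.card M)}
  have hS : S.Nonempty := ⟨⊥, inferInstance, by
    intro p hp hd
    rw [Subgroup.card_bot] at hd
    exact absurd (Nat.dvd_one.1 hd) hp.ne_one⟩
  obtain ⟨N, hN⟩ := Set.Finite.exists_maximal (Set.toFinite S) hS
  refine ⟨N, hN.prop.1, hN.prop.2, ?_⟩
  intro M hM hMπ
  haveI := hN.prop.1
  haveI := hM
  have hsup : N ⊔ M ∈ S := by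
    refine ⟨inferInstance, ?_⟩
    have hnorm : M ≤ normalizer (N : Set X) :=
      fun u _ => Subgroup.le_normalizer_of_normal (H := N) (K := ⊤) (Subgroup.mem_top u)
    have hc := Cfsg.Agent.Lib.SchurZ2.card_sup_mul_card_inf N M hnorm
    exact IsPi.dvd (IsPi.mul hN.prop.2 hMπ) ⟨_, hc.symm⟩
  have h1 := hN.le_of_ge hsup le_sup_left
  exact le_sup_right.trans h1

theorem comm_false {π : Set ℕ} (hX : Cross π X) {x y : X} (hc : x * y = y * x) (hx1 : x ≠ 1) (hy1 : y ≠ 1)
    (hx : IsPi π (orderOf x)) (hy : IsPi πᶜ (orderOf y)) : False := by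
  have hox : orderOf x ≠ 1 := fun h => hx1 (orderOf_eq_one_iff.1 h)
  have hoy : orderOf y ≠ 1 := fun h => hy1 (orderOf_eq_one_iff.1 h)
  obtain ⟨a, ha, hax⟩ := Nat.exists_prime_and_dvd hox
  obtain ⟨b, hb, hby⟩ := Nat.exists_prime_and_dvd hoy
  have haπ := hx a ha hax
  have hbπ : b ∉ π := hy b hb hby
  have hne : a ≠ b := fun e => hbπ (e ▸ haπ)
  obtain ⟨m, hm⟩ := hax
  obtain ⟨k, hk⟩ := hby
  have hm0 : m ≠ 0 := by
    rintro rfl
    rw [mul_zero] at hm
    exact (orderOf_pos x).ne' hm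
  have hk0 : k ≠ 0 := by
    rintro rfl
    rw [mul_zero] at hk
    exact (orderOf_pos y).ne' hk
  have h1 : orderOf (x ^ m) = a := by
    rw [orderOf_pow_of_dvd hm0 (by rw [hm]; exact dvd_mul_left _ _), hm]
    exact Nat.mul_div_cancel _ (Nat.pos_of_ne_zero hm0)
  have h2 : orderOf (y ^ k) = b := by
    rw [orderOf_pow_of_dvd hk0 (by rw [hk]; exact dvd_mul_left _ _), hk]
    exact Nat.mul_div_cancel _ (Nat.pos_of_ne_zero hk0)
  have h3 : Commute (x ^ m) (y ^ k) := (show Commute x y from hc).pow_pow m k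
  refine hX a b ha hb haπ hbπ ⟨x ^ m * y ^ k, ?_⟩
  rw [h3.orderOf_mul_eq_mul_orderOf_of_coprime (by rw [h1, h2]; exact (Nat.coprime_primes ha hb).2 hne), h1, h2]

theorem cross_quot {π : Set ℕ} (hX : Cross π X) {Y : Type*} [Group Y] (f : X →* Y) (hf : Function.Surjective f) :
    Cross π Y := by
  rintro a b ha hb haπ hbπ ⟨y, hy⟩
  obtain ⟨g, rfl⟩ := hf y
  have h4 : a * b ∣ orderOf g := by
    rw [← hy]
    exact orderOf_map_dvd f g
  obtain ⟨m, hm⟩ := h4
  have hm0 : m ≠ 0 := by
    rintro rfl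
    rw [mul_zero] at hm
    exact (orderOf_pos g).ne' hm
  refine hX a b ha hb haπ hbπ ⟨g ^ m, ?_⟩
  rw [orderOf_pow_of_dvd hm0 (by rw [hm]; exact dvd_mul_left _ _), hm]
  exact Nat.mul_div_cancel _ (Nat.pos_of_ne_zero hm0)

theorem card_comap_mk (N : Subgroup X) [hN : N.Normal] (M : Subgroup (X ⧸ N)) :
    Nat.card (M.comap (QuotientGroup.mk' N)) = Nat.card M * Nat.card N := by
  have h1 : (M.comap (QuotientGroup.mk' N)).index = M.index :=
    Subgroup.index_comap_of_surjective M (QuotientGroup.mk'_surjective N)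
  have h2 := (M.comap (QuotientGroup.mk' N)).card_mul_index
  have h3 := M.card_mul_index
  have h4 := Subgroup.card_eq_card_quotient_mul_card_subgroup N
  rw [h1] at h2
  rw [← h3] at h4
  have hpos : 0 < M.index := Nat.pos_of_ne_zero (fun h => by
    rw [h, mul_zero, zero_mul] at h4
    exact Nat.card_pos.ne' h4)
  rw [h4] at h2
  have h5 : Nat.card (M.comap (QuotientGroup.mk' N)) * M.index = (Nat.card M * Nat.card N) * M.index := by
    rw [h2]
    ring
  exact Nat.eq_of_mul_eq_mul_right hpos h5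

theorem exists_pCore_ne_bot (hXs : Group.IsSolvable X) (h1 : Nontrivial X) : ∃ p : ℕ, p.Prime ∧ pCore p X ≠ ⊥ := by
  let S : Set (Subgroup X) := {N | N.Normal ∧ N ≠ ⊥}
  have hS : S.Nonempty := ⟨⊤, inferInstance, top_ne_bot⟩
  obtain ⟨N, hN⟩ := Set.Finite.exists_minimal (Set.toFinite S) hS
  have hNn : N.Normal := hN.prop.1
  have hmin : ∀ M : Subgroup X, M.Normal → M ≤ N → M = ⊥ ∨ M = N := by
    intro M hM hMN
    by_cases h : M = ⊥
    · left; exact h
    · right
      exact le_antisymm hMN (hN.le_of_le ⟨hM, h⟩ hMN)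
  obtain ⟨-, p, hp, hpow⟩ := Cfsg.Agent.Lib.FitSolv.minimal_normal_elementary N hN.prop.2 hmin
  refine ⟨p, hp, ?_⟩
  haveI : Fact p.Prime := ⟨hp⟩
  have hle : N ≤ pCore p X := by
    refine le_pCore p N hNn ?_
    rintro ⟨x, hx⟩
    exact ⟨1, Subtype.ext (by simpa using hpow x hx)⟩
  intro h
  rw [h] at hle
  exact hN.prop.2 (le_bot_iff.1 hle)

theorem pCore_isPi {π : Set ℕ} {p : ℕ} (hp : p.Prime) (hpπ : p ∈ π) : IsPi π (Nat.card (pCore p X)) := by
  haveI : Fact p.Prime := ⟨hp⟩
  obtain ⟨k, hk⟩ := IsPGroup.iff_card.1 (pCore_isPGroup (G := X) p)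
  intro q hq hd
  rw [hk] at hd
  rwa [(Nat.prime_dvd_prime_iff_eq hq hp).1 (hq.dvd_of_dvd_pow hd)]

/-- A nilpotent group with a fixed-point-free automorphism acting fixed point freely on an abelian group is cyclic. -/
theorem cyclic_of_fpf_aut {G : Type*} [Group G] [Finite G] (V : Subgroup G) [hVn : V.Normal] [hVc : IsMulCommutative V]
    (hV : V ≠ ⊥) (C' : Subgroup G) (hfpf : ∀ a ∈ C', a ≠ 1 → ∀ v ∈ V, v * a = a * v → v = 1)
    (hnil : Group.IsNilpotent C') (τ : MulAut C') (hτ : ∀ c, τ c = c → c = 1) : IsCyclic C' := by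
  have sub_cyclic : ∀ (A : Subgroup G) (hA : A ≤ C')
      (hA' : IsMulCommutative A ∨ ∃ p q : ℕ, p.Prime ∧ q.Prime ∧ Nat.card A = p * q), IsCyclic A := by
    intro A hA hA'
    refine Cfsg.Agent.S0041.result A V hV ?_ ?_ hA'
    · intro x _
      exact Subgroup.le_normalizer_of_normal (H := V) (K := ⊤) (Subgroup.mem_top x)
    · intro a ha ha1
      rw [eq_bot_iff]
      rintro v ⟨hv, hvc⟩
      have hvc' := Subgroup.mem_centralizer_singleton_iff.1 hvc
      exact Subgroup.mem_bot.2 (hfpf a (hA ha) ha1 v hv hvc')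
  have omega_unique : ∀ (P : Subgroup G) (hPC : P ≤ C') {r : ℕ} [hr : Fact r.Prime]
      (hP : IsPGroup r P) {x y : G} (hx : x ∈ P) (hy : y ∈ P) (hxo : orderOf x = r) (hyo : orderOf y = r),
      y ∈ zpowers x := by
    intro P hPC r hr hP x y hx hy hxo hyo
    have hq := hr.out
    have hx1 : x ≠ 1 := by
      rintro rfl
      rw [orderOf_one] at hxo
      exact hq.ne_one hxo.symm
    haveI hPnt : Nontrivial P := ⟨⟨⟨x, hx⟩, 1, fun h => hx1 (congrArg Subtype.val h)⟩⟩
    have hcen := hP.center_nontrivial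
    have hdvd : r ∣ Nat.card (center P) := by
      have h1 : IsPGroup r (center P) := hP.to_subgroup _
      obtain ⟨m, hm⟩ := IsPGroup.iff_card.1 h1
      rw [hm]
      have : m ≠ 0 := by
        rintro rfl
        have h2 : Nat.card (center P) = 1 := by rw [hm, pow_zero]
        have h3 := Finite.one_lt_card_iff_nontrivial.2 hcen
        omega
      exact dvd_pow_self r this
    obtain ⟨z₀, hz₀⟩ := exists_prime_orderOf_dvd_card' r hdvd
    let z : G := ((z₀ : P) : G)
    have hzP : z ∈ P := (z₀ : P).2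
    have hzord : orderOf z = r := by
      rw [← hz₀]
      show orderOf (((z₀ : P) : G)) = _
      rw [Subgroup.orderOf_coe, Subgroup.orderOf_coe]
    have hzc : ∀ u ∈ P, u * z = z * u := by
      intro u hu
      exact congrArg Subtype.val ((Subgroup.mem_center_iff.1 z₀.2) ⟨u, hu⟩)
    have key : ∀ u ∈ P, orderOf u = r → u ∈ zpowers z := by
      intro u hu huo
      by_contra huz
      have hnorm : zpowers u ≤ normalizer ((zpowers z : Subgroup G) : Set G) := by
        rw [zpowers_le, Subgroup.mem_normalizer_iff]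
        intro h
        constructor
        · rintro ⟨i, rfl⟩
          refine ⟨i, ?_⟩
          show z ^ i = u * z ^ i * u⁻¹
          have h2 : Commute u (z ^ i) := (show Commute u z from hzc u hu).zpow_right i
          rw [h2.eq]
          group
        · rintro ⟨i, hi⟩
          have hi' : z ^ i = u * h * u⁻¹ := hi
          refine ⟨i, ?_⟩
          show z ^ i = h
          have h2 : Commute u (z ^ i) := (show Commute u z from hzc u hu).zpow_right i
          have h3 : u * z ^ i * u⁻¹ = z ^ i := by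
            rw [h2.eq]
            group
          have h4 : u * (z ^ i) * u⁻¹ = u * h * u⁻¹ := by rw [h3, hi']
          exact mul_left_cancel (mul_right_cancel h4)
      have hcard := Cfsg.Agent.Lib.SchurZ2.card_sup_mul_card_inf (zpowers z) (zpowers u) hnorm
      have hinf : Nat.card (zpowers z ⊓ zpowers u : Subgroup G) = 1 := by
        have h1 : Nat.card (zpowers z ⊓ zpowers u : Subgroup G) ∣ r := by
          have h2 := Subgroup.card_dvd_of_le (inf_le_right : zpowers z ⊓ zpowers u ≤ zpowers u)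
          rwa [Nat.card_zpowers, huo] at h2
        rcases (Nat.dvd_prime hq).1 h1 with h2 | h2
        · exact h2
        · exfalso
          apply huz
          have h3 : zpowers z ⊓ zpowers u = zpowers u := by
            refine Subgroup.eq_of_le_of_card_ge inf_le_right ?_
            rw [h2, Nat.card_zpowers, huo]
          have h4 : u ∈ zpowers z ⊓ zpowers u := by
            rw [h3]
            exact mem_zpowers u
          exact h4.1
      rw [hinf, mul_one, Nat.card_zpowers, Nat.card_zpowers, hzord, huo] at hcard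
      have hle : zpowers z ⊔ zpowers u ≤ C' := by
        refine sup_le ?_ ?_
        · rw [zpowers_le]; exact hPC hzP
        · rw [zpowers_le]; exact hPC hu
      have hcy : IsCyclic (zpowers z ⊔ zpowers u : Subgroup G) :=
        sub_cyclic _ hle (Or.inr ⟨r, r, hq, hq, hcard⟩)
      exact huz (Cfsg.Agent.Lib.NilCyc.mem_zpowers_of_cyclic (C := zpowers z ⊔ zpowers u) hq
        ((le_sup_left : zpowers z ≤ zpowers z ⊔ zpowers u) (mem_zpowers z))
        ((le_sup_right : zpowers u ≤ zpowers z ⊔ zpowers u) (mem_zpowers u)) hzord huo)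
    have h1 := key x hx hxo
    have h2 := key y hy hyo
    have h3 : zpowers x = zpowers z := by
      refine Subgroup.eq_of_le_of_card_ge ((zpowers_le).2 h1) ?_
      rw [Nat.card_zpowers, Nat.card_zpowers, hzord, hxo]
    rw [h3]
    exact h2
  haveI := hnil
  have hodd : Odd (Nat.card C') := by
    by_contra hodd
    have h2 : 2 ∣ Nat.card C' := by
      rw [Nat.not_odd_iff_even] at hodd
      exact hodd.two_dvd
    obtain ⟨t₀, ht₀⟩ := exists_prime_orderOf_dvd_card' 2 h2
    obtain ⟨Q⟩ : Nonempty (Sylow 2 C') := inferInstance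
    have hQn : (Q : Subgroup C').Normal := inferInstance
    have hmemQ : ∀ u : C', orderOf u = 2 → u ∈ (Q : Subgroup C') := by
      intro u hu
      have h1 : IsPGroup 2 (zpowers u) := IsPGroup.of_card (n := 1) (by rw [Nat.card_zpowers, hu, pow_one])
      obtain ⟨Q', hQ'⟩ := h1.exists_le_sylow
      haveI := Sylow.unique_of_normal Q hQn
      have h3 : Q' = Q := Subsingleton.elim _ _
      rw [← h3]
      exact hQ' (mem_zpowers u)
    let P : Subgroup G := (Q : Subgroup C').map C'.subtype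
    have hPC : P ≤ C' := Subgroup.map_subtype_le _
    have hPp : IsPGroup 2 P := Q.isPGroup'.map _
    let t₁ : C' := τ t₀
    have ht₁ : orderOf t₁ = 2 := by
      rw [← ht₀]
      exact orderOf_injective τ.toMonoidHom τ.injective t₀
    have hQ₀ := hmemQ t₀ ht₀
    have hQ₁ := hmemQ t₁ ht₁
    have hz : (t₁ : G) ∈ zpowers (t₀ : G) := by
      refine omega_unique P hPC hPp ⟨t₀, hQ₀, rfl⟩ ⟨t₁, hQ₁, rfl⟩ ?_ ?_
      · rw [Subgroup.orderOf_coe]; exact ht₀
      · rw [Subgroup.orderOf_coe]; exact ht₁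
    obtain ⟨i, hi⟩ := hz
    have ht₀o : orderOf (t₀ : G) = 2 := by rw [Subgroup.orderOf_coe]; exact ht₀
    have hi' : (t₀ : G) ^ i = t₁ := hi
    rw [← zpow_mod_orderOf, ht₀o] at hi'
    have ht₁1 : (t₁ : G) ≠ 1 := by
      intro h
      have h3 : t₁ = 1 := Subtype.ext h
      rw [h3, orderOf_one] at ht₁
      omega
    have heq : t₁ = t₀ := by
      apply Subtype.ext
      rcases Int.emod_two_eq_zero_or_one i with h4 | h4
      · exfalso
        rw [Nat.cast_ofNat, h4, zpow_zero] at hi'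
        exact ht₁1 hi'.symm
      · rw [Nat.cast_ofNat, h4, zpow_one] at hi'
        exact hi'.symm
    have h5 := hτ t₀ heq
    rw [h5, orderOf_one] at ht₀
    omega
  have hcomm : ∀ a b : C', a * b = b * a := by
    have hsyl : ∀ (r : ℕ) [Fact r.Prime] (P : Sylow r C'), IsCyclic P := by
      intro r hr P
      by_cases hr2 : r = 2
      · subst hr2
        obtain ⟨m, hm⟩ := IsPGroup.iff_card.1 P.isPGroup'
        have h1 : Nat.card (P : Subgroup C') ∣ Nat.card C' := Subgroup.card_subgroup_dvd_card _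
        have h2 : m = 0 := by
          by_contra h0
          have h3 : 2 ∣ Nat.card C' := (dvd_pow_self 2 h0).trans (hm ▸ h1)
          obtain ⟨k, hk⟩ := hodd
          omega
        rw [h2, pow_zero] at hm
        have : Subsingleton (P : Subgroup C') := (Nat.card_eq_one_iff_unique.1 hm).1
        exact isCyclic_of_subsingleton
      · have hU : Cfsg.Agent.Lib.UniqueSub.UniqueP r (P : Subgroup C') := by
          intro x y hx hy
          let P' : Subgroup G := (P : Subgroup C').map C'.subtype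
          have h1 : ((y : C') : G) ∈ zpowers ((x : C') : G) := by
            refine omega_unique P' (Subgroup.map_subtype_le _) (P.isPGroup'.map _)
              ⟨x, x.2, rfl⟩ ⟨y, y.2, rfl⟩ ?_ ?_
            · rw [Subgroup.orderOf_coe, Subgroup.orderOf_coe]; exact hx
            · rw [Subgroup.orderOf_coe, Subgroup.orderOf_coe]; exact hy
          obtain ⟨i, hi⟩ := h1
          refine ⟨i, Subtype.ext (Subtype.ext ?_)⟩
          exact hi
        rcases Cfsg.Agent.Lib.UniqueSub.cyclic_or_quaternion P.isPGroup' hU with h | ⟨h, -⟩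
        · exact h
        · exact absurd h hr2
    intro a b
    let e := Sylow.directProductOfNormal (G := C') (fun P => inferInstance)
    obtain ⟨a', rfl⟩ := e.surjective a
    obtain ⟨b', rfl⟩ := e.surjective b
    rw [← map_mul, ← map_mul]
    congr 1
    funext r P
    haveI : Fact (r : ℕ).Prime := ⟨Nat.prime_of_mem_primeFactors r.2⟩
    obtain ⟨g, hg⟩ := hsyl r P
    obtain ⟨i, hi⟩ := hg (a' r P)
    obtain ⟨j, hj⟩ := hg (b' r P)
    show a' r P * b' r P = b' r P * a' r P
    rw [← hi, ← hj]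
    show g ^ i * g ^ j = g ^ j * g ^ i
    rw [← zpow_add, ← zpow_add, add_comm]
  exact sub_cyclic C' le_rfl (Or.inl ⟨⟨hcomm⟩⟩)

end basics

variable {G : Type*} [Group G] [Finite G]

/-- The main argument. -/
theorem main (hsol : Group.IsSolvable G) (π : Set ℕ) {r₀ : ℕ} (hr₀ : r₀.Prime) (hr₀π : r₀ ∈ π) (hr₀c : pCore r₀ G ≠ ⊥)
    {b : ℕ} (hb : b.Prime) (hbπ : b ∉ π) (hbG : b ∣ Nat.card G) (hX : Cross π G) :
    (∃ C : Subgroup G, Cfsg.IsFrobeniusComplement C) ∨
    (∃ (H K : Subgroup G) (_ : H.Normal), K.Normal ∧ H < K ∧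
      (∃ C : Subgroup ↥K, Cfsg.IsFrobeniusComplement C ∧ Cfsg.frobeniusKernel C = (H.subgroupOf K : Set ↥K)) ∧
      (∃ C : Subgroup (G ⧸ H), Cfsg.IsFrobeniusComplement C ∧ Cfsg.frobeniusKernel C = (K.map (QuotientGroup.mk' H) : Set (G ⧸ H)))) := by
  classical
  obtain ⟨N, hNn, hNπ, hNmax⟩ := exists_max π G
  haveI := hNn
  have hN1 : N ≠ ⊥ := by
    intro h
    apply hr₀c
    have h1 := hNmax _ (pCore_normal r₀ G) (pCore_isPi hr₀ hr₀π)
    rw [h] at h1
    exact le_bot_iff.1 h1
  have hXb : Cross π (G ⧸ N) := cross_quot hX (QuotientGroup.mk' N) (QuotientGroup.mk'_surjective N)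
  have hOb : ∀ M : Subgroup (G ⧸ N), M.Normal → IsPi π (Nat.card M) → M = ⊥ := by
    intro M hM hMπ
    have h1 := hNmax (M.comap (QuotientGroup.mk' N)) (hM.comap _) (by
      rw [card_comap_mk]
      exact IsPi.mul hMπ hNπ)
    rw [eq_bot_iff]
    intro y hy
    obtain ⟨x, rfl⟩ := QuotientGroup.mk_surjective y
    exact Subgroup.mem_bot.2 ((QuotientGroup.eq_one_iff x).2 (h1 hy))
  have hcardG : Nat.card G = Nat.card (G ⧸ N) * Nat.card N := Subgroup.card_eq_card_quotient_mul_card_subgroup N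
  have hcardidx : N.index = Nat.card (G ⧸ N) := rfl
  have hord : ∀ (Y : Type _) [Group Y] [Finite Y] (L : Subgroup Y) (ρ : Set ℕ), IsPi ρ (Nat.card L) → ∀ x ∈ L, IsPi ρ (orderOf x) := by
    intro Y _ _ L ρ hL x hx
    exact IsPi.dvd hL (Subgroup.orderOf_dvd_natCard L hx)
  by_cases hcase : IsPi πᶜ (Nat.card (G ⧸ N))
  · -- Frobenius case
    left
    have hcop : Nat.Coprime (Nat.card N) N.index := IsPi.coprime hNπ hcase
    obtain ⟨S, hS⟩ := Subgroup.exists_right_complement'_of_coprime hcop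
    have hScard : Nat.card S = Nat.card (G ⧸ N) := by
      have h1 := hS.card_mul
      have h2 := N.card_mul_index
      exact Nat.eq_of_mul_eq_mul_left Nat.card_pos (h1.trans h2.symm)
    have hSσ : IsPi πᶜ (Nat.card S) := by rw [hScard]; exact hcase
    have hS1 : S ≠ ⊥ := by
      intro h
      rw [h, Subgroup.card_bot] at hScard
      rw [← hScard, one_mul] at hcardG
      rw [hcardG] at hbG
      exact hbπ (hNπ b hb hbG)
    refine ⟨S, (frob_of_fpf N S hS hN1 hS1 ?_).1⟩
    intro s hs hs1 n hn hc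
    by_contra hn1
    exact comm_false hX hc hn1 hs1 (hord _ N π hNπ n hn) (hord _ S _ hSσ s hs)
  · -- the second case
    right
    obtain ⟨t, ht, htb, htπ⟩ : ∃ t : ℕ, t.Prime ∧ t ∣ Nat.card (G ⧸ N) ∧ t ∈ π := by
      by_contra hno
      push Not at hno
      exact hcase (fun p hp hd => hno p hp hd)
    haveI : Fact t.Prime := ⟨ht⟩
    obtain ⟨Nb, hNbn, hNbσ, hNbmax⟩ := exists_max πᶜ (G ⧸ N)
    haveI := hNbn
    have hGbs : Group.IsSolvable (G ⧸ N) := inferInstance
    have hGbnt : Nontrivial (G ⧸ N) := by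
      refine Finite.one_lt_card_iff_nontrivial.1 ?_
      have := ht.two_le
      have h2 := Nat.le_of_dvd Nat.card_pos htb
      omega
    have hNb1 : Nb ≠ ⊥ := by
      obtain ⟨r, hr, hrc⟩ := exists_pCore_ne_bot hGbs hGbnt
      by_cases hrπ : r ∈ π
      · exact absurd (hOb _ (pCore_normal r (G ⧸ N)) (pCore_isPi hr hrπ)) hrc
      · intro h
        apply hrc
        have h1 := hNbmax _ (pCore_normal r (G ⧸ N)) (pCore_isPi hr (show r ∈ πᶜ from hrπ))
        rw [h] at h1
        exact le_bot_iff.1 h1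
    obtain ⟨x, hx⟩ := exists_prime_orderOf_dvd_card' t htb
    have hx1 : x ≠ 1 := by
      rintro rfl
      rw [orderOf_one] at hx
      exact ht.ne_one hx.symm
    have hxπ : IsPi π (orderOf x) := by
      rw [hx]
      intro p hp hd
      rwa [(Nat.prime_dvd_prime_iff_eq hp ht).1 hd]
    have hNbfix : ∀ n ∈ Nb, n * x = x * n → n = 1 := by
      intro n hn hc
      by_contra hn1
      exact comm_false hXb hc.symm hx1 hn1 hxπ (hord _ Nb _ hNbσ n hn)
    -- `Nb` is nilpotent
    have hNbnil : Group.IsNilpotent Nb := by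
      let φ : Nb →* Nb := (MulAut.conjNormal x : MulAut Nb).toMonoidHom
      have hφit : ∀ (k : ℕ) (g : Nb), φ^[k] g = (MulAut.conjNormal (x ^ k) : MulAut Nb) g := by
        intro k
        induction k with
        | zero =>
          intro g
          simp
        | succ k ih =>
          intro g
          rw [Function.iterate_succ_apply', ih, pow_succ', map_mul]
          rfl
      refine Cfsg.Agent.Lib.ThompsonFpf.thompson_aux ht _ Nb φ rfl ?_ ?_
      · intro g hg
        have h1 : x * (g : G ⧸ N) * x⁻¹ = g := congrArg Subtype.val hg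
        apply Subtype.ext
        apply hNbfix _ g.2
        calc (g : G ⧸ N) * x = (x * (g : G ⧸ N) * x⁻¹) * x := by rw [h1]
          _ = x * g := by group
      · intro g
        rw [hφit, ← hx, pow_orderOf_eq_one, map_one]
        rfl
    -- the preimage
    let K : Subgroup G := Nb.comap (QuotientGroup.mk' N)
    have hKn : K.Normal := hNbn.comap _
    haveI := hKn
    have hNK : N ≤ K := by
      intro y hy
      show ((y : G) : G ⧸ N) ∈ Nb
      rw [(QuotientGroup.eq_one_iff y).2 hy]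
      exact Nb.one_mem
    have hKmap : K.map (QuotientGroup.mk' N) = Nb :=
      Subgroup.map_comap_eq_self_of_surjective (QuotientGroup.mk'_surjective N) Nb
    have hKcard : Nat.card K = Nat.card Nb * Nat.card N := card_comap_mk N Nb
    have hNKlt : N < K := by
      refine lt_of_le_of_ne hNK ?_
      intro h
      apply hNb1
      rw [← hKmap, ← h, eq_bot_iff]
      rintro _ ⟨y, hy, rfl⟩
      exact Subgroup.mem_bot.2 ((QuotientGroup.eq_one_iff y).2 hy)
    -- complement in `K`
    let N' : Subgroup K := N.subgroupOf K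
    have hN'card : Nat.card N' = Nat.card N := Nat.card_congr (Subgroup.subgroupOfEquivOfLe hNK).toEquiv
    have hN'idx : N'.index = Nat.card Nb := by
      have h1 := N'.card_mul_index
      rw [hN'card, hKcard, mul_comm] at h1
      exact Nat.eq_of_mul_eq_mul_right Nat.card_pos h1
    have hN'n : N'.Normal := inferInstance
    have hcopK : Nat.Coprime (Nat.card N') N'.index := by
      rw [hN'card, hN'idx]
      exact IsPi.coprime hNπ hNbσ
    obtain ⟨Q, hQ⟩ := Subgroup.exists_right_complement'_of_coprime hcopK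
    have hQcard : Nat.card Q = Nat.card Nb := by
      have h1 := hQ.card_mul
      have h2 := N'.card_mul_index
      rw [hN'idx] at h2
      exact Nat.eq_of_mul_eq_mul_left Nat.card_pos (h1.trans h2.symm)
    have hQ1 : Q ≠ ⊥ := by
      intro h
      rw [h, Subgroup.card_bot] at hQcard
      apply hNb1
      exact (Subgroup.card_eq_one).1 hQcard.symm
    have hN'1 : N' ≠ ⊥ := by
      intro h
      apply hN1
      rw [eq_bot_iff]
      intro y hy
      have h1 : (⟨y, hNK hy⟩ : K) ∈ N' := hy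
      rw [h] at h1
      exact Subgroup.mem_bot.2 (congrArg Subtype.val (Subgroup.mem_bot.1 h1))
    have hQfix : ∀ s ∈ Q, s ≠ 1 → ∀ n ∈ N', n * s = s * n → n = 1 := by
      intro s hs hs1 n hn hc
      by_contra hn1
      have hn1' : (n : G) ≠ 1 := fun e => hn1 (Subtype.ext e)
      have hs1' : (s : G) ≠ 1 := fun e => hs1 (Subtype.ext e)
      refine comm_false hX (x := (n : G)) (y := (s : G)) (congrArg Subtype.val hc) hn1' hs1' ?_ ?_
      · exact hord _ N π hNπ _ hn
      · rw [Subgroup.orderOf_coe]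
        refine hord _ Q _ ?_ s hs
        rw [hQcard]
        exact hNbσ
    -- the map to `Nb`
    let C' : Subgroup G := Q.map K.subtype
    let f : C' →* Nb := ((QuotientGroup.mk' N).comp C'.subtype).codRestrict Nb (fun c => by
      obtain ⟨q, -, hq⟩ := c.2
      show ((c : G) : G ⧸ N) ∈ Nb
      rw [← hq]
      exact q.2)
    have hC'disj : ∀ c ∈ C', c ∈ N → c = 1 := by
      rintro _ ⟨q, hq, rfl⟩ hN
      have h1 : q ∈ N' ⊓ Q := ⟨hN, hq⟩
      rw [hQ.disjoint.eq_bot] at h1
      exact congrArg Subtype.val (Subgroup.mem_bot.1 h1)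
    have hf : Function.Bijective f := by
      constructor
      · rw [injective_iff_map_eq_one]
        rintro ⟨c, hc⟩ hk
        have h1 : ((c : G) : G ⧸ N) = 1 := congrArg Subtype.val hk
        exact Subtype.ext (hC'disj c hc ((QuotientGroup.eq_one_iff c).1 h1))
      · rintro ⟨y, hy⟩
        obtain ⟨g, rfl⟩ := QuotientGroup.mk_surjective y
        obtain ⟨⟨n, q⟩, hnq⟩ := hQ.2 ⟨g, hy⟩
        refine ⟨⟨q.1.1, q.1, q.2, rfl⟩, Subtype.ext ?_⟩
        show ((q.1.1 : G) : G ⧸ N) = (g : G ⧸ N)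
        have h1 : (n.1.1 : G) * q.1.1 = g := congrArg Subtype.val hnq
        have h3 : ((n.1.1 : G) : G ⧸ N) = 1 := (QuotientGroup.eq_one_iff _).2 n.2
        rw [← h1, QuotientGroup.mk_mul, h3, one_mul]
    let θ : C' ≃* Nb := MulEquiv.ofBijective f hf
    have hC'nil : Group.IsNilpotent C' := by
      haveI := hNbnil
      exact nilpotent_of_mulEquiv θ.symm
    -- an abelian normal subgroup in `N`
    have hNs : Group.IsSolvable N := inferInstance
    obtain ⟨V, hVn, hVN, hV1, hVc⟩ := Cfsg.Agent.Lib.SchurZ.exists_abelian_normal N hNs hN1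
    haveI := hVn
    haveI hVc' : IsMulCommutative V := ⟨⟨fun a b => Subtype.ext (hVc a a.2 b b.2)⟩⟩
    let τ : MulAut C' := θ.trans ((MulAut.conjNormal x : MulAut Nb).trans θ.symm)
    have hτ : ∀ c, τ c = c → c = 1 := by
      intro c hc
      have h1 : (MulAut.conjNormal x : MulAut Nb) (θ c) = θ c := by
        have h2 := congrArg θ hc
        simpa [τ] using h2
      have h3 : x * (θ c : G ⧸ N) * x⁻¹ = θ c := congrArg Subtype.val h1
      have h4 := hNbfix _ (θ c).2 (by
        calc ((θ c : Nb) : G ⧸ N) * x = (x * (θ c : G ⧸ N) * x⁻¹) * x := by rw [h3]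
          _ = x * θ c := by group)
      have h5 : θ c = 1 := Subtype.ext h4
      exact θ.injective (by rw [h5, map_one])
    have hC'σ : IsPi πᶜ (Nat.card C') := by
      have h1 : Nat.card C' = Nat.card Nb := (Nat.card_congr θ.toEquiv)
      rw [h1]
      exact hNbσ
    have hC'cyc : IsCyclic C' := by
      refine cyclic_of_fpf_aut V hV1 C' ?_ hC'nil τ hτ
      intro a ha ha1 v hv hc
      by_contra hv1
      exact comm_false hX hc hv1 ha1 (hord _ N π hNπ v (hVN hv)) (hord _ C' _ hC'σ a ha)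
    have hNbcyc : IsCyclic Nb := isCyclic_of_surjective θ.toMonoidHom θ.surjective
    -- centraliser of `Nb`
    have hAcomm : ∀ a b : MulAut Nb, a * b = b * a := by
      intro a b
      apply (IsCyclic.mulAutMulEquiv Nb).injective
      rw [map_mul, map_mul, mul_comm]
    have hCle : centralizer (Nb : Set (G ⧸ N)) ≤ Nb := by
      refine hNbmax _ (Cfsg.Agent.Lib.FitSolv.normal_centralizer_of_normal Nb) ?_
      intro p hp hd
      haveI : Fact p.Prime := ⟨hp⟩
      show p ∉ π
      intro hpπ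
      obtain ⟨c, hc⟩ := exists_prime_orderOf_dvd_card' p hd
      obtain ⟨y, hy⟩ := Subgroup.ne_bot_iff_exists_ne_one.1 hNb1
      have hy' : (y : G ⧸ N) ≠ 1 := fun e => hy (Subtype.ext e)
      have hc1 : (c : G ⧸ N) ≠ 1 := by
        intro e
        have h2 : c = 1 := Subtype.ext e
        rw [h2, orderOf_one] at hc
        exact hp.ne_one hc.symm
      have hcc : (y : G ⧸ N) * c = c * y := Subgroup.mem_centralizer_iff.1 c.2 y y.2
      refine comm_false hXb (x := (c : G ⧸ N)) (y := (y : G ⧸ N)) hcc.symm hc1 hy' ?_ (hord _ Nb _ hNbσ _ y.2)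
      rw [Subgroup.orderOf_coe, hc]
      intro q hq hdq
      rwa [(Nat.prime_dvd_prime_iff_eq hq hp).1 hdq]
    have hcomm : ∀ g h : G ⧸ N, g * h * g⁻¹ * h⁻¹ ∈ Nb := by
      intro g h
      apply hCle
      rw [Subgroup.mem_centralizer_iff]
      intro n hn
      have h1 : (MulAut.conjNormal (g * h * g⁻¹ * h⁻¹) : MulAut Nb) = 1 := by
        simp only [map_mul, map_inv]
        rw [hAcomm (MulAut.conjNormal g) (MulAut.conjNormal h)]
        group
      have h2 := congrArg (fun f : MulAut Nb => ((f ⟨n, hn⟩ : Nb) : G ⧸ N)) h1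
      simp only [MulAut.conjNormal_apply, MulAut.one_apply] at h2
      calc n * (g * h * g⁻¹ * h⁻¹) = ((g * h * g⁻¹ * h⁻¹) * n * (g * h * g⁻¹ * h⁻¹)⁻¹) * (g * h * g⁻¹ * h⁻¹) := by rw [h2]
        _ = _ := by group
    -- the quotient is a `π`-group
    have hquot : IsPi π (Nat.card ((G ⧸ N) ⧸ Nb)) := by
      intro s hs hd
      by_contra hsπ
      haveI : Fact s.Prime := ⟨hs⟩
      obtain ⟨y, hy⟩ := exists_prime_orderOf_dvd_card' s hd
      have hyn : (zpowers y).Normal := by
        constructor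
        rintro _ ⟨i, rfl⟩ g
        obtain ⟨g', rfl⟩ := QuotientGroup.mk_surjective g
        obtain ⟨y', rfl⟩ := QuotientGroup.mk_surjective y
        refine ⟨i, ?_⟩
        show (y' : (G ⧸ N) ⧸ Nb) ^ i = (g' : (G ⧸ N) ⧸ Nb) * (y' : (G ⧸ N) ⧸ Nb) ^ i * (g' : (G ⧸ N) ⧸ Nb)⁻¹
        have h1 : (g' : (G ⧸ N) ⧸ Nb) * y' = y' * g' := by
          rw [← QuotientGroup.mk_mul, ← QuotientGroup.mk_mul, QuotientGroup.eq]
          have h2 := hcomm y'⁻¹ g'⁻¹
          have h3 : (g' * y')⁻¹ * (y' * g') = y'⁻¹ * g'⁻¹ * y'⁻¹⁻¹ * g'⁻¹⁻¹ := by group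
          rw [h3]
          exact h2
        have h4 : Commute (g' : (G ⧸ N) ⧸ Nb) ((y' : (G ⧸ N) ⧸ Nb) ^ i) := (show Commute _ _ from h1).zpow_right i
        rw [h4.eq]
        group
      have h5 := hNbmax ((zpowers y).comap (QuotientGroup.mk' Nb)) (hyn.comap _) (by
        rw [card_comap_mk, Nat.card_zpowers, hy]
        refine IsPi.mul ?_ hNbσ
        intro q hq hdq
        rwa [(Nat.prime_dvd_prime_iff_eq hq hs).1 hdq])
      obtain ⟨y', rfl⟩ := QuotientGroup.mk_surjective y
      have h6 : y' ∈ Nb := h5 (show ((y' : (G ⧸ N) ⧸ Nb)) ∈ zpowers (y' : (G ⧸ N) ⧸ Nb) from mem_zpowers _)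
      rw [(QuotientGroup.eq_one_iff y').2 h6, orderOf_one] at hy
      exact hs.ne_one hy.symm
    have hcopb : Nat.Coprime (Nat.card Nb) Nb.index := (IsPi.coprime hquot hNbσ).symm
    obtain ⟨Pb, hPb⟩ := Subgroup.exists_right_complement'_of_coprime hcopb
    have hPbcard : Nat.card Pb = Nat.card ((G ⧸ N) ⧸ Nb) := by
      have h1 := hPb.card_mul
      have h2 := Nb.card_mul_index
      exact Nat.eq_of_mul_eq_mul_left Nat.card_pos (h1.trans h2.symm)
    have hPb1 : Pb ≠ ⊥ := by
      intro h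
      rw [h, Subgroup.card_bot] at hPbcard
      have h1 := Subgroup.card_eq_card_quotient_mul_card_subgroup Nb
      rw [← hPbcard, one_mul] at h1
      rw [h1] at htb
      exact hNbσ t ht htb htπ
    have hPbfix : ∀ s ∈ Pb, s ≠ 1 → ∀ n ∈ Nb, n * s = s * n → n = 1 := by
      intro s hs hs1 n hn hc
      by_contra hn1
      refine comm_false hXb hc.symm hs1 hn1 ?_ (hord _ Nb _ hNbσ n hn)
      refine hord _ Pb _ ?_ s hs
      rw [hPbcard]
      exact hquot
    obtain ⟨hF1, hF2⟩ := frob_of_fpf N' Q hQ hN'1 hQ1 hQfix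
    obtain ⟨hF3, hF4⟩ := frob_of_fpf Nb Pb hPb hNb1 hPb1 hPbfix
    refine ⟨N, K, hNn, hKn, hNKlt, ⟨Q, hF1, hF2⟩, ⟨Pb, hF3, ?_⟩⟩
    rw [hF4, hKmap]

end H6Main

/-- A finite solvable group whose prime graph (prime divisors of the order, two distinct primes joined when there is an element of order their product) is disconnected is a Frobenius group or a 2-Frobenius group (it has normal subgroups H < K with K a Frobenius group with kernel H and G/H a Frobenius group with kernel K/H). -/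
theorem result {G : Type*} [Group G] [Finite G] (hsol : Group.IsSolvable G)
    (hdisc : (∃ A : Set ℕ, (∃ a ∈ A, a.Prime ∧ a ∣ Nat.card G) ∧ (∃ b ∉ A, b.Prime ∧ b ∣ Nat.card G) ∧
      ∀ a ∈ A, ∀ b ∉ A, a.Prime → b.Prime → a ∣ Nat.card G → b ∣ Nat.card G → ¬ ∃ g : G, orderOf g = a * b)) :
    (∃ C : Subgroup G, Cfsg.IsFrobeniusComplement C) ∨
    (∃ (H K : Subgroup G) (_ : H.Normal), K.Normal ∧ H < K ∧
      (∃ C : Subgroup ↥K, Cfsg.IsFrobeniusComplement C ∧ Cfsg.frobeniusKernel C = (H.subgroupOf K : Set ↥K)) ∧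
      (∃ C : Subgroup (G ⧸ H), Cfsg.IsFrobeniusComplement C ∧ Cfsg.frobeniusKernel C = (K.map (QuotientGroup.mk' H) : Set (G ⧸ H)))) := by
  obtain ⟨A, ⟨a, haA, ha, haG⟩, ⟨b, hbA, hb, hbG⟩, hcross⟩ := hdisc
  have hnt : Nontrivial G := by
    refine Finite.one_lt_card_iff_nontrivial.1 ?_
    have h1 := ha.two_le
    have h2 := Nat.le_of_dvd Nat.card_pos haG
    omega
  obtain ⟨r, hr, hrc⟩ := exists_pCore_ne_bot hsol hnt
  by_cases hrA : r ∈ A
  · refine main hsol A hr hrA hrc hb hbA hbG ?_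
    rintro x y hx hy hxA hyA ⟨g, hg⟩
    have h1 : x * y ∣ Nat.card G := hg ▸ orderOf_dvd_natCard g
    exact hcross x hxA y hyA hx hy ((dvd_mul_right _ _).trans h1) ((dvd_mul_left _ _).trans h1) ⟨g, hg⟩
  · refine main hsol Aᶜ hr hrA hrc ha (by simpa using haA) haG ?_
    rintro x y hx hy hxA hyA ⟨g, hg⟩
    have h1 : x * y ∣ Nat.card G := hg ▸ orderOf_dvd_natCard g
    have hyA' : y ∈ A := by simpa using hyA
    exact hcross y hyA' x hxA hy hx ((dvd_mul_left _ _).trans h1) ((dvd_mul_right _ _).trans h1) ⟨g, by rw [hg, mul_comm]⟩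

end Cfsg.Agent.S3857
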