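import Cfsg.Statements.S3859
import Cfsg.Agent.Lib.PIrreducible
-- import your own Cfsg.Agent.* helpers here

set_option autoImplicit false
open Cfsg

namespace Cfsg.Agent.S3859

theorem facts {G : Type*} [Group G] [Finite G] (T : Subgroup G) [T.Normal] (hT : IsSimpleGroup T)
    (hna : ¬ IsMulCommutative T) {r : ℕ} [Fact r.Prime] (R : Sylow r G)
    (hR0 : (R : Subgroup G) ⊓ T ≠ ⊥) :
    (R : Subgroup G) ≤ Subgroup.normalizer (((R : Subgroup G) ⊓ T : Subgroup G) : Set G) ∧
    Subgroup.normalizer (((R : Subgroup G) ⊓ T : Subgroup G) : Set G) ≠ ⊤ ∧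
    Subgroup.normalizer (((R : Subgroup G) ⊓ T : Subgroup G) : Set G) ⊔ T = ⊤ ∧
    Subgroup.normalizer ((R : Subgroup G) : Set G) ≤
      Subgroup.normalizer (((R : Subgroup G) ⊓ T : Subgroup G) : Set G) := by
  classical
  have hconj : ∀ x : G, x ∈ Subgroup.normalizer ((R : Subgroup G) : Set G) →
      x ∈ Subgroup.normalizer (((R : Subgroup G) ⊓ T : Subgroup G) : Set G) := by
    intro x hx
    rw [Subgroup.mem_normalizer_iff] at hx ⊢
    intro y
    have hTc : y ∈ T ↔ x * y * x⁻¹ ∈ T := by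
      constructor
      · intro h
        exact Subgroup.Normal.conj_mem inferInstance y h x
      · intro h
        have := Subgroup.Normal.conj_mem (inferInstance : T.Normal) _ h x⁻¹
        simpa [mul_assoc] using this
    constructor
    · rintro ⟨h1, h2⟩
      exact ⟨(hx y).mp h1, hTc.mp h2⟩
    · rintro ⟨h1, h2⟩
      exact ⟨(hx y).mpr h1, hTc.mpr h2⟩
  have hRle : (R : Subgroup G) ≤ Subgroup.normalizer (((R : Subgroup G) ⊓ T : Subgroup G) : Set G) :=
    fun x hx => hconj x (Subgroup.le_normalizer hx)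
  refine ⟨hRle, ?_, ?_, fun x hx => hconj x hx⟩
  · intro htop
    have hnorm : ((R : Subgroup G) ⊓ T).Normal := Subgroup.normalizer_eq_top_iff.mp htop
    haveI hnT : (((R : Subgroup G) ⊓ T).subgroupOf T).Normal := Subgroup.Normal.subgroupOf hnorm T
    rcases hT.eq_bot_or_eq_top_of_normal _ hnT with h | h
    · apply hR0
      rw [eq_bot_iff]
      intro x hx
      have h1 : (⟨x, hx.2⟩ : T) ∈ ((R : Subgroup G) ⊓ T).subgroupOf T := hx
      rw [h, Subgroup.mem_bot] at h1
      exact (Subgroup.mem_bot).mpr (congrArg Subtype.val h1)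
    · -- `T` is an `r`-group
      have hTr : T ≤ (R : Subgroup G) := by
        intro x hx
        have h1 : (⟨x, hx⟩ : T) ∈ ((R : Subgroup G) ⊓ T).subgroupOf T := by rw [h]; trivial
        exact h1.1
      have hpT : IsPGroup r T := R.isPGroup'.to_le hTr
      haveI : Nontrivial T := hT.toNontrivial
      haveI hnc : Nontrivial (Subgroup.center T) := hpT.center_nontrivial
      have hct : Subgroup.center T = ⊤ := by
        rcases hT.eq_bot_or_eq_top_of_normal (Subgroup.center T) inferInstance with h2 | h2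
        · exfalso
          rw [h2] at hnc
          obtain ⟨⟨a, ha⟩, ⟨b, hb⟩, hab⟩ := hnc
          rw [Subgroup.mem_bot] at ha hb
          exact hab (Subtype.ext (ha.trans hb.symm))
        · exact h2
      apply hna
      refine ⟨⟨fun a b => ?_⟩⟩
      have : a ∈ Subgroup.center T := by rw [hct]; trivial
      exact (Subgroup.mem_center_iff.mp this b).symm
  · obtain ⟨P, hP⟩ := Cfsg.Agent.Lib.PIrreducible.exists_sylow_inf_normal (p := r) R (N := T)
    have := Sylow.normalizer_sup_eq_top P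
    rw [hP] at this
    exact this

theorem exists_coatom_ge {G : Type*} [Group G] [Finite G] (K : Subgroup G) (hK : K ≠ ⊤) :
    ∃ M : Subgroup G, IsCoatom M ∧ K ≤ M := by
  rcases eq_top_or_exists_le_coatom K with h | h
  · exact absurd h hK
  · obtain ⟨M, hM, hle⟩ := h
    exact ⟨M, hM, hle⟩


/-- Let G be a finite group with a normal non-abelian simple subgroup T whose centralizer is trivial (G almost simple with socle T), r a prime and R a Sylow r-subgroup of G meeting T nontrivially. If R lies in exactly one maximal subgroup of G, then G/T is an r-group. -/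
theorem result {G : Type*} [Group G] [Finite G] (T : Subgroup G) [T.Normal] (hT : IsSimpleGroup T) (hna : ¬ IsMulCommutative T)
    (hC : Subgroup.centralizer (T : Set G) = ⊥) {r : ℕ} [Fact r.Prime] (R : Sylow r G) (hR0 : (R : Subgroup G) ⊓ T ≠ ⊥)
    (huniq : ∃! M : Subgroup G, IsCoatom M ∧ (R : Subgroup G) ≤ M) : IsPGroup r (G ⧸ T) := by
  classical
  obtain ⟨hRN, hNtop, hNT, -⟩ := facts T hT hna R hR0
  obtain ⟨M, ⟨hMc, hRM⟩, huq⟩ := huniq
  have hsup : (R : Subgroup G) ⊔ T = ⊤ := by
    by_contra hne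
    obtain ⟨M₁, hM₁, hle⟩ := exists_coatom_ge _ hne
    obtain ⟨M₂, hM₂, hle₂⟩ := exists_coatom_ge _ hNtop
    have h1 : M₁ = M := huq M₁ ⟨hM₁, le_sup_left.trans hle⟩
    have h2 : M₂ = M := huq M₂ ⟨hM₂, hRN.trans hle₂⟩
    have h3 : (⊤ : Subgroup G) ≤ M := by
      rw [← hNT]
      exact sup_le (h2 ▸ hle₂) (h1 ▸ (le_sup_right.trans hle))
    exact hMc.1 (top_le_iff.mp h3)
  refine IsPGroup.of_surjective R.isPGroup' ((QuotientGroup.mk' T).comp (R : Subgroup G).subtype) ?_
  intro q
  obtain ⟨g, rfl⟩ := QuotientGroup.mk_surjective q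
  have hg : g ∈ (R : Subgroup G) ⊔ T := by rw [hsup]; trivial
  obtain ⟨a, ha, b, hb, rfl⟩ := Subgroup.mem_sup_of_normal_right.mp hg
  refine ⟨⟨a, ha⟩, ?_⟩
  change ((a : G) : G ⧸ T) = ((a * b : G) : G ⧸ T)
  rw [QuotientGroup.mk_mul, (QuotientGroup.eq_one_iff b).mpr hb, mul_one]

end Cfsg.Agent.S3859
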