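import Cfsg.Statements.S3858
import Cfsg.Agent.S3859
import Cfsg.Agent.Lib.AmalgamChar
import Cfsg.Agent.Lib.H6Basic
import Cfsg.Agent.Lib.SylowCount
-- import your own Cfsg.Agent.* helpers here

set_option autoImplicit false
open Cfsg

namespace Cfsg.Agent.S3858

theorem factorization_eq {G : Type*} [Group G] [Finite G] {r : ℕ} [Fact r.Prime] (M : Subgroup G)
    (h : ¬ r ∣ M.index) : (Nat.card M).factorization r = (Nat.card G).factorization r := by
  have h0 : M.index ≠ 0 := Subgroup.index_ne_zero_of_finite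
  rw [← M.card_mul_index, Nat.factorization_mul Nat.card_pos.ne' h0, Finsupp.add_apply,
    Nat.factorization_eq_zero_of_not_dvd h, add_zero]

theorem isSylowIn_of_le {G : Type*} [Group G] [Finite G] {r : ℕ} [Fact r.Prime] (R : Subgroup G)
    (hR : Nat.card R = r ^ (Nat.card G).factorization r) (M : Subgroup G) (hRM : R ≤ M) :
    Cfsg.Agent.Lib.AmalgamChar.IsSylowIn r R M := by
  have hnd : ¬ r ∣ M.index := by
    intro hd
    let S : Sylow r G := Sylow.ofCard R hR
    exact Cfsg.Agent.Lib.H6Basic.not_dvd_index_of_sylow_le S (K := M) hRM hd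
  exact ⟨hRM, by rw [hR, factorization_eq M hnd]⟩

theorem exists_conj_le {G : Type*} [Group G] [Finite G] {r : ℕ} [Fact r.Prime] (R : Sylow r G)
    (M : Subgroup G) (h : ¬ r ∣ M.index) :
    ∃ x : G, (R : Subgroup G).map (MulAut.conj x).toMonoidHom ≤ M := by
  classical
  obtain ⟨S⟩ : Nonempty (Sylow r M) := inferInstance
  let S' : Subgroup G := (S : Subgroup M).map M.subtype
  have hS'card : Nat.card S' = r ^ (Nat.card G).factorization r := by
    have : Nat.card S' = Nat.card (S : Subgroup M) :=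
      Nat.card_congr (Subgroup.equivMapOfInjective _ M.subtype M.subtype_injective).symm.toEquiv
    rw [this, S.card_eq_multiplicity, factorization_eq M h]
  let T : Sylow r G := Sylow.ofCard S' hS'card
  obtain ⟨x, hx⟩ := MulAction.exists_smul_eq G R T
  refine ⟨x, ?_⟩
  have h1 : (R : Subgroup G).map (MulAut.conj x).toMonoidHom = S' := by
    have h2 : ((x • R : Sylow r G) : Subgroup G) = S' := by
      rw [hx]
      rfl
    rw [← h2]
    ext y
    have h3 : y ∈ ((x • R : Sylow r G) : Subgroup G) ↔ x⁻¹ * y * x ∈ (R : Subgroup G) :=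
      Cfsg.Agent.Lib.SylowCount.mem_smul_sylow x y R
    rw [h3]
    constructor
    · rintro ⟨z, hz, rfl⟩
      have h4 : x⁻¹ * ((MulAut.conj x).toMonoidHom z) * x = z := by
        simp [MulAut.conj_apply, mul_assoc]
      rw [h4]
      exact hz
    · intro hy
      exact ⟨x⁻¹ * y * x, hy, by simp [MulAut.conj_apply, mul_assoc]⟩
  rw [h1]
  exact Subgroup.map_subtype_le _


/-- Let G be a finite group with a normal non-abelian simple subgroup T whose centralizer is trivial (G almost simple with socle T), r a prime and R a Sylow r-subgroup of G meeting T nontrivially. Then R lies in exactly one maximal subgroup of G if and only if G has exactly one conjugacy class of maximal subgroups whose index is prime to r. -/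
theorem result {G : Type*} [Group G] [Finite G] (T : Subgroup G) [T.Normal] (hT : IsSimpleGroup T) (hna : ¬ IsMulCommutative T)
    (hC : Subgroup.centralizer (T : Set G) = ⊥) {r : ℕ} [Fact r.Prime] (R : Sylow r G) (hR0 : (R : Subgroup G) ⊓ T ≠ ⊥) :
    (∃! M : Subgroup G, IsCoatom M ∧ (R : Subgroup G) ≤ M) ↔
      ((∃ M : Subgroup G, IsCoatom M ∧ ¬ r ∣ M.index) ∧
        ∀ M₁ M₂ : Subgroup G, IsCoatom M₁ → ¬ r ∣ M₁.index → IsCoatom M₂ → ¬ r ∣ M₂.index → ∃ g : G, M₂ = M₁.map (MulAut.conj g).toMonoidHom) := by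
  classical
  have hconjcoat : ∀ (M : Subgroup G) (x : G), IsCoatom M → IsCoatom (M.map (MulAut.conj x).toMonoidHom) := by
    intro M x hM
    refine Cfsg.Agent.Lib.PIrreducible.isCoatom_map (f := (MulAut.conj x).toMonoidHom)
      (MulAut.conj x).surjective hM ?_
    intro y hy
    have : y = 1 := (MulAut.conj x).injective (by simpa using hy)
    rw [this]
    exact M.one_mem
  have hconjle : ∀ (M : Subgroup G) (x : G), (R : Subgroup G).map (MulAut.conj x).toMonoidHom ≤ M →
      (R : Subgroup G) ≤ M.map (MulAut.conj x⁻¹).toMonoidHom := by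
    intro M x hle y hy
    exact ⟨x * y * x⁻¹, hle ⟨y, hy, rfl⟩, by simp [MulAut.conj_apply, mul_assoc]⟩
  have hRcard : Nat.card (R : Subgroup G) = r ^ (Nat.card G).factorization r := R.card_eq_multiplicity
  constructor
  · rintro ⟨M, ⟨hMc, hRM⟩, huq⟩
    have hform : ∀ M₁ : Subgroup G, IsCoatom M₁ → ¬ r ∣ M₁.index → ∃ x : G, M₁.map (MulAut.conj x⁻¹).toMonoidHom = M := by
      intro M₁ hM₁ hnd
      obtain ⟨x, hx⟩ := exists_conj_le R M₁ hnd
      exact ⟨x, huq _ ⟨hconjcoat _ _ hM₁, hconjle _ _ hx⟩⟩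
    refine ⟨⟨M, hMc, Cfsg.Agent.Lib.H6Basic.not_dvd_index_of_sylow_le R hRM⟩, ?_⟩
    intro M₁ M₂ h1 h1' h2 h2'
    obtain ⟨x, hx⟩ := hform M₁ h1 h1'
    obtain ⟨y, hy⟩ := hform M₂ h2 h2'
    refine ⟨y * x⁻¹, ?_⟩
    have h3 : M₁.map (MulAut.conj x⁻¹).toMonoidHom = M₂.map (MulAut.conj y⁻¹).toMonoidHom := hx.trans hy.symm
    ext z
    constructor
    · intro hz
      have h4 : y⁻¹ * z * y ∈ M₂.map (MulAut.conj y⁻¹).toMonoidHom :=
        ⟨z, hz, by simp [MulAut.conj_apply, mul_assoc]⟩
      rw [← h3] at h4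
      obtain ⟨w, hw, hwe⟩ := h4
      refine ⟨w, hw, ?_⟩
      have hwe' : x⁻¹ * w * x = y⁻¹ * z * y := by
        simpa [MulAut.conj_apply, mul_assoc] using hwe
      simp only [MulEquiv.coe_toMonoidHom, MulAut.conj_apply]
      have : z = y * (y⁻¹ * z * y) * y⁻¹ := by group
      rw [this, ← hwe']
      group
    · rintro ⟨w, hw, rfl⟩
      have h4 : x⁻¹ * w * x ∈ M₁.map (MulAut.conj x⁻¹).toMonoidHom :=
        ⟨w, hw, by simp [MulAut.conj_apply, mul_assoc]⟩
      rw [h3] at h4
      obtain ⟨u, hu, hue⟩ := h4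
      have hue' : y⁻¹ * u * y = x⁻¹ * w * x := by
        simpa [MulAut.conj_apply, mul_assoc] using hue
      have h5 : (MulAut.conj (y * x⁻¹)).toMonoidHom w = u := by
        simp only [MulEquiv.coe_toMonoidHom, MulAut.conj_apply]
        have : u = y * (y⁻¹ * u * y) * y⁻¹ := by group
        rw [this, hue']
        group
      rw [h5]
      exact hu
  · rintro ⟨⟨M₁, hM₁, hM₁'⟩, hconj⟩
    obtain ⟨hRN, hNtop, -, hNR⟩ := Cfsg.Agent.S3859.facts T hT hna R hR0
    obtain ⟨M₀, hM₀, hNM₀⟩ := Cfsg.Agent.S3859.exists_coatom_ge _ hNtop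
    have hRM₀ : (R : Subgroup G) ≤ M₀ := hRN.trans hNM₀
    refine ⟨M₀, ⟨hM₀, hRM₀⟩, ?_⟩
    rintro M ⟨hMc, hRM⟩
    obtain ⟨g, rfl⟩ := hconj M₀ M hM₀ (Cfsg.Agent.Lib.H6Basic.not_dvd_index_of_sylow_le R hRM₀) hMc
      (Cfsg.Agent.Lib.H6Basic.not_dvd_index_of_sylow_le R hRM)
    -- `R` and its conjugate are Sylow in `M₀`
    let R' : Subgroup G := (R : Subgroup G).map (MulAut.conj g⁻¹).toMonoidHom
    have hR'M₀ : R' ≤ M₀ := by
      rintro _ ⟨y, hy, rfl⟩
      obtain ⟨w, hw, hwe⟩ := hRM hy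
      simp only [MulEquiv.coe_toMonoidHom, MulAut.conj_apply] at hwe ⊢
      rw [← hwe]
      have : g⁻¹ * (g * w * g⁻¹) * g⁻¹⁻¹ = w := by group
      rw [this]
      exact hw
    have hR'card : Nat.card R' = r ^ (Nat.card G).factorization r := by
      rw [← hRcard]
      exact Subgroup.card_map_of_injective (MulAut.conj g⁻¹).injective
    have hs1 := isSylowIn_of_le (R : Subgroup G) hRcard M₀ hRM₀
    have hs2 := isSylowIn_of_le R' hR'card M₀ hR'M₀
    obtain ⟨m, hm, hme⟩ := hs1.exists_conj hs2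
    -- `g * m` normalizes `R`
    have hgm : g * m ∈ Subgroup.normalizer ((R : Subgroup G) : Set G) := by
      have key : ∀ y : G, y ∈ (R : Subgroup G) → (g * m) * y * (g * m)⁻¹ ∈ (R : Subgroup G) := by
        intro y hy
        have h1 : m * y * m⁻¹ ∈ R' := by
          rw [hme]
          exact ⟨y, hy, rfl⟩
        obtain ⟨z, hz, hze⟩ := h1
        have hze' : g⁻¹ * z * g = m * y * m⁻¹ := by
          simpa [MulAut.conj_apply, mul_assoc] using hze
        have : (g * m) * y * (g * m)⁻¹ = z := by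
          calc (g * m) * y * (g * m)⁻¹ = g * (m * y * m⁻¹) * g⁻¹ := by group
            _ = g * (g⁻¹ * z * g) * g⁻¹ := by rw [hze']
            _ = z := by group
        rw [this]
        exact hz
      -- finite: injective conjugation gives the converse
      have hle : (R : Subgroup G).map (MulAut.conj (g * m)).toMonoidHom ≤ (R : Subgroup G) := by
        rintro _ ⟨y, hy, rfl⟩
        exact key y hy
      have heq : (R : Subgroup G).map (MulAut.conj (g * m)).toMonoidHom = (R : Subgroup G) :=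
        Subgroup.eq_of_le_of_card_ge hle (by
          have : Nat.card ((R : Subgroup G).map (MulAut.conj (g * m)).toMonoidHom) = Nat.card (R : Subgroup G) :=
            Subgroup.card_map_of_injective (MulAut.conj (g * m)).injective
          rw [this])
      rw [Subgroup.mem_normalizer_iff_map_conj_eq]
      exact heq
    have hgmM : g * m ∈ M₀ := hNM₀ (hNR hgm)
    have hgM : g ∈ M₀ := by
      have := M₀.mul_mem hgmM (M₀.inv_mem hm)
      simpa using this
    ext z
    constructor
    · rintro ⟨w, hw, rfl⟩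
      exact M₀.mul_mem (M₀.mul_mem hgM hw) (M₀.inv_mem hgM)
    · intro hz
      exact ⟨g⁻¹ * z * g, M₀.mul_mem (M₀.mul_mem (M₀.inv_mem hgM) hz) hgM, by
        simp [MulAut.conj_apply, mul_assoc]⟩

end Cfsg.Agent.S3858
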