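import Mathlib
import Cfsg.Statements.S3861
import Cfsg.Agent.Lib.H6Real
-- import your own Cfsg.Agent.* helpers here

set_option autoImplicit false
open Cfsg

namespace Cfsg.Agent.S3861

/-- A finite group G has no non-identity element of odd order that is conjugate to its inverse if and only if the Sylow 2-subgroups of G are normal. -/
theorem result {G : Type*} [Group G] [Finite G] (P : Sylow 2 G) : (∀ x : G, x ≠ 1 → Odd (orderOf x) → ¬ IsConj x x⁻¹) ↔ (P : Subgroup G).Normal := by
  classical
  constructor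
  · intro h
    exact Cfsg.Agent.Lib.H6Real.sylow_normal_of_noOddReal _ G rfl h P
  · intro hN x hx1 hxo hc
    obtain ⟨g, hg⟩ := isConj_iff.mp hc
    haveI : (P : Subgroup G).Normal := hN
    have hodd : Odd (Nat.card (G ⧸ (P : Subgroup G))) := by
      rw [← Nat.not_even_iff_odd, even_iff_two_dvd]
      exact P.not_dvd_index
    have h1 := Cfsg.Agent.Lib.H6Real.odd_card_no_real hodd (x : G ⧸ (P : Subgroup G)) (g : G ⧸ (P : Subgroup G)) (by
      have := congrArg (QuotientGroup.mk' (P : Subgroup G)) hg
      simpa using this)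
    have h2 : x ∈ (P : Subgroup G) := (QuotientGroup.eq_one_iff x).mp h1
    obtain ⟨k, hk⟩ := P.isPGroup' ⟨x, h2⟩
    have h3 : x ^ (2 ^ k) = 1 := congrArg Subtype.val hk
    have h4 := orderOf_dvd_of_pow_eq_one h3
    have h5 : Nat.Coprime (orderOf x) (2 ^ k) := Nat.Coprime.pow_right k (Nat.coprime_two_right.mpr hxo)
    have h6 : orderOf x = 1 := Nat.Coprime.eq_one_of_dvd h5 h4
    exact hx1 (orderOf_eq_one_iff.mp h6)

end Cfsg.Agent.S3861
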