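import Cfsg.Statements.S3863
import Cfsg.Agent.Lib.PResidual
import Cfsg.Agent.Lib.H6Basic
import Cfsg.Agent.Lib.H7Basic
-- import your own Cfsg.Agent.* helpers here

set_option autoImplicit false
open Cfsg

namespace Cfsg.Agent.S3863

/-- Let x be an element of the finite group G that is conjugate to its inverse. Then some 2-element conjugates x to its inverse; if the conjugacy class of x has odd size then x ^ 2 = 1; and x lies in, and is conjugate to its inverse inside, every normal subgroup of odd index. -/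
theorem result {G : Type*} [Group G] [Finite G] (x : G) (hx : IsConj x x⁻¹) : (∃ t : G, (∃ j : ℕ, orderOf t = 2 ^ j) ∧ t * x * t⁻¹ = x⁻¹) ∧ (Odd (Subgroup.centralizer ({x} : Set G)).index → x ^ 2 = 1) ∧ ∀ (N : Subgroup G) [N.Normal], Odd N.index → ∃ hxN : x ∈ N, IsConj (⟨x, hxN⟩ : N) (⟨x, hxN⟩ : N)⁻¹ := by
  classical
  obtain ⟨u, hu⟩ := isConj_iff.mp hx
  have hcomm2 : Commute (u ^ 2) x := by
    have h1 : u * x⁻¹ * u⁻¹ = x := by
      have : u * x⁻¹ * u⁻¹ = (u * x * u⁻¹)⁻¹ := by group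
      rw [this, hu, inv_inv]
    have h2 : u ^ 2 * x * (u ^ 2)⁻¹ = x := by
      calc u ^ 2 * x * (u ^ 2)⁻¹ = u * (u * x * u⁻¹) * u⁻¹ := by
            rw [pow_two, mul_inv_rev]; group
        _ = x := by rw [hu, h1]
    calc u ^ 2 * x = (u ^ 2 * x * (u ^ 2)⁻¹) * u ^ 2 := by group
      _ = x * u ^ 2 := by rw [h2]
  obtain ⟨y, z, huyz, hcomm, hy, ⟨k, hz⟩, hyu, -⟩ := Cfsg.Agent.Lib.PResidual.exists_decomp (p := 2) u
  have hyx : Commute y x := by
    obtain ⟨n, hn⟩ := hyu
    have h3 : y ^ 2 = (u ^ 2) ^ n := by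
      rw [← hn]
      rw [← zpow_natCast (u ^ n) 2, ← zpow_natCast u 2, ← zpow_mul, ← zpow_mul, mul_comm]
    have h4 : Commute (y ^ 2) x := by
      rw [h3]
      exact hcomm2.zpow_left n
    obtain ⟨m, hm⟩ := exists_pow_eq_self_of_coprime (x := y) (n := 2) hy.symm
    have h5 : Commute ((y ^ 2) ^ m) x := h4.pow_left m
    rwa [hm] at h5
  have hzx : z * x * z⁻¹ = x⁻¹ := by
    have h6 : y * (z * x * z⁻¹) * y⁻¹ = x⁻¹ := by
      rw [← hu, huyz]
      group
    have h7 : y * x⁻¹ * y⁻¹ = x⁻¹ := by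
      have : y * x⁻¹ = x⁻¹ * y := (hyx.inv_right).eq
      rw [this, mul_assoc, mul_inv_cancel, mul_one]
    have h8 : y * (z * x * z⁻¹) * y⁻¹ = y * x⁻¹ * y⁻¹ := by rw [h6, h7]
    exact mul_left_cancel (mul_right_cancel h8)
  refine ⟨⟨z, ⟨k, hz⟩, hzx⟩, ?_, ?_⟩
  · intro hodd
    haveI := Fintype.ofFinite G
    let C : Finset G := Finset.univ.filter (fun w => IsConj x w)
    have hcard : C.card = (Subgroup.centralizer ({x} : Set G)).index := by
      rw [← Cfsg.Agent.Lib.H6Basic.card_class_eq_index x, Nat.card_eq_fintype_card,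
        Fintype.card_subtype]
    have hinv : ∀ w ∈ C, w⁻¹ ∈ C := by
      intro w hw
      have hw' : IsConj x w := (Finset.mem_filter.mp hw).2
      refine Finset.mem_filter.mpr ⟨Finset.mem_univ _, ?_⟩
      exact hx.trans (Cfsg.Agent.Lib.H6Basic.isConj_inv_inv hw')
    by_contra hne
    have hnofix : ∀ w ∈ C, w⁻¹ ≠ w := by
      intro w hw hww
      apply hne
      have hw' : IsConj x w := (Finset.mem_filter.mp hw).2
      obtain ⟨a, ha⟩ := isConj_iff.mp hw'
      have h1 : w ^ 2 = 1 := by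
        rw [pow_two]
        nth_rewrite 1 [← hww]
        exact inv_mul_cancel w
      rw [← ha] at h1
      have h2 : (a * x * a⁻¹) ^ 2 = a * x ^ 2 * a⁻¹ := by
        rw [conj_pow]
      rw [h2] at h1
      have h3 : a * x ^ 2 * a⁻¹ = a * 1 * a⁻¹ := by rw [h1]; group
      exact mul_left_cancel (mul_right_cancel h3)
    have hs : ∑ w ∈ C, (1 : ZMod 2) = 0 := by
      refine Finset.sum_involution (fun w _ => w⁻¹) ?_ ?_ ?_ ?_
      · intro _ _
        decide
      · intro w hw _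
        exact hnofix w hw
      · intro w hw
        exact hinv w hw
      · intro w _
        exact inv_inv w
    rw [Finset.sum_const, nsmul_eq_mul, mul_one, ZMod.natCast_eq_zero_iff, hcard] at hs
    obtain ⟨r, hr⟩ := hodd
    rw [hr] at hs
    omega
  · intro N _ hodd
    obtain ⟨r, hr⟩ := hodd
    have hzN : z ∈ N := by
      refine Cfsg.Agent.Lib.H7Basic.mem_of_pow_mem_of_coprime N z N.index ?_ (Subgroup.pow_index_mem N z)
      rw [hz, hr]
      apply Nat.Coprime.pow_left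
      simp
    have hx2 : x⁻¹ * x⁻¹ ∈ N := by
      have h1 : x⁻¹ * x⁻¹ = z * (x * z⁻¹ * x⁻¹) := by
        nth_rewrite 1 [← hzx]
        group
      rw [h1]
      exact N.mul_mem hzN (Subgroup.Normal.conj_mem inferInstance _ (N.inv_mem hzN) x)
    have hxN : x ∈ N := by
      have h1 := Subgroup.pow_index_mem N x
      rw [hr] at h1
      have h2 : x = x ^ (2 * r + 1) * (x⁻¹ * x⁻¹) ^ r := by
        have h3 : x⁻¹ * x⁻¹ = (x ^ 2)⁻¹ := by group
        rw [h3, inv_pow, ← pow_mul, pow_succ]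
        group
      rw [h2]
      exact N.mul_mem h1 (N.pow_mem hx2 r)
    refine ⟨hxN, isConj_iff.mpr ⟨⟨z, hzN⟩, ?_⟩⟩
    apply Subtype.ext
    exact hzx

end Cfsg.Agent.S3863
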