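import Mathlib
import Cfsg.Statements.S3866
-- import your own Cfsg.Agent.* helpers here

set_option autoImplicit false
open Cfsg

namespace Cfsg.Agent.S3866

/-- Let A be a commutative normal subgroup of the finite group G with G generated by A and an element x. Then a ↦ x a x⁻¹ a⁻¹ is a surjective homomorphism from A onto the commutator subgroup of G whose kernel is the centralizer of x in A; in particular the commutator subgroup has order equal to the index in A of that centralizer. -/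
theorem result {G : Type*} [Group G] [Finite G] (A : Subgroup G) [A.Normal] (hA : IsMulCommutative A) (x : G) (hgen : A ⊔ Subgroup.zpowers x = ⊤) : (∀ a ∈ A, x * a * x⁻¹ * a⁻¹ ∈ commutator G) ∧ (∀ c ∈ commutator G, ∃ a ∈ A, x * a * x⁻¹ * a⁻¹ = c) ∧ (∀ a ∈ A, ∀ b ∈ A, x * (a * b) * x⁻¹ * (a * b)⁻¹ = (x * a * x⁻¹ * a⁻¹) * (x * b * x⁻¹ * b⁻¹)) ∧ Nat.card (commutator G) * Nat.card ↥(A ⊓ Subgroup.centralizer ({x} : Set G)) = Nat.card A := by
  classical
  have hcomm : ∀ a ∈ A, ∀ b ∈ A, a * b = b * a := by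
    intro a ha b hb
    have := hA.is_comm.comm (⟨a, ha⟩ : A) ⟨b, hb⟩
    exact congrArg Subtype.val this
  have hconj : ∀ a ∈ A, x * a * x⁻¹ ∈ A := fun a ha => Subgroup.Normal.conj_mem inferInstance a ha x
  have hconj' : ∀ a ∈ A, x⁻¹ * a * x ∈ A := fun a ha => by
    have := Subgroup.Normal.conj_mem (inferInstance : A.Normal) a ha x⁻¹
    simpa using this
  have hadd : ∀ a ∈ A, ∀ b ∈ A, x * (a * b) * x⁻¹ * (a * b)⁻¹ = (x * a * x⁻¹ * a⁻¹) * (x * b * x⁻¹ * b⁻¹) := by
    intro a ha b hb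
    have h1 : a⁻¹ * (x * b * x⁻¹ * b⁻¹) = (x * b * x⁻¹ * b⁻¹) * a⁻¹ :=
      hcomm _ (A.inv_mem ha) _ (A.mul_mem (hconj b hb) (A.inv_mem hb))
    calc x * (a * b) * x⁻¹ * (a * b)⁻¹ = (x * a * x⁻¹) * ((x * b * x⁻¹ * b⁻¹) * a⁻¹) := by group
      _ = (x * a * x⁻¹) * (a⁻¹ * (x * b * x⁻¹ * b⁻¹)) := by rw [h1]
      _ = _ := by group
  let φ : A →* A :=
    { toFun := fun a => ⟨x * a.1 * x⁻¹ * a.1⁻¹, A.mul_mem (hconj a.1 a.2) (A.inv_mem a.2)⟩
      map_one' := by
        apply Subtype.ext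
        simp
      map_mul' := by
        intro a b
        apply Subtype.ext
        exact hadd a.1 a.2 b.1 b.2 }
  have hφ : ∀ a : A, (φ a).1 = x * a.1 * x⁻¹ * a.1⁻¹ := fun _ => rfl
  let I : Subgroup G := φ.range.map A.subtype
  have hIA : I ≤ A := Subgroup.map_subtype_le _
  have hImem : ∀ y : G, y ∈ I ↔ ∃ a ∈ A, x * a * x⁻¹ * a⁻¹ = y := by
    intro y
    constructor
    · rintro ⟨_, ⟨a, rfl⟩, rfl⟩
      exact ⟨a.1, a.2, rfl⟩
    · rintro ⟨a, ha, rfl⟩
      exact ⟨φ ⟨a, ha⟩, ⟨⟨a, ha⟩, rfl⟩, rfl⟩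
  have hxn : x ∈ Subgroup.normalizer (I : Set G) := by
    rw [Subgroup.mem_normalizer_iff]
    intro y
    rw [hImem, hImem]
    constructor
    · rintro ⟨b, hb, rfl⟩
      refine ⟨x * b * x⁻¹, hconj b hb, ?_⟩
      group
    · rintro ⟨b, hb, hbe⟩
      refine ⟨x⁻¹ * b * x, hconj' b hb, ?_⟩
      have h1 : y = x⁻¹ * (x * b * x⁻¹ * b⁻¹) * x := by
        rw [hbe]
        group
      rw [h1]
      group
  have hAn : A ≤ Subgroup.normalizer (I : Set G) := by
    intro a ha
    rw [Subgroup.mem_normalizer_iff]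
    intro y
    constructor
    · intro hy
      have h1 : a * y * a⁻¹ = y := by
        rw [hcomm a ha y (hIA hy)]
        group
      rw [h1]
      exact hy
    · intro hy
      have hyA : y ∈ A := by
        have h2 : a⁻¹ * (a * y * a⁻¹) * a⁻¹⁻¹ ∈ A :=
          Subgroup.Normal.conj_mem inferInstance _ (hIA hy) a⁻¹
        have h3 : a⁻¹ * (a * y * a⁻¹) * a⁻¹⁻¹ = y := by group
        rwa [h3] at h2
      have h1 : a * y * a⁻¹ = y := by
        rw [hcomm a ha y hyA]
        group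
      rwa [h1] at hy
  haveI hIn : I.Normal := by
    rw [← Subgroup.normalizer_eq_top_iff, eq_top_iff, ← hgen]
    refine sup_le hAn ?_
    rw [Subgroup.zpowers_le]
    exact hxn
  -- the quotient by `I` is commutative
  let q : G →* G ⧸ I := QuotientGroup.mk' I
  have hqI : ∀ y ∈ I, q y = 1 := fun y hy => (QuotientGroup.eq_one_iff y).mpr hy
  have hqx : ∀ a ∈ A, Commute (q x) (q a) := by
    intro a ha
    have h1 : q (x * a * x⁻¹ * a⁻¹) = 1 := hqI _ ((hImem _).mpr ⟨a, ha, rfl⟩)
    rw [map_mul, map_mul, map_mul, map_inv, map_inv] at h1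
    have h2 : q x * q a * (q x)⁻¹ = q a := by
      rw [mul_inv_eq_one] at h1
      exact h1
    change q x * q a = q a * q x
    calc q x * q a = (q x * q a * (q x)⁻¹) * q x := by group
      _ = q a * q x := by rw [h2]
  have hqcomm : ∀ g h : G, Commute (q g) (q h) := by
    intro g h
    have hg : g ∈ A ⊔ Subgroup.zpowers x := by rw [hgen]; trivial
    have hh : h ∈ A ⊔ Subgroup.zpowers x := by rw [hgen]; trivial
    obtain ⟨a, ha, _, ⟨i, rfl⟩, rfl⟩ := Subgroup.mem_sup_of_normal_left.mp hg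
    obtain ⟨b, hb, _, ⟨j, rfl⟩, rfl⟩ := Subgroup.mem_sup_of_normal_left.mp hh
    simp only [map_mul, map_zpow]
    have hab : Commute (q a) (q b) := by
      change q a * q b = q b * q a
      rw [← map_mul, ← map_mul, hcomm a ha b hb]
    have h1 : Commute (q a) (q x ^ j) := (hqx a ha).symm.zpow_right j
    have h2 : Commute (q x ^ i) (q b) := (hqx b hb).zpow_left i
    have h3 : Commute (q x ^ i) (q x ^ j) := (Commute.refl (q x)).zpow_zpow i j
    exact (hab.mul_right h1).mul_left (h2.mul_right h3)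
  have hcI : commutator G ≤ I := by
    rw [commutator_def, Subgroup.commutator_le]
    intro g _ h _
    rw [← QuotientGroup.eq_one_iff]
    change q (g * h * g⁻¹ * h⁻¹) = 1
    rw [map_mul, map_mul, map_mul, map_inv, map_inv, (hqcomm g h).eq]
    group
  have h1st : ∀ a ∈ A, x * a * x⁻¹ * a⁻¹ ∈ commutator G := by
    intro a _
    rw [commutator_def]
    exact Subgroup.commutator_mem_commutator (Subgroup.mem_top x) (Subgroup.mem_top a)
  have hIc : I = commutator G := by
    apply le_antisymm _ hcI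
    intro y hy
    obtain ⟨a, ha, rfl⟩ := (hImem y).mp hy
    exact h1st a ha
  refine ⟨h1st, fun c hc => (hImem c).mp (hcI hc), hadd, ?_⟩
  have hcard1 : Nat.card (commutator G) = Nat.card φ.range := by
    rw [← hIc]
    exact Nat.card_congr (Subgroup.equivMapOfInjective _ A.subtype A.subtype_injective).symm.toEquiv
  have hcard2 : Nat.card ↥(A ⊓ Subgroup.centralizer ({x} : Set G)) = Nat.card φ.ker := by
    refine Nat.card_congr
      { toFun := fun a => ⟨⟨a.1, a.2.1⟩, ?_⟩
        invFun := fun a => ⟨a.1.1, a.1.2, ?_⟩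
        left_inv := fun _ => rfl
        right_inv := fun _ => rfl }
    · rw [MonoidHom.mem_ker]
      apply Subtype.ext
      rw [hφ]
      have h2 : a.1 ∈ Subgroup.centralizer ({x} : Set G) := a.2.2
      rw [Subgroup.mem_centralizer_singleton_iff] at h2
      change x * a.1 * x⁻¹ * a.1⁻¹ = 1
      rw [← h2]
      group
    · change a.1.1 ∈ Subgroup.centralizer ({x} : Set G)
      rw [Subgroup.mem_centralizer_singleton_iff]
      have h2 : φ a.1 = 1 := a.2
      have h3 : x * a.1.1 * x⁻¹ * a.1.1⁻¹ = 1 := congrArg Subtype.val h2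
      rw [mul_inv_eq_one, mul_inv_eq_iff_eq_mul] at h3
      exact h3.symm
  rw [hcard1, hcard2, ← Subgroup.index_ker, mul_comm]
  exact φ.ker.card_mul_index

end Cfsg.Agent.S3866
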