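import Cfsg.Statements.S3867
import Cfsg.Agent.Lib.SylowTI

set_option autoImplicit false
open Cfsg

namespace Cfsg.Agent.S3867

open Cfsg.Agent.Lib.SylowTI

theorem sylow_conj_of_le_sup {G : Type*} [Group G] [Finite G] {p : ℕ} [Fact p.Prime]
    (M : Subgroup G) [M.Normal] (R S : Sylow p G) (h : (R : Subgroup G) ≤ (S : Subgroup G) ⊔ M) :
    ∃ n ∈ M, n • S = R := by
  obtain ⟨K, hK⟩ : ∃ K : Subgroup G, K = (S : Subgroup G) ⊔ M := ⟨_, rfl⟩
  rw [← hK] at h
  have hSK : (S : Subgroup G) ≤ K := hK ▸ le_sup_left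
  let S' : Sylow p K := S.subtype hSK
  let R' : Sylow p K := R.subtype h
  obtain ⟨k, hk⟩ := MulAction.exists_smul_eq K S' R'
  have hkm : (k : G) ∈ M ⊔ (S : Subgroup G) := by
    rw [sup_comm]; exact hK ▸ k.2
  rw [Subgroup.mem_sup_of_normal_left] at hkm
  obtain ⟨n, hn, u, hu, hnu⟩ := hkm
  refine ⟨n, hn, ?_⟩
  apply Sylow.ext
  ext y
  rw [mem_smul]
  have hR : ∀ y (hy : y ∈ K), y ∈ (R : Subgroup G) ↔ (⟨y, hy⟩ : K) ∈ (R' : Subgroup K) := by
    intro y hy
    show _ ↔ _ ∈ (R : Subgroup G).subgroupOf K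
    rw [Subgroup.mem_subgroupOf]
  have hS : ∀ y (hy : y ∈ K), y ∈ (S : Subgroup G) ↔ (⟨y, hy⟩ : K) ∈ (S' : Subgroup K) := by
    intro y hy
    show _ ↔ _ ∈ (S : Subgroup G).subgroupOf K
    rw [Subgroup.mem_subgroupOf]
  have hmain : ∀ y, y ∈ (R : Subgroup G) ↔ (k : G)⁻¹ * y * k ∈ (S : Subgroup G) := by
    intro y
    constructor
    · intro hy
      have hyK := h hy
      have h1 := (hR y hyK).1 hy
      rw [← hk, mem_smul] at h1
      have h2 : (k : G)⁻¹ * y * k ∈ K := K.mul_mem (K.mul_mem (K.inv_mem k.2) hyK) k.2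
      exact (hS _ h2).2 h1
    · intro hy
      have hyK : y ∈ K := by
        have h1 := hSK hy
        have : y = (k : G) * ((k : G)⁻¹ * y * k) * (k : G)⁻¹ := by group
        rw [this]
        exact K.mul_mem (K.mul_mem k.2 h1) (K.inv_mem k.2)
      apply (hR y hyK).2
      rw [← hk, mem_smul]
      exact (hS _ _).1 hy
  rw [hmain, ← hnu]
  have e : (n * u)⁻¹ * y * (n * u) = u⁻¹ * (n⁻¹ * y * n) * u := by group
  rw [e]
  constructor
  · intro h1
    exact Subgroup.mul_mem _ (Subgroup.mul_mem _ (Subgroup.inv_mem _ hu) h1) hu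
  · intro h1
    have e2 : n⁻¹ * y * n = u * (u⁻¹ * (n⁻¹ * y * n) * u) * u⁻¹ := by group
    rw [e2]
    exact Subgroup.mul_mem _ (Subgroup.mul_mem _ hu h1) (Subgroup.inv_mem _ hu)

theorem card_sylow_quot {G : Type*} [Group G] [Finite G] {p : ℕ} [Fact p.Prime]
    (M : Subgroup G) [hM : M.Normal] (P : Sylow p G) :
    Nat.card (Sylow p (G ⧸ M)) = (Subgroup.normalizer ((P : Subgroup G) : Set G) ⊔ M).index := by
  have hsurj : Function.Surjective (QuotientGroup.mk' M) := QuotientGroup.mk'_surjective M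
  obtain ⟨T, hT⟩ : ∃ T, T = Subgroup.normalizer ((P : Subgroup G) : Set G) := ⟨_, rfl⟩
  rw [← hT]
  let Pb : Sylow p (G ⧸ M) := P.mapSurjective hsurj
  rw [Pb.card_eq_index_normalizer]
  have hk : (QuotientGroup.mk' M).ker ≤ T ⊔ M := by
    rw [QuotientGroup.ker_mk']; exact le_sup_right
  rw [← Subgroup.index_map_eq (T ⊔ M) hsurj hk]
  congr 1
  have hPb : ∀ z : G, (QuotientGroup.mk z : G ⧸ M) ∈ (Pb : Subgroup (G ⧸ M)) ↔ z ∈ (P : Subgroup G) ⊔ M := by
    intro z
    show (QuotientGroup.mk' M z) ∈ (P : Subgroup G).map (QuotientGroup.mk' M) ↔ _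
    constructor
    · rintro ⟨u, hu, e⟩
      have h1 : u⁻¹ * z ∈ M := by
        rw [← QuotientGroup.eq]
        exact e
      have : z = u * (u⁻¹ * z) := by group
      rw [this]
      exact Subgroup.mul_mem _ (Subgroup.mem_sup_left hu) (Subgroup.mem_sup_right h1)
    · intro hz
      rw [Subgroup.mem_sup_of_normal_right] at hz
      obtain ⟨u, hu, m, hm, rfl⟩ := hz
      refine ⟨u, hu, ?_⟩
      rw [QuotientGroup.mk'_apply, QuotientGroup.mk'_apply, QuotientGroup.eq]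
      simpa using hm
  ext xb
  obtain ⟨x, rfl⟩ := QuotientGroup.mk_surjective xb
  rw [Subgroup.mem_map]
  constructor
  · intro hx
    have hle : ((x • P : Sylow p G) : Subgroup G) ≤ (P : Subgroup G) ⊔ M := by
      intro y hy
      rw [mem_smul] at hy
      rw [← hPb]
      have h1 : (QuotientGroup.mk (x⁻¹ * y * x) : G ⧸ M) ∈ (Pb : Subgroup (G ⧸ M)) :=
        (hPb _).2 (Subgroup.mem_sup_left hy)
      have h2 := (Subgroup.mem_normalizer_iff.1 hx _).1 h1
      have e : (QuotientGroup.mk x : G ⧸ M) * (QuotientGroup.mk (x⁻¹ * y * x)) * (QuotientGroup.mk x)⁻¹ = QuotientGroup.mk y := by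
        rw [← QuotientGroup.mk_mul, ← QuotientGroup.mk_inv, ← QuotientGroup.mk_mul]
        congr 1
        group
      rwa [e] at h2
    obtain ⟨n, hn, hnx⟩ := sylow_conj_of_le_sup M (x • P) P hle
    have ht : n⁻¹ * x ∈ T := by
      rw [hT]
      apply smul_eq_self_iff.1
      rw [mul_smul, inv_smul_eq_iff]
      exact hnx.symm
    refine ⟨x, ?_, rfl⟩
    have e : x = n * (n⁻¹ * x) := by group
    rw [e, sup_comm]
    exact Subgroup.mul_mem _ (Subgroup.mem_sup_left hn) (Subgroup.mem_sup_right ht)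
  · rintro ⟨y, hy, hyx⟩
    rw [← hyx]
    rw [Subgroup.mem_sup_of_normal_right] at hy
    obtain ⟨t, ht, m, hm, rfl⟩ := hy
    have h1 : (QuotientGroup.mk' M) (t * m) = QuotientGroup.mk' M t := by
      rw [map_mul]
      have : (QuotientGroup.mk' M) m = 1 := by
        rw [← MonoidHom.mem_ker, QuotientGroup.ker_mk']; exact hm
      rw [this, mul_one]
    rw [h1]
    show (QuotientGroup.mk' M) t ∈ Subgroup.normalizer (((Pb : Subgroup (G ⧸ M)) : Set (G ⧸ M)))
    rw [Subgroup.mem_normalizer_iff]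
    intro zb
    obtain ⟨z, rfl⟩ := QuotientGroup.mk_surjective zb
    have e : (QuotientGroup.mk' M) t * (QuotientGroup.mk z : G ⧸ M) * ((QuotientGroup.mk' M) t)⁻¹ = QuotientGroup.mk (t * z * t⁻¹) := by
      rw [QuotientGroup.mk'_apply, ← QuotientGroup.mk_mul, ← QuotientGroup.mk_inv, ← QuotientGroup.mk_mul]
    rw [e, hPb, hPb]
    have hsup : ∀ w, w ∈ (P : Subgroup G) ⊔ M → t * w * t⁻¹ ∈ (P : Subgroup G) ⊔ M := by
      intro w hw
      rw [Subgroup.mem_sup_of_normal_right] at hw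
      obtain ⟨u, hu, m', hm', rfl⟩ := hw
      have e2 : t * (u * m') * t⁻¹ = (t * u * t⁻¹) * (t * m' * t⁻¹) := by group
      rw [e2]
      have hu' : t * u * t⁻¹ ∈ (P : Subgroup G) := by
        rw [hT] at ht
        exact (Subgroup.mem_normalizer_iff.1 ht u).1 hu
      exact Subgroup.mul_mem _ (Subgroup.mem_sup_left hu') (Subgroup.mem_sup_right (hM.conj_mem _ hm' t))
    have hsup' : ∀ w, w ∈ (P : Subgroup G) ⊔ M → t⁻¹ * w * t ∈ (P : Subgroup G) ⊔ M := by
      intro w hw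
      rw [Subgroup.mem_sup_of_normal_right] at hw
      obtain ⟨u, hu, m', hm', rfl⟩ := hw
      have e2 : t⁻¹ * (u * m') * t = (t⁻¹ * u * t) * (t⁻¹ * m' * t) := by group
      rw [e2]
      have hu' : t⁻¹ * u * t ∈ (P : Subgroup G) := by
        rw [hT] at ht
        have := (Subgroup.mem_normalizer_iff.1 (Subgroup.inv_mem _ ht) u).1 hu
        simpa using this
      have hm2 : t⁻¹ * m' * t ∈ M := by
        have := hM.conj_mem _ hm' t⁻¹
        simpa using this
      exact Subgroup.mul_mem _ (Subgroup.mem_sup_left hu') (Subgroup.mem_sup_right hm2)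
    constructor
    · exact hsup z
    · intro h
      have := hsup' _ h
      have e3 : t⁻¹ * (t * z * t⁻¹) * t = z := by group
      rwa [e3] at this

/-- The join of `P` with `M` and with `N`, intersected, is a `p`-group when `M ⊓ N = ⊥`. -/
theorem key_pgroup {G : Type*} [Group G] [Finite G] {p : ℕ} [Fact p.Prime]
    (M N : Subgroup G) [hM : M.Normal] [hN : N.Normal] (hMN : M ⊓ N = ⊥) (P : Sylow p G) :
    IsPGroup p (((P : Subgroup G) ⊔ M) ⊓ ((P : Subgroup G) ⊔ N) : Subgroup G) := by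
  have hpow : ∀ (K : Subgroup G) [K.Normal] (y : G), y ∈ (P : Subgroup G) ⊔ K → ∃ a : ℕ, y ^ (p ^ a) ∈ K := by
    intro K hK y hy
    rw [Subgroup.mem_sup_of_normal_right] at hy
    obtain ⟨u, hu, k, hk, rfl⟩ := hy
    obtain ⟨a, ha⟩ := (IsPGroup.iff_orderOf.1 P.2) ⟨u, hu⟩
    have hu1 : u ^ (p ^ a) = 1 := by
      have : (⟨u, hu⟩ : (P : Subgroup G)) ^ (p ^ a) = 1 := by rw [← ha]; exact pow_orderOf_eq_one _
      exact congrArg Subtype.val this
    refine ⟨a, ?_⟩
    rw [← QuotientGroup.eq_one_iff, QuotientGroup.mk_pow, QuotientGroup.mk_mul]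
    have h1 : (QuotientGroup.mk k : G ⧸ K) = 1 := (QuotientGroup.eq_one_iff k).2 hk
    rw [h1, mul_one, ← QuotientGroup.mk_pow, hu1]
    rfl
  rintro ⟨y, hy1, hy2⟩
  obtain ⟨a, ha⟩ := hpow M y hy1
  obtain ⟨b, hb⟩ := hpow N y hy2
  refine ⟨a + b, Subtype.ext ?_⟩
  have h1 : y ^ (p ^ (a + b)) ∈ M ⊓ N := by
    constructor
    · rw [pow_add, pow_mul]
      exact M.pow_mem ha _
    · rw [pow_add, mul_comm, pow_mul]
      exact N.pow_mem hb _
  rw [hMN, Subgroup.mem_bot] at h1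
  simpa using h1

theorem key_inf {G : Type*} [Group G] [Finite G] {p : ℕ} [Fact p.Prime]
    (M N : Subgroup G) [hM : M.Normal] [hN : N.Normal] (hMN : M ⊓ N = ⊥) (P : Sylow p G) :
    (Subgroup.normalizer ((P : Subgroup G) : Set G) ⊔ N) ⊓ M ≤ Subgroup.normalizer ((P : Subgroup G) : Set G) := by
  rintro x ⟨hx, hxM⟩
  have hx' : x ∈ N ⊔ Subgroup.normalizer ((P : Subgroup G) : Set G) := by rwa [sup_comm]
  rw [Subgroup.mem_sup_of_normal_left] at hx'
  obtain ⟨n, hn, t, ht, rfl⟩ := hx'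
  have hS : (n * t) • P = n • P := by
    rw [mul_smul, smul_eq_self_iff.2 ht]
  have hle1 : ((n • P : Sylow p G) : Subgroup G) ≤ (P : Subgroup G) ⊔ N := by
    intro y hy
    rw [mem_smul] at hy
    have e : y = (n * (n⁻¹ * y * n) * n⁻¹ * (n⁻¹ * y * n)⁻¹) * (n⁻¹ * y * n) := by group
    rw [e, sup_comm]
    refine Subgroup.mul_mem _ (Subgroup.mem_sup_left ?_) (Subgroup.mem_sup_right hy)
    have e2 : n * (n⁻¹ * y * n) * n⁻¹ * (n⁻¹ * y * n)⁻¹ = n * ((n⁻¹ * y * n) * n⁻¹ * (n⁻¹ * y * n)⁻¹) := by group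
    rw [e2]
    exact N.mul_mem hn (hN.conj_mem _ (N.inv_mem hn) _)
  have hle2 : ((n • P : Sylow p G) : Subgroup G) ≤ (P : Subgroup G) ⊔ M := by
    rw [← hS]
    intro y hy
    rw [mem_smul] at hy
    have e : y = ((n * t) * ((n * t)⁻¹ * y * (n * t)) * (n * t)⁻¹ * ((n * t)⁻¹ * y * (n * t))⁻¹) * ((n * t)⁻¹ * y * (n * t)) := by group
    rw [e, sup_comm]
    refine Subgroup.mul_mem _ (Subgroup.mem_sup_left ?_) (Subgroup.mem_sup_right hy)
    have e2 : (n * t) * ((n * t)⁻¹ * y * (n * t)) * (n * t)⁻¹ * ((n * t)⁻¹ * y * (n * t))⁻¹ = (n * t) * (((n * t)⁻¹ * y * (n * t)) * (n * t)⁻¹ * ((n * t)⁻¹ * y * (n * t))⁻¹) := by group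
    rw [e2]
    exact M.mul_mem hxM (hM.conj_mem _ (M.inv_mem hxM) _)
  have hH := key_pgroup M N hMN P
  obtain ⟨H, hHd⟩ : ∃ H, H = ((P : Subgroup G) ⊔ M) ⊓ ((P : Subgroup G) ⊔ N) := ⟨_, rfl⟩
  rw [← hHd] at hH
  have hPH : (P : Subgroup G) ≤ H := hHd ▸ le_inf le_sup_left le_sup_left
  have hSH : ((n • P : Sylow p G) : Subgroup G) ≤ H := hHd ▸ le_inf hle2 hle1
  have h1 := P.3 hH hPH
  have h2 := (n • P).3 hH hSH
  have h3 : n • P = P := Sylow.ext (h2.symm.trans h1)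
  apply smul_eq_self_iff.1
  rw [hS, h3]

theorem prod_formula {G : Type*} [Group G] [Finite G] (H K : Subgroup G) [K.Normal] :
    Nat.card (H ⊔ K : Subgroup G) * Nat.card (H ⊓ K : Subgroup G) = Nat.card H * Nat.card K := by
  have h1 : Nat.card (H ⊔ K : Subgroup G) = Nat.card K * K.relIndex (H ⊔ K) := by
    have h2 := Subgroup.relIndex_mul_relIndex (⊥ : Subgroup G) K (H ⊔ K) bot_le le_sup_right
    rw [Subgroup.relIndex_bot_left, Subgroup.relIndex_bot_left] at h2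
    exact h2.symm
  have h3 : Nat.card H = Nat.card (H ⊓ K : Subgroup G) * K.relIndex H := by
    have h2 := Subgroup.relIndex_mul_relIndex (⊥ : Subgroup G) (H ⊓ K) H bot_le inf_le_left
    rw [Subgroup.relIndex_bot_left, Subgroup.relIndex_bot_left, inf_comm, Subgroup.inf_relIndex_right] at h2
    rw [inf_comm]
    exact h2.symm
  rw [h1, Subgroup.relIndex_sup_right, h3]
  ring

/-- Let M and N be nontrivial normal subgroups of the finite group G with M ⊓ N trivial, and let p be a prime. Writing n(X) for the number of Sylow p-subgroups of a group X, one has n(G) · n(G/MN) = n(G/M) · n(G/N). -/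
theorem result {G : Type*} [Group G] [Finite G] (p : ℕ) [Fact p.Prime] (M N : Subgroup G) [M.Normal] [N.Normal] (hM : M ≠ ⊥) (hN : N ≠ ⊥) (hMN : M ⊓ N = ⊥) : Nat.card (Sylow p G) * Nat.card (Sylow p (G ⧸ (M ⊔ N))) = Nat.card (Sylow p (G ⧸ M)) * Nat.card (Sylow p (G ⧸ N)) := by
  obtain ⟨P⟩ : Nonempty (Sylow p G) := inferInstance
  rw [P.card_eq_index_normalizer, card_sylow_quot (M ⊔ N) P, card_sylow_quot M P, card_sylow_quot N P]
  obtain ⟨T, hT⟩ : ∃ T, T = Subgroup.normalizer ((P : Subgroup G) : Set G) := ⟨_, rfl⟩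
  have hkey := key_inf M N hMN P
  have hidx : (Subgroup.normalizer (P : Set G)).index = T.index := by rw [hT]; rfl
  rw [hidx]
  rw [← hT] at hkey ⊢
  -- cardinalities
  have h1 := prod_formula T M
  have h2 := prod_formula (T ⊔ N) M
  have hc : (T ⊔ N) ⊓ M = T ⊓ M := by
    apply le_antisymm
    · exact le_inf hkey inf_le_right
    · exact inf_le_inf_right _ le_sup_left
  rw [hc] at h2
  have e : T ⊔ (M ⊔ N) = T ⊔ N ⊔ M := by
    rw [sup_assoc, sup_comm M N]
  rw [e]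
  have i1 := T.index_mul_card
  have i2 := (T ⊔ N ⊔ M).index_mul_card
  have i3 := (T ⊔ M).index_mul_card
  have i4 := (T ⊔ N).index_mul_card
  have hpos1 : 0 < Nat.card (T ⊓ M : Subgroup G) := Nat.card_pos
  have hab : Nat.card (T ⊔ M : Subgroup G) * Nat.card (T ⊔ N : Subgroup G) = Nat.card T * Nat.card (T ⊔ N ⊔ M : Subgroup G) := by
    apply Nat.eq_of_mul_eq_mul_right hpos1
    calc _ = (Nat.card (T ⊔ M : Subgroup G) * Nat.card (T ⊓ M : Subgroup G)) * Nat.card (T ⊔ N : Subgroup G) := by ring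
      _ = (Nat.card T * Nat.card M) * Nat.card (T ⊔ N : Subgroup G) := by rw [h1]
      _ = Nat.card T * (Nat.card (T ⊔ N : Subgroup G) * Nat.card M) := by ring
      _ = Nat.card T * (Nat.card (T ⊔ N ⊔ M : Subgroup G) * Nat.card (T ⊓ M : Subgroup G)) := by rw [h2]
      _ = _ := by ring
  have hpos2 : 0 < Nat.card T * Nat.card (T ⊔ N ⊔ M : Subgroup G) := Nat.mul_pos Nat.card_pos Nat.card_pos
  apply Nat.eq_of_mul_eq_mul_right hpos2
  calc _ = (T.index * Nat.card T) * ((T ⊔ N ⊔ M).index * Nat.card (T ⊔ N ⊔ M : Subgroup G)) := by ring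
    _ = Nat.card G * Nat.card G := by rw [i1, i2]
    _ = ((T ⊔ M).index * Nat.card (T ⊔ M : Subgroup G)) * ((T ⊔ N).index * Nat.card (T ⊔ N : Subgroup G)) := by rw [i3, i4]
    _ = ((T ⊔ M).index * (T ⊔ N).index) * (Nat.card (T ⊔ M : Subgroup G) * Nat.card (T ⊔ N : Subgroup G)) := by ring
    _ = _ := by rw [hab]

end Cfsg.Agent.S3867
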