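import Cfsg.Statements.S3878
import Cfsg.Agent.Lib.HallSym
-- import your own Cfsg.Agent.* helpers here

set_option autoImplicit false
set_option linter.all false
open Cfsg

namespace Cfsg.Agent.S3878


theorem sylow_isPi {π : Set ℕ} {G : Type} [Group G] [Finite G] {p : ℕ} [Fact p.Prime] (hp : p ∈ π) (S : Sylow p G) :
    Cfsg.IsPiSubgroup π (S : Subgroup G) := by
  intro s hs hd
  obtain ⟨k, hk⟩ := IsPGroup.iff_card.1 S.isPGroup'
  rw [hk] at hd
  have := (Nat.prime_dvd_prime_iff_eq hs Fact.out).1 (hs.dvd_of_dvd_pow hd)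
  rwa [this]

theorem conj_one_map {G : Type} [Group G] (H : Subgroup G) : H.map (MulAut.conj (1 : G)).toMonoidHom = H := by
  ext x
  simp

theorem e_of {π : Set ℕ} (h : (∀ p q : ℕ, p.Prime → q.Prime → p ∈ π → q ∈ π → p = q) ∨ ∀ p : ℕ, p.Prime → p ∈ π)
    (G : Type) [Group G] [Finite G] : Cfsg.IsEPiGroup π G := by
  rcases h with h | h
  · by_cases hex : ∃ p : ℕ, p.Prime ∧ p ∈ π
    · obtain ⟨p, hp, hpπ⟩ := hex
      haveI : Fact p.Prime := ⟨hp⟩
      let S : Sylow p G := Classical.arbitrary _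
      refine ⟨(S : Subgroup G), sylow_isPi hpπ S, ?_⟩
      intro q hq hqπ
      rw [h q p hq hp hqπ hpπ]
      exact S.not_dvd_index
    · refine ⟨⊥, ?_, ?_⟩
      · intro p hp hd
        exfalso
        rw [Subgroup.card_bot] at hd
        exact hp.one_lt.ne' (Nat.dvd_one.1 hd)
      · intro p hp hpπ
        exact absurd ⟨p, hp, hpπ⟩ hex
  · refine ⟨⊤, ?_, ?_⟩
    · intro p hp _
      exact h p hp
    · intro p hp _
      rw [Subgroup.index_top]
      exact fun hd => hp.one_lt.ne' (Nat.dvd_one.1 hd)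

theorem d_of {π : Set ℕ} (h : (∀ p q : ℕ, p.Prime → q.Prime → p ∈ π → q ∈ π → p = q) ∨ ∀ p : ℕ, p.Prime → p ∈ π)
    (G : Type) [Group G] [Finite G] : Cfsg.IsDPiGroup π G := by
  intro H K hH hK
  rcases h with h | h
  · by_cases hex : ∃ p : ℕ, p.Prime ∧ p ∈ π
    · obtain ⟨p, hp, hpπ⟩ := hex
      haveI : Fact p.Prime := ⟨hp⟩
      have key : ∀ M : Subgroup G, Maximal (Cfsg.IsPiSubgroup π) M → ∃ S : Sylow p G, (S : Subgroup G) = M := by
        intro M hM
        have hpg : IsPGroup p M := by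
          apply IsPGroup.of_card (n := (Nat.card M).primeFactorsList.length)
          apply Nat.eq_prime_pow_of_unique_prime_dvd Nat.card_pos.ne'
          intro d hd hdv
          exact h d p hd hp (hM.prop d hd hdv) hpπ
        obtain ⟨S, hS⟩ := hpg.exists_le_sylow
        exact ⟨S, le_antisymm (hM.le_of_ge (sylow_isPi hpπ S) hS) hS⟩
      obtain ⟨S₁, rfl⟩ := key H hH
      obtain ⟨S₂, rfl⟩ := key K hK
      obtain ⟨g, hg⟩ := MulAction.exists_smul_eq G S₁ S₂
      refine ⟨g, ?_⟩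
      rw [← hg]
      rfl
    · have hbot : ∀ M : Subgroup G, Maximal (Cfsg.IsPiSubgroup π) M → M = ⊥ := by
        intro M hM
        rw [← Subgroup.card_eq_one]
        by_contra hne
        obtain ⟨d, hd, hdv⟩ := Nat.exists_prime_and_dvd hne
        exact hex ⟨d, hd, hM.prop d hd hdv⟩
      rw [hbot H hH, hbot K hK]
      exact ⟨1, (conj_one_map _).symm⟩
  · have htop : ∀ M : Subgroup G, Maximal (Cfsg.IsPiSubgroup π) M → M = ⊤ := by
      intro M hM
      exact le_antisymm le_top (hM.le_of_ge (fun p hp _ => h p hp) le_top)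
    rw [htop H hH, htop K hK]
    exact ⟨1, (conj_one_map _).symm⟩

theorem e_of_d {π : Set ℕ} (G : Type) [Group G] [Finite G] (hD : Cfsg.IsDPiGroup π G) : Cfsg.IsEPiGroup π G := by
  classical
  haveI : Finite (Subgroup G) := Finite.of_injective (fun H : Subgroup G => (H : Set G)) SetLike.coe_injective
  have hbot : Cfsg.IsPiSubgroup π (⊥ : Subgroup G) := by
    intro p hp hd
    exfalso
    rw [Subgroup.card_bot] at hd
    exact hp.one_lt.ne' (Nat.dvd_one.1 hd)
  obtain ⟨M, -, hM⟩ := Finite.exists_le_maximal hbot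
  refine ⟨M, hM.prop, ?_⟩
  intro p hp hpπ hdv
  haveI : Fact p.Prime := ⟨hp⟩
  let S : Sylow p G := Classical.arbitrary _
  obtain ⟨M', hSM', hM'⟩ := Finite.exists_le_maximal (sylow_isPi hpπ S)
  obtain ⟨g, hg⟩ := hD M M' hM hM'
  have hcard : Nat.card M' = Nat.card M := by
    rw [hg]
    exact Nat.card_congr ((MulAut.conj g).subgroupMap M).symm.toEquiv
  have hd1 : Nat.card S ∣ Nat.card M := by
    rw [← hcard]
    exact Subgroup.card_dvd_of_le hSM'
  obtain ⟨x, hx⟩ := hd1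
  have h1 := Subgroup.index_mul_card (S : Subgroup G)
  have h2 := Subgroup.index_mul_card M
  rw [← h2, hx] at h1
  have hSpos : 0 < Nat.card S := Nat.card_pos
  have h3 : (S : Subgroup G).index = M.index * x := by
    apply Nat.eq_of_mul_eq_mul_right hSpos
    rw [h1]
    ring
  apply S.not_dvd_index
  rw [h3]
  exact hdv.trans (dvd_mul_right _ _)

theorem not_e {π : Set ℕ} (h : ¬ ((∀ p q : ℕ, p.Prime → q.Prime → p ∈ π → q ∈ π → p = q) ∨ ∀ p : ℕ, p.Prime → p ∈ π)) :
    ∃ (G : Type) (_ : Group G) (_ : Finite G), ¬ Cfsg.IsEPiGroup π G := by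
  push Not at h
  obtain ⟨⟨p₀, q₀, hp₀, hq₀, hp₀π, hq₀π, hne⟩, r, hr, hrπ⟩ := h
  obtain ⟨p, q, hp, hq, hpπ, hqπ, hqp⟩ : ∃ p q : ℕ, p.Prime ∧ q.Prime ∧ p ∈ π ∧ q ∈ π ∧ q < p := by
    rcases lt_or_gt_of_ne hne with h1 | h1
    · exact ⟨q₀, p₀, hq₀, hp₀, hq₀π, hp₀π, h1⟩
    · exact ⟨p₀, q₀, hp₀, hq₀, hp₀π, hq₀π, h1⟩
  have ha : q + r + 3 ≤ p ^ (q + r + 3) := (Nat.lt_pow_self hp.one_lt).le
  refine ⟨Equiv.Perm (Fin (p ^ (q + r + 3))), inferInstance, inferInstance, ?_⟩
  rintro ⟨H, hH1, hH2⟩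
  exact Cfsg.Agent.Lib.HallSym.no_hall hp hq hr hqp ha H (hH2 p hp hpπ) (hH2 q hq hqπ) (fun hd => hrπ (hH1 r hr hd))


/-- For a set of primes π the following are equivalent: every finite group has a Hall π-subgroup; in every finite group the maximal π-subgroups are pairwise conjugate; π contains at most one prime or contains every prime. -/
theorem result (π : Set ℕ) :
    ((∀ (G : Type) [Group G] [Finite G], Cfsg.IsEPiGroup π G) ↔
      ((∀ p q : ℕ, p.Prime → q.Prime → p ∈ π → q ∈ π → p = q) ∨ ∀ p : ℕ, p.Prime → p ∈ π)) ∧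
    ((∀ (G : Type) [Group G] [Finite G], Cfsg.IsDPiGroup π G) ↔
      ((∀ p q : ℕ, p.Prime → q.Prime → p ∈ π → q ∈ π → p = q) ∨ ∀ p : ℕ, p.Prime → p ∈ π)) := by
  constructor
  · constructor
    · intro h
      by_contra hc
      obtain ⟨G, _, _, hG⟩ := not_e hc
      exact hG (h G)
    · intro h G _ _
      exact e_of h G
  · constructor
    · intro h
      by_contra hc
      obtain ⟨G, _, _, hG⟩ := not_e hc
      exact hG (e_of_d G (h G))
    · intro h G _ _
      exact d_of h G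

end Cfsg.Agent.S3878
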