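import Cfsg.Statements.S3886
import Cfsg.Agent.Lib.MetaOdd2
-- import your own Cfsg.Agent.* helpers here

set_option autoImplicit false
set_option linter.all false
open Cfsg

namespace Cfsg.Agent.S3886

/-- Let p be an odd prime and G a finite metacyclic p-group (G has a cyclic normal subgroup with cyclic quotient). Then the largest value of |R| · |Z(R)| over subgroups R of G is |G : G'|², and the subgroups attaining it (the centrally large subgroups) are exactly the non-abelian subgroups together with the maximal abelian subgroups of G. -/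
theorem result {G : Type*} [Group G] [Finite G] {p : ℕ} [Fact p.Prime] (hp : p ≠ 2) (hG : IsPGroup p G) (hmc : Cfsg.IsMetacyclic G) : Cfsg.maxCentralProduct G = (commutator G).index ^ 2 ∧
    ∀ R : Subgroup G, Cfsg.IsCentrallyLarge R ↔ (¬ IsMulCommutative ↥R ∨ Maximal (fun K : Subgroup G => IsMulCommutative ↥K) R) := by
  obtain ⟨N, hN, hc1, hc2⟩ := hmc
  have hodd : Odd p := (Fact.out : p.Prime).odd_of_ne_two hp
  obtain ⟨D⟩ := Cfsg.Agent.Lib.MetaOdd.exists_data hodd hG N hN hc1 hc2

  have hmax : Cfsg.maxCentralProduct G = (commutator G).index ^ 2 := by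
    rw [D.index_commutator, ← pow_mul, mul_comm (D.α + D.β - D.n) 2]
    show sSup _ = _
    apply IsGreatest.csSup_eq
    constructor
    · exact ⟨⊤, D.central_top⟩
    · rintro _ ⟨R, rfl⟩
      exact D.central_le R
  refine ⟨hmax, fun R => ?_⟩
  unfold Cfsg.IsCentrallyLarge
  rw [hmax, D.index_commutator, ← pow_mul, mul_comm (D.α + D.β - D.n) 2]
  exact D.central_iff R

end Cfsg.Agent.S3886
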