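import Cfsg.Statements.S3887
import Cfsg.Agent.Lib.MetaOdd2
-- import your own Cfsg.Agent.* helpers here

set_option autoImplicit false
set_option linter.all false
open Cfsg

namespace Cfsg.Agent.S3887

/-- Let p be an odd prime and G a finite metacyclic p-group (G has a cyclic normal subgroup with cyclic quotient). Then a subgroup R of G maximizes |R| · |C_G(R)| over all subgroups of G if and only if R contains the center of G. -/
theorem result {G : Type*} [Group G] [Finite G] {p : ℕ} [Fact p.Prime] (hp : p ≠ 2) (hG : IsPGroup p G) (hmc : Cfsg.IsMetacyclic G) (R : Subgroup G) : Cfsg.IsCentralizerLarge R ↔ Subgroup.center G ≤ R := by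
  obtain ⟨N, hN, hc1, hc2⟩ := hmc
  have hodd : Odd p := (Fact.out : p.Prime).odd_of_ne_two hp
  obtain ⟨D⟩ := Cfsg.Agent.Lib.MetaOdd.exists_data hodd hG N hN hc1 hc2

  have hmax : Cfsg.maxCentralizerProduct G = p ^ (2 * (D.α + D.β - D.n)) := by
    show sSup _ = _
    apply IsGreatest.csSup_eq
    constructor
    · exact ⟨⊤, D.param_top.card_mul_centralizer le_top⟩
    · rintro _ ⟨R, rfl⟩
      exact D.card_mul_centralizer_le R
  unfold Cfsg.IsCentralizerLarge
  rw [hmax]
  constructor
  · intro h
    by_contra hn
    exact (D.card_mul_centralizer_lt R hn).ne h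
  · intro hZ
    obtain ⟨s, t, w, h⟩ := D.exists_param R
    exact h.card_mul_centralizer hZ

end Cfsg.Agent.S3887
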