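import Cfsg.Statements.S3895
import Cfsg.Agent.Lib.PNilpB
import Cfsg.Agent.Lib.SylowIdx
import Cfsg.Agent.Lib.SylowIn
import Cfsg.Agent.Lib.SecTransfer
import Cfsg.Agent.Lib.PResidual
import Cfsg.Agent.Lib.PNilp

set_option autoImplicit false
set_option linter.all false
open Cfsg

namespace Cfsg.Agent.S3895


open Cfsg Cfsg.Agent.Lib

theorem conj_pow_inv' {G : Type*} [Group G] (w a : G) (i : ℕ) (h : w * a * w⁻¹ = a) :
    w ^ i * a * (w ^ i)⁻¹ = a := by
  induction i with
  | zero => simp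
  | succ i IH =>
    have : w ^ (i + 1) * a * (w ^ (i + 1))⁻¹ = w * (w ^ i * a * (w ^ i)⁻¹) * w⁻¹ := by
      rw [pow_succ']; group
    rw [this, IH, h]

/-- The counting inequality. -/
theorem count_le {G : Type*} [Group G] [Finite G] [Fintype G] [DecidableEq G] [DecidableEq (ConjClasses G)]
    (R : Subgroup G) [DecidablePred (· ∈ R)] (hR : IsPGroup 2 R)
    (Q : Subgroup G) (hQR : Q ≤ R) (y q : G) (hy : Odd (orderOf y)) (hyQ : ∀ a ∈ Q, y * a * y⁻¹ ∈ Q)
    (hq : q ∈ Q) (hyq : y * q * y⁻¹ ≠ q)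
    (hC : ∀ z ∈ Subgroup.centralizer (Q : Set G), (∃ k : ℕ, z ^ 2 ^ k = 1) →
      ∃ c ∈ Subgroup.centralizer (Q : Set G), c * z * c⁻¹ ∈ R) :
    2 * ((Finset.univ.filter (· ∈ R)).image (ConjClasses.mk : G → ConjClasses G)).card ≤
      (Finset.univ.filter (· ∈ R)).card := by
  classical
  set Rf : Finset G := Finset.univ.filter (· ∈ R) with hRf
  set S : Finset (ConjClasses G) := Rf.image ConjClasses.mk with hS
  have hRmem : ∀ x, x ∈ Rf ↔ x ∈ R := by intro x; simp [hRf]
  let Ff : Finset G := Rf.filter (fun x => ∀ z ∈ R, IsConj x z → z = x)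
  have hFmem : ∀ x, x ∈ Ff ↔ x ∈ R ∧ ∀ z ∈ R, IsConj x z → z = x := by
    intro x; simp [Ff, hRmem]
  -- `y⁻¹` also normalizes `Q`
  have hyk : ∀ k : ℕ, ∀ a ∈ Q, y ^ k * a * (y ^ k)⁻¹ ∈ Q := by
    intro k
    induction k with
    | zero => intro a ha; simpa using ha
    | succ k IH =>
      intro a ha
      have : y ^ (k + 1) * a * (y ^ (k + 1))⁻¹ = y * (y ^ k * a * (y ^ k)⁻¹) * y⁻¹ := by
        rw [pow_succ']; group
      rw [this]
      exact hyQ _ (IH a ha)
  have hyinv : ∀ a ∈ Q, y⁻¹ * a * y ∈ Q := by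
    intro a ha
    have hp := orderOf_pos y
    have h1 : y ^ (orderOf y - 1) = y⁻¹ := by
      rw [eq_inv_iff_mul_eq_one, ← pow_succ]
      rw [Nat.sub_add_cancel hp, pow_orderOf_eq_one]
    have := hyk (orderOf y - 1) a ha
    rw [h1, inv_inv] at this
    exact this
  have hF2 : ∀ x ∈ R, ∃ k : ℕ, x ^ 2 ^ k = 1 := by
    intro x hx
    obtain ⟨k, hk⟩ := hR ⟨x, hx⟩
    exact ⟨k, congrArg Subtype.val hk⟩
  have hFc : ∀ x ∈ Ff, ∀ p ∈ R, p * x * p⁻¹ = x := by
    intro x hx p hp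
    obtain ⟨hxR, hxF⟩ := (hFmem x).mp hx
    exact hxF _ (R.mul_mem (R.mul_mem hp hxR) (R.inv_mem hp)) (isConj_iff.mpr ⟨p, rfl⟩)
  -- the element `w`
  have hw : ∀ x ∈ Ff, ∃ w : G, w * x * w⁻¹ = x ∧ ∀ a ∈ Q, w * a * w⁻¹ = y * a * y⁻¹ := by
    intro x hx
    obtain ⟨hxR, hxF⟩ := (hFmem x).mp hx
    have h1 : y * x * y⁻¹ ∈ Subgroup.centralizer (Q : Set G) := by
      rw [Subgroup.mem_centralizer_iff]
      intro a ha
      have ha' := hyinv a ha
      have h2 := hFc x hx _ (hQR ha')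
      calc a * (y * x * y⁻¹) = y * ((y⁻¹ * a * y) * x) * y⁻¹ := by group
        _ = y * (((y⁻¹ * a * y) * x * (y⁻¹ * a * y)⁻¹) * (y⁻¹ * a * y)) * y⁻¹ := by group
        _ = y * (x * (y⁻¹ * a * y)) * y⁻¹ := by rw [h2]
        _ = (y * x * y⁻¹) * a := by group
    have h2 : ∃ k : ℕ, (y * x * y⁻¹) ^ 2 ^ k = 1 := by
      obtain ⟨k, hk⟩ := hF2 x hxR
      refine ⟨k, ?_⟩
      rw [conj_pow, hk]
      group
    obtain ⟨c, hc, hcR⟩ := hC _ h1 h2
    refine ⟨c * y, ?_, ?_⟩
    · have h3 : (c * y) * x * (c * y)⁻¹ = c * (y * x * y⁻¹) * c⁻¹ := by group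
      rw [h3]
      exact hxF _ hcR (isConj_iff.mpr ⟨c * y, by group⟩)
    · intro a ha
      have h3 : (c * y) * a * (c * y)⁻¹ = c * (y * a * y⁻¹) * c⁻¹ := by group
      rw [h3]
      have h4 := (Subgroup.mem_centralizer_iff.mp hc) _ (hyQ a ha)
      rw [← h4]
      group
  have hwk : ∀ (w : G), (∀ a ∈ Q, w * a * w⁻¹ = y * a * y⁻¹) → ∀ (i : ℕ), ∀ a ∈ Q,
      w ^ i * a * (w ^ i)⁻¹ = y ^ i * a * (y ^ i)⁻¹ := by
    intro w hwQ i
    induction i with
    | zero => intro a _; simp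
    | succ i IH =>
      intro a ha
      have e1 : w ^ (i + 1) * a * (w ^ (i + 1))⁻¹ = w * (w ^ i * a * (w ^ i)⁻¹) * w⁻¹ := by
        rw [pow_succ']; group
      have e2 : y ^ (i + 1) * a * (y ^ (i + 1))⁻¹ = y * (y ^ i * a * (y ^ i)⁻¹) * y⁻¹ := by
        rw [pow_succ']; group
      rw [e1, e2, IH a ha, hwQ _ (hyk i a ha)]
  let o : ℕ → G := fun i => y ^ i * q * (y ^ i)⁻¹
  have hoQ : ∀ i, o i ∈ Q := fun i => hyk i q hq
  have hconj : ∀ x ∈ Ff, ∀ i, IsConj (x * q) (x * o i) := by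
    intro x hx i
    obtain ⟨w, hw1, hw2⟩ := hw x hx
    refine isConj_iff.mpr ⟨w ^ i, ?_⟩
    have e1 : w ^ i * (x * q) * (w ^ i)⁻¹ = (w ^ i * x * (w ^ i)⁻¹) * (w ^ i * q * (w ^ i)⁻¹) := by group
    rw [e1, conj_pow_inv' w x i hw1, hwk w hw2 i q hq]
  -- an element fixed by `y` moving within an orbit is trivial
  have hu1 : ∀ u : G, u ∈ R → y * u * y⁻¹ = u → ∀ (k : ℕ) (a : G), y ^ k * a * (y ^ k)⁻¹ = u * a → u = 1 := by
    intro u huR huy k a hka
    have hcomm : ∀ n : ℕ, y ^ n * u * (y ^ n)⁻¹ = u := fun n => conj_pow_inv' y u n huy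
    have hn : ∀ n : ℕ, (y ^ k) ^ n * a * ((y ^ k) ^ n)⁻¹ = u ^ n * a := by
      intro n
      induction n with
      | zero => simp
      | succ n IH =>
        have e1 : (y ^ k) ^ (n + 1) * a * ((y ^ k) ^ (n + 1))⁻¹ = (y ^ k) * ((y ^ k) ^ n * a * ((y ^ k) ^ n)⁻¹) * (y ^ k)⁻¹ := by
          rw [pow_succ']; group
        rw [e1, IH]
        have e2 : y ^ k * (u ^ n * a) * (y ^ k)⁻¹ = (y ^ k * u ^ n * (y ^ k)⁻¹) * (y ^ k * a * (y ^ k)⁻¹) := by group
        have e3 : y ^ k * u ^ n * (y ^ k)⁻¹ = u ^ n := by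
          rw [← conj_pow, hcomm k]
        rw [e2, hka, e3, pow_succ, mul_assoc]
    have h2 := hn (orderOf y)
    rw [← pow_mul, mul_comm k, pow_mul, pow_orderOf_eq_one, one_pow, one_mul, inv_one, mul_one] at h2
    have h3 : u ^ orderOf y = 1 := by
      have : u ^ orderOf y * a = 1 * a := by rw [← h2, one_mul]
      exact mul_right_cancel this
    obtain ⟨m, hm⟩ := hF2 u huR
    have h4 : orderOf u ∣ orderOf y := orderOf_dvd_of_pow_eq_one h3
    have h5 : orderOf u ∣ 2 ^ m := orderOf_dvd_of_pow_eq_one hm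
    have h6 : Nat.Coprime (orderOf y) (2 ^ m) := Nat.Coprime.pow_right _ (Nat.coprime_two_right.mpr hy)
    have h7 : orderOf u = 1 := Nat.eq_one_of_dvd_coprimes h6 h4 h5
    exact orderOf_eq_one_iff.mp h7
  -- the three orbit elements are distinct
  have hqmoved : ∀ k : ℕ, k = 1 ∨ k = 2 → ∀ a : G, (∀ b, b = a → y ^ k * b * (y ^ k)⁻¹ = b) → y * a * y⁻¹ = a := by
    intro k hk a ha
    rcases hk with rfl | rfl
    · simpa using ha a rfl
    · have h1 := ha a rfl
      obtain ⟨m, hm⟩ := hy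
      have h2 : y = (y ^ 2) ^ (m + 1) := by
        rw [← pow_mul]
        have : 2 * (m + 1) = orderOf y + 1 := by omega
        rw [this, pow_succ, pow_orderOf_eq_one, one_mul]
      rw [h2]
      exact conj_pow_inv' (y ^ 2) a (m + 1) h1
  have hoinj : ∀ i j : ℕ, i < 3 → j < 3 → j < i → o i ≠ o j := by
    intro i j hi hj hji h
    have hk : i - j = 1 ∨ i - j = 2 := by omega
    have e1 : y ^ i = y ^ (i - j) * y ^ j := by rw [← pow_add]; congr 1; omega
    have hfix : y ^ (i - j) * o j * (y ^ (i - j))⁻¹ = o j := by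
      have : y ^ (i - j) * o j * (y ^ (i - j))⁻¹ = o i := by
        simp only [o]
        rw [e1]; group
      rw [this, h]
    have h3 := hqmoved (i - j) hk (o j) (fun b hb => by rw [hb]; exact hfix)
    apply hyq
    have e2 : y * q * y⁻¹ = (y ^ j)⁻¹ * (y * o j * y⁻¹) * y ^ j := by
      simp only [o]
      have : (y ^ j)⁻¹ * (y * (y ^ j * q * (y ^ j)⁻¹) * y⁻¹) * y ^ j = ((y ^ j)⁻¹ * y * y ^ j) * q * ((y ^ j)⁻¹ * y * y ^ j)⁻¹ := by group
      rw [this]
      have h5 : (y ^ j)⁻¹ * y * y ^ j = y := by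
        have : y * y ^ j = y ^ j * y := (pow_succ' y j).symm.trans (pow_succ y j)
        rw [mul_assoc, this]; group
      rw [h5]
    rw [e2, h3]
    simp only [o]
    group
  -- injectivity
  have hinj : ∀ x ∈ Ff, ∀ x' ∈ Ff, ∀ i j : ℕ, i < 3 → j < 3 → x * o i = x' * o j → x = x' ∧ i = j := by
    intro x hx x' hx' i j hi hj h
    obtain ⟨hxR, hxF⟩ := (hFmem x).mp hx
    obtain ⟨hx'R, hx'F⟩ := (hFmem x').mp hx'
    set u := x⁻¹ * x' with hu
    have hx'e : x' = x * u := by rw [hu]; group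
    have hui : o i = u * o j := by
      have : x * o i = x * (u * o j) := by
        rw [h, hx'e, hu]; group
      exact mul_left_cancel this
    have huQ : u ∈ Q := by
      have : u = o i * (o j)⁻¹ := by rw [hui]; group
      rw [this]
      exact Q.mul_mem (hoQ i) (Q.inv_mem (hoQ j))
    obtain ⟨w, hw1, hw2⟩ := hw x hx
    have huy : y * u * y⁻¹ = u := by
      have e1 : w * x' * w⁻¹ = x * (y * u * y⁻¹) := by
        have : w * x' * w⁻¹ = (w * x * w⁻¹) * (w * u * w⁻¹) := by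
          rw [hx'e]; group
        rw [this, hw1, hw2 u huQ]
      have e2 : x * (y * u * y⁻¹) ∈ R := R.mul_mem hxR (hQR (hyQ u huQ))
      have e3 := hx'F _ e2 (isConj_iff.mpr ⟨w, e1⟩)
      have e4 : x * (y * u * y⁻¹) = x * u := by rw [e3, ← hx'e]
      exact mul_left_cancel e4
    have hu_one : u = 1 := by
      by_cases hij : j ≤ i
      · apply hu1 u (hQR huQ) huy (i - j) (o j)
        rw [← hui]
        simp only [o]
        have e1 : y ^ i = y ^ (i - j) * y ^ j := by rw [← pow_add]; congr 1; omega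
        rw [e1]; group
      · have h2 : u⁻¹ = 1 := by
          apply hu1 u⁻¹ (R.inv_mem (hQR huQ)) (by
            have : y * u⁻¹ * y⁻¹ = (y * u * y⁻¹)⁻¹ := by group
            rw [this, huy]) (j - i) (o i)
          have h3 : o j = u⁻¹ * o i := by rw [hui]; group
          rw [← h3]
          simp only [o]
          have e1 : y ^ j = y ^ (j - i) * y ^ i := by rw [← pow_add]; congr 1; omega
          rw [e1]; group
        simpa using h2
    have hxx : x = x' := by rw [hx'e, hu_one, mul_one]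
    refine ⟨hxx, ?_⟩
    rw [hu_one, one_mul] at hui
    by_contra hne
    rcases Nat.lt_or_gt_of_ne hne with hlt | hgt
    · exact hoinj j i hj hi hlt hui.symm
    · exact hoinj i j hi hj hgt hui
  -- the local inequality
  let A : ConjClasses G → Finset G := fun c => Rf.filter (fun x => ConjClasses.mk x = c)
  let T : ConjClasses G → Finset G := fun c => Ff.filter (fun x => ConjClasses.mk (x * q) = c)
  let D : ConjClasses G → Finset G := fun c => Ff.filter (fun x => ConjClasses.mk x = c)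
  have hlocal : ∀ c ∈ S, 2 + (T c).card ≤ (A c).card + (D c).card := by
    intro c hc
    by_cases hT : (T c).Nonempty
    · have h3 : (T c ×ˢ Finset.range 3).card ≤ (A c).card := by
        apply Finset.card_le_card_of_injOn (fun p => p.1 * o p.2)
        · rintro ⟨x, i⟩ hp
          simp only [Finset.coe_product, Set.mem_prod, Finset.mem_coe, Finset.mem_range] at hp
          obtain ⟨hxT, hi⟩ := hp
          have hxF : x ∈ Ff := (Finset.mem_filter.mp hxT).1
          have hxq : ConjClasses.mk (x * q) = c := (Finset.mem_filter.mp hxT).2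
          simp only [Finset.mem_coe, A, Finset.mem_filter]
          refine ⟨(hRmem _).mpr (R.mul_mem ((hFmem x).mp hxF).1 (hQR (hoQ i))), ?_⟩
          rw [← hxq]
          exact (ConjClasses.mk_eq_mk_iff_isConj.mpr (hconj x hxF i)).symm
        · rintro ⟨x, i⟩ hp ⟨x', j⟩ hp' h
          simp only [Finset.coe_product, Set.mem_prod, Finset.mem_coe, Finset.mem_range] at hp hp'
          have := hinj x (Finset.mem_filter.mp hp.1).1 x' (Finset.mem_filter.mp hp'.1).1 i j hp.2 hp'.2 h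
          exact Prod.ext this.1 this.2
      rw [Finset.card_product, Finset.card_range] at h3
      have h4 : 1 ≤ (T c).card := hT.card_pos
      omega
    · have hT0 : (T c).card = 0 := by
        rw [Finset.card_eq_zero]
        exact Finset.not_nonempty_iff_eq_empty.mp hT
      rw [hT0]
      obtain ⟨x₀, hx₀, rfl⟩ := Finset.mem_image.mp hc
      have hx₀A : x₀ ∈ A (ConjClasses.mk x₀) := Finset.mem_filter.mpr ⟨hx₀, rfl⟩
      have h1 : 1 ≤ (A (ConjClasses.mk x₀)).card := Finset.card_pos.mpr ⟨x₀, hx₀A⟩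
      by_cases h2 : 2 ≤ (A (ConjClasses.mk x₀)).card
      · omega
      · have hA1 : (A (ConjClasses.mk x₀)).card = 1 := by omega
        have hall : ∀ z ∈ A (ConjClasses.mk x₀), z = x₀ := by
          intro z hz
          exact (Finset.card_eq_one.mp hA1).elim fun a ha => by
            rw [ha] at hz hx₀A
            rw [Finset.mem_singleton.mp hz, Finset.mem_singleton.mp hx₀A]
        have hx₀F : x₀ ∈ Ff := by
          rw [hFmem]
          refine ⟨(hRmem _).mp hx₀, fun z hz hconj' => ?_⟩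
          apply hall
          exact Finset.mem_filter.mpr ⟨(hRmem _).mpr hz, (ConjClasses.mk_eq_mk_iff_isConj.mpr hconj').symm⟩
        have hD : 1 ≤ (D (ConjClasses.mk x₀)).card :=
          Finset.card_pos.mpr ⟨x₀, Finset.mem_filter.mpr ⟨hx₀F, rfl⟩⟩
        omega
  have hsum := Finset.sum_le_sum hlocal
  rw [Finset.sum_add_distrib, Finset.sum_add_distrib] at hsum
  have e1 : ∑ c ∈ S, (A c).card = Rf.card := by
    symm
    apply Finset.card_eq_sum_card_fiberwise
    intro x hx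
    exact Finset.mem_coe.mpr (Finset.mem_image_of_mem _ hx)
  have e2 : ∑ c ∈ S, (D c).card = Ff.card := by
    symm
    apply Finset.card_eq_sum_card_fiberwise
    intro x hx
    exact Finset.mem_coe.mpr (Finset.mem_image_of_mem _ (Finset.mem_filter.mp hx).1)
  have e3 : ∑ c ∈ S, (T c).card = Ff.card := by
    symm
    apply Finset.card_eq_sum_card_fiberwise
    intro x hx
    apply Finset.mem_coe.mpr
    refine Finset.mem_image.mpr ⟨x * q, ?_, rfl⟩
    exact (hRmem _).mpr (R.mul_mem ((hFmem x).mp hx).1 (hQR hq))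
  rw [e1, e2, e3] at hsum
  simp only [Finset.sum_const, smul_eq_mul] at hsum
  omega

theorem inv_conj_mem' {G : Type*} [Group G] [Finite G] (E : Subgroup G) (y : G)
    (hy : ∀ e ∈ E, y * e * y⁻¹ ∈ E) : ∀ e ∈ E, y⁻¹ * e * y ∈ E := by
  have hyk : ∀ k : ℕ, ∀ a ∈ E, y ^ k * a * (y ^ k)⁻¹ ∈ E := by
    intro k
    induction k with
    | zero => intro a ha; simpa using ha
    | succ k IH =>
      intro a ha
      have : y ^ (k + 1) * a * (y ^ (k + 1))⁻¹ = y * (y ^ k * a * (y ^ k)⁻¹) * y⁻¹ := by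
        rw [pow_succ']; group
      rw [this]
      exact hy _ (IH a ha)
  intro a ha
  have hp := orderOf_pos y
  have h1 : y ^ (orderOf y - 1) = y⁻¹ := by
    rw [eq_inv_iff_mul_eq_one, ← pow_succ]
    rw [Nat.sub_add_cancel hp, pow_orderOf_eq_one]
  have := hyk (orderOf y - 1) a ha
  rw [h1, inv_inv] at this
  exact this

/-- The data produced when there is no normal 2-complement. -/
theorem data_of_not_npc {G : Type*} [Group G] [Finite G] (hn : ¬ HasNormalPComplement 2 G) :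
    ∃ (R : Sylow 2 G) (Q : Subgroup G) (y q : G), Q ≤ R ∧ Odd (orderOf y) ∧
      (∀ a ∈ Q, y * a * y⁻¹ ∈ Q) ∧ q ∈ Q ∧ y * q * y⁻¹ ≠ q ∧
      (∀ z ∈ Subgroup.centralizer (Q : Set G), (∃ k : ℕ, z ^ 2 ^ k = 1) →
        ∃ c ∈ Subgroup.centralizer (Q : Set G), c * z * c⁻¹ ∈ (R : Subgroup G)) := by
  haveI : Fact (Nat.Prime 2) := ⟨Nat.prime_two⟩
  have h1 : ¬ ∀ (y : G), (orderOf y).Coprime 2 → ∀ E : Subgroup G, IsPGroup 2 E → (∀ e ∈ E, y * e * y⁻¹ ∈ E) →
      (∀ e ∈ E, e ^ 2 = 1 ∨ ((2 : ℕ) = 2 ∧ e ^ 4 = 1)) → ∀ e ∈ E, y * e * y⁻¹ = e :=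
    fun h => hn (PNilpB.npc_of_exp_cond h)
  push_neg at h1
  obtain ⟨y, hy, E, hE, hyE, -, e, he, hye⟩ := h1
  have hyodd : Odd (orderOf y) := Nat.coprime_two_right.mp hy
  let N : Subgroup G := Subgroup.normalizer (E : Set G)
  have hEn : (E.subgroupOf N).Normal := Subgroup.normal_in_normalizer
  obtain ⟨S₀⟩ : Nonempty (Sylow 2 N) := inferInstance
  have hEp : IsPGroup 2 (E.subgroupOf N) := by
    have : IsPGroup 2 ((E ⊓ N : Subgroup G)) := hE.to_le inf_le_left
    exact this.of_equiv (Subgroup.subgroupOfEquivOfLe inf_le_right).symm |>.of_equiv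
      (MulEquiv.subgroupCongr (by
        rw [Subgroup.subgroupOf, Subgroup.subgroupOf]
        ext x; simp))
  have hES : ∀ x : N, x ∈ E.subgroupOf N → x ∈ (S₀ : Subgroup N) := by
    obtain ⟨g, hg⟩ := SylowIn.exists_conj_mem_sylow S₀ hEp
    intro x hx
    have h2 : g⁻¹ * x * g⁻¹⁻¹ ∈ E.subgroupOf N := hEn.conj_mem x hx g⁻¹
    have h3 := hg _ h2
    have h4 : g * (g⁻¹ * x * g⁻¹⁻¹) * g⁻¹ = x := by group
    rw [h4] at h3
    exact h3
  have hp0 : IsPGroup 2 ((S₀ : Subgroup N).map N.subtype) := S₀.isPGroup'.map _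
  obtain ⟨R, hR⟩ := hp0.exists_le_sylow
  refine ⟨R, E, y, e, ?_, hyodd, hyE, he, hye, ?_⟩
  · intro a ha
    have hn : a ∈ N := Subgroup.le_normalizer ha
    exact hR ⟨⟨a, hn⟩, hES _ (Subgroup.mem_subgroupOf.mpr ha), rfl⟩
  · intro z hz hz2
    have hCN : Subgroup.centralizer (E : Set G) ≤ N := by
      intro c hc
      rw [Subgroup.mem_normalizer_iff]
      intro h
      constructor
      · intro hh
        have := Subgroup.mem_centralizer_iff.mp hc h hh
        rw [← this]; simpa using hh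
      · intro hh
        have h2 : c⁻¹ ∈ Subgroup.centralizer (E : Set G) := Subgroup.inv_mem _ hc
        have := Subgroup.mem_centralizer_iff.mp h2 _ hh
        have h3 : c⁻¹ * (c * h * c⁻¹) * c = h := by group
        rw [← h3, ← this]
        simpa using hh
    let K : Subgroup N := (Subgroup.centralizer (E : Set G)).subgroupOf N
    haveI hKn : K.Normal := by
      constructor
      intro n hn g
      rw [Subgroup.mem_subgroupOf] at hn ⊢
      rw [Subgroup.mem_centralizer_iff]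
      intro a ha
      have hg := (Subgroup.mem_normalizer_iff.mp g.2 a)
      have ha2 : (g : G)⁻¹ * a * (g : G) ∈ E := by
        have h5 := (Subgroup.mem_normalizer_iff.mp (N.inv_mem g.2) a).1 ha
        simpa using h5
      have h6 := Subgroup.mem_centralizer_iff.mp hn _ ha2
      simp only [Subgroup.coe_mul, MulMemClass.coe_mul, InvMemClass.coe_inv]
      calc a * ((g : G) * (n : G) * (g : G)⁻¹) = (g : G) * (((g : G)⁻¹ * a * g) * n) * (g : G)⁻¹ := by group
        _ = (g : G) * ((n : G) * ((g : G)⁻¹ * a * g)) * (g : G)⁻¹ := by rw [h6]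
        _ = (g : G) * (n : G) * (g : G)⁻¹ * a := by group
    obtain ⟨R₀, hR₀⟩ := SylowIdx.exists_sylow_inf S₀ K
    have hzN : z ∈ N := hCN hz
    have hzK : (⟨z, hzN⟩ : N) ∈ K := Subgroup.mem_subgroupOf.mpr hz
    let zt : K := ⟨⟨z, hzN⟩, hzK⟩
    have hzt : IsPGroup 2 (Subgroup.zpowers zt) := by
      obtain ⟨k, hk⟩ := hz2
      have : zt ^ 2 ^ k = 1 := by
        apply Subtype.ext
        apply Subtype.ext
        simpa [zt] using hk
      rw [IsPGroup.iff_orderOf]
      rintro ⟨g, hg⟩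
      obtain ⟨m, rfl⟩ := Subgroup.mem_zpowers_iff.mp hg
      have h7 : (zt ^ m) ^ 2 ^ k = 1 := by
        rw [← zpow_natCast, ← zpow_mul, mul_comm, zpow_mul, zpow_natCast, this, one_zpow]
      have h8 : orderOf (⟨zt ^ m, hg⟩ : Subgroup.zpowers zt) ∣ 2 ^ k := by
        apply orderOf_dvd_of_pow_eq_one
        apply Subtype.ext
        simpa using h7
      obtain ⟨j, -, hj⟩ := (Nat.dvd_prime_pow Nat.prime_two).mp h8
      exact ⟨j, hj⟩
    obtain ⟨ct, hct⟩ := SylowIn.exists_conj_mem_sylow R₀ hzt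
    have h9 : ct * zt * ct⁻¹ ∈ (R₀ : Subgroup K) := hct zt (Subgroup.mem_zpowers zt)
    rw [hR₀] at h9
    have h10 := (Subgroup.mem_subgroupOf.mp h9).1
    refine ⟨((ct : N) : G), Subgroup.mem_subgroupOf.mp ct.2, ?_⟩
    apply hR
    exact ⟨_, h10, by simp [zt]⟩

theorem two_elt_of_pred {G : Type*} [Group G] [Finite G] (x : G) (h : ∃ k : ℕ, orderOf x = 2 ^ k) :
    IsPGroup 2 (Subgroup.zpowers x) := by
  obtain ⟨k, hk⟩ := h
  have h1 : x ^ 2 ^ k = 1 := by rw [← hk, pow_orderOf_eq_one]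
  rw [IsPGroup.iff_orderOf]
  rintro ⟨g, hg⟩
  obtain ⟨m, rfl⟩ := Subgroup.mem_zpowers_iff.mp hg
  have h7 : (x ^ m) ^ 2 ^ k = 1 := by
    rw [← zpow_natCast, ← zpow_mul, mul_comm, zpow_mul, zpow_natCast, h1, one_zpow]
  have h8 : orderOf (⟨x ^ m, hg⟩ : Subgroup.zpowers x) ∣ 2 ^ k := by
    apply orderOf_dvd_of_pow_eq_one
    apply Subtype.ext
    simpa using h7
  obtain ⟨j, -, hj⟩ := (Nat.dvd_prime_pow Nat.prime_two).mp h8
  exact ⟨j, hj⟩

theorem conj_into_sylow' {G : Type*} [Group G] [Finite G] (R : Sylow 2 G) (x : G)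
    (h : ∃ k : ℕ, orderOf x = 2 ^ k) : ∃ g : G, g * x * g⁻¹ ∈ (R : Subgroup G) := by
  haveI : Fact (Nat.Prime 2) := ⟨Nat.prime_two⟩
  obtain ⟨g, hg⟩ := SylowIn.exists_conj_mem_sylow R (two_elt_of_pred x h)
  exact ⟨g, hg x (Subgroup.mem_zpowers x)⟩

/-- If there is no normal 2-complement then `k₂` is at most `|R|/2`. -/
theorem not_npc_le {G : Type*} [Group G] [Finite G] (P : Sylow 2 G)
    (hn : ¬ HasNormalPComplement 2 G) :
    2 * Nat.card {c : ConjClasses G // ∀ x ∈ c.carrier, ∃ k : ℕ, orderOf x = 2 ^ k} ≤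
      Nat.card ↥(P : Subgroup G) := by
  classical
  haveI : Fact (Nat.Prime 2) := ⟨Nat.prime_two⟩
  obtain ⟨R, Q, y, q, hQR, hy, hyQ, hq, hyq, hC⟩ := data_of_not_npc hn
  haveI : Fintype G := Fintype.ofFinite G
  have h1 := count_le (R : Subgroup G) R.isPGroup' Q hQR y q hy hyQ hq hyq hC
  have h2 : Nat.card ↥(P : Subgroup G) = Nat.card ↥(R : Subgroup G) :=
    Nat.card_congr (Sylow.equiv P R).toEquiv
  have h3 : (Finset.univ.filter (· ∈ (R : Subgroup G))).card = Nat.card ↥(R : Subgroup G) := by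
    rw [Nat.card_eq_fintype_card, Fintype.card_subtype]
  have h4 : Nat.card {c : ConjClasses G // ∀ x ∈ c.carrier, ∃ k : ℕ, orderOf x = 2 ^ k} ≤
      ((Finset.univ.filter (· ∈ (R : Subgroup G))).image (ConjClasses.mk : G → ConjClasses G)).card := by
    rw [Nat.card_eq_fintype_card]
    rw [Fintype.card_subtype]
    apply Finset.card_le_card
    intro c hc
    have hc' := (Finset.mem_filter.mp hc).2
    obtain ⟨x, rfl⟩ := ConjClasses.exists_rep c
    have hx := hc' x (ConjClasses.mem_carrier_mk)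
    obtain ⟨g, hg⟩ := conj_into_sylow' R x hx
    refine Finset.mem_image.mpr ⟨g * x * g⁻¹, ?_, ?_⟩
    · simpa using hg
    · exact (ConjClasses.mk_eq_mk_iff_isConj.mpr (isConj_iff.mpr ⟨g, rfl⟩)).symm
  rw [h2, ← h3]
  omega

/-- With a normal 2-complement, `k₂(G) = k(P)`. -/
theorem card_eq_of_npc {G : Type*} [Group G] [Finite G] (P : Sylow 2 G)
    (hn : HasNormalPComplement 2 G) :
    Nat.card {c : ConjClasses G // ∀ x ∈ c.carrier, ∃ k : ℕ, orderOf x = 2 ^ k} =
      Nat.card (ConjClasses ↥(P : Subgroup G)) := by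
  classical
  haveI : Fact (Nat.Prime 2) := ⟨Nat.prime_two⟩
  obtain ⟨N, hN, hN2, hNg⟩ := PNilp.npc_iff.mp hn
  haveI := hN
  have hq : IsPGroup 2 (G ⧸ N) := by
    intro g
    induction g using QuotientGroup.induction_on with
    | _ g =>
      obtain ⟨k, hk⟩ := hNg g
      refine ⟨k, ?_⟩
      rw [← QuotientGroup.mk_pow]
      exact (QuotientGroup.eq_one_iff _).mpr hk
  have hsup : N ⊔ (P : Subgroup G) = ⊤ := PResidual.sup_sylow_eq_top_of_isPGroup_quotient hq P
  have hpred : ∀ c : ConjClasses ↥(P : Subgroup G), ∀ x ∈ (ConjClasses.map (P : Subgroup G).subtype c).carrier,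
      ∃ k : ℕ, orderOf x = 2 ^ k := by
    intro c x hx
    obtain ⟨a, rfl⟩ := ConjClasses.exists_rep c
    have h1 : IsConj ((a : ↥(P : Subgroup G)) : G) x := by
      have h2 : ConjClasses.mk x = ConjClasses.mk ((a : ↥(P : Subgroup G)) : G) := ConjClasses.mem_carrier_iff_mk_eq.mp hx
      exact (ConjClasses.mk_eq_mk_iff_isConj.mp h2).symm
    obtain ⟨c, hc⟩ := isConj_iff.mp h1
    have h3 : orderOf x = orderOf ((a : ↥(P : Subgroup G)) : G) := by
      rw [← hc]
      exact (MulEquiv.orderOf_eq (MulAut.conj c) _)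
    rw [h3]
    obtain ⟨k, hk⟩ := (IsPGroup.iff_orderOf.mp P.isPGroup') a
    refine ⟨k, ?_⟩
    rw [← hk]
    exact (Subgroup.orderOf_coe a)
  let f : ConjClasses ↥(P : Subgroup G) → {c : ConjClasses G // ∀ x ∈ c.carrier, ∃ k : ℕ, orderOf x = 2 ^ k} :=
    fun c => ⟨ConjClasses.map (P : Subgroup G).subtype c, hpred c⟩
  have hf : Function.Bijective f := by
    constructor
    · intro c₁ c₂ h
      obtain ⟨a, rfl⟩ := ConjClasses.exists_rep c₁
      obtain ⟨b, rfl⟩ := ConjClasses.exists_rep c₂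
      have h1 : ConjClasses.map (P : Subgroup G).subtype (ConjClasses.mk a) = ConjClasses.map (P : Subgroup G).subtype (ConjClasses.mk b) :=
        congrArg Subtype.val h
      have h2 : IsConj ((a : ↥(P : Subgroup G)) : G) (b : ↥(P : Subgroup G)) := ConjClasses.mk_eq_mk_iff_isConj.mp h1
      obtain ⟨g, hg⟩ := isConj_iff.mp h2
      have hgt : g ∈ N ⊔ (P : Subgroup G) := by rw [hsup]; trivial
      obtain ⟨n, hn, p, hp, rfl⟩ := Subgroup.mem_sup_of_normal_left.mp hgt
      apply ConjClasses.mk_eq_mk_iff_isConj.mpr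
      apply isConj_iff.mpr
      refine ⟨⟨p, hp⟩, ?_⟩
      apply Subtype.ext
      set x₁ : G := p * (a : G) * p⁻¹ with hx₁
      have hx₁P : x₁ ∈ (P : Subgroup G) := (P : Subgroup G).mul_mem ((P : Subgroup G).mul_mem hp a.2) ((P : Subgroup G).inv_mem hp)
      have e1 : (b : G) = n * x₁ * n⁻¹ := by
        rw [← hg, hx₁]; group
      have e2 : (b : G) * x₁⁻¹ = n * (x₁ * n⁻¹ * x₁⁻¹) := by
        rw [e1]; group
      have e3 : (b : G) * x₁⁻¹ ∈ N := by
        rw [e2]
        exact N.mul_mem hn (hN.conj_mem _ (N.inv_mem hn) _)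
      have e4 : (b : G) * x₁⁻¹ ∈ (P : Subgroup G) := (P : Subgroup G).mul_mem b.2 ((P : Subgroup G).inv_mem hx₁P)
      have e5 := SecTransfer.eq_one_of_mem_coprime P.isPGroup' hN2 e4 e3
      have e6 : (b : G) = x₁ := by
        have := mul_inv_eq_one.mp e5
        exact this
      simpa [hx₁] using e6.symm
    · rintro ⟨c, hc⟩
      obtain ⟨x, rfl⟩ := ConjClasses.exists_rep c
      have hx := hc x ConjClasses.mem_carrier_mk
      obtain ⟨g, hg⟩ := conj_into_sylow' P x hx
      refine ⟨ConjClasses.mk ⟨g * x * g⁻¹, hg⟩, ?_⟩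
      apply Subtype.ext
      exact (ConjClasses.mk_eq_mk_iff_isConj.mpr (isConj_iff.mpr ⟨g, rfl⟩)).symm
  exact (Nat.card_eq_of_bijective f hf).symm


/-- Let G be a finite group with Sylow 2-subgroup P, and write k₂(G) for the number of conjugacy classes of G consisting of 2-elements (elements of 2-power order, the identity included). Then k₂(G) > |P|/2 if and only if G has a normal 2-complement and P has more than |P|/2 conjugacy classes. -/
theorem result {G : Type*} [Group G] [Finite G] (P : Sylow 2 G) :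
    Nat.card ↥(P : Subgroup G) < 2 * Nat.card {c : ConjClasses G // ∀ x ∈ c.carrier, ∃ k : ℕ, orderOf x = 2 ^ k} ↔
      Cfsg.HasNormalPComplement 2 G ∧ Nat.card ↥(P : Subgroup G) < 2 * Nat.card (ConjClasses ↥(P : Subgroup G)) := by
  haveI : Fact (Nat.Prime 2) := ⟨Nat.prime_two⟩
  constructor
  · intro h
    have hn : HasNormalPComplement 2 G := by
      by_contra hn
      have := not_npc_le P hn
      omega
    refine ⟨hn, ?_⟩
    rw [← card_eq_of_npc P hn]
    exact h
  · rintro ⟨hn, h⟩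
    rw [card_eq_of_npc P hn]
    exact h

end Cfsg.Agent.S3895
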