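import Mathlib
import Cfsg.Statements.S3897
import Cfsg.Agent.Lib.H6KP
import Cfsg.Agent.Lib.PNilpB
-- import your own Cfsg.Agent.* helpers here

set_option autoImplicit false
open Cfsg

namespace Cfsg.Agent.S3897

/-- Let p be an odd prime and G a finite group with Sylow p-subgroup P, and write k_p(G) for the number of conjugacy classes of G consisting of p-elements (elements of p-power order, the identity included). Then k_p(G) > (p + 1)|P|/(2p) if and only if G has a normal p-complement and P is abelian. -/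
theorem result {G : Type*} [Group G] [Finite G] {p : ℕ} [Fact p.Prime] (hp : p ≠ 2) (P : Sylow p G) :
    (p + 1) * Nat.card ↥(P : Subgroup G) < 2 * p * Nat.card {c : ConjClasses G // ∀ x ∈ c.carrier, ∃ k : ℕ, orderOf x = p ^ k} ↔
      Cfsg.HasNormalPComplement p G ∧ IsMulCommutative ↥(P : Subgroup G) := by
  classical
  have hpp : p.Prime := Fact.out
  constructor
  · intro h
    have hle := Cfsg.Agent.Lib.H6KP.normalizer_le_of_bound P h
    refine ⟨Cfsg.Agent.Lib.PNilpB.npc_of_normalizer_le P hle, ⟨⟨fun u v => ?_⟩⟩⟩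
    apply Subtype.ext
    have h1 : (u : G) ∈ Subgroup.centralizer ((P : Subgroup G) : Set G) :=
      hle (Subgroup.le_normalizer u.2)
    exact (Subgroup.mem_centralizer_iff.1 h1 v v.2).symm
  · rintro ⟨⟨Q, N, hNn, hC⟩, hab⟩
    have hcomm : ∀ a ∈ (P : Subgroup G), ∀ b ∈ (P : Subgroup G), a * b = b * a := fun a ha b hb =>
      congrArg Subtype.val (hab.is_comm.comm ⟨a, ha⟩ ⟨b, hb⟩)
    haveI := hNn
    -- `N` is a complement of `P`
    have hcardQ : Nat.card (Q : Subgroup G) = Nat.card (P : Subgroup G) := by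
      rw [Q.card_eq_multiplicity, P.card_eq_multiplicity]
    have hcard : Nat.card N * Nat.card (P : Subgroup G) = Nat.card G := by
      rw [← hcardQ]
      exact hC.card_mul_card
    have hNp : ¬ p ∣ Nat.card N := by
      have hi : Nat.card N = (Q : Subgroup G).index := by
        have h1 := (Q : Subgroup G).card_mul_index
        have h2 := hC.card_mul_card
        rw [mul_comm] at h2
        exact (Nat.eq_of_mul_eq_mul_left Nat.card_pos (h2.trans h1.symm))
      rw [hi]
      exact Q.not_dvd_index
    have hinf : ∀ x ∈ N, x ∈ (P : Subgroup G) → x = 1 := by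
      intro x hxN hxP
      obtain ⟨k, hk⟩ := (IsPGroup.iff_orderOf.1 P.isPGroup') ⟨x, hxP⟩
      have h1 : orderOf x = p ^ k := by
        rw [← hk]
        exact (Subgroup.orderOf_mk x hxP).symm
      have h2 : orderOf x ∣ Nat.card N := Subgroup.orderOf_dvd_natCard N hxN
      have hk0 : k = 0 := by
        by_contra hk0
        rw [h1] at h2
        exact hNp ((dvd_pow_self p hk0).trans h2)
      rw [hk0, pow_zero] at h1
      exact orderOf_eq_one_iff.1 h1
    have hsup : N ⊔ (P : Subgroup G) = ⊤ := by
      apply Subgroup.eq_top_of_card_eq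
      have h1 : N ≤ N ⊔ (P : Subgroup G) := le_sup_left
      have h2 : (P : Subgroup G) ≤ N ⊔ (P : Subgroup G) := le_sup_right
      have h3 : Nat.card N ∣ Nat.card (N ⊔ (P : Subgroup G) : Subgroup G) := Subgroup.card_dvd_of_le h1
      have h4 : Nat.card (P : Subgroup G) ∣ Nat.card (N ⊔ (P : Subgroup G) : Subgroup G) :=
        Subgroup.card_dvd_of_le h2
      have hcop : Nat.Coprime (Nat.card N) (Nat.card (P : Subgroup G)) := by
        rw [P.card_eq_multiplicity]
        exact Nat.Coprime.pow_right _ (Nat.coprime_comm.1 ((Nat.Prime.coprime_iff_not_dvd hpp).2 hNp))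
      have h5 := hcop.mul_dvd_of_dvd_of_dvd h3 h4
      rw [hcard] at h5
      exact Nat.dvd_antisymm (Subgroup.card_subgroup_dvd_card _) h5
    have hinj : Function.Injective (fun x : (P : Subgroup G) =>
        (⟨ConjClasses.mk (x : G), Cfsg.Agent.Lib.H6KP.class_pelem (P : Subgroup G) P.isPGroup' x⟩ :
          {c : ConjClasses G // ∀ x ∈ c.carrier, ∃ k : ℕ, orderOf x = p ^ k})) := by
      intro x y hxy
      have h1 : IsConj (x : G) (y : G) := ConjClasses.mk_eq_mk_iff_isConj.1 (congrArg Subtype.val hxy)
      obtain ⟨g, hg⟩ := isConj_iff.1 h1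
      have hgm : g ∈ N ⊔ (P : Subgroup G) := by rw [hsup]; trivial
      obtain ⟨n, hn, u, hu, rfl⟩ := Subgroup.mem_sup_of_normal_left.1 hgm
      have h2 : (y : G) = n * x * n⁻¹ := by
        rw [← hg]
        have h3 : u * (x : G) * u⁻¹ = x := by
          rw [hcomm u hu x x.2]
          group
        calc n * u * (x : G) * (n * u)⁻¹ = n * (u * (x : G) * u⁻¹) * n⁻¹ := by group
          _ = _ := by rw [h3]
      have h3 : (y : G) * (x : G)⁻¹ ∈ N := by
        rw [h2]
        have h4 : n * (x : G) * n⁻¹ * (x : G)⁻¹ = n * ((x : G) * n⁻¹ * (x : G)⁻¹) := by group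
        rw [h4]
        exact N.mul_mem hn (hNn.conj_mem _ (N.inv_mem hn) _)
      have h4 := hinf _ h3 (Subgroup.mul_mem _ y.2 (Subgroup.inv_mem _ x.2))
      apply Subtype.ext
      rw [mul_inv_eq_one] at h4
      exact h4.symm
    have hle := Nat.card_le_card_of_injective _ hinj
    have h2 : p + 1 < 2 * p := by have := hpp.one_lt; omega
    have hpos : 0 < Nat.card (P : Subgroup G) := Nat.card_pos
    calc (p + 1) * Nat.card (P : Subgroup G) < 2 * p * Nat.card (P : Subgroup G) :=
          Nat.mul_lt_mul_of_pos_right h2 hpos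
      _ ≤ _ := Nat.mul_le_mul_left _ hle

end Cfsg.Agent.S3897
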