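import Mathlib
import Cfsg.Statements.S3898
import Cfsg.Agent.Lib.H6KPi
-- import your own Cfsg.Agent.* helpers here

set_option autoImplicit false
open Cfsg

namespace Cfsg.Agent.S3898

open Cfsg.Agent.Lib.H6KPi


/-- Let π be a finite set of primes containing 2 and G a finite group. Write k_π(G) for the number of conjugacy classes of G consisting of π-elements (elements all of whose order's prime divisors lie in π) and |G|_π for the π-part of the order of G. If k_π(G) > |G|_π/2, then G has a normal π-complement (a normal subgroup of order prime to π whose index is a π-number) and an abelian Hall subgroup for the set of odd primes in π. -/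
theorem result {G : Type*} [Group G] [Finite G] (π : Finset ℕ) (hπ : ∀ r ∈ π, r.Prime) (h2 : 2 ∈ π)
    (hk : π.prod (fun r => r ^ (Nat.card G).factorization r) < 2 * Nat.card {c : ConjClasses G // ∀ x ∈ c.carrier, ∀ r : ℕ, r.Prime → r ∣ orderOf x → r ∈ π}) :
    (∃ N : Subgroup G, N.Normal ∧ (∀ r : ℕ, r.Prime → r ∣ Nat.card ↥N → r ∉ π) ∧ ∀ r : ℕ, r.Prime → r ∣ N.index → r ∈ π) ∧ ∃ H : Subgroup G, Cfsg.IsPiHall ((↑π : Set ℕ) \ {2}) H ∧ IsMulCommutative ↥H := by
  classical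
  haveI h2f : Fact (Nat.Prime 2) := ⟨Nat.prime_two⟩
  have hk' : partOf π (Nat.card G) < 2 * Nat.card (KPi π G) := hk
  have hlt : ∀ {r : ℕ}, r ∈ π → r ^ (Nat.card G).factorization r < 2 * Nat.card (KPi {r} G) :=
    fun hr => part_lt π hπ hk' hr
  obtain ⟨P2⟩ : Nonempty (Sylow 2 G) := inferInstance
  have hnpc2 : HasNormalPComplement 2 G := by
    apply npc_of_lt P2 (fun y hy => Nat.coprime_two_right.1 hy)
    rw [Sylow.card_eq_multiplicity P2]
    exact hlt h2
  obtain ⟨K, hKn, hK2, hKpow⟩ := Cfsg.Agent.Lib.PNilp.npc_iff.1 hnpc2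
  haveI := hKn
  have hKiff : ∀ x : G, x ∈ K ↔ ¬ 2 ∣ orderOf x := Cfsg.Agent.Lib.H6Hughes.mem_npc_iff K hK2 hKpow
  have hKodd : Odd (Nat.card K) := Nat.not_even_iff_odd.1 (fun h => hK2 h.two_dvd)
  have hex : ∀ r : ℕ, r ∈ π → r ≠ 2 → ∃ M : Subgroup G, M.Normal ∧
      (∀ x : G, x ∈ M ↔ x ∈ K ∧ ¬ r ∣ orderOf x) ∧ ∀ a ∈ K, ∀ b ∈ K, a * b * a⁻¹ * b⁻¹ ∈ M := by
    intro r hr hr2
    haveI : Fact r.Prime := ⟨hπ r hr⟩
    refine exists_M K hKodd ?_ (hlt hr)
    intro x hx
    rw [hKiff]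
    intro hd
    have := Finset.mem_singleton.1 (hx 2 Nat.prime_two hd)
    exact hr2 this.symm
  choose M hMn hMiff hMc using hex
  let N : Subgroup G := K ⊓ ⨅ (r : ℕ) (h1 : r ∈ π) (h2 : r ≠ 2), M r h1 h2
  have hNmem : ∀ x : G, x ∈ N ↔ x ∈ K ∧ ∀ r, r ∈ π → r ≠ 2 → ¬ r ∣ orderOf x := by
    intro x
    simp only [N, Subgroup.mem_inf, Subgroup.mem_iInf]
    constructor
    · rintro ⟨h1, h3⟩
      exact ⟨h1, fun r h4 h5 => ((hMiff r h4 h5 x).1 (h3 r h4 h5)).2⟩
    · rintro ⟨h1, h3⟩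
      exact ⟨h1, fun r h4 h5 => (hMiff r h4 h5 x).2 ⟨h1, h3 r h4 h5⟩⟩
  have hNn : N.Normal := by
    constructor
    intro n hn g
    rw [hNmem] at hn ⊢
    refine ⟨hKn.conj_mem n hn.1 g, fun r h4 h5 => ?_⟩
    rw [Cfsg.Agent.Lib.H6Hughes.order_of_conj]
    exact hn.2 r h4 h5
  have hNp : ∀ r : ℕ, r.Prime → r ∣ Nat.card ↥N → r ∉ π := by
    intro r hr hd hrπ
    haveI : Fact r.Prime := ⟨hr⟩
    obtain ⟨y, hy⟩ := exists_prime_orderOf_dvd_card' r hd
    have hy1 : orderOf (y : G) = r := by rw [Subgroup.orderOf_coe]; exact hy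
    have hy2 := (hNmem _).1 y.2
    by_cases hr2 : r = 2
    · apply (hKiff _).1 hy2.1
      rw [hy1, hr2]
    · exact hy2.2 r hrπ hr2 (by rw [hy1])
  have hNidx : ∀ q : ℕ, q.Prime → q ∣ N.index → q ∈ π := by
    intro q hq hd
    by_contra hqπ
    haveI : Fact q.Prime := ⟨hq⟩
    obtain ⟨S⟩ : Nonempty (Sylow q G) := inferInstance
    have hSN : (S : Subgroup G) ≤ N := by
      intro x hx
      obtain ⟨k, hk⟩ := (IsPGroup.iff_orderOf.mp S.isPGroup') ⟨x, hx⟩
      have hk' : orderOf x = q ^ k := by rw [← hk]; exact (Subgroup.orderOf_mk x hx).symm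
      have hne : ∀ r, r ∈ π → ¬ r ∣ orderOf x := by
        intro r hr hdr
        rw [hk'] at hdr
        have := (Nat.prime_dvd_prime_iff_eq (hπ r hr) hq).1 ((hπ r hr).dvd_of_dvd_pow hdr)
        exact hqπ (this ▸ hr)
      rw [hNmem]
      exact ⟨(hKiff x).2 (hne 2 h2), fun r h4 _ => hne r h4⟩
    exact S.not_dvd_index (hd.trans (Subgroup.index_dvd_of_le hSN))
  refine ⟨⟨N, hNn, hNp, hNidx⟩, ?_⟩
  -- Schur-Zassenhaus inside `K`
  have hNK : N ≤ K := inf_le_left
  let N' : Subgroup ↥K := N.subgroupOf K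
  haveI hN'n : N'.Normal := by
    haveI := hNn
    exact Subgroup.Normal.subgroupOf hNn K
  have hN'card : Nat.card N' = Nat.card N := by
    exact Nat.card_congr (Subgroup.subgroupOfEquivOfLe hNK).toEquiv
  have hN'idx : N'.index ∣ N.index := ⟨K.index, (Subgroup.relIndex_mul_index hNK).symm⟩
  have hcop : Nat.Coprime (Nat.card N') N'.index := by
    apply Nat.coprime_of_dvd
    intro s hs h3 h4
    rw [hN'card] at h3
    exact hNp s hs h3 (hNidx s hs (h4.trans hN'idx))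
  obtain ⟨H', hH'⟩ := Subgroup.exists_right_complement'_of_coprime hcop
  have hcard := hH'.card_mul
  have hcard2 := Subgroup.card_mul_index N'
  have hcard3 := Subgroup.card_mul_index H'
  have hN'pos : 0 < Nat.card N' := Nat.card_pos
  have hH'pos : 0 < Nat.card H' := Nat.card_pos
  have hH'eq : Nat.card H' = N'.index := by
    have : Nat.card N' * Nat.card H' = Nat.card N' * N'.index := by rw [hcard, hcard2]
    exact Nat.eq_of_mul_eq_mul_left hN'pos this
  have hH'idx : H'.index = Nat.card N' := by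
    have : Nat.card H' * H'.index = Nat.card H' * Nat.card N' := by rw [hcard3, mul_comm, hcard]
    exact Nat.eq_of_mul_eq_mul_left hH'pos this
  refine ⟨H'.map K.subtype, ⟨?_, ?_⟩, ?_⟩
  · intro s hs hd
    rw [Subgroup.card_map_of_injective (K := H') K.subtype_injective] at hd
    refine ⟨?_, ?_⟩
    · apply hNidx s hs
      rw [hH'eq] at hd
      exact hd.trans hN'idx
    · intro hs2
      have hs2' : s = 2 := hs2
      apply hK2
      rw [← hs2', ← hcard]
      exact hd.trans (dvd_mul_left _ _)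
  · rintro s hs ⟨hs1, hs2⟩ hd
    rw [Subgroup.index_map_subtype, hH'idx, hN'card] at hd
    rcases (Nat.Prime.dvd_mul hs).1 hd with h3 | h3
    · exact hNp s hs h3 hs1
    · have hq : IsPGroup 2 (G ⧸ K) := Cfsg.Agent.Lib.PNilp.isPGroup_quot_of_pow K hKpow
      obtain ⟨j, hj⟩ := IsPGroup.iff_card.1 hq
      rw [← Subgroup.index_eq_card] at hj
      rw [hj] at h3
      have := (Nat.prime_dvd_prime_iff_eq hs Nat.prime_two).1 (hs.dvd_of_dvd_pow h3)
      exact hs2 this
  · constructor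
    constructor
    rintro ⟨_, a, ha, rfl⟩ ⟨_, b, hb, rfl⟩
    apply Subtype.ext
    change (a : G) * (b : G) = (b : G) * (a : G)
    have hcN : (a : G) * b * (a : G)⁻¹ * (b : G)⁻¹ ∈ N := by
      rw [hNmem]
      have h3 : (a : G) * b * (a : G)⁻¹ * (b : G)⁻¹ ∈ K :=
        K.mul_mem (K.mul_mem (K.mul_mem a.2 b.2) (K.inv_mem a.2)) (K.inv_mem b.2)
      refine ⟨h3, fun r h4 h5 => ?_⟩
      exact ((hMiff r h4 h5 _).1 (hMc r h4 h5 a a.2 b b.2)).2
    have hc1 : a * b * a⁻¹ * b⁻¹ ∈ N' := by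
      exact Subgroup.mem_subgroupOf.2 hcN
    have hc2 : a * b * a⁻¹ * b⁻¹ ∈ H' :=
      H'.mul_mem (H'.mul_mem (H'.mul_mem ha hb) (H'.inv_mem ha)) (H'.inv_mem hb)
    have hc3 := Subgroup.disjoint_def.1 hH'.disjoint hc1 hc2
    have hc4 : a * b = b * a := by
      rw [mul_inv_eq_one, mul_inv_eq_iff_eq_mul] at hc3
      exact hc3
    exact congrArg Subtype.val hc4

end Cfsg.Agent.S3898
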