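import Mathlib
import Cfsg.Statements.S3899
import Cfsg.Agent.Lib.H6KP
import Cfsg.Agent.Lib.H6Basic
import Cfsg.Agent.Lib.PResidual
-- import your own Cfsg.Agent.* helpers here

set_option autoImplicit false
open Cfsg

namespace Cfsg.Agent.S3899

universe u

open Subgroup
open scoped commutatorElement

/-- Classes of `σ`-elements. -/
abbrev PiCl (σ : Finset ℕ) (H : Type u) [Group H] :=
  {c : ConjClasses H // ∀ x ∈ c.carrier, ∀ r : ℕ, r.Prime → r ∣ orderOf x → r ∈ σ}

/-- Classes of `r`-elements. -/
abbrev PCl (r : ℕ) (H : Type u) [Group H] :=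
  {c : ConjClasses H // ∀ x ∈ c.carrier, ∃ k : ℕ, orderOf x = r ^ k}

/-- A representative of a class. -/
noncomputable def rep {H : Type u} [Group H] (c : ConjClasses H) : H :=
  Classical.choose (ConjClasses.exists_rep c)

theorem mk_rep {H : Type u} [Group H] (c : ConjClasses H) : ConjClasses.mk (rep c) = c :=
  Classical.choose_spec (ConjClasses.exists_rep c)

theorem orderOf_conj' {H : Type u} [Group H] {x y : H} (h : IsConj x y) : orderOf y = orderOf x := by
  obtain ⟨c, rfl⟩ := isConj_iff.1 h
  rw [← MulAut.conj_apply]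
  exact (MulAut.conj c).orderOf_eq _

theorem rep_mem {H : Type u} [Group H] (c : ConjClasses H) : rep c ∈ c.carrier := by
  rw [ConjClasses.mem_carrier_iff_mk_eq, mk_rep]

theorem class_of_order {H : Type u} [Group H] {P : ℕ → Prop} {x : H} (hx : P (orderOf x)) :
    ∀ y ∈ (ConjClasses.mk x).carrier, P (orderOf y) := by
  intro y hy
  rw [ConjClasses.mem_carrier_iff_mk_eq, ConjClasses.mk_eq_mk_iff_isConj] at hy
  rw [orderOf_conj' hy.symm]
  exact hx

theorem card_insert_le (r : ℕ) [hr : Fact r.Prime] (σ : Finset ℕ) (H : Type u) [Group H] [Finite H]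
    [Fintype (PCl r H)] :
    Nat.card (PiCl (insert r σ) H) ≤
      ∑ c : PCl r H, Nat.card (PiCl σ (centralizer ({rep c.1} : Set H))) := by
  classical
  have hrp : r.Prime := hr.out
  let Φ : (Σ c : PCl r H, PiCl σ (centralizer ({rep c.1} : Set H))) → PiCl (insert r σ) H :=
    fun q => ⟨ConjClasses.mk (rep q.1.1 * (rep q.2.1 : centralizer ({rep q.1.1} : Set H))),
      class_of_order (P := fun n => ∀ s : ℕ, s.Prime → s ∣ n → s ∈ insert r σ) (by
        intro s hs hd
        have hcomm : Commute (rep q.1.1) ((rep q.2.1 : centralizer ({rep q.1.1} : Set H)) : H) :=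
          (Subgroup.mem_centralizer_singleton_iff.1 (rep q.2.1).2).symm
        have h1 := hcomm.orderOf_mul_dvd_mul_orderOf
        rcases (hs.dvd_mul).1 (hd.trans h1) with h2 | h2
        · obtain ⟨k, hk⟩ := q.1.2 _ (rep_mem q.1.1)
          rw [hk] at h2
          have := (Nat.prime_dvd_prime_iff_eq hs hrp).1 (hs.dvd_of_dvd_pow h2)
          rw [this]
          exact Finset.mem_insert_self _ _
        · have h3 := q.2.2 _ (rep_mem q.2.1) s hs (by rwa [Subgroup.orderOf_coe] at h2)
          exact Finset.mem_insert_of_mem h3)⟩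
  have hsurj : Function.Surjective Φ := by
    rintro ⟨e, he⟩
    obtain ⟨x, rfl⟩ := ConjClasses.exists_rep e
    have hx := he x (by rw [ConjClasses.mem_carrier_iff_mk_eq])
    obtain ⟨y, z, hxyz, hyz, hyr, ⟨k, hk⟩, hyx, hzx⟩ :=
      Cfsg.Agent.Lib.PResidual.exists_decomp (p := r) x
    let c : PCl r H := ⟨ConjClasses.mk z, class_of_order (P := fun n => ∃ k : ℕ, n = r ^ k) ⟨k, hk⟩⟩
    have hcz : IsConj z (rep c.1) := by
      rw [← ConjClasses.mk_eq_mk_iff_isConj, mk_rep]
    obtain ⟨g, hg⟩ := isConj_iff.1 hcz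
    set y' := g * y * g⁻¹ with hy'
    have hy'c : y' ∈ centralizer ({rep c.1} : Set H) := by
      rw [Subgroup.mem_centralizer_singleton_iff, hy', ← hg]
      have : y * z = z * y := hyz
      calc g * y * g⁻¹ * (g * z * g⁻¹) = g * (y * z) * g⁻¹ := by group
        _ = g * (z * y) * g⁻¹ := by rw [this]
        _ = g * z * g⁻¹ * (g * y * g⁻¹) := by group
    have hy'o : orderOf y' = orderOf y := orderOf_conj' (isConj_iff.2 ⟨g, rfl⟩)
    let d : PiCl σ (centralizer ({rep c.1} : Set H)) :=
      ⟨ConjClasses.mk (⟨y', hy'c⟩ : centralizer ({rep c.1} : Set H)),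
        class_of_order (P := fun n => ∀ s : ℕ, s.Prime → s ∣ n → s ∈ σ) (by
          intro s hs hd
          rw [Subgroup.orderOf_mk, hy'o] at hd
          have h1 := hx s hs (hd.trans (orderOf_dvd_of_mem_zpowers hyx))
          rcases Finset.mem_insert.1 h1 with h2 | h2
          · exfalso
            subst h2
            exact Nat.not_coprime_of_dvd_of_dvd hs.one_lt hd (dvd_refl s) hyr
          · exact h2)⟩
    refine ⟨⟨c, d⟩, ?_⟩
    apply Subtype.ext
    apply ConjClasses.mk_eq_mk_iff_isConj.2
    have hd : IsConj (⟨y', hy'c⟩ : centralizer ({rep c.1} : Set H)) (rep d.1) := by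
      rw [← ConjClasses.mk_eq_mk_iff_isConj, mk_rep]
    obtain ⟨t, ht⟩ := isConj_iff.1 hd
    have ht' : (t : H) * y' * (t : H)⁻¹ = ((rep d.1 : centralizer ({rep c.1} : Set H)) : H) :=
      congrArg Subtype.val ht
    have htc : (t : H) * rep c.1 = rep c.1 * t := Subgroup.mem_centralizer_singleton_iff.1 t.2
    have h1 : rep c.1 * ((rep d.1 : centralizer ({rep c.1} : Set H)) : H) =
        (t : H) * g * x * ((t : H) * g)⁻¹ := by
      have hy2 : y' * rep c.1 = rep c.1 * y' := Subgroup.mem_centralizer_singleton_iff.1 hy'c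
      have hxx : g * x * g⁻¹ = y' * rep c.1 := by
        rw [hy', ← hg, hxyz]
        group
      rw [← ht']
      calc rep c.1 * ((t : H) * y' * (t : H)⁻¹) = (rep c.1 * t) * y' * (t : H)⁻¹ := by group
        _ = (t * rep c.1) * y' * (t : H)⁻¹ := by rw [htc]
        _ = (t : H) * (rep c.1 * y') * (t : H)⁻¹ := by group
        _ = (t : H) * (y' * rep c.1) * (t : H)⁻¹ := by rw [hy2]
        _ = (t : H) * (g * x * g⁻¹) * (t : H)⁻¹ := by rw [hxx]
        _ = _ := by group
    change IsConj (rep c.1 * ((rep d.1 : centralizer ({rep c.1} : Set H)) : H)) x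
    rw [h1, isConj_comm]
    exact isConj_iff.2 ⟨(t : H) * g, rfl⟩
  haveI : ∀ c : PCl r H, Finite (PiCl σ (centralizer ({rep c.1} : Set H))) := fun c => inferInstance
  calc Nat.card (PiCl (insert r σ) H)
      ≤ Nat.card (Σ c : PCl r H, PiCl σ (centralizer ({rep c.1} : Set H))) :=
        Nat.card_le_card_of_surjective Φ hsurj
    _ = _ := Nat.card_sigma

/-- The `π`-part of the order of `H`. -/
def piPart (σ : Finset ℕ) (n : ℕ) : ℕ := σ.prod (fun r => r ^ n.factorization r)

theorem piPart_le (σ : Finset ℕ) (hσ : ∀ r ∈ σ, r.Prime) {m n : ℕ} (hn : n ≠ 0) (h : m ∣ n) :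
    piPart σ m ≤ piPart σ n := by
  apply Finset.prod_le_prod'
  intro r hr
  apply Nat.pow_le_pow_right (hσ r hr).pos
  exact (Nat.factorization_le_iff_dvd (ne_zero_of_dvd_ne_zero hn h) hn).2 h r

theorem piPart_pos (σ : Finset ℕ) (hσ : ∀ r ∈ σ, r.Prime) (n : ℕ) : 0 < piPart σ n :=
  Finset.prod_pos fun r hr => pow_pos (hσ r hr).pos _

theorem card_pcl_le (r : ℕ) [hr : Fact r.Prime] (H : Type u) [Group H] [Finite H] :
    Nat.card (PCl r H) ≤ r ^ (Nat.card H).factorization r := by
  classical
  obtain ⟨R⟩ : Nonempty (Sylow r H) := inferInstance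
  rw [← R.card_eq_multiplicity]
  have hf : Function.Surjective (fun x : (R : Subgroup H) => (⟨ConjClasses.mk (x : H),
      Cfsg.Agent.Lib.H6KP.class_pelem (R : Subgroup H) R.isPGroup' x⟩ : PCl r H)) := by
    rintro ⟨c, hc⟩
    obtain ⟨x, rfl⟩ := ConjClasses.exists_rep c
    have hx := hc x (by rw [ConjClasses.mem_carrier_iff_mk_eq])
    obtain ⟨y, hy, hyx⟩ := Cfsg.Agent.Lib.H6KP.exists_mem_sylow R hx
    exact ⟨⟨y, hy⟩, Subtype.ext (ConjClasses.mk_eq_mk_iff_isConj.2 hyx)⟩
  exact Nat.card_le_card_of_surjective _ hf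

theorem card_picl_le (σ : Finset ℕ) (hσ : ∀ r ∈ σ, r.Prime) :
    ∀ (H : Type u) [Group H] [Finite H], Nat.card (PiCl σ H) ≤ piPart σ (Nat.card H) := by
  classical
  induction σ using Finset.induction_on with
  | empty =>
    intro H _ _
    have hsub : Subsingleton (PiCl (∅ : Finset ℕ) H) := by
      constructor
      have key : ∀ a : PiCl (∅ : Finset ℕ) H, a.1 = ConjClasses.mk 1 := by
        rintro ⟨c, hc⟩
        obtain ⟨x, rfl⟩ := ConjClasses.exists_rep c
        have hx := hc x (by rw [ConjClasses.mem_carrier_iff_mk_eq])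
        have h1 : orderOf x = 1 := by
          by_contra h1
          obtain ⟨s, hs, hd⟩ := Nat.exists_prime_and_dvd h1
          exact (Finset.notMem_empty s) (hx s hs hd)
        have h2 := orderOf_eq_one_iff.1 h1
        subst h2
        rfl
      intro a b
      exact Subtype.ext ((key a).trans (key b).symm)
    have : Nat.card (PiCl (∅ : Finset ℕ) H) ≤ 1 := Finite.card_le_one_iff_subsingleton.2 hsub
    simpa [piPart] using this
  | insert r σ hrσ ih =>
    intro H _ _
    have hr : r.Prime := hσ r (Finset.mem_insert_self _ _)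
    haveI : Fact r.Prime := ⟨hr⟩
    have hσ' : ∀ s ∈ σ, s.Prime := fun s hs => hσ s (Finset.mem_insert_of_mem hs)
    letI : Fintype (PCl r H) := Fintype.ofFinite _
    have h1 := card_insert_le r σ H
    have h2 : ∀ c : PCl r H, Nat.card (PiCl σ (centralizer ({rep c.1} : Set H))) ≤
        piPart σ (Nat.card H) := fun c =>
      (ih hσ' _).trans (piPart_le σ hσ' Nat.card_pos.ne' (Subgroup.card_subgroup_dvd_card _))
    have h3 := Finset.sum_le_sum (s := Finset.univ) (fun c _ => h2 c)
    rw [Finset.sum_const, Finset.card_univ, smul_eq_mul, ← Nat.card_eq_fintype_card] at h3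
    have h4 := card_pcl_le r H
    calc _ ≤ _ := h1
      _ ≤ _ := h3
      _ ≤ r ^ (Nat.card H).factorization r * piPart σ (Nat.card H) := Nat.mul_le_mul_right _ h4
      _ = _ := by rw [piPart, piPart, Finset.prod_insert hrσ]

/-- The main counting bound. -/
theorem card_picl_erase_le (π : Finset ℕ) (hπ : ∀ r ∈ π, r.Prime) (r : ℕ) (hr : r ∈ π) [Fact r.Prime]
    (H : Type u) [Group H] [Finite H] :
    Nat.card (PiCl π H) ≤ Nat.card (PCl r H) * piPart (π.erase r) (Nat.card H) := by
  classical
  have hσ' : ∀ s ∈ π.erase r, s.Prime := fun s hs => hπ s (Finset.mem_of_mem_erase hs)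
  letI : Fintype (PCl r H) := Fintype.ofFinite _
  have h1 := card_insert_le r (π.erase r) H
  rw [Finset.insert_erase hr] at h1
  have h2 : ∀ c : PCl r H, Nat.card (PiCl (π.erase r) (centralizer ({rep c.1} : Set H))) ≤
      piPart (π.erase r) (Nat.card H) := fun c =>
    (card_picl_le _ hσ' _).trans (piPart_le _ hσ' Nat.card_pos.ne' (Subgroup.card_subgroup_dvd_card _))
  have h3 := Finset.sum_le_sum (s := Finset.univ) (fun c _ => h2 c)
  rw [Finset.sum_const, Finset.card_univ, smul_eq_mul, ← Nat.card_eq_fintype_card] at h3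
  exact h1.trans h3


/-- Let π be a finite non-empty set of odd primes with smallest member p and G a finite group. Write k_π(G) for the number of conjugacy classes of G consisting of π-elements (elements all of whose order's prime divisors lie in π) and |G|_π for the π-part of the order of G. If k_π(G) > (p + 1)|G|_π/(2p), then G has a normal π-complement (a normal subgroup of order prime to π whose index is a π-number) and an abelian Hall π-subgroup. -/
theorem result {G : Type*} [Group G] [Finite G] (π : Finset ℕ) (hπ : ∀ r ∈ π, r.Prime) (h2 : 2 ∉ π) (p : ℕ) (hp : p ∈ π)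
    (hmin : ∀ r ∈ π, p ≤ r) (hk : (p + 1) * π.prod (fun r => r ^ (Nat.card G).factorization r) < 2 * p * Nat.card {c : ConjClasses G // ∀ x ∈ c.carrier, ∀ r : ℕ, r.Prime → r ∣ orderOf x → r ∈ π}) :
    (∃ N : Subgroup G, N.Normal ∧ (∀ r : ℕ, r.Prime → r ∣ Nat.card ↥N → r ∉ π) ∧ ∀ r : ℕ, r.Prime → r ∣ N.index → r ∈ π) ∧ ∃ H : Subgroup G, Cfsg.IsPiHall (↑π : Set ℕ) H ∧ IsMulCommutative ↥H := by
  classical
  -- every prime of `π` has many classes
  have hbound : ∀ r ∈ π, ∀ (_ : Fact r.Prime) (R : Sylow r G),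
      (r + 1) * Nat.card (R : Subgroup G) < 2 * r * Nat.card (PCl r G) := by
    intro r hr _ R
    have hrp : r.Prime := hπ r hr
    have h1 := card_picl_erase_le π hπ r hr G
    have hM := piPart_pos (π.erase r) (fun s hs => hπ s (Finset.mem_of_mem_erase hs)) (Nat.card G)
    set M := piPart (π.erase r) (Nat.card G) with hMdef
    have h2 : π.prod (fun r => r ^ (Nat.card G).factorization r) =
        r ^ (Nat.card G).factorization r * M := by
      rw [hMdef, piPart]
      exact (Finset.mul_prod_erase π (fun r => r ^ (Nat.card G).factorization r) hr).symm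
    rw [h2] at hk
    have hRc : Nat.card (R : Subgroup G) = r ^ (Nat.card G).factorization r := R.card_eq_multiplicity
    rw [hRc]
    set W := r ^ (Nat.card G).factorization r with hW
    set K := Nat.card (PCl r G) with hK
    have h3 : Nat.card (PiCl π G) ≤ K * M := h1
    have h4 : (p + 1) * W < 2 * p * K := by
      have h5 : (p + 1) * (W * M) < 2 * p * (K * M) :=
        lt_of_lt_of_le hk (Nat.mul_le_mul_left _ h3)
      have h6 : ((p + 1) * W) * M < (2 * p * K) * M := by
        calc ((p + 1) * W) * M = (p + 1) * (W * M) := by ring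
          _ < 2 * p * (K * M) := h5
          _ = _ := by ring
      exact Nat.lt_of_mul_lt_mul_right h6
    by_contra hcon
    push Not at hcon
    have hpr := hmin r hr
    have hp0 : 0 < p := (hπ p hp).pos
    have hW0 : 0 < W := pow_pos hrp.pos _
    have h7 : r * ((p + 1) * W) < p * ((r + 1) * W) := by
      calc r * ((p + 1) * W) < r * (2 * p * K) := Nat.mul_lt_mul_of_pos_left h4 hrp.pos
        _ = p * (2 * r * K) := by ring
        _ ≤ p * ((r + 1) * W) := Nat.mul_le_mul_left _ hcon
    have h8 : (r * (p + 1)) * W < (p * (r + 1)) * W := by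
      calc (r * (p + 1)) * W = r * ((p + 1) * W) := by ring
        _ < _ := h7
        _ = _ := by ring
    have h9 := Nat.lt_of_mul_lt_mul_right h8
    nlinarith
  -- normal complements
  have hcompl : ∀ r, ∃ N : Subgroup G, r ∈ π → (N.Normal ∧ ¬ r ∣ Nat.card N ∧
      (∃ a, N.index = r ^ a) ∧ commutator G ≤ N) := by
    intro r
    by_cases hr : r ∈ π
    · have hrp : r.Prime := hπ r hr
      haveI : Fact r.Prime := ⟨hrp⟩
      obtain ⟨R⟩ : Nonempty (Sylow r G) := inferInstance
      have h1 := hbound r hr inferInstance R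
      have hle := Cfsg.Agent.Lib.H6KP.normalizer_le_of_bound R h1
      have hcomm : ∀ a ∈ (R : Subgroup G), ∀ b ∈ (R : Subgroup G), a * b = b * a := by
        intro a ha b hb
        have h2 : b ∈ Subgroup.centralizer ((R : Subgroup G) : Set G) :=
          hle (Subgroup.le_normalizer hb)
        exact Subgroup.mem_centralizer_iff.1 h2 a ha
      have hcc := MonoidHom.ker_transferSylow_isComplement' R hle
      set N := (MonoidHom.transferSylow R hle).ker with hN
      refine ⟨N, fun _ => ⟨inferInstance, ?_, ?_, ?_⟩⟩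
      · have hi : Nat.card N = (R : Subgroup G).index := by
          have h2 := (R : Subgroup G).card_mul_index
          have h3 := hcc.card_mul_card
          rw [mul_comm] at h3
          exact Nat.eq_of_mul_eq_mul_left Nat.card_pos (h3.trans h2.symm)
        rw [hi]
        exact R.not_dvd_index
      · refine ⟨(Nat.card G).factorization r, ?_⟩
        have h2 := N.card_mul_index
        have h3 := hcc.card_mul_card
        rw [← R.card_eq_multiplicity]
        exact Nat.eq_of_mul_eq_mul_left Nat.card_pos (h2.trans h3.symm)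
      · -- the range is commutative
        have hker : commutator G ≤ (MonoidHom.transferSylow R hle).ker := by
          rw [commutator_eq_closure, Subgroup.closure_le]
          rintro _ ⟨a, b, rfl⟩
          change (MonoidHom.transferSylow R hle) ⁅a, b⁆ = 1
          rw [map_commutatorElement, commutatorElement_eq_one_iff_mul_comm]
          apply Subtype.ext
          exact hcomm _ (MonoidHom.transferSylow R hle a).2 _ (MonoidHom.transferSylow R hle b).2
        exact hker
    · exact ⟨⊤, fun h => (hr h).elim⟩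
  choose f hf using hcompl
  set N : Subgroup G := ⨅ r : π, f r with hN
  haveI hNn : N.Normal := by
    apply Subgroup.normal_iInf_normal
    intro r
    exact (hf r r.2).1
  have hNle : ∀ r ∈ π, N ≤ f r := fun r hr => iInf_le (fun r : π => f r) ⟨r, hr⟩
  have hNcard : ∀ r : ℕ, r.Prime → r ∣ Nat.card N → r ∉ π := by
    intro r _ hd hr
    exact (hf r hr).2.1 (hd.trans (Subgroup.card_dvd_of_le (hNle r hr)))
  have hNindex : ∀ r : ℕ, r.Prime → r ∣ N.index → r ∈ π := by
    intro q hq hd
    by_contra hqπ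
    haveI : Fact q.Prime := ⟨hq⟩
    obtain ⟨Q⟩ : Nonempty (Sylow q G) := inferInstance
    have hQN : (Q : Subgroup G) ≤ N := by
      intro x hx
      rw [hN, Subgroup.mem_iInf]
      intro r
      obtain ⟨h1, h2, ⟨a, ha⟩, h3⟩ := hf r r.2
      haveI := h1
      have hrq : (r : ℕ) ≠ q := fun h => hqπ (h ▸ r.2)
      have hrp : (r : ℕ).Prime := hπ r r.2
      obtain ⟨k, hk⟩ := (IsPGroup.iff_orderOf.1 Q.isPGroup') ⟨x, hx⟩
      have h4 : orderOf (x : G) = q ^ k := by
        rw [← hk]
        exact (Subgroup.orderOf_mk x hx).symm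
      have h5 : orderOf (x : G ⧸ f r) ∣ (r : ℕ) ^ a := by
        rw [← ha, Subgroup.index_eq_card]
        exact orderOf_dvd_natCard _
      have h6 : orderOf (x : G ⧸ f r) ∣ q ^ k := by
        rw [← h4]
        exact orderOf_map_dvd (QuotientGroup.mk' (f r)) x
      have h7 : Nat.Coprime ((r : ℕ) ^ a) (q ^ k) :=
        Nat.Coprime.pow a k ((Nat.coprime_primes hrp hq).2 hrq)
      have h8 : orderOf (x : G ⧸ f r) = 1 := Nat.eq_one_of_dvd_coprimes h7 h5 h6
      exact (QuotientGroup.eq_one_iff x).1 (orderOf_eq_one_iff.1 h8)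
    exact Cfsg.Agent.Lib.H6Basic.not_dvd_index_of_sylow_le Q hQN hd
  have hcop : Nat.Coprime (Nat.card N) N.index := by
    apply Nat.coprime_of_dvd
    intro q hq h1 h2
    exact hNcard q hq h1 (hNindex q hq h2)
  have hcomm : commutator G ≤ N := by
    rw [hN]
    exact le_iInf fun r => (hf r r.2).2.2.2
  obtain ⟨H, hH⟩ := Subgroup.exists_right_complement'_of_coprime hcop
  have hcardH : Nat.card H = N.index := by
    have h1 := hH.card_mul_card
    have h2 := N.card_mul_index
    exact Nat.eq_of_mul_eq_mul_left Nat.card_pos (h1.trans h2.symm)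
  have hindexH : H.index = Nat.card N := by
    have h1 := hH.card_mul_card
    have h2 := H.card_mul_index
    rw [mul_comm] at h1
    exact Nat.eq_of_mul_eq_mul_left Nat.card_pos (h2.trans h1.symm)
  refine ⟨⟨N, hNn, hNcard, hNindex⟩, H, ⟨?_, ?_⟩, ⟨⟨fun u v => ?_⟩⟩⟩
  · intro q hq hd
    rw [hcardH] at hd
    exact hNindex q hq hd
  · intro q hq hqπ hd
    rw [hindexH] at hd
    exact hNcard q hq hd hqπ
  · apply Subtype.ext
    have h1 : ⁅(u : G), (v : G)⁆ ∈ N := hcomm (Subgroup.commutator_mem_commutator trivial trivial)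
    have h2 : ⁅(u : G), (v : G)⁆ ∈ H := by
      rw [commutatorElement_def]
      exact H.mul_mem (H.mul_mem (H.mul_mem u.2 v.2) (H.inv_mem u.2)) (H.inv_mem v.2)
    have h3 : ⁅(u : G), (v : G)⁆ = 1 := by
      have hdis := hH.disjoint
      exact Subgroup.disjoint_def.1 hdis h1 h2
    exact commutatorElement_eq_one_iff_mul_comm.1 h3

end Cfsg.Agent.S3899
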