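import Mathlib
import Cfsg.Statements.S3903
import Cfsg.Agent.Lib.H6KP
import Cfsg.Agent.Lib.H6Derange
import Cfsg.Agent.Lib.SchurZ2
-- import your own Cfsg.Agent.* helpers here

set_option autoImplicit false
open Cfsg

namespace Cfsg.Agent.S3903

open Subgroup

variable {G : Type*} [Group G] [Finite G]

theorem not_isPrimePow_of_two {n p q : ℕ} (hp : p.Prime) (hq : q.Prime) (hpq : p ≠ q) (h1 : p ∣ n)
    (h2 : q ∣ n) : ¬ IsPrimePow n := by
  intro h
  obtain ⟨r, k, hr, _, rfl⟩ := (isPrimePow_nat_iff _).1 h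
  have h3 := (Nat.prime_dvd_prime_iff_eq hp hr).1 (hp.dvd_of_dvd_pow h1)
  have h4 := (Nat.prime_dvd_prime_iff_eq hq hr).1 (hq.dvd_of_dvd_pow h2)
  exact hpq (h3.trans h4.symm)

/-- The centralizer of a `p`-element outside `N` is a `p`-group. -/
theorem centralizer_isPGroup (N : Subgroup G) [N.Normal]
    (h : ∀ x : G, x ∉ N → IsPrimePow (orderOf x) ∧ IsCoatom (Subgroup.centralizer ({x} : Set G)))
    {x : G} (hx : x ∉ N) {p a : ℕ} (hp : p.Prime) (ha : 0 < a) (hxo : orderOf x = p ^ a) :
    IsPGroup p (centralizer ({x} : Set G)) := by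
  classical
  haveI : Fact p.Prime := ⟨hp⟩
  have key : ∀ q : ℕ, q.Prime → q ∣ Nat.card (centralizer ({x} : Set G)) → q = p := by
    intro q hq hd
    by_contra hqp
    haveI : Fact q.Prime := ⟨hq⟩
    obtain ⟨y, hy⟩ := exists_prime_orderOf_dvd_card' q hd
    have hyo : orderOf (y : G) = q := by rw [← hy]; exact Subgroup.orderOf_coe y
    have hc : Commute x (y : G) := (Subgroup.mem_centralizer_singleton_iff.1 y.2).symm
    have hcop : (orderOf x).Coprime (orderOf (y : G)) := by
      rw [hxo, hyo]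
      exact Nat.Coprime.pow_left a ((Nat.coprime_primes hp hq).2 (Ne.symm hqp))
    have hxy : orderOf (x * (y : G)) = p ^ a * q := by
      rw [hc.orderOf_mul_eq_mul_orderOf_of_coprime hcop, hxo, hyo]
    have hmem : x * (y : G) ∈ N := by
      by_contra hn
      have := (h _ hn).1
      rw [hxy] at this
      exact not_isPrimePow_of_two hp hq (Ne.symm hqp) ((dvd_pow_self p ha.ne').trans (Dvd.intro _ rfl))
        (Dvd.intro_left _ rfl) this
    have h1 : (x : G ⧸ N) = ((y : G)⁻¹ : G) := by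
      rw [QuotientGroup.eq]
      have h2 : ((x * (y : G))⁻¹ : G) = x⁻¹ * (y : G)⁻¹ := by
        rw [mul_inv_rev, hc.inv_inv.eq]
      rw [← h2]
      exact N.inv_mem hmem
    have h2 : orderOf (x : G ⧸ N) ∣ p ^ a := by
      rw [← hxo]
      exact orderOf_map_dvd (QuotientGroup.mk' N) x
    have h3 : orderOf (x : G ⧸ N) ∣ q := by
      rw [h1, ← hyo, ← orderOf_inv (y : G)]
      exact orderOf_map_dvd (QuotientGroup.mk' N) (y : G)⁻¹
    have h4 : orderOf (x : G ⧸ N) = 1 :=
      Nat.eq_one_of_dvd_coprimes (Nat.Coprime.pow_left a ((Nat.coprime_primes hp hq).2 (Ne.symm hqp))) h2 h3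
    exact hx ((QuotientGroup.eq_one_iff x).1 (orderOf_eq_one_iff.1 h4))
  exact IsPGroup.of_card (Nat.eq_prime_pow_of_unique_prime_dvd Nat.card_pos.ne' (fun {d} hd hdd => key d hd hdd))

theorem fix_iff (Q : Subgroup G) (y g : G) :
    y • (g : G ⧸ Q) = (g : G ⧸ Q) ↔ g⁻¹ * y * g ∈ Q := by
  rw [MulAction.Quotient.smul_coe, QuotientGroup.eq]
  simp only [smul_eq_mul]
  constructor
  · intro h
    have := Q.inv_mem h
    simpa [mul_assoc] using this
  · intro h
    have := Q.inv_mem h
    simpa [mul_assoc] using this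


/-- Let N be a proper normal subgroup of the finite group G such that every element x of G outside N has prime power order and has centralizer C_G(x) a maximal subgroup of G. Then N is solvable. -/
theorem result {G : Type*} [Group G] [Finite G] (N : Subgroup G) [N.Normal] (hN : N ≠ ⊤)
    (h : ∀ x : G, x ∉ N → IsPrimePow (orderOf x) ∧ IsCoatom (Subgroup.centralizer ({x} : Set G))) : Group.IsSolvable ↥N := by
  classical
  obtain ⟨x0, hx0⟩ : ∃ x, x ∉ N := by
    by_contra hcon
    push Not at hcon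
    exact hN (eq_top_iff.2 fun x _ => hcon x)
  obtain ⟨p, a, hp, ha, hx0o⟩ := (isPrimePow_nat_iff _).1 (h x0 hx0).1
  haveI : Fact p.Prime := ⟨hp⟩
  have hC0p := centralizer_isPGroup N h hx0 hp ha hx0o.symm
  -- the case `N ≤ C(x0)`
  by_cases hNC : N ≤ centralizer ({x0} : Set G)
  · have : IsPGroup p N := hC0p.to_le hNC
    haveI := this.isNilpotent
    infer_instance
  have hsupC : N ⊔ centralizer ({x0} : Set G) = ⊤ := by
    apply (h x0 hx0).2.2
    exact lt_of_le_of_ne le_sup_right (fun h1 => hNC (h1 ▸ le_sup_left))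
  -- all elements outside `N` are `p`-elements
  have hquot : ∀ g : G, ∃ c ∈ centralizer ({x0} : Set G), g⁻¹ * c ∈ N := by
    intro g
    have hg : g ∈ N ⊔ centralizer ({x0} : Set G) := by rw [hsupC]; trivial
    obtain ⟨n, hn, c, hc, rfl⟩ := Subgroup.mem_sup_of_normal_left.1 hg
    refine ⟨c, hc, ?_⟩
    have : (n * c)⁻¹ * c = c⁻¹ * n⁻¹ * c := by group
    rw [this]
    have h1 := (inferInstance : N.Normal).conj_mem _ (N.inv_mem hn) c⁻¹
    simpa using h1
  have hpelt : ∀ y : G, y ∉ N → ∃ k, 0 < k ∧ orderOf y = p ^ k := by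
    intro y hy
    obtain ⟨q, b, hq, hb, hyo⟩ := (isPrimePow_nat_iff _).1 (h y hy).1
    obtain ⟨c, hc, hyc⟩ := hquot y
    have h1 : (y : G ⧸ N) = (c : G ⧸ N) := QuotientGroup.eq.2 hyc
    obtain ⟨m, hm⟩ := (IsPGroup.iff_orderOf.1 hC0p) ⟨c, hc⟩
    have hco : orderOf c = p ^ m := by rw [← hm]; exact (Subgroup.orderOf_mk c hc).symm
    have h2 : orderOf (y : G ⧸ N) ∣ q ^ b := by
      rw [hyo]
      exact orderOf_map_dvd (QuotientGroup.mk' N) y
    have h3 : orderOf (y : G ⧸ N) ∣ p ^ m := by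
      rw [h1, ← hco]
      exact orderOf_map_dvd (QuotientGroup.mk' N) c
    by_cases hqp : q = p
    · subst hqp
      exact ⟨b, hb, hyo.symm⟩
    · exfalso
      have h4 : orderOf (y : G ⧸ N) = 1 :=
        Nat.eq_one_of_dvd_coprimes (Nat.Coprime.pow b m ((Nat.coprime_primes hq hp).2 hqp)) h2 h3
      exact hy ((QuotientGroup.eq_one_iff y).1 (orderOf_eq_one_iff.1 h4))
  have hCp : ∀ y : G, y ∉ N → IsPGroup p (centralizer ({y} : Set G)) := by
    intro y hy
    obtain ⟨k, hk, hyo⟩ := hpelt y hy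
    exact centralizer_isPGroup N h hy hp hk hyo
  -- a Sylow subgroup
  obtain ⟨Q⟩ : Nonempty (Sylow p G) := inferInstance
  by_cases hQtop : (Q : Subgroup G) = ⊤
  · have : IsPGroup p N := Q.isPGroup'.to_le (by rw [hQtop]; exact le_top)
    haveI := this.isNilpotent
    infer_instance
  -- `G = N Q`
  have hindexN : ∀ m, m.Prime → m ∣ N.index → m = p := by
    intro m hm hd
    haveI : Fact m.Prime := ⟨hm⟩
    have hd' : m ∣ Nat.card (G ⧸ N) := hd
    obtain ⟨t, ht⟩ := exists_prime_orderOf_dvd_card' m hd'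
    obtain ⟨y, rfl⟩ := QuotientGroup.mk_surjective t
    have hy : y ∉ N := by
      intro hy
      rw [(QuotientGroup.eq_one_iff y).2 hy, orderOf_one] at ht
      exact hm.one_lt.ne ht
    obtain ⟨k, hk, hyo⟩ := hpelt y hy
    have h1 : orderOf (y : G ⧸ N) ∣ p ^ k := by
      rw [← hyo]
      exact orderOf_map_dvd (QuotientGroup.mk' N) y
    rw [ht] at h1
    exact (Nat.prime_dvd_prime_iff_eq hm hp).1 (hm.dvd_of_dvd_pow h1)
  have hsupQ : N ⊔ (Q : Subgroup G) = ⊤ := by
    rw [← Subgroup.index_eq_one]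
    by_contra hne
    obtain ⟨m, hm, hd⟩ := Nat.exists_prime_and_dvd hne
    have h1 := hindexN m hm (hd.trans (Subgroup.index_dvd_of_le le_sup_left))
    subst h1
    exact Q.not_dvd_index (hd.trans (Subgroup.index_dvd_of_le le_sup_right))
  -- `N` is transitive on the cosets of `Q`
  have hT : ∀ u v : G ⧸ (Q : Subgroup G), ∃ n ∈ N, n • u = v := by
    intro u v
    obtain ⟨s, rfl⟩ := QuotientGroup.mk_surjective u
    obtain ⟨t, rfl⟩ := QuotientGroup.mk_surjective v
    have hg : t * s⁻¹ ∈ N ⊔ (Q : Subgroup G) := by rw [hsupQ]; trivial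
    have hg' : s * t⁻¹ ∈ N ⊔ (Q : Subgroup G) := by rw [hsupQ]; trivial
    -- write `t = n q s'` form: `t⁻¹ ... `
    have hts : t ∈ N ⊔ (Q : Subgroup G) := by rw [hsupQ]; trivial
    have hss : s ∈ N ⊔ (Q : Subgroup G) := by rw [hsupQ]; trivial
    obtain ⟨n1, hn1, q1, hq1, rfl⟩ := Subgroup.mem_sup_of_normal_left.1 hts
    obtain ⟨n2, hn2, q2, hq2, rfl⟩ := Subgroup.mem_sup_of_normal_left.1 hss
    refine ⟨n1 * n2⁻¹, N.mul_mem hn1 (N.inv_mem hn2), ?_⟩
    rw [MulAction.Quotient.smul_coe, QuotientGroup.eq]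
    simp only [smul_eq_mul]
    have : (n1 * n2⁻¹ * (n2 * q2))⁻¹ * (n1 * q1) = q2⁻¹ * q1 := by group
    rw [this]
    exact Subgroup.mul_mem _ (Subgroup.inv_mem _ hq2) hq1
  -- exactly one fixed point
  haveI : Fintype N := Fintype.ofFinite N
  have hfix : ∀ y : G, y ∉ N → Nat.card (MulAction.fixedBy (G ⧸ (Q : Subgroup G)) y) = 1 := by
    intro y hy
    have hsum := Cfsg.Agent.Lib.H6Derange.sum_fix_coset (X := G ⧸ (Q : Subgroup G)) N hT y
    have hge : ∀ n : N, 1 ≤ Nat.card (MulAction.fixedBy (G ⧸ (Q : Subgroup G)) (y * (n : G))) := by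
      intro n
      have hyn : y * (n : G) ∉ N := fun h1 => hy (by
        have := N.mul_mem h1 (N.inv_mem n.2)
        simpa using this)
      obtain ⟨k, _, hyo⟩ := hpelt _ hyn
      obtain ⟨u, hu, huc⟩ := Cfsg.Agent.Lib.H6KP.exists_mem_sylow Q ⟨k, hyo⟩
      obtain ⟨c, hc⟩ := isConj_iff.1 huc
      haveI : Nonempty (MulAction.fixedBy (G ⧸ (Q : Subgroup G)) (y * (n : G))) :=
        ⟨⟨(c : G ⧸ (Q : Subgroup G)), by
          rw [MulAction.mem_fixedBy, fix_iff, ← hc]
          simpa [mul_assoc] using hu⟩⟩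
      exact Nat.card_pos
    have h1 : ∑ n : N, 1 = ∑ n : N, Nat.card (MulAction.fixedBy (G ⧸ (Q : Subgroup G)) (y * (n : G))) := by
      rw [hsum]
      simp [Nat.card_eq_fintype_card]
    have h2 := (Finset.sum_eq_sum_iff_of_le (s := Finset.univ) (fun n _ => hge n)).1 h1 1 (Finset.mem_univ _)
    simpa using h2.symm
  have hfix_unique : ∀ y : G, y ∉ N → ∀ s t : G, s⁻¹ * y * s ∈ (Q : Subgroup G) →
      t⁻¹ * y * t ∈ (Q : Subgroup G) → s⁻¹ * t ∈ (Q : Subgroup G) := by
    intro y hy s t hs ht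
    have h1 := (Nat.card_eq_one_iff_unique.1 (hfix y hy)).1
    have h2 : (⟨(s : G ⧸ (Q : Subgroup G)), by rw [MulAction.mem_fixedBy, fix_iff]; exact hs⟩ :
        MulAction.fixedBy (G ⧸ (Q : Subgroup G)) y) =
        ⟨(t : G ⧸ (Q : Subgroup G)), by rw [MulAction.mem_fixedBy, fix_iff]; exact ht⟩ :=
      Subsingleton.elim _ _
    exact QuotientGroup.eq.1 (congrArg Subtype.val h2)
  -- `Q = C(z)` for `z ∈ Q` outside `N`
  have hQC : ∀ z ∈ (Q : Subgroup G), z ∉ N → (Q : Subgroup G) = centralizer ({z} : Set G) := by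
    intro z hz hzN
    have hle : centralizer ({z} : Set G) ≤ (Q : Subgroup G) := by
      obtain ⟨Q', hQ'⟩ := (hCp z hzN).exists_le_sylow
      obtain ⟨g, hg⟩ := MulAction.exists_smul_eq G Q' Q
      have hgz : ∀ c ∈ centralizer ({z} : Set G), g * c * g⁻¹ ∈ (Q : Subgroup G) := by
        intro c hc
        rw [← hg, Sylow.coe_subgroup_smul]
        exact Subgroup.smul_mem_pointwise_smul c (MulAut.conj g) _ (hQ' hc)
      have hzC : z ∈ centralizer ({z} : Set G) := by
        rw [Subgroup.mem_centralizer_singleton_iff]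
      have h1 : g⁻¹⁻¹ * z * g⁻¹ ∈ (Q : Subgroup G) := by simpa using hgz z hzC
      have h2 : (1 : G)⁻¹ * z * 1 ∈ (Q : Subgroup G) := by simpa using hz
      have h3 := hfix_unique z hzN _ _ h2 h1
      have hgQ : g⁻¹ ∈ (Q : Subgroup G) := by simpa using h3
      intro c hc
      have h4 := Subgroup.mul_mem _ (Subgroup.mul_mem _ hgQ (hgz c hc)) (Subgroup.inv_mem _ hgQ)
      simpa [mul_assoc] using h4
    rcases eq_or_lt_of_le hle with h1 | h1
    · exact h1.symm
    · exact ((hQtop ((h z hzN).2.2 _ h1))).elim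
  obtain ⟨z0, hz0Q, hz0N⟩ : ∃ z ∈ (Q : Subgroup G), z ∉ N := by
    by_contra hcon
    push Not at hcon
    apply hN
    rw [← hsupQ]
    exact (sup_eq_left.2 hcon).symm
  -- `Q` is abelian
  have hcentral : ∀ z ∈ (Q : Subgroup G), z ∉ N → ∀ b ∈ (Q : Subgroup G), b * z = z * b := by
    intro z hz hzN b hb
    rw [hQC z hz hzN] at hb
    exact Subgroup.mem_centralizer_singleton_iff.1 hb
  have hcomm : ∀ a ∈ (Q : Subgroup G), ∀ b ∈ (Q : Subgroup G), b * a = a * b := by
    intro a ha b hb
    by_cases haN : a ∈ N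
    · have h1 : a * z0 ∉ N := fun h2 => hz0N (by
        have := N.mul_mem (N.inv_mem haN) h2
        simpa using this)
      have h2 := hcentral _ (Subgroup.mul_mem _ ha hz0Q) h1 b hb
      have h3 := hcentral z0 hz0Q hz0N b hb
      have : a = (a * z0) * z0⁻¹ := by group
      calc b * a = b * ((a * z0) * z0⁻¹) := by rw [← this]
        _ = (b * (a * z0)) * z0⁻¹ := by group
        _ = ((a * z0) * b) * z0⁻¹ := by rw [h2]
        _ = a * (z0 * b) * z0⁻¹ := by group
        _ = a * (b * z0) * z0⁻¹ := by rw [h3]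
        _ = a * b := by group
    · exact hcentral a ha haN b hb
  have hnorm : normalizer ((Q : Subgroup G) : Set G) ≤ centralizer ((Q : Subgroup G) : Set G) := by
    intro g hg
    have h1 : g⁻¹ * z0 * g ∈ (Q : Subgroup G) := by
      have := (Subgroup.mem_normalizer_iff''.1 hg z0).1 hz0Q
      exact this
    have h2 : (1 : G)⁻¹ * z0 * 1 ∈ (Q : Subgroup G) := by simpa using hz0Q
    have h3 := hfix_unique z0 hz0N _ _ h2 h1
    have hgQ : g ∈ (Q : Subgroup G) := by simpa using h3
    rw [Subgroup.mem_centralizer_iff]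
    intro y hy
    exact hcomm g hgQ y hy
  -- the complement
  have hC := MonoidHom.ker_transferSylow_isComplement' Q hnorm
  set K := (MonoidHom.transferSylow Q hnorm).ker with hK
  have hKn : K.Normal := inferInstance
  have hKcard : Nat.card K * Nat.card (Q : Subgroup G) = Nat.card G := hC.card_mul_card
  have hKp : ¬ p ∣ Nat.card K := by
    have hi : Nat.card K = (Q : Subgroup G).index := by
      have h2 := (Q : Subgroup G).card_mul_index
      rw [mul_comm] at hKcard
      exact Nat.eq_of_mul_eq_mul_left Nat.card_pos (hKcard.trans h2.symm)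
    rw [hi]
    exact Q.not_dvd_index
  have hQnil : Group.IsNilpotent (Q : Subgroup G) := Q.isPGroup'.isNilpotent
  have hQsol : Group.IsSolvable (Q : Subgroup G) := inferInstance
  have hKsol : Group.IsSolvable K := by
    by_cases hK1 : Nat.card K = 1
    · have := Subgroup.eq_bot_of_card_eq K hK1
      rw [this]
      infer_instance
    obtain ⟨r, hr, hrd⟩ := Nat.exists_prime_and_dvd hK1
    haveI : Fact r.Prime := ⟨hr⟩
    have hcop : Nat.Coprime (Nat.card K) (Nat.card (Q : Subgroup G)) := by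
      rw [Q.card_eq_multiplicity]
      exact Nat.Coprime.pow_right _ (Nat.coprime_comm.1 ((Nat.Prime.coprime_iff_not_dvd hp).2 hKp))
    have hQK : (Q : Subgroup G) ≤ normalizer (K : Set G) := by
      rw [Subgroup.normalizer_eq_top K]
      exact le_top
    obtain ⟨R, hR⟩ := Cfsg.Agent.Lib.SchurZ2.exists_invariant_sylow (Q : Subgroup G) K hQK hcop (Or.inr hQsol) r
    set R' : Subgroup G := (R : Subgroup K).map K.subtype with hR'
    have hR'le : R' ≤ K := Subgroup.map_subtype_le _
    have hR'p : IsPGroup r R' := by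
      rw [hR']
      exact R.isPGroup'.map _
    have hR'ne : R' ≠ ⊥ := by
      intro hb
      have h1 : (R : Subgroup K) = ⊥ := by
        rw [hR', Subgroup.map_eq_bot_iff, Subgroup.ker_subtype, le_bot_iff] at hb
        exact hb
      exact R.ne_bot_of_dvd_card hrd h1
    have hinf : R' ⊓ (Q : Subgroup G) = ⊥ := by
      rw [eq_bot_iff]
      intro w hw
      have h1 : orderOf w ∣ Nat.card K := Subgroup.orderOf_dvd_natCard K (hR'le hw.1)
      have h2 : orderOf w ∣ Nat.card (Q : Subgroup G) := Subgroup.orderOf_dvd_natCard _ hw.2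
      have h3 : orderOf w = 1 := Nat.eq_one_of_dvd_coprimes hcop h1 h2
      rw [Subgroup.mem_bot]
      exact orderOf_eq_one_iff.1 h3
    have hsupR : R' ⊔ (Q : Subgroup G) = ⊤ := by
      have hcoat := (h z0 hz0N).2
      rw [← hQC z0 hz0Q hz0N] at hcoat
      apply hcoat.2
      apply lt_of_le_of_ne le_sup_right
      intro h1
      have h2 : R' ≤ (Q : Subgroup G) := by
        rw [h1]
        exact le_sup_left
      apply hR'ne
      rw [eq_bot_iff, ← hinf]
      exact le_inf le_rfl h2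
    have hcards := Cfsg.Agent.Lib.SchurZ2.card_sup_mul_card_inf R' (Q : Subgroup G) hR
    rw [hinf, hsupR, Subgroup.card_bot, mul_one] at hcards
    simp only [Subgroup.card_top] at hcards
    have hRK : Nat.card K = Nat.card R' := by
      have h1 : Nat.card K * Nat.card (Q : Subgroup G) = Nat.card R' * Nat.card (Q : Subgroup G) := by
        rw [hKcard, hcards]
      exact Nat.eq_of_mul_eq_mul_right Nat.card_pos h1
    have hEq : R' = K := Subgroup.eq_of_le_of_card_ge hR'le (by rw [hRK])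
    have : IsPGroup r K := by rw [← hEq]; exact hR'p
    haveI := this.isNilpotent
    infer_instance
  have hGsol : Group.IsSolvable G := by
    have hs : Group.IsSolvable (G ⧸ K) := by
      haveI : IsMulCommutative (Q : Subgroup G) := ⟨⟨fun u v => Subtype.ext (hcomm _ v.2 _ u.2)⟩⟩
      have hsurj : Function.Surjective ((QuotientGroup.mk' K).comp (Q : Subgroup G).subtype) := by
        intro t
        obtain ⟨g, rfl⟩ := QuotientGroup.mk_surjective t
        have hg : g ∈ K ⊔ (Q : Subgroup G) := by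
          rw [hC.sup_eq_top]
          trivial
        obtain ⟨n, hn, q1, hq1, rfl⟩ := Subgroup.mem_sup_of_normal_left.1 hg
        refine ⟨⟨q1, hq1⟩, ?_⟩
        simp only [MonoidHom.comp_apply, Subgroup.subtype_apply, QuotientGroup.mk'_apply]
        rw [QuotientGroup.mk_mul, (QuotientGroup.eq_one_iff n).2 hn, one_mul]
      exact Group.isSolvable_of_surjective hsurj
    exact Group.isSolvable_of_ker_le_range K.subtype (QuotientGroup.mk' K) (by simp)
  infer_instance

end Cfsg.Agent.S3903
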