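import Mathlib
import Cfsg.Statements.S3908
import Cfsg.Agent.Lib.UniqueSub
import Cfsg.Agent.Lib.SchurZ
-- import your own Cfsg.Agent.* helpers here

set_option autoImplicit false
open Cfsg

namespace Cfsg.Agent.S3908

open Cfsg.Agent.Lib.UniqueSub in
theorem aux_main {G : Type*} [Group G] [Finite G] (hB : ∀ A B : Subgroup G, IsMulCommutative ↥A → IsMulCommutative ↥B → Nat.card ↥A = Nat.card ↥B → ∃ g : G, B = A.map (MulAut.conj g).toMonoidHom)
    (p : ℕ) [Fact p.Prime] (P : Sylow p G) :
    (∀ x ∈ (P : Subgroup G), x ^ p = 1) ∨ IsCyclic ↥(P : Subgroup G) ∨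
      (p = 2 ∧ ∃ k : ℕ, Nonempty (↥(P : Subgroup G) ≃* QuaternionGroup (2 ^ k))) := by
  classical
  have hp : p.Prime := Fact.out
  by_cases hexp : ∀ x ∈ (P : Subgroup G), x ^ p = 1
  · exact Or.inl hexp
  right
  push_neg at hexp
  obtain ⟨x, hxP, hxp⟩ := hexp
  have hQ : IsPGroup p ↥(P : Subgroup G) := P.isPGroup'
  obtain ⟨j, hj⟩ := hQ ⟨x, hxP⟩
  have hj' : x ^ (p ^ j) = 1 := by simpa using congrArg Subtype.val hj
  obtain ⟨m, hm, hmo⟩ := (Nat.dvd_prime_pow hp).mp (orderOf_dvd_of_pow_eq_one hj')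
  have hm2 : 2 ≤ m := by
    by_contra hlt
    have hm1 : m ≤ 1 := by omega
    apply hxp
    have : orderOf x ∣ p := by
      rw [hmo]
      calc p ^ m ∣ p ^ 1 := pow_dvd_pow p hm1
        _ = p := pow_one p
    exact orderOf_dvd_iff_pow_eq_one.mp this
  -- an element of order p²
  obtain ⟨m', rfl⟩ : ∃ m', m = m' + 2 := ⟨m - 2, by omega⟩
  let y : G := x ^ (p ^ m')
  have hy : orderOf y = p ^ 2 := by
    have hd : p ^ m' ∣ orderOf x := by rw [hmo]; exact pow_dvd_pow p (by omega)
    have h0 : p ^ m' ≠ 0 := (pow_pos hp.pos _).ne'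
    change orderOf (x ^ (p ^ m')) = _
    rw [orderOf_pow_of_dvd h0 hd, hmo, pow_add, mul_comm, Nat.mul_div_cancel _ (pow_pos hp.pos _)]
  -- no elementary abelian subgroup of order p²
  have hno : ∀ A : Subgroup G, IsMulCommutative A → Nat.card A = p ^ 2 → (∀ a ∈ A, a ^ p = 1) → False := by
    intro A hAc hAcard hAexp
    obtain ⟨g, hg⟩ := hB A (Subgroup.zpowers y) hAc inferInstance (by
      rw [hAcard, Nat.card_zpowers, hy])
    have hmem : y ∈ A.map (MulAut.conj g).toMonoidHom := by
      rw [← hg]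
      exact Subgroup.mem_zpowers y
    obtain ⟨u, hu, hue⟩ := hmem
    have h1 : y ^ p = 1 := by
      rw [← hue]
      change (g * u * g⁻¹) ^ p = 1
      rw [conj_pow, hAexp u hu]
      simp
    have h2 : orderOf y ∣ p := orderOf_dvd_of_pow_eq_one h1
    rw [hy] at h2
    have h3 := Nat.le_of_dvd hp.pos h2
    have h4 : p * 1 < p * p := Nat.mul_lt_mul_of_pos_left hp.one_lt hp.pos
    nlinarith
  -- central subgroup of order p
  haveI : Nontrivial ↥(P : Subgroup G) := by
    refine ⟨⟨⟨x, hxP⟩, 1, ?_⟩⟩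
    intro h
    apply hxp
    have : x = 1 := by simpa using congrArg Subtype.val h
    rw [this, one_pow]
  have hcn := hQ.center_nontrivial
  have hdvd : p ∣ Nat.card (Subgroup.center ↥(P : Subgroup G)) := by
    obtain ⟨k, hk⟩ := IsPGroup.iff_card.mp (hQ.to_subgroup (Subgroup.center _))
    rw [hk]
    apply dvd_pow_self
    rintro rfl
    rw [pow_zero] at hk
    have := Finite.one_lt_card (α := Subgroup.center ↥(P : Subgroup G))
    omega
  obtain ⟨z0, hz0⟩ := exists_prime_orderOf_dvd_card' p hdvd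
  let z : ↥(P : Subgroup G) := z0.1
  have hzo : orderOf z = p := by
    exact (Subgroup.orderOf_coe z0).trans hz0
  have hzc : ∀ u : ↥(P : Subgroup G), z * u = u * z := by
    intro u
    exact (Subgroup.mem_center_iff.mp z0.2 u).symm
  -- every element of order p lies in ⟨z⟩
  have hsub : ∀ u : ↥(P : Subgroup G), orderOf u = p → u ∈ Subgroup.zpowers z := by
    intro u hu
    by_contra hn
    haveI hnorm : (Subgroup.zpowers z).Normal := by
      constructor
      intro a ha g
      obtain ⟨i, rfl⟩ := Subgroup.mem_zpowers_iff.mp ha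
      have : g * z ^ i * g⁻¹ = z ^ i := by
        have hc : Commute z g := hzc g
        rw [(hc.zpow_left i).symm.eq]
        group
      rw [this]
      exact ⟨i, rfl⟩
    -- the subgroup
    let A0 : Subgroup ↥(P : Subgroup G) := Subgroup.zpowers z ⊔ Subgroup.zpowers u
    have hmem : ∀ w, w ∈ A0 ↔ ∃ a ∈ Subgroup.zpowers z, ∃ b ∈ Subgroup.zpowers u, a * b = w := by
      intro w
      exact Subgroup.mem_sup_of_normal_left
    have hdisj : Disjoint (Subgroup.zpowers z) (Subgroup.zpowers u) := by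
      rw [Subgroup.disjoint_def]
      intro w hw1 hw2
      by_contra hw
      apply hn
      have hcard : Subgroup.zpowers u ≤ Subgroup.zpowers z := by
        have h1 : Subgroup.zpowers w ≤ Subgroup.zpowers u := by
          rw [Subgroup.zpowers_le]; exact hw2
        have h2 : Subgroup.zpowers w ≤ Subgroup.zpowers z := by
          rw [Subgroup.zpowers_le]; exact hw1
        have hwo : orderOf w = p := by
          have h3 : orderOf w ∣ orderOf u := orderOf_dvd_of_mem_zpowers hw2
          rw [hu] at h3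
          rcases (Nat.dvd_prime hp).mp h3 with h4 | h4
          · exact absurd (orderOf_eq_one_iff.mp h4) hw
          · exact h4
        have h5 : Subgroup.zpowers w = Subgroup.zpowers u := by
          apply Subgroup.eq_of_le_of_card_ge h1
          rw [Nat.card_zpowers, Nat.card_zpowers, hu, hwo]
        rw [← h5]
        exact h2
      exact hcard (Subgroup.mem_zpowers u)
    have hA0card : Nat.card A0 = p ^ 2 := by
      have h1 : Nat.card (Subgroup.zpowers z) = p := by rw [Nat.card_zpowers, hzo]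
      have h2 : Nat.card (Subgroup.zpowers u) = p := by rw [Nat.card_zpowers, hu]
      have h3 := Cfsg.Agent.Lib.SchurZ.card_sup_of_disjoint (Subgroup.zpowers z) (Subgroup.zpowers u) (disjoint_iff.mp hdisj)
      rw [h1, h2] at h3
      rw [pow_two]
      exact h3
    have hA0c : ∀ a ∈ A0, ∀ b ∈ A0, a * b = b * a := by
      intro a ha b hb
      obtain ⟨a1, ha1, a2, ha2, rfl⟩ := (hmem a).mp ha
      obtain ⟨b1, hb1, b2, hb2, rfl⟩ := (hmem b).mp hb
      obtain ⟨i, rfl⟩ := Subgroup.mem_zpowers_iff.mp ha1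
      obtain ⟨j, rfl⟩ := Subgroup.mem_zpowers_iff.mp ha2
      obtain ⟨k, rfl⟩ := Subgroup.mem_zpowers_iff.mp hb1
      obtain ⟨l, rfl⟩ := Subgroup.mem_zpowers_iff.mp hb2
      have c1 : Commute z u := hzc u
      have c2 : Commute (z ^ i) (u ^ l) := c1.zpow_zpow i l
      have c3 : Commute (z ^ k) (u ^ j) := c1.zpow_zpow k j
      have c4 : Commute (z ^ i) (z ^ k) := (Commute.refl z).zpow_zpow i k
      have c5 : Commute (u ^ j) (u ^ l) := (Commute.refl u).zpow_zpow j l
      calc z ^ i * u ^ j * (z ^ k * u ^ l) = (z ^ i * z ^ k) * (u ^ j * u ^ l) := by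
            rw [mul_assoc, ← mul_assoc (u ^ j), ← c3.eq]; group
        _ = (z ^ k * z ^ i) * (u ^ l * u ^ j) := by rw [c4.eq, c5.eq]
        _ = z ^ k * u ^ l * (z ^ i * u ^ j) := by
            rw [mul_assoc, ← mul_assoc (z ^ i), c2.eq]; group
    have hA0e : ∀ a ∈ A0, a ^ p = 1 := by
      intro a ha
      obtain ⟨a1, ha1, a2, ha2, rfl⟩ := (hmem a).mp ha
      obtain ⟨i, rfl⟩ := Subgroup.mem_zpowers_iff.mp ha1
      obtain ⟨j, rfl⟩ := Subgroup.mem_zpowers_iff.mp ha2
      have c1 : Commute z u := hzc u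
      rw [(c1.zpow_zpow i j).mul_pow]
      have h1 : (z ^ i) ^ p = 1 := by
        rw [← zpow_natCast, zpow_comm, zpow_natCast, orderOf_dvd_iff_pow_eq_one.mp (dvd_of_eq hzo), one_zpow]
      have h2 : (u ^ j) ^ p = 1 := by
        rw [← zpow_natCast, zpow_comm, zpow_natCast, orderOf_dvd_iff_pow_eq_one.mp (dvd_of_eq hu), one_zpow]
      rw [h1, h2, one_mul]
    -- transport to G
    refine hno (A0.map (P : Subgroup G).subtype) ?_ ?_ ?_
    · refine ⟨⟨fun a b => Subtype.ext ?_⟩⟩
      obtain ⟨a', ha', hae⟩ := a.2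
      obtain ⟨b', hb', hbe⟩ := b.2
      have h3 := hA0c a' ha' b' hb'
      have h4 := congrArg Subtype.val h3
      change (a : G) * b = b * a
      rw [← hae, ← hbe]
      exact h4
    · rw [← hA0card]
      exact Subgroup.card_map_of_injective (P : Subgroup G).subtype_injective
    · rintro a ⟨a', ha', rfl⟩
      have h3 := hA0e a' ha'
      have h4 := congrArg Subtype.val h3
      simpa using h4
  have hU : UniqueP p ↥(P : Subgroup G) := by
    intro a b ha hb
    have h1 := hsub a ha
    have h2 := hsub b hb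
    have h3 : Subgroup.zpowers a = Subgroup.zpowers z := by
      apply Subgroup.eq_of_le_of_card_ge
      · rw [Subgroup.zpowers_le]; exact h1
      · rw [Nat.card_zpowers, Nat.card_zpowers, ha, hzo]
    rw [h3]
    exact h2
  rcases cyclic_or_quaternion hQ hU with h | ⟨h2, k, _, he⟩
  · exact Or.inl h
  · exact Or.inr ⟨h2, k, he⟩


/-- Let G be a finite group in which any two abelian subgroups of the same order are conjugate. Then a Sylow 2-subgroup of G is cyclic, elementary abelian or generalized quaternion, and for an odd prime p a Sylow p-subgroup of G is cyclic or has exponent dividing p. -/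
theorem result {G : Type*} [Group G] [Finite G] (hB : ∀ A B : Subgroup G, IsMulCommutative ↥A → IsMulCommutative ↥B → Nat.card ↥A = Nat.card ↥B → ∃ g : G, B = A.map (MulAut.conj g).toMonoidHom) :
    (∀ P : Sylow 2 G, IsCyclic ↥(P : Subgroup G) ∨ Cfsg.IsElementaryAbelian 2 (P : Subgroup G) ∨ ∃ k : ℕ, Nonempty (↥(P : Subgroup G) ≃* QuaternionGroup (2 ^ k))) ∧
    ∀ (p : ℕ) [Fact p.Prime], p ≠ 2 → ∀ P : Sylow p G, IsCyclic ↥(P : Subgroup G) ∨ ∀ x ∈ (P : Subgroup G), x ^ p = 1 := by
  classical
  constructor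
  · intro P
    rcases aux_main hB 2 P with h | h | ⟨-, h⟩
    · right; left
      refine ⟨⟨⟨fun a b => Subtype.ext ?_⟩⟩, h⟩
      have ha := h a.1 a.2
      have hb := h b.1 b.2
      have hab := h (a.1 * b.1) (P.1.mul_mem a.2 b.2)
      have h2 := mul_eq_one_iff_eq_inv.mp ((pow_two _).symm.trans hab)
      have ha' : a.1⁻¹ = a.1 := inv_eq_of_mul_eq_one_left ((pow_two _).symm.trans ha)
      have hb' : b.1⁻¹ = b.1 := inv_eq_of_mul_eq_one_left ((pow_two _).symm.trans hb)
      rw [mul_inv_rev, ha', hb'] at h2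
      exact h2
    · exact Or.inl h
    · exact Or.inr (Or.inr h)
  · intro p _ hp2 P
    rcases aux_main hB p P with h | h | ⟨h2, -⟩
    · exact Or.inr h
    · exact Or.inl h
    · exact absurd h2 hp2

end Cfsg.Agent.S3908
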