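import Mathlib
import Cfsg.Statements.S3909
-- import your own Cfsg.Agent.* helpers here

set_option autoImplicit false
open Cfsg

namespace Cfsg.Agent.S3909
open scoped Pointwise

/-- Let G be a finite group in which any two abelian subgroups of the same order are conjugate. Let M be a normal subgroup of G. If M contains an element of the same order as a ∈ G, then a ∈ M; and if M is elementary abelian of order p^t with p prime and t ≥ 2, then M is the unique Sylow p-subgroup of G. -/
theorem result {G : Type*} [Group G] [Finite G] (hB : ∀ A B : Subgroup G, IsMulCommutative ↥A → IsMulCommutative ↥B → Nat.card ↥A = Nat.card ↥B → ∃ g : G, B = A.map (MulAut.conj g).toMonoidHom) (M : Subgroup G) [M.Normal] :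
    (∀ a : G, (∃ m ∈ M, orderOf m = orderOf a) → a ∈ M) ∧
    ∀ (p t : ℕ) [Fact p.Prime], 2 ≤ t → Nat.card ↥M = p ^ t → Cfsg.IsElementaryAbelian p M → ∀ P : Sylow p G, (P : Subgroup G) = M := by
  classical
  have hM : (M).Normal := inferInstance
  constructor
  · rintro a ⟨m, hm, hma⟩
    obtain ⟨g, hg⟩ := hB (Subgroup.zpowers m) (Subgroup.zpowers a) inferInstance inferInstance (by
      rw [Nat.card_zpowers, Nat.card_zpowers, hma])
    have hmem : a ∈ (Subgroup.zpowers m).map (MulAut.conj g).toMonoidHom := by
      rw [← hg]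
      exact Subgroup.mem_zpowers a
    obtain ⟨u, hu, hue⟩ := hmem
    rw [← hue]
    obtain ⟨i, rfl⟩ := Subgroup.mem_zpowers_iff.mp hu
    exact hM.conj_mem _ (M.zpow_mem hm i) g
  · intro p t _ ht hcard helem P
    have hp : p.Prime := Fact.out
    obtain ⟨hMc, hMp⟩ := helem
    have hMP : IsPGroup p M := by
      apply IsPGroup.of_card (n := t)
      exact hcard
    have hle : M ≤ P := by
      obtain ⟨Q, hQ⟩ := hMP.exists_le_sylow
      obtain ⟨g, hg⟩ := MulAction.exists_smul_eq G Q P
      rw [← hg]
      intro x hx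
      rw [Sylow.smul_def, Sylow.pointwise_smul_def, Subgroup.mem_pointwise_smul_iff_inv_smul_mem]
      apply hQ
      have := hM.conj_mem x hx g⁻¹
      simpa [MulAut.smul_def] using this
    by_contra hne
    have hlt : ¬ (P : Subgroup G) ≤ M := fun h => hne (le_antisymm h hle)
    obtain ⟨z, hzP, hzM⟩ := SetLike.not_le_iff_exists.mp hlt
    obtain ⟨k, hk⟩ := P.isPGroup' ⟨z, hzP⟩
    have hk' : z ^ (p ^ k) = 1 := by simpa using congrArg Subtype.val hk
    have hex : ∃ i, z ^ (p ^ i) ∈ M := ⟨k, by rw [hk']; exact M.one_mem⟩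
    let i0 := Nat.find hex
    have hi0 : i0 ≠ 0 := by
      intro h0
      have := Nat.find_spec hex
      change z ^ (p ^ i0) ∈ M at this
      rw [h0, pow_zero, pow_one] at this
      exact hzM this
    obtain ⟨i, hi⟩ := Nat.exists_eq_succ_of_ne_zero hi0
    have h1 : z ^ (p ^ (i + 1)) ∈ M := by
      have := Nat.find_spec hex
      change z ^ (p ^ i0) ∈ M at this
      rwa [hi] at this
    have h2 : z ^ (p ^ i) ∉ M := Nat.find_min hex (m := i) (by change i < i0; omega)
    set y := z ^ (p ^ i) with hy
    have hyp : y ^ p ∈ M := by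
      rw [hy, ← pow_mul, ← pow_succ]
      exact h1
    have hyp2 : y ^ (p ^ 2) = 1 := by
      have := hMp _ hyp
      rw [pow_two, pow_mul]
      exact this
    obtain ⟨j, hj, hjo⟩ := (Nat.dvd_prime_pow hp).mp (orderOf_dvd_of_pow_eq_one hyp2)
    have hdvd : p ^ j ∣ Nat.card M := by
      rw [hcard]
      exact pow_dvd_pow p (hj.trans ht)
    obtain ⟨K, hK⟩ := Sylow.exists_subgroup_card_pow_prime p hdvd
    let U : Subgroup G := K.map M.subtype
    have hUc : Nat.card U = p ^ j := by
      rw [← hK]
      exact Subgroup.card_map_of_injective M.subtype_injective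
    have hU1 : IsMulCommutative U := by
      refine ⟨⟨fun a b => Subtype.ext ?_⟩⟩
      obtain ⟨a', ha', hae⟩ := a.2
      obtain ⟨b', hb', hbe⟩ := b.2
      have : (a : G) * b = b * a := by
        rw [← hae, ← hbe]
        have := hMc.is_comm.comm a' b'
        simpa using congrArg Subtype.val this
      exact this
    obtain ⟨g, hg⟩ := hB U (Subgroup.zpowers y) hU1 inferInstance (by
      rw [hUc, Nat.card_zpowers, hjo])
    have hmem : y ∈ U.map (MulAut.conj g).toMonoidHom := by
      rw [← hg]
      exact Subgroup.mem_zpowers y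
    obtain ⟨u, hu, hue⟩ := hmem
    obtain ⟨u', _, hu'⟩ := hu
    apply h2
    rw [← hue]
    have : u ∈ M := by rw [← hu']; exact u'.2
    exact hM.conj_mem u this g

end Cfsg.Agent.S3909
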