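import Mathlib
import Cfsg.Statements.S3910
import Cfsg.Agent.Lib.H6Nilp
import Cfsg.Agent.Lib.H6Parts
-- import your own Cfsg.Agent.* helpers here

set_option autoImplicit false
open Cfsg

namespace Cfsg.Agent.S3910

open Cfsg.Agent.Lib.H6Nilp Cfsg.Agent.Lib.H6Parts in
theorem aux_key {G : Type*} [Group G] [Finite G] [hnil : Group.IsNilpotent G]
    (hB : ∀ A B : Subgroup G, IsMulCommutative ↥A → IsMulCommutative ↥B → Nat.card ↥A = Nat.card ↥B → ∃ g : G, B = A.map (MulAut.conj g).toMonoidHom)
    (A : Subgroup G) (hAn : A.Normal) (hAc : ∀ a ∈ A, ∀ b ∈ A, a * b = b * a)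
    (hAs : ∀ x, (∀ a ∈ A, x * a = a * x) → x ∈ A)
    (p k : ℕ) (hp : p.Prime) (y : G) (hy : orderOf y = p ^ k) (hyA : y ∉ A) (hyp : y ^ p ∈ A) : False := by
  classical
  haveI : Fact p.Prime := ⟨hp⟩
  have hk : k ≠ 0 := by
    rintro rfl
    rw [pow_zero, orderOf_eq_one_iff] at hy
    exact hyA (hy ▸ A.one_mem)
  obtain ⟨k', rfl⟩ := Nat.exists_eq_succ_of_ne_zero hk
  have hzc : ∀ z : Subgroup G, IsMulCommutative (Subgroup.zpowers (y)) := fun _ => inferInstance
  have hAcomm : IsMulCommutative A := ⟨⟨fun a b => Subtype.ext (hAc a.1 a.2 b.1 b.2)⟩⟩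
  by_cases hdvd : p ^ (k' + 1) ∣ Nat.card A
  · obtain ⟨K, hK⟩ := Sylow.exists_subgroup_card_pow_prime p hdvd
    let U : Subgroup G := K.map A.subtype
    have hUc : Nat.card U = p ^ (k' + 1) := by
      rw [← hK]
      exact Subgroup.card_map_of_injective A.subtype_injective
    have hU1 : IsMulCommutative U := by
      refine ⟨⟨fun a b => Subtype.ext ?_⟩⟩
      obtain ⟨a', ha', hae⟩ := a.2
      obtain ⟨b', hb', hbe⟩ := b.2
      have : (a : G) * b = b * a := by
        rw [← hae, ← hbe]
        exact hAc _ a'.2 _ b'.2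
      exact this
    have hz1 : Nat.card (Subgroup.zpowers y) = p ^ (k' + 1) := by
      rw [Nat.card_zpowers, hy]
    obtain ⟨g, hg⟩ := hB U (Subgroup.zpowers y) hU1 inferInstance (by rw [hUc, hz1])
    have hmem : y ∈ U.map (MulAut.conj g).toMonoidHom := by
      rw [← hg]
      exact Subgroup.mem_zpowers y
    obtain ⟨u, hu, hue⟩ := hmem
    obtain ⟨u', _, hu'⟩ := hu
    apply hyA
    rw [← hue]
    have : u ∈ A := by rw [← hu']; exact u'.2
    exact hAn.conj_mem u this g
  · -- the Sylow subgroup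
    let S : Sylow p G := default
    haveI hSn : (S : Subgroup G).Normal := inferInstance
    have hmemS : ∀ (q : ℕ) [Fact q.Prime] (T : Sylow q G) (z : G) (j : ℕ), orderOf z = q ^ j → z ∈ (T : Subgroup G) := by
      intro q _ T z j hz
      have hq : IsPGroup q (Subgroup.zpowers z) := by
        apply IsPGroup.of_card (n := j)
        rw [Nat.card_zpowers, hz]
      obtain ⟨Q, hQ⟩ := hq.exists_le_sylow
      letI := Sylow.unique_of_normal T inferInstance
      have : Q = T := Subsingleton.elim _ _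
      subst this
      exact hQ (Subgroup.mem_zpowers z)
    let T : Subgroup G := A ⊓ S
    have hTp : IsPGroup p T := S.isPGroup'.to_le inf_le_right
    obtain ⟨m, hm⟩ := IsPGroup.iff_card.mp hTp
    have hTd : Nat.card T ∣ Nat.card A := Subgroup.card_dvd_of_le inf_le_left
    have hm' : m ≤ k' := by
      by_contra hlt
      apply hdvd
      have : p ^ (k' + 1) ∣ p ^ m := pow_dvd_pow p (by omega)
      rw [hm] at hTd
      exact this.trans hTd
    have hyy : y ^ p ∈ T := by
      refine ⟨hyp, ?_⟩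
      apply S.1.pow_mem
      exact hmemS p S y _ hy
    have hord : orderOf (y ^ p) = p ^ k' := by
      have hd : p ∣ orderOf y := by rw [hy]; exact dvd_pow_self p (Nat.succ_ne_zero _)
      rw [orderOf_pow_of_dvd hp.ne_zero hd, hy, pow_succ, Nat.mul_div_cancel _ hp.pos]
    have hzT : Subgroup.zpowers (y ^ p) ≤ T := by
      rw [Subgroup.zpowers_le]
      exact hyy
    have hzeq : Subgroup.zpowers (y ^ p) = T := by
      apply Subgroup.eq_of_le_of_card_ge hzT
      rw [Nat.card_zpowers, hord, hm]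
      exact Nat.pow_le_pow_right hp.pos hm'
    apply hyA
    apply hAs
    intro a ha
    let P : G → Prop := fun z => y * z = z * y
    refine parts_induction P ?_ _ a rfl ?_
    · intro u v hu hv
      change y * (u * v) = u * v * y
      rw [← mul_assoc, hu, mul_assoc, hv, mul_assoc]
    · intro q hq z hz ⟨j, hj⟩
      haveI : Fact q.Prime := ⟨hq⟩
      have hzA : z ∈ A := by
        have : Subgroup.zpowers a ≤ A := by
          rw [Subgroup.zpowers_le]; exact ha
        exact this hz
      by_cases hqp : q = p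
      · subst hqp
        have hzT' : z ∈ T := ⟨hzA, hmemS q S z j hj⟩
        rw [← hzeq] at hzT'
        obtain ⟨i, rfl⟩ := Subgroup.mem_zpowers_iff.mp hzT'
        change y * _ = _ * y
        have : Commute y ((y ^ q) ^ i) := ((Commute.refl y).pow_right q).zpow_right i
        exact this.eq
      · let Q : Sylow q G := default
        have hdisj : Disjoint (S : Subgroup G) (Q : Subgroup G) :=
          IsPGroup.disjoint_of_coprime S.isPGroup' Q.isPGroup' ((Nat.coprime_primes hp hq).mpr (Ne.symm hqp))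
        exact Subgroup.commute_of_normal_of_disjoint _ _ inferInstance inferInstance hdisj y z (hmemS p S y _ hy) (hmemS q Q z j hj)

open Cfsg.Agent.Lib.H6Nilp Cfsg.Agent.Lib.H6Parts in
theorem aux_ab {G : Type*} [Group G] [Finite G] 
    (hB : ∀ A B : Subgroup G, IsMulCommutative ↥A → IsMulCommutative ↥B → Nat.card ↥A = Nat.card ↥B → ∃ g : G, B = A.map (MulAut.conj g).toMonoidHom)
    (hab : ∀ a b : G, a * b = b * a) : IsCyclic G := by
  classical
  letI : CommGroup G := { (inferInstance : Group G) with mul_comm := hab }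
  obtain ⟨g, hg⟩ := Monoid.exists_orderOf_eq_exponent (G := G) (Monoid.exponent_ne_zero.mp Monoid.exponent_ne_zero_of_finite)
  refine ⟨⟨g, fun x => ?_⟩⟩
  have hd : orderOf x ∣ orderOf g := by
    rw [hg]
    exact Monoid.order_dvd_exponent x
  obtain ⟨c, hc⟩ := hd
  have hop : orderOf x ≠ 0 := (orderOf_pos x).ne'
  have hcp : c ≠ 0 := by
    rintro rfl
    rw [mul_zero] at hc
    exact (orderOf_pos g).ne' hc
  have hoc : orderOf (g ^ c) = orderOf x := by
    rw [orderOf_pow_of_dvd hcp ⟨orderOf x, by rw [hc, mul_comm]⟩, hc]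
    exact Nat.mul_div_cancel _ (Nat.pos_of_ne_zero hcp)
  obtain ⟨h, hh⟩ := hB (Subgroup.zpowers (g ^ c)) (Subgroup.zpowers x) inferInstance inferInstance (by
    rw [Nat.card_zpowers, Nat.card_zpowers, hoc])
  have hmem : x ∈ (Subgroup.zpowers (g ^ c)).map (MulAut.conj h).toMonoidHom := by
    rw [← hh]
    exact Subgroup.mem_zpowers x
  obtain ⟨u, hu, hue⟩ := hmem
  have : u = x := by
    rw [← hue]
    simp [MulAut.conj_apply, mul_comm]
  rw [← this]
  obtain ⟨i, rfl⟩ := Subgroup.mem_zpowers_iff.mp hu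
  exact ⟨c * i, by simp [zpow_mul]⟩


/-- A finite nilpotent group in which any two abelian subgroups of the same order are conjugate is cyclic. -/
theorem result {G : Type*} [Group G] [Finite G] (hB : ∀ A B : Subgroup G, IsMulCommutative ↥A → IsMulCommutative ↥B → Nat.card ↥A = Nat.card ↥B → ∃ g : G, B = A.map (MulAut.conj g).toMonoidHom) (hnil : Group.IsNilpotent G) : IsCyclic G := by
  classical
  haveI := hnil
  obtain ⟨A, hAn, hAc, hAs⟩ := Cfsg.Agent.Lib.H6Nilp.exists_self_centralizing_nilp (G := G)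
  have htop : ∀ g : G, g ∈ A := by
    intro g
    let P : G → Prop := fun z => z ∈ A
    refine Cfsg.Agent.Lib.H6Parts.parts_induction P (fun u v hu hv => A.mul_mem hu hv) _ g rfl ?_
    intro q hq z _ ⟨j, hj⟩
    by_contra hzA
    have hex : ∃ i, z ^ (q ^ i) ∈ A := ⟨j, by rw [← hj, pow_orderOf_eq_one]; exact A.one_mem⟩
    let i0 := Nat.find hex
    have hi0 : i0 ≠ 0 := by
      intro h0
      have := Nat.find_spec hex
      change z ^ (q ^ i0) ∈ A at this
      rw [h0, pow_zero, pow_one] at this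
      exact hzA this
    obtain ⟨i, hi⟩ := Nat.exists_eq_succ_of_ne_zero hi0
    have h1 : z ^ (q ^ (i + 1)) ∈ A := by
      have := Nat.find_spec hex
      change z ^ (q ^ i0) ∈ A at this
      rwa [hi] at this
    have h2 : z ^ (q ^ i) ∉ A := Nat.find_min hex (m := i) (by change i < i0; omega)
    have h3 : orderOf (z ^ (q ^ i)) ∣ q ^ j := by
      rw [← hj]
      exact orderOf_pow_dvd _
    obtain ⟨m, _, hm⟩ := (Nat.dvd_prime_pow hq).mp h3
    refine aux_key hB A hAn hAc hAs q m hq _ hm h2 ?_
    rw [← pow_mul, ← pow_succ]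
    exact h1
  exact aux_ab hB (fun a b => hAc a (htop a) b (htop b))

end Cfsg.Agent.S3910
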