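import Mathlib
import Cfsg.Statements.S3917
import Cfsg.Agent.Lib.CoprimeGen4
import Cfsg.Agent.Lib.SchurZ2
-- import your own Cfsg.Agent.* helpers here

set_option autoImplicit false
open Cfsg

namespace Cfsg.Agent.S3917



/-- Say that a group has self-centralizing non-cyclic subgroups when every non-cyclic subgroup H satisfies C_G(H) ≤ H. A finite abelian group with self-centralizing non-cyclic subgroups is cyclic or elementary abelian of order p² for a prime p. -/
theorem result {G : Type*} [CommGroup G] [Finite G] (hX : (∀ H : Subgroup G, ¬ IsCyclic ↥H → Subgroup.centralizer (H : Set G) ≤ H)) :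
    IsCyclic G ∨ ∃ p : ℕ, p.Prime ∧ Nat.card G = p ^ 2 ∧ Monoid.exponent G = p := by
  classical
  by_cases hc : IsCyclic G
  · exact Or.inl hc
  · right
    have htop : ∀ H : Subgroup G, ¬ IsCyclic ↥H → H = ⊤ := by
      intro H hH
      rw [eq_top_iff]
      intro x _
      apply hX H hH
      exact Subgroup.mem_centralizer_iff.mpr (fun y _ => mul_comm y x)
    obtain ⟨s, x, y, hs, hx, hy, hy1, hxy⟩ := Cfsg.Agent.Lib.CoprimeGen4.exists_rank_two (A := G) mul_comm hc
    haveI : Fact s.Prime := ⟨hs⟩
    -- the elements of order dividing `s`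
    let E : Subgroup G :=
      { carrier := {z | z ^ s = 1}
        one_mem' := one_pow s
        mul_mem' := by
          intro a b ha hb
          show (a * b) ^ s = 1
          rw [mul_pow, show a ^ s = 1 from ha, show b ^ s = 1 from hb, one_mul]
        inv_mem' := by
          intro a ha
          show a⁻¹ ^ s = 1
          rw [inv_pow, show a ^ s = 1 from ha, inv_one] }
    have hyo : orderOf y = s := orderOf_eq_prime hy hy1
    have hx1 : x ≠ 1 := by
      rintro rfl
      exact hxy (one_mem _)
    have hxo : orderOf x = s := orderOf_eq_prime hx hx1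
    set E₀ := Subgroup.zpowers x ⊔ Subgroup.zpowers y with hE₀
    have hE₀E : E₀ ≤ E := sup_le (by rw [Subgroup.zpowers_le]; exact hx) (by rw [Subgroup.zpowers_le]; exact hy)
    have hExp : ∀ z : E₀, z ^ s = 1 := fun z => Subtype.ext (hE₀E z.2)
    have hyE : Subgroup.zpowers y ≤ E₀ := le_sup_right
    have hxE : x ∈ E₀ := (le_sup_left : Subgroup.zpowers x ≤ E₀) (Subgroup.mem_zpowers x)
    have hEnc : ¬ IsCyclic E₀ := by
      intro hcyc
      have h1 : Monoid.exponent E₀ = Nat.card E₀ := IsCyclic.exponent_eq_card
      have h2 : Monoid.exponent E₀ ∣ s := Monoid.exponent_dvd_of_forall_pow_eq_one hExp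
      rw [h1] at h2
      have h3 : s ∣ Nat.card E₀ := by
        have h4 : Nat.card (Subgroup.zpowers y) ∣ Nat.card E₀ := Subgroup.card_dvd_of_le hyE
        rwa [Nat.card_zpowers, hyo] at h4
      have h4 : Subgroup.zpowers y = E₀ := by
        apply Subgroup.eq_of_le_of_card_ge hyE
        rw [Nat.card_zpowers, hyo]
        exact Nat.le_of_dvd hs.pos h2
      apply hxy
      rw [h4]
      exact hxE
    have hEt := htop E₀ hEnc
    have hall : ∀ z : G, z ^ s = 1 := by
      intro z
      exact hE₀E (by rw [hEt]; trivial)
    have hcard : Nat.card G ∣ s * s := by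
      have h1 := Cfsg.Agent.Lib.SchurZ2.card_sup_mul_card_inf (Subgroup.zpowers x) (Subgroup.zpowers y) (by
        intro a _
        rw [Subgroup.mem_normalizer_iff]
        intro b
        rw [mul_comm a b, mul_assoc, mul_inv_cancel, mul_one])
      rw [← hE₀, hEt, Nat.card_zpowers, Nat.card_zpowers, hxo, hyo, Subgroup.card_top] at h1
      rw [← h1]
      exact dvd_mul_right _ _
    rw [← pow_two] at hcard
    obtain ⟨i, hi, hie⟩ := (Nat.dvd_prime_pow hs).mp hcard
    have hi2 : i = 2 := by
      interval_cases i
      · exfalso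
        rw [pow_zero] at hie
        have : Subsingleton G := (Nat.card_eq_one_iff_unique.mp hie).1
        exact hy1 (Subsingleton.elim _ _)
      · exfalso
        rw [pow_one] at hie
        have h4 : Subgroup.zpowers y = ⊤ := by
          apply Subgroup.eq_top_of_card_eq
          rw [Nat.card_zpowers, hyo, hie]
        apply hxy
        rw [h4]
        trivial
      · rfl
    refine ⟨s, hs, by rw [hie, hi2], ?_⟩
    have h5 : Monoid.exponent G ∣ s := Monoid.exponent_dvd_of_forall_pow_eq_one hall
    rcases (Nat.dvd_prime hs).mp h5 with h6 | h6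
    · exfalso
      apply hy1
      have := Monoid.pow_exponent_eq_one y
      rwa [h6, pow_one] at this
    · exact h6

end Cfsg.Agent.S3917
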