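import Mathlib
import Cfsg.Statements.S3919
import Cfsg.Agent.Lib.UniqueSub
import Cfsg.Agent.Lib.Taussky
import Cfsg.Agent.Lib.MaxClass
import Cfsg.Agent.Lib.H6Regular
-- import your own Cfsg.Agent.* helpers here

set_option autoImplicit false
open Cfsg

namespace Cfsg.Agent.S3919

open Subgroup Cfsg.Agent.Lib
open scoped commutatorElement

universe u

theorem comm_of_cyclic_quot {G : Type*} [Group G] [Finite G] (hy : ¬ ∀ a b : G, a * b = b * a) :
    ¬ IsCyclic (G ⧸ center G) := by
  intro hc
  exact hy (commutative_of_cyclic_center_quotient (QuotientGroup.mk' (center G))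
    (by rw [QuotientGroup.ker_mk']))

theorem small_centralizer_class : ∀ (n : ℕ) (G : Type u) [Group G] [Finite G], Nat.card G = 2 ^ n →
    ∀ y : G, y ∉ center G → Nat.card (centralizer ({y} : Set G)) ≤ 4 →
    (⊤ : Subgroup G).lowerCentralSeries (n - 2) ≠ ⊥ := by
  intro n
  induction n with
  | zero =>
    intro G _ _ hG y hy _
    exfalso
    apply hy
    have h1 : Nat.card G = 1 := by simpa using hG
    haveI := (Nat.card_eq_one_iff_unique.mp h1).1
    rw [Subsingleton.elim y 1]
    exact one_mem _
  | succ m ih =>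
    intro G _ _ hG y hy hC
    classical
    haveI hf : Fact (Nat.Prime 2) := ⟨Nat.prime_two⟩
    have hp : IsPGroup 2 G := IsPGroup.of_card hG
    have hna : ¬ ∀ a b : G, a * b = b * a := by
      intro h
      apply hy
      rw [mem_center_iff]
      exact fun g => h g y
    haveI : Nontrivial G := by
      refine ⟨⟨y, 1, ?_⟩⟩
      rintro rfl
      exact hy (one_mem _)
    haveI hZnt : Nontrivial (center G) := hp.center_nontrivial
    -- the centre has order two
    have hZC : center G ≤ centralizer ({y} : Set G) := by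
      intro z hz
      rw [mem_centralizer_singleton_iff]
      exact ((mem_center_iff.1 hz) y).symm
    have hyC : y ∈ centralizer ({y} : Set G) := by
      rw [mem_centralizer_singleton_iff]
    have hZ2 : Nat.card (center G) = 2 := by
      have h1 : 1 < Nat.card (center G) := Finite.one_lt_card_iff_nontrivial.mpr hZnt
      have h2 : Nat.card (center G) * (center G).relIndex (centralizer ({y} : Set G)) =
          Nat.card (centralizer ({y} : Set G)) := by
        have h7 := Subgroup.relIndex_mul_relIndex (⊥ : Subgroup G) (center G) (centralizer ({y} : Set G)) bot_le hZC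
        rwa [Subgroup.relIndex_bot_left, Subgroup.relIndex_bot_left] at h7
      have h3 : (center G).relIndex (centralizer ({y} : Set G)) ≠ 1 := by
        intro h
        rw [Subgroup.relIndex_eq_one] at h
        exact hy (h hyC)
      have h4 : (center G).relIndex (centralizer ({y} : Set G)) ≠ 0 := by
        intro h
        rw [h, mul_zero] at h2
        exact (Nat.card_pos (α := centralizer ({y} : Set G))).ne h2
      have h5 : 2 ≤ (center G).relIndex (centralizer ({y} : Set G)) := by omega
      have h6 : Nat.card (center G) * 2 ≤ 4 := by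
        calc Nat.card (center G) * 2 ≤ Nat.card (center G) * (center G).relIndex (centralizer ({y} : Set G)) :=
              Nat.mul_le_mul_left _ h5
          _ = _ := h2
          _ ≤ 4 := hC
      omega
    let π : G →* G ⧸ center G := QuotientGroup.mk' (center G)
    have hπsur : Function.Surjective π := QuotientGroup.mk'_surjective _
    have hπker : ∀ x, π x = 1 ↔ x ∈ center G := fun x => QuotientGroup.eq_one_iff x
    have hQcard : Nat.card (G ⧸ center G) = 2 ^ m := by
      have h1 := Subgroup.card_mul_index (center G)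
      rw [hZ2, hG, pow_succ, mul_comm (2 ^ m)] at h1
      have h2 : (center G).index = 2 ^ m := Nat.eq_of_mul_eq_mul_left (by norm_num : 0 < 2) h1
      rw [← Subgroup.index_eq_card, h2]
    -- the centralizer in the quotient
    let Cb : Subgroup (G ⧸ center G) := centralizer ({π y} : Set (G ⧸ center G))
    let Ct : Subgroup G := Cb.comap π
    have hCt : ∀ g, g ∈ Ct ↔ ⁅g, y⁆ ∈ center G := by
      intro g
      rw [← hπker, map_commutatorElement, commutatorElement_eq_one_iff_mul_comm]
      show π g ∈ Cb ↔ _
      rw [mem_centralizer_singleton_iff]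
    have hcentral : ∀ (g : Ct) (h : G), ⁅(g : G), y⁆ * h = h * ⁅(g : G), y⁆ := fun g h =>
      ((mem_center_iff.1 ((hCt g).1 g.2)) h).symm
    let φ : Ct →* center G := MonoidHom.mk' (fun g => (⟨⁅(g : G), y⁆, (hCt g).1 g.2⟩ : center G)) (by
      intro a b
      apply Subtype.ext
      show ⁅(a : G) * b, y⁆ = ⁅(a : G), y⁆ * ⁅(b : G), y⁆
      have h1 : ⁅(a : G) * b, y⁆ = (a : G) * ⁅(b : G), y⁆ * (a : G)⁻¹ * ⁅(a : G), y⁆ := by
        simp only [commutatorElement_def]
        group
      rw [h1, ← hcentral b, mul_inv_cancel_right, hcentral b])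
    have hkerle : Nat.card φ.ker ≤ 4 := by
      refine le_trans ?_ hC
      let f : φ.ker → centralizer ({y} : Set G) := fun x => ⟨((x : Ct) : G), by
        rw [mem_centralizer_singleton_iff]
        have h1 : φ (x : Ct) = 1 := x.2
        have h2 : ⁅((x : Ct) : G), y⁆ = 1 := congrArg Subtype.val h1
        rw [commutatorElement_eq_one_iff_mul_comm] at h2
        exact h2⟩
      refine Nat.card_le_card_of_injective f ?_
      intro a b hab
      have h3 := congrArg Subtype.val hab
      have : ((a : Ct) : G) = (b : Ct) := h3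
      exact Subtype.ext (Subtype.ext this)
    have hrange : Nat.card φ.range ≤ 2 := by
      rw [← hZ2]
      exact Subgroup.card_le_card_group φ.range
    have hCtcard : Nat.card Ct ≤ 8 := by
      have h1 := Subgroup.card_mul_index φ.ker
      rw [Subgroup.index_ker] at h1
      rw [← h1]
      calc Nat.card φ.ker * Nat.card φ.range ≤ 4 * 2 := Nat.mul_le_mul hkerle hrange
        _ = 8 := rfl
    have hCbcard : Nat.card Cb ≤ 4 := by
      have h1 := Subgroup.card_mul_index Ct
      have h2 := Subgroup.card_mul_index Cb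
      have h3 : Ct.index = Cb.index := Subgroup.index_comap_of_surjective Cb hπsur
      rw [h3, hG] at h1
      rw [hQcard] at h2
      have h4 : Nat.card Ct * Cb.index = 2 * (Nat.card Cb * Cb.index) := by
        rw [h1, h2, pow_succ, mul_comm]
      have h5 : 0 < Cb.index := Nat.pos_of_ne_zero (Subgroup.index_ne_zero_of_finite)
      have h6 : Nat.card Ct = 2 * Nat.card Cb := by
        have : Nat.card Ct * Cb.index = (2 * Nat.card Cb) * Cb.index := by rw [h4, mul_assoc]
        exact Nat.eq_of_mul_eq_mul_right h5 this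
      omega
    -- small cases
    have hm3 : 2 ≤ m := by
      by_contra hm
      have hm' : m = 0 ∨ m = 1 := by omega
      apply comm_of_cyclic_quot hna
      rcases hm' with rfl | rfl
      · have h1 : Nat.card (G ⧸ center G) = 1 := by simpa using hQcard
        haveI := (Nat.card_eq_one_iff_unique.mp h1).1
        infer_instance
      · have h1 : Nat.card (G ⧸ center G) = 2 := by simpa using hQcard
        exact isCyclic_of_prime_card h1
    by_cases hm2 : m = 2
    · subst hm2
      show (⊤ : Subgroup G).lowerCentralSeries 1 ≠ ⊥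
      intro h
      apply hna
      intro a b
      have h1 : ⁅a, b⁆ ∈ (⊤ : Subgroup G).lowerCentralSeries 1 :=
        Subgroup.commutator_mem_commutator (mem_top a) (mem_top b)
      rw [h, mem_bot, commutatorElement_eq_one_iff_mul_comm] at h1
      exact h1
    have hm4 : 3 ≤ m := by omega
    have hyb : π y ∉ center (G ⧸ center G) := by
      intro h
      have h1 : Cb = ⊤ := by
        rw [Subgroup.eq_top_iff']
        intro x
        rw [mem_centralizer_singleton_iff]
        exact (mem_center_iff.1 h) x
      have h2 : Nat.card Cb = 2 ^ m := by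
        rw [h1, Subgroup.card_top, hQcard]
      have h3 : 2 ^ 3 ≤ 2 ^ m := Nat.pow_le_pow_right (by norm_num) hm4
      omega
    have hIH := ih (G ⧸ center G) hQcard (π y) hyb hCbcard
    intro hbot
    apply hIH
    have hsucc : (m + 1 - 2) = (m - 2) + 1 := by omega
    rw [hsucc] at hbot
    have h1 : (⊤ : Subgroup G).lowerCentralSeries (m - 2) ≤ center G := by
      intro x hx
      rw [mem_center_iff]
      intro g
      have h2 : ⁅x, g⁆ ∈ (⊤ : Subgroup G).lowerCentralSeries (m - 2 + 1) :=
        Subgroup.commutator_mem_commutator hx (mem_top g)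
      rw [hbot, mem_bot, commutatorElement_eq_one_iff_mul_comm] at h2
      exact h2.symm
    have h2 := Subgroup.map_lowerCentralSeries (⊤ : Subgroup G) π (m - 2)
    rw [Subgroup.map_top_of_surjective π hπsur] at h2
    rw [← h2, Subgroup.map_eq_bot_iff]
    intro x hx
    exact (hπker x).2 (h1 hx)

theorem quat_small {k : ℕ} (hk : 1 ≤ k) :
    (QuaternionGroup.xa 0 : QuaternionGroup (2 ^ k)) ∉ center (QuaternionGroup (2 ^ k)) ∧
    Nat.card (centralizer ({QuaternionGroup.xa 0} : Set (QuaternionGroup (2 ^ k)))) ≤ 4 := by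
  classical
  set n := 2 ^ k with hn
  have hn2 : 2 ≤ n := by
    rw [hn]
    calc 2 = 2 ^ 1 := rfl
      _ ≤ 2 ^ k := Nat.pow_le_pow_right (by norm_num) hk
  haveI : NeZero (2 * n) := ⟨by omega⟩
  have key : ∀ i : ZMod (2 * n), i + i = 0 → i = 0 ∨ i = (n : ZMod (2 * n)) := by
    intro i hi
    have h1 : ((i.val + i.val : ℕ) : ZMod (2 * n)) = 0 := by
      push_cast
      rw [ZMod.natCast_zmod_val]
      exact hi
    rw [ZMod.natCast_eq_zero_iff] at h1
    have h2 := ZMod.val_lt i
    obtain ⟨c, hc⟩ := h1
    have h3 : c = 0 ∨ c = 1 := by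
      by_contra h
      have h4 : 2 ≤ c := by omega
      have h5 : 2 * n * 2 ≤ 2 * n * c := Nat.mul_le_mul_left _ h4
      omega
    have hiv : i = ((i.val : ℕ) : ZMod (2 * n)) := (ZMod.natCast_zmod_val i).symm
    rcases h3 with rfl | rfl
    · left
      have h4 : i.val = 0 := by omega
      rw [hiv, h4]
      simp
    · right
      have h4 : i.val = n := by omega
      rw [hiv, h4]
  constructor
  · intro h
    have h1 := (mem_center_iff.1 h) (QuaternionGroup.a 1)
    simp only [QuaternionGroup.a_mul_xa, QuaternionGroup.xa_mul_a, QuaternionGroup.xa.injEq] at h1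
    have h2 : (1 : ZMod (2 * n)) + 1 = 0 := by
      have h3 : (0 : ZMod (2 * n)) - 1 = 0 + 1 := h1
      linear_combination -h3
    have hone : ((1 : ℕ) : ZMod (2 * n)) = 1 := by simp
    rcases key 1 h2 with h3 | h3
    · have h4 : ((1 : ℕ) : ZMod (2 * n)) = ((0 : ℕ) : ZMod (2 * n)) := by simpa using h3
      rw [ZMod.natCast_eq_natCast_iff'] at h4
      rw [Nat.mod_eq_of_lt (by omega), Nat.mod_eq_of_lt (by omega)] at h4
      omega
    · have h4 : ((1 : ℕ) : ZMod (2 * n)) = ((n : ℕ) : ZMod (2 * n)) := by rw [hone]; exact h3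
      rw [ZMod.natCast_eq_natCast_iff'] at h4
      rw [Nat.mod_eq_of_lt (by omega), Nat.mod_eq_of_lt (by omega)] at h4
      omega
  · let S : Finset (QuaternionGroup n) :=
      {QuaternionGroup.a 0, QuaternionGroup.a (n : ZMod (2 * n)), QuaternionGroup.xa 0,
        QuaternionGroup.xa (n : ZMod (2 * n))}
    have hS : S.card ≤ 4 := Finset.card_le_four
    have hmem : ∀ g ∈ centralizer ({QuaternionGroup.xa 0} : Set (QuaternionGroup n)), g ∈ S := by
      intro g hg
      rw [mem_centralizer_singleton_iff] at hg
      cases g with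
      | a i =>
        simp only [QuaternionGroup.a_mul_xa, QuaternionGroup.xa_mul_a, QuaternionGroup.xa.injEq] at hg
        have h2 : i + i = 0 := by linear_combination -hg
        rcases key i h2 with rfl | rfl <;> simp [S]
      | xa j =>
        simp only [QuaternionGroup.xa_mul_xa, QuaternionGroup.a.injEq] at hg
        have h2 : j + j = 0 := by linear_combination -hg
        rcases key j h2 with rfl | rfl <;> simp [S]
    refine le_trans ?_ hS
    let f : centralizer ({QuaternionGroup.xa 0} : Set (QuaternionGroup n)) → S :=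
      fun g => ⟨g, hmem g g.2⟩
    have hf : Function.Injective f := by
      intro a b hab
      have h3 := congrArg Subtype.val hab
      exact Subtype.ext h3
    have h4 := Nat.card_le_card_of_injective f hf
    simpa using h4

theorem cyclic_unique' {K : Type*} [Group K] [Finite K] [IsCyclic K] {p : ℕ} (hp : p.Prime) (x y : K)
    (hx : orderOf x = p) (hy : y ^ p = 1) : y ∈ zpowers x := by
  classical
  haveI := Fintype.ofFinite K
  let S : Finset K := Finset.univ.filter (fun a => a ^ p = 1)
  have h1 : S.card ≤ p := IsCyclic.card_pow_eq_one_le hp.pos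
  let T : Finset K := (zpowers x : Set K).toFinset
  have hTS : T ⊆ S := by
    intro a ha
    have ha' : a ∈ zpowers x := by simpa [T] using ha
    obtain ⟨k, rfl⟩ := ha'
    simp only [S, Finset.mem_filter, Finset.mem_univ, true_and]
    rw [← zpow_natCast, ← zpow_mul, mul_comm, zpow_mul, zpow_natCast, ← hx, pow_orderOf_eq_one, one_zpow]
  have hT : T.card = p := by
    have : T.card = Nat.card (zpowers x) := by
      rw [Nat.card_eq_fintype_card]
      exact Set.toFinset_card _
    rw [this, Nat.card_zpowers, hx]
  have hTeq : T = S := Finset.eq_of_subset_of_card_le hTS (by rw [hT]; exact h1)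
  have hyS : y ∈ S := by simp [S, hy]
  rw [← hTeq] at hyS
  simpa [T] using hyS

theorem mem_zp2 {G : Type*} [Group G] {t x : G} (ht : orderOf t = 2) (hx : x ∈ zpowers t) : x = 1 ∨ x = t := by
  have h0 : t ^ 2 = 1 := by rw [← ht]; exact pow_orderOf_eq_one t
  obtain ⟨k, rfl⟩ := hx
  rcases Int.even_or_odd' k with ⟨m, rfl | rfl⟩
  · left
    show t ^ (2 * m) = 1
    rw [zpow_mul]
    norm_cast
    rw [h0]
    simp
  · right
    show t ^ (2 * m + 1) = t
    rw [zpow_add, zpow_mul, zpow_one]
    norm_cast
    rw [h0]
    simp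

theorem forward {G : Type u} [Group G] [Finite G] (hna : ¬ ∀ a b : G, a * b = b * a) (n : ℕ)
    (hG : Nat.card G = 2 ^ n) (h : ∀ H : Subgroup G, ¬ IsCyclic ↥H → centralizer (H : Set G) ≤ H) :
    (⊤ : Subgroup G).lowerCentralSeries (n - 2) ≠ ⊥ := by
  classical
  haveI hf : Fact (Nat.Prime 2) := ⟨Nat.prime_two⟩
  have hp : IsPGroup 2 G := IsPGroup.of_card hG
  haveI : Nontrivial G := by
    by_contra hs
    rw [not_nontrivial_iff_subsingleton] at hs
    exact hna (fun a b => Subsingleton.elim _ _)
  haveI hZnt : Nontrivial (center G) := hp.center_nontrivial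
  have h2Z : 2 ∣ Nat.card (center G) := by
    obtain ⟨e, he⟩ := IsPGroup.iff_card.1 (hp.to_subgroup (center G))
    have h1 : 1 < Nat.card (center G) := Finite.one_lt_card_iff_nontrivial.mpr hZnt
    rw [he] at h1 ⊢
    exact dvd_pow_self 2 (by rintro rfl; simp at h1)
  obtain ⟨z, hz⟩ := exists_prime_orderOf_dvd_card' (G := center G) 2 h2Z
  have hzo : orderOf (z : G) = 2 := by rw [Subgroup.orderOf_coe]; exact hz
  have hzc : ∀ g : G, g * z = z * g := fun g => (mem_center_iff.1 z.2) g
  by_cases hu : ∃ t : G, orderOf t = 2 ∧ t ≠ z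
  · obtain ⟨t, ht, htz⟩ := hu
    haveI hzn : (zpowers (z : G)).Normal := by
      refine ⟨fun x hx g => ?_⟩
      obtain ⟨k, rfl⟩ := hx
      have h1 : (z : G) ^ k ∈ center G := zpow_mem z.2 k
      have h2 := (mem_center_iff.1 h1) g
      show g * (z : G) ^ k * g⁻¹ ∈ _
      rw [h2, mul_inv_cancel_right]
      exact mem_zpowers_iff.2 ⟨k, rfl⟩
    let V : Subgroup G := zpowers t ⊔ zpowers (z : G)
    have hVmem : ∀ x ∈ V, x = 1 ∨ x = t ∨ x = z ∨ x = t * z := by
      intro x hx
      obtain ⟨a, ha, b, hb, rfl⟩ := Subgroup.mem_sup_of_normal_right.1 hx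
      rcases mem_zp2 ht ha with rfl | rfl <;> rcases mem_zp2 hzo hb with rfl | rfl <;> simp
    have hnc : ¬ IsCyclic V := by
      intro hc
      have h1 := cyclic_unique' Nat.prime_two
        (⟨t, (le_sup_left : zpowers t ≤ V) (mem_zpowers t)⟩ : V)
        ⟨z, (le_sup_right : zpowers (z : G) ≤ V) (mem_zpowers _)⟩
        (by rw [Subgroup.orderOf_mk]; exact ht)
        (Subtype.ext (by
          show (z : G) ^ 2 = 1
          rw [← hzo]; exact pow_orderOf_eq_one _))
      obtain ⟨k, hk⟩ := h1
      have h2 : t ^ k = (z : G) := by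
        have := congrArg Subtype.val hk
        simpa using this
      rcases mem_zp2 ht (mem_zpowers_iff.2 ⟨k, h2⟩) with h3 | h3
      · rw [h3, orderOf_one] at hzo
        omega
      · exact htz h3.symm
    have hCle : centralizer (V : Set G) ≤ V := h V hnc
    have htcen : t ∉ center G := by
      intro hc
      have hVc : V ≤ center G := by
        refine sup_le ?_ ?_
        · rw [Subgroup.zpowers_le]; exact hc
        · rw [Subgroup.zpowers_le]; exact z.2
      have hall : centralizer (V : Set G) = ⊤ := by
        rw [Subgroup.eq_top_iff']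
        intro g
        rw [mem_centralizer_iff]
        intro v hv
        exact ((mem_center_iff.1 (hVc hv)) g).symm
      apply hna
      intro a b
      have hb : b ∈ V := hCle (by rw [hall]; exact mem_top b)
      exact (mem_center_iff.1 (hVc hb)) a
    have hsub : ∀ c ∈ centralizer ({t} : Set G), c ∈ V := by
      intro c hc
      rw [mem_centralizer_singleton_iff] at hc
      apply hCle
      rw [mem_centralizer_iff]
      intro v hv
      rcases hVmem v hv with rfl | rfl | rfl | rfl
      · simp
      · exact hc.symm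
      · exact (hzc c).symm ▸ rfl
      · rw [mul_assoc, ← hzc c, ← mul_assoc, ← mul_assoc, hc]
    let S : Finset G := {1, t, (z : G), t * z}
    have hS : S.card ≤ 4 := Finset.card_le_four
    have hcard : Nat.card (centralizer ({t} : Set G)) ≤ 4 := by
      refine le_trans ?_ hS
      let f : centralizer ({t} : Set G) → S := fun g => ⟨g, by
        rcases hVmem g (hsub g g.2) with h1 | h1 | h1 | h1 <;> simp [S, h1]⟩
      have hf : Function.Injective f := by
        intro a b hab
        have h3 := congrArg Subtype.val hab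
        exact Subtype.ext h3
      have h4 := Nat.card_le_card_of_injective f hf
      simpa using h4
    exact small_centralizer_class n G hG t htcen hcard
  · push_neg at hu
    have hU : UniqueSub.UniqueP 2 G := by
      intro x y hx hy
      rw [hu x hx, hu y hy]
      exact mem_zpowers _
    rcases UniqueSub.cyclic_or_quaternion hp hU with hc | ⟨-, k, hk, ⟨e⟩⟩
    · exact absurd (fun a b => (IsCyclic.isMulCommutative (α := G)).is_comm.comm a b) hna
    · obtain ⟨h1, h2⟩ := quat_small hk
      have hy : e.symm (QuaternionGroup.xa 0) ∉ center G := by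
        intro hc
        apply h1
        rw [mem_center_iff]
        intro g
        have h3 := (mem_center_iff.1 hc) (e.symm g)
        have h4 := congrArg e h3
        simpa using h4
      refine small_centralizer_class n G hG _ hy (le_trans ?_ h2)
      let f : centralizer ({e.symm (QuaternionGroup.xa 0)} : Set G) →
          centralizer ({QuaternionGroup.xa 0} : Set (QuaternionGroup (2 ^ k))) := fun g => ⟨e g, by
        rw [mem_centralizer_singleton_iff]
        have h3 := (mem_centralizer_singleton_iff.1 g.2)
        have h4 := congrArg e h3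
        simpa using h4⟩
      refine Nat.card_le_card_of_injective f ?_
      intro a b hab
      have h3 := congrArg Subtype.val hab
      exact Subtype.ext (e.injective h3)

theorem three_le {G : Type u} [Group G] [Finite G] (hna : ¬ ∀ a b : G, a * b = b * a) (n : ℕ)
    (hG : Nat.card G = 2 ^ n) : 3 ≤ n := by
  classical
  haveI hf : Fact (Nat.Prime 2) := ⟨Nat.prime_two⟩
  have hp : IsPGroup 2 G := IsPGroup.of_card hG
  by_contra hn
  have hn' : n = 0 ∨ n = 1 ∨ n = 2 := by omega
  apply hna
  rcases hn' with rfl | rfl | rfl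
  · have h1 : Nat.card G = 1 := by simpa using hG
    haveI := (Nat.card_eq_one_iff_unique.mp h1).1
    exact fun a b => Subsingleton.elim _ _
  · have h1 : Nat.card G = 2 := by simpa using hG
    haveI : IsCyclic G := isCyclic_of_prime_card h1
    exact fun a b => (IsCyclic.isMulCommutative (α := G)).is_comm.comm a b
  · have h1 : Nat.card G = 2 ^ 2 := hG
    exact (IsPGroup.commGroupOfCardEqPrimeSq h1).mul_comm

theorem backward {G : Type u} [Group G] [Finite G] (hna : ¬ ∀ a b : G, a * b = b * a) (n : ℕ)
    (hG : Nat.card G = 2 ^ n) (hcl : (⊤ : Subgroup G).lowerCentralSeries (n - 2) ≠ ⊥) :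
    ∀ H : Subgroup G, ¬ IsCyclic ↥H → centralizer (H : Set G) ≤ H := by
  classical
  haveI hf : Fact (Nat.Prime 2) := ⟨Nat.prime_two⟩
  have hp : IsPGroup 2 G := IsPGroup.of_card hG
  haveI hnil : Group.IsNilpotent G := hp.isNilpotent
  have hn3 : 3 ≤ n := three_le hna n hG
  have hclass : Group.nilpotencyClass G = n - 1 := by
    have h1 := Cfsg.Agent.Lib.MaxClass.class_bound (p := 2) n G hG
    rw [max_eq_left (by omega)] at h1
    have h2 : ¬ Group.nilpotencyClass G ≤ n - 2 := by
      intro h3
      exact hcl (_root_.lowerCentralSeries_eq_bot_iff_nilpotencyClass_le.2 h3)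
    omega
  have hZ2 : Nat.card (center G) = 2 := Cfsg.Agent.Lib.MaxClass.card_center hn3 hG hclass
  -- the series
  have hstep : ∀ i, i + 3 ≤ n → 2 * Nat.card ((⊤ : Subgroup G).lowerCentralSeries (i + 1)) ≤
      Nat.card ((⊤ : Subgroup G).lowerCentralSeries i) := by
    intro i hi
    have hle : (⊤ : Subgroup G).lowerCentralSeries (i + 1) ≤ (⊤ : Subgroup G).lowerCentralSeries i :=
      Subgroup.lowerCentralSeries_antitone _ (Nat.le_succ i)
    have hne : (⊤ : Subgroup G).lowerCentralSeries (i + 1) ≠ (⊤ : Subgroup G).lowerCentralSeries i := by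
      intro heq
      have hstable : ∀ k, (⊤ : Subgroup G).lowerCentralSeries (i + k) = (⊤ : Subgroup G).lowerCentralSeries i := by
        intro k
        induction k with
        | zero => rfl
        | succ k ih =>
          have h1 : (⊤ : Subgroup G).lowerCentralSeries (i + (k + 1)) =
              ⁅(⊤ : Subgroup G).lowerCentralSeries (i + k), ⊤⁆ := rfl
          rw [h1, ih]
          exact heq
      have h2 : (⊤ : Subgroup G).lowerCentralSeries (i + (n - 1)) = ⊥ :=
        _root_.lowerCentralSeries_eq_bot_iff_nilpotencyClass_le.2 (by omega)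
      rw [hstable] at h2
      apply hcl
      have h3 : (⊤ : Subgroup G).lowerCentralSeries (n - 2) ≤ (⊤ : Subgroup G).lowerCentralSeries i :=
        Subgroup.lowerCentralSeries_antitone _ (by omega)
      rw [h2] at h3
      exact le_bot_iff.1 h3
    have h1 := Subgroup.relIndex_mul_relIndex (⊥ : Subgroup G) _ _ bot_le hle
    rw [Subgroup.relIndex_bot_left, Subgroup.relIndex_bot_left] at h1
    rw [← h1, mul_comm]
    apply Nat.mul_le_mul_left
    have h3 : ((⊤ : Subgroup G).lowerCentralSeries (i + 1)).relIndex ((⊤ : Subgroup G).lowerCentralSeries i) ≠ 1 := by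
      intro h
      rw [Subgroup.relIndex_eq_one] at h
      exact hne (le_antisymm hle h)
    have h4 : ((⊤ : Subgroup G).lowerCentralSeries (i + 1)).relIndex ((⊤ : Subgroup G).lowerCentralSeries i) ≠ 0 := by
      intro h
      rw [h, mul_zero] at h1
      exact (Nat.card_pos (α := ((⊤ : Subgroup G).lowerCentralSeries i))).ne h1
    omega
  have hchain : ∀ j, j + 2 ≤ n → 2 ^ (j + 1) ≤ Nat.card ((⊤ : Subgroup G).lowerCentralSeries (n - 2 - j)) := by
    intro j
    induction j with
    | zero =>
      intro _
      simp only [zero_add, pow_one, Nat.sub_zero]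
      have h1 := (Subgroup.one_lt_card_iff_ne_bot _).2 hcl
      omega
    | succ j ih =>
      intro hj
      have h1 := ih (by omega)
      have h2 := hstep (n - 2 - (j + 1)) (by omega)
      have h3 : n - 2 - (j + 1) + 1 = n - 2 - j := by omega
      rw [h3] at h2
      rw [pow_succ]
      omega
  have hD : 2 ^ (n - 2) ≤ Nat.card (commutator G) := by
    have h1 := hchain (n - 3) (by omega)
    have h2 : n - 3 + 1 = n - 2 := by omega
    have h3 : n - 2 - (n - 3) = 1 := by omega
    rw [h2, h3] at h1
    exact h1
  -- the abelianization is not cyclic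
  have hcomfr : commutator G ≤ frattini G := Cfsg.Agent.Lib.H6Regular.commutator_le_frattini hp
  have hnoc : ¬ IsCyclic (G ⧸ commutator G) := by
    intro hc
    obtain ⟨g, hg⟩ := hc.exists_generator
    obtain ⟨t, rfl⟩ := QuotientGroup.mk_surjective g
    have htop : zpowers t ⊔ frattini G = ⊤ := by
      rw [Subgroup.eq_top_iff']
      intro x
      obtain ⟨k, hk⟩ := hg (x : G ⧸ commutator G)
      have h1 : (t ^ k)⁻¹ * x ∈ commutator G := by
        apply QuotientGroup.eq.1
        simpa using hk
      have h2 : x = t ^ k * ((t ^ k)⁻¹ * x) := by group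
      rw [h2]
      exact mul_mem ((le_sup_left : zpowers t ≤ _) (zpow_mem (mem_zpowers t) k))
        ((le_sup_right : frattini G ≤ _) (hcomfr h1))
    have h3 := frattini_nongenerating htop
    apply hna
    intro a b
    have ha : a ∈ zpowers t := by rw [h3]; exact mem_top a
    have hb : b ∈ zpowers t := by rw [h3]; exact mem_top b
    obtain ⟨i, rfl⟩ := ha
    obtain ⟨j, rfl⟩ := hb
    show t ^ i * t ^ j = t ^ j * t ^ i
    rw [← zpow_add, ← zpow_add, add_comm]
  have hidx : (commutator G).index = 4 := by
    have h1 := Subgroup.card_mul_index (commutator G)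
    rw [hG] at h1
    have h2 : (commutator G).index ∣ 2 ^ n := Dvd.intro_left _ h1
    obtain ⟨e, he, he2⟩ := (Nat.dvd_prime_pow Nat.prime_two).1 h2
    have h3 : e ≤ 2 := by
      by_contra h4
      have h5 : 3 ≤ e := by omega
      have h6 : 2 ^ 3 ≤ 2 ^ e := Nat.pow_le_pow_right (by norm_num) h5
      have h7 : 2 ^ (n - 2) * 2 ^ 3 ≤ 2 ^ n := by
        rw [← h1, he2]
        exact Nat.mul_le_mul hD h6
      have h8 : 2 ^ n = 2 ^ (n - 2) * 2 ^ 2 := by
        rw [← pow_add]; congr 1; omega
      have h9 : 0 < 2 ^ (n - 2) := by positivity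
      rw [h8] at h7
      have h10 := Nat.le_of_mul_le_mul_left h7 h9
      norm_num at h10
    have h4 : Nat.card (G ⧸ commutator G) = (commutator G).index := (Subgroup.index_eq_card _).symm
    interval_cases e
    · exfalso
      apply hnoc
      have h5 : Nat.card (G ⧸ commutator G) = 1 := by rw [h4, he2]; rfl
      haveI := (Nat.card_eq_one_iff_unique.mp h5).1
      infer_instance
    · exfalso
      apply hnoc
      have h5 : Nat.card (G ⧸ commutator G) = 2 := by rw [h4, he2]; rfl
      exact isCyclic_of_prime_card h5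
    · rw [he2]; rfl
  have hK : Cfsg.Agent.Lib.Taussky.K4 G := by
    refine ⟨hidx, fun g => ?_⟩
    by_contra hg
    apply hnoc
    have h1 : ((g : G ⧸ commutator G)) ^ 2 ≠ 1 := by
      intro h
      apply hg
      rw [← QuotientGroup.mk_pow] at h
      exact (QuotientGroup.eq_one_iff _).1 h
    have hcardq : Nat.card (G ⧸ commutator G) = 4 := by rw [← Subgroup.index_eq_card, hidx]
    have h2 : orderOf (g : G ⧸ commutator G) ∣ 2 ^ 2 := by
      have := orderOf_dvd_natCard (g : G ⧸ commutator G)
      rwa [hcardq] at this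
    obtain ⟨e, he, he2⟩ := (Nat.dvd_prime_pow Nat.prime_two).1 h2
    have h3 : e = 2 := by
      interval_cases e
      · exfalso
        rw [pow_zero, orderOf_eq_one_iff] at he2
        rw [he2] at h1
        simp at h1
      · exfalso
        apply h1
        rw [pow_one] at he2
        rw [← he2]
        exact pow_orderOf_eq_one _
      · rfl
    rw [h3] at he2
    exact isCyclic_of_orderOf_eq_card _ (by rw [he2, hcardq]; rfl)
  rcases Cfsg.Agent.Lib.Taussky.exists_cyclic _ G rfl hp hK with h4 | ⟨a, hA⟩
  · exfalso
    rw [hG] at h4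
    have h6 : 2 ^ 3 ≤ 2 ^ n := Nat.pow_le_pow_right (by norm_num) hn3
    omega
  set A := zpowers a with hAdef
  have hab : ∀ u ∈ A, ∀ v ∈ A, u * v = v * u := by
    rintro _ ⟨i, rfl⟩ _ ⟨j, rfl⟩
    show a ^ i * a ^ j = a ^ j * a ^ i
    rw [← zpow_add, ← zpow_add, add_comm]
  have hZA : center G ≤ A := Cfsg.Agent.Lib.MaxClass.center_le_of_noncomm A hA hab hna
  intro H hHnc c hc
  -- an element outside `A`
  obtain ⟨y, hyH, hyA⟩ : ∃ y ∈ H, y ∉ A := by
    by_contra hall
    push_neg at hall
    apply hHnc
    exact isCyclic_of_injective (Subgroup.inclusion hall) (Subgroup.inclusion_injective hall)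
  -- the intersection with `A` is nontrivial
  obtain ⟨w, hwH, hwA, hw1⟩ : ∃ w ∈ H, w ∈ A ∧ w ≠ 1 := by
    by_contra hall
    push_neg at hall
    apply hHnc
    have hle : H ≤ zpowers y := by
      intro h hh
      by_cases hhA : h ∈ A
      · rw [hall h hh hhA]
        exact one_mem _
      · have h1 : h * y ∈ A := (Subgroup.mul_mem_iff_of_index_two hA).2 (iff_of_false hhA hyA)
        have h2 := hall _ (mul_mem hh hyH) h1
        have h3 : h = y⁻¹ := eq_inv_of_mul_eq_one_left h2
        rw [h3]
        exact inv_mem (mem_zpowers y)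
    exact isCyclic_of_injective (Subgroup.inclusion hle) (Subgroup.inclusion_injective hle)
  -- an involution in the intersection
  obtain ⟨u, huH, huA, huo⟩ : ∃ u ∈ H, u ∈ A ∧ orderOf u = 2 := by
    have h1 : orderOf w ∣ 2 ^ n := by
      rw [← hG]; exact orderOf_dvd_natCard w
    obtain ⟨e, he, he2⟩ := (Nat.dvd_prime_pow Nat.prime_two).1 h1
    obtain ⟨e', rfl⟩ : ∃ e', e = e' + 1 := by
      cases e with
      | zero =>
        rw [pow_zero, orderOf_eq_one_iff] at he2
        exact absurd he2 hw1
      | succ e' => exact ⟨e', rfl⟩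
    refine ⟨w ^ 2 ^ e', pow_mem hwH _, pow_mem hwA _, ?_⟩
    rw [orderOf_pow_of_dvd (by positivity) (by rw [he2]; exact pow_dvd_pow 2 (by omega)), he2]
    rw [pow_succ]
    exact Nat.mul_div_cancel_left 2 (by positivity)
  have hZH : center G ≤ H := by
    intro v hv
    have hv2 : v ^ 2 = 1 := by
      have h1 := orderOf_dvd_natCard (⟨v, hv⟩ : center G)
      rw [Subgroup.orderOf_mk, hZ2] at h1
      exact orderOf_dvd_iff_pow_eq_one.1 h1
    have h1 := cyclic_unique' Nat.prime_two (⟨u, huA⟩ : A) ⟨v, hZA hv⟩
      (by rw [Subgroup.orderOf_mk]; exact huo) (Subtype.ext hv2)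
    obtain ⟨k, hk⟩ := h1
    have h2 : u ^ k = v := by
      have := congrArg Subtype.val hk
      simpa using this
    rw [← h2]
    exact zpow_mem huH k
  have hcy : c * y = y * c := by
    rw [mem_centralizer_iff] at hc
    exact (hc y hyH).symm
  by_cases hcA : c ∈ A
  · exact hZH (Cfsg.Agent.Lib.MaxClass.mem_center_of_commute A hA hab y hyA hcA hcy)
  · have h1 : c * y ∈ A := (Subgroup.mul_mem_iff_of_index_two hA).2 (iff_of_false hcA hyA)
    have h2 : (c * y) * y = y * (c * y) := by
      rw [← mul_assoc y, ← hcy]
    have h3 := hZH (Cfsg.Agent.Lib.MaxClass.mem_center_of_commute A hA hab y hyA h1 h2)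
    have h4 : c = (c * y) * y⁻¹ := by group
    rw [h4]
    exact mul_mem h3 (inv_mem hyH)

/-- Say that a group has self-centralizing non-cyclic subgroups when every non-cyclic subgroup H satisfies C_G(H) ≤ H. A finite non-abelian 2-group G of order 2^n has self-centralizing non-cyclic subgroups if and only if G has nilpotency class n − 1 (that is, G is dihedral, semidihedral or generalized quaternion). -/
theorem result {G : Type*} [Group G] [Finite G] (hna : ¬ IsMulCommutative G) (n : ℕ) (hG : Nat.card G = 2 ^ n) :
    (∀ H : Subgroup G, ¬ IsCyclic ↥H → Subgroup.centralizer (H : Set G) ≤ H) ↔ (⊤ : Subgroup G).lowerCentralSeries (n - 2) ≠ ⊥ := by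
  have hna' : ¬ ∀ a b : G, a * b = b * a := fun h => hna ⟨⟨h⟩⟩
  exact ⟨forward hna' n hG, backward hna' n hG⟩

end Cfsg.Agent.S3919
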