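import Mathlib
import Cfsg.Statements.S3920
-- import your own Cfsg.Agent.* helpers here

set_option autoImplicit false
open Cfsg

namespace Cfsg.Agent.S3920

open DihedralGroup in
/-- the dihedral subgroup of multiples of `d` -/
def mulSub (n d : ℕ) : Subgroup (DihedralGroup n) where
  carrier := {x | ∃ a : ℤ, x = r ((d : ZMod n) * (a : ZMod n)) ∨ x = sr ((d : ZMod n) * (a : ZMod n))}
  one_mem' := ⟨0, Or.inl (by rw [Int.cast_zero, mul_zero]; rfl)⟩
  mul_mem' := by
    rintro x y ⟨a, rfl | rfl⟩ ⟨b, rfl | rfl⟩
    · exact ⟨a + b, Or.inl (by simp [mul_add])⟩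
    · exact ⟨b - a, Or.inr (by simp [mul_sub])⟩
    · exact ⟨a + b, Or.inr (by simp [mul_add])⟩
    · exact ⟨b - a, Or.inl (by simp [mul_sub])⟩
  inv_mem' := by
    rintro x ⟨a, rfl | rfl⟩
    · exact ⟨-a, Or.inl (by simp)⟩
    · exact ⟨a, Or.inr (by simp)⟩

theorem two_mul_zero_even (m : ℕ) (hm : 0 < m) (s : ZMod (2 * m)) (h : s + s = 0) : s = 0 ∨ s = (m : ZMod (2 * m)) := by
  haveI : NeZero (2 * m) := ⟨by omega⟩
  have h1 : ((s.val + s.val : ℕ) : ZMod (2 * m)) = 0 := by
    push_cast
    rw [ZMod.natCast_zmod_val]
    exact h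
  rw [ZMod.natCast_eq_zero_iff] at h1
  have h2 := ZMod.val_lt s
  obtain ⟨c, hc⟩ := h1
  have hc' : s.val = m * c := by
    have : 2 * s.val = 2 * (m * c) := by rw [two_mul, hc]; ring
    omega
  have hc2 : c < 2 := by
    by_contra hge
    have : 2 ≤ c := by omega
    have : m * 2 ≤ m * c := Nat.mul_le_mul_left m this
    omega
  interval_cases c
  · left
    have : s = ((s.val : ℕ) : ZMod (2 * m)) := (ZMod.natCast_zmod_val s).symm
    rw [this, hc']
    simp
  · right
    have : s = ((s.val : ℕ) : ZMod (2 * m)) := (ZMod.natCast_zmod_val s).symm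
    rw [this, hc']
    simp

theorem two_mul_zero_even' (n m : ℕ) (hnm : n = 2 * m) (hm : 0 < m) (s : ZMod n) (h : s + s = 0) : s = 0 ∨ s = (m : ZMod n) := by
  subst hnm
  exact two_mul_zero_even m hm s h

theorem two_mul_zero_odd (n : ℕ) (hn : Odd n) (s : ZMod n) (h : s + s = 0) : s = 0 := by
  obtain ⟨t, ht⟩ := hn
  have h6 : (((2 * t + 1 : ℕ)) : ZMod n) = 0 := by
    rw [← ht]
    exact ZMod.natCast_self n
  push_cast at h6
  linear_combination (-(t : ZMod n)) * h + s * h6


/-- Say that a group has self-centralizing non-cyclic subgroups when every non-cyclic subgroup H satisfies C_G(H) ≤ H. For n ≥ 3, the dihedral group of order 2n has self-centralizing non-cyclic subgroups if and only if n is odd or a power of 2. -/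
theorem result (n : ℕ) (hn : 3 ≤ n) : (∀ H : Subgroup (DihedralGroup n), ¬ IsCyclic ↥H → Subgroup.centralizer (H : Set (DihedralGroup n)) ≤ H) ↔ (Odd n ∨ ∃ k : ℕ, n = 2 ^ k) := by
  classical
  haveI : NeZero n := ⟨by omega⟩
  constructor
  · intro h
    by_contra hno
    push_neg at hno
    obtain ⟨hodd, hnp⟩ := hno
    have heven : Even n := Nat.not_odd_iff_even.mp hodd
    -- an odd prime divisor
    have hq : ∃ q : ℕ, q.Prime ∧ q ≠ 2 ∧ q ∣ n := by
      by_contra hno
      push_neg at hno
      apply hnp (n.primeFactorsList.length)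
      exact Nat.eq_prime_pow_of_unique_prime_dvd (by omega) (fun {r} hr hd => by
        by_contra hr2
        exact hno r hr hr2 hd)
    obtain ⟨q, hqp, hq2, d, rfl⟩ := hq
    obtain ⟨m, hm⟩ := heven
    have hd0 : d ≠ 0 := by
      rintro rfl
      simp at hn
    have hH : ¬ IsCyclic (mulSub (q * d) d) := by
      intro hc
      letI := IsCyclic.commGroup (α := mulSub (q * d) d)
      have hr : DihedralGroup.r ((d : ZMod (q * d)) * ((1 : ℤ) : ZMod (q * d))) ∈ mulSub (q * d) d := ⟨1, Or.inl rfl⟩
      have hs : DihedralGroup.sr ((d : ZMod (q * d)) * ((0 : ℤ) : ZMod (q * d))) ∈ mulSub (q * d) d := ⟨0, Or.inr rfl⟩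
      have h1 := mul_comm (⟨_, hr⟩ : mulSub (q * d) d) ⟨_, hs⟩
      have h2 := congrArg Subtype.val h1
      simp only [Subgroup.coe_mul, DihedralGroup.r_mul_sr, DihedralGroup.sr_mul_r, DihedralGroup.sr.injEq] at h2
      simp at h2
      have h3 : ((2 * d : ℕ) : ZMod (q * d)) = 0 := by
        push_cast
        linear_combination -h2
      rw [ZMod.natCast_eq_zero_iff] at h3
      have h4 : q ∣ 2 := Nat.dvd_of_mul_dvd_mul_right (Nat.pos_of_ne_zero hd0) h3
      rcases (Nat.dvd_prime Nat.prime_two).mp h4 with h5 | h5
      · exact hqp.one_lt.ne' h5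
      · exact hq2 h5
    have hz : DihedralGroup.r (m : ZMod (q * d)) ∈ Subgroup.centralizer ((mulSub (q * d) d : Subgroup _) : Set (DihedralGroup (q * d))) := by
      refine Subgroup.mem_centralizer_iff.mpr ?_
      have h2m : ((m : ZMod (q * d)) + m) = 0 := by
        have : ((m + m : ℕ) : ZMod (q * d)) = 0 := by
          rw [← hm]
          exact ZMod.natCast_self _
        simpa using this
      intro g _
      rcases g with i | i
      · simp [add_comm]
      · simp only [DihedralGroup.sr_mul_r, DihedralGroup.r_mul_sr, DihedralGroup.sr.injEq]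
        linear_combination h2m
    have hzH := h _ hH hz
    obtain ⟨a, ha | ha⟩ := hzH
    · simp only [DihedralGroup.r.injEq] at ha
      have h4 : ((m - d * a : ℤ) : ZMod (q * d)) = 0 := by
        push_cast
        rw [ha]
        ring
      rw [ZMod.intCast_zmod_eq_zero_iff_dvd] at h4
      obtain ⟨c, hc⟩ := h4
      push_cast at hc
      have h5 : (m : ℤ) = d * (q * c + a) := by
        have : (m : ℤ) = (m - d * a) + d * a := by ring
        rw [this, hc]
        ring
      have h6 : (q : ℤ) * d = 2 * (d * (q * c + a)) := by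
        have : ((q * d : ℕ) : ℤ) = (m : ℤ) + m := by
          rw [hm]
          push_cast
          ring
        push_cast at this
        rw [this, h5]
        ring
      have hd' : (d : ℤ) ≠ 0 := by exact_mod_cast hd0
      have h7 : (q : ℤ) = 2 * (q * c + a) := by
        apply mul_right_cancel₀ hd'
        rw [h6]
        ring
      have h8 : (2 : ℤ) ∣ q := ⟨_, h7⟩
      have h9 : 2 ∣ q := by exact_mod_cast h8
      rcases (Nat.dvd_prime hqp).mp h9 with h10 | h10
      · omega
      · exact hq2 h10.symm
    · cases ha
  · intro hn' H hH x hx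
    have hxc : ∀ h ∈ H, h * x = x * h := fun h hh => Subgroup.mem_centralizer_iff.mp hx h hh
    -- a reflection in `H`
    have hrefl : ∃ i, DihedralGroup.sr i ∈ H := by
      by_contra hno
      push_neg at hno
      apply hH
      have hle : H ≤ Subgroup.zpowers (DihedralGroup.r (1 : ZMod n)) := by
        intro g hg
        rcases g with i | i
        · refine ⟨(i.val : ℤ), ?_⟩
          change DihedralGroup.r 1 ^ ((i.val : ℤ)) = DihedralGroup.r i
          rw [DihedralGroup.r_one_zpow]
          simp
        · exact absurd hg (hno i)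
      exact isCyclic_of_injective (Subgroup.inclusion hle) (Subgroup.inclusion_injective hle)
    obtain ⟨i, hi⟩ := hrefl
    -- a nontrivial rotation in `H`
    have hrot : ∃ j, j ≠ 0 ∧ DihedralGroup.r j ∈ H := by
      by_contra hno
      push_neg at hno
      apply hH
      have hle : H ≤ Subgroup.zpowers (DihedralGroup.sr i) := by
        intro g hg
        rcases g with j | j
        · by_cases hj : j = 0
          · subst hj
            exact Subgroup.one_mem _
          · exact absurd hg (hno j hj)
        · have h1 := H.mul_mem hg hi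
          simp only [DihedralGroup.sr_mul_sr] at h1
          by_cases hj : i - j = 0
          · have : j = i := by linear_combination -hj
            rw [this]
            exact Subgroup.mem_zpowers _
          · exact absurd h1 (hno _ hj)
      exact isCyclic_of_injective (Subgroup.inclusion hle) (Subgroup.inclusion_injective hle)
    obtain ⟨j, hj0, hj⟩ := hrot
    have hsi := hxc _ hi
    have hrj := hxc _ hj
    rcases hn' with hodd | ⟨k, hk⟩
    · rcases x with t | t
      · simp only [DihedralGroup.sr_mul_r, DihedralGroup.r_mul_sr, DihedralGroup.sr.injEq] at hsi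
        have h2 : t + t = 0 := by linear_combination hsi
        have := two_mul_zero_odd n hodd t h2
        rw [this]
        exact Subgroup.one_mem _
      · simp only [DihedralGroup.sr_mul_r, DihedralGroup.r_mul_sr, DihedralGroup.sr.injEq] at hrj
        have h2 : j + j = 0 := by linear_combination -hrj
        exact absurd (two_mul_zero_odd n hodd j h2) hj0
    · subst hk
      obtain ⟨k', rfl⟩ : ∃ k', k = k' + 1 := by
        refine ⟨k - 1, ?_⟩
        have : k ≠ 0 := by
          rintro rfl
          simp at hn
        omega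
      have hm0 : 0 < 2 ^ k' := by positivity
      have h2m : 2 ^ (k' + 1) = 2 * 2 ^ k' := by ring
      have hzero : ∀ s : ZMod (2 ^ (k' + 1)), s + s = 0 → s = 0 ∨ s = ((2 ^ k' : ℕ) : ZMod (2 ^ (k' + 1))) := by
        intro s hs
        exact two_mul_zero_even' _ _ h2m hm0 s hs
      -- the central rotation lies in `H`
      have hg1 : DihedralGroup.r j ≠ 1 := by
        intro h
        apply hj0
        rw [DihedralGroup.one_def] at h
        exact DihedralGroup.r.inj h
      have hgp : (DihedralGroup.r j) ^ (2 ^ (k' + 1)) = 1 := by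
        rw [DihedralGroup.r_pow]
        have : (((2 ^ (k' + 1) : ℕ)) : ZMod (2 ^ (k' + 1))) = 0 := ZMod.natCast_self _
        rw [this, mul_zero]
        rfl
      obtain ⟨l, _, hl⟩ := (Nat.dvd_prime_pow Nat.prime_two).mp (orderOf_dvd_of_pow_eq_one hgp)
      have hl0 : l ≠ 0 := by
        rintro rfl
        rw [pow_zero] at hl
        exact hg1 (orderOf_eq_one_iff.mp hl)
      obtain ⟨l', rfl⟩ := Nat.exists_eq_succ_of_ne_zero hl0
      have hzH : DihedralGroup.r ((2 ^ k' : ℕ) : ZMod (2 ^ (k' + 1))) ∈ H := by
        have h1 : (DihedralGroup.r j) ^ (2 ^ l') ∈ H := H.pow_mem hj _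
        have hy1 : (DihedralGroup.r j) ^ (2 ^ l') ≠ 1 := by
          intro h
          have h3 := orderOf_dvd_of_pow_eq_one h
          rw [hl] at h3
          have h4 := (Nat.pow_dvd_pow_iff_le_right (by norm_num : 1 < 2)).mp h3
          omega
        have hy2 : (DihedralGroup.r j) ^ (2 ^ l') * (DihedralGroup.r j) ^ (2 ^ l') = 1 := by
          rw [← pow_add, ← two_mul, ← pow_succ', ← hl]
          exact pow_orderOf_eq_one _
        rw [DihedralGroup.r_pow] at h1 hy1 hy2
        simp only [DihedralGroup.r_mul_r] at hy2
        rw [DihedralGroup.one_def] at hy2 hy1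
        have hs := DihedralGroup.r.inj hy2
        rcases hzero _ hs with h0 | h0
        · exfalso
          rw [h0] at hy1
          exact hy1 rfl
        · rw [h0] at h1
          exact h1
      rcases x with t | t
      · simp only [DihedralGroup.sr_mul_r, DihedralGroup.r_mul_sr, DihedralGroup.sr.injEq] at hsi
        have h2 : t + t = 0 := by linear_combination hsi
        rcases hzero t h2 with h0 | h0
        · rw [h0]
          exact Subgroup.one_mem _
        · rw [h0]
          exact hzH
      · simp only [DihedralGroup.sr_mul_sr, DihedralGroup.r.injEq] at hsi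
        have h2 : (t - i) + (t - i) = 0 := by linear_combination hsi
        rcases hzero _ h2 with h0 | h0
        · have : t = i := by linear_combination h0
          rw [this]
          exact hi
        · have h3 : DihedralGroup.sr i * DihedralGroup.r ((2 ^ k' : ℕ) : ZMod (2 ^ (k' + 1))) = DihedralGroup.sr t := by
            rw [DihedralGroup.sr_mul_r, ← h0]
            congr 1
            ring
          rw [← h3]
          exact H.mul_mem hi hzH

end Cfsg.Agent.S3920
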