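import Mathlib
import Cfsg.Statements.S3937
import Cfsg.Agent.S0540
import Cfsg.Agent.Lib.SubnormalJoin
import Cfsg.Agent.Lib.Wielandt
import Cfsg.Agent.Lib.FitCore
-- import your own Cfsg.Agent.* helpers here

set_option autoImplicit false
open Cfsg

namespace Cfsg.Agent.S3937

universe u

open Cfsg.Agent.Lib.SubnormalJoin Subgroup
open scoped Pointwise commutatorElement

theorem fold_succ {G : Type*} [Group G] (g x : G) (n : ℕ) :
    (List.replicate (n + 1) g).foldl (fun a b => a * b * a⁻¹ * b⁻¹) x =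
      (List.replicate n g).foldl (fun a b => a * b * a⁻¹ * b⁻¹) (x * g * x⁻¹ * g⁻¹) := by
  simp [List.replicate_succ]

theorem fold_map {G H : Type*} [Group G] [Group H] (f : G →* H) (g : G) (n : ℕ) : ∀ x : G,
    f ((List.replicate n g).foldl (fun a b => a * b * a⁻¹ * b⁻¹) x) =
      (List.replicate n (f g)).foldl (fun a b => a * b * a⁻¹ * b⁻¹) (f x) := by
  induction n with
  | zero => intro x; simp
  | succ n ih =>
    intro x
    rw [fold_succ, fold_succ, ih]
    simp

def LEg {G : Type*} [Group G] (g : G) : Prop :=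
  ∀ x : G, ∃ n : ℕ, (List.replicate n g).foldl (fun a b => a * b * a⁻¹ * b⁻¹) x = 1

theorem LEg.conj {G : Type*} [Group G] {g : G} (hg : LEg g) (h : G) : LEg (h * g * h⁻¹) := by
  intro x
  obtain ⟨n, hn⟩ := hg (h⁻¹ * x * h)
  refine ⟨n, ?_⟩
  have := fold_map (MulAut.conj h).toMonoidHom g n (h⁻¹ * x * h)
  rw [hn] at this
  simp only [MulEquiv.coe_toMonoidHom, map_one, MulAut.conj_apply] at this
  rw [this]
  congr 1
  group

theorem LEg.sub {G : Type*} [Group G] {g : G} (hg : LEg g) (V : Subgroup G) (hV : g ∈ V) :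
    LEg (⟨g, hV⟩ : V) := by
  intro x
  obtain ⟨n, hn⟩ := hg x
  refine ⟨n, ?_⟩
  apply V.subtype_injective
  rw [fold_map]
  simpa using hn

theorem exists_step {G : Type*} [Group G] (g : G) (M : Subgroup G) (n : ℕ) : ∀ x : G,
    (List.replicate n g).foldl (fun a b => a * b * a⁻¹ * b⁻¹) x = 1 → x ∉ M →
      ∃ y, y ∉ M ∧ y * g * y⁻¹ * g⁻¹ ∈ M := by
  induction n with
  | zero =>
    intro x hx hxM
    simp only [List.replicate_zero, List.foldl_nil] at hx
    exact absurd (hx ▸ M.one_mem) hxM
  | succ n ih =>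
    intro x hx hxM
    rw [fold_succ] at hx
    by_cases h : x * g * x⁻¹ * g⁻¹ ∈ M
    · exact ⟨x, hxM, h⟩
    · exact ih _ hx h

theorem engel_subnormal : ∀ (n : ℕ) (G : Type u) [Group G] [Finite G], Nat.card G = n →
    ∀ g : G, LEg g → (zpowers g).IsSubnormal := by
  intro n
  induction n using Nat.strong_induction_on with
  | _ n ih =>
    intro G _ _ hn g hg
    by_contra hnot
    have IH : ∀ (V : Subgroup G), V ≠ ⊤ → ∀ a ∈ V, LEg a → ((zpowers a).subgroupOf V).IsSubnormal := by
      intro V hV a ha hLE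
      have hlt : Nat.card V < n := by
        rw [← hn]
        have h1 : V < ⊤ := lt_top_iff_ne_top.mpr hV
        have h2 := card_lt_of_lt' h1
        rwa [Subgroup.card_top] at h2
      have h3 := ih _ hlt V rfl ⟨a, ha⟩ (hLE.sub V ha)
      have h4 : zpowers (⟨a, ha⟩ : V) = (zpowers a).subgroupOf V := by
        ext x
        rw [Subgroup.mem_subgroupOf, Subgroup.mem_zpowers_iff, Subgroup.mem_zpowers_iff]
        constructor
        · rintro ⟨k, rfl⟩
          exact ⟨k, by simp⟩
        · rintro ⟨k, hk⟩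
          exact ⟨k, Subtype.ext (by simpa using hk)⟩
      rwa [h4] at h3
    set A : Subgroup G := zpowers g with hA
    have hAne : A ≠ ⊤ := by
      intro h
      apply hnot
      rw [h]
      exact Subgroup.IsSubnormal.top
    have hAcj : ∀ h : G, cj h A = zpowers (h * g * h⁻¹) := by
      intro h
      show A.map (MulAut.conj h).toMonoidHom = _
      rw [hA, MonoidHom.map_zpowers]
      rfl
    set U : Set (Subgroup G) := {V | V ≠ ⊤ ∧ A ≤ V} with hU
    set S : Subgroup G → Set (Subgroup G) :=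
      fun V => {B | (∃ h : G, B = MulAut.conj h • A) ∧ B ≤ V ∧ (B.subgroupOf V).IsSubnormal} with hS
    have hSN : ∀ V, ∀ B ∈ S V, SN V B := by
      intro V B hB
      exact (subgroupOf_isSubnormal_iff hB.2.1).mp hB.2.2
    have hSle : ∀ V, ∀ B ∈ S V, B ≤ V := fun V B hB => hB.2.1
    have h1 : ∀ V ∈ U, A ∈ S V := by
      intro V hV
      refine ⟨⟨1, ?_⟩, hV.2, IH V hV.1 g (hV.2 (Subgroup.mem_zpowers g)) hg⟩
      simp
    have h2 : ∀ V ∈ U, ∀ W ∈ U, ∀ B ∈ S W, B ≤ V → B ∈ S V := by
      intro V hV W _ B hB hBV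
      obtain ⟨⟨h, hh⟩, _, _⟩ := hB
      have hB' : B = zpowers (h * g * h⁻¹) := by
        rw [← hAcj, hh]
        rfl
      refine ⟨⟨h, hh⟩, hBV, ?_⟩
      rw [hB']
      apply IH V hV.1
      · apply hBV
        rw [hB']
        exact Subgroup.mem_zpowers _
      · exact hg.conj h
    have h3 : ∀ V ∈ U, ∀ W ∈ U, ∃ X ∈ U, Subgroup.normalizer ((sSup (S V ∩ S W) : Subgroup G) : Set G) ≤ X := by
      intro V hV W hW
      set T : Subgroup G := sSup (S V ∩ S W) with hT
      refine ⟨_, ⟨?_, ?_⟩, le_rfl⟩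
      · intro hN
        have hTV : T ≤ V := sSup_le fun B hB => hSle V B hB.1
        have hAT : A ≤ T := le_sSup ⟨h1 V hV, h1 W hW⟩
        have h4 : SN T A := (hSN V A (h1 V hV)).restrict' hTV hAT
        have h5 : SN ⊤ T := SN.of_normal le_top (by rw [hN])
        apply hnot
        exact isSubnormal_iff_SN.mpr (h5.trans h4)
      · have hAT : A ≤ T := le_sSup ⟨h1 V hV, h1 W hW⟩
        exact hAT.trans Subgroup.le_normalizer
    obtain ⟨M, ⟨hMne, hAM⟩, hM⟩ := Cfsg.Agent.S0540.result A U ⟨A, hAne, le_rfl⟩ S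
      (fun V B => Iff.rfl) h1 h2 h3
    have hgM : g ∈ M := hAM (Subgroup.mem_zpowers g)
    obtain ⟨x, hx⟩ : ∃ x, x ∉ M := by
      by_contra hall
      push Not at hall
      exact hMne (eq_top_iff.mpr fun x _ => hall x)
    obtain ⟨k, hk⟩ := hg x
    obtain ⟨y, hy, hyg⟩ := exists_step g M k x hk hx
    have hyg' : y * g * y⁻¹ ∈ M := by
      have := M.mul_mem hyg hgM
      simpa using this
    have hM' : cj y⁻¹ M ≠ ⊤ := by
      intro h
      apply hMne
      have := congrArg (cj y) h
      rw [← cj_mul] at this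
      simp only [mul_inv_cancel, cj_one] at this
      rw [this]
      ext z
      rw [mem_cj]
      simp
    have hAM' : A ≤ cj y⁻¹ M := by
      rw [hA, Subgroup.zpowers_le, mem_cj]
      simpa using hyg'
    have hle := hM _ ⟨hM', hAM'⟩
    have hcard : Nat.card (cj y⁻¹ M) = Nat.card M :=
      Nat.card_congr (Subgroup.equivMapOfInjective M _ (MulEquiv.injective _)).symm.toEquiv
    have heq : cj y⁻¹ M = M := Subgroup.eq_of_le_of_card_ge hle hcard.ge
    have hyN : y ∈ normalizer (M : Set G) := by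
      rw [mem_normalizer_iff]
      intro z
      have := mem_cj (g := y⁻¹) (x := z) (H := M)
      rw [heq] at this
      rw [this]
      simp
    have hNtop : normalizer (M : Set G) = ⊤ := by
      by_contra hne
      exact hy (hM _ ⟨hne, hAM.trans Subgroup.le_normalizer⟩ hyN)
    have h5 : SN ⊤ M := SN.of_normal le_top (by rw [hNtop])
    apply hnot
    exact isSubnormal_iff_SN.mpr (h5.trans (hSN M A (h1 M ⟨hMne, hAM⟩)))

/-- Baer's characterization of the Fitting subgroup: in a finite group G, an element g lies in the Fitting subgroup if and only if g is a left Engel element, that is, for every x there is n with [x, g, g, …, g] = 1 (n entries g, [a, b] = aba⁻¹b⁻¹). -/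
theorem result {G : Type*} [Group G] [Finite G] (g : G) :
    g ∈ Cfsg.fittingSubgroup G ↔ ∀ x : G, ∃ n : ℕ, (List.replicate n g).foldl (fun a b => a * b * a⁻¹ * b⁻¹) x = 1 := by
  constructor
  · intro hgF x
    haveI hFn : (Cfsg.fittingSubgroup G).Normal := Cfsg.Agent.Lib.FitCore.fitting_normal
    haveI hFnil : Group.IsNilpotent (Cfsg.fittingSubgroup G) := Cfsg.Agent.Lib.FitCore.fitting_isNilpotent
    set F := Cfsg.fittingSubgroup G with hF
    obtain ⟨c, hc⟩ := (Subgroup.nilpotent_iff_lowerCentralSeries (G := F)).mp hFnil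
    have hstep : ∀ (i : ℕ) (y : F), y ∈ (⊤ : Subgroup F).lowerCentralSeries i →
        y * ⟨g, hgF⟩ * y⁻¹ * (⟨g, hgF⟩ : F)⁻¹ ∈ (⊤ : Subgroup F).lowerCentralSeries (i + 1) := by
      intro i y hy
      rw [Subgroup.lowerCentralSeries_succ]
      apply Subgroup.subset_closure
      exact ⟨y, hy, ⟨g, hgF⟩, Subgroup.mem_top _, by rw [commutatorElement_def]⟩
    have hchain : ∀ (m : ℕ) (i : ℕ) (y : F), y ∈ (⊤ : Subgroup F).lowerCentralSeries i →
        (List.replicate m (⟨g, hgF⟩ : F)).foldl (fun a b => a * b * a⁻¹ * b⁻¹) y ∈ (⊤ : Subgroup F).lowerCentralSeries (i + m) := by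
      intro m
      induction m with
      | zero => intro i y hy; simpa using hy
      | succ m ih =>
        intro i y hy
        rw [fold_succ]
        have := ih (i + 1) _ (hstep i y hy)
        rwa [show i + 1 + m = i + (m + 1) by ring] at this
    have hxF : x * g * x⁻¹ * g⁻¹ ∈ F := by
      apply F.mul_mem _ (F.inv_mem hgF)
      exact hFn.conj_mem g hgF x
    refine ⟨c + 1, ?_⟩
    rw [fold_succ]
    have h1 := hchain c 0 ⟨_, hxF⟩ (by simp [Subgroup.lowerCentralSeries_zero])
    rw [zero_add, hc, Subgroup.mem_bot] at h1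
    have h2 := fold_map F.subtype ⟨g, hgF⟩ c ⟨_, hxF⟩
    rw [h1] at h2
    simpa using h2.symm
  · intro h
    have h1 := engel_subnormal _ G rfl g h
    haveI : Group.IsNilpotent (Subgroup.zpowers g) := by
      letI : CommGroup (Subgroup.zpowers g) := IsCyclic.commGroup
      exact CommGroup.isNilpotent
    exact Cfsg.Agent.Lib.Wielandt.le_fitting_of_subnormal _ G rfl _ h1 this (Subgroup.mem_zpowers g)

end Cfsg.Agent.S3937
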