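import Mathlib
import Cfsg.Statements.S3939
import Cfsg.Agent.Lib.H6Hughes
import Cfsg.Agent.Lib.BaerSuzuki
import Cfsg.Agent.Lib.ZJControl
import Cfsg.Agent.Lib.PResidual
-- import your own Cfsg.Agent.* helpers here

set_option autoImplicit false
open Cfsg

namespace Cfsg.Agent.S3939

open Cfsg Cfsg.Agent.Lib.H6Hughes
open scoped commutatorElement

universe u

section

variable {G : Type*} [Group G]

theorem mem_series_sub (H : Subgroup G) (n : ℕ) : ∀ y : H, (y : G) ∈ Subgroup.upperCentralSeries G n →
    y ∈ Subgroup.upperCentralSeries H n := by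
  induction n with
  | zero =>
    intro y hy
    have h1 : (y : G) = 1 := hy
    have h2 : y = 1 := Subtype.ext h1
    rw [h2]
    exact Subgroup.one_mem _
  | succ n ih =>
    intro y hy
    rw [Subgroup.mem_upperCentralSeries_succ_iff] at hy ⊢
    intro h
    apply ih
    have := hy (h : G)
    exact this

/-- The easy direction. -/
theorem nil_of_mem (x g : G) (n : ℕ) (hg : g ∈ Subgroup.upperCentralSeries G n) :
    Group.IsNilpotent (Subgroup.closure ({x, g} : Set G)) := by
  classical
  set H := Subgroup.closure ({x, g} : Set G) with hH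
  have hxH : x ∈ H := Subgroup.subset_closure (by simp)
  have hgH : g ∈ H := Subgroup.subset_closure (by simp)
  set Z := Subgroup.upperCentralSeries H n with hZ
  haveI : Z.Normal := inferInstance
  let xq : H ⧸ Z := ((⟨x, hxH⟩ : H) : H ⧸ Z)
  have hgZ : (⟨g, hgH⟩ : H) ∈ Z := mem_series_sub H n _ hg
  have hall : ∀ a (ha : a ∈ H), ((⟨a, ha⟩ : H) : H ⧸ Z) ∈ Subgroup.zpowers xq := by
    intro a ha
    induction ha using Subgroup.closure_induction with
    | mem y hy =>
      rw [Set.mem_insert_iff, Set.mem_singleton_iff] at hy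
      rcases hy with rfl | rfl
      · exact Subgroup.mem_zpowers _
      · have : ((⟨y, Subgroup.subset_closure (by simp)⟩ : H) : H ⧸ Z) = 1 :=
          (QuotientGroup.eq_one_iff _).2 hgZ
        rw [this]
        exact Subgroup.one_mem _
    | one =>
      exact Subgroup.one_mem _
    | mul a b ha hb iha ihb =>
      have : ((⟨a * b, Subgroup.mul_mem _ ha hb⟩ : H) : H ⧸ Z) = ((⟨a, ha⟩ : H) : H ⧸ Z) * ((⟨b, hb⟩ : H) : H ⧸ Z) := rfl
      rw [this]
      exact Subgroup.mul_mem _ iha ihb
    | inv a ha iha =>
      have : ((⟨a⁻¹, Subgroup.inv_mem _ ha⟩ : H) : H ⧸ Z) = ((⟨a, ha⟩ : H) : H ⧸ Z)⁻¹ := rfl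
      rw [this]
      exact Subgroup.inv_mem _ iha
  refine ⟨n + 1, ?_⟩
  rw [eq_top_iff]
  intro a _
  rw [Subgroup.mem_upperCentralSeries_succ_iff]
  intro b
  rw [← QuotientGroup.eq_one_iff, commutatorElement_def]
  obtain ⟨i, hi⟩ := hall a a.2
  obtain ⟨j, hj⟩ := hall b b.2
  have ha' : (a : H ⧸ Z) = xq ^ i := hi.symm
  have hb' : (b : H ⧸ Z) = xq ^ j := hj.symm
  simp only [QuotientGroup.mk_mul, QuotientGroup.mk_inv]
  rw [ha', hb']
  have hc : Commute (xq ^ i) (xq ^ j) := (Commute.refl xq).zpow_zpow i j
  rw [hc.eq]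
  group

end

section

variable {G : Type u} [Group G] [Finite G]

theorem key (p : ℕ) [hp : Fact p.Prime] (g : G) (a : ℕ) (hga : g ^ p ^ a = 1) (hne : g ≠ 1)
    (hnil : ∀ x, Group.IsNilpotent (Subgroup.closure ({x, g} : Set G))) : Subgroup.center G ≠ ⊥ := by
  classical
  -- `p`-elements in nilpotent subgroups
  have hX : IsPGroup p (Subgroup.zpowers g) := isPGroup_zpowers g a hga
  have hconj : ∀ y : G, IsPGroup p ↥(Subgroup.zpowers g ⊔ (Subgroup.zpowers g).map (MulAut.conj y).toMonoidHom) := by
    intro y
    set w := y * g * y⁻¹ with hw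
    have hwp : w ^ p ^ a = 1 := by
      rw [hw, conj_pow, hga]
      simp
    haveI := hnil w
    set H := Subgroup.closure ({w, g} : Set G) with hH
    have hwH : w ∈ H := Subgroup.subset_closure (by simp)
    have hgH : g ∈ H := Subgroup.subset_closure (by simp)
    obtain ⟨P⟩ : Nonempty (Sylow p H) := inferInstance
    haveI hPn : (P : Subgroup H).Normal := inferInstance
    have hmemP : ∀ (u : H), (∃ k : ℕ, u ^ p ^ k = 1) → u ∈ (P : Subgroup H) := by
      rintro u ⟨k, hk⟩
      have h1 : u ^ (P : Subgroup H).index ∈ (P : Subgroup H) := by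
        rw [← QuotientGroup.eq_one_iff, QuotientGroup.mk_pow]
        exact pow_card_eq_one'
      refine mem_of_pow_coprime _ u _ ?_ h1
      refine Nat.Coprime.coprime_dvd_right (orderOf_dvd_of_pow_eq_one hk) (Nat.Coprime.pow_right _ ?_)
      exact Nat.Coprime.symm ((Nat.Prime.coprime_iff_not_dvd hp.out).2 P.not_dvd_index)
    have hQp : IsPGroup p ((P : Subgroup H).map H.subtype) := P.isPGroup'.map H.subtype
    refine hQp.to_le ?_
    refine sup_le ?_ ?_
    · rw [Subgroup.zpowers_le]
      exact ⟨⟨g, hgH⟩, hmemP _ ⟨a, Subtype.ext hga⟩, rfl⟩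
    · rw [Subgroup.map_le_iff_le_comap, Subgroup.zpowers_le]
      exact ⟨⟨w, hwH⟩, hmemP _ ⟨a, Subtype.ext hwp⟩, rfl⟩
  have hXO := Cfsg.Agent.Lib.BaerSuzuki.le_pCore_of_conj (Subgroup.zpowers g) hX hconj
  have hgO : g ∈ pCore p G := hXO (Subgroup.mem_zpowers g)
  -- the subgroup generated by the `p'`-elements
  set K₀ := Subgroup.closure {x : G | ¬ p ∣ orderOf x} with hK₀
  haveI hK₀n : K₀.Normal := by
    constructor
    intro n hn c
    induction hn using Subgroup.closure_induction with
    | mem x hx =>
      apply Subgroup.subset_closure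
      show ¬ p ∣ orderOf (c * x * c⁻¹)
      rw [order_of_conj]
      exact hx
    | one => simpa using Subgroup.one_mem _
    | mul x y _ _ hx hy =>
      have : c * (x * y) * c⁻¹ = (c * x * c⁻¹) * (c * y * c⁻¹) := by group
      rw [this]
      exact Subgroup.mul_mem _ hx hy
    | inv x _ hx =>
      have : c * x⁻¹ * c⁻¹ = (c * x * c⁻¹)⁻¹ := by group
      rw [this]
      exact Subgroup.inv_mem _ hx
  have hK₀p : IsPGroup p (G ⧸ K₀) := by
    intro x
    induction x using QuotientGroup.induction_on with
    | H x =>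
      obtain ⟨b, m, hm, he⟩ := Nat.exists_eq_pow_mul_and_not_dvd (orderOf_pos x).ne' p hp.out.ne_one
      refine ⟨b, ?_⟩
      rw [← QuotientGroup.mk_pow, QuotientGroup.eq_one_iff]
      apply Subgroup.subset_closure
      show ¬ p ∣ orderOf (x ^ p ^ b)
      have h1 : orderOf (x ^ p ^ b) = m := by
        rw [orderOf_pow' x (pow_ne_zero _ hp.out.ne_zero)]
        rw [he, Nat.gcd_eq_right (Dvd.intro _ rfl), Nat.mul_div_cancel_left _ (pow_pos hp.out.pos _)]
      rw [h1]
      exact hm
  have hgC : g ∈ Subgroup.centralizer (K₀ : Set G) := by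
    rw [Subgroup.mem_centralizer_iff]
    intro x hx
    induction hx using Subgroup.closure_induction with
    | mem x hx =>
      haveI := hnil x
      set H := Subgroup.closure ({x, g} : Set G) with hH
      have hxH : x ∈ H := Subgroup.subset_closure (by simp)
      have hgH : g ∈ H := Subgroup.subset_closure (by simp)
      have h1 : Commute (⟨g, hgH⟩ : H) (⟨x, hxH⟩ : H) :=
        commute_of_nilpotent (p := p) _ _ ⟨a, Subtype.ext hga⟩ (by
          rw [Subgroup.orderOf_mk]
          exact hx)
      exact (congrArg Subtype.val h1).symm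
    | one => simp
    | mul x y _ _ hx hy =>
      calc x * y * g = x * (y * g) := by group
        _ = x * (g * y) := by rw [hy]
        _ = (x * g) * y := by group
        _ = (g * x) * y := by rw [hx]
        _ = g * (x * y) := by group
    | inv x _ hx =>
      calc x⁻¹ * g = x⁻¹ * (g * x) * x⁻¹ := by group
        _ = x⁻¹ * (x * g) * x⁻¹ := by rw [hx]
        _ = g * x⁻¹ := by group
  haveI hOn : (pCore p G).Normal := Cfsg.Agent.Lib.FitCore.pCore_normal p
  set D : Subgroup G := Subgroup.centralizer (K₀ : Set G) ⊓ pCore p G with hD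
  haveI hDn : D.Normal := Subgroup.normal_inf_normal _ _
  obtain ⟨P⟩ : Nonempty (Sylow p G) := inferInstance
  have hDP : D ≤ (P : Subgroup G) := inf_le_right.trans (Cfsg.Agent.Lib.FitCore.pCore_le_sylow p P)
  have hDne : D ≠ ⊥ := by
    intro h0
    have : g ∈ D := ⟨hgC, hgO⟩
    rw [h0, Subgroup.mem_bot] at this
    exact hne this
  obtain ⟨z, hzD, hz1, _, hzP⟩ := Cfsg.Agent.Lib.ZJControl.inf_center_ne_bot P
    (D := D) ⟨hDP, fun a ha t _ => hDn.conj_mem a ha t⟩ hDne
  have htop := Cfsg.Agent.Lib.PResidual.sup_sylow_eq_top_of_isPGroup_quotient hK₀p P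
  have hzc : ∀ y : G, y * z = z * y := by
    have hle : K₀ ⊔ (P : Subgroup G) ≤ Subgroup.centralizer ({z} : Set G) := by
      refine sup_le ?_ ?_
      · intro k hk
        rw [Subgroup.mem_centralizer_singleton_iff]
        have := Subgroup.mem_centralizer_iff.1 hzD.1 k hk
        exact this
      · intro s hs
        rw [Subgroup.mem_centralizer_singleton_iff]
        exact hzP s hs
    intro y
    have hy : y ∈ Subgroup.centralizer ({z} : Set G) := hle (by rw [htop]; trivial)
    rw [Subgroup.mem_centralizer_singleton_iff] at hy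
    exact hy
  intro h0
  have hzz : z ∈ Subgroup.center G := Subgroup.mem_center_iff.2 (fun y => hzc y)
  rw [h0, Subgroup.mem_bot] at hzz
  exact hz1 hzz

end

theorem main_thm : ∀ (N : ℕ) (G : Type u) [Group G] [Finite G], Nat.card G = N → ∀ g : G,
    (∀ x, Group.IsNilpotent (Subgroup.closure ({x, g} : Set G))) → ∃ n, g ∈ Subgroup.upperCentralSeries G n := by
  intro N
  induction N using Nat.strong_induction_on with
  | _ N IH =>
    intro G _ _ hN g hnil
    classical
    by_cases hz : Subgroup.center G = ⊥
    · refine ⟨0, ?_⟩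
      show g ∈ (⊥ : Subgroup G)
      rw [Subgroup.mem_bot]
      by_contra hg
      have ho : orderOf g ≠ 1 := fun h => hg (orderOf_eq_one_iff.1 h)
      obtain ⟨p, hp, hpd⟩ := Nat.exists_prime_and_dvd ho
      haveI : Fact p.Prime := ⟨hp⟩
      obtain ⟨a, m, hm, he⟩ := Nat.exists_eq_pow_mul_and_not_dvd (orderOf_pos g).ne' p hp.ne_one
      have ha : a ≠ 0 := by
        rintro rfl
        rw [pow_zero, one_mul] at he
        exact hm (he ▸ hpd)
      have hg'a : (g ^ m) ^ p ^ a = 1 := by
        rw [← pow_mul, mul_comm, ← he]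
        exact pow_orderOf_eq_one g
      have hg'ne : g ^ m ≠ 1 := by
        intro h0
        have h1 := orderOf_dvd_of_pow_eq_one h0
        rw [he] at h1
        have h2 : p ^ a ∣ m := (Dvd.intro _ rfl : p ^ a ∣ p ^ a * m).trans h1
        exact hm ((dvd_pow_self p ha).trans h2)
      refine key p (g ^ m) a hg'a hg'ne ?_ hz
      intro x
      haveI := hnil x
      have hle : Subgroup.closure ({x, g ^ m} : Set G) ≤ Subgroup.closure ({x, g} : Set G) := by
        rw [Subgroup.closure_le]
        intro y hy
        rw [Set.mem_insert_iff, Set.mem_singleton_iff] at hy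
        rcases hy with rfl | rfl
        · exact Subgroup.subset_closure (by simp)
        · exact Subgroup.pow_mem _ (Subgroup.subset_closure (by simp)) _
      exact nilpotent_of_injective (Subgroup.inclusion hle) (Subgroup.inclusion_injective hle)
    · have hlt : Nat.card (G ⧸ Subgroup.center G) < N := by
        rw [← hN, Subgroup.card_eq_card_quotient_mul_card_subgroup (Subgroup.center G)]
        have h1 : 1 < Nat.card (Subgroup.center G) := (Subgroup.one_lt_card_iff_ne_bot _).2 hz
        have h2 : 0 < Nat.card (G ⧸ Subgroup.center G) := Nat.card_pos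
        nlinarith
      obtain ⟨n, hn⟩ := IH _ hlt (G ⧸ Subgroup.center G) rfl (g : G ⧸ Subgroup.center G) (by
        intro xq
        induction xq using QuotientGroup.induction_on with
        | H x =>
          haveI := hnil x
          have h1 : (Subgroup.closure ({x, g} : Set G)).map (QuotientGroup.mk' (Subgroup.center G)) =
              Subgroup.closure ({(x : G ⧸ Subgroup.center G), (g : G ⧸ Subgroup.center G)} : Set (G ⧸ Subgroup.center G)) := by
            rw [MonoidHom.map_closure, Set.image_pair]
            rfl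
          rw [← h1]
          have hs : Function.Surjective ((QuotientGroup.mk' (Subgroup.center G)).subgroupMap (Subgroup.closure ({x, g} : Set G))) :=
            MonoidHom.subgroupMap_surjective _ _
          exact nilpotent_of_surjective _ hs)
      refine ⟨n + 1, ?_⟩
      rw [← Subgroup.comap_upperCentralSeries_quotient_center]
      exact hn


/-- In a finite group G the set of elements g such that the subgroup generated by g and x is nilpotent for every x ∈ G is exactly the hypercenter of G (the last term of the upper central series). -/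
theorem result {G : Type*} [Group G] [Finite G] (g : G) :
    (∀ x : G, Group.IsNilpotent ↥(Subgroup.closure ({x, g} : Set G))) ↔ g ∈ ⨆ n : ℕ, Subgroup.upperCentralSeries G n := by
  constructor
  · intro h
    obtain ⟨n, hn⟩ := main_thm _ G rfl g h
    exact Subgroup.mem_iSup_of_mem n hn
  · intro h x
    have hdir : Directed (· ≤ ·) (fun n : ℕ => Subgroup.upperCentralSeries G n) :=
      (upperCentralSeries_mono G).directed_le
    obtain ⟨n, hn⟩ := (Subgroup.mem_iSup_of_directed hdir).1 h
    exact nil_of_mem x g n hn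

end Cfsg.Agent.S3939
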