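import Mathlib
import Cfsg.Statements.S3941
-- import your own Cfsg.Agent.* helpers here

set_option autoImplicit false
open Cfsg

namespace Cfsg.Agent.S3941

theorem aux_perm (n p : ℕ) (hn : 5 ≤ n) (hpp : p.Prime) (hp : p ≠ 2) (hlt : p < n) (l : Fin n) (hl : l.val = n - 1) :
    ∃ σ τ : Equiv.Perm (Fin n), σ ^ p = 1 ∧ τ ^ p = 1 ∧ σ ≠ 1 ∧ τ ≠ 1 ∧ σ l = l ∧ τ l = l ∧
      ∃ q : ℕ, q.Prime ∧ q ≠ p ∧ orderOf (σ * τ) = q := by
  classical
  by_cases hp3 : p = 3
  · subst hp3
    -- explicit elements of `S₄`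
    let σ₀ : Equiv.Perm (Fin 4) := Equiv.swap 0 1 * Equiv.swap 1 2
    let τ₀ : Equiv.Perm (Fin 4) := Equiv.swap 0 1 * Equiv.swap 1 3
    have h1 : σ₀ ^ 3 = 1 := by decide
    have h2 : τ₀ ^ 3 = 1 := by decide
    have h3 : σ₀ ≠ 1 := by decide
    have h4 : τ₀ ≠ 1 := by decide
    have h5 : (σ₀ * τ₀) ^ 2 = 1 := by decide
    have h6 : σ₀ * τ₀ ≠ 1 := by decide
    let ι : Fin 4 ↪ Fin n := Fin.castLEEmb (by omega)
    let φ := Equiv.Perm.viaEmbeddingHom ι
    have hinj : Function.Injective φ := Equiv.Perm.viaEmbeddingHom_injective ι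
    have hlr : l ∉ Set.range ι := by
      rintro ⟨x, hx⟩
      have := congrArg Fin.val hx
      simp only [ι, Fin.castLEEmb_apply, Fin.val_castLE] at this
      have := x.isLt
      omega
    refine ⟨φ σ₀, φ τ₀, ?_, ?_, ?_, ?_, ?_, ?_, 2, Nat.prime_two, by norm_num, ?_⟩
    · rw [← map_pow, h1, map_one]
    · rw [← map_pow, h2, map_one]
    · intro h
      exact h3 (hinj (by rw [h, map_one]))
    · intro h
      exact h4 (hinj (by rw [h, map_one]))
    · exact Equiv.Perm.viaEmbedding_apply_of_notMem _ _ _ hlr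
    · exact Equiv.Perm.viaEmbedding_apply_of_notMem _ _ _ hlr
    · rw [← map_mul, orderOf_injective φ hinj]
      exact orderOf_eq_prime h5 h6
  · -- `p ≥ 5`
    have hp5 : 5 ≤ p := by
      have h2 := hpp.two_le
      have : p ≠ 4 := by
        rintro rfl
        norm_num at hpp
      omega
    haveI : NeZero p := ⟨hpp.ne_zero⟩
    obtain ⟨m, rfl⟩ : ∃ m, p = m + 5 := ⟨p - 5, by omega⟩
    let σ₀ : Equiv.Perm (Fin (m + 5)) := finRotate (m + 5)
    have hord : orderOf σ₀ = m + 5 := by
      rw [← Equiv.Perm.lcm_cycleType, cycleType_finRotate_of_le (by omega)]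
      simp
    let a : Fin (m + 5) := 0
    let b : Fin (m + 5) := σ₀ a
    let c : Fin (m + 5) := σ₀⁻¹ a
    have hb : b = 1 := by
      change finRotate (m + 5) 0 = 1
      simp
    have hab : a ≠ b := by
      rw [hb]
      exact Fin.zero_ne_one
    have hac : a ≠ c := by
      intro h
      apply hab
      change a = σ₀ a
      have : σ₀ c = a := by simp [c]
      rw [← h] at this
      exact this.symm
    have hbc : b ≠ c := by
      intro h
      have h1 : σ₀ c = a := by simp [c]
      rw [← h] at h1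
      have h2 : σ₀ b = 2 := by
        rw [hb]
        change finRotate (m + 5) 1 = 2
        simp
        rfl
      rw [h2] at h1
      have h4 := congrArg Fin.val h1
      have h5 : ((2 : Fin (m + 5)) : ℕ) = 2 := by simp [Fin.val_two]
      have h6 : (a : ℕ) = 0 := rfl
      omega
    let t := Equiv.swap a b
    let τ₀ : Equiv.Perm (Fin (m + 5)) := t * σ₀ * t⁻¹
    have hσ₀1 : σ₀ ≠ 1 := by
      intro h
      rw [h, orderOf_one] at hord
      omega
    have hτ₀1 : τ₀ ≠ 1 := by
      intro h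
      apply hσ₀1
      have : σ₀ = t⁻¹ * τ₀ * t := by
        change σ₀ = t⁻¹ * (t * σ₀ * t⁻¹) * t
        group
      rw [this, h]
      group
    have hprod : σ₀⁻¹ * τ₀ = Equiv.swap a c * Equiv.swap a b := by
      have h1 : Equiv.swap c a = (σ₀⁻¹) * t * (σ₀⁻¹)⁻¹ := by
        have h2 := Equiv.swap_apply_apply (σ₀⁻¹) a b
        have h3 : (σ₀⁻¹) b = a := by simp [b]
        rw [h3] at h2
        exact h2
      rw [Equiv.swap_comm a c, h1]
      change σ₀⁻¹ * (t * σ₀ * t⁻¹) = (σ₀⁻¹ * t * σ₀⁻¹⁻¹) * t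
      have : t⁻¹ = t := Equiv.swap_inv a b
      rw [this]
      group
    have h3c : (Equiv.swap a c * Equiv.swap a b).IsThreeCycle :=
      Equiv.Perm.isThreeCycle_swap_mul_swap_same hac hab hbc.symm
    let ι : Fin (m + 5) ↪ Fin n := Fin.castLEEmb (by omega)
    let φ := Equiv.Perm.viaEmbeddingHom ι
    have hinj : Function.Injective φ := Equiv.Perm.viaEmbeddingHom_injective ι
    have hlr : l ∉ Set.range ι := by
      rintro ⟨x, hx⟩
      have := congrArg Fin.val hx
      simp only [ι, Fin.castLEEmb_apply, Fin.val_castLE] at this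
      have := x.isLt
      omega
    have hσp : σ₀ ^ (m + 5) = 1 := orderOf_dvd_iff_pow_eq_one.mp (dvd_of_eq hord)
    refine ⟨φ σ₀⁻¹, φ τ₀, ?_, ?_, ?_, ?_, ?_, ?_, 3, Nat.prime_three, by omega, ?_⟩
    · rw [← map_pow, inv_pow, hσp, inv_one, map_one]
    · rw [← map_pow, conj_pow, hσp]
      simp
    · intro h
      apply hσ₀1
      have h1 : σ₀⁻¹ = 1 := hinj (by rw [h, map_one])
      exact inv_eq_one.mp h1
    · intro h
      exact hτ₀1 (hinj (by rw [h, map_one]))
    · exact Equiv.Perm.viaEmbedding_apply_of_notMem _ _ _ hlr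
    · exact Equiv.Perm.viaEmbedding_apply_of_notMem _ _ _ hlr
    · rw [← map_mul, orderOf_injective φ hinj, hprod]
      exact h3c.orderOf


/-- Let n ≥ 5 and p an odd prime with p ≤ n, and suppose that every proper subgroup of the alternating group of degree n whose order is divisible by p has a normal Sylow p-subgroup. Then n = p. -/
theorem result (n p : ℕ) (hn : 5 ≤ n) [Fact p.Prime] (hp : p ≠ 2) (hpn : p ≤ n)
    (h : ∀ H : Subgroup ↥(alternatingGroup (Fin n)), H ≠ ⊤ → p ∣ Nat.card ↥H → Cfsg.IsPClosed p ↥H) : n = p := by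
  classical
  by_contra hne
  have hpp : p.Prime := Fact.out
  have hlt : p < n := lt_of_le_of_ne hpn (fun h => hne h.symm)
  let l : Fin n := ⟨n - 1, by omega⟩
  obtain ⟨σ, τ, hσ, hτ, hσ1, hτ1, hσl, hτl, q, hq, hqp, hord⟩ := aux_perm n p hn hpp hp hlt l rfl
  have hsign : ∀ x : Equiv.Perm (Fin n), x ^ p = 1 → x ∈ alternatingGroup (Fin n) := by
    intro x hx
    rw [Equiv.Perm.mem_alternatingGroup]
    have h1 : (Equiv.Perm.sign x) ^ p = 1 := by rw [← map_pow, hx, map_one]
    rcases Int.units_eq_one_or (Equiv.Perm.sign x) with h2 | h2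
    · exact h2
    · rw [h2] at h1
      have hodd : Odd p := hpp.odd_of_ne_two hp
      rw [hodd.neg_one_pow] at h1
      exact absurd h1 (by decide)
  let H : Subgroup ↥(alternatingGroup (Fin n)) :=
    (MulAction.stabilizer (Equiv.Perm (Fin n)) l).subgroupOf (alternatingGroup (Fin n))
  have hHmem : ∀ x : ↥(alternatingGroup (Fin n)), x ∈ H ↔ (x : Equiv.Perm (Fin n)) l = l := by
    intro x
    rw [Subgroup.mem_subgroupOf, MulAction.mem_stabilizer_iff]
    rfl
  let σ' : ↥(alternatingGroup (Fin n)) := ⟨σ, hsign σ hσ⟩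
  let τ' : ↥(alternatingGroup (Fin n)) := ⟨τ, hsign τ hτ⟩
  have hσH : σ' ∈ H := (hHmem _).mpr hσl
  have hτH : τ' ∈ H := (hHmem _).mpr hτl
  have hHtop : H ≠ ⊤ := by
    intro ht
    -- a moving element
    let a : Fin n := ⟨0, by omega⟩
    let b : Fin n := ⟨1, by omega⟩
    have hal : a ≠ l := by
      intro h
      have := congrArg Fin.val h
      simp [a, l] at this
      omega
    have hbl : b ≠ l := by
      intro h
      have := congrArg Fin.val h
      simp [b, l] at this
      omega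
    have hab : a ≠ b := by
      intro h
      have := congrArg Fin.val h
      simp [a, b] at this
    let w : Equiv.Perm (Fin n) := Equiv.swap l a * Equiv.swap a b
    have hw : w ∈ alternatingGroup (Fin n) := by
      rw [Equiv.Perm.mem_alternatingGroup, map_mul, Equiv.Perm.sign_swap hal.symm, Equiv.Perm.sign_swap hab]
      rfl
    have h1 : (⟨w, hw⟩ : ↥(alternatingGroup (Fin n))) ∈ H := by rw [ht]; trivial
    have h2 := (hHmem _).mp h1
    change w l = l at h2
    change (Equiv.swap l a) ((Equiv.swap a b) l) = l at h2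
    rw [Equiv.swap_apply_of_ne_of_ne hal.symm hbl.symm, Equiv.swap_apply_left] at h2
    exact hal h2
  let σH : ↥H := ⟨σ', hσH⟩
  let τH : ↥H := ⟨τ', hτH⟩
  have hσHp : σH ^ p = 1 := by
    apply Subtype.ext
    apply Subtype.ext
    exact hσ
  have hτHp : τH ^ p = 1 := by
    apply Subtype.ext
    apply Subtype.ext
    exact hτ
  have hσHo : orderOf σH = p := by
    apply orderOf_eq_prime hσHp
    intro h
    apply hσ1
    have := congrArg (fun x : ↥H => ((x : ↥(alternatingGroup (Fin n))) : Equiv.Perm (Fin n))) h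
    exact this
  have hd : p ∣ Nat.card ↥H := by
    rw [← hσHo]
    exact orderOf_dvd_natCard σH
  have hclosed := h H hHtop hd
  let P : Sylow p ↥H := default
  haveI hPn : (P : Subgroup ↥H).Normal := hclosed P
  have hmem : ∀ x : ↥H, x ^ p = 1 → x ∈ (P : Subgroup ↥H) := by
    intro x hx
    have hq' : IsPGroup p (Subgroup.zpowers x) := by
      rcases (Nat.dvd_prime hpp).mp (orderOf_dvd_of_pow_eq_one hx) with h6 | h6
      · exact IsPGroup.of_card (n := 0) (by rw [Nat.card_zpowers, h6, pow_zero])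
      · exact IsPGroup.of_card (n := 1) (by rw [Nat.card_zpowers, h6, pow_one])
    obtain ⟨Q, hQ⟩ := hq'.exists_le_sylow
    letI := Sylow.unique_of_normal P hPn
    have : Q = P := Subsingleton.elim _ _
    subst this
    exact hQ (Subgroup.mem_zpowers x)
  have h1 := hmem σH hσHp
  have h2 := hmem τH hτHp
  have h3 := (P : Subgroup ↥H).mul_mem h1 h2
  obtain ⟨k, hk⟩ := P.isPGroup' ⟨σH * τH, h3⟩
  have hk' : (σH * τH) ^ (p ^ k) = 1 := by simpa using congrArg Subtype.val hk
  have hk'' : (σ * τ) ^ (p ^ k) = 1 := by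
    have := congrArg (fun x : ↥H => ((x : ↥(alternatingGroup (Fin n))) : Equiv.Perm (Fin n))) hk'
    exact this
  have h4 := orderOf_dvd_of_pow_eq_one hk''
  rw [hord] at h4
  have h5 := hq.dvd_of_dvd_pow h4
  exact hqp ((Nat.prime_dvd_prime_iff_eq hq hpp).mp h5)

end Cfsg.Agent.S3941
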