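import Mathlib
import Cfsg.Statements.S3946
import Cfsg.Agent.Lib.H6Hughes
-- import your own Cfsg.Agent.* helpers here

set_option autoImplicit false
open Cfsg

namespace Cfsg.Agent.S3946

open Cfsg.Agent.Lib.H6Hughes in
theorem aux {G : Type*} [Group G] [Finite G] (α : MulAut G) (p : ℕ) [hp : Fact p.Prime] (hpo : orderOf α = p)
    (hsplit : ∀ x : G, (((List.range p).map (fun i : ℕ => (α ^ i) x)).prod = 1)) : Group.IsNilpotent G := by
  classical
  let ρ : Subgroup.zpowers α →* MulAut G := (Subgroup.zpowers α).subtype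
  let Γ := SemidirectProduct G (Subgroup.zpowers α) ρ
  let a : Subgroup.zpowers α := ⟨α, Subgroup.mem_zpowers α⟩
  haveI : Finite (Subgroup.zpowers α) := by
    haveI : Finite (MulAut G) := inferInstance
    infer_instance
  haveI : Finite Γ := Finite.of_equiv _ (SemidirectProduct.equivProd).symm
  have hpow : ∀ (g : G) (n : ℕ), ((⟨g, a⟩ : Γ) ^ n) =
      ⟨((List.range n).map (fun i : ℕ => (α ^ i) g)).prod, a ^ n⟩ := by
    intro g n
    induction n with
    | zero => rfl
    | succ n ih =>
      rw [pow_succ, ih, List.range_succ, List.map_append, List.prod_append]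
      refine SemidirectProduct.ext ?_ ?_
      · simp [ρ, a, pow_succ]
      · show a ^ n * a = a ^ (n + 1)
        rw [pow_succ]
  have hap : a ^ p = 1 := Subtype.ext (by
    show α ^ p = 1
    rw [← hpo]
    exact pow_orderOf_eq_one α)
  have h1 : ∀ g : G, ((⟨g, a⟩ : Γ) ^ p) = 1 := by
    intro g
    rw [hpow, hsplit, hap]
    rfl
  have hinv : ∀ j : ℕ, ¬ p ∣ j → ∃ m : ℕ, ∀ z : Γ, z ^ p = 1 → (z ^ j) ^ m = z := by
    intro j hj
    have hjp : Nat.Coprime j p := Nat.Coprime.symm ((Nat.Prime.coprime_iff_not_dvd hp.out).2 hj)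
    obtain ⟨m, -, hm⟩ := Nat.exists_mul_mod_eq_one_of_coprime hjp hp.out.one_lt
    refine ⟨m, fun z hz => ?_⟩
    rw [← pow_mul, pow_eq_pow_mod _ hz, hm, pow_one]
  have h2 : ∀ x : Γ, x.right ≠ 1 → x ^ p = 1 := by
    intro x hx
    obtain ⟨j, hj⟩ : ∃ j : ℕ, x.right = a ^ j := by
      obtain ⟨k, hk⟩ := x.right.2
      have h3 : (x.right : MulAut G) ∈ Submonoid.powers α :=
        (mem_powers_iff_mem_zpowers).2 x.right.2
      obtain ⟨j, hj⟩ := h3
      exact ⟨j, Subtype.ext hj.symm⟩
    have hpj : ¬ p ∣ j := by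
      rintro ⟨c, rfl⟩
      apply hx
      rw [hj, pow_mul, hap, one_pow]
    obtain ⟨m, hm⟩ := hinv j hpj
    let f : G → G := fun g => ((⟨g, a⟩ : Γ) ^ j).left
    have hfr : ∀ g : G, ((⟨g, a⟩ : Γ) ^ j).right = a ^ j := by
      intro g
      rw [hpow]
    have hfi : Function.Injective f := by
      intro g g' he
      have h3 : ((⟨g, a⟩ : Γ) ^ j) = ((⟨g', a⟩ : Γ) ^ j) :=
        SemidirectProduct.ext he (by rw [hfr, hfr])
      have h4 := hm _ (h1 g)
      have h5 := hm _ (h1 g')
      rw [h3, h5] at h4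
      exact (congrArg SemidirectProduct.left h4).symm
    obtain ⟨g, hg⟩ := (Finite.injective_iff_surjective.1 hfi) x.left
    have h3 : x = ((⟨g, a⟩ : Γ) ^ j) := SemidirectProduct.ext hg.symm (by rw [hfr, hj])
    rw [h3, ← pow_mul, mul_comm, pow_mul, h1, one_pow]
  let G₀ : Subgroup Γ := (SemidirectProduct.rightHom : Γ →* Subgroup.zpowers α).ker
  have hmem : ∀ x : Γ, x ∈ G₀ ↔ x.right = 1 := fun x => by
    rw [MonoidHom.mem_ker]
    rfl
  have hH : Hyp p G₀ := by
    refine ⟨MonoidHom.normal_ker _, ?_, ?_⟩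
    · rw [Subgroup.index_ker, MonoidHom.range_eq_top.2 SemidirectProduct.rightHom_surjective,
        Nat.card_congr Subgroup.topEquiv.toEquiv, Nat.card_zpowers, hpo]
    · intro x hx
      exact h2 x (fun h0 => hx ((hmem x).2 h0))
  have hn := hughes_main (p := p) _ Γ rfl G₀ hH
  let ι : G →* G₀ := (SemidirectProduct.inl : G →* Γ).codRestrict G₀ (fun g => by
    rw [hmem]
    rfl)
  refine nilpotent_of_injective ι ?_
  intro x y he
  have h3 : ((ι x : G₀) : Γ) = ι y := congrArg Subtype.val he
  exact SemidirectProduct.inl_injective h3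


/-- Call an automorphism α of order n of a group G splitting when x · α(x) · α²(x) ⋯ α^(n−1)(x) = 1 for every x ∈ G. A finite group admitting a splitting automorphism of prime order is nilpotent (this contains the case of a fixed-point-free automorphism of prime order). -/
theorem result {G : Type*} [Group G] [Finite G] (α : MulAut G) (hp : (orderOf α).Prime)
    (hsplit : ∀ x : G, (((List.range (orderOf α)).map (fun i : ℕ => (α ^ i) x)).prod = 1)) : Group.IsNilpotent G := by
  haveI : Fact (orderOf α).Prime := ⟨hp⟩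
  exact aux α (orderOf α) rfl hsplit

end Cfsg.Agent.S3946
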