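import Cfsg.Statements.S3949
-- import your own Cfsg.Agent.* helpers here

set_option autoImplicit false
open Cfsg

namespace Cfsg.Agent.S3949

/-- Let G be a finite group and α an automorphism of G of order 2 such that the elements g·α(g)⁻¹ generate G. Let j be a positive integer such that 2^j divides the order of no element inverted by α. Then the set of values of the j-th iterate of the map c ↦ c·α(c)⁻¹ is exactly the set of elements of odd order inverted by α. -/
theorem result {G : Type*} [Group G] [Finite G] (α : MulAut G) (hα : orderOf α = 2) (hG : Subgroup.closure (Set.range (fun c : G => c * (α c)⁻¹)) = ⊤)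
    (j : ℕ) (hj : ∀ g : G, α g = g⁻¹ → ¬ 2 ^ j ∣ orderOf g) :
    Set.range ((fun c : G => c * (α c)⁻¹)^[j]) = {g : G | Odd (orderOf g) ∧ α g = g⁻¹} := by
  classical
  have hα2 : ∀ g : G, α (α g) = g := by
    intro g
    have h1 : α ^ 2 = 1 := by rw [← hα]; exact pow_orderOf_eq_one α
    have h2 : (α ^ 2) g = g := by rw [h1]; rfl
    simpa [pow_two] using h2
  let f : G → G := fun c => c * (α c)⁻¹
  have hfI : ∀ c, α (f c) = (f c)⁻¹ := by
    intro c
    simp only [f, map_mul, map_inv, hα2, mul_inv_rev, inv_inv]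
  have hfsq : ∀ g, α g = g⁻¹ → f g = g ^ 2 := by
    intro g hg
    simp only [f, hg, inv_inv, pow_two]
  have hit : ∀ (g : G) (n : ℕ), α g = g⁻¹ → f^[n] g = g ^ (2 ^ n) ∧ α (g ^ (2 ^ n)) = (g ^ (2 ^ n))⁻¹ := by
    intro g n hg
    induction n with
    | zero =>
      simpa using hg
    | succ n ih =>
      rw [Function.iterate_succ_apply', ih.1, hfsq _ ih.2]
      refine ⟨by rw [← pow_mul, pow_succ], ?_⟩
      rw [pow_succ, pow_mul, map_pow, ih.2, inv_pow]
  have hj0 : j ≠ 0 := by
    rintro rfl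
    exact hj 1 (by simp) (by simp)
  obtain ⟨i, rfl⟩ := Nat.exists_eq_succ_of_ne_zero hj0
  ext g
  simp only [Set.mem_range, Set.mem_ofPred_eq]
  constructor
  · rintro ⟨c, rfl⟩
    have hc : (fun c : G => c * (α c)⁻¹)^[i.succ] c = (f c) ^ (2 ^ i) := by
      rw [Function.iterate_succ_apply]
      exact (hit (f c) i (hfI c)).1
    rw [hc]
    refine ⟨?_, (hit (f c) i (hfI c)).2⟩
    -- the order is odd
    set u := f c with hu
    have hu1 : ¬ 2 ^ (i + 1) ∣ orderOf u := hj u (hfI c)
    have hupos : 0 < orderOf u := orderOf_pos u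
    obtain ⟨a, m, hm, hord⟩ := Nat.exists_eq_pow_mul_and_not_dvd hupos.ne' 2 (by norm_num)
    rw [hord] at hu1
    have hale : a ≤ i := by
      by_contra hlt
      apply hu1
      exact (pow_dvd_pow 2 (by omega)).trans (dvd_mul_right _ _)
    have hmodd : Odd m := by
      rw [← Nat.not_even_iff_odd, even_iff_two_dvd]
      exact hm
    have hpow : (u ^ 2 ^ i) ^ m = 1 := by
      obtain ⟨b, rfl⟩ := Nat.exists_eq_add_of_le hale
      calc (u ^ 2 ^ (a + b)) ^ m = (u ^ (2 ^ a * m)) ^ (2 ^ b) := by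
            rw [← pow_mul, ← pow_mul]
            congr 1
            rw [pow_add]
            ring
        _ = 1 := by rw [← hord, pow_orderOf_eq_one, one_pow]
    exact hmodd.of_dvd_nat (orderOf_dvd_of_pow_eq_one hpow)
  · rintro ⟨hodd, hinv⟩
    -- roots: `g = (g ^ e) ^ 2 ^ (i+1)` for suitable `e`
    have hcop : (2 ^ (i + 1)).Coprime (orderOf g) := by
      apply Nat.Coprime.pow_left
      exact (Nat.Prime.coprime_iff_not_dvd Nat.prime_two).mpr (by rw [← even_iff_two_dvd, Nat.not_even_iff_odd]; exact hodd)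
    obtain ⟨m, hm⟩ := exists_pow_eq_self_of_coprime hcop
    refine ⟨g ^ m, ?_⟩
    have h1 : α (g ^ m) = (g ^ m)⁻¹ := by rw [map_pow, hinv, inv_pow]
    have h2 := (hit (g ^ m) (i + 1) h1).1
    change f^[i + 1] (g ^ m) = g
    rw [h2, ← pow_mul, mul_comm, pow_mul, hm]

end Cfsg.Agent.S3949
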