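import Mathlib
import Cfsg.Statements.S3982
import Cfsg.Agent.Lib.H5Basic
import Cfsg.Agent.Lib.SchurZ2
-- import your own Cfsg.Agent.* helpers here

set_option autoImplicit false
open Cfsg

namespace Cfsg.Agent.S3982

/-- Let p be an odd prime and G a finite group of even order divisible by p in which the centralizer of every non-identity p-element has odd order. If some nontrivial p-subgroup of G has a normalizer of even order, then the normalizer of every Sylow p-subgroup of G has even order. -/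
theorem result {G : Type*} [Group G] [Finite G] (p : ℕ) [Fact p.Prime] (hp2 : p ≠ 2) (hpG : p ∣ Nat.card G) (h2G : 2 ∣ Nat.card G) (hC : ∀ g : G, g ≠ 1 → (∃ k : ℕ, orderOf g = p ^ k) → Odd (Nat.card ↥(Subgroup.centralizer ({g} : Set G)))) (Q : Subgroup G) (hQ : IsPGroup p ↥Q) (hQ1 : Q ≠ ⊥) (hev : Even (Nat.card ↥(Subgroup.normalizer (Q : Set G)))) (P : Sylow p G) : Even (Nat.card ↥(Subgroup.normalizer ((P : Subgroup G) : Set G))) := by
  classical
  have hpp : p.Prime := Fact.out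
  have hpodd : Odd p := hpp.odd_of_ne_two hp2
  -- maximal choice
  let F : Set (Subgroup G) := {R | IsPGroup p R ∧ R ≠ ⊥ ∧ Even (Nat.card ↥(Subgroup.normalizer (R : Set G)))}
  have hQF : Q ∈ F := ⟨hQ, hQ1, hev⟩
  obtain ⟨Q₀, -, hQmax⟩ := (Set.toFinite F).exists_le_maximal hQF
  obtain ⟨hQ₀p, hQ₀1, hQ₀e⟩ := hQmax.prop
  clear hQ hQ1 hev hQF
  -- an involution
  have h2d : 2 ∣ Nat.card ↥(Subgroup.normalizer (Q₀ : Set G)) := even_iff_two_dvd.mp hQ₀e
  haveI : Fact (Nat.Prime 2) := ⟨Nat.prime_two⟩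
  obtain ⟨y0, hy0⟩ := exists_prime_orderOf_dvd_card' 2 h2d
  let y : G := y0
  have hyN : y ∈ Subgroup.normalizer (Q₀ : Set G) := y0.2
  have hyo : orderOf y = 2 := (Subgroup.orderOf_coe y0).trans hy0
  have hy2 : y * y = 1 := by
    rw [← pow_two, ← hyo]
    exact pow_orderOf_eq_one y
  have hyinv : y⁻¹ = y := inv_eq_of_mul_eq_one_left hy2
  -- `p`-elements in `Q₀`
  have hQpow : ∀ g ∈ Q₀, ∃ k : ℕ, orderOf g = p ^ k := by
    intro g hg
    obtain ⟨k, hk⟩ := IsPGroup.iff_orderOf.mp hQ₀p ⟨g, hg⟩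
    exact ⟨k, by rw [← hk, Subgroup.orderOf_mk]⟩
  have hfix : ∀ g ∈ Q₀, y * g * y⁻¹ = g → g = 1 := by
    intro g hg hgy
    by_contra hg1
    have h1 := hC g hg1 (hQpow g hg)
    have h2 : y ∈ Subgroup.centralizer ({g} : Set G) := by
      refine Subgroup.mem_centralizer_iff.mpr ?_
      rintro u rfl
      have : y * u = u * y := by
        calc y * u = y * u * y⁻¹ * y := by group
          _ = u * y := by rw [hgy]
      exact this.symm
    have h3 : orderOf (⟨y, h2⟩ : Subgroup.centralizer ({g} : Set G)) ∣ Nat.card (Subgroup.centralizer ({g} : Set G)) := orderOf_dvd_natCard _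
    rw [Subgroup.orderOf_mk, hyo] at h3
    exact (Nat.not_even_iff_odd.mpr h1) (even_iff_two_dvd.mpr h3)
  have hconjQ : ∀ g ∈ Q₀, y * g * y⁻¹ ∈ Q₀ := fun g hg => (Subgroup.mem_normalizer_iff.mp hyN g).mp hg
  -- `y` inverts `Q₀`
  have hinv : ∀ g ∈ Q₀, y * g * y⁻¹ = g⁻¹ := by
    let f : ↥Q₀ → ↥Q₀ := fun g => ⟨g.1⁻¹ * (y * g.1 * y⁻¹), Q₀.mul_mem (Q₀.inv_mem g.2) (hconjQ g.1 g.2)⟩
    have hfinj : Function.Injective f := by
      intro a b hab
      have h1 : a.1⁻¹ * (y * a.1 * y⁻¹) = b.1⁻¹ * (y * b.1 * y⁻¹) := congrArg Subtype.val hab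
      have h2 : y * (b.1 * a.1⁻¹) * y⁻¹ = b.1 * a.1⁻¹ := by
        have h3 : y * b.1 * y⁻¹ = b.1 * (a.1⁻¹ * (y * a.1 * y⁻¹)) := by
          rw [h1]; group
        calc y * (b.1 * a.1⁻¹) * y⁻¹ = (y * b.1 * y⁻¹) * (y * a.1 * y⁻¹)⁻¹ := by group
          _ = b.1 * (a.1⁻¹ * (y * a.1 * y⁻¹)) * (y * a.1 * y⁻¹)⁻¹ := by rw [h3]
          _ = b.1 * a.1⁻¹ := by group
      have h4 := hfix _ (Q₀.mul_mem b.2 (Q₀.inv_mem a.2)) h2
      apply Subtype.ext
      exact (mul_inv_eq_one.mp h4).symm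
    have hfsurj : Function.Surjective f := Finite.injective_iff_surjective.mp hfinj
    intro g hg
    obtain ⟨k, hk⟩ := hfsurj ⟨g, hg⟩
    have h1 : k.1⁻¹ * (y * k.1 * y⁻¹) = g := congrArg Subtype.val hk
    rw [← h1]
    have h2 : y * (y * k.1 * y⁻¹) * y⁻¹ = k.1 := by
      calc y * (y * k.1 * y⁻¹) * y⁻¹ = (y * y) * k.1 * (y * y)⁻¹ := by group
        _ = k.1 := by rw [hy2]; simp
    calc y * (k.1⁻¹ * (y * k.1 * y⁻¹)) * y⁻¹ = (y * k.1⁻¹ * y⁻¹) * (y * (y * k.1 * y⁻¹) * y⁻¹) := by group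
      _ = (y * k.1⁻¹ * y⁻¹) * k.1 := by rw [h2]
      _ = (k.1⁻¹ * (y * k.1 * y⁻¹))⁻¹ := by group
  -- the centralizer
  let D : Subgroup G := Subgroup.centralizer (Q₀ : Set G)
  have hDmem : ∀ a, a ∈ D ↔ ∀ g ∈ Q₀, a * g = g * a := by
    intro a
    constructor
    · intro ha g hg
      exact (Subgroup.mem_centralizer_iff.mp ha g hg).symm
    · intro ha
      refine Subgroup.mem_centralizer_iff.mpr ?_
      intro g hg
      exact (ha g hg).symm
  have hDN : ∀ a ∈ D, a ∈ Subgroup.normalizer (Q₀ : Set G) := by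
    intro a ha
    rw [Subgroup.mem_normalizer_iff]
    intro g
    have hc : ∀ g ∈ Q₀, a * g * a⁻¹ = g := by
      intro g hg
      rw [(hDmem a).mp ha g hg]
      group
    constructor
    · intro hg
      rw [hc g hg]
      exact hg
    · intro hg
      have h1 := hc _ hg
      have h2 : a * (a * g * a⁻¹) * a⁻¹ = a * g * a⁻¹ := h1
      have h3 : a * g * a⁻¹ = g := by
        apply mul_left_cancel (a := a)
        apply mul_right_cancel (b := a⁻¹)
        exact h2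
      rwa [h3] at hg
  have hDconj : ∀ m ∈ Subgroup.normalizer (Q₀ : Set G), ∀ a ∈ D, m * a * m⁻¹ ∈ D := by
    intro m hm a ha
    rw [hDmem]
    intro g hg
    have h1 : m⁻¹ * g * m ∈ Q₀ := by
      have := (Subgroup.mem_normalizer_iff.mp (Subgroup.inv_mem _ hm) g).mp hg
      simpa using this
    have h2 := (hDmem a).mp ha _ h1
    calc m * a * m⁻¹ * g = m * (a * (m⁻¹ * g * m)) * m⁻¹ := by group
      _ = m * ((m⁻¹ * g * m) * a) * m⁻¹ := by rw [h2]
      _ = g * (m * a * m⁻¹) := by group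
  -- the commutators of `y` lie in `D`
  have hcomm : ∀ t ∈ Subgroup.normalizer (Q₀ : Set G), y * t * y⁻¹ * t⁻¹ ∈ D := by
    intro t ht
    rw [hDmem]
    intro g hg
    have h1 : t⁻¹ * g * t ∈ Q₀ := by
      have := (Subgroup.mem_normalizer_iff.mp (Subgroup.inv_mem _ ht) g).mp hg
      simpa using this
    have h2 := hinv _ h1
    -- `y⁻¹` acts as `y`
    have h3 : y⁻¹ * (t⁻¹ * g * t) * y = (t⁻¹ * g * t)⁻¹ := by
      have := h2
      rw [hyinv] at this ⊢
      exact this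
    have h4 := hinv g⁻¹ (Q₀.inv_mem hg)
    rw [inv_inv] at h4
    have h5 : y * t * y⁻¹ * t⁻¹ * g = y * t * (y⁻¹ * (t⁻¹ * g * t) * y) * y⁻¹ * t⁻¹ := by group
    rw [h5, h3]
    have h6 : y * t * (t⁻¹ * g * t)⁻¹ * y⁻¹ * t⁻¹ = y * g⁻¹ * y⁻¹ * (y * t * y⁻¹ * t⁻¹) := by group
    rw [h6, h4]
  -- a Sylow subgroup above `Q₀`
  obtain ⟨P₀, hQP₀⟩ := hQ₀p.exists_le_sylow
  by_cases hQeq : (P₀ : Subgroup G) = Q₀
  · -- finished
    have h1 : (Subgroup.normalizer ((P : Subgroup G) : Set G)).index = (Subgroup.normalizer ((P₀ : Subgroup G) : Set G)).index := by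
      exact (Sylow.card_eq_index_normalizer P).symm.trans (Sylow.card_eq_index_normalizer P₀)
    have h2 := (Subgroup.normalizer ((P : Subgroup G) : Set G)).card_mul_index
    have h3 := (Subgroup.normalizer ((P₀ : Subgroup G) : Set G)).card_mul_index
    rw [h1, ← h3] at h2
    have hpos : 0 < (Subgroup.normalizer ((P₀ : Subgroup G) : Set G)).index := Nat.pos_of_ne_zero Subgroup.index_ne_zero_of_finite
    have h4 := Nat.eq_of_mul_eq_mul_right hpos h2
    rw [h4, hQeq]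
    exact hQ₀e
  exfalso
  obtain ⟨t, htP, htQ, htN⟩ := Cfsg.Agent.Lib.H5Basic.exists_mem_normalizer_of_lt P₀.isPGroup' hQP₀ (fun h => hQeq h.symm)
  obtain ⟨b, hb⟩ : ∃ b : ℕ, orderOf t = p ^ b := by
    obtain ⟨k, hk⟩ := IsPGroup.iff_orderOf.mp P₀.isPGroup' ⟨t, htP⟩
    exact ⟨k, by rw [← hk, Subgroup.orderOf_mk]⟩
  let K : Subgroup G := D ⊔ Subgroup.zpowers t
  have hDK : D ≤ K := le_sup_left
  have htK : t ∈ K := (le_sup_right : Subgroup.zpowers t ≤ K) (Subgroup.mem_zpowers t)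
  have htND : t ∈ Subgroup.normalizer (D : Set G) := by
    apply Cfsg.Agent.Lib.H5Basic.mem_normalizer_of_map_conj_le
    rintro _ ⟨a, ha, rfl⟩
    exact hDconj t htN a ha
  have hKN : K ≤ Subgroup.normalizer (Q₀ : Set G) := by
    apply sup_le
    · exact hDN
    · rw [Subgroup.zpowers_le]
      exact htN
  have hKcard : Nat.card K ∣ Nat.card D * p ^ b := by
    have h1 := Cfsg.Agent.Lib.SchurZ2.card_sup_mul_card_inf D (Subgroup.zpowers t) (by
      rw [Subgroup.zpowers_le]; exact htND)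
    rw [Nat.card_zpowers, hb] at h1
    rw [← h1]
    exact dvd_mul_right _ _
  have hDodd : Odd (Nat.card D) := by
    obtain ⟨g₁, hg₁⟩ := Subgroup.ne_bot_iff_exists_ne_one.mp hQ₀1
    have hg₀ : g₁.1 ∈ Q₀ := g₁.2
    have hg₀1 : g₁.1 ≠ 1 := fun e => hg₁ (Subtype.ext e)
    set g₀ := g₁.1
    have h1 := hC g₀ hg₀1 (hQpow g₀ hg₀)
    have hle : D ≤ Subgroup.centralizer ({g₀} : Set G) := by
      intro a ha
      refine Subgroup.mem_centralizer_iff.mpr ?_
      intro u hu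
      have hu' : u = g₀ := hu
      rw [hu']
      exact ((hDmem a).mp ha g₀ hg₀).symm
    exact Odd.of_dvd_nat h1 (Subgroup.card_dvd_of_le hle)
  have hKodd : Odd (Nat.card K) := by
    apply Odd.of_dvd_nat _ hKcard
    exact hDodd.mul (hpodd.pow)
  -- `y` normalizes `K`
  have hyK : y ∈ Subgroup.normalizer (K : Set G) := by
    apply Cfsg.Agent.Lib.H5Basic.mem_normalizer_of_map_conj_le
    change (D ⊔ Subgroup.zpowers t).map _ ≤ _
    rw [Subgroup.map_sup]
    apply sup_le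
    · rintro _ ⟨a, ha, rfl⟩
      exact hDK (hDconj y hyN a ha)
    · rintro _ ⟨q, hq, rfl⟩
      obtain ⟨i, rfl⟩ := Subgroup.mem_zpowers_iff.mp hq
      change y * t ^ i * y⁻¹ ∈ K
      rw [← conj_zpow]
      apply K.zpow_mem
      have h1 : y * t * y⁻¹ = (y * t * y⁻¹ * t⁻¹) * t := by group
      rw [h1]
      exact K.mul_mem (hDK (hcomm t htN)) htK
  have hAK : Subgroup.zpowers y ≤ Subgroup.normalizer (K : Set G) := by
    rw [Subgroup.zpowers_le]
    exact hyK
  have hcop : Nat.Coprime (Nat.card K) (Nat.card (Subgroup.zpowers y)) := by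
    rw [Nat.card_zpowers, hyo]
    exact hKodd.coprime_two_right
  have hQab : ∀ a ∈ Q₀, ∀ b ∈ Q₀, a * b = b * a := by
    intro a ha b hb
    have h1 := hinv (a * b) (Q₀.mul_mem ha hb)
    have h2 : y * (a * b) * y⁻¹ = (y * a * y⁻¹) * (y * b * y⁻¹) := by group
    rw [h2, hinv a ha, hinv b hb, mul_inv_rev] at h1
    have h3 := congrArg (fun x => x⁻¹) h1
    simp only [mul_inv_rev, inv_inv] at h3
    exact h3.symm
  have hQK' : Q₀ ≤ K := by
    intro g hg
    apply hDK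
    rw [hDmem]
    intro g' hg'
    exact hQab g hg g' hg'
  have hsolv : Group.IsSolvable (Subgroup.zpowers y) := by
    apply Group.isSolvable_of_comm
    rintro ⟨a, ha⟩ ⟨b, hb⟩
    obtain ⟨i, rfl⟩ := Subgroup.mem_zpowers_iff.mp ha
    obtain ⟨j, rfl⟩ := Subgroup.mem_zpowers_iff.mp hb
    apply Subtype.ext
    exact ((Commute.refl y).zpow_zpow i j).eq
  obtain ⟨S, hQS, hSN⟩ := Cfsg.Agent.Lib.SchurZ2.exists_invariant_sylow_ge (Subgroup.zpowers y) K hAK hcop (Or.inr hsolv) Q₀ hQK' hQ₀p (by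
    rw [Subgroup.zpowers_le]; exact hyN)
  let R : Subgroup G := (S : Subgroup K).map K.subtype
  have hRp : IsPGroup p R := S.isPGroup'.map K.subtype
  have hyR : y ∈ Subgroup.normalizer (R : Set G) := hSN (Subgroup.mem_zpowers y)
  have hRF : R ∈ F := by
    refine ⟨hRp, ?_, ?_⟩
    · intro h
      apply hQ₀1
      rw [eq_bot_iff, ← h]
      exact hQS
    · apply even_iff_two_dvd.mpr
      have h3 : orderOf (⟨y, hyR⟩ : Subgroup.normalizer (R : Set G)) ∣ Nat.card (Subgroup.normalizer (R : Set G)) := orderOf_dvd_natCard _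
      rwa [Subgroup.orderOf_mk, hyo] at h3
  have hRQ : R ≤ Q₀ := hQmax.le_of_ge hRF hQS
  have hSmem : ∀ k : K, k ∈ (S : Subgroup K) ↔ k.1 ∈ Q₀ := by
    intro k
    constructor
    · intro hk
      exact hRQ ⟨k, hk, rfl⟩
    · intro hk
      obtain ⟨s, hs, hse⟩ := hQS hk
      have : s = k := Subtype.ext hse
      rwa [← this]
  haveI hSn : (S : Subgroup K).Normal := by
    constructor
    intro k hk u
    rw [hSmem] at hk ⊢
    exact (Subgroup.mem_normalizer_iff.mp (hKN u.2) k.1).mp hk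
  let t' : K := ⟨t, htK⟩
  have ht'p : IsPGroup p (Subgroup.zpowers t') := by
    apply IsPGroup.of_card (n := b)
    rw [Nat.card_zpowers, Subgroup.orderOf_mk, hb]
  obtain ⟨S', hS'⟩ := ht'p.exists_le_sylow
  letI := Sylow.unique_of_normal S hSn
  have hS'S : S' = S := Subsingleton.elim _ _
  subst hS'S
  have h1 : t' ∈ (S' : Subgroup K) := hS' (Subgroup.mem_zpowers t')
  exact htQ ((hSmem t').mp h1)

end Cfsg.Agent.S3982
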