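import Cfsg.Statements.S3983
import Cfsg.Agent.Lib.SylowTI

set_option autoImplicit false
open scoped Pointwise
open Cfsg

namespace Cfsg.Agent.S3983

open Cfsg.Agent.Lib.SylowTI in
theorem key {G : Type*} [Group G] [Finite G] (p : ℕ) [Fact p.Prime]
    (hpw : ∀ R S : Sylow p G, R ≠ S → (R : Subgroup G) ⊓ (S : Subgroup G) = ⊥) (U : Subgroup G)
    (Q1 Q2 : Sylow p ↥U) (h : Q1 ≠ Q2) : (Q1 : Subgroup ↥U) ⊓ (Q2 : Subgroup ↥U) = ⊥ := by
  obtain ⟨R1, hR1⟩ := (Q1.2.map U.subtype).exists_le_sylow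
  obtain ⟨R2, hR2⟩ := (Q2.2.map U.subtype).exists_le_sylow
  have hinj : Function.Injective U.subtype := U.subtype_injective
  have h1 : (R1 : Subgroup G).comap U.subtype = Q1 :=
    Q1.3 (R1.2.comap_of_injective U.subtype hinj) (Subgroup.map_le_iff_le_comap.1 hR1)
  have h2 : (R2 : Subgroup G).comap U.subtype = Q2 :=
    Q2.3 (R2.2.comap_of_injective U.subtype hinj) (Subgroup.map_le_iff_le_comap.1 hR2)
  have hne : R1 ≠ R2 := by
    rintro rfl
    apply h
    exact Sylow.ext (h1.symm.trans h2)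
  have h3 := hpw R1 R2 hne
  rw [eq_bot_iff]
  intro x hx
  rw [Subgroup.mem_inf, ← h1, ← h2] at hx
  have : (x : G) ∈ (R1 : Subgroup G) ⊓ (R2 : Subgroup G) := ⟨hx.1, hx.2⟩
  rw [h3, Subgroup.mem_bot] at this
  rw [Subgroup.mem_bot]
  exact Subtype.ext this

/-- Let P be a Sylow p-subgroup of the finite group G that meets each conjugate g P g⁻¹ with g outside N_G(P) trivially, and let U be a subgroup of G of order divisible by p. Then a Sylow p-subgroup Q of U has the same property inside U: Q meets each conjugate u Q u⁻¹ with u ∈ U outside N_U(Q) trivially. -/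
theorem result {G : Type*} [Group G] [Finite G] (p : ℕ) [Fact p.Prime] (P : Sylow p G) (hTI : ∀ g : G, g ∉ Subgroup.normalizer ((P : Subgroup G) : Set G) → (P : Subgroup G) ⊓ (MulAut.conj g • (P : Subgroup G)) = ⊥) (U : Subgroup G) (hU : p ∣ Nat.card ↥U) (Q : Sylow p ↥U) : ∀ u : ↥U, u ∉ Subgroup.normalizer ((Q : Subgroup ↥U) : Set ↥U) → (Q : Subgroup ↥U) ⊓ (MulAut.conj u • (Q : Subgroup ↥U)) = ⊥ := by
  intro u hu
  have hpw := Cfsg.Agent.Lib.SylowTI.ti_pairwise P hTI
  have hne : u • Q ≠ Q := fun e => hu (Cfsg.Agent.Lib.SylowTI.smul_eq_self_iff.1 e)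
  have := key p hpw U (u • Q) Q hne
  rw [inf_comm]
  exact this

end Cfsg.Agent.S3983
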