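import Cfsg.Statements.S3984
import Cfsg.Agent.Lib.SylowTI

set_option autoImplicit false
open scoped Pointwise
open Cfsg

namespace Cfsg.Agent.S3984

open Cfsg.Agent.Lib.SylowTI

theorem conj_of_mem_sup {G : Type*} [Group G] [Finite G] (p : ℕ) [Fact p.Prime]
    (N : Subgroup G) [N.Normal] (R : Sylow p G) {x : G} {a : ℕ} (hpow : x ^ (p ^ a) = 1)
    (hx : x ∈ (R : Subgroup G) ⊔ N) : ∃ n ∈ N, x ∈ ((n • R : Sylow p G) : Subgroup G) := by
  obtain ⟨K, hK⟩ : ∃ K : Subgroup G, K = (R : Subgroup G) ⊔ N := ⟨_, rfl⟩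
  rw [← hK] at hx
  have hRK : (R : Subgroup G) ≤ K := hK ▸ le_sup_left
  let R' : Sylow p K := R.subtype hRK
  have hxK : (⟨x, hx⟩ : K) ^ (p ^ a) = 1 := Subtype.ext (by simpa using hpow)
  obtain ⟨T, hT⟩ := exists_sylow_of_pelt hxK
  obtain ⟨k, rfl⟩ := MulAction.exists_smul_eq K R' T
  rw [mem_smul] at hT
  have hT' : (k : G)⁻¹ * x * (k : G) ∈ (R : Subgroup G) := by
    have := hT
    rw [show ((R' : Subgroup K)) = (R : Subgroup G).subgroupOf K from rfl, Subgroup.mem_subgroupOf] at this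
    simpa using this
  have hk : (k : G) ∈ N ⊔ (R : Subgroup G) := by
    rw [sup_comm]; exact hK ▸ k.2
  rw [Subgroup.mem_sup_of_normal_left] at hk
  obtain ⟨n, hn, r, hr, hnr⟩ := hk
  refine ⟨n, hn, ?_⟩
  rw [mem_smul]
  rw [← hnr] at hT'
  have h1 : n⁻¹ * x * n = r * ((n * r)⁻¹ * x * (n * r)) * r⁻¹ := by group
  rw [h1]
  exact (R : Subgroup G).mul_mem ((R : Subgroup G).mul_mem hr hT') ((R : Subgroup G).inv_mem hr)

/-- Let P be a Sylow p-subgroup of the finite group G that meets each conjugate g P g⁻¹ with g outside N_G(P) trivially, and let N be a normal subgroup of G of order prime to p. Then every Sylow p-subgroup Q of G ⧸ N meets each conjugate x Q x⁻¹ with x outside its normalizer trivially. -/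
theorem result {G : Type*} [Group G] [Finite G] (p : ℕ) [Fact p.Prime] (P : Sylow p G) (hTI : ∀ g : G, g ∉ Subgroup.normalizer ((P : Subgroup G) : Set G) → (P : Subgroup G) ⊓ (MulAut.conj g • (P : Subgroup G)) = ⊥) (N : Subgroup G) [N.Normal] (hN : (Nat.card ↥N).Coprime p) (Q : Sylow p (G ⧸ N)) : ∀ x : G ⧸ N, x ∉ Subgroup.normalizer ((Q : Subgroup (G ⧸ N)) : Set (G ⧸ N)) → (Q : Subgroup (G ⧸ N)) ⊓ (MulAut.conj x • (Q : Subgroup (G ⧸ N))) = ⊥ := by
  intro x hx
  have hpw := ti_pairwise P hTI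
  have hsurj : Function.Surjective (QuotientGroup.mk' N) := QuotientGroup.mk'_surjective N
  have hne : x • Q ≠ Q := fun e => hx (smul_eq_self_iff.1 e)
  have key : ∀ Q1 Q2 : Sylow p (G ⧸ N), Q1 ≠ Q2 → (Q1 : Subgroup (G ⧸ N)) ⊓ Q2 = ⊥ := by
    intro Q1 Q2 hQ
    obtain ⟨R1, rfl⟩ := Sylow.mapSurjective_surjective hsurj p Q1
    obtain ⟨R2, rfl⟩ := Sylow.mapSurjective_surjective hsurj p Q2
    rw [eq_bot_iff]
    intro y hy
    obtain ⟨hy1, hy2⟩ := hy
    rw [Sylow.coe_mapSurjective] at hy1 hy2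
    obtain ⟨z, hz, rfl⟩ := hy1
    obtain ⟨w, hw, hwz⟩ := hy2
    have hzw : z ∈ (R2 : Subgroup G) ⊔ N := by
      have : w⁻¹ * z ∈ N := by
        rw [← QuotientGroup.eq]
        exact hwz
      have h2 : z = w * (w⁻¹ * z) := by group
      rw [h2]
      exact Subgroup.mul_mem _ (Subgroup.mem_sup_left hw) (Subgroup.mem_sup_right this)
    obtain ⟨a, ha⟩ := (IsPGroup.iff_orderOf.1 R1.2) ⟨z, hz⟩
    have hpow : z ^ (p ^ a) = 1 := by
      have : (⟨z, hz⟩ : (R1 : Subgroup G)) ^ (p ^ a) = 1 := by rw [← ha]; exact pow_orderOf_eq_one _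
      exact congrArg Subtype.val this
    obtain ⟨n, hn, hzn⟩ := conj_of_mem_sup p N R2 hpow hzw
    by_cases heq : R1 = n • R2
    · exfalso
      apply hQ
      apply Sylow.ext
      rw [Sylow.coe_mapSurjective, Sylow.coe_mapSurjective, heq]
      ext t
      simp only [Subgroup.mem_map]
      constructor
      · rintro ⟨s, hs, rfl⟩
        rw [mem_smul] at hs
        refine ⟨_, hs, ?_⟩
        rw [QuotientGroup.mk'_apply, QuotientGroup.mk'_apply, QuotientGroup.eq]
        have : (n⁻¹ * s * n)⁻¹ * s = n⁻¹ * s⁻¹ * n * s := by group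
        rw [this]
        have h3 : s⁻¹ * n * s ∈ N := by
          have := Subgroup.Normal.conj_mem (inferInstance : N.Normal) n hn s⁻¹
          simpa using this
        have h4 : n⁻¹ * s⁻¹ * n * s = n⁻¹ * (s⁻¹ * n * s) := by group
        rw [h4]
        exact N.mul_mem (N.inv_mem hn) h3
      · rintro ⟨s, hs, rfl⟩
        refine ⟨n * s * n⁻¹, ?_, ?_⟩
        · rw [mem_smul]
          have : n⁻¹ * (n * s * n⁻¹) * n = s := by group
          rw [this]; exact hs
        · rw [QuotientGroup.mk'_apply, QuotientGroup.mk'_apply, QuotientGroup.eq]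
          have : (n * s * n⁻¹)⁻¹ * s = n * s⁻¹ * n⁻¹ * s := by group
          rw [this]
          have h3 : s⁻¹ * n⁻¹ * s ∈ N := by
            have := Subgroup.Normal.conj_mem (inferInstance : N.Normal) n⁻¹ (N.inv_mem hn) s⁻¹
            simpa using this
          have h4 : n * s⁻¹ * n⁻¹ * s = n * (s⁻¹ * n⁻¹ * s) := by group
          rw [h4]
          exact N.mul_mem hn h3
    · have h5 := hpw R1 (n • R2) heq
      have h6 : z ∈ (R1 : Subgroup G) ⊓ ((n • R2 : Sylow p G) : Subgroup G) := ⟨hz, hzn⟩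
      rw [h5, Subgroup.mem_bot] at h6
      rw [Subgroup.mem_bot, h6]
      simp
  rw [inf_comm]
  exact key (x • Q) Q hne

end Cfsg.Agent.S3984
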