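import Cfsg.Statements.S3985
import Cfsg.Agent.Lib.SylowTI

set_option autoImplicit false
open scoped Pointwise
open Cfsg

namespace Cfsg.Agent.S3985

open Cfsg.Agent.Lib.SylowTI

theorem forward {G : Type*} [Group G] [Finite G] (p : ℕ) [Fact p.Prime] (P : Sylow p G)
    (hcyc : IsCyclic ↥(P : Subgroup G))
    (hTI : ∀ g : G, g ∉ Subgroup.normalizer ((P : Subgroup G) : Set G) →
      (P : Subgroup G) ⊓ (MulAut.conj g • (P : Subgroup G)) = ⊥)
    (x : G) (hxP : x ∈ (P : Subgroup G)) (hx1 : x ≠ 1) (g : G) (hgx : g * x = x * g) :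
    g ∈ Subgroup.centralizer ((P : Subgroup G) : Set G) := by
  have hp : p.Prime := Fact.out
  -- `g` normalizes `P`
  have hgN : g ∈ Subgroup.normalizer ((P : Subgroup G) : Set G) := by
    by_contra hg
    have h0 := hTI g hg
    have h1 : x ∈ (P : Subgroup G) ⊓ (MulAut.conj g • (P : Subgroup G)) := by
      rw [Subgroup.mem_inf, mem_conj_smul]
      refine ⟨hxP, ?_⟩
      have : g⁻¹ * x * g = x := by
        rw [mul_assoc, ← hgx]; group
      rw [this]; exact hxP
    rw [h0, Subgroup.mem_bot] at h1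
    exact hx1 h1
  have hnorm : ∀ y ∈ (P : Subgroup G), g * y * g⁻¹ ∈ (P : Subgroup G) := fun y hy =>
    (Subgroup.mem_normalizer_iff.1 hgN y).1 hy
  -- elements of `P` commute
  obtain ⟨c, hc⟩ := hcyc.exists_generator
  have hmem : ∀ y ∈ (P : Subgroup G), ∃ k : ℕ, y = (c : G) ^ k := by
    intro y hy
    have := hc ⟨y, hy⟩
    rw [← mem_powers_iff_mem_zpowers] at this
    obtain ⟨k, hk⟩ := this
    have hk' := congrArg Subtype.val hk
    exact ⟨k, by simpa using hk'.symm⟩
  have hcomm : ∀ y ∈ (P : Subgroup G), ∀ z ∈ (P : Subgroup G), y * z = z * y := by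
    intro y hy z hz
    obtain ⟨a, rfl⟩ := hmem y hy
    obtain ⟨b, rfl⟩ := hmem z hz
    rw [← pow_add, ← pow_add, add_comm]
  -- enough to centralize `c`
  have hcent : ∀ h : G, h * (c : G) * h⁻¹ = c → h ∈ Subgroup.centralizer ((P : Subgroup G) : Set G) := by
    intro h hh
    rw [Subgroup.mem_centralizer_iff]
    intro y hy
    obtain ⟨a, rfl⟩ := hmem y hy
    have h1 : h * (c : G) = c * h := by
      have := hh
      rwa [mul_inv_eq_iff_eq_mul] at this
    have : Commute h ((c : G) ^ a) := (show Commute h (c : G) from h1).pow_right a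
    exact this.eq.symm
  -- p-part
  obtain ⟨n, hn⟩ := (IsPGroup.iff_card.1 P.2)
  have hordc : orderOf (c : G) = p ^ n := by
    have h1 := orderOf_eq_card_of_forall_mem_zpowers hc
    rw [Subgroup.orderOf_coe, h1, hn]
  have hn0 : n ≠ 0 := by
    rintro rfl
    rw [pow_zero] at hn
    have := (Subgroup.card_eq_one.1 hn)
    have hx : x ∈ (⊥ : Subgroup G) := this ▸ hxP
    exact hx1 (by simpa using hx)
  obtain ⟨k, hk⟩ := hmem _ (hnorm c c.2)
  obtain ⟨t, ht⟩ := hmem x hxP
  -- conj power formula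
  have hpowconj : ∀ j : ℕ, g ^ j * (c : G) * (g ^ j)⁻¹ = (c : G) ^ (k ^ j) := by
    intro j
    induction j with
    | zero => simp
    | succ j ih =>
      have h1 : g * (c : G) ^ (k ^ j) * g⁻¹ = (g * (c : G) * g⁻¹) ^ (k ^ j) := by
        rw [conj_pow]
      have h2 : g ^ (j + 1) * (c : G) * (g ^ (j + 1))⁻¹ = g * (g ^ j * (c : G) * (g ^ j)⁻¹) * g⁻¹ := by
        rw [pow_succ']; group
      rw [h2, ih, h1, hk, ← pow_mul, pow_succ, mul_comm]
  -- k ≡ 1 mod p
  have hk1 : (p : ℤ) ∣ (k : ℤ) - 1 := by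
    have h1 : g * x * g⁻¹ = x := by rw [hgx]; group
    rw [ht, ← conj_pow, hk, ← pow_mul] at h1
    have h2 := (pow_eq_pow_iff_modEq.1 h1)
    rw [hordc] at h2
    have h3 := (Nat.modEq_iff_dvd.1 h2.symm)
    push_cast at h3
    have h3' : ((p ^ n : ℕ) : ℤ) ∣ (t : ℤ) * ((k : ℤ) - 1) := by
      push_cast
      have : (k : ℤ) * t - t = (t : ℤ) * ((k : ℤ) - 1) := by ring
      have h3'' : ((p : ℤ) ^ n) ∣ (k : ℤ) * t - t := by
        simpa using h3
      rwa [this] at h3''
    by_contra hnd
    have hcop : IsCoprime ((p : ℤ) ^ n) ((k : ℤ) - 1) := by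
      apply IsCoprime.pow_left
      exact (Nat.prime_iff_prime_int.1 hp).coprime_iff_not_dvd.2 hnd
    have h4 : ((p : ℤ) ^ n) ∣ (t : ℤ) := by
      push_cast at h3'
      exact hcop.dvd_of_dvd_mul_right h3'
    have h5 : p ^ n ∣ t := by exact_mod_cast h4
    apply hx1
    rw [ht, ← hordc] at *
    exact orderOf_dvd_iff_pow_eq_one.1 h5
  -- g^(p^(n-1)) centralizes P
  have hj : g ^ (p ^ (n - 1)) ∈ Subgroup.centralizer ((P : Subgroup G) : Set G) := by
    apply hcent
    rw [hpowconj]
    have h1 := dvd_sub_pow_of_dvd_sub (R := ℤ) (p := p) hk1 (n - 1)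
    rw [one_pow] at h1
    have hn1 : n - 1 + 1 = n := by omega
    rw [hn1] at h1
    have h2 : (c : G) ^ (k ^ p ^ (n - 1)) = (c : G) ^ 1 := by
      apply pow_eq_pow_iff_modEq.2
      rw [hordc]
      apply (Nat.modEq_iff_dvd.2 _).symm
      push_cast
      exact h1
    rw [h2, pow_one]
  -- p'-part
  obtain ⟨a, b, hb, hab⟩ := Nat.exists_eq_pow_mul_and_not_dvd (n := orderOf g) (orderOf_pos g).ne' p hp.ne_one
  have hb' : g ^ b ∈ Subgroup.centralizer ((P : Subgroup G) : Set G) := by
    have h1 : g ^ b ∈ (P : Subgroup G) := by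
      apply mem_of_pelt_normalizer P (Subgroup.pow_mem _ hgN b) (a := a)
      rw [← pow_mul, mul_comm, ← hab, pow_orderOf_eq_one]
    rw [Subgroup.mem_centralizer_iff]
    intro y hy
    exact hcomm y hy _ h1
  have hcop : (p ^ (n - 1)).Coprime b := by
    apply Nat.Coprime.pow_left
    exact (Nat.Prime.coprime_iff_not_dvd hp).2 hb
  exact mem_of_pow_mem_of_coprime hj hb' hcop

/-- Let P be a cyclic Sylow p-subgroup of the finite group G. Then P meets each conjugate g P g⁻¹ with g outside N_G(P) trivially if and only if P is weakly self-centralizing: C_G(x) = C_G(P) for every non-identity x ∈ P. -/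
theorem result {G : Type*} [Group G] [Finite G] (p : ℕ) [Fact p.Prime] (P : Sylow p G) (hcyc : IsCyclic ↥(P : Subgroup G)) : (∀ g : G, g ∉ Subgroup.normalizer ((P : Subgroup G) : Set G) → (P : Subgroup G) ⊓ (MulAut.conj g • (P : Subgroup G)) = ⊥) ↔ ∀ x : G, x ∈ (P : Subgroup G) → x ≠ 1 → Subgroup.centralizer ({x} : Set G) = Subgroup.centralizer ((P : Subgroup G) : Set G) := by
  constructor
  · intro hTI x hxP hx1
    apply le_antisymm
    · intro g hg
      rw [Subgroup.mem_centralizer_singleton_iff] at hg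
      exact forward p P hcyc hTI x hxP hx1 g hg
    · apply Subgroup.centralizer_le
      intro y hy
      rw [Set.mem_singleton_iff] at hy
      rw [hy]; exact hxP
  · intro h g hg
    rw [eq_bot_iff]
    intro x hx
    rw [Subgroup.mem_inf, mem_conj_smul] at hx
    obtain ⟨hx1, hx2⟩ := hx
    rw [Subgroup.mem_bot]
    by_contra hne
    have hy1 : g⁻¹ * x * g ≠ 1 := by
      intro e
      apply hne
      have : x = g * (g⁻¹ * x * g) * g⁻¹ := by group
      rw [this, e]; simp
    have hC1 := h x hx1 hne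
    have hC2 := h _ hx2 hy1
    obtain ⟨c, hc⟩ := hcyc.exists_generator
    have hcomm : ∀ y ∈ (P : Subgroup G), ∀ z ∈ (P : Subgroup G), y * z = z * y := by
      intro y hy z hz
      have h1 := hc ⟨y, hy⟩
      have h2 := hc ⟨z, hz⟩
      rw [Subgroup.mem_zpowers_iff] at h1 h2
      obtain ⟨a, ha⟩ := h1
      obtain ⟨b, hb⟩ := h2
      have h3 : (⟨y, hy⟩ : (P : Subgroup G)) * ⟨z, hz⟩ = ⟨z, hz⟩ * ⟨y, hy⟩ := by
        rw [← ha, ← hb, ← zpow_add, ← zpow_add, add_comm]
      exact congrArg Subtype.val h3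
    -- g⁻¹ P g ≤ C(P) ≤ N(P)
    have hle : ((g⁻¹ • P : Sylow p G) : Subgroup G) ≤ Subgroup.normalizer ((P : Subgroup G) : Set G) := by
      intro z hz
      rw [mem_smul, inv_inv] at hz
      have hzC : z ∈ Subgroup.centralizer ((P : Subgroup G) : Set G) := by
        rw [← hC2, Subgroup.mem_centralizer_singleton_iff]
        have h1 := hcomm _ hz _ hx1
        have e1 : z * (g⁻¹ * x * g) = g⁻¹ * ((g * z * g⁻¹) * x) * g := by group
        have e2 : g⁻¹ * x * g * z = g⁻¹ * (x * (g * z * g⁻¹)) * g := by group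
        rw [e1, e2, h1]
      rw [Subgroup.mem_normalizer_iff]
      intro y
      rw [Subgroup.mem_centralizer_iff] at hzC
      constructor
      · intro hy
        have h1 := hzC y hy
        have : z * y * z⁻¹ = y := by rw [← h1]; group
        rw [this]; exact hy
      · intro hy
        have h1 := hzC _ hy
        have : y = z * y * z⁻¹ := by
          have h2 : z * y = z * (z * y * z⁻¹) := by
            have h3 : z * y * z⁻¹ * z = z * y := by group
            rw [← h3]; rw [h3] at h1 ⊢; exact h1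
          exact mul_left_cancel h2
        rw [this]; exact hy
    have := eq_of_le_normalizer P (g⁻¹ • P) hle
    exact hg (by
      have h2 : g⁻¹ ∈ Subgroup.normalizer ((P : Subgroup G) : Set G) := smul_eq_self_iff.1 this
      simpa using Subgroup.inv_mem _ h2)

end Cfsg.Agent.S3985
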