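import Cfsg.Statements.S3986
import Cfsg.Agent.Lib.SylowTI

set_option autoImplicit false
open Cfsg

namespace Cfsg.Agent.S3986

open Cfsg.Agent.Lib.SylowTI

theorem forward {G : Type*} [Group G] [Finite G] (p : ℕ) [Fact p.Prime] (P : Sylow p G) (K : Subgroup G)
    (hPn : (P : Subgroup G).Normal) (hKn : K.Normal) (hinf : (P : Subgroup G) ⊓ K = ⊥)
    (hsup : (P : Subgroup G) ⊔ K = ⊤) (x y : G) (hx : ∃ a : ℕ, orderOf x = p ^ a)
    (hy : ∃ q b : ℕ, q.Prime ∧ q ≠ p ∧ orderOf y = q ^ b) :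
    x ∈ (P : Subgroup G) ∧ y ∈ K ∧ x * y = y * x := by
  have hp : p.Prime := Fact.out
  obtain ⟨a, ha⟩ := hx
  obtain ⟨q, b, hq, hqp, hb⟩ := hy
  have hdis : Disjoint (P : Subgroup G) K := disjoint_iff.2 hinf
  have hcm := Subgroup.commute_of_normal_of_disjoint _ _ hPn hKn hdis
  have hx : x ∈ (P : Subgroup G) := by
    apply mem_of_pelt_normalizer P (g := x) (a := a)
    · rw [Subgroup.normalizer_eq_top_iff.2 hPn]; trivial
    · rw [← ha, pow_orderOf_eq_one]
  have hy : y ∈ K := by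
    have hy' : y ∈ (P : Subgroup G) ⊔ K := hsup ▸ Subgroup.mem_top y
    rw [Subgroup.mem_sup_of_normal_right] at hy'
    obtain ⟨u, hu, k, hk, rfl⟩ := hy'
    have hc := hcm u k hu hk
    have h1 : (u * k) ^ (q ^ b) = 1 := by rw [← hb, pow_orderOf_eq_one]
    rw [hc.mul_pow] at h1
    have h2 : u ^ (q ^ b) ∈ (P : Subgroup G) ⊓ K := by
      refine ⟨Subgroup.pow_mem _ hu _, ?_⟩
      rw [eq_inv_of_mul_eq_one_left h1]
      exact K.inv_mem (K.pow_mem hk _)
    rw [hinf, Subgroup.mem_bot] at h2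
    obtain ⟨j, hj⟩ := (IsPGroup.iff_orderOf.1 P.2) ⟨u, hu⟩
    have hj' : orderOf u = p ^ j := by simpa using hj
    have h3 : orderOf u ∣ q ^ b := orderOf_dvd_of_pow_eq_one h2
    have hcop : (p ^ j).Coprime (q ^ b) :=
      Nat.Coprime.pow _ _ ((Nat.coprime_primes hp hq).2 hqp.symm)
    rw [hj'] at h3
    have h4 := Nat.Coprime.eq_one_of_dvd hcop h3
    rw [h4, orderOf_eq_one_iff] at hj'
    rw [hj', one_mul]; exact hk
  exact ⟨hx, hy, hcm x y hx hy⟩

theorem backward {G : Type*} [Group G] [Finite G] (p : ℕ) [Fact p.Prime]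
    (h : ∀ x y : G, (∃ a : ℕ, orderOf x = p ^ a) → (∃ q b : ℕ, q.Prime ∧ q ≠ p ∧ orderOf y = q ^ b) → x * y = y * x) :
    ∃ (P : Sylow p G) (K : Subgroup G), (P : Subgroup G).Normal ∧ K.Normal ∧ (P : Subgroup G) ⊓ K = ⊥ ∧ (P : Subgroup G) ⊔ K = ⊤ := by
  have hp : p.Prime := Fact.out
  obtain ⟨P⟩ : Nonempty (Sylow p G) := inferInstance
  have hPelt : ∀ x ∈ (P : Subgroup G), ∃ a : ℕ, orderOf x = p ^ a := by
    intro x hx
    obtain ⟨k, hk⟩ := (IsPGroup.iff_orderOf.1 P.2) ⟨x, hx⟩
    exact ⟨k, by simpa using hk⟩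
  have hPn : (P : Subgroup G).Normal := by
    rw [← Subgroup.normalizer_eq_top_iff]
    apply eq_top_of_forall_exists_sylow_le
    intro q hq
    haveI : Fact q.Prime := ⟨hq⟩
    obtain ⟨Q⟩ : Nonempty (Sylow q G) := inferInstance
    by_cases hqp : q = p
    · subst hqp
      exact ⟨P, Subgroup.le_normalizer⟩
    · refine ⟨Q, ?_⟩
      intro y hy
      obtain ⟨k, hk⟩ := (IsPGroup.iff_orderOf.1 Q.2) ⟨y, hy⟩
      have hk' : orderOf y = q ^ k := by simpa using hk
      rw [Subgroup.mem_normalizer_iff]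
      intro u
      constructor
      · intro hu
        have : y * u * y⁻¹ = u := by
          rw [← h u y (hPelt u hu) ⟨q, k, hq, hqp, hk'⟩]; group
        rw [this]; exact hu
      · intro hu
        have hc := h _ y (hPelt _ hu) ⟨q, k, hq, hqp, hk'⟩
        have h2 : y * u = y * (y * u * y⁻¹) := by
          have h3 : y * u * y⁻¹ * y = y * u := by group
          exact h3.symm.trans hc
        rw [mul_left_cancel h2]; exact hu
  obtain ⟨K, hK⟩ := Subgroup.exists_right_complement'_of_coprime (N := (P : Subgroup G)) P.card_coprime_index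
  have hinf : (P : Subgroup G) ⊓ K = ⊥ := hK.disjoint.eq_bot
  have hsup : (P : Subgroup G) ⊔ K = ⊤ := hK.sup_eq_top
  have hcopK : (Nat.card K).Coprime p := by
    have h1 : Nat.card K = (P : Subgroup G).index := by
      have h2 := hK.card_mul_card
      have h3 := (P : Subgroup G).card_mul_index
      have h4 : 0 < Nat.card (P : Subgroup G) := Nat.card_pos
      exact Nat.eq_of_mul_eq_mul_left h4 (h2.trans h3.symm)
    rw [h1]
    have := P.not_dvd_index
    exact ((Nat.Prime.coprime_iff_not_dvd hp).2 this).symm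
  have hcent : ∀ u ∈ (P : Subgroup G), ∀ k ∈ K, u * k = k * u := by
    intro u hu k hk
    have htop : (Subgroup.centralizer ({u} : Set G)).subgroupOf K = ⊤ := by
      apply eq_top_of_forall_sylow_le
      intro q hq y hy
      rw [Subgroup.mem_subgroupOf, Subgroup.mem_centralizer_singleton_iff]
      obtain ⟨b, hb⟩ := hy
      have hb' : orderOf (y : G) = q ^ b := by simpa using hb
      by_cases hqp : q = p
      · subst hqp
        have h1 : orderOf y ∣ Nat.card K := orderOf_dvd_natCard y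
        rw [hb] at h1
        have h2 : q ^ b = 1 := Nat.Coprime.eq_one_of_dvd (Nat.Coprime.pow_left b hcopK.symm) h1
        rw [h2, orderOf_eq_one_iff] at hb
        rw [hb]; simp
      · exact (h u y (hPelt u hu) ⟨q, b, hq, hqp, hb'⟩).symm
    have : (⟨k, hk⟩ : K) ∈ (Subgroup.centralizer ({u} : Set G)).subgroupOf K := htop ▸ Subgroup.mem_top _
    rw [Subgroup.mem_subgroupOf, Subgroup.mem_centralizer_singleton_iff] at this
    exact this.symm
  have hKn : K.Normal := by
    refine ⟨fun y hy g => ?_⟩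
    have hg : g ∈ (P : Subgroup G) ⊔ K := hsup ▸ Subgroup.mem_top g
    rw [Subgroup.mem_sup_of_normal_left] at hg
    obtain ⟨u, hu, k, hk, rfl⟩ := hg
    have h1 : k * y * k⁻¹ ∈ K := K.mul_mem (K.mul_mem hk hy) (K.inv_mem hk)
    have h2 : u * k * y * (u * k)⁻¹ = u * (k * y * k⁻¹) * u⁻¹ := by group
    rw [h2, hcent u hu _ h1]
    have : k * y * k⁻¹ * u * u⁻¹ = k * y * k⁻¹ := by group
    rw [this]; exact h1
  exact ⟨P, K, hPn, hKn, hinf, hsup⟩

/-- Let p be a prime and G a finite group. Then some Sylow p-subgroup of G is a direct factor of G (it is normal and has a normal complement) if and only if every element of p-power order commutes with every element whose order is a power of a prime other than p. -/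
theorem result {G : Type*} [Group G] [Finite G] (p : ℕ) [Fact p.Prime] : (∃ (P : Sylow p G) (K : Subgroup G), (P : Subgroup G).Normal ∧ K.Normal ∧ (P : Subgroup G) ⊓ K = ⊥ ∧ (P : Subgroup G) ⊔ K = ⊤) ↔ ∀ x y : G, (∃ a : ℕ, orderOf x = p ^ a) → (∃ q b : ℕ, q.Prime ∧ q ≠ p ∧ orderOf y = q ^ b) → x * y = y * x := by
  constructor
  · rintro ⟨P, K, hPn, hKn, hinf, hsup⟩ x y hx hy
    exact (forward p P K hPn hKn hinf hsup x y hx hy).2.2
  · exact backward p

end Cfsg.Agent.S3986
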