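import Cfsg.Statements.S3987
import Cfsg.Agent.Lib.SylowTI
import Cfsg.Agent.S3986

set_option autoImplicit false
open Cfsg

namespace Cfsg.Agent.S3987

open Cfsg.Agent.Lib.SylowTI

theorem index_inf_coprime {G : Type*} [Group G] [Finite G] (H K : Subgroup G) (h : H.index.Coprime K.index) :
    (H ⊓ K).index = H.index * K.index := by
  apply le_antisymm Subgroup.index_inf_le
  apply Nat.le_of_dvd (Nat.pos_of_ne_zero Subgroup.index_ne_zero_of_finite)
  exact Nat.Coprime.mul_dvd_of_dvd_of_dvd h (Subgroup.index_dvd_of_le inf_le_left) (Subgroup.index_dvd_of_le inf_le_right)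

theorem comm_of_index {G : Type*} [Group G] [Finite G] (x y : G)
    (h : (Subgroup.centralizer ({x * y} : Set G)).index = (Subgroup.centralizer ({x} : Set G)).index * (Subgroup.centralizer ({y} : Set G)).index) :
    x * y = y * x := by
  classical
  haveI := Fintype.ofFinite G
  let X := Finset.univ.image (fun g : G => g * x * g⁻¹)
  let Y := Finset.univ.image (fun g : G => g * y * g⁻¹)
  let Z := Finset.univ.image (fun g : G => g * (x * y) * g⁻¹)
  have hX : X.card = _ := card_class x
  have hY : Y.card = _ := card_class y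
  have hZ : Z.card = _ := card_class (x * y)
  let m : G × G → G := fun a => a.1 * a.2
  have hsub : Z ⊆ (X ×ˢ Y).image m := by
    intro z hz
    obtain ⟨g, -, rfl⟩ := Finset.mem_image.1 hz
    refine Finset.mem_image.2 ⟨(g * x * g⁻¹, g * y * g⁻¹), ?_, ?_⟩
    · exact Finset.mem_product.2 ⟨Finset.mem_image.2 ⟨g, Finset.mem_univ _, rfl⟩, Finset.mem_image.2 ⟨g, Finset.mem_univ _, rfl⟩⟩
    · show g * x * g⁻¹ * (g * y * g⁻¹) = g * (x * y) * g⁻¹
      group
  have hcard : ((X ×ˢ Y).image m).card = (X ×ˢ Y).card := by
    apply le_antisymm Finset.card_image_le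
    rw [Finset.card_product, hX, hY, ← h, ← hZ]
    exact Finset.card_le_card hsub
  have hinj := Finset.card_image_iff.1 hcard
  have h1 : ((x * y) * x * (x * y)⁻¹, (x * y) * y * (x * y)⁻¹) ∈ X ×ˢ Y :=
    Finset.mem_product.2 ⟨Finset.mem_image.2 ⟨_, Finset.mem_univ _, rfl⟩, Finset.mem_image.2 ⟨_, Finset.mem_univ _, rfl⟩⟩
  have h2 : (x, y) ∈ X ×ˢ Y :=
    Finset.mem_product.2 ⟨Finset.mem_image.2 ⟨1, Finset.mem_univ _, by simp⟩, Finset.mem_image.2 ⟨1, Finset.mem_univ _, by simp⟩⟩
  have h3 : m ((x * y) * x * (x * y)⁻¹, (x * y) * y * (x * y)⁻¹) = m (x, y) := by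
    show (x * y) * x * (x * y)⁻¹ * ((x * y) * y * (x * y)⁻¹) = x * y
    group
  have h4 := hinj (by exact_mod_cast h1) (by exact_mod_cast h2) h3
  have h5 : (x * y) * x * (x * y)⁻¹ = x := congrArg Prod.fst h4
  have h6 : (x * y) * x = x * (x * y) := by
    rwa [mul_inv_eq_iff_eq_mul] at h5
  have h7 : y * x = x * y := by
    have : x * (y * x) = x * (x * y) := by rw [← mul_assoc]; exact h6
    exact mul_left_cancel this
  exact h7.symm

/-- Let p be a prime and G a finite group. Then some Sylow p-subgroup of G is a direct factor of G (normal with a normal complement) if and only if for every element x of p-power order and every element y whose order is a power of a prime other than p, the conjugacy class of x y has as many elements as the product of the sizes of the classes of x and of y. -/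
theorem result {G : Type*} [Group G] [Finite G] (p : ℕ) [Fact p.Prime] : (∃ (P : Sylow p G) (K : Subgroup G), (P : Subgroup G).Normal ∧ K.Normal ∧ (P : Subgroup G) ⊓ K = ⊥ ∧ (P : Subgroup G) ⊔ K = ⊤) ↔ ∀ x y : G, (∃ a : ℕ, orderOf x = p ^ a) → (∃ q b : ℕ, q.Prime ∧ q ≠ p ∧ orderOf y = q ^ b) → (Subgroup.centralizer ({x * y} : Set G)).index = (Subgroup.centralizer ({x} : Set G)).index * (Subgroup.centralizer ({y} : Set G)).index := by
  constructor
  · rintro ⟨P, K, hPn, hKn, hinf, hsup⟩ x y hx hy
    obtain ⟨hxP, hyK, hc⟩ := S3986.forward p P K hPn hKn hinf hsup x y hx hy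
    have hp : p.Prime := Fact.out
    have hdis : Disjoint (P : Subgroup G) K := disjoint_iff.2 hinf
    have hcm := Subgroup.commute_of_normal_of_disjoint _ _ hPn hKn hdis
    have hC : Subgroup.centralizer ({x * y} : Set G) = Subgroup.centralizer ({x} : Set G) ⊓ Subgroup.centralizer ({y} : Set G) := by
      ext g
      rw [Subgroup.mem_inf, Subgroup.mem_centralizer_singleton_iff, Subgroup.mem_centralizer_singleton_iff, Subgroup.mem_centralizer_singleton_iff]
      constructor
      · intro hg
        have h1 : g * x * g⁻¹ * (g * y * g⁻¹) = x * y := by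
          have : g * x * g⁻¹ * (g * y * g⁻¹) = g * (x * y) * g⁻¹ := by group
          rw [this, hg]; group
        have h2 : g * x * g⁻¹ ∈ (P : Subgroup G) := hPn.conj_mem x hxP g
        have h3 : g * y * g⁻¹ ∈ K := hKn.conj_mem y hyK g
        have h4 : x⁻¹ * (g * x * g⁻¹) = y * (g * y * g⁻¹)⁻¹ := by
          rw [inv_mul_eq_iff_eq_mul, ← mul_assoc, ← h1]; group
        have h5 : x⁻¹ * (g * x * g⁻¹) ∈ (P : Subgroup G) ⊓ K := by
          refine ⟨(P : Subgroup G).mul_mem ((P : Subgroup G).inv_mem hxP) h2, ?_⟩
          rw [h4]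
          exact K.mul_mem hyK (K.inv_mem h3)
        rw [hinf, Subgroup.mem_bot] at h5
        have h6 : g * x * g⁻¹ = x := by
          have : g * x * g⁻¹ = x * (x⁻¹ * (g * x * g⁻¹)) := by group
          rw [this, h5, mul_one]
        have h7 : g * y * g⁻¹ = y := by
          rw [h6] at h1
          exact mul_left_cancel h1
        constructor
        · rw [mul_inv_eq_iff_eq_mul] at h6; exact h6
        · rw [mul_inv_eq_iff_eq_mul] at h7; exact h7
      · rintro ⟨h1, h2⟩
        rw [← mul_assoc, h1, mul_assoc, h2, mul_assoc]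
    rw [hC]
    apply index_inf_coprime
    -- index C(x) divides |P| and index C(y) divides index P
    have hKle : K ≤ Subgroup.centralizer ({x} : Set G) := by
      intro k hk
      rw [Subgroup.mem_centralizer_singleton_iff]
      exact (hcm x k hxP hk).eq.symm
    have hPle : (P : Subgroup G) ≤ Subgroup.centralizer ({y} : Set G) := by
      intro u hu
      rw [Subgroup.mem_centralizer_singleton_iff]
      exact (hcm u y hu hyK).eq
    have hd1 : (Subgroup.centralizer ({x} : Set G)).index ∣ K.index := Subgroup.index_dvd_of_le hKle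
    have hd2 : (Subgroup.centralizer ({y} : Set G)).index ∣ (P : Subgroup G).index := Subgroup.index_dvd_of_le hPle
    have hK1 : K.index = Nat.card (P : Subgroup G) := by
      have hcompl : (P : Subgroup G).IsComplement' K := Subgroup.isComplement'_of_disjoint_and_mul_eq_univ hdis (by
        have := Subgroup.normal_mul (P : Subgroup G) K
        rw [hsup] at this
        rw [← this]; simp)
      have h2 := hcompl.card_mul_card
      have h3 := K.card_mul_index
      have h4 : 0 < Nat.card K := Nat.card_pos
      rw [mul_comm] at h2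
      exact Nat.eq_of_mul_eq_mul_left h4 (h3.trans h2.symm)
    rw [hK1] at hd1
    exact Nat.Coprime.coprime_dvd_left hd1 (Nat.Coprime.coprime_dvd_right hd2 P.card_coprime_index)
  · intro h
    apply S3986.backward p
    intro x y hx hy
    exact comm_of_index x y (h x y hx hy)

end Cfsg.Agent.S3987
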