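import Mathlib
import Cfsg.Statements.S4009
import Cfsg.Agent.Lib.H6ItC
import Cfsg.Agent.Lib.H6PGroup
-- import your own Cfsg.Agent.* helpers here

set_option autoImplicit false
open Cfsg

namespace Cfsg.Agent.S4009

open Subgroup
open Cfsg.Agent.Lib.H6ItC
open scoped commutatorElement

section
variable {G : Type*} [Group G]

theorem itC_add (A : Subgroup G) (s k : ℕ) : itC (itC A s) k = itC A (s + k) := by
  induction k with
  | zero => rfl
  | succ k ih => rw [itC_succ, ih, ← add_assoc, itC_succ]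

theorem itC_le_lcs (X : Subgroup G) (m : ℕ) (hX : X ≤ (⊤ : Subgroup G).lowerCentralSeries m) (s : ℕ) :
    itC X s ≤ (⊤ : Subgroup G).lowerCentralSeries (m + s) := by
  induction s with
  | zero => exact hX
  | succ s ih =>
    rw [itC_succ, ← add_assoc, Subgroup.lowerCentralSeries_succ]
    exact Subgroup.commutator_mono ih le_rfl

theorem comm_itC (X : Subgroup G) [X.Normal] (m : ℕ) (hX : X ≤ (⊤ : Subgroup G).lowerCentralSeries m)
    (s : ℕ) : ⁅itC X s, X⁆ ≤ itC X (s + (m + 1)) := by
  haveI := itC_normal X s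
  rw [← itC_add]
  exact (Subgroup.commutator_mono le_rfl hX).trans (key m (itC X s))

/-- Commutators of a generating set lying in an invariant subgroup. -/
theorem comm_closure (T : Subgroup G) (S : Set G)
    (hT : ∀ x ∈ Subgroup.closure S, ∀ t ∈ T, x * t * x⁻¹ ∈ T)
    (hcomm : ∀ s ∈ S, ∀ t ∈ S, ⁅s, t⁆ ∈ T) :
    ∀ x ∈ Subgroup.closure S, ∀ y ∈ Subgroup.closure S, ⁅x, y⁆ ∈ T := by
  have h1 : ∀ x ∈ Subgroup.closure S, ∀ s ∈ S, ⁅x, s⁆ ∈ T := by
    intro x hx s hs
    induction hx using Subgroup.closure_induction with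
    | mem x hx => exact hcomm x hx s hs
    | one => simp
    | mul x y hx hy ihx ihy =>
      have e : ⁅x * y, s⁆ = x * ⁅y, s⁆ * x⁻¹ * ⁅x, s⁆ := by
        simp only [commutatorElement_def]; group
      rw [e]
      exact T.mul_mem (hT x hx _ ihy) ihx
    | inv x hx ih =>
      have e : ⁅x⁻¹, s⁆ = x⁻¹ * (⁅x, s⁆)⁻¹ * x⁻¹⁻¹ := by
        simp only [commutatorElement_def]; group
      rw [e]
      exact hT x⁻¹ (Subgroup.inv_mem _ hx) _ (T.inv_mem ih)
  intro x hx y hy
  induction hy using Subgroup.closure_induction with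
  | mem y hy => exact h1 x hx y hy
  | one => simp
  | mul y z hy hz ihy ihz =>
    have e : ⁅x, y * z⁆ = ⁅x, y⁆ * (y * ⁅x, z⁆ * y⁻¹) := by
      simp only [commutatorElement_def]; group
    rw [e]
    exact T.mul_mem ihy (hT y hy _ ihz)
  | inv y hy ih =>
    have e : ⁅x, y⁻¹⁆ = y⁻¹ * (⁅x, y⁆)⁻¹ * y⁻¹⁻¹ := by
      simp only [commutatorElement_def]; group
    rw [e]
    exact hT y⁻¹ (Subgroup.inv_mem _ hy) _ (T.inv_mem ih)

theorem flag_of_gen (X A : Subgroup G) [X.Normal] [A.Normal] (hAX : A ≤ X) (a : G) (ha : a ∈ X)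
    (hgen : X ≤ Subgroup.closure (insert a (A : Set G))) : ⁅X, X⁆ ≤ ⁅X, A⁆ := by
  rw [Subgroup.commutator_le]
  intro x hx y hy
  refine comm_closure ⁅X, A⁆ (insert a (A : Set G)) ?_ ?_ x (hgen hx) y (hgen hy)
  · intro u _ t ht
    exact (inferInstance : (⁅X, A⁆ : Subgroup G).Normal).conj_mem t ht u
  · intro s hs t ht
    rcases hs with rfl | hs
    · rcases ht with rfl | ht
      · simp
      · exact Subgroup.commutator_mem_commutator ha ht
    · rcases ht with rfl | ht
      · have : ⁅s, t⁆ = (⁅t, s⁆)⁻¹ := by simp only [commutatorElement_def]; group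
        rw [this]
        exact Subgroup.inv_mem _ (Subgroup.commutator_mem_commutator ha hs)
      · exact Subgroup.commutator_mem_commutator (hAX hs) ht

theorem gen_down (X K : Subgroup G) (S : Set X) (h : Subgroup.closure S ⊔ K.subgroupOf X = ⊤)
    (T : Set G) (hT : ∀ s ∈ S, (s : G) ∈ Subgroup.closure T) (hK : K ≤ Subgroup.closure T) :
    X ≤ Subgroup.closure T := by
  intro x hx
  have h1 : (⟨x, hx⟩ : X) ∈ Subgroup.closure S ⊔ K.subgroupOf X := by
    rw [h]; exact Subgroup.mem_top _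
  have h2 : Subgroup.closure S ⊔ K.subgroupOf X ≤ (Subgroup.closure T).subgroupOf X := by
    refine sup_le ?_ ?_
    · rw [Subgroup.closure_le]
      intro s hs
      exact hT s hs
    · intro u hu
      exact hK hu
  exact h2 h1

theorem flag_next (X : Subgroup G) [X.Normal] (m : ℕ)
    (hX : X ≤ (⊤ : Subgroup G).lowerCentralSeries m) (a b : X)
    (hgen : X ≤ Subgroup.closure (insert (a : G) (insert (b : G) (itC X 1 : Set G))))
    (hY : itC X (m + 1) = ⁅X, X⁆) :
    ⁅⁅X, X⁆, ⁅X, X⁆⁆ ≤ ⁅⁅X, X⁆, ⁅⁅X, X⁆, (⊤ : Subgroup G)⁆⁆ := by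
  set Y := ⁅X, X⁆ with hYdef
  haveI hYn : Y.Normal := by rw [hYdef]; infer_instance
  haveI hA1n : (itC X 1).Normal := itC_normal X 1
  have hA1X : itC X 1 ≤ X := by
    have := itC_le X 0
    rwa [itC_zero] at this
  have hYA1 : Y ≤ itC X 1 := by
    rw [← hY]
    exact itC_anti X (by omega)
  set R := ⁅Y, (⊤ : Subgroup G)⁆ with hRdef
  have hRe : R = itC X (m + 2) := by
    rw [hRdef, ← hY, ← itC_succ]
  haveI hRn : R.Normal := by rw [hRdef]; infer_instance
  have hA1R : ⁅itC X 1, X⁆ ≤ R := by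
    rw [hRe]
    have := comm_itC X m hX 1
    convert this using 2
    omega
  set c : G := ⁅(a : G), (b : G)⁆ with hc
  have hcY : c ∈ Y := Subgroup.commutator_mem_commutator a.2 b.2
  let T : Subgroup G := Subgroup.zpowers c ⊔ R
  have hconj : ∀ x ∈ X, ∀ t ∈ T, x * t * x⁻¹ ∈ T := by
    intro x hx t ht
    have h1 : T ≤ Subgroup.comap (MulAut.conj x).toMonoidHom T := by
      refine sup_le ?_ ?_
      · rw [Subgroup.zpowers_le]
        show x * c * x⁻¹ ∈ T
        have h2 : ⁅c, x⁆ ∈ R := hA1R (Subgroup.commutator_mem_commutator (hYA1 hcY) hx)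
        have h3 : x * c * x⁻¹ = (⁅c, x⁆)⁻¹ * c := by
          simp only [commutatorElement_def]; group
        rw [h3]
        exact T.mul_mem (Subgroup.mem_sup_right (R.inv_mem h2))
          (Subgroup.mem_sup_left (Subgroup.mem_zpowers c))
      · intro r hr
        exact Subgroup.mem_sup_right (hRn.conj_mem r hr x)
    exact h1 ht
  have hSX : Subgroup.closure (insert (a : G) (insert (b : G) (itC X 1 : Set G))) ≤ X := by
    rw [Subgroup.closure_le]
    rintro s (rfl | rfl | hs)
    · exact a.2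
    · exact b.2
    · exact hA1X hs
  have hYT : Y ≤ T := by
    rw [hYdef, Subgroup.commutator_le]
    intro x hx y hy
    refine comm_closure T _ ?_ ?_ x (hgen hx) y (hgen hy)
    · intro u hu t ht
      exact hconj u (hSX hu) t ht
    · have hmem : ∀ s ∈ (insert (a : G) (insert (b : G) (itC X 1 : Set G))), s ∈ X := by
        intro s hs
        exact hSX (Subgroup.subset_closure hs)
      intro s hs t ht
      by_cases hs1 : s ∈ itC X 1
      · exact Subgroup.mem_sup_right (hA1R (Subgroup.commutator_mem_commutator hs1 (hmem t ht)))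
      by_cases ht1 : t ∈ itC X 1
      · have e : ⁅s, t⁆ = (⁅t, s⁆)⁻¹ := by simp only [commutatorElement_def]; group
        rw [e]
        exact T.inv_mem (Subgroup.mem_sup_right
          (hA1R (Subgroup.commutator_mem_commutator ht1 (hmem s hs))))
      have hcT : c ∈ T := Subgroup.mem_sup_left (Subgroup.mem_zpowers c)
      have hs' : s = a ∨ s = b := by
        rcases hs with h | h | h
        · exact Or.inl h
        · exact Or.inr h
        · exact absurd h hs1
      have ht' : t = a ∨ t = b := by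
        rcases ht with h | h | h
        · exact Or.inl h
        · exact Or.inr h
        · exact absurd h ht1
      rcases hs' with rfl | rfl <;> rcases ht' with rfl | rfl
      · simp
      · exact hcT
      · have e : ⁅(b : G), (a : G)⁆ = c⁻¹ := by
          rw [hc]; simp only [commutatorElement_def]; group
        rw [e]
        exact T.inv_mem hcT
      · simp
  refine flag_of_gen Y R ?_ c hcY ?_
  · rw [hRdef]
    exact Subgroup.commutator_le_left _ _
  · intro y hy
    have h1 := hYT hy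
    have h2 : T ≤ Subgroup.closure (insert c (R : Set G)) := by
      refine sup_le ?_ ?_
      · rw [Subgroup.zpowers_le]
        exact Subgroup.subset_closure (Set.mem_insert _ _)
      · intro r hr
        exact Subgroup.subset_closure (Set.mem_insert_of_mem _ hr)
    exact h2 h1

end

section count
variable {G : Type*} [Group G] [Finite G] {p : ℕ} [hp : Fact p.Prime]

theorem rel_pow (hG : IsPGroup p G) (H K : Subgroup G) : ∃ s, H.relIndex K = p ^ s := by
  have h2 : H.relIndex K ∣ Nat.card K := Subgroup.relIndex_dvd_card _ _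
  obtain ⟨t, ht⟩ := IsPGroup.iff_card.mp (hG.to_subgroup K)
  rw [ht] at h2
  obtain ⟨s, -, hs⟩ := (Nat.dvd_prime_pow hp.out).mp h2
  exact ⟨s, hs⟩

theorem rel_pos (H K : Subgroup G) : 0 < H.relIndex K :=
  Nat.pos_of_ne_zero Subgroup.index_ne_zero_of_finite

theorem rel_mono {H K L : Subgroup G} (hHK : H ≤ K) (hKL : K ≤ L) :
    K.relIndex L ≤ H.relIndex L := by
  rw [← Subgroup.relIndex_mul_relIndex H K L hHK hKL]
  exact Nat.le_mul_of_pos_left _ (rel_pos H K)

theorem card_eq {H K : Subgroup G} (h : H ≤ K) : Nat.card K = Nat.card H * H.relIndex K := by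
  have h1 := Subgroup.card_mul_index (H.subgroupOf K)
  rw [Nat.card_congr (Subgroup.subgroupOfEquivOfLe h).toEquiv] at h1
  exact h1.symm

theorem rel_step (hG : IsPGroup p G) (A : Subgroup G) [A.Normal] (k : ℕ) (hk : itC A k ≠ ⊥) :
    p ≤ (itC A (k + 1)).relIndex (itC A k) := by
  haveI : Group.IsNilpotent G := hG.isNilpotent
  obtain ⟨s, hs⟩ := rel_pow hG (itC A (k + 1)) (itC A k)
  rw [hs]
  have hs0 : s ≠ 0 := by
    rintro rfl
    rw [pow_zero] at hs
    have h3 : itC A k ≤ itC A (k + 1) := Subgroup.relIndex_eq_one.mp hs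
    have h4 : itC A (k + 1) = itC A k := le_antisymm (itC_le A k) h3
    rw [itC_succ] at h4
    exact hk (no_fix _ h4)
  calc p = p ^ 1 := (pow_one p).symm
    _ ≤ p ^ s := Nat.pow_le_pow_right hp.out.pos (Nat.one_le_iff_ne_zero.mpr hs0)

theorem rel_chain (hG : IsPGroup p G) (A : Subgroup G) [A.Normal] (k : ℕ) (hk : itC A k ≠ ⊥) :
    p ^ k ≤ (itC A k).relIndex A := by
  induction k with
  | zero => rw [itC_zero]; simp
  | succ k ih =>
    have hk' : itC A k ≠ ⊥ := fun h => hk (le_bot_iff.mp ((itC_le A k).trans h.le))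
    have h2 := Subgroup.relIndex_mul_relIndex (itC A (k + 1)) (itC A k) A (itC_le A k)
      (itC_anti A (Nat.zero_le k))
    rw [← h2, pow_succ, mul_comm]
    exact Nat.mul_le_mul (rel_step hG A k hk') (ih hk')

theorem one_lt_rel_of_nontriv (hG : IsPGroup p G) (X : Subgroup G) [X.Normal] (hX : X ≠ ⊥) :
    p ≤ (itC X 1).relIndex X := by
  have := rel_step hG X 0 (by rwa [itC_zero])
  simpa [itC_zero] using this

theorem card_ge_of_ne_bot (hG : IsPGroup p G) (X : Subgroup G) (hX : X ≠ ⊥) : p ≤ Nat.card X := by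
  obtain ⟨t, ht⟩ := IsPGroup.iff_card.mp (hG.to_subgroup X)
  rw [ht]
  have ht0 : t ≠ 0 := by
    rintro rfl
    apply hX
    exact Subgroup.eq_bot_of_card_eq X (by simpa using ht)
  calc p = p ^ 1 := (pow_one p).symm
    _ ≤ p ^ t := Nat.pow_le_pow_right hp.out.pos (Nat.one_le_iff_ne_zero.mpr ht0)

/-- Flagged step. -/
theorem flag_step (hG : IsPGroup p G) (X : Subgroup G) [X.Normal] (m : ℕ)
    (hX : X ≤ (⊤ : Subgroup G).lowerCentralSeries m) (hYne : ⁅X, X⁆ ≠ ⊥)
    (hfl : ⁅X, X⁆ ≤ ⁅X, ⁅X, (⊤ : Subgroup G)⁆⁆) :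
    ⁅X, X⁆ ≤ (⊤ : Subgroup G).lowerCentralSeries (2 * m + 2) ∧ p ^ (m + 2) ≤ (⁅X, X⁆).relIndex X := by
  have h1 : ⁅X, X⁆ ≤ itC X (m + 2) := by
    refine hfl.trans ?_
    have h2 := comm_itC X m hX 1
    rw [Subgroup.commutator_comm]
    have e : itC X 1 = ⁅X, (⊤ : Subgroup G)⁆ := by rw [itC_succ, itC_zero]
    rw [e] at h2
    convert h2 using 2
    omega
  constructor
  · refine h1.trans ?_
    have := itC_le_lcs X m hX (m + 2)
    convert this using 2
    omega
  · have hne : itC X (m + 2) ≠ ⊥ := fun h => hYne (le_bot_iff.mp (h1.trans h.le))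
    calc p ^ (m + 2) ≤ (itC X (m + 2)).relIndex X := rel_chain hG X _ hne
      _ ≤ _ := rel_mono h1 (itC_anti X (Nat.zero_le _))

theorem comm_le_itC (X : Subgroup G) [X.Normal] (m : ℕ)
    (hX : X ≤ (⊤ : Subgroup G).lowerCentralSeries m) : ⁅X, X⁆ ≤ itC X (m + 1) := by
  have := comm_itC X m hX 0
  rw [itC_zero] at this
  simpa using this

/-- Unflagged step. -/
theorem noflag_step (hG : IsPGroup p G) (X : Subgroup G) [X.Normal] (m : ℕ)
    (hX : X ≤ (⊤ : Subgroup G).lowerCentralSeries m) (hYne : ⁅X, X⁆ ≠ ⊥)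
    (hr : p ^ 2 ≤ (itC X 1).relIndex X) :
    ⁅X, X⁆ ≤ (⊤ : Subgroup G).lowerCentralSeries (2 * m + 1) ∧ p ^ (m + 2) ≤ (⁅X, X⁆).relIndex X := by
  have h1 := comm_le_itC X m hX
  constructor
  · refine h1.trans ?_
    have := itC_le_lcs X m hX (m + 1)
    convert this using 2
    omega
  · haveI := itC_normal X 1
    have hne : itC X (m + 1) ≠ ⊥ := fun h => hYne (le_bot_iff.mp (h1.trans h.le))
    have hA1 : itC X 1 ≤ X := by simpa [itC_zero] using itC_le X 0
    have h2 : itC (itC X 1) m = itC X (m + 1) := by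
      rw [itC_add, add_comm]
    have h3 : p ^ m ≤ (itC X (m + 1)).relIndex (itC X 1) := by
      rw [← h2]
      exact rel_chain hG _ m (by rwa [h2])
    have h4 : itC X (m + 1) ≤ itC X 1 := itC_anti X (by omega)
    have h5 := Subgroup.relIndex_mul_relIndex (itC X (m + 1)) (itC X 1) X h4 hA1
    calc p ^ (m + 2) = p ^ m * p ^ 2 := pow_add _ _ _
      _ ≤ (itC X (m + 1)).relIndex (itC X 1) * (itC X 1).relIndex X := Nat.mul_le_mul h3 hr
      _ = (itC X (m + 1)).relIndex X := h5
      _ ≤ _ := rel_mono h1 (h4.trans hA1)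

/-- If the first factor is small we are in the flagged case. -/
theorem flag_of_small (hG : IsPGroup p G) (X : Subgroup G) [X.Normal]
    (hr : (itC X 1).relIndex X < p ^ 2) (hne : X ≠ ⊥) : ⁅X, X⁆ ≤ ⁅X, ⁅X, (⊤ : Subgroup G)⁆⁆ := by
  classical
  obtain ⟨s, hs⟩ := rel_pow hG (itC X 1) X
  have hs1 : s ≤ 1 := by
    rw [hs] at hr
    have := (Nat.pow_lt_pow_iff_right hp.out.one_lt).mp hr
    omega
  have hidx : ((itC X 1).subgroupOf X).index = p ^ 1 := by
    have h0 : s ≠ 0 := by
      rintro rfl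
      have h1 := one_lt_rel_of_nontriv hG X hne
      rw [hs, pow_zero] at h1
      exact absurd h1 (by have := hp.out.one_lt; omega)
    have h1 : s = 1 := by omega
    subst h1
    exact hs
  haveI : Finite X := inferInstance
  obtain ⟨S, hS, hcl⟩ := Cfsg.Agent.Lib.H6PGroup.exists_gens p 1 ((itC X 1).subgroupOf X) hidx
  obtain ⟨a, ha⟩ : ∃ a : X, S ⊆ {a} := by
    rcases Finset.card_le_one_iff_subset_singleton.mp hS with ⟨a, ha⟩
    exact ⟨a, ha⟩
  have e : itC X 1 = ⁅X, (⊤ : Subgroup G)⁆ := by rw [itC_succ, itC_zero]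
  haveI := itC_normal X 1
  rw [← e]
  refine flag_of_gen X (itC X 1) (by simpa [itC_zero] using itC_le X 0) a a.2 ?_
  refine gen_down X (itC X 1) (S : Set X) hcl _ ?_ ?_
  · intro s hs
    have h1 := ha hs
    rw [Finset.mem_singleton] at h1
    rw [h1]
    exact Subgroup.subset_closure (Set.mem_insert _ _)
  · intro r hr
    exact Subgroup.subset_closure (Set.mem_insert_of_mem _ hr)

/-- When the first step is as small as possible the next group is flagged. -/
theorem flag_next_of_small (hG : IsPGroup p G) (X : Subgroup G) [X.Normal] (m : ℕ)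
    (hX : X ≤ (⊤ : Subgroup G).lowerCentralSeries m) (hYne : ⁅X, X⁆ ≠ ⊥)
    (hr : p ^ 2 ≤ (itC X 1).relIndex X) (hsmall : (⁅X, X⁆).relIndex X < p ^ (m + 3)) :
    ⁅⁅X, X⁆, ⁅X, X⁆⁆ ≤ ⁅⁅X, X⁆, ⁅⁅X, X⁆, (⊤ : Subgroup G)⁆⁆ := by
  classical
  have h1 := comm_le_itC X m hX
  haveI := itC_normal X 1
  have hne : itC X (m + 1) ≠ ⊥ := fun h => hYne (le_bot_iff.mp (h1.trans h.le))
  have hA1 : itC X 1 ≤ X := by simpa [itC_zero] using itC_le X 0
  have h2 : itC (itC X 1) m = itC X (m + 1) := by
    rw [itC_add, add_comm]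
  have h3 : p ^ m ≤ (itC X (m + 1)).relIndex (itC X 1) := by
    rw [← h2]
    exact rel_chain hG _ m (by rwa [h2])
  have h4 : itC X (m + 1) ≤ itC X 1 := itC_anti X (by omega)
  have h5 := Subgroup.relIndex_mul_relIndex (itC X (m + 1)) (itC X 1) X h4 hA1
  have h6 := Subgroup.relIndex_mul_relIndex (⁅X, X⁆) (itC X (m + 1)) X h1 (h4.trans hA1)
  obtain ⟨e, he⟩ := rel_pow hG (itC X 1) X
  obtain ⟨f, hf⟩ := rel_pow hG (⁅X, X⁆) (itC X (m + 1))
  obtain ⟨g, hg⟩ := rel_pow hG (itC X (m + 1)) (itC X 1)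
  have hpp := hp.out
  have he2 : 2 ≤ e := by
    rw [he] at hr
    exact (Nat.pow_le_pow_iff_right hpp.one_lt).mp hr
  have hgm : m ≤ g := by
    rw [hg] at h3
    exact (Nat.pow_le_pow_iff_right hpp.one_lt).mp h3
  have htotal : (⁅X, X⁆).relIndex X = p ^ (f + (g + e)) := by
    rw [← h6, ← h5, hf, hg, he, pow_add, pow_add]
  rw [htotal] at hsmall
  have hlt := (Nat.pow_lt_pow_iff_right hpp.one_lt).mp hsmall
  have hf0 : f = 0 := by omega
  have he2' : e = 2 := by omega
  have hY : itC X (m + 1) = ⁅X, X⁆ := by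
    rw [hf0, pow_zero] at hf
    exact le_antisymm (Subgroup.relIndex_eq_one.mp hf) h1
  have hidx : ((itC X 1).subgroupOf X).index = p ^ 2 := by
    rw [← he2']; exact he
  obtain ⟨S, hS, hcl⟩ := Cfsg.Agent.Lib.H6PGroup.exists_gens p 2 ((itC X 1).subgroupOf X) hidx
  obtain ⟨a, b, hab⟩ : ∃ a b : X, S ⊆ {a, b} := by
    interval_cases hc : S.card
    · rw [Finset.card_eq_zero] at hc
      exact ⟨1, 1, by simp [hc]⟩
    · obtain ⟨a, rfl⟩ := Finset.card_eq_one.mp hc
      exact ⟨a, a, by simp⟩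
    · obtain ⟨a, b, -, rfl⟩ := Finset.card_eq_two.mp hc
      exact ⟨a, b, le_rfl⟩
  refine flag_next X m hX a b ?_ hY
  refine gen_down X (itC X 1) (S : Set X) hcl _ ?_ ?_
  · intro s hs
    have h7 := hab hs
    rw [Finset.mem_insert, Finset.mem_singleton] at h7
    rcases h7 with rfl | rfl
    · exact Subgroup.subset_closure (Set.mem_insert _ _)
    · exact Subgroup.subset_closure (Set.mem_insert_of_mem _ (Set.mem_insert _ _))
  · intro r hr
    exact Subgroup.subset_closure (Set.mem_insert_of_mem _ (Set.mem_insert_of_mem _ hr))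

/-- the constant of the bound -/
def cc (r : ℕ) : ℕ := if r = 1 then 2 else 2 * r - 1

theorem ds_ne_bot {i k : ℕ} (h : i ≤ k) (hk : derivedSeries G k ≠ ⊥) : derivedSeries G i ≠ ⊥ := by
  intro hi
  apply hk
  induction k, h using Nat.le_induction with
  | base => exact hi
  | succ k _ ih =>
    have hk' : derivedSeries G k ≠ ⊥ := by
      intro h0
      apply hk
      rw [derivedSeries_succ, h0]
      simp
    rw [derivedSeries_succ, ih hk']
    simp

theorem bound (hG : IsPGroup p G) (r : ℕ) (hr : 1 ≤ r) : ∀ (j m : ℕ),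
    derivedSeries G j ≤ (⊤ : Subgroup G).lowerCentralSeries m → derivedSeries G (j + r) ≠ ⊥ →
    (⁅derivedSeries G j, derivedSeries G j⁆ ≤
        ⁅derivedSeries G j, ⁅derivedSeries G j, (⊤ : Subgroup G)⁆⁆ →
      p ^ ((2 ^ r - 1) * (m + 1) + 2 * r) ≤ Nat.card (derivedSeries G j)) ∧
    p ^ ((2 ^ r - 1) * (m + 1) + cc r) ≤ Nat.card (derivedSeries G j) := by
  have hpp := hp.out
  have hppos := hpp.pos
  induction r, hr using Nat.le_induction with
  | base =>
    intro j m hX hne
    set X := derivedSeries G j with hXdef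
    haveI hXn : X.Normal := derivedSeries_normal G j
    have hYe : derivedSeries G (j + 1) = ⁅X, X⁆ := derivedSeries_succ G j
    have hYne : ⁅X, X⁆ ≠ ⊥ := by rw [← hYe]; exact hne
    have hXne : X ≠ ⊥ := ds_ne_bot (Nat.le_succ j) hne
    have hflag : ⁅X, X⁆ ≤ ⁅X, ⁅X, (⊤ : Subgroup G)⁆⁆ →
        p ^ (m + 3) ≤ Nat.card X := by
      intro hfl
      obtain ⟨-, h2⟩ := flag_step hG X m hX hYne hfl
      have h3 := card_ge_of_ne_bot hG (⁅X, X⁆) hYne
      rw [card_eq ((Subgroup.commutator_le_left X X))]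
      calc p ^ (m + 3) = p * p ^ (m + 2) := by ring
        _ ≤ _ := Nat.mul_le_mul h3 h2
    constructor
    · intro hfl
      have := hflag hfl
      convert this using 2
      norm_num
    · have hcc : cc 1 = 2 := rfl
      rw [hcc]
      have e : (2 ^ 1 - 1) * (m + 1) + 2 = m + 3 := by norm_num
      rw [e]
      by_cases hr1 : (itC X 1).relIndex X < p ^ 2
      · exact hflag (flag_of_small hG X hr1 hXne)
      · obtain ⟨-, h2⟩ := noflag_step hG X m hX hYne (not_lt.mp hr1)
        have h3 := card_ge_of_ne_bot hG (⁅X, X⁆) hYne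
        rw [card_eq ((Subgroup.commutator_le_left X X))]
        calc p ^ (m + 3) = p * p ^ (m + 2) := by ring
          _ ≤ _ := Nat.mul_le_mul h3 h2
  | succ r hr ih =>
    intro j m hX hne
    set X := derivedSeries G j with hXdef
    haveI hXn : X.Normal := derivedSeries_normal G j
    have hYe : derivedSeries G (j + 1) = ⁅X, X⁆ := derivedSeries_succ G j
    have hne' : derivedSeries G (j + 1 + r) ≠ ⊥ := by
      have : j + 1 + r = j + (r + 1) := by ring
      rwa [this]
    have hYne : ⁅X, X⁆ ≠ ⊥ := by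
      rw [← hYe]
      exact ds_ne_bot (by omega) hne'
    have hXne : X ≠ ⊥ := ds_ne_bot (by omega) hne
    obtain ⟨t, ht⟩ : ∃ t, t = 2 ^ r - 1 := ⟨_, rfl⟩
    have h2r : 2 ^ r = t + 1 := by
      have : 1 ≤ 2 ^ r := Nat.one_le_two_pow
      omega
    have ht' : 2 ^ (r + 1) - 1 = 2 * t + 1 := by
      rw [pow_succ, h2r]; omega
    rw [ht']
    have htlow : 1 ≤ t := by
      have : 2 ^ 1 ≤ 2 ^ r := Nat.pow_le_pow_right (by norm_num) hr
      omega
    have hcc1 : r = 1 ∨ (3 ≤ t ∧ cc r = 2 * r - 1) := by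
      by_cases h1 : r = 1
      · exact Or.inl h1
      · right
        constructor
        · have : 2 ^ 2 ≤ 2 ^ r := Nat.pow_le_pow_right (by norm_num) (by omega)
          omega
        · simp [cc, h1]
    have hcc2 : cc (r + 1) = 2 * (r + 1) - 1 := by
      have : r + 1 ≠ 1 := by omega
      unfold cc
      rw [if_neg this]
    have hflag : ⁅X, X⁆ ≤ ⁅X, ⁅X, (⊤ : Subgroup G)⁆⁆ →
        p ^ ((2 * t + 1) * (m + 1) + 2 * (r + 1)) ≤ Nat.card X := by
      intro hfl
      obtain ⟨h1, h2⟩ := flag_step hG X m hX hYne hfl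
      have h3 := (ih (j + 1) (2 * m + 2) (by rwa [hYe]) hne').2
      rw [hYe, ← ht] at h3
      rw [card_eq ((Subgroup.commutator_le_left X X))]
      have hmul := Nat.mul_le_mul h3 h2
      rw [← pow_add] at hmul
      refine le_trans (Nat.pow_le_pow_right hppos ?_) hmul
      have e1 : t * (2 * m + 2 + 1) = 2 * (t * (m + 1)) + t := by ring
      have e2 : (2 * t + 1) * (m + 1) = 2 * (t * (m + 1)) + (m + 1) := by ring
      rw [e1, e2]
      rcases hcc1 with rfl | ⟨h31, h32⟩
      · have : cc 1 = 2 := rfl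
        omega
      · rw [h32]
        omega
    constructor
    · exact hflag
    · rw [hcc2]
      by_cases hr1 : (itC X 1).relIndex X < p ^ 2
      · refine le_trans (Nat.pow_le_pow_right hppos ?_) (hflag (flag_of_small hG X hr1 hXne))
        omega
      · have hr2 := not_lt.mp hr1
        obtain ⟨h1, h2⟩ := noflag_step hG X m hX hYne hr2
        have hY' : derivedSeries G (j + 1) ≤ (⊤ : Subgroup G).lowerCentralSeries (2 * m + 1) := by
          rwa [hYe]
        obtain ⟨h3a, h3b⟩ := ih (j + 1) (2 * m + 1) hY' hne'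
        rw [hYe, ← ht] at h3a h3b
        have e1 : t * (2 * m + 1 + 1) = 2 * (t * (m + 1)) := by ring
        have e2 : (2 * t + 1) * (m + 1) = 2 * (t * (m + 1)) + (m + 1) := by ring
        rw [card_eq ((Subgroup.commutator_le_left X X))]
        by_cases hsm : (⁅X, X⁆).relIndex X < p ^ (m + 3)
        · have hfl := flag_next_of_small hG X m hX hYne hr2 hsm
          have hmul := Nat.mul_le_mul (h3a hfl) h2
          rw [← pow_add] at hmul
          refine le_trans (Nat.pow_le_pow_right hppos ?_) hmul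
          rw [e1, e2]
          omega
        · have hmul := Nat.mul_le_mul h3b (not_lt.mp hsm)
          rw [← pow_add] at hmul
          refine le_trans (Nat.pow_le_pow_right hppos ?_) hmul
          rw [e1, e2]
          have : 2 * r - 1 ≤ cc r := by
            rcases hcc1 with rfl | ⟨-, h32⟩
            · have : cc 1 = 2 := rfl
              omega
            · omega
          omega

end count


/-- Let P be a finite p-group of order p^n whose derived length is exactly k + 1 (the k-th derived subgroup is nontrivial and the (k+1)-st is trivial). Then n ≥ 2^k + 2k − 2. -/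
theorem result {P : Type*} [Group P] [Finite P] (p : ℕ) [Fact p.Prime] (n k : ℕ) (hcard : Nat.card P = p ^ n) (hk : derivedSeries P k ≠ ⊥) (hk' : derivedSeries P (k + 1) = ⊥) : 2 ^ k + 2 * k ≤ n + 2 := by
  rcases Nat.eq_zero_or_pos k with rfl | hk1
  · simp
  have hG : IsPGroup p P := IsPGroup.of_card hcard
  have hpp := (Fact.out : p.Prime)
  have h0 : derivedSeries P 0 ≤ (⊤ : Subgroup P).lowerCentralSeries 0 := by
    simp
  have h1 := (bound hG k hk1 0 0 h0 (by simpa using hk)).2
  have hc : Nat.card (derivedSeries P 0) = p ^ n := by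
    rw [derivedSeries_zero, Subgroup.card_top, hcard]
  rw [hc] at h1
  have h2 := (Nat.pow_le_pow_iff_right hpp.one_lt).mp h1
  have h3 : 1 ≤ 2 ^ k := Nat.one_le_two_pow
  by_cases hk2 : k = 1
  · subst hk2
    have : cc 1 = 2 := rfl
    rw [this] at h2
    omega
  · have : cc k = 2 * k - 1 := by simp [cc, hk2]
    rw [this] at h2
    omega

end Cfsg.Agent.S4009
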