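import Cfsg.Statements.S4013
import Cfsg.Agent.Lib.H6Basic
-- import your own Cfsg.Agent.* helpers here

set_option autoImplicit false
open Cfsg

namespace Cfsg.Agent.S4013

/-- Let G be a finite p-group (p prime) and N < M normal subgroups of G such that for some g ∈ M ∖ N the conjugacy class of g is exactly M ∖ N. Then p = 2 and N has index 2 in M. -/
theorem result {G : Type*} [Group G] [Finite G] (p : ℕ) [Fact p.Prime] (hG : IsPGroup p G) (N M : Subgroup G) [N.Normal] [M.Normal] (hNM : N < M) (g : G) (hgM : g ∈ M) (hgN : g ∉ N) (hcl : {h : G | IsConj g h} = (M : Set G) \ (N : Set G)) : p = 2 ∧ N.relIndex M = 2 := by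
  classical
  have hp : p.Prime := Fact.out
  have hle : N ≤ M := hNM.le
  obtain ⟨e, he⟩ := IsPGroup.iff_card.mp hG
  -- sizes
  have hclass : Nat.card {y : G // IsConj g y} = (Subgroup.centralizer ({g} : Set G)).index :=
    Cfsg.Agent.Lib.H6Basic.card_class_eq_index g
  have hdvd : Nat.card {y : G // IsConj g y} ∣ p ^ e := by
    rw [hclass, ← he]
    exact Subgroup.index_dvd_card _
  have hset : Nat.card {y : G // IsConj g y} = Set.ncard ((M : Set G) \ (N : Set G)) := by
    rw [← hcl]
    rfl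
  have hdiff : Set.ncard ((M : Set G) \ (N : Set G)) = Nat.card M - Nat.card N := by
    rw [Set.ncard_sdiff (by exact_mod_cast hle) (Set.toFinite _)]
    rfl
  set t := N.relIndex M with ht
  have hMcard : Nat.card N * t = Nat.card M := by
    have h1 := (N.subgroupOf M).card_mul_index
    have h2 : Nat.card (N.subgroupOf M) = Nat.card N :=
      Nat.card_congr (Subgroup.subgroupOfEquivOfLe hle).toEquiv
    rw [h2] at h1
    exact h1
  have ht1 : t ≠ 1 := by
    intro h
    rw [ht, Subgroup.relIndex_eq_one] at h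
    exact hNM.not_ge h
  have ht0 : t ≠ 0 := by
    intro h
    rw [h, mul_zero] at hMcard
    exact Nat.card_pos.ne' hMcard.symm
  have hNpos : 0 < Nat.card N := Nat.card_pos
  have hsz : Nat.card {y : G // IsConj g y} = Nat.card N * (t - 1) := by
    rw [hset, hdiff, ← hMcard, Nat.mul_sub, mul_one]
  have hd1 : t - 1 ∣ p ^ e := by
    rw [hsz] at hdvd
    exact (dvd_mul_left _ _).trans hdvd
  have hd2 : t ∣ p ^ e := by
    rw [← he]
    exact (dvd_mul_left _ _).trans (hMcard ▸ Subgroup.card_subgroup_dvd_card M)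
  obtain ⟨a, -, ha⟩ := (Nat.dvd_prime_pow hp).mp hd1
  obtain ⟨b, -, hb⟩ := (Nat.dvd_prime_pow hp).mp hd2
  have hb0 : b ≠ 0 := by
    rintro rfl
    exact ht1 (by simpa using hb)
  have ha0 : a = 0 := by
    by_contra ha0
    have h1 : p ∣ t := by rw [hb]; exact dvd_pow_self _ hb0
    have h2 : p ∣ t - 1 := by rw [ha]; exact dvd_pow_self _ ha0
    have h3 : p ∣ t - (t - 1) := Nat.dvd_sub h1 h2
    have h4 : t - (t - 1) = 1 := by omega
    rw [h4] at h3
    exact hp.one_lt.ne' (Nat.dvd_one.mp h3)
  have ht2 : t = 2 := by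
    rw [ha0, pow_zero] at ha
    omega
  refine ⟨?_, ht2⟩
  have h5 : p ∣ 2 := by
    rw [← ht2, hb]
    exact dvd_pow_self _ hb0
  exact (Nat.prime_dvd_prime_iff_eq hp Nat.prime_two).mp h5

end Cfsg.Agent.S4013
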