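import Mathlib
import Cfsg.Statements.S4014
-- import your own Cfsg.Agent.* helpers here

set_option autoImplicit false
open Cfsg

namespace Cfsg.Agent.S4014


set_option autoImplicit false
set_option linter.all false

section H6S

open scoped commutatorElement

theorem dS_le_map {H : Type} [Group H] (M : Subgroup H) (hM : commutator H ≤ M) (k : ℕ) :
    derivedSeries H (k + 1) ≤ (derivedSeries M k).map M.subtype := by
  induction k with
  | zero =>
    rw [derivedSeries_succ, derivedSeries_zero, derivedSeries_zero, ← commutator_def]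
    intro x hx
    exact ⟨⟨x, hM hx⟩, trivial, rfl⟩
  | succ k ih =>
    rw [derivedSeries_succ, derivedSeries_succ M k, Subgroup.map_commutator]
    exact Subgroup.commutator_mono ih ih

theorem comm_le_of_index {H : Type} [Group H] [Finite H] {p : ℕ} [Fact p.Prime] (M : Subgroup H) [M.Normal]
    (hM : M.index = p) : commutator H ≤ M := by
  have hc : Nat.card (H ⧸ M) = p := hM
  haveI : IsCyclic (H ⧸ M) := isCyclic_of_prime_card hc
  rw [commutator_def, Subgroup.commutator_le]
  intro x _ y _
  rw [← QuotientGroup.eq_one_iff, commutatorElement_def]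
  have hcomm : (x : H ⧸ M) * (y : H ⧸ M) = (y : H ⧸ M) * (x : H ⧸ M) := by
    obtain ⟨g, hg⟩ := IsCyclic.exists_generator (α := H ⧸ M)
    obtain ⟨a, ha⟩ := Subgroup.mem_zpowers_iff.1 (hg (x : H ⧸ M))
    obtain ⟨b, hb⟩ := Subgroup.mem_zpowers_iff.1 (hg (y : H ⧸ M))
    rw [← ha, ← hb, ← zpow_add, ← zpow_add, add_comm]
  simp only [QuotientGroup.mk_mul, QuotientGroup.mk_inv, hcomm]
  group

theorem upper {p : ℕ} [Fact p.Prime] (k : ℕ) : ∀ (H : Type) [Group H] [Finite H] (hH : IsPGroup p H) (S : Subgroup H),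
    S.index < p ^ (k + 1) → derivedSeries H k ≤ S := by
  have hp : p.Prime := Fact.out
  induction k with
  | zero =>
    intro H _ _ hH S hS
    have hS1 : S.index = 1 := by
      obtain ⟨a, ha⟩ := IsPGroup.iff_card.1 hH
      have h1 : S.index ∣ p ^ a := ha ▸ S.index_dvd_card
      obtain ⟨c, _, hc⟩ := (Nat.dvd_prime_pow hp).1 h1
      rw [hc] at hS ⊢
      have h0 : c = 0 := by
        by_contra h0
        have h2 : p ^ 1 ≤ p ^ c := Nat.pow_le_pow_right hp.pos (by omega)
        simp only [zero_add] at hS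
        omega
      simp [h0]
    rw [Subgroup.index_eq_one] at hS1
    rw [hS1]
    exact le_top
  | succ k ih =>
    intro H _ _ hH S hS
    by_cases hT : S = ⊤
    · rw [hT]
      exact le_top
    obtain ⟨a, ha⟩ := IsPGroup.iff_card.1 hH
    obtain ⟨b, hb⟩ := IsPGroup.iff_card.1 (hH.to_subgroup S)
    have hcardS : Nat.card S * S.index = p ^ a := by
      rw [Subgroup.card_mul_index, ha]
    have hba : b < a := by
      by_contra hle
      have h1 : a ≤ b := by omega
      have h2 : p ^ a ≤ p ^ b := Nat.pow_le_pow_right hp.pos h1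
      have h3 : S.index ≠ 0 := Subgroup.index_ne_zero_of_finite
      have h4 : S.index = 1 := by
        rw [hb] at hcardS
        have h5 : p ^ b ≤ p ^ b * S.index := Nat.le_mul_of_pos_right _ (Nat.pos_of_ne_zero h3)
        have h6 : p ^ b * S.index = p ^ b := le_antisymm (by rw [hcardS]; exact h2) h5
        exact Nat.eq_of_mul_eq_mul_left (pow_pos hp.pos b) (by rw [h6, mul_one])
      exact hT (Subgroup.index_eq_one.1 h4)
    have hdvd : p ^ (a - 1) ∣ Nat.card H := by
      rw [ha]
      exact pow_dvd_pow p (by omega)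
    obtain ⟨M, hM, hSM⟩ := Sylow.exists_subgroup_card_pow_prime_le p hdvd S hb (by omega)
    have hMindex : M.index = p := by
      have h1 : Nat.card M * M.index = p ^ a := by
        rw [Subgroup.card_mul_index, ha]
      rw [hM] at h1
      have h2 : p ^ a = p ^ (a - 1) * p := by
        rw [← pow_succ]
        congr 1
        omega
      rw [h2] at h1
      exact Nat.eq_of_mul_eq_mul_left (pow_pos hp.pos _) h1
    haveI hMn : M.Normal := by
      apply Subgroup.normal_of_index_eq_minFac_card
      rw [hMindex, ha]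
      have ha0 : a ≠ 0 := by omega
      rw [Nat.Prime.pow_minFac hp ha0]
    have hcomm : commutator H ≤ M := comm_le_of_index (p := p) M hMindex
    have hrel : (S.subgroupOf M).index * M.index = S.index := Subgroup.relIndex_mul_index hSM
    have hlt : (S.subgroupOf M).index < p ^ (k + 1) := by
      rw [hMindex] at hrel
      rw [← hrel, pow_succ p (k + 1)] at hS
      exact Nat.lt_of_mul_lt_mul_right hS
    have h1 := ih M (hH.to_subgroup M) (S.subgroupOf M) hlt
    refine (dS_le_map M hcomm k).trans ?_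
    refine (Subgroup.map_mono h1).trans ?_
    rw [Subgroup.subgroupOf_map_subtype]
    exact inf_le_left

section wr

variable {D Q : Type} [Group D] [Group Q]

theorem P_mul {a b : RegularWreathProduct D Q} (ha : a.right = 1) (hb : b.right = 1) :
    (a * b).right = 1 ∧ (a * b).left 1 = a.left 1 * b.left 1 := by
  constructor
  · rw [RegularWreathProduct.mul_right, ha, hb, one_mul]
  · rw [RegularWreathProduct.mul_left, Pi.mul_apply, ha]
    simp

theorem P_inv {a : RegularWreathProduct D Q} (ha : a.right = 1) :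
    (a⁻¹).right = 1 ∧ (a⁻¹).left 1 = (a.left 1)⁻¹ := by
  constructor
  · rw [RegularWreathProduct.inv_right, ha, inv_one]
  · rw [RegularWreathProduct.inv_left, ha]
    simp

theorem P_comm {a b : RegularWreathProduct D Q} (ha : a.right = 1) (hb : b.right = 1) :
    ⁅a, b⁆.right = 1 ∧ ⁅a, b⁆.left 1 = ⁅a.left 1, b.left 1⁆ := by
  rw [commutatorElement_def, commutatorElement_def]
  obtain ⟨h1, h2⟩ := P_mul ha hb
  obtain ⟨h3, h4⟩ := P_inv ha
  obtain ⟨h5, h6⟩ := P_inv hb
  obtain ⟨h7, h8⟩ := P_mul h1 h3
  obtain ⟨h9, h10⟩ := P_mul h7 h5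
  exact ⟨h9, by rw [h10, h8, h2, h4, h6]⟩

theorem wreath_step (q : Q) (hq : q ≠ 1) (j : ℕ) :
    ∀ d ∈ derivedSeries D j, ∃ a ∈ derivedSeries (RegularWreathProduct D Q) (j + 1), a.right = 1 ∧ a.left 1 = d := by
  classical
  induction j with
  | zero =>
    intro d _
    let x : RegularWreathProduct D Q := ⟨Pi.mulSingle 1 d, 1⟩
    let t : RegularWreathProduct D Q := RegularWreathProduct.inl q
    have hxr : x.right = 1 := rfl
    have htr : t.right = q := rfl
    have htl : t.left = 1 := rfl
    have hq' : q⁻¹ ≠ 1 := by simpa using hq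
    refine ⟨⁅x, t⁆, ?_, ?_, ?_⟩
    · rw [derivedSeries_succ, derivedSeries_zero]
      exact Subgroup.commutator_mem_commutator (Subgroup.mem_top _) (Subgroup.mem_top _)
    · rw [commutatorElement_def]
      simp [RegularWreathProduct.mul_right, RegularWreathProduct.inv_right, hxr, htr]
    · rw [commutatorElement_def, RegularWreathProduct.mul_left, RegularWreathProduct.mul_left,
        RegularWreathProduct.mul_left]
      simp only [Pi.mul_apply, RegularWreathProduct.inv_left, RegularWreathProduct.mul_right,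
        RegularWreathProduct.inv_right, hxr, htr, htl]
      have h1 : x.left = Pi.mulSingle 1 d := rfl
      simp [h1, Pi.mulSingle_eq_of_ne hq']
  | succ j ih =>
    intro d hd
    rw [derivedSeries_succ, Subgroup.commutator_def] at hd
    induction hd using Subgroup.closure_induction with
    | mem d hd =>
      obtain ⟨d₁, h₁, d₂, h₂, rfl⟩ := hd
      obtain ⟨a₁, ha₁, ha₁r, ha₁l⟩ := ih d₁ h₁
      obtain ⟨a₂, ha₂, ha₂r, ha₂l⟩ := ih d₂ h₂
      obtain ⟨h3, h4⟩ := P_comm ha₁r ha₂r
      refine ⟨⁅a₁, a₂⁆, ?_, h3, by rw [h4, ha₁l, ha₂l]⟩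
      rw [derivedSeries_succ]
      exact Subgroup.commutator_mem_commutator ha₁ ha₂
    | one => exact ⟨1, one_mem _, rfl, rfl⟩
    | mul x y _ _ hx hy =>
      obtain ⟨a, ha, har, hal⟩ := hx
      obtain ⟨b, hb, hbr, hbl⟩ := hy
      obtain ⟨h3, h4⟩ := P_mul har hbr
      exact ⟨a * b, mul_mem ha hb, h3, by rw [h4, hal, hbl]⟩
    | inv x _ hx =>
      obtain ⟨a, ha, har, hal⟩ := hx
      obtain ⟨h3, h4⟩ := P_inv har
      exact ⟨a⁻¹, inv_mem ha, h3, by rw [h4, hal]⟩

theorem wreath_ne (q : Q) (hq : q ≠ 1) (j : ℕ) (h : derivedSeries D j ≠ ⊥) :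
    derivedSeries (RegularWreathProduct D Q) (j + 1) ≠ ⊥ := by
  rcases Subgroup.bot_or_exists_ne_one (derivedSeries D j) with h0 | ⟨d, hd, hd1⟩
  · exact absurd h0 h
  obtain ⟨a, ha, _, hal⟩ := wreath_step q hq j d hd
  intro h1
  rw [h1, Subgroup.mem_bot] at ha
  apply hd1
  rw [← hal, ha]
  rfl

end wr

theorem exists_tower (p : ℕ) [Fact p.Prime] (k : ℕ) : ∃ (D : Type) (_ : Group D) (_ : Finite D) (X : Type) (_ : Finite X)
    (_ : MulAction D X) (_ : FaithfulSMul D X),
    IsPGroup p D ∧ Nat.card X = p ^ (k + 1) ∧ derivedSeries D k ≠ ⊥ := by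
  have hp : p.Prime := Fact.out
  haveI : Fact (1 < p) := ⟨hp.one_lt⟩
  induction k with
  | zero =>
    refine ⟨Multiplicative (ZMod p), inferInstance, inferInstance, Multiplicative (ZMod p), inferInstance,
      inferInstance, inferInstance, ?_, ?_, ?_⟩
    · apply IsPGroup.of_card (n := 1)
      simp [Nat.card_zmod]
    · simp [Nat.card_zmod]
    · rw [derivedSeries_zero]
      exact top_ne_bot
  | succ k ih =>
    obtain ⟨D, _, _, X, _, _, _, hD, hX, hne⟩ := ih
    obtain ⟨q, hq⟩ := exists_ne (1 : Multiplicative (ZMod p))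
    haveI : Nonempty X := by
      apply (Nat.card_pos_iff.1 _).1
      rw [hX]
      exact pow_pos hp.pos _
    refine ⟨RegularWreathProduct D (Multiplicative (ZMod p)), inferInstance, inferInstance,
      X × Multiplicative (ZMod p), inferInstance, inferInstance, inferInstance, ?_, ?_, ?_⟩
    · obtain ⟨a, ha⟩ := IsPGroup.iff_card.1 hD
      apply IsPGroup.of_card (n := a * p + 1)
      rw [RegularWreathProduct.card, ha]
      simp [Nat.card_zmod, pow_succ, pow_mul]
    · rw [Nat.card_prod, hX]
      simp [Nat.card_zmod, pow_succ]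
    · exact wreath_ne q hq k hne

end H6S

/-- Let p be a prime, n ≥ 1, and P a Sylow p-subgroup of the symmetric group on n letters. Then the derived length of P is exactly k = ⌊log_p n⌋ (the largest k with p^k ≤ n): the k-th derived subgroup of P is trivial and, when k ≥ 1, the (k−1)-st is not. -/
theorem result (p : ℕ) [Fact p.Prime] (n : ℕ) (hn : 1 ≤ n) (P : Sylow p (Equiv.Perm (Fin n))) : derivedSeries ↥(P : Subgroup (Equiv.Perm (Fin n))) (Nat.log p n) = ⊥ ∧ (1 ≤ Nat.log p n → derivedSeries ↥(P : Subgroup (Equiv.Perm (Fin n))) (Nat.log p n - 1) ≠ ⊥) := by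
  have hp : p.Prime := Fact.out
  have hn0 : n ≠ 0 := by omega
  constructor
  · rw [eq_bot_iff]
    intro g hg
    rw [Subgroup.mem_bot]
    apply Subtype.ext
    apply Equiv.ext
    intro x
    have hidx : (MulAction.stabilizer (↥(P : Subgroup (Equiv.Perm (Fin n)))) x).index < p ^ (Nat.log p n + 1) := by
      rw [MulAction.index_stabilizer]
      have h1 : (MulAction.orbit (↥(P : Subgroup (Equiv.Perm (Fin n)))) x).ncard ≤ n := by
        have h2 := Set.ncard_le_ncard (Set.subset_univ (MulAction.orbit (↥(P : Subgroup (Equiv.Perm (Fin n)))) x))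
        rw [Set.ncard_univ, Nat.card_fin] at h2
        exact h2
      exact lt_of_le_of_lt h1 (Nat.lt_pow_succ_log_self hp.one_lt n)
    have h1 := upper (p := p) (Nat.log p n) (↥(P : Subgroup (Equiv.Perm (Fin n)))) P.2 _ hidx hg
    exact h1
  · intro hlog
    obtain ⟨k, hk⟩ : ∃ k, Nat.log p n = k + 1 := ⟨Nat.log p n - 1, by omega⟩
    rw [hk, Nat.add_sub_cancel]
    obtain ⟨D, _, _, X, _, _, _, hD, hX, hne⟩ := exists_tower p k
    have hple : Nat.card X ≤ n := by
      rw [hX, ← hk]
      exact Nat.pow_log_le_self p hn0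
    haveI := Fintype.ofFinite X
    obtain ⟨ι⟩ : Nonempty (X ↪ Fin n) := by
      apply Function.Embedding.nonempty_of_card_le
      rw [← Nat.card_eq_fintype_card, Fintype.card_fin]
      exact hple
    let φ : D →* Equiv.Perm (Fin n) := (Equiv.Perm.viaEmbeddingHom ι).comp (MulAction.toPermHom D X)
    have hφ : Function.Injective φ :=
      (Equiv.Perm.viaEmbeddingHom_injective ι).comp MulAction.toPerm_injective
    have hrange : IsPGroup p φ.range := IsPGroup.of_surjective hD φ.rangeRestrict φ.rangeRestrict_surjective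
    obtain ⟨Q, hQ⟩ := hrange.exists_le_sylow
    obtain ⟨g, hg⟩ := MulAction.exists_smul_eq (Equiv.Perm (Fin n)) Q P
    have hmem : ∀ x, g * φ x * g⁻¹ ∈ (P : Subgroup (Equiv.Perm (Fin n))) := by
      intro x
      rw [← hg, Sylow.coe_subgroup_smul, Subgroup.mem_pointwise_smul_iff_inv_smul_mem]
      have h1 : φ x ∈ (Q : Subgroup (Equiv.Perm (Fin n))) := hQ ⟨x, rfl⟩
      have h2 : (MulAut.conj g)⁻¹ • (g * φ x * g⁻¹) = φ x := by
        rw [MulAut.smul_def, MulAut.conj_inv_apply]
        group
      rw [h2]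
      exact h1
    let ψ : D →* ↥(P : Subgroup (Equiv.Perm (Fin n))) :=
      { toFun := fun x => ⟨g * φ x * g⁻¹, hmem x⟩
        map_one' := by
          apply Subtype.ext
          simp
        map_mul' := by
          intro x y
          apply Subtype.ext
          simp [mul_assoc] }
    have hψ : Function.Injective ψ := by
      intro x y hxy
      apply hφ
      have h1 : g * φ x * g⁻¹ = g * φ y * g⁻¹ := congrArg Subtype.val hxy
      exact mul_left_cancel (mul_right_cancel h1)
    intro hbot
    apply hne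
    rw [eq_bot_iff]
    intro d hd
    have h1 := map_derivedSeries_le_derivedSeries ψ k ⟨d, hd, rfl⟩
    rw [hbot, Subgroup.mem_bot] at h1
    rw [Subgroup.mem_bot]
    exact hψ (by rw [h1, map_one])

end Cfsg.Agent.S4014
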