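import Mathlib
import Cfsg.Statements.S4027
import Cfsg.Agent.Lib.H6Real
-- import your own Cfsg.Agent.* helpers here

set_option autoImplicit false
open Cfsg

namespace Cfsg.Agent.S4027

/-- Let G be a finite group in which every element x of odd order satisfies N_G(⟨x⟩) = C_G(x). Then the Sylow 2-subgroups of G are normal. -/
theorem result {G : Type*} [Group G] [Finite G]
    (hirr : ∀ x : G, (∀ r : ℕ, r.Prime → r ∣ orderOf x → r ≠ 2) →
      Subgroup.normalizer ((Subgroup.zpowers x : Subgroup G) : Set G) ≤ Subgroup.centralizer {x}) (P : Sylow 2 G) :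
    (P : Subgroup G).Normal := by
  classical
  refine Cfsg.Agent.Lib.H6Real.sylow_normal_of_noOddReal _ G rfl ?_ P
  intro x hx1 hxo hc
  obtain ⟨g, hg⟩ := isConj_iff.mp hc
  have hg' : g⁻¹ * x * g = x⁻¹ := by
    have h1 : x = g * x⁻¹ * g⁻¹ := by
      have h0 : g * x⁻¹ * g⁻¹ = (g * x * g⁻¹)⁻¹ := by group
      rw [h0, hg, inv_inv]
    have h2 : g⁻¹ * x * g = x⁻¹ := by
      nth_rw 1 [h1]
      group
    exact h2
  have hnorm : g ∈ Subgroup.normalizer ((Subgroup.zpowers x : Subgroup G) : Set G) := by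
    rw [Subgroup.mem_normalizer_iff]
    intro h
    constructor
    · intro hh
      obtain ⟨i, rfl⟩ := Subgroup.mem_zpowers_iff.mp hh
      rw [← conj_zpow, hg]
      exact Subgroup.zpow_mem _ (Subgroup.inv_mem _ (Subgroup.mem_zpowers x)) i
    · intro hh
      obtain ⟨i, hi⟩ := Subgroup.mem_zpowers_iff.mp hh
      have h3 : h = g⁻¹ * (g * h * g⁻¹) * g := by group
      rw [h3, ← hi]
      have h4 := conj_zpow (a := g⁻¹) (i := i) (b := x)
      rw [inv_inv] at h4
      rw [← h4, hg']
      exact Subgroup.zpow_mem _ (Subgroup.inv_mem _ (Subgroup.mem_zpowers x)) i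
  have hodd : ∀ r : ℕ, r.Prime → r ∣ orderOf x → r ≠ 2 := by
    rintro r - hr rfl
    exact (Nat.not_even_iff_odd.mpr hxo) (even_iff_two_dvd.mpr hr)
  have hcent := hirr x hodd hnorm
  rw [Subgroup.mem_centralizer_singleton_iff] at hcent
  have h5 : x = x⁻¹ := by
    rw [← hg, hcent]
    group
  have h6 : x ^ 2 = 1 := by
    rw [pow_two]
    nth_rw 1 [h5]
    group
  have h7 := orderOf_dvd_of_pow_eq_one h6
  have h8 : orderOf x = 1 := by
    rcases (Nat.dvd_prime Nat.prime_two).mp h7 with h9 | h9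
    · exact h9
    · exfalso
      rw [h9] at hxo
      exact (by decide : ¬ Odd 2) hxo
  exact hx1 (orderOf_eq_one_iff.mp h8)

end Cfsg.Agent.S4027
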