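import Mathlib
import Cfsg.Statements.S4028
import Cfsg.Agent.Lib.PResidual
import Cfsg.Agent.Lib.SylowCount
-- import your own Cfsg.Agent.* helpers here

set_option autoImplicit false
open Cfsg

namespace Cfsg.Agent.S4028

theorem mem_zpowers_coe {G : Type*} [Group G] (P : Subgroup G) (y h : P) :
    h ∈ Subgroup.zpowers y ↔ (h : G) ∈ Subgroup.zpowers (y : G) := by
  rw [Subgroup.mem_zpowers_iff, Subgroup.mem_zpowers_iff]
  constructor
  · rintro ⟨k, hk⟩
    exact ⟨k, by rw [← hk]; rfl⟩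
  · rintro ⟨k, hk⟩
    exact ⟨k, Subtype.ext (by rw [← hk]; rfl)⟩

/-- An element of odd order normalizing a cyclic `2`-group centralizes it. -/
theorem comm_of_odd {G : Type*} [Group G] [Finite G] (x u : G)
    (hx : ∀ r : ℕ, r.Prime → r ∣ orderOf x → r = 2) (hu : (orderOf u).Coprime 2)
    (hn : u ∈ Subgroup.normalizer ((Subgroup.zpowers x : Subgroup G) : Set G)) : u * x = x * u := by
  classical
  set H : Subgroup G := Subgroup.zpowers x with hH
  have hcard : Nat.card (MulAut H) = Nat.totient (orderOf x) := by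
    rw [IsCyclic.card_mulAut, hH, Nat.card_zpowers]
  have hord : ∃ e, orderOf x = 2 ^ e := by
    refine ⟨(orderOf x).primeFactorsList.length, ?_⟩
    exact Nat.eq_prime_pow_of_unique_prime_dvd (orderOf_pos x).ne' (fun {d} hd hd2 => hx d hd hd2)
  obtain ⟨e, he⟩ := hord
  have hd : ∃ t, Nat.card (MulAut H) = 2 ^ t := by
    rw [hcard, he]
    rcases Nat.eq_zero_or_pos e with rfl | h0
    · exact ⟨0, by simp⟩
    · exact ⟨e - 1, by rw [Nat.totient_prime_pow Nat.prime_two h0]; simp⟩
  obtain ⟨t, ht⟩ := hd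
  let φ := H.normalizerMonoidHom
  let u' : Subgroup.normalizer ((H : Subgroup G) : Set G) := ⟨u, hn⟩
  have h1 : orderOf (φ u') ∣ orderOf u := by
    have h2 : orderOf u' = orderOf u := Subgroup.orderOf_mk _ _
    rw [← h2]
    exact orderOf_map_dvd φ u'
  have h3 : orderOf (φ u') ∣ 2 ^ t := by
    rw [← ht]
    exact orderOf_dvd_natCard _
  have h4 : orderOf (φ u') ∣ 1 := by
    have hcop : (orderOf u).Coprime (2 ^ t) := Nat.Coprime.pow_right _ hu
    rw [← hcop.gcd_eq_one]
    exact Nat.dvd_gcd h1 h3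
  have h5 : φ u' = 1 := orderOf_eq_one_iff.mp (Nat.dvd_one.mp h4)
  have h6 : u' ∈ φ.ker := h5
  rw [Subgroup.normalizerMonoidHom_ker] at h6
  have h7 : u ∈ Subgroup.centralizer ((H : Subgroup G) : Set G) := h6
  rw [Subgroup.mem_centralizer_iff] at h7
  exact (h7 x (Subgroup.mem_zpowers x)).symm


/-- Let G be a finite group with Sylow 2-subgroup P. Then N_G(⟨x⟩) = C_G(x) holds for every 2-element x of G if and only if N_P(⟨y⟩) = C_P(y) holds for every y ∈ P (computed inside P). -/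
theorem result {G : Type*} [Group G] [Finite G] (P : Sylow 2 G) :
    (∀ x : G, (∀ r : ℕ, r.Prime → r ∣ orderOf x → r = 2) →
      Subgroup.normalizer ((Subgroup.zpowers x : Subgroup G) : Set G) ≤ Subgroup.centralizer {x}) ↔
    (∀ y : ↥(P : Subgroup G), Subgroup.normalizer ((Subgroup.zpowers y : Subgroup ↥(P : Subgroup G)) : Set ↥(P : Subgroup G)) ≤
        Subgroup.centralizer {y}) := by
  classical
  obtain ⟨k₀, hk₀⟩ := IsPGroup.iff_card.mp P.isPGroup'
  have h2p : Nat.Prime 2 := Nat.prime_two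
  constructor
  · intro hG y n hn
    have hy2 : ∀ r : ℕ, r.Prime → r ∣ orderOf (y : G) → r = 2 := by
      intro r hr hd
      have h1 : orderOf (y : G) = orderOf y := Subgroup.orderOf_coe y
      rw [h1] at hd
      have h2 : r ∣ 2 ^ k₀ := by
        rw [← hk₀]
        exact hd.trans (orderOf_dvd_natCard y)
      exact (Nat.prime_dvd_prime_iff_eq hr h2p).mp (hr.dvd_of_dvd_pow h2)
    have hnG : (n : G) ∈ Subgroup.normalizer ((Subgroup.zpowers (y : G) : Subgroup G) : Set G) := by
      rw [Subgroup.mem_normalizer_iff_map_conj_eq]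
      have hle : (Subgroup.zpowers (y : G)).map (MulAut.conj (n : G)).toMonoidHom ≤ Subgroup.zpowers (y : G) := by
        rw [MonoidHom.map_zpowers, Subgroup.zpowers_le]
        have h1 : n * y * n⁻¹ ∈ Subgroup.zpowers y :=
          (Subgroup.mem_normalizer_iff.mp hn y).mp (Subgroup.mem_zpowers y)
        exact (mem_zpowers_coe _ y _).mp h1
      exact Subgroup.eq_of_le_of_card_ge hle
        (Subgroup.card_map_of_injective (MulAut.conj (n : G)).injective).ge
    have h3 := hG (y : G) hy2 hnG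
    rw [Subgroup.mem_centralizer_singleton_iff] at h3 ⊢
    exact Subtype.ext h3
  · intro hP x hx g hg
    rw [Subgroup.mem_centralizer_singleton_iff]
    obtain ⟨u, v, hguv, hcomm, hu, ⟨k, hv⟩, huz, hvz⟩ := Cfsg.Agent.Lib.PResidual.exists_decomp (p := 2) g
    have hzn : ∀ w ∈ Subgroup.zpowers g, w ∈ Subgroup.normalizer ((Subgroup.zpowers x : Subgroup G) : Set G) := by
      have : Subgroup.zpowers g ≤ Subgroup.normalizer ((Subgroup.zpowers x : Subgroup G) : Set G) := by
        rw [Subgroup.zpowers_le]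
        exact hg
      exact this
    have hux : u * x = x * u := comm_of_odd x u hx hu (hzn u huz)
    have hvn := hzn v hvz
    -- `v` is a `2`-element normalizing `⟨x⟩`
    have hxp : IsPGroup 2 (Subgroup.zpowers x) := by
      obtain ⟨e, he⟩ : ∃ e, orderOf x = 2 ^ e :=
        ⟨(orderOf x).primeFactorsList.length,
          Nat.eq_prime_pow_of_unique_prime_dvd (orderOf_pos x).ne' (fun {d} hd hd2 => hx d hd hd2)⟩
      apply IsPGroup.of_card (n := e)
      rw [Nat.card_zpowers, he]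
    have hvp : IsPGroup 2 (Subgroup.zpowers v) := by
      apply IsPGroup.of_card (n := k)
      rw [Nat.card_zpowers, hv]
    have hsup : IsPGroup 2 ((Subgroup.zpowers v ⊔ Subgroup.zpowers x : Subgroup G)) :=
      hvp.to_sup_of_normal_right' hxp (by
        rw [Subgroup.zpowers_le]
        exact hvn)
    obtain ⟨T, hT⟩ := hsup.exists_le_sylow
    obtain ⟨w, rfl⟩ := MulAction.exists_smul_eq G P T
    have hmem : ∀ z ∈ (Subgroup.zpowers v ⊔ Subgroup.zpowers x : Subgroup G), w⁻¹ * z * w ∈ (P : Subgroup G) := by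
      intro z hz
      have h1 : z ∈ ((w • P : Sylow 2 G) : Subgroup G) := hT hz
      exact (Cfsg.Agent.Lib.SylowCount.mem_smul_sylow w z P).mp h1
    let x' : (P : Subgroup G) := ⟨w⁻¹ * x * w, hmem x ((le_sup_right : Subgroup.zpowers x ≤ _) (Subgroup.mem_zpowers x))⟩
    let v' : (P : Subgroup G) := ⟨w⁻¹ * v * w, hmem v ((le_sup_left : Subgroup.zpowers v ≤ _) (Subgroup.mem_zpowers v))⟩
    have hconjz : ∀ z : G, z ∈ Subgroup.zpowers (w⁻¹ * x * w) ↔ w * z * w⁻¹ ∈ Subgroup.zpowers x := by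
      intro z
      rw [Subgroup.mem_zpowers_iff, Subgroup.mem_zpowers_iff]
      constructor
      · rintro ⟨n, hn⟩
        refine ⟨n, ?_⟩
        rw [← hn]
        have : w⁻¹ * x * w = w⁻¹ * x * w⁻¹⁻¹ := by simp
        rw [this, conj_zpow]
        group
      · rintro ⟨n, hn⟩
        refine ⟨n, ?_⟩
        have : w⁻¹ * x * w = w⁻¹ * x * w⁻¹⁻¹ := by simp
        rw [this, conj_zpow, hn]
        group
    have hv'n : v' ∈ Subgroup.normalizer ((Subgroup.zpowers x' : Subgroup (P : Subgroup G)) : Set (P : Subgroup G)) := by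
      rw [Subgroup.mem_normalizer_iff]
      intro h
      rw [mem_zpowers_coe, mem_zpowers_coe]
      change (h : G) ∈ Subgroup.zpowers (w⁻¹ * x * w) ↔
        (w⁻¹ * v * w) * (h : G) * (w⁻¹ * v * w)⁻¹ ∈ Subgroup.zpowers (w⁻¹ * x * w)
      rw [hconjz, hconjz]
      have h2 : w * ((w⁻¹ * v * w) * (h : G) * (w⁻¹ * v * w)⁻¹) * w⁻¹ = v * (w * (h : G) * w⁻¹) * v⁻¹ := by group
      rw [h2]
      exact Subgroup.mem_normalizer_iff.mp hvn _
    have h3 := hP x' hv'n
    rw [Subgroup.mem_centralizer_singleton_iff] at h3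
    have h4 : (w⁻¹ * v * w) * (w⁻¹ * x * w) = (w⁻¹ * x * w) * (w⁻¹ * v * w) := congrArg Subtype.val h3
    have hvx : v * x = x * v := by
      have h5 : w * ((w⁻¹ * v * w) * (w⁻¹ * x * w)) * w⁻¹ = w * ((w⁻¹ * x * w) * (w⁻¹ * v * w)) * w⁻¹ := by rw [h4]
      have h6 : w * ((w⁻¹ * v * w) * (w⁻¹ * x * w)) * w⁻¹ = v * x := by group
      have h7 : w * ((w⁻¹ * x * w) * (w⁻¹ * v * w)) * w⁻¹ = x * v := by group
      rw [h6, h7] at h5
      exact h5
    rw [hguv, mul_assoc, hvx, ← mul_assoc, hux, mul_assoc]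

end Cfsg.Agent.S4028
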