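import Mathlib
import Cfsg.Statements.S4029
import Cfsg.Agent.Lib.H5Basic
import Cfsg.Agent.Lib.SylowCount
import Cfsg.Agent.Lib.H6PGroup
-- import your own Cfsg.Agent.* helpers here

set_option autoImplicit false
open Cfsg

namespace Cfsg.Agent.S4029

open Finset

section
variable {P : Type*} [Group P] [Fintype P]

theorem sum_cen [DecidableEq P] (hclass : ∀ g : P, (univ.filter (fun y => IsConj g y)).card *
      (univ.filter (fun x => x * g = g * x)).card = Fintype.card P) :
    ∑ g ∈ univ.filter (fun g : P => orderOf g = 2), (univ.filter (fun x => x * g = g * x)).card =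
      ((univ.filter (fun g : P => orderOf g = 2)).image ConjClasses.mk).card * Fintype.card P := by
  classical
  have hord : ∀ y g : P, IsConj y g → orderOf y = orderOf g := by
    intro y g h
    obtain ⟨a, rfl⟩ := isConj_iff.1 h
    have := (MulAut.conj a).orderOf_eq y
    simpa [MulAut.conj_apply] using this.symm
  have hcen : ∀ y g : P, IsConj y g → (univ.filter (fun x => x * g = g * x)).card =
      (univ.filter (fun x => x * y = y * x)).card := by
    intro y g h
    have h1 := hclass y
    have h2 := hclass g
    have h3 : (univ.filter (fun z => IsConj g z)) = (univ.filter (fun z => IsConj y z)) := by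
      ext z
      simp only [mem_filter, mem_univ, true_and]
      exact ⟨fun h4 => h.trans h4, fun h4 => h.symm.trans h4⟩
    rw [h3] at h2
    have hpos : 0 < (univ.filter (fun z => IsConj y z)).card :=
      Finset.card_pos.2 ⟨y, mem_filter.2 ⟨mem_univ _, IsConj.refl y⟩⟩
    exact Nat.eq_of_mul_eq_mul_left hpos (h2.trans h1.symm)
  rw [← Finset.sum_fiberwise_of_maps_to (s := univ.filter (fun g : P => orderOf g = 2))
    (t := (univ.filter (fun g : P => orderOf g = 2)).image ConjClasses.mk) (g := ConjClasses.mk)
    (fun g hg => Finset.mem_image_of_mem _ hg)]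
  rw [Finset.sum_const_nat (m := Fintype.card P)]
  intro c hc
  obtain ⟨y, hy, rfl⟩ := Finset.mem_image.1 hc
  have hy2 : orderOf y = 2 := (mem_filter.1 hy).2
  have h1 : (univ.filter (fun g : P => orderOf g = 2)).filter (fun g => ConjClasses.mk g = ConjClasses.mk y) =
      univ.filter (fun g => IsConj y g) := by
    ext g
    simp only [mem_filter, mem_univ, true_and, ConjClasses.mk_eq_mk_iff_isConj]
    exact ⟨fun h => h.2.symm, fun h => ⟨by rw [← hord y g h, hy2], h.symm⟩⟩
  rw [h1, Finset.sum_congr rfl (fun g hg => hcen y g (mem_filter.1 hg).2), Finset.sum_const,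
    smul_eq_mul, hclass y]

end

/-- Let P be a finite 2-group in which N_P(⟨y⟩) = C_P(y) for every y ∈ P. If s is the number of conjugacy classes of involutions of P, then #(P/Φ(P)) ≤ s + 1; in particular the subgroup generated by the involutions of P has order at least #(P/Φ(P)). -/
theorem result {P : Type*} [Group P] [Finite P] (hP : IsPGroup 2 P)
    (hirr : ∀ y : P, Subgroup.normalizer ((Subgroup.zpowers y : Subgroup P) : Set P) ≤ Subgroup.centralizer {y}) :
    Nat.card (P ⧸ frattini P) ≤ Nat.card {c : ConjClasses P // ∃ y : P, ConjClasses.mk y = c ∧ orderOf y = 2} + 1 ∧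
    Nat.card (P ⧸ frattini P) ≤ Nat.card (Subgroup.closure {y : P | orderOf y = 2}) := by
  classical
  haveI : Fintype P := Fintype.ofFinite P
  have hclass : ∀ g : P, (univ.filter (fun y => IsConj g y)).card *
      (univ.filter (fun x => x * g = g * x)).card = Fintype.card P := by
    intro g
    have h1 := Cfsg.Agent.Lib.SylowCount.card_class_mul_centralizer g
    have h2 : Nat.card {y : P // IsConj g y} = (univ.filter (fun y => IsConj g y)).card := by
      rw [Nat.card_eq_fintype_card, Fintype.card_subtype]
    have h3 : Nat.card (Subgroup.centralizer ({g} : Set P)) = (univ.filter (fun x => x * g = g * x)).card := by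
      rw [Nat.card_eq_fintype_card, Fintype.card_subtype]
      congr 1
      ext x
      simp [Subgroup.mem_centralizer_singleton_iff]
    rw [h2, h3, Nat.card_eq_fintype_card] at h1
    exact h1
  -- consequence of the hypothesis
  have hkey : ∀ x g : P, x * g * x⁻¹ = g⁻¹ → g * g = 1 ∧ x * g = g * x := by
    intro x g h
    have hN : x ∈ Subgroup.normalizer ((Subgroup.zpowers g : Subgroup P) : Set P) := by
      apply Cfsg.Agent.Lib.H5Basic.mem_normalizer_of_map_conj_le
      rintro _ ⟨u, ⟨k, rfl⟩, rfl⟩
      refine ⟨-k, ?_⟩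
      show g ^ (-k) = x * g ^ k * x⁻¹
      have h1 : x * g ^ k * x⁻¹ = (x * g * x⁻¹) ^ k := by
        rw [conj_zpow]
      rw [h1, h, inv_zpow, zpow_neg]
    have hC := hirr g hN
    rw [Subgroup.mem_centralizer_singleton_iff] at hC
    refine ⟨?_, hC⟩
    have h2 : x * g * x⁻¹ = g := by
      rw [hC, mul_inv_cancel_right]
    rw [h2] at h
    calc g * g = g⁻¹ * g := by rw [← h]
      _ = 1 := inv_mul_cancel g
  -- square roots
  let r : P → ℕ := fun g => (univ.filter (fun x : P => x ^ 2 = g)).card
  let Φ : Finset P := univ.filter (fun g => g ∈ frattini P)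
  have hsq : ∀ x : P, x ^ 2 ∈ Φ := by
    intro x
    simp only [Φ, mem_filter, mem_univ, true_and]
    exact Cfsg.Agent.Lib.H6PGroup.pow_mem_frattini hP x
  have hsum : ∑ g ∈ Φ, r g = Fintype.card P := by
    have := Finset.card_eq_sum_card_fiberwise (s := (univ : Finset P)) (t := Φ) (f := fun x => x ^ 2)
      (fun x _ => hsq x)
    rw [Finset.card_univ] at this
    exact this.symm
  let E : Finset (P × P) := univ.filter (fun q => q.1 ^ 2 = q.2 ^ 2)
  have hsum2 : ∑ g ∈ Φ, r g ^ 2 = E.card := by
    have h1 := Finset.card_eq_sum_card_fiberwise (s := E) (t := Φ) (f := fun q => q.1 ^ 2)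
      (fun q _ => hsq q.1)
    rw [h1]
    refine Finset.sum_congr rfl fun g _ => ?_
    have h2 : E.filter (fun q => q.1 ^ 2 = g) =
        (univ.filter (fun x : P => x ^ 2 = g)) ×ˢ (univ.filter (fun x : P => x ^ 2 = g)) := by
      ext ⟨a, b⟩
      simp only [E, mem_filter, mem_univ, true_and, mem_product]
      constructor
      · rintro ⟨h3, h4⟩
        exact ⟨h4, by rw [← h3, h4]⟩
      · rintro ⟨h3, h4⟩
        exact ⟨by rw [h3, h4], h3⟩
    rw [h2, Finset.card_product, pow_two]
  have hCS := sq_sum_le_card_mul_sum_sq (s := Φ) (f := r)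
  rw [hsum, hsum2] at hCS
  simp only [Nat.cast_id] at hCS
  -- the count of E
  let F : Finset (P × P) := univ.filter (fun q => q.2 * q.2 = 1 ∧ q.1 * q.2 = q.2 * q.1)
  have hEF : E.card = F.card := by
    refine Finset.card_nbij' (fun q => (q.1, q.1⁻¹ * q.2)) (fun q => (q.1, q.1 * q.2)) ?_ ?_ ?_ ?_
    · rintro ⟨x, t⟩ hq
      have hq' : x ^ 2 = t ^ 2 := (mem_filter.1 hq).2
      have h1 : x * (x⁻¹ * t) * x⁻¹ = (x⁻¹ * t)⁻¹ := by
        have h2 : t * x⁻¹ = t⁻¹ * x := by
          rw [eq_inv_mul_iff_mul_eq, ← mul_assoc, ← pow_two, ← hq', pow_two]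
          group
        rw [mul_inv_rev, inv_inv, ← mul_assoc, mul_inv_cancel, one_mul, h2]
      have h3 := hkey _ _ h1
      simp only [F, coe_filter, mem_univ, true_and, Set.mem_setOf_eq]
      exact h3
    · rintro ⟨x, g⟩ hq
      have hq' : g * g = 1 ∧ x * g = g * x := (mem_filter.1 hq).2
      simp only [E, coe_filter, mem_univ, true_and, Set.mem_setOf_eq]
      rw [pow_two, pow_two]
      calc x * x = x * x * (g * g) := by rw [hq'.1, mul_one]
        _ = x * (x * g) * g := by group
        _ = x * (g * x) * g := by rw [hq'.2]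
        _ = x * g * (x * g) := by group
    · rintro ⟨x, t⟩ _
      simp
    · rintro ⟨x, g⟩ _
      simp
  have hFcount : F.card = Fintype.card P + ∑ g ∈ univ.filter (fun g : P => orderOf g = 2),
      (univ.filter (fun x => x * g = g * x)).card := by
    let W : Finset P := univ.filter (fun g : P => g * g = 1)
    have h1 := Finset.card_eq_sum_card_fiberwise (s := F) (t := W) (f := fun q => q.2)
      (fun q hq => by
        have := (mem_filter.1 hq).2.1
        simp only [W, coe_filter, mem_univ, true_and, Set.mem_setOf_eq]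
        exact this)
    have h2 : ∀ g ∈ W, (F.filter (fun q => q.2 = g)).card = (univ.filter (fun x => x * g = g * x)).card := by
      intro g hg
      have hg' : g * g = 1 := (mem_filter.1 hg).2
      refine Finset.card_nbij' (fun q => q.1) (fun x => (x, g)) ?_ ?_ ?_ ?_
      · rintro ⟨x, h⟩ hq
        simp only [F, coe_filter, mem_filter, mem_univ, true_and, Set.mem_setOf_eq] at hq ⊢
        rw [hq.2] at hq
        exact hq.1.2
      · intro x hx
        simp only [F, coe_filter, mem_filter, mem_univ, true_and, Set.mem_setOf_eq] at hx ⊢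
        exact ⟨⟨hg', hx⟩, trivial⟩
      · rintro ⟨x, h⟩ hq
        simp only [coe_filter, mem_filter, Set.mem_setOf_eq] at hq
        simp [hq.2]
      · intro x _
        rfl
    rw [h1, Finset.sum_congr rfl h2]
    have hW : W = insert 1 (univ.filter (fun g : P => orderOf g = 2)) := by
      ext g
      simp only [W, mem_filter, mem_univ, true_and, mem_insert]
      constructor
      · intro hg
        by_cases hg1 : g = 1
        · exact Or.inl hg1
        · right
          haveI : Fact (Nat.Prime 2) := ⟨Nat.prime_two⟩
          exact orderOf_eq_prime (by rw [pow_two]; exact hg) hg1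
      · rintro (rfl | hg)
        · simp
        · rw [← pow_two, ← hg]
          exact pow_orderOf_eq_one g
    rw [hW, Finset.sum_insert (by simp [orderOf_one])]
    congr 1
    simp
  have hT : Nat.card {c : ConjClasses P // ∃ y : P, ConjClasses.mk y = c ∧ orderOf y = 2} =
      ((univ.filter (fun g : P => orderOf g = 2)).image ConjClasses.mk).card := by
    rw [Nat.card_eq_fintype_card]
    refine Fintype.card_of_subtype _ ?_
    intro c
    simp only [mem_image, mem_filter, mem_univ, true_and]
    constructor
    · rintro ⟨y, hy, rfl⟩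
      exact ⟨y, rfl, hy⟩
    · rintro ⟨y, rfl, hy⟩
      exact ⟨y, hy, rfl⟩
  have hcount : E.card = Fintype.card P * (Nat.card {c : ConjClasses P // ∃ y : P, ConjClasses.mk y = c ∧ orderOf y = 2} + 1) := by
    rw [hEF, hFcount, sum_cen hclass, hT]
    ring
  have hcardP : 0 < Fintype.card P := Fintype.card_pos
  rw [hcount, pow_two] at hCS
  have hΦcard : Φ.card = Nat.card (frattini P) := by
    rw [Nat.card_eq_fintype_card, Fintype.card_subtype]
  have hmain : Fintype.card P ≤ Nat.card (frattini P) *
      (Nat.card {c : ConjClasses P // ∃ y : P, ConjClasses.mk y = c ∧ orderOf y = 2} + 1) := by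
    rw [hΦcard] at hCS
    have h5 : Fintype.card P * Fintype.card P ≤ Fintype.card P * (Nat.card (frattini P) *
      (Nat.card {c : ConjClasses P // ∃ y : P, ConjClasses.mk y = c ∧ orderOf y = 2} + 1)) := by
      calc _ ≤ _ := hCS
        _ = _ := by ring
    exact Nat.le_of_mul_le_mul_left h5 hcardP
  have hfirst : Nat.card (P ⧸ frattini P) ≤
      Nat.card {c : ConjClasses P // ∃ y : P, ConjClasses.mk y = c ∧ orderOf y = 2} + 1 := by
    have h6 := (frattini P).card_mul_index
    rw [Subgroup.index_eq_card] at h6
    rw [← Nat.card_eq_fintype_card, ← h6] at hmain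
    exact Nat.le_of_mul_le_mul_left hmain Nat.card_pos
  refine ⟨hfirst, hfirst.trans ?_⟩
  -- classes inject into the subgroup generated by involutions
  let Cl : Subgroup P := Subgroup.closure {y : P | orderOf y = 2}
  rw [hT, Nat.card_eq_fintype_card (α := Cl), Fintype.card_subtype]
  have h7 : ((univ.filter (fun g : P => orderOf g = 2)).image ConjClasses.mk).card ≤
      (univ.filter (fun g : P => orderOf g = 2)).card := Finset.card_image_le
  have h8 : insert 1 (univ.filter (fun g : P => orderOf g = 2)) ⊆ univ.filter (fun g => g ∈ Cl) := by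
    intro g hg
    simp only [mem_insert, mem_filter, mem_univ, true_and] at hg ⊢
    rcases hg with rfl | hg
    · exact Cl.one_mem
    · exact Subgroup.subset_closure hg
  have h9 := Finset.card_le_card h8
  rw [Finset.card_insert_of_notMem (by simp [orderOf_one])] at h9
  omega

end Cfsg.Agent.S4029
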