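import Mathlib
import Cfsg.Statements.S4032
import Cfsg.Agent.Lib.PResidual
import Cfsg.Agent.Lib.AmalgamChar
-- import your own Cfsg.Agent.* helpers here

set_option autoImplicit false
open Cfsg

namespace Cfsg.Agent.S4032

theorem norm_pow {Q : Type*} [Group Q] [Finite Q] (y t : Q) (ht : t ∈ Subgroup.zpowers y) :
    Subgroup.normalizer ((Subgroup.zpowers y : Subgroup Q) : Set Q) ≤
      Subgroup.normalizer ((Subgroup.zpowers t : Subgroup Q) : Set Q) := by
  intro g hg
  rw [Subgroup.mem_normalizer_iff_map_conj_eq]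
  have hle : (Subgroup.zpowers t).map (MulAut.conj g) ≤ Subgroup.zpowers t := by
    rw [MonoidHom.map_zpowers, Subgroup.zpowers_le]
    obtain ⟨i, rfl⟩ := ht
    have h1 : g * y * g⁻¹ ∈ Subgroup.zpowers y :=
      (Subgroup.mem_normalizer_iff.mp hg y).mp (Subgroup.mem_zpowers y)
    obtain ⟨k, hk⟩ := h1
    have h2 : (y ^ i) ^ k = (MulAut.conj g : Q →* Q) (y ^ i) := by
      change (y ^ i) ^ k = g * y ^ i * g⁻¹
      have hk' : y ^ k = g * y * g⁻¹ := hk
      rw [← conj_zpow, ← hk', ← zpow_mul, ← zpow_mul, mul_comm]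
    exact ⟨k, h2⟩
  exact Subgroup.eq_of_le_of_card_ge hle
    (Subgroup.card_map_of_injective (MulAut.conj g).injective).ge

theorem base {G : Type*} [Group G] [Finite G] (N : Subgroup G) [N.Normal] (r : ℕ) [hr : Fact r.Prime]
    (hrN : ¬ r ∣ Nat.card N)
    (hirr : ∀ x : G, (∃ k : ℕ, orderOf x = r ^ k) →
      Subgroup.normalizer ((Subgroup.zpowers x : Subgroup G) : Set G) ≤ Subgroup.centralizer {x})
    (y : G ⧸ N) (e : ℕ) (hy : orderOf y = r ^ e) :
    Subgroup.normalizer ((Subgroup.zpowers y : Subgroup (G ⧸ N)) : Set (G ⧸ N)) ≤ Subgroup.centralizer {y} := by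
  classical
  have hrp : r.Prime := hr.out
  let q : G →* G ⧸ N := QuotientGroup.mk' N
  have hq : Function.Surjective q := QuotientGroup.mk'_surjective N
  obtain ⟨x₀, rfl⟩ := hq y
  obtain ⟨u₀, x, hux, hcomm, hu₀, ⟨j, hx⟩, hu₀z, -⟩ := Cfsg.Agent.Lib.PResidual.exists_decomp (p := r) x₀
  have hqu : q u₀ = 1 := by
    have h1 : orderOf (q u₀) ∣ orderOf u₀ := orderOf_map_dvd q u₀
    obtain ⟨n, hn⟩ := hu₀z
    have h2 : orderOf (q u₀) ∣ r ^ e := by
      have hn' : x₀ ^ n = u₀ := hn
      have h3 : q u₀ = (q x₀) ^ n := by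
        rw [← map_zpow, hn']
      have h4 : (q x₀) ^ (r ^ e) = 1 := by
        rw [← hy]
        exact pow_orderOf_eq_one _
      rw [h3]
      exact orderOf_dvd_of_pow_eq_one (by rw [← zpow_natCast, zpow_comm, zpow_natCast, h4, one_zpow])
    have h5 : (orderOf u₀).Coprime (r ^ e) := Nat.Coprime.pow_right _ hu₀
    have h6 : orderOf (q u₀) ∣ 1 := by
      rw [← Nat.Coprime.gcd_eq_one h5]
      exact Nat.dvd_gcd h1 h2
    exact orderOf_eq_one_iff.mp (Nat.dvd_one.mp h6)
  have hqx : q x₀ = q x := by
    rw [hux, map_mul, hqu, one_mul]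
  rw [hqx] at hy ⊢
  -- `x` has the same order as its image
  have hordx : orderOf x = r ^ e := by
    have h1 : orderOf (q x) ∣ orderOf x := orderOf_map_dvd q x
    rw [← hy]
    apply le_antisymm _ (Nat.le_of_dvd (orderOf_pos x) h1)
    apply Nat.le_of_dvd (orderOf_pos _)
    have h2 : x ^ orderOf (q x) ∈ N := by
      rw [← QuotientGroup.eq_one_iff]
      change q (x ^ orderOf (q x)) = 1
      rw [map_pow]
      exact pow_orderOf_eq_one _
    have h3 : orderOf (x ^ orderOf (q x)) ∣ Nat.card N := by
      rw [← Subgroup.orderOf_mk _ h2]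
      exact orderOf_dvd_natCard _
    have h4 : orderOf (x ^ orderOf (q x)) ∣ r ^ j := by
      rw [← hx]
      exact orderOf_dvd_of_pow_eq_one (by rw [← pow_mul, mul_comm, pow_mul, pow_orderOf_eq_one, one_pow])
    have h5 : (r ^ j).Coprime (Nat.card N) :=
      Nat.Coprime.pow_left _ ((Nat.Prime.coprime_iff_not_dvd hrp).mpr hrN)
    have h6 : orderOf (x ^ orderOf (q x)) ∣ 1 := by
      rw [← h5.gcd_eq_one]
      exact Nat.dvd_gcd h4 h3
    have h7 : x ^ orderOf (q x) = 1 := orderOf_eq_one_iff.mp (Nat.dvd_one.mp h6)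
    exact orderOf_dvd_of_pow_eq_one h7
  intro z hz
  obtain ⟨g, rfl⟩ := hq z
  have hg := Subgroup.mem_normalizer_iff.mp hz
  let P : Subgroup G := Subgroup.zpowers x
  let L : Subgroup G := (Subgroup.zpowers (q x)).comap q
  have hPL : P ≤ L := by
    rw [Subgroup.zpowers_le]
    exact Subgroup.mem_zpowers _
  let P' : Subgroup G := P.map (MulAut.conj g).toMonoidHom
  have hP'L : P' ≤ L := by
    rintro _ ⟨w, hw, rfl⟩
    change q (g * w * g⁻¹) ∈ Subgroup.zpowers (q x)
    rw [map_mul, map_mul, map_inv]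
    exact (hg (q w)).mp (hPL hw)
  have hPcard : Nat.card P = r ^ e := by
    rw [Nat.card_zpowers, hordx]
  have hP'card : Nat.card P' = r ^ e := by
    rw [← hPcard]
    exact Subgroup.card_map_of_injective (MulAut.conj g).injective
  have hLcard : Nat.card L = Nat.card N * r ^ e := by
    have h1 : L.index = (Subgroup.zpowers (q x)).index := Subgroup.index_comap_of_surjective _ hq
    have h2 := L.card_mul_index
    have h3 := (Subgroup.zpowers (q x)).card_mul_index
    have h4 : Nat.card N * Nat.card (G ⧸ N) = Nat.card G := N.card_mul_index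
    rw [Nat.card_zpowers, hy] at h3
    have hipos : 0 < L.index := Nat.pos_of_ne_zero Subgroup.index_ne_zero_of_finite
    apply Nat.eq_of_mul_eq_mul_right hipos
    rw [h2, ← h4, ← h3, h1]
    ring
  have hfac : (Nat.card L).factorization r = e := by
    rw [hLcard, Nat.factorization_mul Nat.card_pos.ne' (pow_pos hrp.pos _).ne', Finsupp.add_apply,
      Nat.factorization_eq_zero_of_not_dvd hrN, zero_add, hrp.factorization_pow]
    simp
  have hs1 : Cfsg.Agent.Lib.AmalgamChar.IsSylowIn r P L := ⟨hPL, by rw [hPcard, hfac]⟩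
  have hs2 : Cfsg.Agent.Lib.AmalgamChar.IsSylowIn r P' L := ⟨hP'L, by rw [hP'card, hfac]⟩
  obtain ⟨h, hh, hP'⟩ := hs1.exists_conj hs2
  have hn : h⁻¹ * g ∈ Subgroup.normalizer (P : Set G) := by
    rw [Subgroup.mem_normalizer_iff_map_conj_eq]
    have h5 : (P.map (MulAut.conj g).toMonoidHom).map (MulAut.conj h⁻¹).toMonoidHom
        = (P.map (MulAut.conj h).toMonoidHom).map (MulAut.conj h⁻¹).toMonoidHom := by
      rw [← hP']
    rw [Subgroup.map_map, Subgroup.map_map] at h5
    have h6 : ((MulAut.conj h⁻¹).toMonoidHom.comp (MulAut.conj h).toMonoidHom) = MonoidHom.id G := by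
      ext y
      simp [MulAut.conj_apply, mul_assoc]
    rw [h6, Subgroup.map_id] at h5
    convert h5 using 2
    ext y
    simp [MulAut.conj_apply, mul_assoc]
  have hcen := hirr x ⟨j, hx⟩ hn
  rw [Subgroup.mem_centralizer_singleton_iff] at hcen ⊢
  -- apply `q`
  have h7 : (q h)⁻¹ * q g * q x = q x * ((q h)⁻¹ * q g) := by
    have := congrArg q hcen
    simpa [map_mul, map_inv] using this
  obtain ⟨n, hn'⟩ := hh
  have h8 : q h * q x = q x * q h := by
    have hn'' : q x ^ n = q h := hn'
    rw [← hn'']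
    exact ((Commute.refl (q x)).zpow_left n).eq
  calc q g * q x = q h * ((q h)⁻¹ * q g * q x) := by group
    _ = q h * (q x * ((q h)⁻¹ * q g)) := by rw [h7]
    _ = (q h * q x) * ((q h)⁻¹ * q g) := by group
    _ = (q x * q h) * ((q h)⁻¹ * q g) := by rw [h8]
    _ = q x * q g := by group


/-- Let π be a set of primes and G a finite group in which N_G(⟨x⟩) = C_G(x) for every π-element x. If N is a normal subgroup of G whose order is divisible by no prime of π, then G/N has the same property: N_{G/N}(⟨y⟩) = C_{G/N}(y) for every π-element y of G/N. -/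
theorem result {G : Type*} [Group G] [Finite G] (π : Set ℕ)
    (hirr : ∀ x : G, (∀ r : ℕ, r.Prime → r ∣ orderOf x → r ∈ π) →
      Subgroup.normalizer ((Subgroup.zpowers x : Subgroup G) : Set G) ≤ Subgroup.centralizer {x})
    (N : Subgroup G) [N.Normal] (hN : ∀ r : ℕ, r.Prime → r ∣ Nat.card N → r ∉ π) :
    ∀ y : G ⧸ N, (∀ r : ℕ, r.Prime → r ∣ orderOf y → r ∈ π) →
      Subgroup.normalizer ((Subgroup.zpowers y : Subgroup (G ⧸ N)) : Set (G ⧸ N)) ≤ Subgroup.centralizer {y} := by
  classical
  have main : ∀ n : ℕ, ∀ y : G ⧸ N, orderOf y = n → (∀ r : ℕ, r.Prime → r ∣ orderOf y → r ∈ π) →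
      Subgroup.normalizer ((Subgroup.zpowers y : Subgroup (G ⧸ N)) : Set (G ⧸ N)) ≤ Subgroup.centralizer {y} := by
    intro n
    induction n using Nat.strong_induction_on with
    | _ n ih =>
      intro y hn hy g hg
      by_cases hy1 : orderOf y = 1
      · have : y = 1 := orderOf_eq_one_iff.mp hy1
        rw [this, Subgroup.mem_centralizer_singleton_iff]
        group
      obtain ⟨r, hr, hrd⟩ := Nat.exists_prime_and_dvd hy1
      haveI : Fact r.Prime := ⟨hr⟩
      have hrπ := hy r hr hrd
      obtain ⟨u, v, huv, hcomm, hu, ⟨k, hv⟩, huz, hvz⟩ := Cfsg.Agent.Lib.PResidual.exists_decomp (p := r) y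
      have hcop : (orderOf u).Coprime (orderOf v) := by
        rw [hv]
        exact Nat.Coprime.pow_right _ hu
      have hordy : orderOf y = orderOf u * orderOf v := by
        rw [huv]
        exact hcomm.orderOf_mul_eq_mul_orderOf_of_coprime hcop
      by_cases hu1 : orderOf u = 1
      · -- `y` is an `r`-element
        have hu' : u = 1 := orderOf_eq_one_iff.mp hu1
        have hyv : y = v := by rw [huv, hu', one_mul]
        rw [hyv] at hg ⊢
        refine base N r (fun h => hN r hr h hrπ) ?_ v k hv hg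
        intro x ⟨j, hj⟩ 
        apply hirr
        intro s hs hsd
        rw [hj] at hsd
        have := (Nat.prime_dvd_prime_iff_eq hs hr).mp (hs.dvd_of_dvd_pow hsd)
        rw [this]
        exact hrπ
      · have hv1 : orderOf v ≠ 1 := by
          intro h
          rw [h, mul_one] at hordy
          rw [hordy] at hrd
          have h3 := Nat.dvd_gcd hrd (dvd_refl r)
          rw [Nat.Coprime.gcd_eq_one hu] at h3
          exact hr.one_lt.ne' (Nat.dvd_one.mp h3)
        have hypos : 0 < orderOf y := orderOf_pos y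
        have hupos : 0 < orderOf u := orderOf_pos u
        have hvpos : 0 < orderOf v := orderOf_pos v
        have hult : orderOf u < n := by
          rw [← hn, hordy]
          have : 2 ≤ orderOf v := by omega
          nlinarith
        have hvlt : orderOf v < n := by
          rw [← hn, hordy]
          have : 2 ≤ orderOf u := by omega
          nlinarith
        have h1 := ih _ hult u rfl (fun s hs hsd => hy s hs (by rw [hordy]; exact hsd.trans (dvd_mul_right _ _)))
          (norm_pow y u huz hg)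
        have h2 := ih _ hvlt v rfl (fun s hs hsd => hy s hs (by rw [hordy]; exact hsd.trans (dvd_mul_left _ _)))
          (norm_pow y v hvz hg)
        rw [Subgroup.mem_centralizer_singleton_iff] at h1 h2 ⊢
        rw [huv]
        calc g * (u * v) = (g * u) * v := by group
          _ = (u * g) * v := by rw [h1]
          _ = u * (g * v) := by group
          _ = u * (v * g) := by rw [h2]
          _ = _ := by group
  exact fun y hy => main _ y rfl hy

end Cfsg.Agent.S4032
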