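import Mathlib
import Cfsg.Statements.S4034
import Cfsg.Agent.Lib.H6Solv
import Cfsg.Agent.Lib.H6Basic
import Cfsg.Agent.Lib.Hall
import Cfsg.Agent.Lib.FitSolv
import Cfsg.Agent.Lib.CharBurnside
import Cfsg.Agent.Lib.PResidual
-- import your own Cfsg.Agent.* helpers here

set_option autoImplicit false
open Cfsg

namespace Cfsg.Agent.S4034

universe u

open Subgroup

variable {p : ℕ}

theorem pow_of_dvd (hp : p.Prime) {a k : ℕ} (h : a ∣ p ^ k) : ∃ j, a = p ^ j := by
  obtain ⟨j, _, h⟩ := (Nat.dvd_prime_pow hp).1 h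
  exact ⟨j, h⟩

/-- Every `p`-regular class has `p`-power size. -/
def Hyp (p : ℕ) (G : Type u) [Group G] [Finite G] : Prop :=
  ∀ x : G, (orderOf x).Coprime p → ∃ k : ℕ, (centralizer ({x} : Set G)).index = p ^ k

/-- There is an abelian `p`-complement. -/
def Hyp2 (p : ℕ) (G : Type u) [Group G] [Finite G] : Prop :=
  ∃ H : Subgroup G, (∀ a ∈ H, ∀ b ∈ H, a * b = b * a) ∧ ¬ p ∣ Nat.card H ∧ ∃ k, H.index = p ^ k

theorem hyp_normal (hp : p.Prime) {G : Type u} [Group G] [Finite G] (h : Hyp p G) (N : Subgroup G)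
    (hN : N.Normal) : Hyp p N := by
  intro x hx
  obtain ⟨k, hk⟩ := h x (by rwa [Subgroup.orderOf_coe])
  have h1 : (centralizer ({x} : Set N)) = (centralizer ({(x : G)} : Set G)).subgroupOf N := by
    ext y
    simp only [Subgroup.mem_centralizer_singleton_iff, Subgroup.mem_subgroupOf]
    constructor
    · intro hy
      exact congrArg Subtype.val hy
    · intro hy
      exact Subtype.ext hy
  rw [h1]
  have h2 : ((centralizer ({(x : G)} : Set G)).subgroupOf N).index ∣ p ^ k := by
    rw [← hk]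
    exact Cfsg.Agent.Lib.FitCore.relIndex_dvd_index_of_normal_right _ _
  exact pow_of_dvd hp h2

theorem exists_lift (hp : p.Prime) {G : Type u} [Group G] [Finite G] (N : Subgroup G) [N.Normal]
    (x' : G ⧸ N) (hx : (orderOf x').Coprime p) :
    ∃ y : G, (y : G ⧸ N) = x' ∧ (orderOf y).Coprime p := by
  haveI : Fact p.Prime := ⟨hp⟩
  obtain ⟨x0, rfl⟩ := QuotientGroup.mk_surjective x'
  obtain ⟨y, z, rfl, -, hy, ⟨k, hk⟩, -, hz⟩ := Cfsg.Agent.Lib.PResidual.exists_decomp (p := p) x0
  have hz1 : (z : G ⧸ N) = 1 := by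
    have h1 : orderOf (z : G ⧸ N) ∣ p ^ k := hk ▸ orderOf_map_dvd (QuotientGroup.mk' N) z
    have h2 : orderOf (z : G ⧸ N) ∣ orderOf (((y * z : G)) : G ⧸ N) := by
      apply orderOf_dvd_of_mem_zpowers
      obtain ⟨n, hn⟩ := hz
      refine ⟨n, ?_⟩
      simp only
      rw [← QuotientGroup.mk_zpow]
      exact congrArg _ hn
    have h3 : Nat.Coprime (orderOf ((z : G ⧸ N))) (p ^ k) :=
      Nat.Coprime.coprime_dvd_left h2 (Nat.Coprime.pow_right k hx)
    have h4 : orderOf ((z : G ⧸ N)) = 1 := Nat.Coprime.eq_one_of_dvd h3 h1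
    exact orderOf_eq_one_iff.1 h4
  refine ⟨y, ?_, hy⟩
  rw [QuotientGroup.mk_mul, hz1, mul_one]

theorem hyp_quot (hp : p.Prime) {G : Type u} [Group G] [Finite G] (h : Hyp p G) (N : Subgroup G)
    [N.Normal] : Hyp p (G ⧸ N) := by
  intro x' hx
  obtain ⟨y, rfl, hy⟩ := exists_lift hp N x' hx
  obtain ⟨k, hk⟩ := h y hy
  have hle : centralizer ({y} : Set G) ≤
      (centralizer ({(y : G ⧸ N)} : Set (G ⧸ N))).comap (QuotientGroup.mk' N) := by
    intro u hu
    rw [Subgroup.mem_comap, Subgroup.mem_centralizer_singleton_iff]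
    rw [Subgroup.mem_centralizer_singleton_iff] at hu
    change ((u * y : G) : G ⧸ N) = ((y * u : G) : G ⧸ N)
    rw [hu]
  have h1 := Subgroup.index_dvd_of_le hle
  rw [Subgroup.index_comap_of_surjective _ (QuotientGroup.mk'_surjective N)] at h1
  exact pow_of_dvd hp (hk ▸ h1)

theorem solv_of_prime_card {G : Type u} [Group G] [Finite G] (h : (Nat.card G).Prime) :
    Group.IsSolvable G := by
  haveI : Fact (Nat.card G).Prime := ⟨h⟩
  have hp : IsPGroup (Nat.card G) G := IsPGroup.of_card (n := 1) (by simp)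
  haveI := hp.isNilpotent
  infer_instance

theorem hyp_simple (hp : p.Prime) {G : Type u} [Group G] [Finite G] [IsSimpleGroup G]
    (h : Hyp p G) : Group.IsSolvable G := by
  classical
  letI := Fintype.ofFinite G
  haveI : Fact p.Prime := ⟨hp⟩
  by_cases hc : IsPGroup p G
  · haveI := hc.isNilpotent
    infer_instance
  · obtain ⟨q, hq, hqd, hqp⟩ : ∃ q, q.Prime ∧ q ∣ Nat.card G ∧ q ≠ p := by
      by_contra hno
      push Not at hno
      apply hc
      exact IsPGroup.of_card
        (Nat.eq_prime_pow_of_unique_prime_dvd (Nat.card_pos).ne' (fun {d} hd hdd => hno d hd hdd))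
    haveI : Fact q.Prime := ⟨hq⟩
    obtain ⟨x, hx⟩ := exists_prime_orderOf_dvd_card' q hqd
    have hx1 : x ≠ 1 := by
      rintro rfl
      rw [orderOf_one] at hx
      exact hq.one_lt.ne hx
    obtain ⟨k, hk⟩ := h x (by rw [hx]; exact (Nat.coprime_primes hq hp).2 hqp)
    exact solv_of_prime_card (Cfsg.Agent.Lib.CharBurnside.prime_card_of_class_prime_power p k hp x hx1 hk)

theorem hyp_solvable (hp : p.Prime) (G : Type u) [Group G] [Finite G] (h : Hyp p G) :
    Group.IsSolvable G :=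
  Cfsg.Agent.Lib.H6Solv.solvable_of_simple (fun G _ _ => Hyp p G)
    (fun G _ _ hG N hN => hyp_normal hp hG N hN)
    (fun G _ _ hG N _ => hyp_quot hp hG N)
    (fun G _ _ _ hG => hyp_simple hp hG) G h

theorem hyp2_normal (hp : p.Prime) {G : Type u} [Group G] [Finite G] (h : Hyp2 p G) (N : Subgroup G)
    (hN : N.Normal) : Hyp2 p N := by
  obtain ⟨H, h1, h2, k, hk⟩ := h
  refine ⟨H.subgroupOf N, ?_, ?_, ?_⟩
  · intro a ha b hb
    exact Subtype.ext (h1 _ (Subgroup.mem_subgroupOf.1 ha) _ (Subgroup.mem_subgroupOf.1 hb))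
  · intro hd
    apply h2
    refine hd.trans ?_
    have h3 : Nat.card (H.subgroupOf N) = Nat.card ((H.subgroupOf N).map N.subtype) :=
      (Subgroup.card_map_of_injective N.subtype_injective).symm
    rw [h3, Subgroup.subgroupOf_map_subtype]
    exact Subgroup.card_dvd_of_le inf_le_left
  · have h2 : (H.subgroupOf N).index ∣ p ^ k := by
      rw [← hk]
      exact Cfsg.Agent.Lib.FitCore.relIndex_dvd_index_of_normal_right _ _
    obtain ⟨j, hj⟩ := pow_of_dvd hp h2
    exact ⟨j, hj⟩

theorem hyp2_quot (hp : p.Prime) {G : Type u} [Group G] [Finite G] (h : Hyp2 p G) (N : Subgroup G)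
    [N.Normal] : Hyp2 p (G ⧸ N) := by
  obtain ⟨H, h1, h2, k, hk⟩ := h
  refine ⟨H.map (QuotientGroup.mk' N), ?_, ?_, ?_⟩
  · rintro _ ⟨a, ha, rfl⟩ _ ⟨b, hb, rfl⟩
    rw [← map_mul, ← map_mul, h1 a ha b hb]
  · intro hd
    exact h2 (hd.trans (Subgroup.card_map_dvd _ _))
  · have h3 := Subgroup.index_map_dvd (H := H) (QuotientGroup.mk'_surjective N)
    rw [hk] at h3
    obtain ⟨j, hj⟩ := pow_of_dvd hp h3
    exact ⟨j, hj⟩

theorem hyp2_simple (hp : p.Prime) {G : Type u} [Group G] [Finite G] [IsSimpleGroup G]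
    (h : Hyp2 p G) : Group.IsSolvable G := by
  classical
  letI := Fintype.ofFinite G
  haveI : Fact p.Prime := ⟨hp⟩
  obtain ⟨H, h1, h2, k, hk⟩ := h
  by_cases hH : H = ⊥
  · subst hH
    have : IsPGroup p G := IsPGroup.of_card (n := k) (by simpa using hk)
    haveI := this.isNilpotent
    infer_instance
  · obtain ⟨x0, hx0⟩ := Subgroup.ne_bot_iff_exists_ne_one.1 hH
    obtain ⟨x, hx⟩ := x0
    have hx1 : x ≠ 1 := fun h => hx0 (Subtype.ext h)
    have hle : H ≤ centralizer ({(x : G)} : Set G) := by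
      intro u hu
      rw [Subgroup.mem_centralizer_singleton_iff]
      exact h1 u hu _ hx
    have h3 := Subgroup.index_dvd_of_le hle
    rw [hk] at h3
    obtain ⟨j, hj⟩ := pow_of_dvd hp h3
    exact solv_of_prime_card (Cfsg.Agent.Lib.CharBurnside.prime_card_of_class_prime_power p j hp _ hx1 hj)

theorem hyp2_solvable (hp : p.Prime) (G : Type u) [Group G] [Finite G] (h : Hyp2 p G) :
    Group.IsSolvable G :=
  Cfsg.Agent.Lib.H6Solv.solvable_of_simple (fun G _ _ => Hyp2 p G)
    (fun G _ _ hG N hN => hyp2_normal hp hG N hN)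
    (fun G _ _ hG N _ => hyp2_quot hp hG N)
    (fun G _ _ _ hG => hyp2_simple hp hG) G h

/-- Every element `x` of a Hall subgroup `H` lies in the centre of a conjugate of `H`. -/
theorem exists_conj_center (hp : p.Prime) {G : Type u} [Group G] [Finite G] [Group.IsSolvable G]
    (hG : Hyp p G) (H : Subgroup G) (hHp : ¬ p ∣ Nat.card H) (k : ℕ) (hk : H.index = p ^ k)
    {x : G} (hx : x ∈ H) :
    ∃ g : G, x ∈ H.map (MulAut.conj g).toMonoidHom ∧
      ∀ u ∈ H.map (MulAut.conj g).toMonoidHom, x * u = u * x := by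
  classical
  haveI : Fact p.Prime := ⟨hp⟩
  have hcp : ∀ {m a : ℕ}, ¬ p ∣ m → Nat.Coprime m (p ^ a) := fun {m a} h =>
    Nat.Coprime.pow_right a ((Nat.coprime_comm.1 ((Nat.Prime.coprime_iff_not_dvd hp).2 h)))
  have hordx : orderOf x ∣ Nat.card H := by
    have := Subgroup.orderOf_dvd_natCard H hx
    exact this
  have hxc : (orderOf x).Coprime p := by
    have : ¬ p ∣ orderOf x := fun h => hHp (h.trans hordx)
    exact Nat.coprime_comm.1 ((Nat.Prime.coprime_iff_not_dvd hp).2 this)
  obtain ⟨a, ha⟩ := hG x hxc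
  set C := centralizer ({x} : Set G) with hC
  have hxC : x ∈ C := by
    rw [hC, Subgroup.mem_centralizer_singleton_iff]
  have hcard : Nat.card C * p ^ a = Nat.card H * p ^ k := by
    rw [← ha, ← hk, C.card_mul_index, H.card_mul_index]
  obtain ⟨b, m, hm, hCm⟩ := Nat.exists_eq_pow_mul_and_not_dvd (Nat.card_pos (α := C)).ne' p hp.ne_one
  have hmH : m = Nat.card H := by
    apply Nat.dvd_antisymm
    · apply (hcp hm (a := k)).dvd_of_dvd_mul_right
      rw [← hcard, hCm]
      exact Dvd.dvd.mul_right (Dvd.intro_left _ rfl) _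
    · apply (hcp hHp (a := a + b)).dvd_of_dvd_mul_right
      have : Nat.card H * p ^ k = m * p ^ (a + b) := by
        rw [← hcard, hCm, pow_add]; ring
      have h2 : Nat.card H ∣ Nat.card H * p ^ k := Dvd.intro _ rfl
      rw [this] at h2
      exact h2
  obtain ⟨H1, hH1⟩ := Cfsg.Agent.Lib.Hall.hall_exists _ C m (p ^ b) rfl (by rw [hCm, mul_comm])
    (hcp hm)
  -- `x` is in `H1`
  set xt : C := ⟨x, hxC⟩ with hxt
  have hcentral : ∀ u : C, xt * u = u * xt := by
    intro u
    apply Subtype.ext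
    have := (Subgroup.mem_centralizer_singleton_iff.1 u.2)
    exact this.symm
  have hAn : (zpowers xt).Normal := by
    constructor
    rintro _ ⟨i, rfl⟩ g
    refine ⟨i, ?_⟩
    simp only
    have : Commute g (xt ^ i) := ((show Commute xt g from hcentral g).zpow_left i).symm
    rw [this.eq]
    group
  have hAp : ¬ p ∣ Nat.card (zpowers xt) := by
    rw [Nat.card_zpowers]
    have : orderOf xt = orderOf x := Subgroup.orderOf_mk x hxC
    rw [this]
    exact fun h => hHp (h.trans hordx)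
  have hB : ¬ p ∣ Nat.card H1 := by rwa [hH1]
  have hsup := Cfsg.Agent.Lib.FitCore.not_dvd_card_sup p hp (zpowers xt) H1 hAn hAp hB
  have hd : Nat.card (zpowers xt ⊔ H1 : Subgroup C) ∣ m := by
    have h1 := Subgroup.card_subgroup_dvd_card (zpowers xt ⊔ H1 : Subgroup C)
    rw [hCm] at h1
    have h2 : Nat.Coprime (Nat.card (zpowers xt ⊔ H1 : Subgroup C)) (p ^ b) := hcp hsup
    exact h2.dvd_of_dvd_mul_left h1
  have heq : zpowers xt ⊔ H1 = H1 := by
    symm
    apply Subgroup.eq_of_le_of_card_ge le_sup_right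
    rw [hH1]
    exact Nat.le_of_dvd (Nat.pos_of_ne_zero (by rintro rfl; exact hm (dvd_zero _))) hd
  have hxH1 : xt ∈ H1 := by
    have : xt ∈ zpowers xt ⊔ H1 := (le_sup_left : zpowers xt ≤ _) (mem_zpowers xt)
    rwa [heq] at this
  -- conjugate `H` onto the image of `H1`
  set H2 : Subgroup G := H1.map C.subtype with hH2
  have hH2card : Nat.card H2 = Nat.card H := by
    rw [hH2, Subgroup.card_map_of_injective C.subtype_injective, hH1, hmH]
  have hGcard : Nat.card G = Nat.card H * p ^ k := by rw [← hk, H.card_mul_index]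
  obtain ⟨g, hg⟩ := Cfsg.Agent.Lib.Hall.hall_conj _ G (Nat.card H) (p ^ k) rfl hGcard (hcp hHp) H H2 rfl
    (by rw [hH2card]; exact hcp hHp)
  have hmapcard : Nat.card (H.map (MulAut.conj g).toMonoidHom) = Nat.card H :=
    Subgroup.card_map_of_injective (MulAut.conj g).injective
  have hEq : H2 = H.map (MulAut.conj g).toMonoidHom :=
    Subgroup.eq_of_le_of_card_ge hg (by rw [hmapcard, hH2card])
  refine ⟨g, ?_, ?_⟩
  · rw [← hEq]
    exact ⟨xt, hxH1, rfl⟩
  · intro u hu
    rw [← hEq] at hu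
    obtain ⟨v, _, rfl⟩ := hu
    exact hcentral v |> congrArg Subtype.val

theorem hall_abelian (hp : p.Prime) : ∀ (n : ℕ) (G : Type u) [Group G] [Finite G],
    Nat.card G = n → Hyp p G →
    ∀ H : Subgroup G, ¬ p ∣ Nat.card H → (∃ k, H.index = p ^ k) → ∀ a ∈ H, ∀ b ∈ H, a * b = b * a := by
  intro n
  induction n using Nat.strong_induction_on with
  | _ n ih =>
  intro G _ _ hn hG H hHp ⟨k, hk⟩
  haveI : Fact p.Prime := ⟨hp⟩
  haveI hsol : Group.IsSolvable G := hyp_solvable hp G hG
  by_cases hO : Cfsg.pCore p G = ⊥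
  · -- main case
    classical
    set F := Cfsg.fittingSubgroup G with hF
    haveI hFn : F.Normal := Cfsg.Agent.Lib.FitCore.fitting_normal
    have hFp : ¬ p ∣ Nat.card F := by
      have := Cfsg.Agent.Lib.FitCore.relIndex_pCore_not_dvd_fitting (G := G) p
      rw [hO, Subgroup.relIndex_bot_left] at this
      exact this
    have hsup := Cfsg.Agent.Lib.FitCore.not_dvd_card_sup p hp F H hFn hFp hHp
    have hFH : F ≤ H := by
      have h1 : H.relIndex (F ⊔ H) ∣ p ^ k := by
        rw [← hk]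
        exact Subgroup.relIndex_dvd_index_of_le le_sup_right
      have h2 : H.relIndex (F ⊔ H) ∣ Nat.card (F ⊔ H : Subgroup G) :=
        Subgroup.relIndex_dvd_card _ _
      have h3 : Nat.Coprime (H.relIndex (F ⊔ H)) (p ^ k) := by
        apply Nat.Coprime.coprime_dvd_left h2
        exact Nat.Coprime.pow_right k (Nat.coprime_comm.1 ((Nat.Prime.coprime_iff_not_dvd hp).2 hsup))
      have h4 : H.relIndex (F ⊔ H) = 1 := Nat.Coprime.eq_one_of_dvd h3 h1
      rw [Subgroup.relIndex_eq_one] at h4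
      exact le_sup_left.trans h4
    have hcf := Cfsg.Agent.Lib.FitSolv.centralizer_fitting_le (G := G)
    have hHF : H ≤ F := by
      intro x hx
      obtain ⟨g, ⟨y, hy, rfl⟩, hc⟩ := exists_conj_center hp hG H hHp k hk hx
      have hyF : y ∈ F := by
        apply hcf
        rw [Subgroup.mem_centralizer_iff]
        intro f hf
        have h1 := hc ((MulAut.conj g).toMonoidHom f) ⟨f, hFH hf, rfl⟩
        apply (MulAut.conj g).injective
        simpa using h1.symm
      simp only [MulEquiv.coe_toMonoidHom, MulAut.conj_apply]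
      exact hFn.conj_mem y hyF g
    have hHn : H.Normal := by
      have : H = F := le_antisymm hHF hFH
      rw [this]
      exact hFn
    intro a ha b hb
    obtain ⟨g, ⟨y, hy, rfl⟩, hc⟩ := exists_conj_center hp hG H hHp k hk ha
    have h1 := hc b ?_
    · exact h1
    · refine ⟨g⁻¹ * b * g, ?_, ?_⟩
      · have := hHn.conj_mem b hb g⁻¹
        simpa using this
      · simp [mul_assoc]
  · -- quotient by `O_p(G)`
    set N := Cfsg.pCore p G with hN
    haveI hNn : N.Normal := Cfsg.Agent.Lib.FitCore.pCore_normal p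
    have hNp : IsPGroup p N := Cfsg.Agent.Lib.FitCore.pCore_isPGroup p
    have hcard : Nat.card (G ⧸ N) < n := by
      rw [← hn, Subgroup.card_eq_card_quotient_mul_card_subgroup N]
      have hc : Nat.card N ≠ 1 := fun h => hO (Subgroup.eq_bot_of_card_eq N h)
      have hc0 : 0 < Nat.card N := Nat.card_pos
      have hq : 0 < Nat.card (G ⧸ N) := Nat.card_pos
      have : 2 ≤ Nat.card N := by omega
      nlinarith
    have hQ := ih _ hcard (G ⧸ N) rfl (hyp_quot hp hG N) (H.map (QuotientGroup.mk' N))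
      (fun hd => hHp (hd.trans (Subgroup.card_map_dvd _ _)))
      (by
        have h3 := Subgroup.index_map_dvd (H := H) (QuotientGroup.mk'_surjective N)
        rw [hk] at h3
        obtain ⟨j, hj⟩ := pow_of_dvd hp h3
        exact ⟨j, hj⟩)
    intro a ha b hb
    have h1 := hQ _ ⟨a, ha, rfl⟩ _ ⟨b, hb, rfl⟩
    rw [← map_mul, ← map_mul] at h1
    have h2 : (a * b)⁻¹ * (b * a) ∈ N := QuotientGroup.eq.1 h1
    have h3 : (a * b)⁻¹ * (b * a) ∈ H := H.mul_mem (H.inv_mem (H.mul_mem ha hb)) (H.mul_mem hb ha)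
    have h4 : orderOf ((a * b)⁻¹ * (b * a)) ∣ Nat.card H := Subgroup.orderOf_dvd_natCard H h3
    obtain ⟨j, hj⟩ := (IsPGroup.iff_orderOf.1 hNp) ⟨_, h2⟩
    have hj' : orderOf ((a * b)⁻¹ * (b * a)) = p ^ j := by
      rw [← hj]
      exact (Subgroup.orderOf_mk _ h2).symm
    have h5 : j = 0 := by
      by_contra hj0
      rw [hj'] at h4
      exact hHp ((dvd_pow_self p hj0).trans h4)
    rw [h5, pow_zero] at hj'
    have h6 := orderOf_eq_one_iff.1 hj'
    have h7 : b * a = a * b := by
      rw [inv_mul_eq_one] at h6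
      exact h6.symm
    exact h7.symm


/-- Let G be a finite group and p a prime. Every conjugacy class of p-regular elements of G (elements of order prime to p) has p-power size if and only if G has an abelian p-complement, i.e. an abelian subgroup of order prime to p and p-power index. -/
theorem result {G : Type*} [Group G] [Finite G] {p : ℕ} (hp : p.Prime) :
    (∀ x : G, (orderOf x).Coprime p → ∃ k : ℕ, (ConjClasses.mk x).carrier.ncard = p ^ k) ↔
    (∃ H : Subgroup G, IsMulCommutative H ∧ ¬ p ∣ Nat.card H ∧ ∃ k : ℕ, H.index = p ^ k) := by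
  classical
  have key : ∀ x : G, (ConjClasses.mk x).carrier.ncard = (centralizer ({x} : Set G)).index := by
    intro x
    rw [← Cfsg.Agent.Lib.H6Basic.card_class_eq_index x, ← Nat.card_coe_set_eq]
    apply Nat.card_congr
    apply Equiv.subtypeEquivRight
    intro y
    rw [ConjClasses.mem_carrier_iff_mk_eq, ConjClasses.mk_eq_mk_iff_isConj]
    exact ⟨fun h => h.symm, fun h => h.symm⟩
  constructor
  · intro h
    have hG : Hyp p G := fun x hx => by
      obtain ⟨k, hk⟩ := h x hx
      exact ⟨k, (key x).symm.trans hk⟩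
    haveI hsol : Group.IsSolvable G := hyp_solvable hp G hG
    obtain ⟨a, m, hm, hcard⟩ := Nat.exists_eq_pow_mul_and_not_dvd (Nat.card_pos (α := G)).ne' p hp.ne_one
    obtain ⟨H, hH⟩ := Cfsg.Agent.Lib.Hall.hall_exists _ G m (p ^ a) rfl (by rw [hcard, mul_comm])
      (Nat.Coprime.pow_right a (Nat.coprime_comm.1 ((Nat.Prime.coprime_iff_not_dvd hp).2 hm)))
    have hHp : ¬ p ∣ Nat.card H := by rwa [hH]
    have hk : H.index = p ^ a := by
      have h1 := H.card_mul_index
      rw [hH, hcard, mul_comm (p ^ a)] at h1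
      exact Nat.eq_of_mul_eq_mul_left (Nat.pos_of_ne_zero (by rintro rfl; exact hm (dvd_zero _))) h1
    have hc := hall_abelian hp _ G rfl hG H hHp ⟨a, hk⟩
    exact ⟨H, ⟨⟨fun u v => Subtype.ext (hc _ u.2 _ v.2)⟩⟩, hHp, a, hk⟩
  · rintro ⟨H, hc, hHp, k, hk⟩ x hx
    have hcomm : ∀ a ∈ H, ∀ b ∈ H, a * b = b * a := fun a ha b hb =>
      congrArg Subtype.val (hc.is_comm.comm ⟨a, ha⟩ ⟨b, hb⟩)
    have hG2 : Hyp2 p G := ⟨H, hcomm, hHp, k, hk⟩
    haveI hsol : Group.IsSolvable G := hyp2_solvable hp G hG2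
    have hcp : ∀ {m a : ℕ}, ¬ p ∣ m → Nat.Coprime m (p ^ a) := fun {m a} h =>
      Nat.Coprime.pow_right a ((Nat.coprime_comm.1 ((Nat.Prime.coprime_iff_not_dvd hp).2 h)))
    have hGcard : Nat.card G = Nat.card H * p ^ k := by rw [← hk, H.card_mul_index]
    obtain ⟨g, hg⟩ := Cfsg.Agent.Lib.Hall.hall_conj _ G (Nat.card H) (p ^ k) rfl hGcard (hcp hHp) H
      (zpowers x) rfl (by rw [Nat.card_zpowers]; exact Nat.Coprime.pow_right k hx)
    obtain ⟨y, hy, rfl⟩ := hg (mem_zpowers x)
    have hle : H.map (MulAut.conj g).toMonoidHom ≤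
        centralizer ({(MulAut.conj g).toMonoidHom y} : Set G) := by
      rintro _ ⟨u, hu, rfl⟩
      rw [Subgroup.mem_centralizer_singleton_iff, ← map_mul, ← map_mul, hcomm u hu y hy]
    have h1 := Subgroup.index_dvd_of_le hle
    rw [Subgroup.index_map_of_bijective (MulAut.conj g).bijective, hk] at h1
    obtain ⟨j, hj⟩ := pow_of_dvd hp h1
    exact ⟨j, (key _).trans hj⟩

end Cfsg.Agent.S4034
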