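import Mathlib
import Cfsg.Statements.S4035
import Cfsg.Agent.Lib.H6ClassSize
import Cfsg.Agent.Lib.H6Derange
-- import your own Cfsg.Agent.* helpers here

set_option autoImplicit false
open Cfsg

namespace Cfsg.Agent.S4035

private lemma card_class_index {G : Type*} [Group G] [Finite G] (c : G) :
    (ConjClasses.mk c).carrier.ncard = (Subgroup.centralizer ({c} : Set G)).index := by
  classical
  letI act : MulAction G {y : G // IsConj c y} :=
    { smul := fun g y => ⟨g * y * g⁻¹, y.2.trans (isConj_iff.mpr ⟨g, rfl⟩)⟩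
      one_smul := fun v => Subtype.ext (by change (1 : G) * v * (1 : G)⁻¹ = v; group)
      mul_smul := fun a b v => Subtype.ext (by
        change a * b * v * (a * b)⁻¹ = a * (b * v * b⁻¹) * a⁻¹
        group) }
  let x₀ : {y : G // IsConj c y} := ⟨c, IsConj.refl c⟩
  have hst : MulAction.stabilizer G x₀ = Subgroup.centralizer ({c} : Set G) := by
    ext g
    rw [MulAction.mem_stabilizer_iff, Subgroup.mem_centralizer_singleton_iff]
    constructor
    · intro h1
      have h2 : g * c * g⁻¹ = c := congrArg Subtype.val h1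
      calc g * c = g * c * g⁻¹ * g := by group
        _ = c * g := by rw [h2]
    · intro h1
      apply Subtype.ext
      change g * c * g⁻¹ = c
      rw [h1]
      group
  have horb : MulAction.orbit G x₀ = Set.univ := by
    ext y
    simp only [Set.mem_univ, iff_true]
    obtain ⟨g, hg⟩ := isConj_iff.mp y.2
    exact ⟨g, Subtype.ext hg⟩
  rw [← hst, MulAction.index_stabilizer, horb, Set.ncard_univ, ← Nat.card_coe_set_eq]
  apply Nat.card_congr
  apply Equiv.subtypeEquivRight
  intro y
  rw [ConjClasses.mem_carrier_iff_mk_eq, ConjClasses.mk_eq_mk_iff_isConj]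
  exact ⟨IsConj.symm, IsConj.symm⟩


/-- Let G be a finite group and p a prime such that p divides the size of no conjugacy class of p-regular elements (elements of order prime to p). Then G is the internal direct product of a Sylow p-subgroup P and a normal subgroup H of order prime to p: P is normal, P ⊓ H = 1 and PH = G. -/
theorem result {G : Type*} [Group G] [Finite G] {p : ℕ} [Fact p.Prime]
    (h : ∀ x : G, (orderOf x).Coprime p → ¬ p ∣ (ConjClasses.mk x).carrier.ncard) (P : Sylow p G) :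
    (P : Subgroup G).Normal ∧ ∃ H : Subgroup G, H.Normal ∧ ¬ p ∣ Nat.card H ∧
      (P : Subgroup G) ⊓ H = ⊥ ∧ (P : Subgroup G) ⊔ H = ⊤ := by
  classical
  have hp : p.Prime := Fact.out
  set C := Subgroup.centralizer ((P : Subgroup G) : Set G) with hC
  have hreg : ∀ x : G, (orderOf x).Coprime p → ∃ g : G, g⁻¹ * x * g ∈ C := by
    intro x hx
    have h1 := h x hx
    rw [card_class_index] at h1
    obtain ⟨g, hg⟩ := Cfsg.Agent.Lib.H6ClassSize.exists_conj_sylow_le P _ h1
    refine ⟨g, ?_⟩
    rw [hC, Subgroup.mem_centralizer_iff]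
    intro z hz
    have h2 : g * z * g⁻¹ ∈ ((g • P : Sylow p G) : Subgroup G) := by
      rw [Sylow.coe_subgroup_smul]
      exact Subgroup.smul_mem_pointwise_smul z (MulAut.conj g) _ hz
    have h3 := Subgroup.mem_centralizer_singleton_iff.mp (hg h2)
    calc z * (g⁻¹ * x * g) = g⁻¹ * ((g * z * g⁻¹) * x) * g := by group
      _ = g⁻¹ * (x * (g * z * g⁻¹)) * g := by rw [h3]
      _ = g⁻¹ * x * g * z := by group
  set Y := (P : Subgroup G) ⊔ C with hY
  have hconj : ∀ y : G, ∃ a : G, a⁻¹ * y * a ∈ Y := by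
    intro y
    -- the parts of `y`
    obtain ⟨a, m, hm, hn⟩ := Nat.exists_eq_pow_mul_and_not_dvd (orderOf_pos y).ne' p hp.ne_one
    have hcop : Nat.Coprime (p ^ a) m := Nat.Coprime.pow_left a ((Nat.Prime.coprime_iff_not_dvd hp).mpr hm)
    have hb : (1 : ℤ) = (p ^ a : ℕ) * Nat.gcdA (p ^ a) m + m * Nat.gcdB (p ^ a) m := by
      have := Nat.gcd_eq_gcd_ab (p ^ a) m
      rw [hcop] at this
      exact_mod_cast this
    set X' := Nat.gcdA (p ^ a) m
    set Y' := Nat.gcdB (p ^ a) m
    set v := y ^ (((p ^ a : ℕ) : ℤ) * X') with hv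
    set u := y ^ ((m : ℤ) * Y') with hu
    have hyuv : y = v * u := by
      rw [hv, hu, ← zpow_add, ← hb, zpow_one]
    have hycomm : v * u = u * v := (Commute.refl y).zpow_zpow _ _ |>.eq
    have hord : y ^ (p ^ a * m) = 1 := by
      rw [← hn]
      exact pow_orderOf_eq_one y
    have hvm : v ^ m = 1 := by
      rw [hv, ← zpow_natCast, ← zpow_mul]
      have : ((p ^ a : ℕ) : ℤ) * X' * m = ((p ^ a * m : ℕ) : ℤ) * X' := by push_cast; ring
      rw [this, zpow_mul, zpow_natCast, hord, one_zpow]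
    have hup : u ^ (p ^ a) = 1 := by
      rw [hu, ← zpow_natCast, ← zpow_mul]
      have : (m : ℤ) * Y' * ((p ^ a : ℕ) : ℤ) = ((p ^ a * m : ℕ) : ℤ) * Y' := by push_cast; ring
      rw [this, zpow_mul, zpow_natCast, hord, one_zpow]
    have hvreg : (orderOf v).Coprime p := by
      have h1 : orderOf v ∣ m := orderOf_dvd_of_pow_eq_one hvm
      exact Nat.Coprime.coprime_dvd_left h1 ((Nat.Prime.coprime_iff_not_dvd hp).mpr hm).symm
    obtain ⟨g, hg⟩ := hreg v hvreg
    set c := g⁻¹ * v * g with hc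
    set u' := g⁻¹ * u * g with hu'
    have hcu : u' * c = c * u' := by
      rw [hu', hc]
      calc g⁻¹ * u * g * (g⁻¹ * v * g) = g⁻¹ * (u * v) * g := by group
        _ = g⁻¹ * (v * u) * g := by rw [hycomm]
        _ = g⁻¹ * v * g * (g⁻¹ * u * g) := by group
    set D := Subgroup.centralizer ({c} : Set G) with hD
    have hPD : (P : Subgroup G) ≤ D := by
      intro z hz
      exact Subgroup.mem_centralizer_singleton_iff.mpr ((Subgroup.mem_centralizer_iff.mp hg z hz))
    have hu'D : u' ∈ D := Subgroup.mem_centralizer_singleton_iff.mpr hcu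
    have hu'p : u' ^ (p ^ a) = 1 := by
      have h0 := conj_pow (a := g⁻¹) (b := u) (i := p ^ a)
      rw [inv_inv] at h0
      rw [hu', h0, hup]
      group
    -- fixed points
    have hPg : IsPGroup p (Subgroup.zpowers (⟨u', hu'D⟩ : D)) := by
      have h1 : (⟨u', hu'D⟩ : D) ^ (p ^ a) = 1 := Subtype.ext hu'p
      obtain ⟨i, -, hi⟩ := (Nat.dvd_prime_pow hp).mp (orderOf_dvd_of_pow_eq_one h1)
      apply IsPGroup.of_card (n := i)
      rw [Nat.card_zpowers, hi]
    have hnd : ¬ p ∣ Nat.card (D ⧸ (P : Subgroup G).subgroupOf D) := by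
      intro h1
      apply P.not_dvd_index
      have h2 : ((P : Subgroup G).subgroupOf D).index ∣ (P : Subgroup G).index :=
        Dvd.intro _ (Subgroup.relIndex_mul_index hPD)
      exact Dvd.dvd.trans h1 h2
    obtain ⟨w, hw⟩ := hPg.nonempty_fixed_point_of_prime_not_dvd_card _ hnd
    obtain ⟨t, rfl⟩ := QuotientGroup.mk_surjective w
    have h1 := hw (⟨_, Subgroup.mem_zpowers _⟩ : Subgroup.zpowers (⟨u', hu'D⟩ : D))
    have h2 : (((⟨u', hu'D⟩ : D) * t : D) : D ⧸ (P : Subgroup G).subgroupOf D) = (t : D ⧸ (P : Subgroup G).subgroupOf D) := h1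
    have h3 := QuotientGroup.eq.mp h2.symm
    rw [Subgroup.mem_subgroupOf] at h3
    have h4 : (t : G)⁻¹ * u' * t ∈ (P : Subgroup G) := by
      simpa [mul_assoc] using h3
    refine ⟨g * t, ?_⟩
    have h5 : (g * t)⁻¹ * y * (g * t) = ((t : G)⁻¹ * u' * t) * ((t : G)⁻¹ * c * t) := by
      rw [hyuv, hycomm, hu', hc]
      group
    have h6 : (t : G)⁻¹ * c * t = c := by
      have h7 : (t : G) * c = c * t := Subgroup.mem_centralizer_singleton_iff.mp t.2
      calc (t : G)⁻¹ * c * t = (t : G)⁻¹ * ((t : G) * c) := by rw [h7]; group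
        _ = c := by group
    rw [h5, h6]
    exact Subgroup.mul_mem _ ((le_sup_left : (P : Subgroup G) ≤ Y) h4) ((le_sup_right : C ≤ Y) hg)
  have hYtop : Y = ⊤ := by
    by_contra hne
    have hcard : 1 < Nat.card (G ⧸ Y) := by
      have h1 : Y.index ≠ 1 := fun h => hne (Subgroup.index_eq_one.mp h)
      have h2 : Y.index ≠ 0 := Subgroup.index_ne_zero_of_finite
      change 1 < Y.index
      omega
    obtain ⟨g, hg⟩ := Cfsg.Agent.Lib.H6Derange.exists_derangement (G := G) (X := G ⧸ Y) (fun x y => by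
      obtain ⟨a, rfl⟩ := QuotientGroup.mk_surjective x
      obtain ⟨b, rfl⟩ := QuotientGroup.mk_surjective y
      refine ⟨b * a⁻¹, ?_⟩
      rw [MulAction.Quotient.smul_mk]
      simp) hcard
    obtain ⟨a, ha⟩ := hconj g
    apply hg (a : G ⧸ Y)
    rw [MulAction.Quotient.smul_mk]
    apply QuotientGroup.eq.mpr
    simpa [mul_assoc] using Y.inv_mem ha
  have hnorm : (P : Subgroup G).Normal := by
    have h1 : Subgroup.normalizer ((P : Subgroup G) : Set G) = ⊤ := by
      rw [eq_top_iff, ← hYtop]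
      apply sup_le Subgroup.le_normalizer
      exact Subgroup.centralizer_le_normalizer _
    exact Subgroup.normalizer_eq_top_iff.mp h1
  haveI := hnorm
  refine ⟨hnorm, ?_⟩
  -- the complement
  have hcopP : (Nat.card (P : Subgroup G)).Coprime (P : Subgroup G).index := P.card_coprime_index
  obtain ⟨H, hH⟩ := Subgroup.exists_right_complement'_of_coprime hcopP
  have hCn : C.Normal := inferInstance
  have hHC : H ≤ C := by
    intro x hx
    have hord : (orderOf x).Coprime p := by
      have h1 : orderOf x ∣ (P : Subgroup G).index := by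
        rw [hH.symm.index_eq_card]
        exact Subgroup.orderOf_dvd_natCard H hx
      exact Nat.Coprime.coprime_dvd_left h1 ((Nat.Prime.coprime_iff_not_dvd hp).mpr P.not_dvd_index).symm
    obtain ⟨g, hg⟩ := hreg x hord
    have := hCn.conj_mem _ hg g
    have h2 : g * (g⁻¹ * x * g) * g⁻¹ = x := by group
    rwa [h2] at this
  refine ⟨H, ?_, ?_, hH.disjoint.eq_bot, hH.sup_eq_top⟩
  · refine ⟨fun n hn g => ?_⟩
    have hg : g ∈ (P : Subgroup G) ⊔ H := by rw [hH.sup_eq_top]; trivial
    obtain ⟨a, ha, b, hb, rfl⟩ := Subgroup.mem_sup_of_normal_left.mp hg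
    have h1 : b * n * b⁻¹ ∈ H := H.mul_mem (H.mul_mem hb hn) (H.inv_mem hb)
    have h2 : a * (b * n * b⁻¹) = (b * n * b⁻¹) * a :=
      (Subgroup.mem_centralizer_iff.mp (hHC h1) a ha)
    have h3 : a * b * n * (a * b)⁻¹ = b * n * b⁻¹ := by
      calc a * b * n * (a * b)⁻¹ = (a * (b * n * b⁻¹)) * a⁻¹ := by group
        _ = (b * n * b⁻¹) * a * a⁻¹ := by rw [h2]
        _ = b * n * b⁻¹ := by group
    rw [h3]
    exact h1
  · rw [← hH.symm.index_eq_card]
    exact P.not_dvd_index

end Cfsg.Agent.S4035
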