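import Mathlib
import Cfsg.Statements.S4036
-- import your own Cfsg.Agent.* helpers here

set_option autoImplicit false
open Cfsg

namespace Cfsg.Agent.S4036

/-- Let P be a finite abelian p-group and K a group of automorphisms of P (a subgroup of Aut P) whose order is divisible by p. If all non-identity elements of K have the same fixed-point subgroup on P, then K has no non-trivial normal subgroup of order prime to p. -/
theorem result {P : Type*} [CommGroup P] [Finite P] {p : ℕ}
    [Fact p.Prime] (hP : IsPGroup p P) (K : Subgroup (MulAut P)) (hK : p ∣ Nat.card K)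
    (hfix : ∀ x y : MulAut P, x ∈ K → y ∈ K → x ≠ 1 → y ≠ 1 → ∀ v : P, x v = v ↔ y v = v) :
    ∀ N : Subgroup ↥K, N.Normal → ¬ p ∣ Nat.card N → N = ⊥ := by
  classical
  intro N hN hNd
  by_contra hne
  haveI := Fintype.ofFinite N
  haveI := Fintype.ofFinite P
  have hpp : p.Prime := Fact.out
  obtain ⟨⟨n₀, hn₀N⟩, hn₀1⟩ := (Subgroup.ne_bot_iff_exists_ne_one (H := N)).mp hne
  have hn₀ : n₀ ≠ 1 := fun h => hn₀1 (Subtype.ext h)
  have hn₀' : (n₀ : MulAut P) ≠ 1 := fun h => hn₀ (Subtype.ext h)
  let α : N → MulAut P := fun n => ((n : K) : MulAut P)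
  let T : P →* P :=
    { toFun := fun v => ∏ n : N, α n v
      map_one' := by simp
      map_mul' := by
        intro a b
        simp [Finset.prod_mul_distrib] }
  have hT : ∀ v, T v = ∏ n : N, α n v := fun _ => rfl
  -- values of `T` are fixed by `n₀`
  have hTfix : ∀ (n' : N) (v : P), α n' (T v) = T v := by
    intro n' v
    rw [hT, map_prod]
    refine Fintype.prod_equiv (Equiv.mulLeft n') _ _ ?_
    intro n
    rfl
  obtain ⟨y, hy⟩ := exists_prime_orderOf_dvd_card' p hK
  have hy1 : (y : MulAut P) ≠ 1 := by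
    intro h
    have h1 : y = 1 := Subtype.ext h
    rw [h1, orderOf_one] at hy
    exact hpp.one_lt.ne hy
  let conjE : N ≃ N :=
    { toFun := fun n => ⟨y⁻¹ * n.1 * y, by simpa using hN.conj_mem n.1 n.2 y⁻¹⟩
      invFun := fun n => ⟨y * n.1 * y⁻¹, hN.conj_mem n.1 n.2 y⟩
      left_inv := fun n => by
        apply Subtype.ext
        change y * (y⁻¹ * n.1 * y) * y⁻¹ = n.1
        group
      right_inv := fun n => by
        apply Subtype.ext
        change y⁻¹ * (y * n.1 * y⁻¹) * y = n.1
        group }
  have hTy : ∀ v, T ((y : MulAut P) v) = (y : MulAut P) (T v) := by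
    intro v
    rw [hT, hT, map_prod]
    refine Fintype.prod_equiv conjE _ _ ?_
    intro n
    have h1 : α (conjE n) = (y : MulAut P)⁻¹ * α n * (y : MulAut P) := rfl
    rw [h1]
    simp only [MulAut.mul_apply, MulAut.apply_inv_self]
  let Q : Subgroup P := T.ker
  haveI := Fintype.ofFinite Q
  have hQmem : ∀ v : Q, T ((y : MulAut P) v.1) = 1 := by
    intro v
    rw [hTy]
    have : T v.1 = 1 := v.2
    rw [this, map_one]
  let f : Function.End Q := fun v => ⟨(y : MulAut P) v.1, hQmem v⟩
  have hfpow : ∀ (k : ℕ) (v : Q), (((f ^ k) v : Q) : P) = ((y : MulAut P) ^ k) v.1 := by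
    intro k v
    induction k with
    | zero => rfl
    | succ k ih =>
      rw [pow_succ', pow_succ']
      change (y : MulAut P) (((f ^ k) v : Q) : P) = _
      rw [ih]
      rfl
  have hfp : f ^ p ^ 1 = 1 := by
    rw [pow_one]
    funext v
    apply Subtype.ext
    rw [hfpow]
    have h1 : (y : MulAut P) ^ p = 1 := by
      have : y ^ p = 1 := by rw [← hy]; exact pow_orderOf_eq_one y
      exact congrArg Subtype.val this
    rw [h1]
    rfl
  have hmod := Equiv.Perm.card_fixedPoints_modEq hfp
  -- fixed points of `f`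
  have hfix1 : ∀ v : Function.fixedPoints f, v = ⟨1, by
      change f 1 = 1
      apply Subtype.ext
      exact map_one _⟩ := by
    rintro ⟨v, hv⟩
    apply Subtype.ext
    apply Subtype.ext
    have hv1 : (y : MulAut P) v.1 = v.1 := congrArg Subtype.val hv
    have hall : ∀ n : N, α n v.1 = v.1 := by
      intro n
      by_cases hn : α n = 1
      · rw [hn]
        rfl
      · exact (hfix (y : MulAut P) (α n) y.2 n.1.2 hy1 hn v.1).mp hv1
    have h2 : T v.1 = 1 := v.2
    rw [hT, Finset.prod_congr rfl (fun n _ => hall n), Finset.prod_const, Finset.card_univ,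
      ← Nat.card_eq_fintype_card] at h2
    obtain ⟨j, hj⟩ := IsPGroup.iff_orderOf.mp hP v.1
    have h3 : orderOf v.1 ∣ Nat.card N := orderOf_dvd_of_pow_eq_one h2
    rw [hj] at h3
    have hj0 : j = 0 := by
      by_contra h
      exact hNd ((dvd_pow_self p h).trans h3)
    rw [hj0, pow_zero] at hj
    exact orderOf_eq_one_iff.mp hj
  have hcardfix : Fintype.card (Function.fixedPoints f) = 1 :=
    Fintype.card_eq_one_of_forall_eq hfix1
  rw [hcardfix] at hmod
  have hQp : IsPGroup p Q := hP.to_subgroup Q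
  obtain ⟨a, ha⟩ := IsPGroup.iff_card.mp hQp
  have ha0 : a = 0 := by
    by_contra h
    have h1 : p ∣ Fintype.card Q := by
      rw [← Nat.card_eq_fintype_card, ha]
      exact dvd_pow_self p h
    have h2 : Fintype.card Q % p = 1 % p := hmod
    have h3 : Fintype.card Q % p = 0 := Nat.mod_eq_zero_of_dvd h1
    rw [h3, Nat.mod_eq_of_lt hpp.one_lt] at h2
    omega
  rw [ha0, pow_zero] at ha
  have hQbot : Q = ⊥ := Subgroup.card_eq_one.mp ha
  have hinj : Function.Injective T := (MonoidHom.ker_eq_bot_iff T).mp hQbot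
  have hsurj : Function.Surjective T := Finite.injective_iff_surjective.mp hinj
  apply hn₀'
  ext v
  obtain ⟨u, rfl⟩ := hsurj v
  exact hTfix ⟨n₀, hn₀N⟩ u

end Cfsg.Agent.S4036
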