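import Mathlib
import Cfsg.Statements.S4040
import Cfsg.Agent.Lib.H6Hughes
import Cfsg.Agent.Lib.SchurZ2
-- import your own Cfsg.Agent.* helpers here

set_option autoImplicit false
open Cfsg

namespace Cfsg.Agent.S4040

open Cfsg Cfsg.Agent.Lib.H6Hughes Cfsg.Agent.Lib.PNilp Cfsg.Agent.Lib.ZJ Cfsg.Agent.Lib.ZJThompson
  Cfsg.Agent.Lib.SchurZ2

universe u

section

variable {G : Type u} [Group G] [Finite G]

/-- Quotients. -/
theorem coatom_map (M N : Subgroup G) [N.Normal] (hM : IsCoatom M) (hNM : N ≤ M) :
    IsCoatom (M.map (QuotientGroup.mk' N)) := by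
  have hmem : ∀ g : G, (g : G ⧸ N) ∈ M.map (QuotientGroup.mk' N) → g ∈ M := by
    rintro g ⟨m, hm, he⟩
    have h1 : m⁻¹ * g ∈ N := QuotientGroup.eq.1 he
    have h2 := M.mul_mem hm (hNM h1)
    simpa using h2
  constructor
  · intro htop
    apply hM.1
    rw [eq_top_iff]
    intro x _
    apply hmem
    rw [htop]
    trivial
  · intro S hS
    have h1 : M < S.comap (QuotientGroup.mk' N) := by
      refine lt_of_le_of_ne ?_ ?_
      · intro m hm
        exact hS.le ⟨m, hm, rfl⟩
      · intro he
        apply hS.ne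
        rw [he]
        exact (Subgroup.map_comap_eq_self_of_surjective (QuotientGroup.mk'_surjective N) S)
    have h2 := hM.2 _ h1
    rw [eq_top_iff]
    intro x _
    induction x using QuotientGroup.induction_on with
    | H x =>
      have : x ∈ S.comap (QuotientGroup.mk' N) := by rw [h2]; trivial
      exact this

theorem normalizer_le_ZZ (T : Subgroup G) :
    Subgroup.normalizer (T : Set G) ≤ Subgroup.normalizer (ZZ T : Set G) := by
  intro y hy'
  rw [Subgroup.mem_normalizer_iff]
  intro x
  constructor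
  · rintro ⟨h1, h2⟩
    refine ⟨(Subgroup.mem_normalizer_iff.1 hy' x).1 h1, ?_⟩
    have h2 := Subgroup.mem_centralizer_iff.1 h2
    refine Subgroup.mem_centralizer_iff.2 ?_
    intro a ha
    have h3 : y⁻¹ * a * y ∈ T := by
      have := (Subgroup.mem_normalizer_iff.1 (Subgroup.inv_mem _ hy') a).1 ha
      simpa using this
    have h4 := h2 _ h3
    calc a * (y * x * y⁻¹) = y * ((y⁻¹ * a * y) * x) * y⁻¹ := by group
      _ = y * (x * (y⁻¹ * a * y)) * y⁻¹ := by rw [h4]
      _ = y * x * y⁻¹ * a := by group
  · rintro ⟨h1, h2⟩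
    refine ⟨(Subgroup.mem_normalizer_iff.1 hy' x).2 h1, ?_⟩
    have h2 := Subgroup.mem_centralizer_iff.1 h2
    refine Subgroup.mem_centralizer_iff.2 ?_
    intro a ha
    have h3 : y * a * y⁻¹ ∈ T := (Subgroup.mem_normalizer_iff.1 hy' a).1 ha
    have h4 := h2 _ h3
    have h5 : y * (a * x) * y⁻¹ = y * (x * a) * y⁻¹ := by
      calc y * (a * x) * y⁻¹ = (y * a * y⁻¹) * (y * x * y⁻¹) := by group
        _ = (y * x * y⁻¹) * (y * a * y⁻¹) := h4
        _ = y * (x * a) * y⁻¹ := by group
    have h6 := mul_right_cancel h5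
    exact mul_left_cancel h6

/-- The local analysis at a prime dividing the order of `M`. -/
theorem local_step (M : Subgroup G) (hM : IsCoatom M) [hnil : Group.IsNilpotent M]
    (hNo : ∀ N : Subgroup G, N.Normal → N ≤ M → N = ⊥) (p : ℕ) [hp : Fact p.Prime] (hp2 : p ≠ 2)
    (hpd : p ∣ Nat.card M) :
    HasNormalPComplement p G ∧ ∃ T : Sylow p G, (T : Subgroup G) ≤ M := by
  classical
  have hnorm : ∀ Z : Subgroup G, Z ≠ ⊥ → Z ≤ M → M ≤ Subgroup.normalizer (Z : Set G) →
      Subgroup.normalizer (Z : Set G) ≤ M := by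
    intro Z hZ hZM hMZ
    by_contra hle
    have h1 : M < Subgroup.normalizer (Z : Set G) := lt_of_le_of_ne hMZ (fun he => hle he.ge)
    have h2 := hM.2 _ h1
    exact hZ (hNo Z (Subgroup.normalizer_eq_top_iff.1 h2) hZM)
  obtain ⟨P₁⟩ : Nonempty (Sylow p M) := inferInstance
  set P : Subgroup G := (P₁ : Subgroup M).map M.subtype with hP
  have hP₁n : (P₁ : Subgroup M).Normal := inferInstance
  haveI hP₁c : (P₁ : Subgroup M).Characteristic := P₁.characteristic_of_normal hP₁n
  have hPM : P ≤ M := by
    rintro _ ⟨u, _, rfl⟩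
    exact u.2
  have hPne : P ≠ ⊥ := by
    intro h0
    rw [hP, Subgroup.map_eq_bot_iff_of_injective _ M.subtype_injective] at h0
    exact P₁.ne_bot_of_dvd_card hpd h0
  have hPp : IsPGroup p P := P₁.isPGroup'.map M.subtype
  have hMP : M ≤ Subgroup.normalizer (P : Set G) := by
    refine le_trans Subgroup.le_normalizer ?_
    exact normalizer_le_normalizer_map_char M (P₁ : Subgroup M)
  have hNP := hnorm P hPne hPM hMP
  obtain ⟨T, hT⟩ := hPp.exists_le_sylow
  have hTM : (T : Subgroup G) ⊓ M = P := by
    apply le_antisymm _ (le_inf hT hPM)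
    have h1 : ((T : Subgroup G)).subgroupOf M = (P₁ : Subgroup M) := by
      apply P₁.is_maximal' (T.isPGroup'.comap_of_injective M.subtype M.subtype_injective)
      intro x hx
      exact hT ⟨x, hx, rfl⟩
    rintro x ⟨hx1, hx2⟩
    refine ⟨⟨x, hx2⟩, ?_, rfl⟩
    show (⟨x, hx2⟩ : M) ∈ (P₁ : Subgroup M)
    rw [← h1, Subgroup.mem_subgroupOf]
    exact hx1
  have hTP : (T : Subgroup G) = P := by
    by_contra hne
    haveI : Group.IsNilpotent (T : Subgroup G) := T.isPGroup'.isNilpotent
    have hlt : P.subgroupOf (T : Subgroup G) < ⊤ := by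
      refine lt_of_le_of_ne le_top ?_
      intro he
      apply hne
      apply le_antisymm _ hT
      intro x hx
      have : (⟨x, hx⟩ : (T : Subgroup G)) ∈ P.subgroupOf (T : Subgroup G) := by rw [he]; trivial
      exact Subgroup.mem_subgroupOf.1 this
    have hcond := normalizerCondition_of_isNilpotent (G := (T : Subgroup G)) _ hlt
    obtain ⟨x, hx1, hx2⟩ := SetLike.exists_of_lt hcond
    have hxN : (x : G) ∈ Subgroup.normalizer (P : Set G) := by
      rw [Subgroup.mem_normalizer_iff]
      intro h
      by_cases hh : h ∈ (T : Subgroup G)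
      · have h1 := Subgroup.mem_normalizer_iff.1 hx1 ⟨h, hh⟩
        simpa [Subgroup.mem_subgroupOf] using h1
      · constructor
        · intro hin
          exact absurd (hT hin) hh
        · intro hin
          exfalso
          apply hh
          have h3 := T.toSubgroup.mul_mem (T.toSubgroup.mul_mem (T.toSubgroup.inv_mem x.2) (hT hin)) x.2
          have h4 : (x : G)⁻¹ * ((x : G) * h * (x : G)⁻¹) * (x : G) = h := by group
          rw [h4] at h3
          exact h3
    have hxM := hNP hxN
    have hxP : (x : G) ∈ P := by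
      rw [← hTM]
      exact ⟨x.2, hxM⟩
    exact hx2 (Subgroup.mem_subgroupOf.2 hxP)
  refine ⟨?_, T, hTP.le.trans hPM⟩
  have hTne : (T : Subgroup G) ≠ ⊥ := by rw [hTP]; exact hPne
  have hTMM : (T : Subgroup G) ≤ M := hTP.le.trans hPM
  have hMT : M ≤ Subgroup.normalizer ((T : Subgroup G) : Set G) := by rw [hTP]; exact hMP
  have hnpcM : HasNormalPComplement p M := Cfsg.Agent.Lib.ThompsonFpf.npc_of_nilpotent p
  refine npc_thompson hp2 _ G rfl T ⟨?_, ?_⟩
  · refine npc_le (hnorm _ (JJ_ne_bot hp2 T.isPGroup' hTne) ((JJ_le _).trans hTMM)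
      (hMT.trans (normalizer_le_JJ _))) hnpcM
  · refine npc_le ((centralizer_le_normalizer _).trans (hnorm _ (ZZ_ne_bot T.isPGroup' hTne)
      (inf_le_left.trans hTMM) (hMT.trans (normalizer_le_ZZ _)))) hnpcM

theorem coprime_part (M : Subgroup G) (hM : IsCoatom M) [hnil : Group.IsNilpotent M]
    (hNo : ∀ N : Subgroup G, N.Normal → N ≤ M → N = ⊥) (hodd : Odd (Nat.card M)) :
    ∃ K : Subgroup G, K.Normal ∧ Nat.Coprime (Nat.card K) (Nat.card M) ∧ K.index ≤ Nat.card M := by
  classical
  have hfam : ∀ p ∈ (Nat.card M).primeFactors, ∃ N : Subgroup G, N.Normal ∧ ¬ p ∣ Nat.card N ∧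
      ∃ a : ℕ, N.index = p ^ a ∧ p ^ a ∣ Nat.card M := by
    intro p hpf
    have hpp := Nat.prime_of_mem_primeFactors hpf
    have hpd := Nat.dvd_of_mem_primeFactors hpf
    haveI : Fact p.Prime := ⟨hpp⟩
    have hp2 : p ≠ 2 := by
      rintro rfl
      exact (Nat.not_even_iff_odd.2 hodd) (even_iff_two_dvd.2 hpd)
    obtain ⟨⟨P, N, hN, hc⟩, T, hT⟩ := local_step M hM hNo p hp2 hpd
    refine ⟨N, hN, ?_, ?_⟩
    · rw [← hc.index_eq_card]
      exact P.not_dvd_index
    · have h1 : N.index = Nat.card (P : Subgroup G) := hc.symm.index_eq_card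
      obtain ⟨a, ha⟩ := IsPGroup.iff_card.1 P.isPGroup'
      refine ⟨a, by rw [h1, ha], ?_⟩
      rw [← ha]
      have h2 : Nat.card (P : Subgroup G) = Nat.card (T : Subgroup G) := by
        have h3 := P.card_eq_multiplicity
        have h4 := T.card_eq_multiplicity
        exact h3.trans h4.symm
      rw [h2]
      exact Subgroup.card_dvd_of_le hT
  choose! N hNn hNp a ha hab using hfam
  set π := (Nat.card M).primeFactors with hπ
  let Nf : π → Subgroup G := fun p => N p
  refine ⟨⨅ p : π, Nf p, ?_, ?_, ?_⟩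
  · exact Subgroup.normal_iInf_normal (fun p => hNn p.1 p.2)
  · apply Nat.coprime_of_dvd
    intro q hq hq1 hq2
    have hqf : q ∈ π := Nat.mem_primeFactors.2 ⟨hq, hq2, Nat.card_pos.ne'⟩
    apply hNp q hqf
    exact hq1.trans (Subgroup.card_dvd_of_le (iInf_le Nf ⟨q, hqf⟩))
  · classical
    have h1 := Subgroup.index_iInf_le Nf
    refine h1.trans ?_
    have h2 : ∏ p : π, (Nf p).index = ∏ p ∈ π, p ^ a p := by
      refine Eq.trans ?_ (Finset.prod_coe_sort π (fun p => p ^ a p))
      apply Fintype.prod_congr
      intro p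
      exact ha p.1 p.2
    rw [h2]
    apply Nat.le_of_dvd Nat.card_pos
    apply Finset.prod_dvd_of_isRelPrime
    · intro p hp q hq hne
      show IsRelPrime (p ^ a p) (q ^ a q)
      rw [← Nat.coprime_iff_isRelPrime]
      apply Nat.Coprime.pow
      exact (Nat.coprime_primes (Nat.prime_of_mem_primeFactors hp) (Nat.prime_of_mem_primeFactors hq)).2 hne
    · intro p hp
      exact hab p hp

/-- The main theorem. -/
theorem main_thm : ∀ (n : ℕ) (G : Type u) [Group G] [Finite G], Nat.card G = n → ∀ M : Subgroup G,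
    IsCoatom M → Group.IsNilpotent M → Odd (Nat.card M) → Group.IsSolvable G := by
  intro n
  induction n using Nat.strong_induction_on with
  | _ n IH =>
    intro G _ _ hn M hM hnil hodd
    by_cases hN : ∃ N : Subgroup G, N ≠ ⊥ ∧ N.Normal ∧ N ≤ M
    · obtain ⟨N, hne, hNn, hNM⟩ := hN
      haveI := hNn
      have hlt : Nat.card (G ⧸ N) < n := by
        rw [← hn, Subgroup.card_eq_card_quotient_mul_card_subgroup N]
        have h1 : 1 < Nat.card N := (Subgroup.one_lt_card_iff_ne_bot N).2 hne
        have h2 : 0 < Nat.card (G ⧸ N) := Nat.card_pos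
        nlinarith
      have hq : Group.IsSolvable (G ⧸ N) := by
        refine IH _ hlt (G ⧸ N) rfl (M.map (QuotientGroup.mk' N)) (coatom_map M N hM hNM) ?_ ?_
        · have hs : Function.Surjective ((QuotientGroup.mk' N).subgroupMap M) :=
            MonoidHom.subgroupMap_surjective _ _
          exact nilpotent_of_surjective _ hs
        · exact Odd.of_dvd_nat hodd (Subgroup.card_map_dvd M _)
      have hNs : Group.IsSolvable N := by
        have h1 : Group.IsNilpotent N := nilpotent_of_injective (Subgroup.inclusion hNM) (Subgroup.inclusion_injective hNM)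
        infer_instance
      exact Group.isSolvable_of_ker_le_range N.subtype (QuotientGroup.mk' N) (by
        rw [QuotientGroup.ker_mk', Subgroup.range_subtype])
    · have hNo : ∀ N : Subgroup G, N.Normal → N ≤ M → N = ⊥ := by
        intro N hn1 hn2
        by_contra hne
        exact hN ⟨N, hne, hn1, hn2⟩
      obtain ⟨K, hKn, hKc, hKi⟩ := coprime_part M hM hNo hodd
      haveI := hKn
      have hKM : K ⊓ M = ⊥ := Cfsg.Agent.Lib.SchurZ.inf_eq_bot_of_coprime hKc
      have hc1 := card_sup_mul_card_inf K M (by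
        rw [Subgroup.normalizer_eq_top_iff.2 hKn]
        exact le_top)
      rw [hKM, Subgroup.card_bot, mul_one] at hc1
      have hsup : K ⊔ M = ⊤ := by
        apply Subgroup.eq_top_of_le_card
        rw [hc1]
        have h1 := K.card_mul_index
        rw [← h1]
        exact Nat.mul_le_mul_left _ hKi
      rw [hsup, Nat.card_congr Subgroup.topEquiv.toEquiv] at hc1
      have hKbot : K ≠ ⊥ := by
        intro h0
        apply hM.1
        rw [h0, bot_sup_eq] at hsup
        exact hsup
      obtain ⟨r, hr, hrd⟩ := Nat.exists_prime_and_dvd (n := Nat.card K)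
        (fun h1 => hKbot ((Subgroup.card_eq_one).1 h1))
      haveI : Fact r.Prime := ⟨hr⟩
      have hMs : Group.IsSolvable M := inferInstance
      obtain ⟨R, hR⟩ := exists_invariant_sylow M K (by
        rw [Subgroup.normalizer_eq_top_iff.2 hKn]
        exact le_top) hKc (Or.inr hMs) r
      set R' : Subgroup G := (R : Subgroup K).map K.subtype with hR'
      have hR'K : R' ≤ K := by
        rintro _ ⟨u, _, rfl⟩
        exact u.2
      have hR'c : Nat.Coprime (Nat.card R') (Nat.card M) :=
        Nat.Coprime.coprime_dvd_left (Subgroup.card_dvd_of_le hR'K) hKc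
      have hR'M : R' ⊓ M = ⊥ := Cfsg.Agent.Lib.SchurZ.inf_eq_bot_of_coprime hR'c
      have hR'ne : R' ≠ ⊥ := by
        intro h0
        rw [hR', Subgroup.map_eq_bot_iff_of_injective _ K.subtype_injective] at h0
        exact R.ne_bot_of_dvd_card hrd h0
      have hsup2 : R' ⊔ M = ⊤ := by
        apply hM.2
        refine lt_of_le_of_ne le_sup_right ?_
        intro he
        have h1 : R' ≤ M := by rw [he]; exact le_sup_left
        apply hR'ne
        rw [← hR'M]
        exact (inf_eq_left.2 h1).symm
      have hc2 := card_sup_mul_card_inf R' M hR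
      rw [hsup2, hR'M, Subgroup.card_bot, mul_one, Nat.card_congr Subgroup.topEquiv.toEquiv, hc1] at hc2
      have hcK : Nat.card K = Nat.card R' := Nat.eq_of_mul_eq_mul_right Nat.card_pos hc2
      have hRK : R' = K := Subgroup.eq_of_le_of_card_ge hR'K hcK.le
      have hKp : IsPGroup r K := by
        rw [← hRK]
        exact R.isPGroup'.map K.subtype
      have hKs : Group.IsSolvable K := by
        haveI := hKp.isNilpotent
        infer_instance
      have hqs : Group.IsSolvable (G ⧸ K) := by
        let f : M →* G ⧸ K := (QuotientGroup.mk' K).comp M.subtype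
        have hf : Function.Surjective f := by
          intro x
          induction x using QuotientGroup.induction_on with
          | H x =>
            have h1 : x ∈ ((K ⊔ M : Subgroup G) : Set G) := by rw [hsup]; trivial
            rw [Subgroup.normal_mul] at h1
            obtain ⟨k, hk, m, hm, rfl⟩ := h1
            refine ⟨⟨m, hm⟩, ?_⟩
            show ((m : G ⧸ K)) = ((k * m : G) : G ⧸ K)
            rw [QuotientGroup.mk_mul, (QuotientGroup.eq_one_iff k).2 hk, one_mul]
        exact solvable_of_surjective hf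
      exact Group.isSolvable_of_ker_le_range K.subtype (QuotientGroup.mk' K) (by
        rw [QuotientGroup.ker_mk', Subgroup.range_subtype])

end


/-- A finite group possessing a maximal subgroup that is nilpotent of odd order is solvable. -/
theorem result {G : Type*} [Group G] [Finite G]
    (M : Subgroup G) (hmax : IsCoatom M) (hnil : Group.IsNilpotent M) (hodd : Odd (Nat.card M)) :
    Group.IsSolvable G := by
  exact main_thm _ G rfl M hmax hnil hodd

end Cfsg.Agent.S4040
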