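import Mathlib
import Cfsg.Statements.S4049
import Cfsg.Agent.Lib.H6Hughes
import Cfsg.Agent.Lib.BaerSuzuki
import Cfsg.Agent.Lib.SchurZ
-- import your own Cfsg.Agent.* helpers here

set_option autoImplicit false
open Cfsg

namespace Cfsg.Agent.S4049

open Cfsg Cfsg.Agent.Lib.H6Hughes

universe u

/-- The form of the hypothesis which passes to quotients. -/
def PP (G : Type*) [Group G] : Prop :=
  ∀ H : Subgroup G, H ≠ ⊥ → ¬ 2 ∣ Nat.card H → ∀ x ∈ Subgroup.normalizer (H : Set G),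
    (∃ k : ℕ, x ^ 2 ^ k = 1) → x ∈ Subgroup.centralizer (H : Set G)

section

variable {G : Type u} [Group G] [Finite G]

theorem PP_of_hyp (hhom : ∀ H : Subgroup G, H ≠ ⊥ → ¬ 2 ∣ Nat.card ↥H →
        ¬ 2 ∣ (Subgroup.centralizer (H : Set G)).relIndex (Subgroup.normalizer (H : Set G))) : PP G := by
  intro H hH hodd x hx ⟨k, hk⟩
  have h1 := hhom H hH hodd
  set N := Subgroup.normalizer (H : Set G) with hN
  set C := (Subgroup.centralizer (H : Set G)).subgroupOf N with hC
  haveI hCn : C.Normal := by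
    constructor
    intro c hc g
    rw [hC, Subgroup.mem_subgroupOf] at hc ⊢
    rw [Subgroup.mem_centralizer_iff] at hc ⊢
    intro a ha
    have hg : (g : G) ∈ Subgroup.normalizer (H : Set G) := g.2
    have h3 : (g : G)⁻¹ * a * (g : G) ∈ H := by
      have := (Subgroup.mem_normalizer_iff.1 (Subgroup.inv_mem _ hg) a).1 ha
      simpa using this
    have h4 := hc _ h3
    push_cast
    calc a * ((g : G) * (c : G) * (g : G)⁻¹)
        = (g : G) * (((g : G)⁻¹ * a * (g : G)) * (c : G)) * (g : G)⁻¹ := by group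
      _ = (g : G) * ((c : G) * ((g : G)⁻¹ * a * (g : G))) * (g : G)⁻¹ := by rw [h4]
      _ = (g : G) * (c : G) * (g : G)⁻¹ * a := by group
  have hi : ¬ 2 ∣ C.index := h1
  have hx2 : ((⟨x, hx⟩ : N) ^ C.index) ∈ C := by
    rw [← QuotientGroup.eq_one_iff, QuotientGroup.mk_pow]
    have : Nat.card (N ⧸ C) = C.index := rfl
    rw [← this]
    exact pow_card_eq_one'
  have hx3 : x ^ C.index ∈ Subgroup.centralizer (H : Set G) := by
    have := Subgroup.mem_subgroupOf.1 hx2
    simpa using this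
  refine mem_of_pow_coprime _ x C.index ?_ hx3
  have h5 : orderOf x ∣ 2 ^ k := orderOf_dvd_of_pow_eq_one hk
  exact Nat.Coprime.coprime_dvd_right h5 (Nat.Coprime.pow_right _
    ((Nat.coprime_comm.1 ((Nat.Prime.coprime_iff_not_dvd Nat.prime_two).2 hi))))

theorem inv_mem_core (hP : PP G) (t : G) (ht : orderOf t = 2) : t ∈ pCore 2 G := by
  classical
  by_contra hO
  obtain ⟨h, hne, hodd, hinv⟩ := Cfsg.Agent.Lib.BaerSuzuki.inverts_odd t ht hO
  have hZ : Subgroup.zpowers h ≠ ⊥ := by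
    intro h0
    exact hne (Subgroup.zpowers_eq_bot.1 h0)
  have hZo : ¬ 2 ∣ Nat.card (Subgroup.zpowers h) := by
    rw [Nat.card_zpowers]
    exact fun hd => (Nat.not_even_iff_odd.2 hodd) (even_iff_two_dvd.2 hd)
  have hN : t ∈ Subgroup.normalizer ((Subgroup.zpowers h : Subgroup G) : Set G) := by
    have ht2 : t * t = 1 := by
      rw [← pow_two, ← ht]
      exact pow_orderOf_eq_one t
    have htinv : t⁻¹ = t := inv_eq_of_mul_eq_one_left ht2
    have hconj : ∀ y ∈ Subgroup.zpowers h, t * y * t⁻¹ ∈ Subgroup.zpowers h := by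
      rintro _ ⟨n, rfl⟩
      show t * h ^ n * t⁻¹ ∈ Subgroup.zpowers h
      rw [← conj_zpow, hinv]
      exact Subgroup.zpow_mem _ (Subgroup.inv_mem _ (Subgroup.mem_zpowers h)) _
    rw [Subgroup.mem_normalizer_iff]
    intro y
    refine ⟨hconj y, fun hy => ?_⟩
    have := hconj _ hy
    have h3 : t * (t * y * t⁻¹) * t⁻¹ = y := by
      calc t * (t * y * t⁻¹) * t⁻¹ = (t * t) * y * (t * t)⁻¹ := by group
        _ = y := by rw [ht2]; group
    rwa [h3] at this
  have hC := hP _ hZ hZo t hN ⟨1, by rw [pow_one, ← ht]; exact pow_orderOf_eq_one t⟩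
  have h1 := Subgroup.mem_centralizer_iff.1 hC h (Subgroup.mem_zpowers h)
  have h2 : h = h⁻¹ := by
    rw [← hinv]
    rw [← h1]
    group
  have h3 : h ^ 2 = 1 := by
    rw [pow_two]
    nth_rw 1 [h2]
    simp
  have h4 : orderOf h ∣ 2 := orderOf_dvd_of_pow_eq_one h3
  have h5 : orderOf h = 1 := by
    rcases (Nat.dvd_prime Nat.prime_two).1 h4 with h6 | h6
    · exact h6
    · rw [h6] at hodd
      exact absurd hodd (by decide)
  exact hne (orderOf_eq_one_iff.1 h5)

theorem PP_quot (hP : PP G) : PP (G ⧸ pCore 2 G) := by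
  classical
  haveI : Fact (Nat.Prime 2) := ⟨Nat.prime_two⟩
  set T := pCore 2 G with hTdef
  haveI hTn : T.Normal := Cfsg.Agent.Lib.FitCore.pCore_normal 2
  have hTp : IsPGroup 2 T := Cfsg.Agent.Lib.FitCore.pCore_isPGroup 2
  intro Hq hHq hqodd xq hxq ⟨k, hk⟩
  set L : Subgroup G := Hq.comap (QuotientGroup.mk' T) with hL
  have hTL : T ≤ L := by
    intro w hw
    show (w : G ⧸ T) ∈ Hq
    rw [(QuotientGroup.eq_one_iff w).2 hw]
    exact Hq.one_mem
  let f : L →* Hq := (QuotientGroup.mk' T).subgroupComap Hq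
  have hfs : Function.Surjective f :=
    MonoidHom.subgroupComap_surjective_of_surjective _ _ (QuotientGroup.mk'_surjective T)
  have hfk : f.ker = T.subgroupOf L := by
    ext x
    rw [MonoidHom.mem_ker, Subgroup.mem_subgroupOf]
    constructor
    · intro hx
      have h1 : ((f x : Hq) : G ⧸ T) = 1 := congrArg Subtype.val hx
      exact (QuotientGroup.eq_one_iff _).1 h1
    · intro hx
      exact Subtype.ext ((QuotientGroup.eq_one_iff _).2 hx)
  have hT'i : (T.subgroupOf L).index = Nat.card Hq := by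
    rw [← hfk, Subgroup.index_ker, MonoidHom.range_eq_top.2 hfs]
    exact Nat.card_congr Subgroup.topEquiv.toEquiv
  have hT'p : IsPGroup 2 (T.subgroupOf L) := hTp.comap_of_injective L.subtype L.subtype_injective
  have hcop0 : Nat.Coprime (Nat.card (T.subgroupOf L)) (T.subgroupOf L).index := by
    obtain ⟨a, ha⟩ := IsPGroup.iff_card.1 hT'p
    rw [ha, hT'i]
    exact Nat.Coprime.pow_left _ ((Nat.Prime.coprime_iff_not_dvd Nat.prime_two).2 hqodd)
  haveI : (T.subgroupOf L).Normal := Subgroup.Normal.subgroupOf hTn L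
  obtain ⟨K₀, hK₀⟩ := Subgroup.exists_right_complement'_of_coprime (N := T.subgroupOf L) hcop0
  have hcK₀ : Nat.card K₀ = Nat.card Hq := by rw [← hK₀.symm.index_eq_card, hT'i]
  set H₀ : Subgroup G := K₀.map L.subtype with hH₀
  have hcH₀ : Nat.card H₀ = Nat.card Hq := by
    rw [hH₀, Subgroup.card_map_of_injective L.subtype_injective, hcK₀]
  have hH₀L : H₀ ≤ L := by
    rintro _ ⟨u, _, rfl⟩
    exact u.2
  have hdec : ∀ l ∈ L, ∃ t ∈ T, ∃ h ∈ H₀, l = t * h := by
    intro l hl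
    obtain ⟨⟨t, k⟩, he⟩ := hK₀.2 ⟨l, hl⟩
    refine ⟨((t : L) : G), Subgroup.mem_subgroupOf.1 t.2, ((k : L) : G), ⟨k, k.2, rfl⟩, ?_⟩
    exact (congrArg Subtype.val he).symm
  have hsup : T ⊔ H₀ = L := by
    apply le_antisymm (sup_le hTL hH₀L)
    intro l hl
    obtain ⟨t, ht, h, hh, rfl⟩ := hdec l hl
    exact Subgroup.mul_mem _ ((le_sup_left : T ≤ T ⊔ H₀) ht) ((le_sup_right : H₀ ≤ T ⊔ H₀) hh)
  obtain ⟨x₀, rfl⟩ := QuotientGroup.mk'_surjective T xq
  have hTs : Group.IsSolvable T := by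
    haveI := hTp.isNilpotent
    infer_instance
  have hcop1 : Nat.Coprime (Nat.card T) (Nat.card H₀) := by
    obtain ⟨a, ha⟩ := IsPGroup.iff_card.1 hTp
    rw [ha, hcH₀]
    exact Nat.Coprime.pow_left _ ((Nat.Prime.coprime_iff_not_dvd Nat.prime_two).2 hqodd)
  have hxL : ∀ a ∈ H₀, x₀ * a * x₀⁻¹ ∈ T ⊔ H₀ := by
    intro a ha
    rw [hsup]
    show ((x₀ * a * x₀⁻¹ : G) : G ⧸ T) ∈ Hq
    have h1 : ((a : G) : G ⧸ T) ∈ Hq := hH₀L ha
    have h2 := (Subgroup.mem_normalizer_iff.1 hxq _).1 h1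
    simpa using h2
  obtain ⟨n, hn, hnN⟩ := Cfsg.Agent.Lib.SchurZ.exists_normalizing T H₀
    (by rw [Subgroup.normalizer_eq_top_iff.2 hTn]; exact le_top) x₀ hxL hcop1 (Or.inl hTs)
  set y := n * x₀ with hy
  have hyq : (y : G ⧸ T) = (x₀ : G ⧸ T) := by
    rw [hy, QuotientGroup.mk_mul, (QuotientGroup.eq_one_iff n).2 hn, one_mul]
  obtain ⟨a, m, hmo, hm⟩ := Nat.exists_eq_two_pow_mul_odd (n := orderOf y) (orderOf_pos y).ne'
  have hw2 : (y ^ m) ^ 2 ^ a = 1 := by
    rw [← pow_mul, mul_comm, ← hm]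
    exact pow_orderOf_eq_one y
  have hH₀ne : H₀ ≠ ⊥ := by
    intro h0
    apply hHq
    have h1 : Nat.card Hq = 1 := by rw [← hcH₀, h0, Subgroup.card_bot]
    exact Subgroup.card_eq_one.1 h1
  have hH₀o : ¬ 2 ∣ Nat.card H₀ := by rw [hcH₀]; exact hqodd
  have hwC := hP H₀ hH₀ne hH₀o (y ^ m) (Subgroup.pow_mem _ hnN m) ⟨a, hw2⟩
  -- now descend
  have hq1 : ((x₀ : G ⧸ T)) ^ m ∈ Subgroup.centralizer (Hq : Set (G ⧸ T)) := by
    rw [Subgroup.mem_centralizer_iff]
    intro hq hhq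
    obtain ⟨l, rfl⟩ := QuotientGroup.mk'_surjective T hq
    have hl : l ∈ L := hhq
    obtain ⟨t, ht, h, hh, rfl⟩ := hdec l hl
    have h1 := Subgroup.mem_centralizer_iff.1 hwC h hh
    have h2 : (h : G ⧸ T) * (y : G ⧸ T) ^ m = (y : G ⧸ T) ^ m * (h : G ⧸ T) := by
      rw [← QuotientGroup.mk_pow, ← QuotientGroup.mk_mul, ← QuotientGroup.mk_mul, h1]
    rw [hyq] at h2
    show ((t * h : G) : G ⧸ T) * (x₀ : G ⧸ T) ^ m = (x₀ : G ⧸ T) ^ m * ((t * h : G) : G ⧸ T)
    rw [QuotientGroup.mk_mul, (QuotientGroup.eq_one_iff t).2 ht, one_mul]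
    exact h2
  refine mem_of_pow_coprime _ _ m ?_ hq1
  have h5 : orderOf ((x₀ : G ⧸ T)) ∣ 2 ^ k := orderOf_dvd_of_pow_eq_one hk
  refine Nat.Coprime.coprime_dvd_right h5 (Nat.Coprime.pow_right _ ?_)
  exact Nat.Coprime.symm ((Nat.Prime.coprime_iff_not_dvd Nat.prime_two).2 (fun hd =>
    (Nat.not_even_iff_odd.2 hmo) (even_iff_two_dvd.2 hd)))

end

theorem main_thm : ∀ (n : ℕ) (G : Type u) [Group G] [Finite G], Nat.card G = n → PP G →
    ∀ S : Sylow 2 G, (S : Subgroup G).Normal := by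
  intro n
  induction n using Nat.strong_induction_on with
  | _ n IH =>
    intro G _ _ hn hP S
    classical
    haveI : Fact (Nat.Prime 2) := ⟨Nat.prime_two⟩
    by_cases h2 : 2 ∣ Nat.card G
    · obtain ⟨t, ht⟩ := exists_prime_orderOf_dvd_card' 2 h2
      have htT := inv_mem_core hP t ht
      set T := pCore 2 G with hTdef
      haveI hTn : T.Normal := Cfsg.Agent.Lib.FitCore.pCore_normal 2
      have hTne : T ≠ ⊥ := by
        intro h0
        rw [h0, Subgroup.mem_bot] at htT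
        rw [htT, orderOf_one] at ht
        omega
      have hlt : Nat.card (G ⧸ T) < n := by
        rw [← hn, Subgroup.card_eq_card_quotient_mul_card_subgroup T]
        have h1 : 1 < Nat.card T := (Subgroup.one_lt_card_iff_ne_bot T).2 hTne
        have h2 : 0 < Nat.card (G ⧸ T) := Nat.card_pos
        nlinarith
      have hTS : T ≤ (S : Subgroup G) := Cfsg.Agent.Lib.FitCore.pCore_le_sylow 2 S
      let Sq : Sylow 2 (G ⧸ T) := Sylow.mapSurjective (QuotientGroup.mk'_surjective T) S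
      have hq := IH _ hlt (G ⧸ T) rfl (PP_quot hP) Sq
      have hSq : (Sq : Subgroup (G ⧸ T)) = (S : Subgroup G).map (QuotientGroup.mk' T) := rfl
      have hSc : (S : Subgroup G) = (Sq : Subgroup (G ⧸ T)).comap (QuotientGroup.mk' T) := by
        rw [hSq, Subgroup.comap_map_eq, QuotientGroup.ker_mk', sup_eq_left.2 hTS]
      rw [hSc]
      exact Subgroup.Normal.comap hq _
    · have h0 : (S : Subgroup G) = ⊥ := by
        obtain ⟨a, ha⟩ := IsPGroup.iff_card.1 S.isPGroup'
        have h1 : Nat.card (S : Subgroup G) ∣ Nat.card G := Subgroup.card_subgroup_dvd_card _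
        by_cases ha0 : a = 0
        · rw [ha0, pow_zero] at ha
          exact Subgroup.card_eq_one.1 ha
        · exfalso
          apply h2
          rw [ha] at h1
          exact (dvd_pow_self 2 ha0).trans h1
      rw [h0]
      exact Subgroup.normal_bot


/-- Let G be a finite group such that N_G(H)/C_G(H) has odd order for every nontrivial subgroup H of odd order. Then the Sylow 2-subgroups of G are normal. -/
theorem result {G : Type*} [Group G] [Finite G]
    (hhom : ∀ H : Subgroup G, H ≠ ⊥ → ¬ 2 ∣ Nat.card ↥H →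
        ¬ 2 ∣ (Subgroup.centralizer (H : Set G)).relIndex (Subgroup.normalizer (H : Set G))) (P : Sylow 2 G) :
    (P : Subgroup G).Normal := by
  exact main_thm _ G rfl (PP_of_hyp hhom) P

end Cfsg.Agent.S4049
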