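import Cfsg.Statements.S4051
import Cfsg.Agent.Lib.SchurZ2
-- import your own Cfsg.Agent.* helpers here

set_option autoImplicit false
set_option linter.all false
open Cfsg

namespace Cfsg.Agent.S4051

/-- `x` is a π-element. -/
def PE (π : Set ℕ) {G : Type*} [Group G] (x : G) : Prop :=
  ∀ p : ℕ, p.Prime → p ∣ orderOf x → p ∈ π

theorem pe_map {π : Set ℕ} {G H : Type*} [Group G] [Group H] (f : G →* H) {x : G}
    (h : PE π x) : PE π (f x) :=
  fun p hp hd => h p hp (hd.trans (orderOf_map_dvd f x))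

theorem pe_coe {π : Set ℕ} {G : Type*} [Group G] {H : Subgroup G} (a : H) :
    PE π (a : G) ↔ PE π a := by
  simp only [PE, Subgroup.orderOf_coe]

theorem mem_of_pow_mem {G : Type*} [Group G] (H : Subgroup G) {y : G} {a b : ℕ}
    (hc : Nat.Coprime a b) (ha : y ^ a ∈ H) (hb : y ^ b ∈ H) : y ∈ H := by
  have h := Nat.gcd_eq_gcd_ab a b
  rw [hc.gcd_eq_one] at h
  have h1 : y = (y ^ a) ^ (Nat.gcdA a b) * (y ^ b) ^ (Nat.gcdB a b) := by
    rw [← zpow_natCast, ← zpow_natCast, ← zpow_mul, ← zpow_mul, ← zpow_add, ← h]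
    simp
  rw [h1]
  exact H.mul_mem (H.zpow_mem ha _) (H.zpow_mem hb _)

theorem exists_part {G : Type*} [Group G] [Finite G] (k : G) {q : ℕ} (hq : q.Prime) :
    ∃ m : ℕ, ¬ q ∣ m ∧ ∀ r : ℕ, r.Prime → r ∣ orderOf (k ^ m) → r = q := by
  have hn : orderOf k ≠ 0 := (orderOf_pos k).ne'
  obtain ⟨a, m, hm, hnm⟩ := Nat.exists_eq_pow_mul_and_not_dvd hn q hq.ne_one
  refine ⟨m, hm, fun r hr hd => ?_⟩
  have h1 : orderOf (k ^ m) ∣ q ^ a := by
    rw [orderOf_dvd_iff_pow_eq_one, ← pow_mul, mul_comm, ← hnm, pow_orderOf_eq_one]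
  exact (Nat.prime_dvd_prime_iff_eq hr hq).1 (hr.dvd_of_dvd_pow (hd.trans h1))

theorem key {G : Type*} [Group G] [Finite G] (π : Set ℕ)
    (hhom : ∀ H : Subgroup G, H ≠ ⊥ → (∀ p : ℕ, p.Prime → p ∣ Nat.card ↥H → p ∉ π) →
      ∀ y ∈ Subgroup.normalizer (H : Set G), ∃ m : ℕ, (∀ p : ℕ, p.Prime → p ∣ m → p ∉ π) ∧
        y ^ m ∈ Subgroup.centralizer (H : Set G))
    (L₀ : Subgroup G) [L₀.Normal] (hL₀ : ∀ x ∈ L₀, PE π x)
    (Q : Subgroup (G ⧸ L₀)) [hQn : Q.Normal]
    (hQ : ∀ q : ℕ, q.Prime → q ∣ Nat.card Q → q ∉ π)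
    (x : G) (hx : PE π x) (w : G ⧸ L₀) (hw : w ∈ Q) :
    w * (x : G ⧸ L₀) = (x : G ⧸ L₀) * w := by
  classical
  let mk := QuotientGroup.mk' L₀
  have hmk : Function.Surjective mk := QuotientGroup.mk'_surjective L₀
  let xb : G ⧸ L₀ := mk x
  let A : Subgroup (G ⧸ L₀) := Subgroup.zpowers xb
  have hAQ : A ≤ Subgroup.normalizer (Q : Set (G ⧸ L₀)) := by
    rw [Subgroup.normalizer_eq_top_iff.mpr hQn]; exact le_top
  have hcop : Nat.Coprime (Nat.card Q) (Nat.card A) := by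
    apply Nat.coprime_of_dvd
    intro k hk hk1 hk2
    have h3 : k ∣ orderOf xb := by rwa [Nat.card_zpowers] at hk2
    exact hQ k hk hk1 (hx k hk (h3.trans (orderOf_map_dvd mk x)))
  have hs : Group.IsSolvable Q ∨ Group.IsSolvable A := by
    right
    refine isSolvable_of_comm (fun a b => Subtype.ext ?_)
    obtain ⟨i, hi⟩ := Subgroup.mem_zpowers_iff.1 a.2
    obtain ⟨j, hj⟩ := Subgroup.mem_zpowers_iff.1 b.2
    show (a : G ⧸ L₀) * (b : G ⧸ L₀) = (b : G ⧸ L₀) * (a : G ⧸ L₀)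
    rw [← hi, ← hj, ← zpow_add, ← zpow_add, add_comm]
  let C : Subgroup Q := (Subgroup.centralizer ({xb} : Set (G ⧸ L₀))).subgroupOf Q
  have hC : C = ⊤ := by
    rw [← Subgroup.index_eq_one]
    by_contra hne
    obtain ⟨q, hq, hd⟩ := Nat.exists_prime_and_dvd hne
    by_cases hqπ : q ∈ π
    · exact hQ q hq (hd.trans (Subgroup.index_dvd_card C)) hqπ
    haveI : Fact q.Prime := ⟨hq⟩
    obtain ⟨Rh, hRh⟩ := Cfsg.Agent.Lib.SchurZ2.exists_invariant_sylow A Q hAQ hcop hs q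
    let R' : Subgroup (G ⧸ L₀) := (Rh : Subgroup Q).map Q.subtype
    have hxR : xb ∈ Subgroup.normalizer (R' : Set (G ⧸ L₀)) := hRh (Subgroup.mem_zpowers xb)
    have hR'p : IsPGroup q R' := Rh.2.map Q.subtype
    let R₁ : Subgroup G := R'.comap mk
    have hxR₁ : x ∈ Subgroup.normalizer (R₁ : Set G) := by
      rw [Subgroup.mem_normalizer_iff]
      intro g
      show mk g ∈ R' ↔ mk (x * g * x⁻¹) ∈ R'
      rw [map_mul, map_mul, map_inv]
      exact (Subgroup.mem_normalizer_iff.mp hxR) (mk g)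
    obtain ⟨P⟩ : Nonempty (Sylow q R₁) := inferInstance
    let P₀ : Subgroup G := (P : Subgroup R₁).map R₁.subtype
    let f : R₁ →* R' := (mk.comp R₁.subtype).codRestrict R' (fun r => r.2)
    have hf : Function.Surjective f := by
      rintro ⟨w, hw⟩
      obtain ⟨g, rfl⟩ := hmk w
      exact ⟨⟨g, hw⟩, rfl⟩
    have hPtop : ((P.mapSurjective hf : Sylow q R') : Subgroup R') = ⊤ :=
      ((P.mapSurjective hf).3 (hR'p.to_subgroup ⊤) le_top).symm
    have hdec : ∀ r ∈ R₁, ∃ p ∈ P₀, ∃ l ∈ L₀, r = p * l := by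
      intro r hr
      have h1 : f ⟨r, hr⟩ ∈ ((P.mapSurjective hf : Sylow q R') : Subgroup R') := by
        rw [hPtop]; trivial
      obtain ⟨p, hp, hpf⟩ := h1
      refine ⟨p, ⟨p, hp, rfl⟩, (p : G)⁻¹ * r, ?_, by group⟩
      have h2 : mk p = mk r := congrArg Subtype.val hpf
      exact QuotientGroup.eq.1 h2
    have hP₀p : IsPGroup q P₀ := P.2.map R₁.subtype
    have hP₀card : ∀ r : ℕ, r.Prime → r ∣ Nat.card P₀ → r ∉ π := by
      intro r hr hd
      obtain ⟨n, hn⟩ := IsPGroup.iff_card.mp hP₀p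
      rw [hn] at hd
      have h3 := (Nat.prime_dvd_prime_iff_eq hr hq).1 (hr.dvd_of_dvd_pow hd)
      rw [h3]; exact hqπ
    have hinter : ∀ z, z ∈ L₀ → z ∈ P₀ → z = 1 := by
      intro z hz1 hz2
      by_contra hne
      have h3 : orderOf z ≠ 1 := fun h => hne (orderOf_eq_one_iff.mp h)
      obtain ⟨r, hr, hrd⟩ := Nat.exists_prime_and_dvd h3
      exact hP₀card r hr (hrd.trans (Subgroup.orderOf_dvd_natCard P₀ hz2)) (hL₀ z hz1 r hr hrd)
    obtain ⟨r, hr, hrx⟩ := Cfsg.Agent.Lib.SchurZ2.frattini_of_normalizer P hxR₁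
    obtain ⟨p, hp, l, hl, hrpl⟩ := hdec r hr
    have hyN : l * x ∈ Subgroup.normalizer (P₀ : Set G) := by
      have h3 : l * x = p⁻¹ * (r * x) := by rw [hrpl]; group
      rw [h3]
      exact Subgroup.mul_mem _ (Subgroup.le_normalizer (P₀.inv_mem hp)) hrx
    have hym : mk (l * x) = xb := by
      have h3 : mk l = 1 := (QuotientGroup.eq_one_iff _).2 hl
      rw [map_mul, h3, one_mul]
    have hle : (Rh : Subgroup Q) ≤ C := by
      rintro ⟨w, hwQ⟩ hwR
      show w ∈ Subgroup.centralizer ({xb} : Set (G ⧸ L₀))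
      rw [Subgroup.mem_centralizer_singleton_iff]
      obtain ⟨g, rfl⟩ := hmk w
      have hgR : g ∈ R₁ := by
        show mk g ∈ R'
        exact ⟨⟨mk g, hwQ⟩, hwR, rfl⟩
      obtain ⟨p', hp', l', hl', hg⟩ := hdec g hgR
      have hmg : mk g = mk p' := by
        have h3 : mk l' = 1 := (QuotientGroup.eq_one_iff _).2 hl'
        rw [hg, map_mul, h3, mul_one]
      rw [hmg]
      by_cases hbot : P₀ = ⊥
      · have h3 : p' = 1 := by rw [hbot] at hp'; exact hp'
        rw [h3, map_one, one_mul, mul_one]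
      have hyC : l * x ∈ Subgroup.centralizer (P₀ : Set G) := by
        have h1 : (l * x) ^ orderOf x ∈ L₀ := by
          have h2 : mk ((l * x) ^ orderOf x) = 1 := by
            rw [map_pow, hym]
            show mk x ^ orderOf x = 1
            rw [← map_pow, pow_orderOf_eq_one, map_one]
          exact (QuotientGroup.eq_one_iff _).1 h2
        have h2 : (l * x) ^ orderOf x ∈ Subgroup.centralizer (P₀ : Set G) := by
          refine Subgroup.mem_centralizer_iff.mpr ?_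
          intro h hh
          have hhP : h ∈ P₀ := hh
          set z := (l * x) ^ orderOf x with hz
          have hzN : z ∈ Subgroup.normalizer (P₀ : Set G) := Subgroup.pow_mem _ hyN _
          have h4 : z * h * z⁻¹ * h⁻¹ ∈ L₀ := by
            have h5 : z * h * z⁻¹ * h⁻¹ = z * (h * z⁻¹ * h⁻¹) := by group
            rw [h5]
            exact L₀.mul_mem h1 (‹L₀.Normal›.conj_mem _ (L₀.inv_mem h1) h)
          have h6 : z * h * z⁻¹ * h⁻¹ ∈ P₀ :=
            P₀.mul_mem ((Subgroup.mem_normalizer_iff.mp hzN h).1 hhP) (P₀.inv_mem hhP)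
          have h7 := hinter _ h4 h6
          have h8 : z * h = h * z := by
            have h9 : z * h = (z * h * z⁻¹ * h⁻¹) * (h * z) := by group
            rw [h9, h7, one_mul]
          exact h8.symm
        obtain ⟨m, hm, hym'⟩ := hhom P₀ hbot hP₀card (l * x) hyN
        have hcop' : Nat.Coprime (orderOf x) m := by
          apply Nat.coprime_of_dvd
          intro k hk h3 h4
          exact hm k hk h4 (hx k hk h3)
        exact mem_of_pow_mem _ hcop' h2 hym'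
      have h3 : p' * (l * x) = (l * x) * p' := Subgroup.mem_centralizer_iff.mp hyC p' hp'
      have h4 : mk p' * mk (l * x) = mk (l * x) * mk p' := by
        rw [← map_mul, ← map_mul, h3]
      rwa [hym] at h4
    exact Rh.not_dvd_index (hd.trans (Subgroup.index_dvd_of_le hle))
  have h1 : (⟨w, hw⟩ : Q) ∈ C := by rw [hC]; trivial
  exact Subgroup.mem_centralizer_singleton_iff.mp h1

theorem closure_pi {Γ Ω : Type*} [Group Γ] [Finite Γ] [Group Ω] (π : Set ℕ) (ψ : Γ →* Ω)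
    (hker : ∀ r : ℕ, r.Prime → r ∣ Nat.card ψ.ker → r ∉ π)
    (Lb : Subgroup Ω) (hLb : ∀ x ∈ Lb, PE π x) (S : Set Γ) (hS : ∀ s ∈ S, PE π s)
    (hSL : ∀ s ∈ S, ψ s ∈ Lb) (hcomm : ∀ s ∈ S, ∀ n ∈ ψ.ker, s * n = n * s) :
    ∀ y ∈ Subgroup.closure S, PE π y := by
  classical
  let Y := Subgroup.closure S
  let ψ' : Y →* Ω := ψ.comp Y.subtype
  let N : Subgroup Y := ψ'.ker
  have hNcard : ∀ r : ℕ, r.Prime → r ∣ Nat.card N → r ∉ π := by
    intro r hr hd
    haveI : Fact r.Prime := ⟨hr⟩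
    obtain ⟨z, hz⟩ := exists_prime_orderOf_dvd_card' (G := N) r hd
    have h1 : ((z : Y) : Γ) ∈ ψ.ker := z.2
    have h2 : orderOf ((z : Y) : Γ) = r := by rw [Subgroup.orderOf_coe, Subgroup.orderOf_coe, hz]
    exact hker r hr (h2 ▸ Subgroup.orderOf_dvd_natCard _ h1)
  have hYL : ∀ y ∈ Y, ψ y ∈ Lb := by
    intro y hy
    have h1 : Y ≤ Lb.comap ψ := (Subgroup.closure_le _).2 hSL
    exact h1 hy
  have hNind : ∀ r : ℕ, r.Prime → r ∣ N.index → r ∈ π := by
    intro r hr hd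
    haveI : Fact r.Prime := ⟨hr⟩
    have hd' : r ∣ Nat.card ψ'.range := by
      have h1 : N.index = Nat.card ψ'.range := Subgroup.index_ker ψ'
      rwa [h1] at hd
    haveI : Finite ψ'.range := Finite.of_surjective ψ'.rangeRestrict ψ'.rangeRestrict_surjective
    obtain ⟨z, hz⟩ := exists_prime_orderOf_dvd_card' (G := ψ'.range) r hd'
    obtain ⟨⟨y, hy⟩, hyz⟩ := z.2
    have h2 : orderOf (z : Ω) = r := by rw [Subgroup.orderOf_coe, hz]
    have h3 : (z : Ω) ∈ Lb := by rw [← hyz]; exact hYL y hy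
    exact hLb _ h3 r hr (by rw [h2])
  have hcop : Nat.Coprime (Nat.card N) N.index := by
    apply Nat.coprime_of_dvd
    intro k hk h1 h2
    exact hNcard k hk h1 (hNind k hk h2)
  obtain ⟨T, hT⟩ := Subgroup.exists_right_complement'_of_coprime hcop
  have hcent : ∀ n : Γ, n ∈ ψ.ker → ∀ y ∈ Y, y * n = n * y := by
    intro n hn y hy
    have h1 : Y ≤ Subgroup.centralizer ({n} : Set Γ) := by
      rw [Subgroup.closure_le]
      intro s hs
      exact Subgroup.mem_centralizer_singleton_iff.2 (hcomm s hs n hn)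
    exact Subgroup.mem_centralizer_singleton_iff.1 (h1 hy)
  have hgen : ∀ s : Y, (s : Γ) ∈ S → s ∈ T := by
    intro s hs
    obtain ⟨⟨n, t⟩, hnt⟩ := hT.2 s
    have hnt' : (n : Y) * (t : Y) = s := hnt
    have hc : Commute (n : Y) (t : Y) :=
      Subtype.ext (hcent ((n : Y) : Γ) n.2 (t : Y) (t : Y).2).symm
    have h1 : (n : Y) ^ orderOf s * (t : Y) ^ orderOf s = 1 := by
      rw [← hc.mul_pow, hnt', pow_orderOf_eq_one]
    have h2 : (n : Y) ^ orderOf s ∈ N := N.pow_mem n.2 _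
    have h3 : (n : Y) ^ orderOf s ∈ T := by
      have h4 : (n : Y) ^ orderOf s = ((t : Y) ^ orderOf s)⁻¹ := eq_inv_of_mul_eq_one_left h1
      rw [h4]
      exact T.inv_mem (T.pow_mem t.2 _)
    have h5 : (n : Y) ^ orderOf s = 1 := Subgroup.disjoint_def.1 hT.disjoint h2 h3
    have h6 : orderOf (n : Y) ∣ orderOf s := orderOf_dvd_of_pow_eq_one h5
    have h7 : orderOf (n : Y) ∣ Nat.card N := Subgroup.orderOf_dvd_natCard N n.2
    have hcop' : Nat.Coprime (orderOf s) (Nat.card N) := by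
      apply Nat.coprime_of_dvd
      intro k hk h8 h9
      have h10 : k ∣ orderOf (s : Γ) := by rwa [Subgroup.orderOf_coe]
      exact hNcard k hk h9 (hS _ hs k hk h10)
    have h8 : orderOf (n : Y) ∣ 1 := by
      have h9 := Nat.dvd_gcd h6 h7
      rwa [hcop'.gcd_eq_one] at h9
    have h9 : (n : Y) = 1 := orderOf_eq_one_iff.mp (Nat.dvd_one.mp h8)
    rw [← hnt', h9, one_mul]
    exact t.2
  have hTtop : T = ⊤ := by
    rw [eq_top_iff, ← Subgroup.closure_closure_coe_preimage (k := S)]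
    rw [Subgroup.closure_le]
    intro s hs
    exact hgen s hs
  intro y hy r hr hd
  have h1 : (⟨y, hy⟩ : Y) ∈ T := by rw [hTtop]; trivial
  have h2 : orderOf (⟨y, hy⟩ : Y) ∣ Nat.card T := Subgroup.orderOf_dvd_natCard T h1
  have h3 : orderOf (⟨y, hy⟩ : Y) = orderOf y := Subgroup.orderOf_mk y hy
  rw [← h3] at hd
  rw [← hT.symm.index_eq_card] at h2
  exact hNind r hr (hd.trans h2)

theorem core {G : Type*} [Group G] [Finite G] (π : Set ℕ)
    (hhom : ∀ H : Subgroup G, H ≠ ⊥ → (∀ p : ℕ, p.Prime → p ∣ Nat.card ↥H → p ∉ π) →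
      ∀ y ∈ Subgroup.normalizer (H : Set G), ∃ m : ℕ, (∀ p : ℕ, p.Prime → p ∣ m → p ∉ π) ∧
        y ^ m ∈ Subgroup.centralizer (H : Set G))
    (K : Subgroup G) [hKn : K.Normal]
    (hK : ∃ L : Subgroup ↥K, ∀ x : ↥K, x ∈ L ↔ PE π x)
    (hQ : ∃ L : Subgroup (G ⧸ K), ∀ x : G ⧸ K, x ∈ L ↔ PE π x) :
    ∃ M : Subgroup G, ∀ x : G, x ∈ M ↔ PE π x := by
  classical
  obtain ⟨L, hL⟩ := hK
  obtain ⟨Lb, hLb⟩ := hQ
  let L₀ : Subgroup G := L.map K.subtype
  have hL₀m : ∀ x : G, x ∈ L₀ ↔ x ∈ K ∧ PE π x := by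
    intro x
    constructor
    · rintro ⟨l, hl, rfl⟩
      exact ⟨l.2, (pe_coe l).2 ((hL l).1 hl)⟩
    · rintro ⟨h1, h2⟩
      exact ⟨⟨x, h1⟩, (hL _).2 ((pe_coe (⟨x, h1⟩ : K)).1 h2), rfl⟩
  haveI hL₀n : L₀.Normal := ⟨fun n hn g => (hL₀m _).2
    ⟨hKn.conj_mem n ((hL₀m n).1 hn).1 g, pe_map (MulAut.conj g).toMonoidHom ((hL₀m n).1 hn).2⟩⟩
  let mk := QuotientGroup.mk' L₀
  have hmk : Function.Surjective mk := QuotientGroup.mk'_surjective L₀
  let Q : Subgroup (G ⧸ L₀) := K.map mk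
  haveI hQn : Q.Normal := hKn.map mk hmk
  have hQcard : ∀ q : ℕ, q.Prime → q ∣ Nat.card Q → q ∉ π := by
    intro q hq hd hqπ
    haveI : Fact q.Prime := ⟨hq⟩
    obtain ⟨w, hw⟩ := exists_prime_orderOf_dvd_card' (G := Q) q hd
    obtain ⟨k, hk, hkw⟩ := w.2
    obtain ⟨m, hm, hmr⟩ := exists_part k hq
    have h1 : k ^ m ∈ L₀ := (hL₀m _).2
      ⟨K.pow_mem hk m, fun r hr hd => by rw [hmr r hr hd]; exact hqπ⟩
    have h2 : (w : G ⧸ L₀) ^ m = 1 := by
      rw [← hkw, ← map_pow]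
      exact (QuotientGroup.eq_one_iff _).2 h1
    have h3 : orderOf (w : G ⧸ L₀) ∣ m := orderOf_dvd_of_pow_eq_one h2
    rw [Subgroup.orderOf_coe, hw] at h3
    exact hm h3
  have hkey := key π hhom L₀ (fun x hx => ((hL₀m x).1 hx).2) Q hQcard
  let ψ : (G ⧸ L₀) →* (G ⧸ K) :=
    QuotientGroup.map L₀ K (MonoidHom.id G) (fun x hx => ((hL₀m x).1 hx).1)
  have hψ : ∀ g : G, ψ (mk g) = (g : G ⧸ K) := fun g => rfl
  have hkerψ : ψ.ker = Q := by
    ext w
    obtain ⟨g, rfl⟩ := hmk w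
    rw [MonoidHom.mem_ker, hψ, QuotientGroup.eq_one_iff]
    constructor
    · intro h; exact ⟨g, h, rfl⟩
    · rintro ⟨k, hk, hkg⟩
      have h1 : k⁻¹ * g ∈ L₀ := QuotientGroup.eq.1 hkg
      have h2 := ((hL₀m _).1 h1).1
      have h3 : g = k * (k⁻¹ * g) := by group
      rw [h3]; exact K.mul_mem hk h2
  let S : Set (G ⧸ L₀) := mk '' {x | PE π x}
  have hcl := closure_pi π ψ (by rw [hkerψ]; exact hQcard) Lb (fun x hx => (hLb x).1 hx) S
      (by rintro _ ⟨x, hx, rfl⟩; exact pe_map mk hx)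
      (by rintro _ ⟨x, hx, rfl⟩; exact (hLb _).2 (pe_map (QuotientGroup.mk' K) hx))
      (by
        rintro _ ⟨x, hx, rfl⟩ n hn
        rw [hkerψ] at hn
        exact (hkey x hx n hn).symm)
  refine ⟨(Subgroup.closure S).comap mk, fun x => ⟨fun hx => ?_, fun hx => ?_⟩⟩
  · have h1 : PE π (mk x) := hcl _ hx
    have h2 : x ^ orderOf (mk x) ∈ L₀ := by
      have h3 : mk (x ^ orderOf (mk x)) = 1 := by rw [map_pow]; exact pow_orderOf_eq_one _
      exact (QuotientGroup.eq_one_iff _).1 h3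
    have h3 : PE π (x ^ orderOf (mk x)) := ((hL₀m _).1 h2).2
    intro r hr hd
    have h4 : orderOf x ∣ orderOf (mk x) * orderOf (x ^ orderOf (mk x)) := by
      rw [orderOf_dvd_iff_pow_eq_one, pow_mul, pow_orderOf_eq_one]
    rcases (Nat.Prime.dvd_mul hr).1 (hd.trans h4) with h5 | h5
    · exact h1 r hr h5
    · exact h3 r hr h5
  · exact Subgroup.subset_closure ⟨x, hx, rfl⟩

theorem pow_relIndex_mem {G : Type*} [Group G] [Finite G] (H : Subgroup G) (y : G)
    (hy : y ∈ Subgroup.normalizer (H : Set G)) :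
    y ^ (Subgroup.centralizer (H : Set G)).relIndex (Subgroup.normalizer (H : Set G)) ∈
      Subgroup.centralizer (H : Set G) := by
  let C' : Subgroup (Subgroup.normalizer (H : Set G)) :=
    (Subgroup.centralizer (H : Set G)).subgroupOf (Subgroup.normalizer (H : Set G))
  haveI : C'.Normal := by
    show ((Subgroup.centralizer (H : Set G)).subgroupOf (Subgroup.normalizer (H : Set G))).Normal
    rw [← Subgroup.normalizerMonoidHom_ker]; infer_instance
  have h1 : ((⟨y, hy⟩ : Subgroup.normalizer (H : Set G)) : Subgroup.normalizer (H : Set G) ⧸ C') ^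
      C'.index = 1 := by
    rw [Subgroup.index]; exact pow_card_eq_one'
  rw [← QuotientGroup.mk_pow, QuotientGroup.eq_one_iff] at h1
  exact h1



/-- Let π be a set of primes and G a finite group such that N_G(H)/C_G(H) is a π'-group for every nontrivial π'-subgroup H of G. If K is a normal subgroup of G such that the π-elements of K form a subgroup and the π-elements of G/K form a subgroup, then the π-elements of G form a subgroup. -/
theorem result {G : Type*} [Group G] [Finite G] (π : Set ℕ)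
    (hπ : ∀ p ∈ π, p.Prime) (hhom : (∀ H : Subgroup G, H ≠ ⊥ → (∀ p : ℕ, p.Prime → p ∣ Nat.card ↥H → p ∉ π) →
        ∀ p : ℕ, p.Prime → p ∣ (Subgroup.centralizer (H : Set G)).relIndex (Subgroup.normalizer (H : Set G)) → p ∉ π))
    (K : Subgroup G) [K.Normal]
    (hK : ∃ L : Subgroup ↥K, ∀ x : ↥K, x ∈ L ↔ ∀ p : ℕ, p.Prime → p ∣ orderOf x → p ∈ π)
    (hQ : ∃ L : Subgroup (G ⧸ K), ∀ x : G ⧸ K, x ∈ L ↔ ∀ p : ℕ, p.Prime → p ∣ orderOf x → p ∈ π) :
    (∃ K : Subgroup G, ∀ x : G, x ∈ K ↔ ∀ p : ℕ, p.Prime → p ∣ orderOf x → p ∈ π) := by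
  exact core π (fun H hb hc y hy => ⟨(Subgroup.centralizer (H : Set G)).relIndex
    (Subgroup.normalizer (H : Set G)), hhom H hb hc, pow_relIndex_mem H y hy⟩) K hK hQ

end Cfsg.Agent.S4051
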