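import Cfsg.Statements.S4050
import Cfsg.Agent.S4051
import Cfsg.Agent.Lib.MinPClosed
-- import your own Cfsg.Agent.* helpers here

set_option autoImplicit false
set_option linter.all false
open Cfsg

namespace Cfsg.Agent.S4050

open Cfsg.Agent.S4051 in
theorem step {G : Type*} [Group G] [Finite G] (π : Set ℕ)
    (hhom : ∀ H : Subgroup G, H ≠ ⊥ → (∀ p : ℕ, p.Prime → p ∣ Nat.card ↥H → p ∉ π) →
      ∀ y ∈ Subgroup.normalizer (H : Set G), ∃ m : ℕ, (∀ p : ℕ, p.Prime → p ∣ m → p ∉ π) ∧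
        y ^ m ∈ Subgroup.centralizer (H : Set G))
    (A B : Subgroup G) [hnA : A.Normal] (hAB : A ≤ B)
    (hfac : (∀ q : ℕ, q.Prime → q ∣ A.relIndex B → q ∈ π) ∨
      (∀ q : ℕ, q.Prime → q ∣ A.relIndex B → q ∉ π))
    (M : Subgroup G) (hM : ∀ x, x ∈ M ↔ x ∈ A ∧ PE π x) :
    ∃ M' : Subgroup G, ∀ x, x ∈ M' ↔ x ∈ B ∧ PE π x := by
  classical
  let K' : Subgroup B := A.subgroupOf B
  haveI : K'.Normal := Subgroup.normal_subgroupOf
  have hhB : ∀ H' : Subgroup B, H' ≠ ⊥ → (∀ p : ℕ, p.Prime → p ∣ Nat.card ↥H' → p ∉ π) →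
      ∀ y ∈ Subgroup.normalizer (H' : Set B), ∃ m : ℕ, (∀ p : ℕ, p.Prime → p ∣ m → p ∉ π) ∧
        y ^ m ∈ Subgroup.centralizer (H' : Set B) := by
    intro H' hb hc y hy
    let H₀ : Subgroup G := H'.map B.subtype
    have hb₀ : H₀ ≠ ⊥ := by
      intro h
      exact hb ((Subgroup.map_eq_bot_iff_of_injective _ B.subtype_injective).1 h)
    have hc₀ : ∀ p : ℕ, p.Prime → p ∣ Nat.card H₀ → p ∉ π := by
      intro p hp hd
      apply hc p hp
      rwa [Subgroup.card_map_of_injective B.subtype_injective] at hd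
    have hy₀ : (y : G) ∈ Subgroup.normalizer (H₀ : Set G) := by
      apply Cfsg.Agent.Lib.MinPClosed.mem_normalizer_of_conj_le
      rintro _ ⟨h, hh, rfl⟩
      exact ⟨y * h * y⁻¹, (Subgroup.mem_normalizer_iff.mp hy h).1 hh, rfl⟩
    obtain ⟨m, hm, hm'⟩ := hhom H₀ hb₀ hc₀ y hy₀
    refine ⟨m, hm, ?_⟩
    refine Subgroup.mem_centralizer_iff.mpr ?_
    intro h hh
    apply Subtype.ext
    have h1 := Subgroup.mem_centralizer_iff.mp hm' (h : G) ⟨h, hh, rfl⟩
    show (h : G) * ((y : G) ^ m) = ((y : G) ^ m) * (h : G)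
    exact h1
  have hK : ∃ L : Subgroup ↥K', ∀ x : ↥K', x ∈ L ↔ PE π x := by
    refine ⟨M.comap (B.subtype.comp K'.subtype), fun x => ?_⟩
    show ((x : B) : G) ∈ M ↔ _
    rw [hM]
    constructor
    · rintro ⟨_, h⟩
      exact (pe_coe x).1 ((pe_coe (x : B)).1 h)
    · intro h
      exact ⟨Subgroup.mem_subgroupOf.1 x.2, (pe_coe (x : B)).2 ((pe_coe x).2 h)⟩
  have hQ : ∃ L : Subgroup (B ⧸ K'), ∀ x : B ⧸ K', x ∈ L ↔ PE π x := by
    rcases hfac with h | h
    · refine ⟨⊤, fun x => ⟨fun _ r hr hd => h r hr ?_, fun _ => trivial⟩⟩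
      exact hd.trans (orderOf_dvd_natCard x)
    · refine ⟨⊥, fun x => ⟨fun hx => ?_, fun hx => ?_⟩⟩
      · rw [Subgroup.mem_bot] at hx
        subst hx
        intro r hr hd
        rw [orderOf_one, Nat.dvd_one] at hd
        exact absurd hd hr.ne_one
      · by_contra hne
        have h3 : orderOf x ≠ 1 := fun h4 =>
          hne (by rw [orderOf_eq_one_iff.mp h4]; exact Subgroup.one_mem _)
        obtain ⟨r, hr, hrd⟩ := Nat.exists_prime_and_dvd h3
        exact h r hr (hrd.trans (orderOf_dvd_natCard x)) (hx r hr hrd)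
  obtain ⟨M₁, hM₁⟩ := core π hhB K' hK hQ
  refine ⟨M₁.map B.subtype, fun x => ⟨?_, ?_⟩⟩
  · rintro ⟨y, hy, rfl⟩
    exact ⟨y.2, (pe_coe y).2 ((hM₁ y).1 hy)⟩
  · rintro ⟨h1, h2⟩
    exact ⟨⟨x, h1⟩, (hM₁ _).2 ((pe_coe (⟨x, h1⟩ : B)).1 h2), rfl⟩

open Cfsg.Agent.S4051 in
theorem p_le {G : Type*} [Group G] {π : Set ℕ} (K : Subgroup G)
    (hK : ∀ x : G, x ∈ K ↔ PE π x) {p : ℕ} (hp : p.Prime) (hpπ : p ∈ π) (A : Subgroup G)
    (hA : IsPGroup p A) : A ≤ K := by
  intro a ha
  rw [hK]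
  intro r hr hd
  obtain ⟨k, hk⟩ := hA ⟨a, ha⟩
  have h1 : a ^ (p ^ k) = 1 := congrArg Subtype.val hk
  have h2 := hd.trans (orderOf_dvd_of_pow_eq_one h1)
  rw [(Nat.prime_dvd_prime_iff_eq hr hp).1 (hr.dvd_of_dvd_pow h2)]
  exact hpπ



/-- Let π be a set of primes and G a finite group. The π-elements of G (elements whose order is divisible only by primes of π) form a subgroup if and only if G is π-separable (it has a chain of normal subgroups from 1 to G with each successive index divisible only by primes in π or only by primes outside π) and N_G(H)/C_G(H) is a π'-group for every nontrivial π'-subgroup H of G. -/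
theorem result {G : Type*} [Group G] [Finite G] (π : Set ℕ)
    (hπ : ∀ p ∈ π, p.Prime) :
    (∃ K : Subgroup G, ∀ x : G, x ∈ K ↔ ∀ p : ℕ, p.Prime → p ∣ orderOf x → p ∈ π) ↔
    ((∃ (n : ℕ) (H : Fin (n + 1) → Subgroup G), H 0 = ⊥ ∧ H (Fin.last n) = ⊤ ∧ Monotone H ∧ (∀ i, (H i).Normal) ∧
      ∀ i : Fin n, (∀ q : ℕ, q.Prime → q ∣ (H i.castSucc).relIndex (H i.succ) → q ∈ π) ∨
        (∀ q : ℕ, q.Prime → q ∣ (H i.castSucc).relIndex (H i.succ) → q ∉ π)) ∧
     (∀ H : Subgroup G, H ≠ ⊥ → (∀ p : ℕ, p.Prime → p ∣ Nat.card ↥H → p ∉ π) →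
        ∀ p : ℕ, p.Prime → p ∣ (Subgroup.centralizer (H : Set G)).relIndex (Subgroup.normalizer (H : Set G)) → p ∉ π)) := by
  classical
  constructor
  · rintro ⟨K, hK⟩
    have hK' : ∀ x : G, x ∈ K ↔ Cfsg.Agent.S4051.PE π x := hK
    haveI hKn : K.Normal := ⟨fun n hn g => (hK' _).2
      (Cfsg.Agent.S4051.pe_map (MulAut.conj g).toMonoidHom ((hK' n).1 hn))⟩
    refine ⟨⟨2, ![⊥, K, ⊤], rfl, rfl, ?_, ?_, ?_⟩, ?_⟩
    · rw [Fin.monotone_iff_le_succ]
      intro i
      fin_cases i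
      · show (⊥ : Subgroup G) ≤ K
        exact bot_le
      · show K ≤ ⊤
        exact le_top
    · intro i
      fin_cases i
      · show (⊥ : Subgroup G).Normal
        infer_instance
      · exact hKn
      · show (⊤ : Subgroup G).Normal
        infer_instance
    · intro i
      fin_cases i
      · left
        intro q hq hd
        have hd' : q ∣ (⊥ : Subgroup G).relIndex K := hd
        rw [Subgroup.relIndex_bot_left] at hd'
        haveI : Fact q.Prime := ⟨hq⟩
        obtain ⟨z, hz⟩ := exists_prime_orderOf_dvd_card' (G := K) q hd'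
        have h1 : orderOf (z : G) = q := by rw [Subgroup.orderOf_coe, hz]
        exact (hK' _).1 z.2 q hq (by rw [h1])
      · right
        intro q hq hd hqπ
        have hd' : q ∣ K.relIndex ⊤ := hd
        rw [Subgroup.relIndex_top_right] at hd'
        haveI : Fact q.Prime := ⟨hq⟩
        obtain ⟨P⟩ : Nonempty (Sylow q G) := inferInstance
        exact P.not_dvd_index (hd'.trans (Subgroup.index_dvd_of_le
          (p_le K hK' hq hqπ _ P.2)))
    · intro H hb hc p hp hd hpπ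
      haveI : Fact p.Prime := ⟨hp⟩
      obtain ⟨P⟩ : Nonempty (Sylow p (Subgroup.normalizer (H : Set G))) := inferInstance
      have hle : (P : Subgroup (Subgroup.normalizer (H : Set G))) ≤
          (Subgroup.centralizer (H : Set G)).subgroupOf (Subgroup.normalizer (H : Set G)) := by
        intro z hz
        have hzK : (z : G) ∈ K := p_le K hK' hp hpπ _
          (P.2.map (Subgroup.normalizer (H : Set G)).subtype) ⟨z, hz, rfl⟩
        rw [Subgroup.mem_subgroupOf]
        refine Subgroup.mem_centralizer_iff.mpr ?_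
        intro h hh
        have hhH : h ∈ H := hh
        have h1 : (z : G) * h * (z : G)⁻¹ * h⁻¹ ∈ K := by
          have h2 : (z : G) * h * (z : G)⁻¹ * h⁻¹ = (z : G) * (h * (z : G)⁻¹ * h⁻¹) := by group
          rw [h2]
          exact K.mul_mem hzK (hKn.conj_mem _ (K.inv_mem hzK) h)
        have h3 : (z : G) * h * (z : G)⁻¹ * h⁻¹ ∈ H :=
          H.mul_mem ((Subgroup.mem_normalizer_iff.mp z.2 h).1 hhH) (H.inv_mem hhH)
        have h4 : (z : G) * h * (z : G)⁻¹ * h⁻¹ = 1 := by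
          by_contra hne
          have h5 := fun h6 => hne (orderOf_eq_one_iff.mp h6)
          obtain ⟨r, hr, hrd⟩ := Nat.exists_prime_and_dvd h5
          exact hc r hr (hrd.trans (Subgroup.orderOf_dvd_natCard H h3))
            ((hK' _).1 h1 r hr hrd)
        have h5 : (z : G) * h = ((z : G) * h * (z : G)⁻¹ * h⁻¹) * (h * z) := by group
        rw [h4, one_mul] at h5
        exact h5.symm
      exact P.not_dvd_index (hd.trans (Subgroup.index_dvd_of_le hle))
  · rintro ⟨⟨n, H, h0, hl, hm, hN, hf⟩, hhomS⟩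
    have hhom'' : ∀ H : Subgroup G, H ≠ ⊥ → (∀ p : ℕ, p.Prime → p ∣ Nat.card ↥H → p ∉ π) →
      ∀ y ∈ Subgroup.normalizer (H : Set G), ∃ m : ℕ, (∀ p : ℕ, p.Prime → p ∣ m → p ∉ π) ∧
        y ^ m ∈ Subgroup.centralizer (H : Set G) :=
      fun H hb hc y hy => ⟨(Subgroup.centralizer (H : Set G)).relIndex
        (Subgroup.normalizer (H : Set G)), hhomS H hb hc, Cfsg.Agent.S4051.pow_relIndex_mem H y hy⟩
    have hP : ∀ i : Fin (n + 1), ∃ M : Subgroup G, ∀ x, x ∈ M ↔ x ∈ H i ∧ Cfsg.Agent.S4051.PE π x := by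
      intro i
      induction i using Fin.induction with
      | zero =>
        refine ⟨⊥, fun x => ?_⟩
        rw [h0]
        constructor
        · intro hx
          rw [Subgroup.mem_bot] at hx
          subst hx
          refine ⟨Subgroup.one_mem _, fun r hr hd => ?_⟩
          rw [orderOf_one, Nat.dvd_one] at hd
          exact absurd hd hr.ne_one
        · rintro ⟨h, _⟩
          exact h
      | succ i ih =>
        obtain ⟨M, hM⟩ := ih
        haveI := hN i.castSucc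
        exact step π hhom'' (H i.castSucc) (H i.succ) (hm (Fin.castSucc_lt_succ ..).le) (hf i) M hM
    obtain ⟨M, hM⟩ := hP (Fin.last n)
    rw [hl] at hM
    exact ⟨M, fun x => ⟨fun h => ((hM x).1 h).2, fun h => (hM x).2 ⟨trivial, h⟩⟩⟩

end Cfsg.Agent.S4050
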