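import Mathlib
import Cfsg.Statements.S4056
import Cfsg.Agent.Lib.LieTrick
import Cfsg.Agent.Lib.CoprimeAct
-- import your own Cfsg.Agent.* helpers here

set_option autoImplicit false
open Cfsg

namespace Cfsg.Agent.S4056

open scoped commutatorElement

/-- In a finite 2-group of nilpotency class at most 2 and exponent dividing 4, the Frattini subgroup lies in the centre and is elementary abelian. -/
theorem result {P : Type*} [Group P] [Finite P] (hP : IsPGroup 2 P)
    (hcl : Group.nilpotencyClass P ≤ 2) (hexp : Monoid.exponent P ∣ 4) :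
    frattini P ≤ Subgroup.center P ∧ Cfsg.IsElementaryAbelian 2 (frattini P) := by
  haveI hnil : Group.IsNilpotent P := hP.isNilpotent
  have htop : Subgroup.upperCentralSeries P 2 = ⊤ :=
    Subgroup.upperCentralSeries_eq_top_iff_nilpotencyClass_le.mpr hcl
  have hcz : ∀ x y : P, x * y * x⁻¹ * y⁻¹ ∈ Subgroup.center P := by
    intro x y
    have h1 : x ∈ Subgroup.upperCentralSeries P (1 + 1) := by
      show x ∈ Subgroup.upperCentralSeries P 2
      rw [htop]
      trivial
    rw [Subgroup.mem_upperCentralSeries_succ_iff] at h1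
    have h2 := h1 y
    rw [Subgroup.upperCentralSeries_one] at h2
    exact h2
  have hp4 : ∀ x : P, x ^ 4 = 1 := by
    intro x
    obtain ⟨k, hk⟩ := hexp
    rw [show (4 : ℕ) = Monoid.exponent P * k from hk, pow_mul, Monoid.pow_exponent_eq_one, one_pow]
  have hcl2 : Cfsg.Agent.Lib.LieTrick.Class2 P := by
    intro x y z
    have := Subgroup.mem_center_iff.mp (hcz x y) z
    rw [commutatorElement_def]
    exact this.symm
  -- the commutators have order at most two
  have hc2 : ∀ x y : P, (x * y * x⁻¹ * y⁻¹) ^ 2 = 1 := by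
    intro x y
    have h1 := Cfsg.Agent.Lib.LieTrick.mul_pow_class2 hcl2 y x 4
    rw [hp4, hp4, hp4, one_mul, commutatorElement_def] at h1
    have h2 : Nat.choose 4 2 = 6 := by decide
    rw [h2] at h1
    have h3 := hp4 (x * y * x⁻¹ * y⁻¹)
    set c := x * y * x⁻¹ * y⁻¹ with hc
    have h4 : c ^ 6 = c ^ 4 * c ^ 2 := by rw [← pow_add]
    rw [h4, h3, one_mul] at h1
    simpa using h1.symm
  have hsqc : ∀ x y : P, y * x ^ 2 = x ^ 2 * y := by
    intro x y
    set c := x * y * x⁻¹ * y⁻¹ with hc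
    have hcc := Subgroup.mem_center_iff.mp (hcz x y)
    have hxy : x * y = c * (y * x) := by
      rw [hc]
      group
    calc y * x ^ 2 = (y * x) * x := by rw [pow_two, mul_assoc]
      _ = c⁻¹ * (x * y) * x := by rw [hxy]; group
      _ = c⁻¹ * x * (y * x) := by group
      _ = c⁻¹ * x * (c⁻¹ * (x * y)) := by rw [hxy]; group
      _ = (c⁻¹ * x * c⁻¹) * (x * y) := by group
      _ = (c⁻¹ * (c⁻¹ * x)) * (x * y) := by
            have h5 : x * c⁻¹ = c⁻¹ * x := by
              have := (Commute.inv_right (show Commute x c from hcc x))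
              exact this.eq
            rw [mul_assoc c⁻¹ x, h5]
      _ = (c ^ 2)⁻¹ * x ^ 2 * y := by simp only [pow_two]; group
      _ = x ^ 2 * y := by rw [hc2 x y]; group
  have hsqZ : ∀ x : P, x ^ 2 ∈ Subgroup.center P := fun x =>
    Subgroup.mem_center_iff.mpr (fun y => hsqc x y)
  haveI : Fact (Nat.Prime 2) := ⟨Nat.prime_two⟩
  have h1 : frattini P ≤ Subgroup.center P :=
    Cfsg.Agent.Lib.CoprimeAct.frattini_le_of_elementary (p := 2) (hcz) hsqZ
  let T : Subgroup P :=
    { carrier := {z | z ∈ Subgroup.center P ∧ z ^ 2 = 1}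
      one_mem' := ⟨one_mem _, one_pow 2⟩
      mul_mem' := by
        rintro a b ⟨ha, ha2⟩ ⟨hb, hb2⟩
        refine ⟨mul_mem ha hb, ?_⟩
        have hc : Commute a b := (Subgroup.mem_center_iff.mp ha b).symm
        rw [hc.mul_pow, ha2, hb2, one_mul]
      inv_mem' := by
        rintro a ⟨ha, ha2⟩
        exact ⟨inv_mem ha, by rw [inv_pow, ha2, inv_one]⟩ }
  haveI hTn : T.Normal := by
    constructor
    rintro z ⟨hz, hz2⟩ g
    have h5 : g * z * g⁻¹ = z := by
      rw [Subgroup.mem_center_iff.mp hz g]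
      group
    rw [h5]
    exact ⟨hz, hz2⟩
  have h2 : frattini P ≤ T :=
    Cfsg.Agent.Lib.CoprimeAct.frattini_le_of_elementary (p := 2) (fun a b => ⟨hcz a b, hc2 a b⟩)
      (fun a => ⟨hsqZ a, by rw [← pow_mul]; exact hp4 a⟩)
  refine ⟨h1, ⟨⟨?_⟩⟩, fun a ha => (h2 ha).2⟩
  intro a b
  apply Subtype.ext
  exact (Subgroup.mem_center_iff.mp (h1 a.2) b).symm

end Cfsg.Agent.S4056
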