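import Mathlib
import Cfsg.Statements.S4058
import Cfsg.Agent.Lib.H6Inv2
-- import your own Cfsg.Agent.* helpers here

set_option autoImplicit false
open Cfsg

namespace Cfsg.Agent.S4058

/-- Let G be a finite 2-group with #(G/Φ(G)) ≥ 2^(2k+1). Then the number of elements x of G with x² = 1 is divisible by 2^(k+1). -/
theorem result {G : Type*} [Group G] [Finite G] (hG : IsPGroup 2 G) (k : ℕ)
    (hgen : 2 ^ (2 * k + 1) ≤ Nat.card (G ⧸ frattini G)) :
    2 ^ (k + 1) ∣ Nat.card {x : G // x ^ 2 = 1} := by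
  classical
  letI := Fintype.ofFinite G
  have h0 := Cfsg.Agent.Lib.CharFS2.card_sqrt_eq (G := G) 1
  have hind : ∀ χ : IrrCharacter G, ∃ n : ℤ, Cfsg.Agent.Lib.CharFS2.indicator (χ : G → ℂ) = n := by
    intro χ
    by_cases hreal : ∀ g, ((χ : G → ℂ) g).im = 0
    · rcases Cfsg.Agent.Lib.CharFS2.indicator_real χ.2 hreal with h | h
      · exact ⟨1, by simp [h]⟩
      · exact ⟨-1, by simp [h]⟩
    · exact ⟨0, by simp [Cfsg.Agent.Lib.CharFS2.indicator_not_real χ.2 hreal]⟩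
  choose ι hι using hind
  let f : IrrCharacter G → ℤ := fun χ => ι χ * (Cfsg.Agent.Lib.CharAb.deg χ : ℤ)
  have hf : ∀ (l : G →* ℤˣ) (χ : IrrCharacter G), f (l • χ) = f χ := by
    intro l χ
    simp only [f]
    rw [Cfsg.Agent.Lib.H6Inv2.deg_smul]
    congr 1
    have h1 := hι (l • χ)
    rw [Cfsg.Agent.Lib.H6Inv2.indicator_smul, hι χ] at h1
    exact_mod_cast h1.symm
  have hsum : (Nat.card {x : G // x ^ 2 = 1} : ℤ) = ∑ χ, f χ := by
    have h1 : Nat.card {x : G // x ^ 2 = 1} = Nat.card {u : G // u * u = 1} :=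
      Nat.card_congr (Equiv.subtypeEquivRight fun x => by rw [pow_two])
    rw [h1]
    have h2 : ((Nat.card {u : G // u * u = 1} : ℤ) : ℂ) = ((∑ χ, f χ : ℤ) : ℂ) := by
      push_cast
      rw [h0]
      refine Finset.sum_congr rfl fun χ _ => ?_
      rw [hι χ, Cfsg.Agent.Lib.CharAb.apply_one_eq_deg χ]
      simp [f]
    exact_mod_cast h2
  haveI hfinΛ : Finite (G →* ℤˣ) := by
    apply Finite.of_injective (fun l : G →* ℤˣ => (l : G → ℤˣ))
    exact DFunLike.coe_injective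
  have hΛ : IsPGroup 2 (G →* ℤˣ) := by
    intro l
    refine ⟨1, ?_⟩
    ext g
    simp only [pow_one, MonoidHom.pow_apply, MonoidHom.one_apply]
    rcases Int.units_eq_one_or (l g) with h | h <;> simp [h]
  haveI : Fact (Nat.Prime 2) := ⟨Nat.prime_two⟩
  obtain ⟨d, hd⟩ := IsPGroup.iff_card.mp hΛ
  obtain ⟨n, hn⟩ := IsPGroup.iff_card.mp hG
  have hdk : 2 * k + 1 ≤ d := by
    have h1 := hgen.trans (Cfsg.Agent.Lib.H6Inv2.card_frattini_le hG)
    rw [hd] at h1
    exact (Nat.pow_le_pow_iff_right (by norm_num)).mp h1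
  have hD : ((2 : ℤ) ^ (k + 1)) ∣ ∑ χ, f χ := by
    apply Cfsg.Agent.Lib.H6Inv2.dvd_sum_of_orbits f hf
    intro χ
    have hos := (MulAction.stabilizer (G →* ℤˣ) χ).card_mul_index
    rw [MulAction.index_stabilizer, hd] at hos
    have hb : Nat.card (MulAction.stabilizer (G →* ℤˣ) χ) ∣ 2 ^ d := ⟨_, hos.symm⟩
    have ha : (MulAction.orbit (G →* ℤˣ) χ).ncard ∣ 2 ^ d := ⟨_, by rw [mul_comm]; exact hos.symm⟩
    obtain ⟨b, -, hb⟩ := (Nat.dvd_prime_pow Nat.prime_two).mp hb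
    obtain ⟨a, -, ha⟩ := (Nat.dvd_prime_pow Nat.prime_two).mp ha
    obtain ⟨m, -, hm⟩ := (Nat.dvd_prime_pow Nat.prime_two).mp
      ((Cfsg.Agent.Lib.H7Char.deg_dvd_card χ).trans (dvd_of_eq hn))
    have hab : b + a = d := by
      rw [hb, ha, ← pow_add] at hos
      exact Nat.pow_right_injective (le_refl 2) hos
    have hbm : b ≤ 2 * m := by
      have h1 := Cfsg.Agent.Lib.H6Inv2.card_stabilizer_le χ
      rw [hb, hm, ← pow_mul, mul_comm m 2] at h1
      exact (Nat.pow_le_pow_iff_right (by norm_num)).mp h1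
    have hcard : Nat.card (MulAction.orbit (G →* ℤˣ) χ) = 2 ^ a := by
      rw [← ha]; rfl
    have hak : k + 1 ≤ a + m := by omega
    rw [hcard]
    simp only [f]
    rw [hm]
    push_cast
    have h3 : (2 : ℤ) ^ a * (ι χ * 2 ^ m) = 2 ^ (a + m) * ι χ := by rw [pow_add]; ring
    rw [h3]
    exact Dvd.dvd.mul_right (pow_dvd_pow 2 hak) _
  rw [← hsum] at hD
  exact_mod_cast hD

end Cfsg.Agent.S4058
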