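import Mathlib
import Cfsg.Statements.S4065
-- import your own Cfsg.Agent.* helpers here

set_option autoImplicit false
open Cfsg

namespace Cfsg.Agent.S4065

/-- Commuting is transitive on nonidentity elements, so centralizers are TI. -/
theorem ti_of_ca {H : Type*} [Group H] (hca : ∀ x y z : H, y ≠ 1 → x * y = y * x → y * z = z * y → x * z = z * x) (x : H) :
    Cfsg.IsTISubset (Subgroup.centralizer ({x} : Set H) : Set H) := by
  intro g hg w hw hgw
  by_contra hw1
  have hw' : w ∈ Subgroup.centralizer ({x} : Set H) := hw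
  have hgw' : g * w * g⁻¹ ∈ Subgroup.centralizer ({x} : Set H) := hgw
  rw [Subgroup.mem_centralizer_singleton_iff] at hw' hgw'
  apply hg
  by_cases hx : x = 1
  · rw [Subgroup.mem_normalizer_iff]
    intro u
    subst hx
    have hall : ∀ v : H, v ∈ Subgroup.centralizer ({(1 : H)} : Set H) := by
      intro v
      rw [Subgroup.mem_centralizer_singleton_iff]
      simp
    simp [hall]
  have hw2 : g * w * g⁻¹ ≠ 1 := by
    intro h
    apply hw1
    have : w = g⁻¹ * (g * w * g⁻¹) * g := by group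
    rw [this, h]; group
  rw [Subgroup.mem_normalizer_iff]
  intro u
  show u ∈ Subgroup.centralizer ({x} : Set H) ↔ g * u * g⁻¹ ∈ Subgroup.centralizer ({x} : Set H)
  rw [Subgroup.mem_centralizer_singleton_iff, Subgroup.mem_centralizer_singleton_iff]
  constructor
  · intro hu
    have h1 : u * w = w * u := hca u x w hx hu hw'.symm
    have h2 : (g * u * g⁻¹) * (g * w * g⁻¹) = (g * w * g⁻¹) * (g * u * g⁻¹) := by
      calc (g * u * g⁻¹) * (g * w * g⁻¹) = g * (u * w) * g⁻¹ := by group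
        _ = g * (w * u) * g⁻¹ := by rw [h1]
        _ = _ := by group
    exact hca _ _ _ hw2 h2 hgw'
  · intro hu
    have h1 : (g * u * g⁻¹) * (g * w * g⁻¹) = (g * w * g⁻¹) * (g * u * g⁻¹) := hca _ x _ hx hu hgw'.symm
    have h2 : u * w = w * u := by
      have h3 : g * (u * w) * g⁻¹ = g * (w * u) * g⁻¹ := by
        calc g * (u * w) * g⁻¹ = (g * u * g⁻¹) * (g * w * g⁻¹) := by group
          _ = (g * w * g⁻¹) * (g * u * g⁻¹) := h1
          _ = _ := by group
      have h4 := mul_right_cancel h3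
      exact mul_left_cancel h4
    exact hca _ _ _ hw1 h2 hw'

theorem prop3 {F : Type*} [Field F] (a1 a2 a3 b1 b2 b3 : F) (hb : b1 ≠ 0 ∨ b2 ≠ 0 ∨ b3 ≠ 0)
    (h12 : a1 * b2 = b1 * a2) (h13 : a1 * b3 = b1 * a3) (h23 : a2 * b3 = b2 * a3) :
    ∃ s, a1 = s * b1 ∧ a2 = s * b2 ∧ a3 = s * b3 := by
  rcases hb with hb | hb | hb
  · refine ⟨a1 / b1, ?_, ?_, ?_⟩
    · field_simp
    · rw [div_mul_eq_mul_div, eq_div_iff hb]; linear_combination -h12
    · rw [div_mul_eq_mul_div, eq_div_iff hb]; linear_combination -h13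
  · refine ⟨a2 / b2, ?_, ?_, ?_⟩
    · rw [div_mul_eq_mul_div, eq_div_iff hb]; linear_combination h12
    · field_simp
    · rw [div_mul_eq_mul_div, eq_div_iff hb]; linear_combination -h23
  · refine ⟨a3 / b3, ?_, ?_, ?_⟩
    · rw [div_mul_eq_mul_div, eq_div_iff hb]; linear_combination h13
    · rw [div_mul_eq_mul_div, eq_div_iff hb]; linear_combination h23
    · field_simp

section
variable {F : Type*} [Field F] [CharP F 2]

open Matrix in
theorem comm_sl (M N : Matrix (Fin 2) (Fin 2) F) (h : M * N = N * M) :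
    M 0 1 * N 1 0 = N 0 1 * M 1 0 ∧ M 0 1 * (N 0 0 - N 1 1) = N 0 1 * (M 0 0 - M 1 1) ∧
      M 1 0 * (N 0 0 - N 1 1) = N 1 0 * (M 0 0 - M 1 1) := by
  have h00 := congrFun (congrFun h 0) 0
  have h01 := congrFun (congrFun h 0) 1
  have h10 := congrFun (congrFun h 1) 0
  simp only [Matrix.mul_apply, Fin.sum_univ_two] at h00 h01 h10
  refine ⟨?_, ?_, ?_⟩
  · linear_combination h00
  · linear_combination -h01
  · linear_combination h10

open Matrix in
theorem comm_of (M N : Matrix (Fin 2) (Fin 2) F)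
    (h1 : M 0 1 * N 1 0 = N 0 1 * M 1 0) (h2 : M 0 1 * (N 0 0 - N 1 1) = N 0 1 * (M 0 0 - M 1 1))
    (h3 : M 1 0 * (N 0 0 - N 1 1) = N 1 0 * (M 0 0 - M 1 1)) : M * N = N * M := by
  ext i j
  fin_cases i <;> fin_cases j <;> simp only [Matrix.mul_apply, Fin.sum_univ_two, Fin.zero_eta, Fin.mk_one, Fin.isValue]
  · linear_combination h1
  · linear_combination -h2
  · linear_combination h3
  · linear_combination -h1

theorem sl_nonscalar (y : Matrix.SpecialLinearGroup (Fin 2) F) (hy : y ≠ 1) :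
    (y : Matrix (Fin 2) (Fin 2) F) 0 1 ≠ 0 ∨ (y : Matrix (Fin 2) (Fin 2) F) 1 0 ≠ 0 ∨
      (y : Matrix (Fin 2) (Fin 2) F) 0 0 - (y : Matrix (Fin 2) (Fin 2) F) 1 1 ≠ 0 := by
  by_contra hcon
  push_neg at hcon
  obtain ⟨h1, h2, h3⟩ := hcon
  apply hy
  have hdet := y.det_coe
  rw [Matrix.det_fin_two, h1, h2] at hdet
  have h4 : (y : Matrix (Fin 2) (Fin 2) F) 1 1 = (y : Matrix (Fin 2) (Fin 2) F) 0 0 := (sub_eq_zero.mp h3).symm
  rw [h4] at hdet
  have h5 : ((y : Matrix (Fin 2) (Fin 2) F) 0 0 + 1) * ((y : Matrix (Fin 2) (Fin 2) F) 0 0 + 1) = 0 := by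
    have h2' : (2 : F) = 0 := CharTwo.two_eq_zero
    linear_combination hdet + (y : Matrix (Fin 2) (Fin 2) F) 0 0 * h2' + h2'
  have h6 : (y : Matrix (Fin 2) (Fin 2) F) 0 0 = 1 := by
    have h7 := mul_self_eq_zero.mp h5
    have h8 := eq_neg_of_add_eq_zero_left h7
    rw [h8, CharTwo.neg_eq]
  apply Subtype.ext
  ext i j
  fin_cases i <;> fin_cases j <;> simp [h1, h2, h4, h6]

theorem ca_sl (a b c : Matrix.SpecialLinearGroup (Fin 2) F) (hb : b ≠ 1) (hab : a * b = b * a) (hbc : b * c = c * b) :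
    a * c = c * a := by
  have hnz := sl_nonscalar b hb
  have h1 := comm_sl (a : Matrix (Fin 2) (Fin 2) F) (b : Matrix (Fin 2) (Fin 2) F) (by
    have := congrArg Subtype.val hab
    simpa using this)
  have h2 := comm_sl (c : Matrix (Fin 2) (Fin 2) F) (b : Matrix (Fin 2) (Fin 2) F) (by
    have := congrArg Subtype.val hbc.symm
    simpa using this)
  obtain ⟨h11, h12, h13⟩ := h1
  obtain ⟨h21, h22, h23⟩ := h2
  set A := (a : Matrix (Fin 2) (Fin 2) F)
  set B := (b : Matrix (Fin 2) (Fin 2) F)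
  set C := (c : Matrix (Fin 2) (Fin 2) F)
  obtain ⟨s, hs1, hs2, hs3⟩ := prop3 (A 0 1) (A 1 0) (A 0 0 - A 1 1) (B 0 1) (B 1 0) (B 0 0 - B 1 1) hnz
    (by linear_combination h11) (by linear_combination h12) (by linear_combination h13)
  obtain ⟨t, ht1, ht2, ht3⟩ := prop3 (C 0 1) (C 1 0) (C 0 0 - C 1 1) (B 0 1) (B 1 0) (B 0 0 - B 1 1) hnz
    (by linear_combination h21) (by linear_combination h22) (by linear_combination h23)
  have key : A * C = C * A := by
    apply comm_of
    · rw [hs1, hs2, ht1, ht2]; ring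
    · rw [hs1, hs3, ht1, ht3]; ring
    · rw [hs2, hs3, ht2, ht3]; ring
  apply Subtype.ext
  simpa using key

theorem center_sl : Subgroup.center (Matrix.SpecialLinearGroup (Fin 2) F) = ⊥ := by
  rw [eq_bot_iff]
  intro A hA
  rw [Matrix.SpecialLinearGroup.mem_center_iff] at hA
  obtain ⟨r, hr, hrA⟩ := hA
  have h2 : r ^ 2 = 1 := by simpa using hr
  have hr1 : r = 1 := by
    have h5 : (r + 1) * (r + 1) = 0 := by
      have h2' : (2 : F) = 0 := CharTwo.two_eq_zero
      linear_combination h2 + r * h2' + h2'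
    have h7 := mul_self_eq_zero.mp h5
    have h8 := eq_neg_of_add_eq_zero_left h7
    rw [h8, CharTwo.neg_eq]
  rw [Subgroup.mem_bot]
  apply Subtype.ext
  rw [← hrA, hr1]
  simp

theorem ca_psl (x y z : Matrix.ProjectiveSpecialLinearGroup (Fin 2) F) (hy : y ≠ 1) (hxy : x * y = y * x) (hyz : y * z = z * y) :
    x * z = z * x := by
  obtain ⟨a, rfl⟩ := QuotientGroup.mk_surjective x
  obtain ⟨b, rfl⟩ := QuotientGroup.mk_surjective y
  obtain ⟨c, rfl⟩ := QuotientGroup.mk_surjective z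
  have hc := center_sl (F := F)
  have lift : ∀ u v : Matrix.SpecialLinearGroup (Fin 2) F,
      (u : Matrix.ProjectiveSpecialLinearGroup (Fin 2) F) * (v : Matrix.ProjectiveSpecialLinearGroup (Fin 2) F) =
        (v : Matrix.ProjectiveSpecialLinearGroup (Fin 2) F) * (u : Matrix.ProjectiveSpecialLinearGroup (Fin 2) F) → u * v = v * u := by
    intro u v huv
    have h1 : ((u * v : Matrix.SpecialLinearGroup (Fin 2) F) : Matrix.ProjectiveSpecialLinearGroup (Fin 2) F) = ((v * u : Matrix.SpecialLinearGroup (Fin 2) F) : Matrix.ProjectiveSpecialLinearGroup (Fin 2) F) := huv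
    rw [QuotientGroup.eq, hc, Subgroup.mem_bot] at h1
    have h2 : u * v = v * u := by
      have h3 := congrArg (fun t => (u * v) * t) h1
      simp only [mul_one, mul_inv_cancel_left] at h3
      exact h3.symm
    exact h2
  have hb1 : b ≠ 1 := by
    rintro rfl
    exact hy rfl
  have := ca_sl a b c hb1 (lift a b hxy) (lift b c hyz)
  show ((a * c : Matrix.SpecialLinearGroup (Fin 2) F) : Matrix.ProjectiveSpecialLinearGroup (Fin 2) F) = ((c * a : Matrix.SpecialLinearGroup (Fin 2) F) : Matrix.ProjectiveSpecialLinearGroup (Fin 2) F)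
  rw [this]

end


/-- Let F be a finite field with 2ⁿ elements, n ≥ 2. In PSL₂(F) the centralizer of every element meets each of its conjugates by elements outside its normalizer trivially. -/
theorem result (n : ℕ) (hn : 2 ≤ n)
    (x : Matrix.ProjectiveSpecialLinearGroup (Fin 2) (GaloisField 2 n)) :
    Cfsg.IsTISubset (Subgroup.centralizer ({x} : Set (Matrix.ProjectiveSpecialLinearGroup (Fin 2) (GaloisField 2 n))) :
      Set (Matrix.ProjectiveSpecialLinearGroup (Fin 2) (GaloisField 2 n))) := by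
  exact ti_of_ca ca_psl x

end Cfsg.Agent.S4065
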