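import Cfsg.Statements.S4066
import Cfsg.Agent.Lib.SylowTI
import Cfsg.Prelude.Def_OddOrderLocal

set_option autoImplicit false
open Cfsg

namespace Cfsg.Agent.S4066

open Cfsg.Agent.Lib.SylowTI

/-- Closure of a set of pairwise commuting `p`-elements is a `p`-group. -/
theorem isPGroup_closure_of_comm {G : Type*} [Group G] (p : ℕ) [Fact p.Prime] (S : Set G)
    (hcomm : ∀ a ∈ S, ∀ b ∈ S, a * b = b * a) (hS : ∀ a ∈ S, ∃ k : ℕ, a ^ (p ^ k) = 1) :
    IsPGroup p (Subgroup.closure S) := by
  have hcc : ∀ a ∈ Subgroup.closure S, ∀ b ∈ Subgroup.closure S, a * b = b * a := by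
    intro a ha b hb
    have h1 : Subgroup.closure S ≤ Subgroup.centralizer (Subgroup.closure S : Set G) := by
      rw [Subgroup.closure_le]
      intro x hx
      rw [SetLike.mem_coe, Subgroup.mem_centralizer_iff]
      intro y hy
      have h2 : Subgroup.closure S ≤ Subgroup.centralizer ({x} : Set G) := by
        rw [Subgroup.closure_le]
        intro z hz
        rw [SetLike.mem_coe, Subgroup.mem_centralizer_singleton_iff]
        exact hcomm z hz x hx
      exact ((Subgroup.mem_centralizer_singleton_iff.1 (h2 hy)))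
    exact (Subgroup.mem_centralizer_iff.1 (h1 ha) b hb).symm
  intro x
  obtain ⟨x, hx⟩ := x
  have : ∃ k : ℕ, x ^ (p ^ k) = 1 := by
    induction hx using Subgroup.closure_induction with
    | mem y hy => exact hS y hy
    | one => exact ⟨0, by simp⟩
    | mul a b ha hb iha ihb =>
      obtain ⟨k, hk⟩ := iha
      obtain ⟨l, hl⟩ := ihb
      refine ⟨k + l, ?_⟩
      have hc : Commute a b := hcc a ha b hb
      rw [hc.mul_pow, pow_add, pow_mul, hk, one_pow, one_mul, mul_comm, pow_mul, hl, one_pow]
    | inv a ha iha =>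
      obtain ⟨k, hk⟩ := iha
      exact ⟨k, by rw [inv_pow, hk, inv_one]⟩
  obtain ⟨k, hk⟩ := this
  exact ⟨k, Subtype.ext (by simpa using hk)⟩

/-- Let G be a finite group in which the centralizer of every element meets each of its conjugates by elements outside its normalizer trivially. Then any two distinct Sylow p-subgroups of G, for any prime p, intersect trivially. -/
theorem result {G : Type*} [Group G] [Finite G] (hTI : ∀ x : G, Cfsg.IsTISubset (Subgroup.centralizer ({x} : Set G) : Set G))
    {p : ℕ} [Fact p.Prime] (P Q : Sylow p G) (hPQ : P ≠ Q) : (P : Subgroup G) ⊓ (Q : Subgroup G) = ⊥ := by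
  have hp : p.Prime := Fact.out
  by_contra hne
  have hne' : ∃ x, x ∈ (P : Subgroup G) ⊓ (Q : Subgroup G) ∧ x ≠ 1 := by
    by_contra hn
    push Not at hn
    apply hne
    rw [eq_bot_iff]
    intro x hx
    rw [Subgroup.mem_bot]
    exact hn x hx
  obtain ⟨x, hx, hx1⟩ := hne'
  rw [Subgroup.mem_inf] at hx
  obtain ⟨hxP, hxQ⟩ := hx
  obtain ⟨g, hg⟩ := MulAction.exists_smul_eq G P Q
  -- nontrivial central element of P
  have hPnt : Nontrivial (P : Subgroup G) := by
    refine ⟨⟨⟨x, hxP⟩, 1, ?_⟩⟩
    intro e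
    exact hx1 (congrArg Subtype.val e)
  haveI : Finite (P : Subgroup G) := inferInstance
  haveI := P.2.center_nontrivial
  obtain ⟨z, hz1⟩ := exists_ne (1 : Subgroup.center (P : Subgroup G))
  obtain ⟨zP, hzP⟩ := z
  obtain ⟨z, hz⟩ := zP
  have hz0 : z ≠ 1 := by
    intro e
    apply hz1
    apply Subtype.ext
    apply Subtype.ext
    exact e
  have hzcent : ∀ y ∈ (P : Subgroup G), y * z = z * y := by
    intro y hy
    have := Subgroup.mem_center_iff.1 hzP ⟨y, hy⟩
    exact congrArg Subtype.val this
  -- H = C(z)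
  let H := Subgroup.centralizer ({z} : Set G)
  have hPH : (P : Subgroup G) ≤ H := by
    intro y hy
    rw [Subgroup.mem_centralizer_singleton_iff]
    exact hzcent y hy
  have hxH : x ∈ H := hPH hxP
  -- w = g z g⁻¹ is central in Q, and x ∈ C(w)
  have hgN : g ∈ Subgroup.normalizer (H : Set G) := by
    by_contra hgn
    have hxQ' : g⁻¹ * x * g ∈ (P : Subgroup G) := by
      rw [← hg, mem_smul] at hxQ
      exact hxQ
    have h1 : g⁻¹ * x * g ∈ H := hPH hxQ'
    have h2 := hTI z g hgn (g⁻¹ * x * g) h1 (by
      have : g * (g⁻¹ * x * g) * g⁻¹ = x := by group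
      rw [this]; exact hxH)
    apply hx1
    have h3 : x = g * (g⁻¹ * x * g) * g⁻¹ := by group
    rw [h3, h2]; simp
  have hQH : (Q : Subgroup G) ≤ H := by
    intro y hy
    rw [← hg, mem_smul] at hy
    have h1 := hPH hy
    have h2 := (Subgroup.mem_normalizer_iff.1 hgN (g⁻¹ * y * g)).1 h1
    have : g * (g⁻¹ * y * g) * g⁻¹ = y := by group
    rw [this] at h2
    exact h2
  -- elements of H: normal closure in H of a p-element of H is a p-group
  have hnormal : ∀ y ∈ H, ∀ h ∈ H, h * y * h⁻¹ ∈ Subgroup.centralizer ({y} : Set G) := by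
    intro y hy h hh
    have hyz : y * z = z * y := Subgroup.mem_centralizer_singleton_iff.1 hy
    have hhz : h * z = z * h := Subgroup.mem_centralizer_singleton_iff.1 hh
    -- `h` normalizes C(y)
    have hN : h ∈ Subgroup.normalizer ((Subgroup.centralizer ({y} : Set G) : Subgroup G) : Set G) := by
      by_contra hn
      have h1 := hTI y h hn z (by
        rw [SetLike.mem_coe, Subgroup.mem_centralizer_singleton_iff]; exact hyz.symm) (by
        have : h * z * h⁻¹ = z := by rw [hhz]; group
        rw [this, SetLike.mem_coe, Subgroup.mem_centralizer_singleton_iff]; exact hyz.symm)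
      exact hz0 h1
    have h1 : y ∈ Subgroup.centralizer ({y} : Set G) := by
      rw [Subgroup.mem_centralizer_singleton_iff]
    exact (Subgroup.mem_normalizer_iff.1 hN y).1 h1
  apply hPQ
  -- every element of P lies in Q, via closure of H-conjugates
  have hle : (P : Subgroup G) ≤ (Q : Subgroup G) := by
    intro y hy
    obtain ⟨k, hk⟩ := (IsPGroup.iff_orderOf.1 P.2) ⟨y, hy⟩
    have hk' : y ^ (p ^ k) = 1 := by
      have : (⟨y, hy⟩ : (P : Subgroup G)) ^ (p ^ k) = 1 := by rw [← hk]; exact pow_orderOf_eq_one _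
      exact congrArg Subtype.val this
    have hyH := hPH hy
    -- S = H-conjugates of y
    let S : Set G := {t | ∃ h ∈ H, t = h * y * h⁻¹}
    have hSp : IsPGroup p (Subgroup.closure S) := by
      apply isPGroup_closure_of_comm p S
      · rintro _ ⟨h1, hh1, rfl⟩ _ ⟨h2, hh2, rfl⟩
        have h3 := hnormal y hyH (h1⁻¹ * h2) (H.mul_mem (H.inv_mem hh1) hh2)
        rw [Subgroup.mem_centralizer_singleton_iff] at h3
        have e1 : h1 * y * h1⁻¹ * (h2 * y * h2⁻¹) = h1 * (y * ((h1⁻¹ * h2) * y * (h1⁻¹ * h2)⁻¹)) * h1⁻¹ := by group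
        have e2 : h2 * y * h2⁻¹ * (h1 * y * h1⁻¹) = h1 * (((h1⁻¹ * h2) * y * (h1⁻¹ * h2)⁻¹) * y) * h1⁻¹ := by group
        rw [e1, e2, h3]
      · rintro _ ⟨h1, hh1, rfl⟩
        exact ⟨k, by rw [conj_pow, hk']; group⟩
    have hSH : Subgroup.closure S ≤ H := by
      rw [Subgroup.closure_le]
      rintro _ ⟨h1, hh1, rfl⟩
      exact H.mul_mem (H.mul_mem hh1 hyH) (H.inv_mem hh1)
    -- Q ≤ N(closure S): Q ⊔ closure S is a p-group
    have hQnorm : (Q : Subgroup G) ≤ Subgroup.normalizer ((Subgroup.closure S : Subgroup G) : Set G) := by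
      intro q hq
      have hqH := hQH hq
      rw [Subgroup.mem_normalizer_iff]
      have hconj : ∀ t ∈ S, q * t * q⁻¹ ∈ S := by
        rintro _ ⟨h1, hh1, rfl⟩
        exact ⟨q * h1, H.mul_mem hqH hh1, by group⟩
      have hconj' : ∀ t ∈ S, q⁻¹ * t * q ∈ S := by
        rintro _ ⟨h1, hh1, rfl⟩
        exact ⟨q⁻¹ * h1, H.mul_mem (H.inv_mem hqH) hh1, by group⟩
      intro t
      constructor
      · intro ht
        have hle1 : Subgroup.closure S ≤ (Subgroup.closure S).comap (MulAut.conj q).toMonoidHom := by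
          rw [Subgroup.closure_le]
          intro u hu
          exact Subgroup.subset_closure (hconj u hu)
        exact hle1 ht
      · intro ht
        have hle1 : Subgroup.closure S ≤ (Subgroup.closure S).comap (MulAut.conj q⁻¹).toMonoidHom := by
          rw [Subgroup.closure_le]
          intro u hu
          have := hconj' u hu
          apply Subgroup.subset_closure
          simpa using this
        have := hle1 ht
        have e : (MulAut.conj q⁻¹).toMonoidHom (q * t * q⁻¹) = t := by
          simp; group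
        rw [Subgroup.mem_comap, e] at this
        exact this
    have hp' := Q.2.to_sup_of_normal_right' hSp hQnorm
    have h5 := Q.3 hp' le_sup_left
    have h6 : Subgroup.closure S ≤ (Q : Subgroup G) := by
      have := le_sup_right (a := (Q : Subgroup G)) (b := Subgroup.closure S)
      rwa [h5] at this
    exact h6 (Subgroup.subset_closure ⟨1, H.one_mem, by simp⟩)
  exact Sylow.ext (P.3 Q.2 hle).symm

end Cfsg.Agent.S4066
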