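import Mathlib
import Cfsg.Statements.S4071
import Cfsg.Agent.S0127
import Cfsg.Agent.Lib.H5Basic
import Cfsg.Agent.Lib.H6Orb4b
-- import your own Cfsg.Agent.* helpers here

set_option autoImplicit false
open Cfsg

namespace Cfsg.Agent.S4071

open scoped commutatorElement

theorem conj_iter {G : Type*} [Group G] {x a c : G} (h : x * a * x⁻¹ = c * a) (hc : x * c * x⁻¹ = c)
    (n : ℕ) : x ^ n * a * (x ^ n)⁻¹ = c ^ n * a := by
  induction n with
  | zero => simp
  | succ n ih =>
    have h1 : x ^ n * c * (x ^ n)⁻¹ = c := by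
      have hcomm : Commute x c := by
        show x * c = c * x
        calc x * c = (x * c * x⁻¹) * x := by group
          _ = c * x := by rw [hc]
      have := (hcomm.pow_left n).eq
      rw [this]; group
    calc x ^ (n + 1) * a * (x ^ (n + 1))⁻¹ = x ^ n * (x * a * x⁻¹) * (x ^ n)⁻¹ := by
          rw [pow_succ]; group
      _ = x ^ n * (c * a) * (x ^ n)⁻¹ := by rw [h]
      _ = (x ^ n * c * (x ^ n)⁻¹) * (x ^ n * a * (x ^ n)⁻¹) := by group
      _ = c ^ (n + 1) * a := by rw [h1, ih, pow_succ']; group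

/-- The twisted commutator map on an abelian normal subgroup without fixed points is onto each invariant subgroup. -/
theorem psi_inj {G : Type*} [Group G] (A : Subgroup G) [A.Normal]
    (hA : ∀ a ∈ A, ∀ b ∈ A, a * b = b * a) (x : G)
    (hfpf : ∀ a ∈ A, x * a * x⁻¹ = a → a = 1) {a b : G} (ha : a ∈ A) (hb : b ∈ A)
    (h : a * x * a⁻¹ * x⁻¹ = b * x * b⁻¹ * x⁻¹) : a = b := by
  have hc : a⁻¹ * b ∈ A := A.mul_mem (A.inv_mem ha) hb
  have hxb : x * b⁻¹ * x⁻¹ ∈ A := ‹A.Normal›.conj_mem _ (A.inv_mem hb) x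
  have hxa : x * a⁻¹ * x⁻¹ ∈ A := ‹A.Normal›.conj_mem _ (A.inv_mem ha) x
  have h1 : a * (x * a⁻¹ * x⁻¹) = b * (x * b⁻¹ * x⁻¹) := by
    calc a * (x * a⁻¹ * x⁻¹) = a * x * a⁻¹ * x⁻¹ := by group
      _ = b * x * b⁻¹ * x⁻¹ := h
      _ = _ := by group
  have h2 : x * (a⁻¹ * b) * x⁻¹ = a⁻¹ * b := by
    have h3 : x * (a⁻¹ * b) * x⁻¹ = (x * a⁻¹ * x⁻¹) * (x * b⁻¹ * x⁻¹)⁻¹ := by group
    rw [h3]
    have h4 : (x * a⁻¹ * x⁻¹) = a⁻¹ * (b * (x * b⁻¹ * x⁻¹)) := by
      rw [← h1]; group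
    rw [h4]
    group
  have := hfpf _ hc h2
  exact (inv_mul_eq_one.mp this)

theorem psi_surj {G : Type*} [Group G] [Finite G] (A : Subgroup G) [A.Normal]
    (hA : ∀ a ∈ A, ∀ b ∈ A, a * b = b * a) (x : G)
    (hfpf : ∀ a ∈ A, x * a * x⁻¹ = a → a = 1) (B : Subgroup G) (hBA : B ≤ A)
    (hB : ∀ b ∈ B, b * x * b⁻¹ * x⁻¹ ∈ B) {t : G} (ht : t ∈ B) :
    ∃ b ∈ B, b * x * b⁻¹ * x⁻¹ = t := by
  let f : B → B := fun b => ⟨b.1 * x * b.1⁻¹ * x⁻¹, hB b.1 b.2⟩
  have hf : Function.Injective f := by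
    intro a b hab
    have h := congrArg Subtype.val hab
    exact Subtype.ext (psi_inj A hA x hfpf (hBA a.2) (hBA b.2) h)
  have hs := Finite.injective_iff_surjective.mp hf
  obtain ⟨b, hb⟩ := hs ⟨t, ht⟩
  exact ⟨b.1, b.2, congrArg Subtype.val hb⟩

theorem core {G : Type*} [Group G] [Finite G] (A : Subgroup G) [hn : A.Normal]
    (hA : ∀ a ∈ A, ∀ b ∈ A, a * b = b * a) (x : G)
    (hfpf : ∀ a ∈ A, x * a * x⁻¹ = a → a = 1)
    (hdec : ∀ g : G, ∃ a ∈ A, ∃ j : ℤ, g = a * x ^ j) (H : Subgroup G) (hx : x ∈ H) :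
    Subgroup.normalizer (H : Set G) ≤ H := by
  intro g hg
  obtain ⟨a, ha, j, rfl⟩ := hdec g
  have hxj : x ^ j ∈ H := H.zpow_mem hx j
  have hxjN : x ^ j ∈ Subgroup.normalizer (H : Set G) := Subgroup.le_normalizer hxj
  have ha' : a ∈ Subgroup.normalizer (H : Set G) := by
    have := Subgroup.mul_mem _ hg (Subgroup.inv_mem _ hxjN)
    simpa using this
  have h1 : a * x * a⁻¹ ∈ H := (Subgroup.mem_normalizer_iff.mp ha' x).mp hx
  have h2 : a * x * a⁻¹ * x⁻¹ ∈ H := H.mul_mem h1 (H.inv_mem hx)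
  have h3 : a * x * a⁻¹ * x⁻¹ ∈ A := by
    have := A.mul_mem ha (hn.conj_mem _ (A.inv_mem ha) x)
    have he : a * x * a⁻¹ * x⁻¹ = a * (x * a⁻¹ * x⁻¹) := by group
    rw [he]; exact this
  have hB : ∀ b ∈ H ⊓ A, b * x * b⁻¹ * x⁻¹ ∈ H ⊓ A := by
    rintro b ⟨hbH, hbA⟩
    refine ⟨H.mul_mem (H.mul_mem (H.mul_mem hbH hx) (H.inv_mem hbH)) (H.inv_mem hx), ?_⟩
    have := A.mul_mem hbA (hn.conj_mem _ (A.inv_mem hbA) x)
    have he : b * x * b⁻¹ * x⁻¹ = b * (x * b⁻¹ * x⁻¹) := by group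
    rw [he]; exact this
  obtain ⟨b, hb, hbe⟩ := psi_surj A hA x hfpf (H ⊓ A) inf_le_right hB ⟨h2, h3⟩
  have : b = a := psi_inj A hA x hfpf hb.2 ha hbe
  rw [← this]
  exact H.mul_mem hb.1 hxj


/-- Let G be a finite solvable non-nilpotent group. Every non-abelian subgroup of G is self-normalizing if and only if G is a semidirect product ⟨x⟩ ⋉ A in which ⟨x⟩ is a p-group for some prime p, A is a normal abelian subgroup of order prime to p, x^p is central in G, and x acts fixed-point-freely on A (no non-identity element of A commutes with x). -/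
theorem result {G : Type*} [Group G] [Finite G]
    [Group.IsSolvable G] (hnn : ¬ Group.IsNilpotent G) :
    (∀ H : Subgroup G, ¬ IsMulCommutative H → Subgroup.normalizer (H : Set G) = H) ↔
    ∃ (x : G) (A : Subgroup G) (p : ℕ), p.Prime ∧ A.Normal ∧ IsMulCommutative A ∧ (∃ k : ℕ, orderOf x = p ^ k) ∧
      ¬ p ∣ Nat.card A ∧ (Subgroup.zpowers x).IsComplement' A ∧ x ^ p ∈ Subgroup.center G ∧
      ∀ a : G, a ∈ A → a ≠ 1 → x * a * x⁻¹ ≠ a := by
  classical
  constructor
  · intro hself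
    haveI : Nontrivial G := by
      by_contra hnt
      rw [not_nontrivial_iff_subsingleton] at hnt
      exact hnn inferInstance
    obtain ⟨M, hMn, hMp⟩ := Cfsg.Agent.Lib.H6Orb4.exists_prime_index G
    set p := M.index with hpdef
    haveI : Fact p.Prime := ⟨hMp⟩
    have hM_ab : ∀ a ∈ M, ∀ b ∈ M, a * b = b * a := by
      by_contra hcon
      push_neg at hcon
      obtain ⟨a, ha, b, hb, hab⟩ := hcon
      have h1 : ¬ IsMulCommutative M := by
        intro hc
        exact hab (congrArg Subtype.val (hc.is_comm.comm ⟨a, ha⟩ ⟨b, hb⟩))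
      have h2 := hself M h1
      have h3 : Subgroup.normalizer (M : Set G) = ⊤ := Subgroup.normalizer_eq_top_iff.mpr hMn
      rw [h3] at h2
      rw [← h2, Subgroup.index_top] at hpdef
      rw [hpdef] at hMp
      exact Nat.not_prime_one hMp
    let P : Sylow p G := default
    obtain ⟨x, hxP, hxM⟩ : ∃ x ∈ (P : Subgroup G), x ∉ M := by
      by_contra hcon
      push_neg at hcon
      have h1 : (P : Subgroup G) ≤ M := hcon
      have h2 : M.index ∣ (P : Subgroup G).index := Subgroup.index_dvd_of_le h1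
      exact P.not_dvd_index h2
    have hsup : M ⊔ Subgroup.zpowers x = ⊤ := by
      refine Cfsg.Agent.S0127.top_of_index_prime hMp M _ rfl le_sup_left ?_
      intro h
      exact hxM (h (Subgroup.mem_sup_right (Subgroup.mem_zpowers x)))
    obtain ⟨k, hk⟩ : ∃ k, orderOf x = p ^ k := by
      have h := (IsPGroup.iff_orderOf.mp P.isPGroup') ⟨x, hxP⟩
      obtain ⟨k, hk⟩ := h
      refine ⟨k, ?_⟩
      rw [← hk]
      simp
    have hcentral_of : ∀ c : G, c ∈ M → x * c * x⁻¹ = c → c ∈ Subgroup.center G := by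
      intro c hc hxc
      have h1 : M ⊔ Subgroup.zpowers x ≤ Subgroup.centralizer {c} := by
        refine sup_le ?_ ?_
        · intro m hm
          rw [Subgroup.mem_centralizer_iff]
          intro h hh
          rw [Set.mem_singleton_iff] at hh
          rw [hh]
          exact hM_ab c hc m hm
        · rw [Subgroup.zpowers_le, Subgroup.mem_centralizer_iff]
          intro h hh
          rw [Set.mem_singleton_iff] at hh
          rw [hh]
          calc c * x = (x * c * x⁻¹) * x := by rw [hxc]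
            _ = x * c := by group
      rw [hsup] at h1
      rw [Subgroup.mem_center_iff]
      intro g
      have := Subgroup.mem_centralizer_iff.mp (h1 (Subgroup.mem_top g)) c rfl
      exact this.symm
    let A : Subgroup G :=
      { carrier := {a | a ∈ M ∧ (orderOf a).Coprime p}
        mul_mem' := by
          rintro a b ⟨ha, ha'⟩ ⟨hb, hb'⟩
          refine ⟨M.mul_mem ha hb, ?_⟩
          have hc : Commute a b := hM_ab a ha b hb
          have h1 : orderOf (a * b) ∣ orderOf a * orderOf b := hc.orderOf_mul_dvd_mul_orderOf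
          exact Nat.Coprime.coprime_dvd_left h1 (Nat.Coprime.mul_left ha' hb')
        one_mem' := ⟨M.one_mem, by simp⟩
        inv_mem' := by
          rintro a ⟨ha, ha'⟩
          exact ⟨M.inv_mem ha, by simpa using ha'⟩ }
    have hA_mem : ∀ a, a ∈ A ↔ a ∈ M ∧ (orderOf a).Coprime p := fun a => Iff.rfl
    haveI hAn : A.Normal := by
      refine ⟨fun a ha g => ?_⟩
      refine ⟨hMn.conj_mem _ ha.1 g, ?_⟩
      have : orderOf (g * a * g⁻¹) = orderOf a := by
        have := (MulAut.conj g).orderOf_eq a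
        simpa [MulAut.conj_apply] using this
      rw [this]
      exact ha.2
    have hAM : A ≤ M := fun a ha => ha.1
    have hA_ab : ∀ a ∈ A, ∀ b ∈ A, a * b = b * a := fun a ha b hb => hM_ab a ha.1 b hb.1
    have hA_p : ∀ (t : G) (n : ℕ), t ∈ A → t ^ (p ^ n) = 1 → t = 1 := by
      intro t n ht hn
      have h1 : orderOf t ∣ p ^ n := orderOf_dvd_of_pow_eq_one hn
      have h2 : (orderOf t).Coprime (p ^ n) := Nat.Coprime.pow_right n ht.2
      have h3 : orderOf t = 1 := Nat.eq_one_of_dvd_coprimes h2 dvd_rfl h1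
      exact orderOf_eq_one_iff.mp h3
    have hQ : IsPGroup p (G ⧸ A) := by
      intro q
      obtain ⟨g, rfl⟩ := QuotientGroup.mk_surjective q
      have h1 : g ^ p ∈ M := Subgroup.pow_index_mem M g
      have hne : orderOf (g ^ p) ≠ 0 := (orderOf_pos _).ne'
      obtain ⟨e, r, hr, he⟩ := Nat.exists_eq_pow_mul_and_not_dvd hne p hMp.ne_one
      refine ⟨e + 1, ?_⟩
      have h2 : (g ^ p) ^ (p ^ e) ∈ A := by
        refine ⟨M.pow_mem h1 _, ?_⟩
        rw [orderOf_pow_of_dvd (pow_ne_zero _ hMp.ne_zero) ⟨r, he⟩, he,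
          Nat.mul_div_cancel_left _ (pow_pos hMp.pos e)]
        exact ((Nat.Prime.coprime_iff_not_dvd hMp).mpr hr).symm
      have h3 : g ^ p ^ (e + 1) = (g ^ p) ^ (p ^ e) := by
        rw [← pow_mul, pow_succ']
      rw [← QuotientGroup.mk_pow, h3]
      exact (QuotientGroup.eq_one_iff _).mpr h2
    have hpA : ¬ p ∣ Nat.card A := by
      intro hd
      obtain ⟨a, ha⟩ := exists_prime_orderOf_dvd_card' p hd
      have h1 := a.2.2
      rw [Subgroup.orderOf_coe, ha] at h1
      exact hMp.one_lt.ne' (by simpa using h1)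
    obtain ⟨e, he⟩ := IsPGroup.iff_card.mp hQ
    have hcardG : Nat.card G = p ^ e * Nat.card A := by
      rw [← he, mul_comm]
      exact (Subgroup.card_mul_index A).symm
    have hcop : (p ^ e).Coprime (Nat.card A) :=
      Nat.Coprime.pow_left e ((Nat.Prime.coprime_iff_not_dvd hMp).mpr hpA)
    have hcardP : Nat.card P = p ^ e := by
      have h1 : p ^ e ∣ Nat.card P := P.pow_dvd_card_of_pow_dvd_card ⟨Nat.card A, hcardG⟩
      obtain ⟨f, hf⟩ := IsPGroup.iff_card.mp P.isPGroup'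
      have h2 : Nat.card P ∣ p ^ e * Nat.card A := by
        rw [← hcardG]
        exact Subgroup.card_subgroup_dvd_card _
      have h3 : (Nat.card P).Coprime (Nat.card A) := by
        rw [hf]
        exact Nat.Coprime.pow_left f ((Nat.Prime.coprime_iff_not_dvd hMp).mpr hpA)
      have h4 : Nat.card P ∣ p ^ e := h3.dvd_of_dvd_mul_right h2
      exact Nat.dvd_antisymm h4 h1
    have hxn : x ^ (p ^ k) = 1 := by
      rw [← hk]; exact pow_orderOf_eq_one x
    have hxpow_A : ∀ j : ℤ, x ^ j ∈ A → x ^ j = 1 := by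
      intro j hj
      refine hA_p _ k hj ?_
      rw [← zpow_natCast, ← zpow_mul, mul_comm, zpow_mul, zpow_natCast, hxn, one_zpow]
    let A₁ : Subgroup G :=
      { carrier := {t | ∃ a ∈ A, t = x * a * x⁻¹ * a⁻¹}
        mul_mem' := by
          rintro _ _ ⟨a, ha, rfl⟩ ⟨b, hb, rfl⟩
          refine ⟨a * b, A.mul_mem ha hb, ?_⟩
          have hxb : x * b * x⁻¹ ∈ A := hAn.conj_mem _ hb x
          have h1 : a⁻¹ * (x * b * x⁻¹) = (x * b * x⁻¹) * a⁻¹ :=
            hA_ab _ (A.inv_mem ha) _ hxb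
          have h2 : b⁻¹ * a⁻¹ = a⁻¹ * b⁻¹ := hA_ab _ (A.inv_mem hb) _ (A.inv_mem ha)
          calc x * a * x⁻¹ * a⁻¹ * (x * b * x⁻¹ * b⁻¹)
              = x * a * x⁻¹ * (a⁻¹ * (x * b * x⁻¹)) * b⁻¹ := by group
            _ = x * a * x⁻¹ * ((x * b * x⁻¹) * a⁻¹) * b⁻¹ := by rw [h1]
            _ = x * (a * b) * x⁻¹ * (a⁻¹ * b⁻¹) := by group
            _ = x * (a * b) * x⁻¹ * (b⁻¹ * a⁻¹) := by rw [h2]
            _ = x * (a * b) * x⁻¹ * (a * b)⁻¹ := by group
        one_mem' := ⟨1, A.one_mem, by simp⟩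
        inv_mem' := by
          rintro _ ⟨a, ha, rfl⟩
          refine ⟨a⁻¹, A.inv_mem ha, ?_⟩
          have hxa : x * a * x⁻¹ ∈ A := hAn.conj_mem _ ha x
          have h1 := hA_ab _ hxa _ (A.inv_mem ha)
          calc (x * a * x⁻¹ * a⁻¹)⁻¹ = (a⁻¹ * (x * a * x⁻¹))⁻¹ := by rw [h1]
            _ = x * a⁻¹ * x⁻¹ * a⁻¹⁻¹ := by group }
    have hA₁_le : A₁ ≤ A := by
      rintro _ ⟨a, ha, rfl⟩
      exact A.mul_mem (hAn.conj_mem _ ha x) (A.inv_mem ha)
    haveI hA₁n : A₁.Normal := by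
      have h1 : M ⊔ Subgroup.zpowers x ≤ Subgroup.normalizer (A₁ : Set G) := by
        refine sup_le ?_ ?_
        · intro m hm
          refine Cfsg.Agent.Lib.H5Basic.mem_normalizer_of_map_conj_le ?_
          rintro _ ⟨t, ht, rfl⟩
          have ht' : t ∈ M := hAM (hA₁_le ht)
          have : (MulAut.conj m).toMonoidHom t = t := by
            show m * t * m⁻¹ = t
            rw [hM_ab m hm t ht']; group
          rw [this]
          exact ht
        · rw [Subgroup.zpowers_le]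
          refine Cfsg.Agent.Lib.H5Basic.mem_normalizer_of_map_conj_le ?_
          rintro _ ⟨_, ⟨a, ha, rfl⟩, rfl⟩
          refine ⟨x * a * x⁻¹, hAn.conj_mem _ ha x, ?_⟩
          show x * (x * a * x⁻¹ * a⁻¹) * x⁻¹ = _
          group
      rw [hsup] at h1
      exact Subgroup.normalizer_eq_top_iff.mp (top_le_iff.mp h1)
    have hL : ∀ a ∈ A, ∀ c ∈ A, x * a * x⁻¹ = c * a → x * c * x⁻¹ = c → c = 1 := by
      intro a ha c hc h1 h2
      have h3 := conj_iter h1 h2 (p ^ k)
      rw [hxn] at h3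
      have h4 : c ^ (p ^ k) = 1 := by simpa using h3.symm
      exact hA_p c k hc h4
    have hnot_central : ∃ t ∈ A₁, x * t * x⁻¹ ≠ t := by
      by_contra hcon
      push_neg at hcon
      apply hnn
      have hc : ∀ a ∈ A, x * a * x⁻¹ = a := by
        intro a ha
        have ht : x * a * x⁻¹ * a⁻¹ ∈ A₁ := ⟨a, ha, rfl⟩
        have h1 := hL a ha _ (hA₁_le ht) (by group) (hcon _ ht)
        exact mul_inv_eq_one.mp h1
      have hAc : A ≤ Subgroup.center G := fun a ha => hcentral_of a ha.1 (hc a ha)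
      have hker : (QuotientGroup.mk' A).ker ≤ Subgroup.center G := by
        rw [QuotientGroup.ker_mk']; exact hAc
      haveI : Group.IsNilpotent (G ⧸ A) := hQ.isNilpotent
      exact Subgroup.isNilpotent_of_ker_le_center _ hker
    have hnonab : ∀ H : Subgroup G, x ∈ H → A₁ ≤ H → ¬ IsMulCommutative H := by
      intro H hxH hle hc
      obtain ⟨t, ht, hne⟩ := hnot_central
      apply hne
      have h1 : x * t = t * x :=
        congrArg Subtype.val (hc.is_comm.comm ⟨x, hxH⟩ ⟨t, hle ht⟩)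
      rw [h1]; group
    have hfix : ∀ c ∈ A, x * c * x⁻¹ = c → c = 1 := by
      intro c hc hxc
      have hH := hself (A₁ ⊔ Subgroup.zpowers x)
        (hnonab _ (Subgroup.mem_sup_right (Subgroup.mem_zpowers x)) le_sup_left)
      have hcen := hcentral_of c hc.1 hxc
      have h1 : c ∈ Subgroup.normalizer ((A₁ ⊔ Subgroup.zpowers x : Subgroup G) : Set G) := by
        rw [Subgroup.mem_normalizer_iff]
        intro h
        have : c * h * c⁻¹ = h := by
          rw [(Subgroup.mem_center_iff.mp hcen h).symm]; group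
        rw [this]
      rw [hH] at h1
      obtain ⟨t, ht, y, hy, hty⟩ := Subgroup.mem_sup_of_normal_left.mp h1
      obtain ⟨j, rfl⟩ := Subgroup.mem_zpowers_iff.mp hy
      have h2 : x ^ j = t⁻¹ * c := by rw [← hty]; group
      have h3 : x ^ j ∈ A := by
        rw [h2]; exact A.mul_mem (A.inv_mem (hA₁_le ht)) hc
      have h4 := hxpow_A j h3
      rw [h4, mul_one] at hty
      obtain ⟨a, ha, hta⟩ := ht
      have h5 : x * a * x⁻¹ = c * a := by
        rw [← hty, hta]; group
      exact hL a ha c hc h5 hxc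
    have hPeq : (P : Subgroup G) = Subgroup.zpowers x := by
      by_contra hne
      have hle : Subgroup.zpowers x ≤ (P : Subgroup G) := Subgroup.zpowers_le.mpr hxP
      obtain ⟨u, huP, hux, huN⟩ := Cfsg.Agent.Lib.H5Basic.exists_mem_normalizer_of_lt
        P.isPGroup' hle (Ne.symm hne)
      have hH := hself (A ⊔ Subgroup.zpowers x)
        (hnonab _ (Subgroup.mem_sup_right (Subgroup.mem_zpowers x)) (hA₁_le.trans le_sup_left))
      have h1 : u ∈ Subgroup.normalizer ((A ⊔ Subgroup.zpowers x : Subgroup G) : Set G) := by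
        refine Cfsg.Agent.Lib.H5Basic.mem_normalizer_of_map_conj_le ?_
        rw [Subgroup.map_sup]
        refine sup_le_sup ?_ ?_
        · rintro _ ⟨a, ha, rfl⟩
          exact hAn.conj_mem a ha u
        · rintro _ ⟨a, ha, rfl⟩
          exact (Subgroup.mem_normalizer_iff.mp huN a).mp ha
      rw [hH] at h1
      obtain ⟨a, ha, y, hy, hay⟩ := Subgroup.mem_sup_of_normal_left.mp h1
      have hyP : y ∈ (P : Subgroup G) := hle hy
      have haP : a ∈ (P : Subgroup G) := by
        have : a = u * y⁻¹ := by rw [← hay]; group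
        rw [this]
        exact Subgroup.mul_mem _ huP (Subgroup.inv_mem _ hyP)
      have ha1 : a = 1 := by
        obtain ⟨n, hn⟩ := (IsPGroup.iff_orderOf.mp P.isPGroup') ⟨a, haP⟩
        refine hA_p a n ha ?_
        rw [← hn, Subgroup.orderOf_mk]
        exact pow_orderOf_eq_one a
      rw [ha1, one_mul] at hay
      exact hux (hay ▸ hy)
    refine ⟨x, A, p, hMp, hAn, ?_, ⟨k, hk⟩, hpA, ?_, ?_, ?_⟩
    · exact ⟨⟨fun a b => Subtype.ext (hA_ab a.1 a.2 b.1 b.2)⟩⟩
    · refine Subgroup.isComplement'_of_coprime ?_ ?_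
      · rw [← hPeq, hcardP, hcardG]
      · rw [← hPeq, hcardP]
        exact hcop
    · have h1 : x ^ p ∈ M := Subgroup.pow_index_mem M x
      refine hcentral_of _ h1 ?_
      rw [((Commute.refl x).pow_right p).eq]
      group
    · intro a ha hne hxa
      exact hne (hfix a ha hxa)
  · rintro ⟨x, A, p, hp, hAn, hAc, ⟨k, hk⟩, hpA, hcomp, hxp, hfpf⟩ H hH
    haveI : Fact p.Prime := ⟨hp⟩
    have hA_ab : ∀ a ∈ A, ∀ b ∈ A, a * b = b * a := fun a ha b hb =>
      congrArg Subtype.val (hAc.is_comm.comm ⟨a, ha⟩ ⟨b, hb⟩)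
    have hfpf' : ∀ a ∈ A, x * a * x⁻¹ = a → a = 1 := by
      intro a ha h
      by_contra hne
      exact hfpf a ha hne h
    have hdec : ∀ g : G, ∃ a ∈ A, ∃ j : ℤ, g = a * x ^ j := by
      intro g
      obtain ⟨⟨⟨h, hh⟩, ⟨a, ha⟩⟩, hge⟩ := hcomp.2 g
      obtain ⟨j, rfl⟩ := Subgroup.mem_zpowers_iff.mp hh
      refine ⟨x ^ j * a * (x ^ j)⁻¹, hAn.conj_mem a ha _, j, ?_⟩
      rw [← hge]
      simp
    -- some element of `H` involves a power of `x` prime to `p`
    obtain ⟨a, ha, i, hi, hyH⟩ : ∃ a ∈ A, ∃ i : ℤ, ¬ (p : ℤ) ∣ i ∧ a * x ^ i ∈ H := by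
      by_contra hcon
      push_neg at hcon
      apply hH
      refine ⟨⟨fun u v => Subtype.ext ?_⟩⟩
      obtain ⟨a, ha, i, hi⟩ := hdec u.1
      obtain ⟨b, hb, j, hj⟩ := hdec v.1
      have hi' : (p : ℤ) ∣ i := by
        by_contra hd
        exact hcon a ha i hd (hi ▸ u.2)
      have hj' : (p : ℤ) ∣ j := by
        by_contra hd
        exact hcon b hb j hd (hj ▸ v.2)
      obtain ⟨i', rfl⟩ := hi'
      obtain ⟨j', rfl⟩ := hj'
      have hcen : ∀ (n : ℤ), x ^ ((p : ℤ) * n) ∈ Subgroup.center G := by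
        intro n
        rw [zpow_mul, zpow_natCast]
        exact Subgroup.zpow_mem _ hxp n
      show u.1 * v.1 = v.1 * u.1
      rw [hi, hj]
      have h1 := Subgroup.mem_center_iff.mp (hcen i')
      have h2 := Subgroup.mem_center_iff.mp (hcen j')
      calc a * x ^ ((p : ℤ) * i') * (b * x ^ ((p : ℤ) * j'))
          = a * (x ^ ((p : ℤ) * i') * b) * x ^ ((p : ℤ) * j') := by group
        _ = a * (b * x ^ ((p : ℤ) * i')) * x ^ ((p : ℤ) * j') := by rw [h1]
        _ = (a * b) * (x ^ ((p : ℤ) * i') * x ^ ((p : ℤ) * j')) := by group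
        _ = (b * a) * (x ^ ((p : ℤ) * j') * x ^ ((p : ℤ) * i')) := by
            rw [hA_ab a ha b hb, ← zpow_add, ← zpow_add, add_comm]
        _ = b * (a * x ^ ((p : ℤ) * j')) * x ^ ((p : ℤ) * i') := by group
        _ = b * (x ^ ((p : ℤ) * j') * a) * x ^ ((p : ℤ) * i') := by rw [h2 a]
        _ = _ := by group
    set z := x ^ i with hz
    -- `x` is a power of `z`
    obtain ⟨u, hu⟩ : ∃ u : ℤ, z ^ u = x := by
      have h1 : IsCoprime i ((p : ℤ) ^ k) :=
        IsCoprime.pow_right (((Nat.prime_iff_prime_int.mp hp).coprime_iff_not_dvd).mpr hi).symm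
      obtain ⟨u, v, huv⟩ := h1
      refine ⟨u, ?_⟩
      have hxn : x ^ ((p : ℤ) ^ k) = 1 := by
        have : x ^ (p ^ k) = 1 := by rw [← hk]; exact pow_orderOf_eq_one x
        rw [← this, ← zpow_natCast]
        simp
      rw [hz, ← zpow_mul]
      calc x ^ (i * u) = x ^ (u * i + v * (p : ℤ) ^ k) * (x ^ (v * (p : ℤ) ^ k))⁻¹ := by
            rw [← zpow_neg, ← zpow_add]; congr 1; ring
        _ = x ^ (1 : ℤ) * (x ^ (v * (p : ℤ) ^ k))⁻¹ := by rw [huv]
        _ = x := by
            rw [mul_comm v, zpow_mul, hxn, one_zpow, inv_one, mul_one, zpow_one]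
    have hfz : ∀ c ∈ A, z * c * z⁻¹ = c → c = 1 := by
      intro c hc h
      refine hfpf' c hc ?_
      have h1 : Commute z c := by
        show z * c = c * z
        calc z * c = (z * c * z⁻¹) * z := by group
          _ = c * z := by rw [h]
      have h2 : Commute x c := by
        rw [← hu]
        exact h1.zpow_left u
      rw [h2.eq]; group
    have hB : ∀ b ∈ A, b * z * b⁻¹ * z⁻¹ ∈ A := by
      intro b hb
      have := A.mul_mem hb (hAn.conj_mem _ (A.inv_mem hb) z)
      have he : b * z * b⁻¹ * z⁻¹ = b * (z * b⁻¹ * z⁻¹) := by group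
      rw [he]; exact this
    obtain ⟨b, hb, hbe⟩ := psi_surj A hA_ab z hfz A le_rfl hB ha
    -- pass to a conjugate of `H` containing `x`
    let H' : Subgroup G := H.map (MulAut.conj b⁻¹).toMonoidHom
    have hzH' : z ∈ H' := by
      refine ⟨a * z, hyH, ?_⟩
      show b⁻¹ * (a * z) * b⁻¹⁻¹ = z
      rw [← hbe]; group
    have hxH' : x ∈ H' := by
      rw [← hu]; exact H'.zpow_mem hzH' u
    have hcore := core A hA_ab x hfpf' hdec H' hxH'
    have hmem : ∀ g, g ∈ H' ↔ b * g * b⁻¹ ∈ H := by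
      intro g
      constructor
      · rintro ⟨h, hh, rfl⟩
        have : b * ((MulAut.conj b⁻¹).toMonoidHom h) * b⁻¹ = h := by
          show b * (b⁻¹ * h * b⁻¹⁻¹) * b⁻¹ = h
          group
        rw [this]; exact hh
      · intro h
        refine ⟨_, h, ?_⟩
        show b⁻¹ * (b * g * b⁻¹) * b⁻¹⁻¹ = g
        group
    refine le_antisymm ?_ Subgroup.le_normalizer
    intro g hg
    have h1 : b⁻¹ * g * b ∈ Subgroup.normalizer (H' : Set G) := by
      rw [Subgroup.mem_normalizer_iff]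
      intro y
      rw [hmem y, hmem]
      have h2 := Subgroup.mem_normalizer_iff.mp hg (b * y * b⁻¹)
      rw [h2]
      have : g * (b * y * b⁻¹) * g⁻¹ = b * (b⁻¹ * g * b * y * (b⁻¹ * g * b)⁻¹) * b⁻¹ := by group
      rw [this]
    have h2 := hcore h1
    rw [hmem] at h2
    have : b * (b⁻¹ * g * b) * b⁻¹ = g := by group
    rwa [this] at h2

end Cfsg.Agent.S4071
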