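import Mathlib
import Cfsg.Statements.S4072
import Cfsg.Agent.Lib.PNilpB
import Cfsg.Agent.Lib.CoprimeAct
import Cfsg.Agent.Lib.H5Basic
import Cfsg.Agent.Lib.SchurZ2
-- import your own Cfsg.Agent.* helpers here

set_option autoImplicit false
open Cfsg

namespace Cfsg.Agent.S4072

universe u

set_option linter.style.haveILetI false
set_option linter.unusedSectionVars false

open Cfsg.Agent.Lib.CoprimeAct

/-- A nontrivial normal `p`-complement is impossible. -/
theorem not_npc {G Γ : Type*} [Group G] [Finite G] [Group Γ] [Finite Γ] (hns : ¬ Group.IsSolvable G)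
    (hab : ∀ N : Subgroup G, N.Normal → N ≠ ⊤ → ∀ a ∈ N, ∀ b ∈ N, a * b = b * a)
    (φ : G →* Γ) (hφ : Function.Surjective φ) {r : ℕ} [hr : Fact r.Prime] (hrd : r ∣ Nat.card Γ) :
    ¬ Cfsg.HasNormalPComplement r Γ := by
  rintro ⟨P, T, hTn, hc⟩
  haveI := hTn
  have hcard : Nat.card T * Nat.card P = Nat.card Γ := hc.card_mul_card
  have hidx : T.index = Nat.card P := by
    have h1 := T.card_mul_index
    rw [← hcard] at h1
    exact Nat.eq_of_mul_eq_mul_left Nat.card_pos h1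
  have hP1 : Nat.card P ≠ 1 := by
    intro h
    have h2 : Nat.card (P : Subgroup Γ) = 1 := h
    have h3 := P.card_eq_multiplicity
    have h4 : r ∣ Nat.card (P : Subgroup Γ) := by
      rw [h3]
      have h5 : (Nat.card Γ).factorization r ≠ 0 :=
        (hr.out.factorization_pos_of_dvd Nat.card_pos.ne' hrd).ne'
      exact dvd_pow_self r h5
    rw [h2] at h4
    exact hr.out.ne_one (Nat.dvd_one.mp h4)
  let T₀ : Subgroup G := T.comap φ
  haveI hT₀n : T₀.Normal := Subgroup.Normal.comap hTn φ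
  have hT₀t : T₀ ≠ ⊤ := by
    intro h
    apply hP1
    have h2 : T = ⊤ := by
      rw [eq_top_iff]
      intro y _
      obtain ⟨x, rfl⟩ := hφ y
      have : x ∈ T₀ := by rw [h]; trivial
      exact this
    rw [← hidx, h2, Subgroup.index_top]
  have hT₀c := hab T₀ hT₀n hT₀t
  apply hns
  haveI hsT : Group.IsSolvable T₀ := by
    refine Group.isSolvable_of_comm (fun a b => Subtype.ext (hT₀c a a.2 b b.2))
  have hpq : IsPGroup r (Γ ⧸ T) := by
    obtain ⟨k, hk⟩ := IsPGroup.iff_card.mp P.isPGroup'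
    intro y
    obtain ⟨y, rfl⟩ := QuotientGroup.mk_surjective y
    refine ⟨k, ?_⟩
    rw [← QuotientGroup.mk_pow, QuotientGroup.eq_one_iff]
    have h1 := T.pow_index_mem y
    rw [hidx] at h1
    rwa [hk] at h1
  haveI : Group.IsSolvable (Γ ⧸ T) := by
    haveI := hpq.isNilpotent
    infer_instance
  let ψ : G →* Γ ⧸ T := (QuotientGroup.mk' T).comp φ
  refine Group.isSolvable_of_ker_le_range T₀.subtype ψ ?_
  intro x hx
  refine ⟨⟨x, ?_⟩, rfl⟩
  have h5 : (QuotientGroup.mk' T) (φ x) = 1 := hx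
  exact (QuotientGroup.eq_one_iff (φ x)).mp h5


/-- A finite group in which every non-abelian subgroup is self-normalizing is solvable or simple. -/
theorem result {G : Type*} [Group G] [Finite G] (hS : ∀ H : Subgroup G, ¬ IsMulCommutative H → Subgroup.normalizer (H : Set G) = H) :
    Group.IsSolvable G ∨ IsSimpleGroup G := by
  classical
  by_cases hsol : Group.IsSolvable G
  · exact Or.inl hsol
  right
  have hab : ∀ N : Subgroup G, N.Normal → N ≠ ⊤ → ∀ a ∈ N, ∀ b ∈ N, a * b = b * a := by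
    intro N hNn hNt a ha b hb
    by_contra hne
    have h1 : ¬ IsMulCommutative N := by
      intro hc
      exact hne (congrArg Subtype.val (hc.is_comm.comm (⟨a, ha⟩ : N) ⟨b, hb⟩))
    have h2 := hS N h1
    rw [Subgroup.normalizer_eq_top_iff.mpr hNn] at h2
    exact hNt h2.symm
  haveI hnt : Nontrivial G := by
    by_contra hn
    rw [not_nontrivial_iff_subsingleton] at hn
    exact hsol inferInstance
  refine ⟨?_⟩
  intro N₀ hN₀
  by_contra hcon
  push_neg at hcon
  obtain ⟨hN₀b, hN₀t⟩ := hcon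
  have hN₀c := hab N₀ hN₀ hN₀t
  have hcentral : ∀ x : G, ∀ n ∈ N₀, x * n = n * x := by
    by_contra hnc
    push_neg at hnc
    obtain ⟨x₀, n₀, hn₀, hne₀⟩ := hnc
    set C := Subgroup.centralizer (N₀ : Set G) with hC
    haveI hCn : C.Normal := Subgroup.normal_centralizer
    have hN₀C : N₀ ≤ C := fun a ha => Subgroup.mem_centralizer_iff.mpr (fun b hb => hN₀c b hb a ha)
    have hCt : C ≠ ⊤ := by
      intro h
      have h1 : x₀ ∈ C := by rw [h]; trivial
      exact hne₀ (Subgroup.mem_centralizer_iff.mp h1 n₀ hn₀).symm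
    have hidx : C.index ≠ 1 := fun h => hCt (Subgroup.index_eq_one.mp h)
    obtain ⟨r, hr, hrd⟩ := Nat.exists_prime_and_dvd hidx
    haveI : Fact r.Prime := ⟨hr⟩
    obtain ⟨R⟩ : Nonempty (Sylow r G) := inferInstance
    have hRC : ¬ (R : Subgroup G) ≤ C := by
      intro hle
      have h1 : C.index ∣ (R : Subgroup G).index := Subgroup.index_dvd_of_le hle
      exact R.not_dvd_index (hrd.trans h1)
    obtain ⟨x, hxR, hxC⟩ := SetLike.not_le_iff_exists.mp hRC
    let f : G →* G ⧸ N₀ := QuotientGroup.mk' N₀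
    have hf : Function.Surjective f := QuotientGroup.mk'_surjective N₀
    have hfk : ∀ u, f u = 1 ↔ u ∈ N₀ := fun u => QuotientGroup.eq_one_iff u
    have hxN₀ : x ∉ N₀ := fun h => hxC (hN₀C h)
    obtain ⟨n, hn, hxn⟩ : ∃ n ∈ N₀, x * n ≠ n * x := by
      by_contra hall
      push_neg at hall
      exact hxC (Subgroup.mem_centralizer_iff.mpr (fun b hb => (hall b hb).symm))
    let X : Subgroup (G ⧸ N₀) := Subgroup.zpowers (f x)
    obtain ⟨k, hk⟩ := IsPGroup.iff_orderOf.mp R.isPGroup' ⟨x, hxR⟩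
    have hxo : orderOf x = r ^ k := by
      rw [← Subgroup.orderOf_mk x hxR]
      exact hk
    have hfxo : orderOf (f x) ∣ r ^ k := by
      rw [← hxo]
      exact orderOf_map_dvd f x
    obtain ⟨t, -, ht⟩ := (Nat.dvd_prime_pow hr).mp hfxo
    have hXp : IsPGroup r X := by
      apply IsPGroup.of_card (n := t)
      rw [Nat.card_zpowers, ht]
    let H : Subgroup G := X.comap f
    have hxH : x ∈ H := Subgroup.mem_zpowers (f x)
    have hN₀H : N₀ ≤ H := by
      intro u hu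
      show f u ∈ X
      rw [(hfk u).mpr hu]
      exact one_mem _
    have hHna : ¬ IsMulCommutative H := by
      intro hc
      exact hxn (congrArg Subtype.val (hc.is_comm.comm (⟨x, hxH⟩ : H) ⟨n, hN₀H hn⟩))
    have hHself := hS H hHna
    have hNX : ∀ w ∈ Subgroup.normalizer (X : Set (G ⧸ N₀)), w ∈ X := by
      intro w hw
      obtain ⟨w, rfl⟩ := hf w
      have h1 : w ∈ Subgroup.normalizer (H : Set G) := by
        apply Cfsg.Agent.Lib.H5Basic.mem_normalizer_of_map_conj_le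
        rintro _ ⟨h, hh, rfl⟩
        have h2 := Cfsg.Agent.Lib.Commutators.conj_mem_of_mem_normalizer hw (show f h ∈ X from hh)
        show f (w * h * w⁻¹) ∈ X
        have h3 : f (w * h * w⁻¹) = f w * f h * (f w)⁻¹ := by simp
        rw [h3]
        exact h2
      rw [hHself] at h1
      exact h1
    obtain ⟨P, hXP⟩ := hXp.exists_le_sylow
    have hXeq : X = (P : Subgroup (G ⧸ N₀)) := by
      by_contra hne
      obtain ⟨y, hyP, hyX, hyN⟩ := Cfsg.Agent.Lib.H5Basic.exists_mem_normalizer_of_lt P.isPGroup' hXP hne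
      exact hyX (hNX y hyN)
    have hNC : Subgroup.normalizer ((P : Subgroup (G ⧸ N₀)) : Set (G ⧸ N₀)) ≤
        Subgroup.centralizer ((P : Subgroup (G ⧸ N₀)) : Set (G ⧸ N₀)) := by
      rw [← hXeq]
      intro w hw
      obtain ⟨i, rfl⟩ := hNX w hw
      refine Subgroup.mem_centralizer_iff.mpr ?_
      rintro _ ⟨j, rfl⟩
      exact ((Commute.refl (f x)).zpow_zpow j i).eq
    have hnpc := Cfsg.Agent.Lib.PNilpB.npc_of_normalizer_le P hNC
    have hfx1 : f x ≠ 1 := fun h => hxN₀ ((hfk x).mp h)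
    have ht0 : t ≠ 0 := by
      rintro rfl
      rw [pow_zero] at ht
      exact hfx1 (orderOf_eq_one_iff.mp ht)
    have hrd2 : r ∣ Nat.card (G ⧸ N₀) :=
      (ht ▸ dvd_pow_self r ht0 : r ∣ orderOf (f x)).trans (orderOf_dvd_natCard (f x))
    exact not_npc hsol hab f hf hrd2 hnpc
  -- a central element of prime order
  have hcard : Nat.card N₀ ≠ 1 := fun h => hN₀b (Subgroup.eq_bot_of_card_eq N₀ h)
  obtain ⟨p, hp, hpd⟩ := Nat.exists_prime_and_dvd hcard
  haveI : Fact p.Prime := ⟨hp⟩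
  obtain ⟨z', hz'⟩ := exists_prime_orderOf_dvd_card' p hpd
  have hzo : orderOf (z' : G) = p := by
    rw [Subgroup.orderOf_coe, hz']
  set z : G := (z' : G) with hz
  have hz1 : z ≠ 1 := by
    intro h
    rw [h, orderOf_one] at hzo
    exact hp.ne_one hzo.symm
  have hzc : ∀ x : G, x * z = z * x := fun x => hcentral x z z'.2
  have hnpc := not_npc hsol hab (MonoidHom.id G) Function.surjective_id
    (hpd.trans (Subgroup.card_subgroup_dvd_card N₀))
  have hfrob := mt (Cfsg.Agent.Lib.PNilpB.frob2_aux _ G rfl) hnpc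
  push_neg at hfrob
  obtain ⟨Q, hQ, y, hyN, hyo, hyC⟩ := hfrob
  have hordQ : ∀ c ∈ Q, ∃ k : ℕ, orderOf c = p ^ k := by
    intro c hc
    obtain ⟨k, hk⟩ := IsPGroup.iff_orderOf.mp hQ ⟨c, hc⟩
    exact ⟨k, by rw [← Subgroup.orderOf_mk c hc]; exact hk⟩
  have hy1 : y ∉ Q := by
    intro hyQ
    obtain ⟨k, hk⟩ := hordQ y hyQ
    rw [hk] at hyo
    have h1 : p ^ k = 1 := by
      have h2 : (p ^ k).Coprime (p ^ k) := Nat.Coprime.pow_right k hyo
      exact (Nat.coprime_self _).mp h2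
    rw [← hk] at h1
    apply hyC
    rw [orderOf_eq_one_iff.mp h1]
    exact one_mem _
  have hQab : ∀ a ∈ Q, ∀ b ∈ Q, a * b = b * a := by
    intro a ha b hb
    by_contra hne
    have h1 : ¬ IsMulCommutative Q := by
      intro hc
      exact hne (congrArg Subtype.val (hc.is_comm.comm (⟨a, ha⟩ : Q) ⟨b, hb⟩))
    have h2 := hS Q h1
    rw [h2] at hyN
    exact hy1 hyN
  have hconjQ : ∀ q ∈ Q, y * q * y⁻¹ ∈ Q := fun q hq =>
    Cfsg.Agent.Lib.Commutators.conj_mem_of_mem_normalizer hyN hq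
  let Q₁ : Subgroup G :=
    { carrier := {c | ∃ q ∈ Q, c = y * q * y⁻¹ * q⁻¹}
      one_mem' := ⟨1, one_mem _, by group⟩
      mul_mem' := by
        rintro _ _ ⟨q, hq, rfl⟩ ⟨r, hr, rfl⟩
        refine ⟨q * r, mul_mem hq hr, ?_⟩
        have h1 := hQab _ (inv_mem hq) _ (hconjQ r hr)
        calc y * q * y⁻¹ * q⁻¹ * (y * r * y⁻¹ * r⁻¹) = (y * q * y⁻¹) * (q⁻¹ * (y * r * y⁻¹)) * r⁻¹ := by group
          _ = (y * q * y⁻¹) * ((y * r * y⁻¹) * q⁻¹) * r⁻¹ := by rw [h1]
          _ = y * (q * r) * y⁻¹ * (q⁻¹ * r⁻¹) := by group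
          _ = y * (q * r) * y⁻¹ * (r⁻¹ * q⁻¹) := by rw [hQab _ (inv_mem hq) _ (inv_mem hr)]
          _ = y * (q * r) * y⁻¹ * (q * r)⁻¹ := by group
      inv_mem' := by
        rintro _ ⟨q, hq, rfl⟩
        refine ⟨q⁻¹, inv_mem hq, ?_⟩
        have h1 := hQab _ hq _ (hconjQ q⁻¹ (inv_mem hq))
        calc (y * q * y⁻¹ * q⁻¹)⁻¹ = q * (y * q⁻¹ * y⁻¹) := by group
          _ = (y * q⁻¹ * y⁻¹) * q := h1
          _ = y * q⁻¹ * y⁻¹ * q⁻¹⁻¹ := by group }
  have hQ₁Q : Q₁ ≤ Q := by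
    rintro _ ⟨q, hq, rfl⟩
    exact mul_mem (hconjQ q hq) (inv_mem hq)
  have hyQ₁ : y ∈ Subgroup.normalizer (Q₁ : Set G) := by
    apply Cfsg.Agent.Lib.H5Basic.mem_normalizer_of_map_conj_le
    rintro _ ⟨_, ⟨q, hq, rfl⟩, rfl⟩
    refine ⟨y * q * y⁻¹, hconjQ q hq, ?_⟩
    simp only [MulEquiv.coe_toMonoidHom, MulAut.conj_apply]
    group
  let A : Subgroup G := Subgroup.zpowers y
  have hAN : A ≤ Subgroup.normalizer (Q₁ : Set G) := by
    rw [Subgroup.zpowers_le]
    exact hyQ₁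
  let H₁ : Subgroup G := Q₁ ⊔ A
  have hyH₁ : y ∈ H₁ := (le_sup_right : A ≤ H₁) (Subgroup.mem_zpowers y)
  have hH₁na : ¬ IsMulCommutative H₁ := by
    intro hc
    apply hyC
    refine Subgroup.mem_centralizer_iff.mpr ?_
    intro q hq
    have hcQ : y * q * y⁻¹ * q⁻¹ ∈ Q₁ := ⟨q, hq, rfl⟩
    have hcH : y * q * y⁻¹ * q⁻¹ ∈ H₁ := (le_sup_left : Q₁ ≤ H₁) hcQ
    have h1 : y * (y * q * y⁻¹ * q⁻¹) = (y * q * y⁻¹ * q⁻¹) * y :=
      congrArg Subtype.val (hc.is_comm.comm (⟨y, hyH₁⟩ : H₁) ⟨_, hcH⟩)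
    obtain ⟨k, hk⟩ := hordQ _ (hQ₁Q hcQ)
    have h2 := comm_trivial_of_coprime (p := p) (x := y) (a := q) (c := y * q * y⁻¹ * q⁻¹) (by group) h1 hyo hk
    have h3 : y * q * y⁻¹ = q := mul_inv_eq_one.mp h2
    calc q * y = (y * q * y⁻¹) * y := by rw [h3]
      _ = y * q := by group
  have hH₁self := hS H₁ hH₁na
  have hzH₁ : z ∈ H₁ := by
    have h1 : z ∈ Subgroup.normalizer (H₁ : Set G) := by
      apply Cfsg.Agent.Lib.H5Basic.mem_normalizer_of_map_conj_le
      rintro _ ⟨h, hh, rfl⟩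
      have h2 : z * h * z⁻¹ = h := by
        rw [(hzc h).symm]
        group
      simp only [MulEquiv.coe_toMonoidHom, MulAut.conj_apply]
      rw [h2]
      exact hh
    rw [hH₁self] at h1
    exact h1
  have hzQ₁ : z ∈ Q₁ := by
    have hH₁N : H₁ ≤ Subgroup.normalizer (Q₁ : Set G) := sup_le Subgroup.le_normalizer hAN
    haveI hnn : (Q₁.subgroupOf H₁).Normal := Subgroup.normal_subgroupOf_of_le_normalizer hH₁N
    have h1 := Subgroup.pow_index_mem (Q₁.subgroupOf H₁) (⟨z, hzH₁⟩ : H₁)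
    have h2 : z ^ (Q₁.subgroupOf H₁).index ∈ Q₁ := by
      have := Subgroup.mem_subgroupOf.mp h1
      simpa using this
    set idx := (Q₁.subgroupOf H₁).index with hidx
    have hcf := Cfsg.Agent.Lib.SchurZ2.card_sup_mul_card_inf Q₁ A hAN
    have hrel : idx * Nat.card Q₁ = Nat.card H₁ := by
      have h3 : idx = Q₁.relIndex H₁ := rfl
      have h4 := Subgroup.relIndex_mul_relIndex (⊥ : Subgroup G) Q₁ H₁ bot_le le_sup_left
      simp only [Subgroup.relIndex_bot_left] at h4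
      rw [h3, mul_comm]
      exact h4
    have hidxd : idx ∣ Nat.card A := by
      have h5 : Nat.card Q₁ * (idx * Nat.card (Q₁ ⊓ A : Subgroup G)) = Nat.card Q₁ * Nat.card A := by
        rw [← hcf, ← hrel]
        ring
      have h6 := Nat.eq_of_mul_eq_mul_left Nat.card_pos h5
      rw [← h6]
      exact dvd_mul_right _ _
    have hidxco : idx.Coprime p := by
      rw [Nat.card_zpowers] at hidxd
      exact Nat.Coprime.coprime_dvd_left hidxd hyo
    obtain ⟨m, -, hm⟩ := Nat.exists_mul_mod_eq_one_of_coprime hidxco hp.one_lt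
    have h7 : z = (z ^ idx) ^ m := by
      rw [← pow_mul]
      conv_lhs => rw [← pow_one z]
      rw [← hzo] at hm
      rw [← pow_mod_orderOf z (idx * m), hm]
    rw [h7]
    exact Q₁.pow_mem h2 m
  obtain ⟨q, hq, hqe⟩ := hzQ₁
  obtain ⟨k, hk⟩ := hordQ z (hQ₁Q ⟨q, hq, hqe⟩)
  have h8 : y * q * y⁻¹ = z * q := by
    rw [hqe]
    group
  exact hz1 (comm_trivial_of_coprime (p := p) h8 (hzc y) hyo hk)

end Cfsg.Agent.S4072
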