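import Mathlib
import Cfsg.Statements.S4074
-- import your own Cfsg.Agent.* helpers here

set_option autoImplicit false
open Cfsg

namespace Cfsg.Agent.S4074

open DihedralGroup in
/-- the index two subgroup of even rotations and reflections -/
def evenSub (n : ℕ) : Subgroup (DihedralGroup n) where
  carrier := {x | ∃ a : ℤ, x = r (2 * (a : ZMod n)) ∨ x = sr (2 * (a : ZMod n))}
  one_mem' := ⟨0, Or.inl (by rw [Int.cast_zero, mul_zero]; rfl)⟩
  mul_mem' := by
    rintro x y ⟨a, rfl | rfl⟩ ⟨b, rfl | rfl⟩
    · exact ⟨a + b, Or.inl (by simp [mul_add])⟩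
    · exact ⟨b - a, Or.inr (by simp [mul_sub])⟩
    · exact ⟨a + b, Or.inr (by simp [mul_add])⟩
    · exact ⟨b - a, Or.inl (by simp [mul_sub])⟩
  inv_mem' := by
    rintro x ⟨a, rfl | rfl⟩
    · exact ⟨-a, Or.inl (by simp)⟩
    · exact ⟨a, Or.inr (by simp)⟩


/-- For n > 2, every non-abelian subgroup of the dihedral group of order 2n is self-normalizing if and only if n = 4 or n is odd. -/
theorem result (n : ℕ) (hn : 2 < n) :
    (∀ H : Subgroup (DihedralGroup n), ¬ IsMulCommutative H → Subgroup.normalizer (H : Set (DihedralGroup n)) = H) ↔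
    (n = 4 ∨ Odd n) := by
  classical
  haveI : NeZero n := ⟨by omega⟩
  constructor
  · intro h
    by_contra hno
    push_neg at hno
    obtain ⟨hn4, hodd⟩ := hno
    have heven : Even n := Nat.not_odd_iff_even.mp hodd
    obtain ⟨m, rfl⟩ := heven
    have hm3 : 3 ≤ m := by omega
    -- the subgroup is not abelian
    have hH : ¬ IsMulCommutative (evenSub (m + m)) := by
      intro hc
      have hr : DihedralGroup.r (2 * ((1 : ℤ) : ZMod (m + m))) ∈ evenSub (m + m) := ⟨1, Or.inl rfl⟩
      have hs : DihedralGroup.sr (2 * ((0 : ℤ) : ZMod (m + m))) ∈ evenSub (m + m) := ⟨0, Or.inr rfl⟩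
      have h1 := hc.is_comm.comm ⟨_, hr⟩ ⟨_, hs⟩
      have h2 := congrArg Subtype.val h1
      simp only [Subgroup.coe_mul, DihedralGroup.r_mul_sr, DihedralGroup.sr_mul_r, DihedralGroup.sr.injEq] at h2
      simp at h2
      -- `4 = 0` in `ZMod (m + m)`
      have h3 : ((4 : ℕ) : ZMod (m + m)) = 0 := by
        push_cast
        linear_combination -h2
      rw [ZMod.natCast_eq_zero_iff] at h3
      have h4 := Nat.le_of_dvd (by norm_num) h3
      omega
    have h2 := h _ hH
    have hr1 : DihedralGroup.r (1 : ZMod (m + m)) ∈ Subgroup.normalizer ((evenSub (m + m) : Subgroup _) : Set (DihedralGroup (m + m))) := by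
      rw [Subgroup.mem_normalizer_iff]
      have hfw : ∀ x ∈ evenSub (m + m), DihedralGroup.r (1 : ZMod (m + m)) * x * (DihedralGroup.r (1 : ZMod (m + m)))⁻¹ ∈ evenSub (m + m) := by
        rintro x ⟨a, rfl | rfl⟩
        · exact ⟨a, Or.inl (by simp)⟩
        · refine ⟨a - 1, Or.inr ?_⟩
          simp [mul_sub]
          ring
      have hbw : ∀ x ∈ evenSub (m + m), (DihedralGroup.r (1 : ZMod (m + m)))⁻¹ * x * DihedralGroup.r (1 : ZMod (m + m)) ∈ evenSub (m + m) := by
        rintro x ⟨a, rfl | rfl⟩
        · exact ⟨a, Or.inl (by simp)⟩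
        · refine ⟨a + 1, Or.inr ?_⟩
          simp [mul_add]
          ring
      intro x
      constructor
      · exact hfw x
      · intro hx
        have := hbw _ hx
        have h6 : (DihedralGroup.r (1 : ZMod (m + m)))⁻¹ * (DihedralGroup.r (1 : ZMod (m + m)) * x * (DihedralGroup.r (1 : ZMod (m + m)))⁻¹) * DihedralGroup.r (1 : ZMod (m + m)) = x := by group
        rwa [h6] at this
    rw [h2] at hr1
    obtain ⟨a, ha | ha⟩ := hr1
    · simp only [DihedralGroup.r.injEq] at ha
      -- parity
      have h3 : ((1 : ℕ) : ZMod (m + m)) = ((2 * a : ℤ) : ZMod (m + m)) := by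
        push_cast
        exact ha
      have h4 : ((1 - 2 * a : ℤ) : ZMod (m + m)) = 0 := by
        push_cast
        push_cast at h3
        rw [h3]
        ring
      rw [ZMod.intCast_zmod_eq_zero_iff_dvd] at h4
      obtain ⟨c, hc⟩ := h4
      push_cast at hc
      have h7 : (1 : ℤ) - 2 * a = 2 * (m * c) := by rw [hc]; ring
      omega
    · cases ha
  · rintro (rfl | hodd) H hH
    · -- the case `n = 4`
      have hcard : Nat.card (DihedralGroup 4) = 2 ^ 3 := by
        rw [DihedralGroup.nat_card]
        norm_num
      by_cases ht : H = ⊤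
      · subst ht
        rw [eq_top_iff]
        intro x _
        rw [Subgroup.mem_normalizer_iff]
        intro y
        simp
      exfalso
      apply hH
      have hdvd : Nat.card H ∣ 2 ^ 3 := hcard ▸ Subgroup.card_subgroup_dvd_card H
      obtain ⟨k, hk, hke⟩ := (Nat.dvd_prime_pow Nat.prime_two).mp hdvd
      have hk3 : k ≠ 3 := by
        rintro rfl
        exact ht (Subgroup.eq_top_of_card_eq _ (by rw [hke, hcard]))
      have hk2 : k ≤ 2 := by omega
      interval_cases k
      · haveI : Subsingleton H := (Nat.card_eq_one_iff_unique.mp (by simpa using hke)).1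
        exact ⟨⟨fun a b => Subsingleton.elim _ _⟩⟩
      · haveI : Fact (Nat.Prime 2) := ⟨Nat.prime_two⟩
        haveI : IsCyclic H := isCyclic_of_prime_card (by simpa using hke)
        letI := IsCyclic.commGroup (α := H)
        exact ⟨⟨fun a b => mul_comm a b⟩⟩
      · haveI : Fact (Nat.Prime 2) := ⟨Nat.prime_two⟩
        letI := IsPGroup.commGroupOfCardEqPrimeSq hke
        exact ⟨⟨fun a b => mul_comm a b⟩⟩
    · -- `n` odd
      apply le_antisymm _ Subgroup.le_normalizer
      -- a reflection in `H`
      have hrefl : ∃ i, DihedralGroup.sr i ∈ H := by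
        by_contra hno
        push_neg at hno
        apply hH
        refine ⟨⟨fun a b => Subtype.ext ?_⟩⟩
        obtain ⟨a, ha⟩ := a
        obtain ⟨b, hb⟩ := b
        rcases a with i | i
        · rcases b with j | j
          · simp [add_comm]
          · exact absurd hb (hno j)
        · exact absurd ha (hno i)
      obtain ⟨i, hi⟩ := hrefl
      have h2inv : IsUnit ((2 : ℕ) : ZMod n) := by
        rw [ZMod.isUnit_iff_coprime]
        exact hodd.coprime_two_left
      have hrot : ∀ j, DihedralGroup.r j ∈ Subgroup.normalizer ((H : Subgroup _) : Set (DihedralGroup n)) → DihedralGroup.r j ∈ H := by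
        intro j hj
        have h1 := (Subgroup.mem_normalizer_iff.mp hj (DihedralGroup.sr i)).mp hi
        have h2 : DihedralGroup.r j * DihedralGroup.sr i * (DihedralGroup.r j)⁻¹ = DihedralGroup.sr (i - j - j) := by
          simp
          ring
        rw [h2] at h1
        have h3 := H.mul_mem h1 hi
        simp only [DihedralGroup.sr_mul_sr] at h3
        have h4 : i - (i - j - j) = ((2 : ℕ) : ZMod n) * j := by
          push_cast
          ring
        rw [h4] at h3
        obtain ⟨t, ht⟩ := hodd
        have h5 : DihedralGroup.r j = (DihedralGroup.r (((2 : ℕ) : ZMod n) * j)) ^ (t + 1) := by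
          rw [DihedralGroup.r_pow]
          congr 1
          have h6 : (((2 * t + 1 : ℕ)) : ZMod n) = 0 := by
            rw [← ht]
            exact ZMod.natCast_self n
          push_cast at h6 ⊢
          linear_combination (-j) * h6
        rw [h5]
        exact H.pow_mem h3 _
      intro g hg
      rcases g with j | j
      · exact hrot j hg
      · have h1 : DihedralGroup.sr j * DihedralGroup.sr i ∈ Subgroup.normalizer ((H : Subgroup _) : Set (DihedralGroup n)) :=
          Subgroup.mul_mem _ hg (Subgroup.le_normalizer hi)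
        simp only [DihedralGroup.sr_mul_sr] at h1
        have h2 := hrot _ h1
        have h3 := H.mul_mem h2 (H.inv_mem hi)
        have h4 : DihedralGroup.r (i - j) * (DihedralGroup.sr i)⁻¹ = DihedralGroup.sr j := by
          simp
        rwa [h4] at h3

end Cfsg.Agent.S4074
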