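import Mathlib
import Cfsg.Statements.S4075
-- import your own Cfsg.Agent.* helpers here

set_option autoImplicit false
open Cfsg

namespace Cfsg.Agent.S4075

/-- Let G be a finite nilpotent group. Every non-abelian subgroup of G is self-normalizing if and only if G is abelian or G is a minimal non-abelian p-group for some prime p (non-abelian of prime-power order with every proper subgroup abelian). -/
theorem result {G : Type*} [Group G] [Finite G]
    [Group.IsNilpotent G] :
    (∀ H : Subgroup G, ¬ IsMulCommutative H → Subgroup.normalizer (H : Set G) = H) ↔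
    (IsMulCommutative G ∨ (IsPrimePow (Nat.card G) ∧ ¬ IsMulCommutative G ∧ ∀ H : Subgroup G, H ≠ ⊤ → IsMulCommutative H)) := by
  classical
  constructor
  · intro h
    by_cases hab : IsMulCommutative G
    · exact Or.inl hab
    right
    have hprop : ∀ H : Subgroup G, H ≠ ⊤ → IsMulCommutative H := by
      intro H hH
      by_contra hna
      have h1 := h H hna
      have h2 : NormalizerCondition G := (Group.isNilpotent_of_finite_tfae (G := G)).out 0 1 |>.mp ‹_›
      have h3 := h2 H (lt_of_le_of_ne le_top hH)
      apply (ne_of_lt h3)
      rw [h1]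
    refine ⟨?_, hab, hprop⟩
    by_contra hpp
    apply hab
    obtain ⟨e⟩ := (Group.isNilpotent_of_finite_tfae (G := G)).out 0 4 |>.mp ‹_›
    have hS : ∀ (p : (Nat.card G).primeFactors) (P : Sylow p G), ∀ a b : (P : Subgroup G), a * b = b * a := by
      intro p P a b
      have hp : Nat.Prime (p : ℕ) := Nat.prime_of_mem_primeFactors p.2
      haveI : Fact (p : ℕ).Prime := ⟨hp⟩
      have hne : (P : Subgroup G) ≠ ⊤ := by
        intro ht
        apply hpp
        have hd : (p : ℕ) ∣ Nat.card G := Nat.dvd_of_mem_primeFactors p.2
        have hc : IsPGroup (p : ℕ) G := by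
          intro g
          have := P.isPGroup' ⟨g, by rw [ht]; trivial⟩
          obtain ⟨k, hk⟩ := this
          exact ⟨k, by simpa using congrArg Subtype.val hk⟩
        obtain ⟨n, hn⟩ := IsPGroup.iff_card.mp hc
        rw [hn]
        refine ⟨p, n, hp.prime, Nat.pos_of_ne_zero ?_, rfl⟩
        rintro rfl
        rw [pow_zero] at hn
        exact (Nat.prime_of_mem_primeFactors p.2).one_lt.ne' (Nat.dvd_one.mp (hn ▸ hd))
      have := hprop _ hne
      exact mul_comm' a b
    refine ⟨⟨fun a b => ?_⟩⟩
    have hx : (e.symm a * e.symm b) = e.symm b * e.symm a := by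
      funext p P
      exact hS p P _ _
    have := congrArg e hx
    simpa using this
  · rintro (hab | ⟨-, hna, hp⟩)
    · intro H hH
      exfalso
      apply hH
      refine ⟨⟨fun a b => Subtype.ext ?_⟩⟩
      exact hab.is_comm.comm a.1 b.1
    · intro H hH
      by_cases hHt : H = ⊤
      · subst hHt
        rw [eq_top_iff]
        intro x _
        rw [Subgroup.mem_normalizer_iff]
        intro y
        simp
      · exact absurd (hp H hHt) hH

end Cfsg.Agent.S4075
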