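import Mathlib
import Cfsg.Statements.S4080
-- import your own Cfsg.Agent.* helpers here

set_option autoImplicit false
open Cfsg

namespace Cfsg.Agent.S4080

theorem nil_two {F : Type*} [Field F] (N : Matrix (Fin 2) (Fin 2) F) (m : ℕ) (hm : N ^ m = 0) : N * N = 0 := by
  have hm0 : m ≠ 0 := by
    rintro rfl
    rw [pow_zero] at hm
    have := congrFun (congrFun hm 0) 0
    simp at this
  have hdet : N.det = 0 := by
    have h1 := congrArg Matrix.det hm
    rw [Matrix.det_pow, Matrix.det_zero] at h1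
    exact pow_eq_zero_iff hm0 |>.mp h1
  have hCH : N * N = N.trace • N := by
    rw [Matrix.det_fin_two] at hdet
    ext i j
    fin_cases i <;> fin_cases j <;> simp [Matrix.mul_apply, Matrix.trace_fin_two, Fin.sum_univ_two] <;> first | ring1 | linear_combination hdet | linear_combination -hdet
  have hpow : ∀ k : ℕ, N ^ (k + 1) = N.trace ^ k • N := by
    intro k
    induction k with
    | zero => simp
    | succ k ih =>
      rw [pow_succ, ih, smul_mul_assoc, hCH, smul_smul, pow_succ]
  obtain ⟨k, rfl⟩ := Nat.exists_eq_succ_of_ne_zero hm0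
  have h2 := hpow k
  rw [hm] at h2
  have h3 := smul_eq_zero.mp h2.symm
  rcases h3 with h3 | h3
  · have h4 : N.trace = 0 := by
      by_contra ht
      exact pow_ne_zero k ht h3
    rw [hCH, h4, zero_smul]
  · rw [h3, mul_zero]

theorem ring_lemma {S : Type*} [Ring S] (p : ℕ) (hp : p.Prime) (h5 : 3 < p) (u Q : S) (h1 : u * u = (p : S) * Q)
    (hQ : (p : S) * (p : S) = 0) : (u + 1) ^ p = (p : S) * u + 1 := by
  have hc : ∀ s : S, (p : S) * s = s * (p : S) := fun s => (Nat.cast_commute p s).eq
  rw [(Commute.one_right u).add_pow p]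
  have hmid : ∀ m ∈ Finset.range (p + 1), m ≠ 0 ∧ m ≠ 1 → u ^ m * 1 ^ (p - m) * ((p.choose m : ℕ) : S) = 0 := by
    rintro m hm ⟨h0, h1'⟩
    have hmle : m ≤ p := by
      have := Finset.mem_range.mp hm
      omega
    rw [one_pow, mul_one]
    rcases Nat.lt_or_ge m p with hlt | hge
    · obtain ⟨c, hc'⟩ := hp.dvd_choose_self h0 hlt
      obtain ⟨m', rfl⟩ : ∃ m', m = m' + 2 := ⟨m - 2, by omega⟩
      rw [hc']
      push_cast
      calc u ^ (m' + 2) * ((p : S) * (c : S)) = u ^ m' * (u * u) * ((p : S) * (c : S)) := by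
            rw [pow_add, pow_two]
        _ = u ^ m' * ((p : S) * Q) * ((p : S) * (c : S)) := by rw [h1]
        _ = u ^ m' * (((p : S) * Q) * (p : S)) * (c : S) := by noncomm_ring
        _ = u ^ m' * (((p : S) * (p : S)) * Q) * (c : S) := by rw [mul_assoc (p : S), ← hc Q, mul_assoc (p : S)]
        _ = 0 := by rw [hQ]; simp
    · have hmp : m = p := le_antisymm hmle hge
      have h4 : u ^ 4 = 0 := by
        calc u ^ 4 = (u * u) * (u * u) := by noncomm_ring
          _ = ((p : S) * Q) * ((p : S) * Q) := by rw [h1]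
          _ = ((p : S) * (p : S)) * (Q * Q) := by
              rw [mul_assoc (p : S), ← mul_assoc Q, ← hc Q, mul_assoc (p : S), mul_assoc (p : S)]
          _ = 0 := by rw [hQ, zero_mul]
      have h6 : u ^ p = 0 := by
        rw [show p = (p - 4) + 4 by omega, pow_add, h4, mul_zero]
      rw [hmp, h6, zero_mul]
  rw [Finset.sum_eq_add 0 1 (by norm_num) hmid (by intro h; exact absurd (Finset.mem_range.mpr (by omega)) h)
    (by intro h; exact absurd (Finset.mem_range.mpr (by have := hp.pos; omega)) h)]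
  simp only [pow_zero, one_pow, mul_one, one_mul, Nat.choose_zero_right, Nat.cast_one, pow_one, Nat.choose_one_right]
  rw [add_comm, hc]

theorem ker_p {p : ℕ} (hp : p.Prime) (e : ZMod (p ^ 2)) (h : (p : ℕ) ∣ e.val) : ∃ t : ZMod (p ^ 2), e = (p : ZMod (p ^ 2)) * t := by
  haveI : NeZero (p ^ 2) := ⟨by have := hp.pos; positivity⟩
  obtain ⟨c, hc⟩ := h
  refine ⟨(c : ZMod (p ^ 2)), ?_⟩
  have : e = ((e.val : ℕ) : ZMod (p ^ 2)) := (ZMod.natCast_zmod_val e).symm
  rw [this, hc]
  push_cast
  rfl


/-- Let p > 3 be a prime and L the direct product of two cyclic groups of order p². Every automorphism of L of order p fixes every element of order p of L. -/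
theorem result {p : ℕ} [Fact p.Prime] (hp : 3 < p)
    (a : MulAut (Multiplicative (ZMod (p ^ 2) × ZMod (p ^ 2)))) (ha : orderOf a = p)
    (x : Multiplicative (ZMod (p ^ 2) × ZMod (p ^ 2))) (hx : orderOf x = p) : a x = x := by
  classical
  have hpp : p.Prime := Fact.out
  haveI : NeZero (p ^ 2) := ⟨by have := hpp.pos; positivity⟩
  let R := ZMod (p ^ 2)
  -- the additive map
  let F0 : (R × R) →+ (R × R) := AddMonoidHom.toMultiplicative.symm a.toMonoidHom
  let G : Module.End R (R × R) := AddMonoidHom.toZModLinearMap (p ^ 2) F0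
  have hGapp : ∀ y : R × R, G y = (a (Multiplicative.ofAdd y)).toAdd := fun y => rfl
  have hGpow : ∀ (k : ℕ) (y : R × R), (G ^ k) y = ((a ^ k) (Multiplicative.ofAdd y)).toAdd := by
    intro k
    induction k with
    | zero => intro y; rfl
    | succ k ih =>
      intro y
      rw [pow_succ G, pow_succ a]
      change (G ^ k) (G y) = _
      rw [ih]
      rfl
  have hG1 : G ^ p = 1 := by
    have h1 : a ^ p = 1 := orderOf_dvd_iff_pow_eq_one.mp (dvd_of_eq ha)
    apply LinearMap.ext
    intro y
    rw [hGpow, h1]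
    rfl
  -- the matrix
  let b := Module.Basis.finTwoProd R
  let E := LinearMap.toMatrixAlgEquiv b
  let A : Matrix (Fin 2) (Fin 2) R := E G
  have hA : A ^ p = 1 := by
    change (E G) ^ p = 1
    rw [← map_pow, hG1, map_one]
  let u : Matrix (Fin 2) (Fin 2) R := A - 1
  have hpdvd : p ∣ p ^ 2 := dvd_pow_self p (by norm_num)
  let c : R →+* ZMod p := ZMod.castHom hpdvd (ZMod p)
  let ū : Matrix (Fin 2) (Fin 2) (ZMod p) := c.mapMatrix u
  have hū : ū ^ p = 0 := by
    have h1 : ū = c.mapMatrix A - 1 := by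
      change c.mapMatrix (A - 1) = _
      rw [map_sub, map_one]
    have h2 : (c.mapMatrix A) ^ p = 1 := by
      rw [← map_pow, hA, map_one]
    rw [h1, sub_pow_char_of_commute p (Commute.one_right _), h2, one_pow, sub_self]
  have hū2 := nil_two ū p hū
  -- the square is a multiple of `p`
  have hentry : ∀ i j, ∃ t : R, (u * u) i j = (p : R) * t := by
    intro i j
    apply ker_p hpp
    have h1 : c ((u * u) i j) = 0 := by
      have h2 : (c.mapMatrix (u * u)) i j = 0 := by
        rw [map_mul]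
        change (ū * ū) i j = 0
        rw [hū2]
        rfl
      exact h2
    have h3 : c ((u * u) i j) = ((u * u) i j).cast := rfl
    rw [h3, ← ZMod.natCast_val, ZMod.natCast_eq_zero_iff] at h1
    exact h1
  choose t ht using hentry
  let Q : Matrix (Fin 2) (Fin 2) R := Matrix.of t
  have hu2 : u * u = ((p : ℕ) : Matrix (Fin 2) (Fin 2) R) * Q := by
    ext i j
    have h1 : ((p : ℕ) : Matrix (Fin 2) (Fin 2) R) * Q = (p : ℕ) • Q := (nsmul_eq_mul _ _).symm
    rw [h1, Matrix.smul_apply, ht i j, nsmul_eq_mul]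
    rfl
  have hpp0 : ((p : ℕ) : Matrix (Fin 2) (Fin 2) R) * ((p : ℕ) : Matrix (Fin 2) (Fin 2) R) = 0 := by
    rw [← Nat.cast_mul, ← pow_two]
    have : ((p ^ 2 : ℕ) : R) = 0 := ZMod.natCast_self _
    ext i j
    rw [Matrix.natCast_apply]
    split_ifs <;> simp [this]
  have hring := ring_lemma (S := Matrix (Fin 2) (Fin 2) R) p hpp hp u Q hu2 hpp0
  have hup : ((p : ℕ) : Matrix (Fin 2) (Fin 2) R) * u = 0 := by
    have h1 : u + 1 = A := by
      change A - 1 + 1 = A
      rw [sub_add_cancel]
    rw [h1, hA] at hring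
    exact (add_eq_right.mp hring.symm)
  -- back to the map
  have hEnd : ((p : ℕ) : Module.End R (R × R)) * (G - 1) = 0 := by
    apply E.injective
    rw [map_mul, map_natCast, map_sub, map_one, map_zero]
    exact hup
  have hkey : ∀ y : R × R, (p : ℕ) • (G y - y) = 0 := by
    intro y
    have h1 := congrArg (fun φ : Module.End R (R × R) => φ y) hEnd
    simpa [Module.End.mul_apply, Module.End.natCast_apply] using h1
  -- the element
  let X : R × R := x.toAdd
  have hXp : (p : ℕ) • X = 0 := by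
    have h1 : x ^ p = 1 := orderOf_dvd_iff_pow_eq_one.mp (dvd_of_eq hx)
    exact congrArg Multiplicative.toAdd h1
  have hcoord : ∀ e : R, (p : ℕ) • e = 0 → ∃ s : R, e = (p : R) * s := by
    intro e he
    apply ker_p hpp
    have h1 : ((p * e.val : ℕ) : R) = 0 := by
      rw [Nat.cast_mul, (ZMod.natCast_zmod_val e : ((e.val : ℕ) : R) = e)]
      simpa [nsmul_eq_mul] using he
    have h2 : p ^ 2 ∣ p * e.val := (ZMod.natCast_eq_zero_iff _ _).mp h1
    have h3 : p * p ∣ p * e.val := Dvd.dvd.trans (dvd_of_eq (pow_two p).symm) h2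
    exact Nat.dvd_of_mul_dvd_mul_left hpp.pos h3
  obtain ⟨s1, hs1⟩ := hcoord X.1 (by simpa using congrArg Prod.fst hXp)
  obtain ⟨s2, hs2⟩ := hcoord X.2 (by simpa using congrArg Prod.snd hXp)
  have hXs : X = (p : ℕ) • (s1, s2) := by
    ext
    · simpa [nsmul_eq_mul] using hs1
    · simpa [nsmul_eq_mul] using hs2
  have hfinal : G X = X := by
    rw [hXs, map_nsmul]
    have h1 := hkey (s1, s2)
    rw [smul_sub, sub_eq_zero] at h1
    exact h1
  exact hfinal

end Cfsg.Agent.S4080
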