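import Mathlib
import Cfsg.Statements.S4081
import Cfsg.Agent.Lib.H6Orb3G
import Cfsg.Agent.Lib.CharBurnside
-- import your own Cfsg.Agent.* helpers here

set_option autoImplicit false
open Cfsg

namespace Cfsg.Agent.S4081


open scoped commutatorElement

theorem two_primes (N : ℕ) (hN0 : N ≠ 0) (hN1 : N ≠ 1) (hnpp : ¬ IsPrimePow N) :
    ∃ p q, p.Prime ∧ q.Prime ∧ p ≠ q ∧ p ∣ N ∧ q ∣ N := by
  have hp := Nat.minFac_prime hN1
  obtain ⟨e, m, hm, hNe⟩ := Nat.exists_eq_pow_mul_and_not_dvd hN0 N.minFac hp.ne_one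
  have hm1 : m ≠ 1 := by
    rintro rfl
    rw [mul_one] at hNe
    apply hnpp
    rw [isPrimePow_nat_iff]
    have he : 0 < e := by
      rw [Nat.pos_iff_ne_zero]
      rintro rfl
      rw [pow_zero] at hNe
      exact hN1 hNe
    exact ⟨N.minFac, e, hp, he, hNe.symm⟩
  have hq := Nat.minFac_prime hm1
  refine ⟨N.minFac, m.minFac, hp, hq, ?_, Nat.minFac_dvd N, ?_⟩
  · intro h
    apply hm
    rw [h]
    exact Nat.minFac_dvd m
  · rw [hNe]
    exact Dvd.dvd.mul_left (Nat.minFac_dvd m) _

/-- Orbit data out of the count. -/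
theorem orbit_data {G : Type*} [Group G] [Finite G] {x y : G}
    (hx1 : orderOf x ≠ 1) (hy1 : orderOf y ≠ 1) (hxy : orderOf x ≠ orderOf y)
    (h3 : Nat.card (MulAction.orbitRel.Quotient (MulAut G) G) = 3) (g : G) :
    g = 1 ∨ (∃ α : MulAut G, α y = g) ∨ (∃ α : MulAut G, α x = g) := by
  classical
  let π : G → MulAction.orbitRel.Quotient (MulAut G) G := fun g => Quotient.mk _ g
  have hπord : ∀ g g', π g = π g' → orderOf g = orderOf g' := by
    intro g g' h
    obtain ⟨α, hα⟩ := MulAction.orbitRel_apply.mp (Quotient.exact h)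
    have hα' : α g' = g := hα
    rw [← hα', MulEquiv.orderOf_eq]
  let f : Fin 3 → MulAction.orbitRel.Quotient (MulAut G) G := ![π 1, π y, π x]
  have h01 : π 1 ≠ π y := fun h => hy1 (by have := hπord _ _ h; rw [orderOf_one] at this; exact this.symm)
  have h02 : π 1 ≠ π x := fun h => hx1 (by have := hπord _ _ h; rw [orderOf_one] at this; exact this.symm)
  have h12 : π y ≠ π x := fun h => hxy (hπord _ _ h).symm
  have hinj : Function.Injective f := by
    intro i j hij
    have key : ∀ i : Fin 3, i = 0 ∨ i = 1 ∨ i = 2 := by decide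
    rcases key i with rfl | rfl | rfl <;> rcases key j with rfl | rfl | rfl <;>
      first
        | rfl
        | exact absurd hij h01
        | exact absurd hij h02
        | exact absurd hij h12
        | exact absurd hij.symm h01
        | exact absurd hij.symm h02
        | exact absurd hij.symm h12
  haveI : Finite (MulAction.orbitRel.Quotient (MulAut G) G) := inferInstance
  have hbij : Function.Bijective f :=
    Function.Injective.bijective_of_nat_card_le hinj (by rw [h3]; simp)
  obtain ⟨i, hi⟩ := hbij.2 (π g)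
  have key : ∀ i : Fin 3, i = 0 ∨ i = 1 ∨ i = 2 := by decide
  have hα : ∀ z : G, π z = π g → ∃ α : MulAut G, α z = g := by
    intro z hz
    obtain ⟨α, hα⟩ := MulAction.orbitRel_apply.mp (Quotient.exact hz.symm)
    exact ⟨α, hα⟩
  rcases key i with rfl | rfl | rfl
  · left
    obtain ⟨α, hα⟩ := hα 1 hi
    rw [← hα, map_one]
  · right; left
    exact hα y hi
  · right; right
    exact hα x hi


/-- Let G be a finite group whose order is not a prime power. Then the automorphism group of G has exactly three orbits on G if and only if there are distinct primes p, q with #G = pⁿ·q (n ≥ 1) such that G has a normal elementary abelian Sylow p-subgroup P, p is a primitive root modulo q (the multiplicative order of p mod q is q − 1), and every element of order q of G acts on P without non-identity fixed points. -/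
theorem result {G : Type*} [Group G] [Finite G] (hnpp : ¬ IsPrimePow (Nat.card G)) (hnt : Nat.card G ≠ 1) :
    Nat.card (MulAction.orbitRel.Quotient (MulAut G) G) = 3 ↔
    ∃ (p q n : ℕ) (_ : Fact p.Prime) (_ : Fact q.Prime), p ≠ q ∧ 1 ≤ n ∧ Nat.card G = p ^ n * q ∧
      (∀ P : Sylow p G, (P : Subgroup G).Normal ∧ Cfsg.IsElementaryAbelian p (P : Subgroup G)) ∧
      orderOf (p : ZMod q) = q - 1 ∧
      ∀ x y : G, orderOf x = q → orderOf y = p → x * y * x⁻¹ ≠ y := by
  classical
  constructor
  · intro h3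
    have hN0 : Nat.card G ≠ 0 := Nat.card_pos.ne'
    obtain ⟨p, q, hp, hq, hpq, hpd, hqd⟩ := two_primes _ hN0 hnt hnpp
    haveI : Fact p.Prime := ⟨hp⟩
    haveI : Fact q.Prime := ⟨hq⟩
    obtain ⟨y, hy⟩ := exists_prime_orderOf_dvd_card' (G := G) p hpd
    obtain ⟨x, hx⟩ := exists_prime_orderOf_dvd_card' (G := G) q hqd
    have hdata := orbit_data (x := x) (y := y) (by rw [hx]; exact hq.one_lt.ne')
      (by rw [hy]; exact hp.one_lt.ne') (by rw [hx, hy]; exact hpq.symm) h3
    have hy1 : y ≠ 1 := by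
      rintro rfl
      rw [orderOf_one] at hy
      exact hp.one_lt.ne hy
    have hx1 : x ≠ 1 := by
      rintro rfl
      rw [orderOf_one] at hx
      exact hq.one_lt.ne hx
    have H3 : ∀ g : G, g ≠ 1 → orderOf g = p ∨ orderOf g = q := by
      intro g hg
      rcases hdata g with h | ⟨α, rfl⟩ | ⟨α, rfl⟩
      · exact absurd h hg
      · left; rw [MulEquiv.orderOf_eq, hy]
      · right; rw [MulEquiv.orderOf_eq, hx]
    have H2 : ∀ g g' : G, g ≠ 1 → orderOf g = orderOf g' → ∃ α : MulAut G, α g = g' := by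
      intro g g' hg hgg
      have hg' : g' ≠ 1 := by
        rintro rfl
        rw [orderOf_one, orderOf_eq_one_iff] at hgg
        exact hg hgg
      rcases hdata g with h | ⟨α, rfl⟩ | ⟨α, rfl⟩
      · exact absurd h hg
      · rcases hdata g' with h | ⟨β, rfl⟩ | ⟨β, rfl⟩
        · exact absurd h hg'
        · exact ⟨β * α⁻¹, by simp⟩
        · exfalso
          rw [MulEquiv.orderOf_eq, MulEquiv.orderOf_eq, hy, hx] at hgg
          exact hpq hgg
      · rcases hdata g' with h | ⟨β, rfl⟩ | ⟨β, rfl⟩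
        · exact absurd h hg'
        · exfalso
          rw [MulEquiv.orderOf_eq, MulEquiv.orderOf_eq, hy, hx] at hgg
          exact hpq hgg.symm
        · exact ⟨β * α⁻¹, by simp⟩
    -- the order of `G`
    obtain ⟨a, m, hm, hNa⟩ := Nat.exists_eq_pow_mul_and_not_dvd hN0 p hp.ne_one
    have hm0 : m ≠ 0 := by
      rintro rfl
      rw [mul_zero] at hNa
      exact hN0 hNa
    obtain ⟨b, m', hm', hmb⟩ := Nat.exists_eq_pow_mul_and_not_dvd hm0 q hq.ne_one
    have hm'1 : m' = 1 := by
      by_contra h1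
      have hr := Nat.minFac_prime h1
      haveI : Fact m'.minFac.Prime := ⟨hr⟩
      have hrd : m'.minFac ∣ Nat.card G := by
        rw [hNa, hmb]
        exact Dvd.dvd.mul_left (Dvd.dvd.mul_left (Nat.minFac_dvd m') _) _
      obtain ⟨z, hz⟩ := exists_prime_orderOf_dvd_card' (G := G) m'.minFac hrd
      have hz1 : z ≠ 1 := by
        rintro rfl
        rw [orderOf_one] at hz
        exact hr.one_lt.ne hz
      rcases H3 z hz1 with h | h
      · rw [hz] at h
        apply hm
        rw [hmb, ← h]
        exact Dvd.dvd.mul_left (Nat.minFac_dvd m') _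
      · rw [hz] at h
        apply hm'
        rw [← h]
        exact Nat.minFac_dvd m'
    rw [hm'1, mul_one] at hmb
    rw [hmb] at hNa
    have hsolv : Group.IsSolvable G :=
      Cfsg.Agent.Lib.CharBurnside.solvable_two_prime p q hp hq _ G a b rfl hNa
    -- a characteristic abelian subgroup
    have hex : ∃ n, derivedSeries G n = ⊥ := hsolv.solvable
    let n₀ := Nat.find hex
    have hn₀ : derivedSeries G n₀ = ⊥ := Nat.find_spec hex
    have hn₀0 : n₀ ≠ 0 := by
      intro h0
      rw [h0, derivedSeries_zero] at hn₀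
      have : y ∈ (⊥ : Subgroup G) := by rw [← hn₀]; trivial
      exact hy1 (Subgroup.mem_bot.mp this)
    obtain ⟨n₁, hn₁⟩ : ∃ n₁, n₀ = n₁ + 1 := ⟨n₀ - 1, by omega⟩
    let A := derivedSeries G n₁
    have hAne : A ≠ ⊥ := Nat.find_min hex (by omega : n₁ < n₀)
    have hAcomm : ∀ u ∈ A, ∀ v ∈ A, u * v = v * u := by
      intro u hu v hv
      have h1 : ⁅u, v⁆ ∈ ⁅A, A⁆ := Subgroup.commutator_mem_commutator hu hv
      have h2 : ⁅A, A⁆ = ⊥ := by
        rw [← hn₀, hn₁]
        rfl
      rw [h2, Subgroup.mem_bot] at h1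
      exact commutatorElement_eq_one_iff_mul_comm.mp h1
    have hAchar : ∀ α : MulAut G, ∀ g ∈ A, α g ∈ A := by
      intro α g hg
      have h1 := (Subgroup.characteristic_iff_map_eq.mp (derivedSeries_characteristic G n₁)) α
      change (derivedSeries G n₁).map α.toMonoidHom = A at h1
      rw [← h1]
      exact ⟨g, hg, rfl⟩
    obtain ⟨c, hc1⟩ := (Subgroup.ne_bot_iff_exists_ne_one).mp hAne
    have hc1' : (c : G) ≠ 1 := fun h => hc1 (Subtype.ext h)
    let r := orderOf (c : G)
    let W : Subgroup G :=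
      { carrier := {g | g ∈ A ∧ g ^ r = 1}
        one_mem' := ⟨A.one_mem, one_pow _⟩
        mul_mem' := fun {u v} hu hv => ⟨A.mul_mem hu.1 hv.1, by
          have : Commute u v := hAcomm u hu.1 v hv.1
          rw [this.mul_pow, hu.2, hv.2, one_mul]⟩
        inv_mem' := fun {u} hu => ⟨A.inv_mem hu.1, by rw [inv_pow, hu.2, inv_one]⟩ }
    have hWchar : ∀ α : MulAut G, ∀ g ∈ W, α g ∈ W := by
      intro α g hg
      exact ⟨hAchar α g hg.1, by rw [← map_pow, hg.2, map_one]⟩
    have hWcomm : ∀ u ∈ W, ∀ v ∈ W, u * v = v * u := fun u hu v hv => hAcomm u hu.1 v hv.1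
    have hcW : (c : G) ∈ W := ⟨c.2, pow_orderOf_eq_one _⟩
    rcases H3 c hc1' with hr | hr
    · have hWexp : ∀ u ∈ W, u ^ p = 1 := fun u hu => by
        have := hu.2
        rwa [show r = p from hr] at this
      obtain ⟨n, hn, hcard, hsyl, hord, hfpf⟩ := Cfsg.Agent.Lib.H6Orb3G.forward_core hpq a b hNa H3 H2 W
        hWchar hWcomm hWexp c hcW hr x hx
      exact ⟨p, q, n, inferInstance, inferInstance, hpq, hn, hcard, hsyl, hord, hfpf⟩
    · have hWexp : ∀ u ∈ W, u ^ q = 1 := fun u hu => by
        have := hu.2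
        rwa [show r = q from hr] at this
      obtain ⟨n, hn, hcard, hsyl, hord, hfpf⟩ := Cfsg.Agent.Lib.H6Orb3G.forward_core hpq.symm b a
        (by rw [hNa, mul_comm]) (fun g hg => (H3 g hg).symm) H2 W
        hWchar hWcomm hWexp c hcW hr y hy
      exact ⟨q, p, n, inferInstance, inferInstance, hpq.symm, hn, hcard, hsyl, hord, hfpf⟩
  · rintro ⟨p, q, n, hp, hq, hpq, hn, hcard, hsyl, hord, hfpf⟩
    exact Cfsg.Agent.Lib.H6Orb3G.backward_core hpq hn hcard hsyl hord hfpf

end Cfsg.Agent.S4081
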