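import Mathlib
import Cfsg.Statements.S4082
import Cfsg.Agent.Lib.H6Restr
import Cfsg.Agent.Lib.H6DihSub
-- import your own Cfsg.Agent.* helpers here

set_option autoImplicit false
open Cfsg

namespace Cfsg.Agent.S4082


set_option autoImplicit false
set_option linter.all false

section H6Main

open Subgroup Cfsg.Agent.Lib.H6Restr

theorem cyclic_comm {T : Type*} [Group T] (h : IsCyclic T) (a b : T) : a * b = b * a := by
  obtain ⟨g, hg⟩ := h
  obtain ⟨i, rfl⟩ := hg a
  obtain ⟨j, rfl⟩ := hg b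
  show g ^ i * g ^ j = g ^ j * g ^ i
  rw [← zpow_add, ← zpow_add, add_comm]

theorem dih_invert {H : Type*} [Group H] {m : ℕ} [NeZero m] (e : H ≃* DihedralGroup m) (x q : H)
    (hq : Odd (orderOf q)) (hxq : x * q ≠ q * x) :
    x ^ 2 = 1 ∧ ∀ q', Odd (orderOf q') → x * q' * x⁻¹ = q'⁻¹ := by
  have hrot : ∀ u : H, Odd (orderOf u) → ∃ j, e u = DihedralGroup.r j := by
    intro u hu
    rcases hc : e u with j | j
    · exact ⟨j, rfl⟩
    · exfalso
      have h1 : orderOf (e u) = orderOf u := orderOf_injective e.toMonoidHom e.injective u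
      rw [hc, DihedralGroup.orderOf_sr] at h1
      rw [← h1] at hu
      exact (Nat.not_odd_iff_even.2 even_two) hu
  obtain ⟨j, hj⟩ := hrot q hq
  rcases hx : e x with i | i
  · exfalso
    apply hxq
    apply e.injective
    rw [map_mul, map_mul, hx, hj, DihedralGroup.r_mul_r, DihedralGroup.r_mul_r, add_comm]
  · constructor
    · apply e.injective
      rw [map_pow, hx, pow_two, DihedralGroup.sr_mul_self, map_one]
    · intro q' hq'
      obtain ⟨j', hj'⟩ := hrot q' hq'
      apply e.injective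
      rw [map_mul, map_mul, map_inv, map_inv, hx, hj', DihedralGroup.inv_sr, DihedralGroup.sr_mul_r,
        DihedralGroup.sr_mul_sr, DihedralGroup.inv_r]
      congr 1
      ring

theorem odd_of_pgroup {T : Type*} [Group T] {p : ℕ} [hp : Fact p.Prime] (hp2 : p ≠ 2) {Q : Subgroup T}
    (hQ : IsPGroup p Q) {q : T} (hq : q ∈ Q) : Odd (orderOf q) := by
  obtain ⟨k, hk⟩ := hQ ⟨q, hq⟩
  have h1 : q ^ p ^ k = 1 := congrArg Subtype.val hk
  obtain ⟨j, -, hj⟩ := (Nat.dvd_prime_pow hp.out).1 (orderOf_dvd_of_pow_eq_one h1)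
  rw [hj]
  exact Odd.pow (hp.out.odd_of_ne_two hp2)

/-- The left-hand side of the statement. -/
def LHS (p : ℕ) (G : Type*) [Group G] : Prop :=
  ∀ H : Subgroup G, (∀ S : Sylow p ↥H, (S : Subgroup ↥H).Normal) →
        (∀ (S : Sylow p ↥H) [(S : Subgroup ↥H).Normal], IsCyclic (↥H ⧸ (S : Subgroup ↥H))) →
        IsCyclic H ∨ (∃ n : ℕ, Nonempty (H ≃* DihedralGroup (p ^ n)))

variable {G : Type*} [Group G] [Finite G] {p : ℕ} [hp : Fact p.Prime]

theorem apply_lhs (hL : LHS p G) (H : Subgroup G) (Q : Subgroup H) (hQn : Q.Normal) (hQp : IsPGroup p Q)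
    (hQc : IsCyclic (H ⧸ Q)) :
    IsCyclic H ∨ (∃ n : ℕ, Nonempty (H ≃* DihedralGroup (p ^ n))) :=
  hL H (fun S => sylow_normal_of_cyclic_quot Q hQn hQp hQc S)
    (fun S _ => cyclic_quot_of_le Q S hQc (le_sylow_of_normal Q hQn hQp S))

/-- An element normalizing a `p`-subgroup but not centralizing it is an involution inverting it. -/
theorem inv_of_not_cent (hp2 : p ≠ 2) (hL : LHS p G) (Q : Subgroup G) (hQ : IsPGroup p Q) (x : G)
    (hxN : x ∈ normalizer (Q : Set G)) (hxC : x ∉ centralizer (Q : Set G)) :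
    x ^ 2 = 1 ∧ ∀ q ∈ Q, x * q * x⁻¹ = q⁻¹ := by
  let H := Q ⊔ zpowers x
  have hKH : Q ≤ H := le_sup_left
  let Q' : Subgroup H := Q.subgroupOf H
  have hQn : Q'.Normal := sup_zpowers_normal Q x hxN
  have hQc : IsCyclic (H ⧸ Q') := sup_zpowers_cyclic Q x
  have hQp : IsPGroup p Q' := hQ.of_equiv (Subgroup.subgroupOfEquivOfLe hKH).symm
  let x' : H := ⟨x, (le_sup_right : zpowers x ≤ Q ⊔ zpowers x) (mem_zpowers x)⟩
  obtain ⟨q, hq, hne⟩ : ∃ q ∈ Q, q * x ≠ x * q := by
    by_contra hno
    push Not at hno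
    exact hxC (Subgroup.mem_centralizer_iff.2 hno)
  have hqH : q ∈ H := hKH hq
  rcases apply_lhs hL H Q' hQn hQp hQc with hc | ⟨n, ⟨e⟩⟩
  · exfalso
    apply hne
    have := cyclic_comm hc ⟨q, hqH⟩ x'
    exact congrArg Subtype.val this
  · have : NeZero (p ^ n) := ⟨pow_ne_zero _ hp.out.ne_zero⟩
    have hordq : Odd (orderOf (⟨q, hqH⟩ : H)) := by
      rw [Subgroup.orderOf_mk]
      exact odd_of_pgroup hp2 hQ hq
    have hne' : x' * ⟨q, hqH⟩ ≠ ⟨q, hqH⟩ * x' := by
      intro h
      apply hne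
      exact (congrArg Subtype.val h).symm
    obtain ⟨h1, h2⟩ := dih_invert e x' _ hordq hne'
    refine ⟨congrArg Subtype.val h1, ?_⟩
    intro q' hq'
    have hq'H : q' ∈ H := hKH hq'
    have h3 := h2 ⟨q', hq'H⟩ (by rw [Subgroup.orderOf_mk]; exact odd_of_pgroup hp2 hQ hq')
    exact congrArg Subtype.val h3

theorem fwd_cyclic (hp2 : p ≠ 2) (hL : LHS p G) (P : Sylow p G) : IsCyclic P := by
  have hp' : IsPGroup p (⊤ : Subgroup (P : Subgroup G)) := by
    have h1 : IsPGroup p (P : Subgroup G) := P.isPGroup'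
    exact h1.of_equiv Subgroup.topEquiv.symm
  have hq : IsCyclic ((P : Subgroup G) ⧸ (⊤ : Subgroup (P : Subgroup G))) := by
    have : Subsingleton ((P : Subgroup G) ⧸ (⊤ : Subgroup (P : Subgroup G))) :=
      QuotientGroup.subsingleton_quotient_top
    exact isCyclic_of_subsingleton
  rcases apply_lhs hL (P : Subgroup G) ⊤ inferInstance hp' hq with hc | ⟨n, ⟨e⟩⟩
  · exact hc
  · exfalso
    obtain ⟨m, hm⟩ := IsPGroup.iff_card.1 P.isPGroup'
    rw [Nat.card_congr e.toEquiv, DihedralGroup.nat_card] at hm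
    have h3 : 2 ∣ p ^ m := by
      rw [← hm]
      exact dvd_mul_right _ _
    have h4 := (Nat.Prime.dvd_of_dvd_pow Nat.prime_two h3)
    exact hp2 ((Nat.prime_dvd_prime_iff_eq Nat.prime_two hp.out).1 h4).symm

/-- Element form of the condition on the subgroups of order `p`. -/
def CL (Q : Subgroup G) : Prop :=
  (∀ a ∈ centralizer (Q : Set G), ∀ b ∈ centralizer (Q : Set G), a * b = b * a) ∧
    ∀ x : G, x ∈ normalizer (Q : Set G) → x ∉ centralizer (Q : Set G) →
      orderOf x = 2 ∧ ∀ c : G, c ∈ centralizer (Q : Set G) → x * c * x⁻¹ = c⁻¹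

theorem fwd_cl (hp2 : p ≠ 2) (hL : LHS p G) (P Q : Subgroup G) (hP : IsPGroup p P) (hQP : Q ≤ P)
    (hQc : Nat.card Q = p) (z : G) (hzN : z ∈ normalizer (P : Set G)) (hzC : z ∉ centralizer (P : Set G)) : CL Q := by
  obtain ⟨hz2, hzi⟩ := inv_of_not_cent hp2 hL P hP z hzN hzC
  have hQp : IsPGroup p Q := IsPGroup.of_card (n := 1) (by rw [hQc, pow_one])
  have hzinv : z⁻¹ = z := by
    apply inv_eq_of_mul_eq_one_left
    rw [← pow_two]
    exact hz2
  have hzQN : z ∈ normalizer (Q : Set G) := by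
    rw [Subgroup.mem_normalizer_iff]
    intro h
    have hhh : ∀ u ∈ Q, z * u * z⁻¹ ∈ Q := by
      intro u hu
      rw [hzi u (hQP hu)]
      exact Q.inv_mem hu
    constructor
    · exact hhh h
    · intro hu
      have h1 := hhh _ hu
      have h2 : z * (z * h * z⁻¹) * z⁻¹ = h := by
        calc z * (z * h * z⁻¹) * z⁻¹ = (z * z) * h * (z⁻¹ * z⁻¹) := by group
          _ = h := by
            rw [hzinv, ← pow_two, hz2]
            group
      rwa [h2] at h1
  have hzQC : z ∉ centralizer (Q : Set G) := by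
    intro hzc
    have : Fact (Nat.Prime (Nat.card Q)) := ⟨by rw [hQc]; exact hp.out⟩
    have hnt : Nontrivial Q := by
      refine Finite.one_lt_card_iff_nontrivial.1 ?_
      rw [hQc]
      exact hp.out.one_lt
    obtain ⟨⟨q, hq⟩, hq1⟩ := exists_ne (1 : Q)
    have h1 := hzi q (hQP hq)
    have h2 : q * z = z * q := Subgroup.mem_centralizer_iff.1 hzc q hq
    have h3 : q = q⁻¹ := by
      rw [← h1, ← h2]
      group
    have h4 : q ^ 2 = 1 := by
      rw [pow_two]
      nth_rewrite 1 [h3]
      group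
    have h5 : Nat.Coprime (orderOf q) 2 := by
      have := odd_of_pgroup hp2 hQp hq
      exact Nat.Coprime.symm (Nat.coprime_two_left.2 this)
    have h6 := Nat.dvd_gcd (orderOf_dvd_natCard q) (orderOf_dvd_of_pow_eq_one h4)
    have h7 := orderOf_dvd_of_pow_eq_one h4
    have h8 : orderOf q = 1 := Nat.dvd_one.1 (by
      have := Nat.dvd_gcd (dvd_refl (orderOf q)) h7
      rwa [h5] at this)
    apply hq1
    exact Subtype.ext (orderOf_eq_one_iff.1 h8)
  -- general claim
  have hinv : ∀ x ∈ normalizer (Q : Set G), x ∉ centralizer (Q : Set G) → x * x = 1 := by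
    intro x hx hxc
    rw [← pow_two]
    exact (inv_of_not_cent hp2 hL Q hQp x hx hxc).1
  have hCN : centralizer (Q : Set G) ≤ normalizer (Q : Set G) := by
    intro c hc
    rw [Subgroup.mem_normalizer_iff]
    intro h
    have hh : ∀ u ∈ Q, c * u * c⁻¹ = u := by
      intro u hu
      rw [← Subgroup.mem_centralizer_iff.1 hc u hu]
      group
    constructor
    · intro hu
      rwa [hh h hu]
    · intro hu
      have h1 : h = c⁻¹ * (c * h * c⁻¹) * c := by group
      have h2 := hh _ hu
      have h3 : c * h * c⁻¹ = h := by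
        have := mul_left_cancel (a := c) (b := (c * h * c⁻¹) * c⁻¹) (c := h * c⁻¹) (by
          calc c * ((c * h * c⁻¹) * c⁻¹) = c * (c * h * c⁻¹) * c⁻¹ := by group
            _ = c * h * c⁻¹ := h2
            _ = c * (h * c⁻¹) := by group)
        exact mul_right_cancel this
      rwa [h3] at hu
  have hinvert : ∀ x ∈ normalizer (Q : Set G), x ∉ centralizer (Q : Set G) → ∀ c ∈ centralizer (Q : Set G),
      x * c * x⁻¹ = c⁻¹ := by
    intro x hx hxc c hc
    have h1 : x * c ∈ normalizer (Q : Set G) := mul_mem hx (hCN hc)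
    have h2 : x * c ∉ centralizer (Q : Set G) := by
      intro h
      apply hxc
      have := mul_mem h (inv_mem hc)
      simpa using this
    have h3 := hinv _ h1 h2
    have h4 := hinv _ hx hxc
    have h5 : x⁻¹ = x := inv_eq_of_mul_eq_one_left h4
    rw [h5]
    calc x * c * x = (x * c * x * c) * c⁻¹ := by group
      _ = (x * c * (x * c)) * c⁻¹ := by group
      _ = c⁻¹ := by rw [h3, one_mul]
  refine ⟨?_, ?_⟩
  · intro a ha b hb
    have h1 := hinvert z hzQN hzQC a ha
    have h2 := hinvert z hzQN hzQC b hb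
    have h3 := hinvert z hzQN hzQC (a * b) (mul_mem ha hb)
    have h4 : z * (a * b) * z⁻¹ = (z * a * z⁻¹) * (z * b * z⁻¹) := by group
    rw [h4, h1, h2] at h3
    have h5 : a⁻¹ * b⁻¹ = (b * a)⁻¹ := by group
    rw [h5] at h3
    have h6 : (a * b)⁻¹ = (a * b)⁻¹ := rfl
    have h7 := inv_injective h3
    exact h7.symm
  · intro x hx hxc
    refine ⟨?_, hinvert x hx hxc⟩
    have h1 := hinv x hx hxc
    refine orderOf_eq_prime (by rw [pow_two]; exact h1) ?_
    intro h
    apply hxc
    rw [h]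
    exact one_mem _

theorem fwd (hp2 : p ≠ 2) (hL : LHS p G) (P : Sylow p G) :
    IsCyclic P ∧
      (Subgroup.normalizer ((P : Subgroup G) : Set G) = Subgroup.centralizer ((P : Subgroup G) : Set G) ∨
       ((Subgroup.centralizer ((P : Subgroup G) : Set G)).relIndex (Subgroup.normalizer ((P : Subgroup G) : Set G)) = 2 ∧
        ∀ Q : Subgroup G, Q ≤ P → Nat.card Q = p →
          IsMulCommutative ↥(Subgroup.centralizer (Q : Set G)) ∧
          ∀ x : G, x ∈ Subgroup.normalizer (Q : Set G) → x ∉ Subgroup.centralizer (Q : Set G) →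
            orderOf x = 2 ∧ ∀ c : G, c ∈ Subgroup.centralizer (Q : Set G) → x * c * x⁻¹ = c⁻¹)) := by
  refine ⟨fwd_cyclic hp2 hL P, ?_⟩
  have hPp : IsPGroup p (P : Subgroup G) := P.isPGroup'
  have hCN : centralizer ((P : Subgroup G) : Set G) ≤ normalizer ((P : Subgroup G) : Set G) := by
    intro c hc
    rw [Subgroup.mem_normalizer_iff]
    intro h
    have hh : ∀ u ∈ (P : Subgroup G), c * u * c⁻¹ = u := by
      intro u hu
      rw [← Subgroup.mem_centralizer_iff.1 hc u hu]
      group
    constructor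
    · intro hu
      rwa [hh h hu]
    · intro hu
      have h2 := hh _ hu
      have h3 : c * h * c⁻¹ = h := by
        have := mul_left_cancel (a := c) (b := (c * h * c⁻¹) * c⁻¹) (c := h * c⁻¹) (by
          calc c * ((c * h * c⁻¹) * c⁻¹) = c * (c * h * c⁻¹) * c⁻¹ := by group
            _ = c * h * c⁻¹ := h2
            _ = c * (h * c⁻¹) := by group)
        exact mul_right_cancel this
      rwa [h3] at hu
  by_cases heq : normalizer ((P : Subgroup G) : Set G) = centralizer ((P : Subgroup G) : Set G)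
  · left; exact heq
  right
  obtain ⟨z, hzN, hzC⟩ : ∃ z ∈ normalizer ((P : Subgroup G) : Set G), z ∉ centralizer ((P : Subgroup G) : Set G) := by
    by_contra hno
    push Not at hno
    exact heq (le_antisymm (fun y hy => hno y hy) hCN)
  constructor
  · -- the index
    obtain ⟨hz2, hzi⟩ := inv_of_not_cent hp2 hL _ hPp z hzN hzC
    show ((centralizer ((P : Subgroup G) : Set G)).subgroupOf (normalizer ((P : Subgroup G) : Set G))).index = 2
    rw [Subgroup.index_eq_two_iff]
    refine ⟨⟨z, hzN⟩, ?_⟩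
    rintro ⟨b, hb⟩
    rw [Subgroup.mem_subgroupOf, Subgroup.mem_subgroupOf]
    show Xor' (b * z ∈ _) (b ∈ _)
    by_cases hbC : b ∈ centralizer ((P : Subgroup G) : Set G)
    · right
      refine ⟨hbC, ?_⟩
      intro h
      apply hzC
      have := mul_mem (inv_mem hbC) h
      simpa using this
    · left
      refine ⟨?_, hbC⟩
      obtain ⟨hb2, hbi⟩ := inv_of_not_cent hp2 hL _ hPp b hb hbC
      rw [Subgroup.mem_centralizer_iff]
      intro q hq
      have h1 := hzi q hq
      have h2 := hbi (q⁻¹) (inv_mem hq)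
      have h3 : b * z * q * (b * z)⁻¹ = q := by
        calc b * z * q * (b * z)⁻¹ = b * (z * q * z⁻¹) * b⁻¹ := by group
          _ = b * q⁻¹ * b⁻¹ := by rw [h1]
          _ = q := by rw [h2]; group
      calc q * (b * z) = (b * z * q * (b * z)⁻¹) * (b * z) := by rw [h3]
        _ = b * z * q := by group
  · intro Q hQP hQc
    obtain ⟨h1, h2⟩ := fwd_cl hp2 hL _ Q hPp hQP hQc z hzN hzC
    refine ⟨⟨⟨fun a b => Subtype.ext (h1 a a.2 b b.2)⟩⟩, h2⟩

theorem exists_omega {T : Type*} [Group T] [Finite T] [hT : IsCyclic T] (hd : p ∣ Nat.card T) :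
    ∃ K : Subgroup T, Nat.card K = p ∧ ∀ t : T, t ^ p = 1 → t ∈ K := by
  classical
  have := Fintype.ofFinite T
  obtain ⟨K, hK⟩ := Sylow.exists_subgroup_card_pow_prime (G := T) p (n := 1) (by rw [pow_one]; exact hd)
  rw [pow_one] at hK
  refine ⟨K, hK, ?_⟩
  let F : Finset T := Finset.univ.filter (fun t : T => t ^ p = 1)
  have hF : F.card ≤ p := IsCyclic.card_pow_eq_one_le hp.out.pos
  have hsub : (K : Set T) ⊆ (F : Set T) := by
    intro k hk
    have h1 : (⟨k, hk⟩ : K) ^ Nat.card K = 1 := pow_card_eq_one'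
    rw [hK] at h1
    have h2 : k ^ p = 1 := congrArg Subtype.val h1
    simp [F, h2]
  have heq : (K : Set T) = (F : Set T) := by
    refine Set.eq_of_subset_of_ncard_le hsub ?_ (Set.toFinite _)
    rw [Set.ncard_coe_finset, ← Nat.card_coe_set_eq (K : Set T)]
    change _ ≤ Nat.card K
    omega
  intro t ht
  have h3 : t ∈ (F : Set T) := by simp [F, ht]
  rw [← heq] at h3
  exact h3

theorem cl_of_conj (φ : MulAut G) (Q : Subgroup G) (h : CL (Q.map φ.toMonoidHom)) : CL Q := by
  have h1 : ∀ a ∈ centralizer (Q : Set G), φ a ∈ centralizer ((Q.map φ.toMonoidHom : Subgroup G) : Set G) := by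
    intro a ha
    rw [Subgroup.mem_centralizer_iff]
    rintro _ ⟨q, hq, rfl⟩
    show φ q * φ a = φ a * φ q
    rw [← map_mul, ← map_mul, Subgroup.mem_centralizer_iff.1 ha q hq]
  have h2 : ∀ a, φ a ∈ centralizer ((Q.map φ.toMonoidHom : Subgroup G) : Set G) → a ∈ centralizer (Q : Set G) := by
    intro a ha
    rw [Subgroup.mem_centralizer_iff]
    intro q hq
    have h3 := Subgroup.mem_centralizer_iff.1 ha (φ q) ⟨q, hq, rfl⟩
    rw [← map_mul, ← map_mul] at h3
    exact φ.injective h3
  have h3 : ∀ a ∈ normalizer (Q : Set G), φ a ∈ normalizer ((Q.map φ.toMonoidHom : Subgroup G) : Set G) := by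
    intro a ha
    rw [← Subgroup.map_equiv_normalizer_eq]
    exact ⟨a, ha, rfl⟩
  refine ⟨?_, ?_⟩
  · intro a ha b hb
    have h4 := h.1 _ (h1 a ha) _ (h1 b hb)
    rw [← map_mul, ← map_mul] at h4
    exact φ.injective h4
  · intro x hx hxc
    obtain ⟨h4, h5⟩ := h.2 (φ x) (h3 x hx) (fun hh => hxc (h2 x hh))
    refine ⟨?_, ?_⟩
    · rw [← h4]
      exact (orderOf_injective φ.toMonoidHom φ.injective x).symm
    · intro c hc
      have h6 := h5 (φ c) (h1 c hc)
      rw [← map_inv, ← map_mul, ← map_inv, ← map_mul] at h6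
      exact φ.injective h6

theorem bwd (hp2 : p ≠ 2) (P : Sylow p G) (hcyc : IsCyclic P)
    (hcase : (Subgroup.normalizer ((P : Subgroup G) : Set G) = Subgroup.centralizer ((P : Subgroup G) : Set G) ∨
       ((Subgroup.centralizer ((P : Subgroup G) : Set G)).relIndex (Subgroup.normalizer ((P : Subgroup G) : Set G)) = 2 ∧
        ∀ Q : Subgroup G, Q ≤ P → Nat.card Q = p →
          IsMulCommutative ↥(Subgroup.centralizer (Q : Set G)) ∧
          ∀ x : G, x ∈ Subgroup.normalizer (Q : Set G) → x ∉ Subgroup.centralizer (Q : Set G) →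
            orderOf x = 2 ∧ ∀ c : G, c ∈ Subgroup.centralizer (Q : Set G) → x * c * x⁻¹ = c⁻¹))) :
    LHS p G := by
  intro H h1 h2
  obtain ⟨S⟩ : Nonempty (Sylow p H) := inferInstance
  have hn := h1 S
  have hc : IsCyclic (H ⧸ (S : Subgroup H)) := h2 S
  obtain ⟨x, hcard, hodd, hgen⟩ := exists_gen S hn hc
  have hT : IsPGroup p ((S : Subgroup H).map H.subtype) := S.isPGroup'.map _
  obtain ⟨Q₀, hQ₀⟩ := hT.exists_le_sylow
  let ψ : (S : Subgroup H) →* (Q₀ : Subgroup G) :=
    (H.subtype.comp (S : Subgroup H).subtype).codRestrict (Q₀ : Subgroup G)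
      (fun s => hQ₀ ⟨s.1, s.2, rfl⟩)
  have hψ : Function.Injective ψ := by
    intro u v huv
    apply Subtype.ext
    apply Subtype.ext
    have := congrArg Subtype.val huv
    exact this
  have hQ₀c : IsCyclic (Q₀ : Subgroup G) :=
    isCyclic_of_injective (Sylow.equiv Q₀ P).toMonoidHom (Sylow.equiv Q₀ P).injective
  have hScyc : IsCyclic (S : Subgroup H) := isCyclic_of_injective ψ hψ
  obtain ⟨m, hm⟩ := IsPGroup.iff_card.1 S.isPGroup'
  have hcop : Nat.Coprime (Nat.card (S : Subgroup H)) (orderOf x) := by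
    rw [hm]
    exact Nat.Coprime.pow_left m hodd.symm
  by_cases hcomm : ∀ s ∈ (S : Subgroup H), s * x = x * s
  · left
    exact cyclic_of_comm_gen (S : Subgroup H) x hcomm hcop hgen
  right
  rcases hcase with hNC | ⟨-, hcl⟩
  · exfalso
    apply hcomm
    intro s hs
    have hPle : normalizer ((P : Subgroup G) : Set G) ≤ centralizer ((P : Subgroup G) : Set G) := hNC.le
    let f := MonoidHom.transferSylow P hPle
    let c : G := (s : G) * (x : G) * (s : G)⁻¹ * (x : G)⁻¹
    have hcker : c ∈ f.ker := by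
      rw [MonoidHom.mem_ker]
      have h3 : f c = f s * f x * (f s)⁻¹ * (f x)⁻¹ := by
        simp only [c, map_mul, map_inv]
      rw [h3, cyclic_comm hcyc (f s) (f x)]
      group
    have hcT : c ∈ (S : Subgroup H).map H.subtype := by
      have h3 : s * (x * s⁻¹ * x⁻¹) ∈ (S : Subgroup H) :=
        mul_mem hs (hn.conj_mem _ (inv_mem hs) x)
      refine ⟨_, h3, ?_⟩
      show (s : G) * ((x : G) * (s : G)⁻¹ * (x : G)⁻¹) = _
      simp only [c, mul_assoc]
    have hdis := MonoidHom.ker_transferSylow_disjoint P hPle _ hT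
    have hc1 : c = 1 := by
      have := Subgroup.disjoint_def.1 hdis hcker hcT
      exact this
    apply Subtype.ext
    show (s : G) * (x : G) = (x : G) * (s : G)
    have h4 : (s : G) * (x : G) * (s : G)⁻¹ * (x : G)⁻¹ = 1 := hc1
    calc (s : G) * (x : G) = ((s : G) * (x : G) * (s : G)⁻¹ * (x : G)⁻¹) * ((x : G) * (s : G)) := by group
      _ = (x : G) * (s : G) := by rw [h4, one_mul]
  · -- the involution case
    let T : Subgroup G := (S : Subgroup H).map H.subtype
    have hTcard : Nat.card T = Nat.card (S : Subgroup H) :=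
      Nat.card_congr ((S : Subgroup H).equivMapOfInjective _ H.subtype_injective).symm.toEquiv
    have hTcyc : IsCyclic T :=
      isCyclic_of_injective ((S : Subgroup H).equivMapOfInjective _ H.subtype_injective).symm.toMonoidHom
        ((S : Subgroup H).equivMapOfInjective _ H.subtype_injective).symm.injective
    have hdvd : p ∣ Nat.card T := by
      rw [hTcard, hm]
      cases m with
      | zero =>
        exfalso
        apply hcomm
        intro s hs
        have h3 : Nat.card (S : Subgroup H) = 1 := by rw [hm]; rfl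
        have h4 : (⟨s, hs⟩ : (S : Subgroup H)) = 1 := by
          have : Subsingleton (S : Subgroup H) := (Nat.card_eq_one_iff_unique.1 h3).1
          exact Subsingleton.elim _ _
        have h5 : s = 1 := congrArg Subtype.val h4
        rw [h5]
        group
      | succ m => exact dvd_pow_self _ (by omega)
    obtain ⟨K, hK, hKo⟩ := exists_omega hdvd
    let Q₁ : Subgroup G := K.map T.subtype
    have hQ₁T : Q₁ ≤ T := Subgroup.map_subtype_le _
    have hQ₁c : Nat.card Q₁ = p := by
      rw [← hK]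
      exact Nat.card_congr (K.equivMapOfInjective _ T.subtype_injective).symm.toEquiv
    have hQ₁o : ∀ t ∈ T, t ^ p = 1 → t ∈ Q₁ := by
      intro t ht htp
      exact ⟨⟨t, ht⟩, hKo _ (Subtype.ext htp), rfl⟩
    have hQ₁p : IsPGroup p Q₁ := IsPGroup.of_card (n := 1) (by rw [hQ₁c, pow_one])
    have hCL : CL Q₁ := by
      obtain ⟨Q', hQ'⟩ := hQ₁p.exists_le_sylow
      obtain ⟨g, hg⟩ := MulAction.exists_smul_eq G Q' P
      let φ : MulAut G := MulAut.conj g
      refine cl_of_conj φ Q₁ ?_
      have hle : Q₁.map φ.toMonoidHom ≤ P := by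
        rintro _ ⟨k, hk, rfl⟩
        rw [← hg]
        exact Subgroup.mem_map_of_mem _ (hQ' hk)
      have hcd : Nat.card (Q₁.map φ.toMonoidHom) = p := by
        rw [← hQ₁c]
        exact Nat.card_congr (Q₁.equivMapOfInjective _ φ.injective).symm.toEquiv
      obtain ⟨h3, h4⟩ := hcl _ hle hcd
      refine ⟨?_, h4⟩
      intro a ha b hb
      have := h3.1.1 ⟨a, ha⟩ ⟨b, hb⟩
      exact congrArg Subtype.val this
    have hxT : ∀ t ∈ T, (x : G) * t * (x : G)⁻¹ ∈ T := by
      rintro _ ⟨s, hs, rfl⟩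
      exact ⟨x * s * x⁻¹, hn.conj_mem s hs x, rfl⟩
    have hxT' : ∀ t ∈ T, (x : G)⁻¹ * t * (x : G) ∈ T := by
      rintro _ ⟨s, hs, rfl⟩
      refine ⟨x⁻¹ * s * x, ?_, rfl⟩
      have h3 := hn.conj_mem s hs x⁻¹
      rw [inv_inv] at h3
      exact h3
    have hq1p : ∀ q ∈ Q₁, q ^ p = 1 := by
      intro q hq
      have h3 : (⟨q, hq⟩ : Q₁) ^ Nat.card Q₁ = 1 := pow_card_eq_one'
      rw [hQ₁c] at h3
      exact congrArg Subtype.val h3
    have hxN : (x : G) ∈ normalizer (Q₁ : Set G) := by
      rw [Subgroup.mem_normalizer_iff]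
      intro h
      constructor
      · intro hh
        refine hQ₁o _ (hxT _ (hQ₁T hh)) ?_
        rw [conj_pow, hq1p h hh]
        group
      · intro hh
        have h3 : h = (x : G)⁻¹ * ((x : G) * h * (x : G)⁻¹) * (x : G) := by group
        rw [h3]
        refine hQ₁o _ (hxT' _ (hQ₁T hh)) ?_
        have h5 := hq1p _ hh
        have h6 : ((x : G)⁻¹ * ((x : G) * h * (x : G)⁻¹) * (x : G)) ^ p = (x : G)⁻¹ * ((x : G) * h * (x : G)⁻¹) ^ p * (x : G) := by
          have := conj_pow (a := (x : G)⁻¹) (b := (x : G) * h * (x : G)⁻¹) (i := p)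
          simpa using this
        rw [h6, h5]
        group
    have hTcomm : ∀ a ∈ T, ∀ b ∈ T, a * b = b * a := by
      intro a ha b hb
      have := cyclic_comm hTcyc ⟨a, ha⟩ ⟨b, hb⟩
      exact congrArg Subtype.val this
    have hTC : T ≤ centralizer (Q₁ : Set G) := by
      intro t ht
      rw [Subgroup.mem_centralizer_iff]
      intro q hq
      exact hTcomm _ (hQ₁T hq) _ ht
    by_cases hxc : (x : G) ∈ centralizer (Q₁ : Set G)
    · exfalso
      apply hcomm
      intro s hs
      apply Subtype.ext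
      exact hCL.1 _ (hTC ⟨s, hs, rfl⟩) _ hxc
    · obtain ⟨hord, hinv⟩ := hCL.2 _ hxN hxc
      have hord' : orderOf x = 2 := by
        rw [← hord]
        exact (Subgroup.orderOf_coe x).symm
      obtain ⟨⟨a, haS⟩, hgena⟩ := hScyc.exists_generator
      have horda : orderOf a = p ^ m := by
        have h3 : orderOf (⟨a, haS⟩ : (S : Subgroup H)) = Nat.card (S : Subgroup H) :=
          orderOf_eq_card_of_forall_mem_zpowers hgena
        rw [Subgroup.orderOf_mk] at h3
        rw [h3, hm]
      have : NeZero (p ^ m) := ⟨pow_ne_zero _ hp.out.ne_zero⟩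
      refine ⟨m, Cfsg.Agent.Lib.Dihedral.nonempty_mulEquiv_dihedral (p ^ m) a x horda ?_ ?_ ?_ ?_⟩
      · rw [← hord', pow_orderOf_eq_one]
      · apply Subtype.ext
        exact hinv _ (hTC ⟨a, haS, rfl⟩)
      · intro hmem
        have h3 : zpowers a ≤ (S : Subgroup H) := by
          rw [zpowers_le]
          exact haS
        have h4 := odd_of_pgroup hp2 S.isPGroup' (h3 hmem)
        rw [hord'] at h4
        exact (Nat.not_odd_iff_even.2 even_two) h4
      · rw [← hcard, hord', hm, mul_comm]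

end H6Main

/-- Let p be an odd prime and G a finite group with Sylow p-subgroup P. Say that G has restricted p-by-cyclic subgroups when every subgroup H of G whose Sylow p-subgroup is normal in H with cyclic quotient is itself cyclic or dihedral of order 2pⁿ for some n. Then G has restricted p-by-cyclic subgroups if and only if P is cyclic and one of the following holds: (1) N_G(P) = C_G(P); or (2) N_G(P)/C_G(P) has order 2 and, for the subgroup Q of order p of P, the centralizer C_G(Q) is abelian and every element of N_G(Q) outside C_G(Q) is an involution inverting every element of C_G(Q). -/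
theorem result {G : Type*} [Group G] [Finite G] {p : ℕ}
    [Fact p.Prime] (hp : p ≠ 2) (P : Sylow p G) :
    (∀ H : Subgroup G, (∀ S : Sylow p ↥H, (S : Subgroup ↥H).Normal) →
        (∀ (S : Sylow p ↥H) [(S : Subgroup ↥H).Normal], IsCyclic (↥H ⧸ (S : Subgroup ↥H))) →
        IsCyclic H ∨ (∃ n : ℕ, Nonempty (H ≃* DihedralGroup (p ^ n)))) ↔
    (IsCyclic P ∧
      (Subgroup.normalizer ((P : Subgroup G) : Set G) = Subgroup.centralizer ((P : Subgroup G) : Set G) ∨
       ((Subgroup.centralizer ((P : Subgroup G) : Set G)).relIndex (Subgroup.normalizer ((P : Subgroup G) : Set G)) = 2 ∧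
        ∀ Q : Subgroup G, Q ≤ P → Nat.card Q = p →
          IsMulCommutative ↥(Subgroup.centralizer (Q : Set G)) ∧
          ∀ x : G, x ∈ Subgroup.normalizer (Q : Set G) → x ∉ Subgroup.centralizer (Q : Set G) →
            orderOf x = 2 ∧ ∀ c : G, c ∈ Subgroup.centralizer (Q : Set G) → x * c * x⁻¹ = c⁻¹))) := by
  exact ⟨fun hL => fwd hp hL P, fun hR => bwd hp P hR.1 hR.2⟩

end Cfsg.Agent.S4082
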