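import Mathlib
import Cfsg.Statements.S4083
import Cfsg.Agent.Lib.H6Restr
import Cfsg.Agent.Lib.H6DihSub
import Cfsg.Agent.S0228
import Cfsg.Agent.Lib.AutTwoGroup
-- import your own Cfsg.Agent.* helpers here

set_option autoImplicit false
open Cfsg

namespace Cfsg.Agent.S4083


set_option autoImplicit false
set_option linter.all false

section H6Main

open Subgroup Cfsg.Agent.Lib.H6Restr Cfsg.Agent.Lib.H6DihSub

theorem not_cyclic_klein {T : Type*} [Group T] [Finite T] (hc : Nat.card T = 4)
    (h2 : ∀ t : T, t ^ 2 = 1) : ¬ IsCyclic T := by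
  intro h
  obtain ⟨g, hg⟩ := h.exists_generator
  have h1 := orderOf_eq_card_of_forall_mem_zpowers hg
  rw [hc] at h1
  have h3 := orderOf_dvd_of_pow_eq_one (h2 g)
  rw [h1] at h3
  norm_num at h3

theorem a4_not_comm : ¬ ∀ a b : alternatingGroup (Fin 4), a * b = b * a := by
  decide +kernel

/-- The left-hand side of the statement. -/
def LHS (G : Type*) [Group G] : Prop :=
  ∀ H : Subgroup G, (∀ S : Sylow 2 ↥H, (S : Subgroup ↥H).Normal) →
        (∀ (S : Sylow 2 ↥H) [(S : Subgroup ↥H).Normal], IsCyclic (↥H ⧸ (S : Subgroup ↥H))) →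
        IsCyclic H ∨ (∃ n : ℕ, Nonempty (H ≃* DihedralGroup (2 ^ n))) ∨ Nonempty (H ≃* alternatingGroup (Fin 4))

variable {G : Type*} [Group G] [Finite G]

theorem apply_lhs (hL : LHS G) (H : Subgroup G) (Q : Subgroup H) (hQn : Q.Normal) (hQp : IsPGroup 2 Q)
    (hQc : IsCyclic (H ⧸ Q)) :
    IsCyclic H ∨ (∃ n : ℕ, Nonempty (H ≃* DihedralGroup (2 ^ n))) ∨ Nonempty (H ≃* alternatingGroup (Fin 4)) :=
  hL H (fun S => sylow_normal_of_cyclic_quot Q hQn hQp hQc S)
    (fun S _ => cyclic_quot_of_le Q S hQc (le_sylow_of_normal Q hQn hQp S))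

theorem odd_elt_trivial (hL : LHS G) (K : Subgroup G) (hK : Nat.card K = 4) (hK2 : ∀ k ∈ K, k ^ 2 = 1)
    (y : G) (hy : ∀ k ∈ K, k * y = y * k) (hodd : Odd (orderOf y)) : y = 1 := by
  have hyN : y ∈ normalizer (K : Set G) := by
    rw [Subgroup.mem_normalizer_iff]
    intro k
    have h1 : ∀ k ∈ K, y * k * y⁻¹ = k := by
      intro k hk
      rw [← hy k hk]
      group
    constructor
    · intro hk
      rw [h1 k hk]
      exact hk
    · intro hk
      have h2 := h1 _ hk
      have h3 : y * k * y⁻¹ = k := by
        by_cases hk' : k ∈ K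
        · exact h1 k hk'
        · exfalso
          apply hk'
          have h4 : y * (y * k * y⁻¹) * y⁻¹ = y * k * y⁻¹ := h2
          have h5 : y * k * y⁻¹ = k := by
            have h6 := mul_left_cancel (a := y) (b := (y * k * y⁻¹) * y⁻¹) (c := k * y⁻¹) (by
              calc y * ((y * k * y⁻¹) * y⁻¹) = y * (y * k * y⁻¹) * y⁻¹ := by group
                _ = y * k * y⁻¹ := h4
                _ = y * (k * y⁻¹) := by group)
            exact mul_right_cancel h6
          rw [h5] at hk
          exact hk
      rw [h3] at hk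
      exact hk
  let H := K ⊔ zpowers y
  have hKH : K ≤ H := le_sup_left
  let Q : Subgroup H := K.subgroupOf H
  have hQn : Q.Normal := sup_zpowers_normal K y hyN
  have hQc : IsCyclic (H ⧸ Q) := sup_zpowers_cyclic K y
  have hQcard : Nat.card Q = 4 := by
    rw [← hK]
    exact Nat.card_congr (Subgroup.subgroupOfEquivOfLe hKH).toEquiv
  have hQp : IsPGroup 2 Q := IsPGroup.of_card (n := 2) (by rw [hQcard]; norm_num)
  let y' : H := ⟨y, (le_sup_right : zpowers y ≤ K ⊔ zpowers y) (mem_zpowers y)⟩
  have hordy : orderOf y' = orderOf y := Subgroup.orderOf_mk _ _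
  have hone : orderOf y = 1 → y = 1 := orderOf_eq_one_iff.1
  rcases apply_lhs hL H Q hQn hQp hQc with hc | ⟨n, ⟨e⟩⟩ | ⟨⟨e⟩⟩
  · exfalso
    have hQcyc : IsCyclic Q := inferInstance
    refine not_cyclic_klein hQcard ?_ hQcyc
    rintro ⟨⟨k, hkH⟩, hk⟩
    apply Subtype.ext
    apply Subtype.ext
    exact hK2 k hk
  · apply hone
    have h1 : orderOf y ∣ 2 ^ (n + 1) := by
      rw [← hordy]
      have h2 := orderOf_dvd_natCard y'
      rw [Nat.card_congr e.toEquiv, DihedralGroup.nat_card] at h2
      rwa [pow_succ']
    obtain ⟨m, -, hm⟩ := (Nat.dvd_prime_pow Nat.prime_two).1 h1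
    rw [hm] at hodd
    cases m with
    | zero => simpa using hm
    | succ m =>
      exfalso
      rw [pow_succ] at hodd
      exact (Nat.not_odd_iff_even.2 (even_two.mul_left _)) hodd
  · exfalso
    apply a4_not_comm
    have hcm : ∀ a b : H, a * b = b * a := by
      -- every element commutes with K and y
      have h1 : ∀ h : H, ∀ k ∈ K, k * (h : G) = h * k := by
        intro h k hk
        have h2 : H ≤ centralizer ({k} : Set G) := by
          refine sup_le ?_ ?_
          · intro a ha
            rw [Subgroup.mem_centralizer_singleton_iff]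
            exact comm_of_sq K hK2 ha hk
          · rw [zpowers_le, Subgroup.mem_centralizer_singleton_iff]
            exact (hy k hk).symm
        have h3 := h2 h.2
        rw [Subgroup.mem_centralizer_singleton_iff] at h3
        exact h3.symm
      have h1' : ∀ h : H, y * (h : G) = h * y := by
        intro h
        have h2 : H ≤ centralizer ({y} : Set G) := by
          refine sup_le ?_ ?_
          · intro a ha
            rw [Subgroup.mem_centralizer_singleton_iff]
            exact hy a ha
          · rw [zpowers_le, Subgroup.mem_centralizer_singleton_iff]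
        have h3 := h2 h.2
        rw [Subgroup.mem_centralizer_singleton_iff] at h3
        exact h3.symm
      intro a b
      have h2 : H ≤ centralizer ({(a : G)} : Set G) := by
        refine sup_le ?_ ?_
        · intro k hk
          rw [Subgroup.mem_centralizer_singleton_iff]
          exact h1 a k hk
        · rw [zpowers_le, Subgroup.mem_centralizer_singleton_iff]
          exact h1' a
      have h3 := h2 b.2
      rw [Subgroup.mem_centralizer_singleton_iff] at h3
      exact Subtype.ext h3.symm
    intro a b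
    have := hcm (e.symm a) (e.symm b)
    have h5 := congrArg e this
    simpa using h5

theorem centralizer_isPGroup (hL : LHS G) (K : Subgroup G) (hK : Nat.card K = 4)
    (hK2 : ∀ k ∈ K, k ^ 2 = 1) : IsPGroup 2 (centralizer (K : Set G)) := by
  rw [IsPGroup.iff_orderOf]
  rintro ⟨x, hx⟩
  rw [Subgroup.orderOf_mk]
  obtain ⟨a, m, hm, hord⟩ := Nat.exists_eq_two_pow_mul_odd (orderOf_pos x).ne'
  have hy : ∀ k ∈ K, k * x ^ 2 ^ a = x ^ 2 ^ a * k := by
    intro k hk
    have h1 : Commute k x := (Subgroup.mem_centralizer_iff.1 hx) k hk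
    exact (h1.pow_right _).eq
  have hordy : orderOf (x ^ 2 ^ a) = m := by
    rw [orderOf_pow_of_dvd (by positivity) (by rw [hord]; exact dvd_mul_right _ _), hord]
    exact Nat.mul_div_cancel_left _ (by positivity)
  have h1 := odd_elt_trivial hL K hK hK2 (x ^ 2 ^ a) hy (by rw [hordy]; exact hm)
  rw [h1, orderOf_one] at hordy
  refine ⟨a, ?_⟩
  rw [hord, ← hordy, mul_one]

theorem fwd_klein (hL : LHS G) (P : Sylow 2 G) {n : ℕ} (e : (P : Subgroup G) ≃* DihedralGroup (2 ^ n))
    (K : Subgroup G) (hK : Nat.card K = 4) (hK2 : ∀ k ∈ K, k ^ 2 = 1) :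
    centralizer (K : Set G) = K := by
  refine le_antisymm ?_ ?_
  · have hC := centralizer_isPGroup hL K hK hK2
    obtain ⟨Q, hQ⟩ := hC.exists_le_sylow
    have hKC : K ≤ centralizer (K : Set G) := by
      intro k hk
      rw [Subgroup.mem_centralizer_iff]
      intro h hh
      exact comm_of_sq K hK2 hh hk
    have hKQ : K ≤ Q := hKC.trans hQ
    let e' : (Q : Subgroup G) ≃* DihedralGroup (2 ^ n) := (Sylow.equiv Q P).trans e
    let K' : Subgroup (DihedralGroup (2 ^ n)) := (K.subgroupOf (Q : Subgroup G)).map e'.toMonoidHom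
    have hK'c : Nat.card K' = 4 := by
      rw [← hK]
      have h1 : Nat.card K' = Nat.card (K.subgroupOf (Q : Subgroup G)) :=
        Nat.card_congr ((K.subgroupOf (Q : Subgroup G)).equivMapOfInjective _ e'.injective).symm.toEquiv
      rw [h1]
      exact Nat.card_congr (Subgroup.subgroupOfEquivOfLe hKQ).toEquiv
    have hK'2 : ∀ k ∈ K', k ^ 2 = 1 := by
      rintro _ ⟨u, hu, rfl⟩
      have h2 : u ^ 2 = 1 := Subtype.ext (hK2 _ hu)
      show e' u ^ 2 = 1
      rw [← map_pow, h2, map_one]
    intro x hx
    have hxQ : x ∈ (Q : Subgroup G) := hQ hx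
    have h3 : e' ⟨x, hxQ⟩ ∈ K' := by
      refine klein_mem K' hK'c hK'2 _ ?_
      rintro _ ⟨u, hu, rfl⟩
      show e' ⟨x, hxQ⟩ * e' u = e' u * e' ⟨x, hxQ⟩
      rw [← map_mul, ← map_mul]
      congr 1
      apply Subtype.ext
      exact ((Subgroup.mem_centralizer_iff.1 hx) _ hu).symm
    obtain ⟨v, hv, hve⟩ := h3
    have h4 : v = ⟨x, hxQ⟩ := e'.injective hve
    rw [h4] at hv
    exact hv
  · intro k hk
    rw [Subgroup.mem_centralizer_iff]
    intro h hh
    exact comm_of_sq K hK2 hh hk

theorem d2_sq : ∀ a : DihedralGroup (2 ^ 1), a ^ 2 = 1 := by decide +kernel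

theorem d2_four : ∀ a b c : DihedralGroup (2 ^ 1), a ≠ 1 → b ≠ 1 → a ≠ b → c = 1 ∨ c = a ∨ c = b ∨ c = a * b := by
  decide +kernel

/-- coprime orders of an element. -/
theorem eq_one_of_coprime_pow {T : Type*} [Group T] (c : T) {a b : ℕ} (ha : c ^ a = 1) (hb : c ^ b = 1)
    (hab : Nat.Coprime a b) : c = 1 := by
  have h1 := Nat.dvd_gcd (orderOf_dvd_of_pow_eq_one ha) (orderOf_dvd_of_pow_eq_one hb)
  rw [hab] at h1
  exact orderOf_eq_one_iff.1 (Nat.dvd_one.1 h1)

section H
variable {H : Type*} [Group H] [Finite H]

theorem comm_of_conjNormal {S : Subgroup H} [hn : S.Normal] (x : H) (h : MulAut.conjNormal x = (1 : MulAut S)) :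
    ∀ s ∈ S, s * x = x * s := by
  intro s hs
  have h1 := congrArg (fun f : MulAut S => ((f ⟨s, hs⟩ : S) : H)) h
  simp only [MulAut.conjNormal_apply, MulAut.one_apply] at h1
  calc s * x = x * s * x⁻¹ * x := by rw [h1]
    _ = x * s := by group

theorem cyclic_case (S : Sylow 2 H) (hn : (S : Subgroup H).Normal) (hSc : IsCyclic (S : Subgroup H)) (x : H)
    (hodd : Nat.Coprime (orderOf x) 2) (hgen : ∀ h : H, ∃ s ∈ (S : Subgroup H), ∃ k : ℕ, h = s * x ^ k) :
    IsCyclic H := by
  obtain ⟨m, hm⟩ := IsPGroup.iff_card.1 S.isPGroup'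
  have hA : IsPGroup 2 (MulAut (S : Subgroup H)) := by
    rw [IsPGroup.iff_card]
    rw [IsCyclic.card_mulAut, hm]
    cases m with
    | zero => exact ⟨0, by simp⟩
    | succ m =>
      exact ⟨m, by rw [Nat.totient_prime_pow_succ Nat.prime_two]; simp⟩
  obtain ⟨t, ht⟩ := hA (MulAut.conjNormal x)
  have hc : MulAut.conjNormal x = (1 : MulAut (S : Subgroup H)) := by
    refine eq_one_of_coprime_pow _ ht (a := 2 ^ t) (b := orderOf x) ?_ ?_
    · rw [← map_pow, pow_orderOf_eq_one, map_one]
    · exact (Nat.Coprime.pow_left t hodd.symm)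
  refine cyclic_of_comm_gen (S : Subgroup H) x (comm_of_conjNormal x hc) ?_ hgen
  rw [hm]
  exact Nat.Coprime.pow_left m hodd.symm

/-- The elementary abelian subgroups of order four are self-centralizing in `H`. -/
def KleinSC (H : Type*) [Group H] : Prop :=
  ∀ K : Subgroup H, Nat.card K = 4 → (∀ k ∈ K, k ^ 2 = 1) → ∀ y, (∀ k ∈ K, y * k = k * y) → y ∈ K

theorem x_trivial_of_top (S : Sylow 2 H) (hn : (S : Subgroup H).Normal) {k : ℕ} (e : (S : Subgroup H) ≃* DihedralGroup (2 ^ k))
    (hcard : Nat.card (S : Subgroup H) * orderOf (1 : H) = Nat.card H) : Nonempty (H ≃* DihedralGroup (2 ^ k)) := by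
  have h1 : (S : Subgroup H) = ⊤ := by
    apply Subgroup.eq_top_of_card_eq
    simpa using hcard
  exact ⟨((MulEquiv.subgroupCongr h1).trans Subgroup.topEquiv).symm.trans e⟩

theorem exists_klein_dih (k : ℕ) (hk : 1 ≤ k) : ∃ K : Subgroup (DihedralGroup (2 ^ k)),
    Nat.card K = 4 ∧ ∀ u ∈ K, u ^ 2 = 1 := by
  open DihedralGroup in
  have hz2 : ((2 ^ (k - 1) : ℕ) : ZMod (2 ^ k)) + ((2 ^ (k - 1) : ℕ) : ZMod (2 ^ k)) = 0 := by
    have h1 : (2 ^ (k - 1) : ℕ) + (2 ^ (k - 1) : ℕ) = 2 ^ k := by
      obtain ⟨m, rfl⟩ : ∃ m, k = m + 1 := ⟨k - 1, by omega⟩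
      simp [pow_succ]
      ring
    rw [← Nat.cast_add, h1]
    exact ZMod.natCast_self _
  have hz0 : ((2 ^ (k - 1) : ℕ) : ZMod (2 ^ k)) ≠ 0 := by
    intro h
    rw [ZMod.natCast_eq_zero_iff] at h
    have h2 := Nat.le_of_dvd (by positivity) h
    have h3 : 2 ^ (k - 1) < 2 ^ k := Nat.pow_lt_pow_right (by norm_num) (by omega)
    omega
  obtain ⟨K, -, -, h3, h4⟩ := exists_klein (T := DihedralGroup (2 ^ k))
    (DihedralGroup.r ((2 ^ (k - 1) : ℕ) : ZMod (2 ^ k))) (DihedralGroup.sr 0)
    (by rw [pow_two, DihedralGroup.r_mul_r, hz2]; rfl)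
    (by rw [pow_two, DihedralGroup.sr_mul_self])
    (by
      rw [DihedralGroup.r_mul_sr, DihedralGroup.sr_mul_r, DihedralGroup.sr.injEq]
      linear_combination - hz2)
    (by
      intro h
      rw [← DihedralGroup.r_zero, DihedralGroup.r.injEq] at h
      exact hz0 h)
    (by
      intro h
      have h' : (DihedralGroup.sr 0 : DihedralGroup (2 ^ k)) = DihedralGroup.r 0 := h
      cases h')
    (by
      intro h
      exact absurd h (by simp))
  exact ⟨K, h3, h4⟩

/-- The main case analysis in `H`. -/
theorem final (S : Sylow 2 H) (hn : (S : Subgroup H).Normal) (hc : IsCyclic (H ⧸ (S : Subgroup H)))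
    (hform : IsCyclic (S : Subgroup H) ∨ ∃ k, 1 ≤ k ∧ Nonempty ((S : Subgroup H) ≃* DihedralGroup (2 ^ k)))
    (hKH : KleinSC H) :
    IsCyclic H ∨ (∃ n : ℕ, Nonempty (H ≃* DihedralGroup (2 ^ n))) ∨ Nonempty (H ≃* alternatingGroup (Fin 4)) := by
  obtain ⟨x, hcard, hodd, hgen⟩ := exists_gen S hn hc
  rcases hform with hcy | ⟨k, hk, ⟨e⟩⟩
  · left
    exact cyclic_case S hn hcy x hodd hgen
  · right
    have hx1 : x ^ 2 = 1 → x = 1 := fun h =>
      eq_one_of_coprime_pow x (pow_orderOf_eq_one x) h hodd
    by_cases hk2 : 2 ≤ k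
    · left
      refine ⟨k, ?_⟩
      have hA : IsPGroup 2 (MulAut (S : Subgroup H)) := by
        have h1 := Cfsg.Agent.Lib.AutTwoGroup.isPGroup_two_mulAut_dihedral k hk2
        exact h1.of_equiv (MulAut.congr e).symm
      obtain ⟨t, ht⟩ := hA (MulAut.conjNormal x)
      have hc' : MulAut.conjNormal x = (1 : MulAut (S : Subgroup H)) := by
        refine eq_one_of_coprime_pow _ ht (a := 2 ^ t) (b := orderOf x) ?_ ?_
        · rw [← map_pow, pow_orderOf_eq_one, map_one]
        · exact (Nat.Coprime.pow_left t hodd.symm)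
      have hcx := comm_of_conjNormal x hc'
      obtain ⟨K, hK4, hK2⟩ := exists_klein_dih k hk
      let φ : DihedralGroup (2 ^ k) →* H := (S : Subgroup H).subtype.comp e.symm.toMonoidHom
      have hφ : Function.Injective φ :=
        (Subgroup.subtype_injective _).comp e.symm.injective
      have hK'4 : Nat.card (K.map φ) = 4 := by
        rw [← hK4]
        exact Nat.card_congr (K.equivMapOfInjective φ hφ).symm.toEquiv
      have hK'2 : ∀ u ∈ K.map φ, u ^ 2 = 1 := by
        rintro _ ⟨u, hu, rfl⟩
        rw [← map_pow, hK2 u hu, map_one]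
      have hxK : x ∈ K.map φ := by
        refine hKH _ hK'4 hK'2 x ?_
        rintro _ ⟨u, hu, rfl⟩
        exact (hcx _ (e.symm u).2).symm
      have hx2 := hK'2 x hxK
      have hx := hx1 hx2
      subst hx
      exact x_trivial_of_top S hn e hcard
    · have hk1 : k = 1 := by omega
      subst hk1
      have hScard : Nat.card (S : Subgroup H) = 4 := by
        rw [Nat.card_congr e.toEquiv, DihedralGroup.nat_card]
        norm_num
      have hS2 : ∀ s ∈ (S : Subgroup H), s ^ 2 = 1 := by
        intro s hs
        have h1 := d2_sq (e ⟨s, hs⟩)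
        rw [← map_pow] at h1
        have h2 : (⟨s, hs⟩ : (S : Subgroup H)) ^ 2 = 1 := e.injective (by rw [h1, map_one])
        exact congrArg Subtype.val h2
      -- the 24th power centralizes
      have hc24 : (MulAut.conjNormal x : MulAut (S : Subgroup H)) ^ 24 = 1 := by
        have h1 : Nat.card (MulAut (S : Subgroup H)) ∣ 24 := by
          have h2 := Subgroup.card_dvd_of_injective (MulAut.toPerm (S : Subgroup H)) (fun a b h => by
            ext y
            have := congrArg (fun f : Equiv.Perm (S : Subgroup H) => f y) h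
            exact congrArg Subtype.val this)
          have h3 : Nat.card (Equiv.Perm (S : Subgroup H)) = 24 := by
            rw [Nat.card_perm, hScard]
            rfl
          rwa [h3] at h2
        obtain ⟨d, hd⟩ := h1
        rw [hd, pow_mul, pow_card_eq_one', one_pow]
      have hx24 : x ^ 24 ∈ (S : Subgroup H) := by
        refine hKH _ hScard hS2 _ ?_
        intro s hs
        have h1 : MulAut.conjNormal (x ^ 24) = (1 : MulAut (S : Subgroup H)) := by
          rw [map_pow, hc24]
        exact (comm_of_conjNormal _ h1 s hs).symm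
      have hx48 : x ^ 48 = 1 := by
        have h1 := hS2 _ hx24
        rw [← pow_mul] at h1
        exact h1
      have hdvd : orderOf x ∣ 3 := by
        have h1 := orderOf_dvd_of_pow_eq_one hx48
        have h2 : Nat.Coprime (orderOf x) 16 := Nat.Coprime.pow_right 4 hodd
        exact h2.dvd_of_dvd_mul_left (by simpa using h1)
      rcases (Nat.dvd_prime Nat.prime_three).1 hdvd with h1 | h3
      · left
        have hx := orderOf_eq_one_iff.1 h1
        subst hx
        exact ⟨1, x_trivial_of_top S hn e hcard⟩
      · right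
        have hH12 : Nat.card H = 12 := by
          rw [← hcard, hScard, h3]
        have hx3 : x * x * x = 1 := by
          have := pow_orderOf_eq_one x
          rw [h3] at this
          simpa [pow_succ] using this
        refine Cfsg.Agent.S0228.result hH12 ?_
        intro z hz hzc
        have hzcomm : ∀ g : H, g * z = z * g := fun g => Subgroup.mem_center_iff.1 hzc g
        have hzS : z ∈ (S : Subgroup H) := by
          have hnorm : (zpowers z).Normal := by
            constructor
            rintro _ ⟨i, rfl⟩ g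
            have h1 : g * z ^ i * g⁻¹ = z ^ i := by
              have h2 : Commute g (z ^ i) := ((show Commute g z from hzcomm g).zpow_right i)
              rw [h2.eq]
              group
            rw [h1]
            exact ⟨i, rfl⟩
          have hp : IsPGroup 2 (zpowers z) := by
            apply IsPGroup.of_card (n := 1)
            rw [Nat.card_zpowers, hz, pow_one]
          exact le_sylow_of_normal _ hnorm hp S (mem_zpowers z)
        have hz1 : z ≠ 1 := by
          intro h
          rw [h, orderOf_one] at hz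
          omega
        have hzz : z * z = 1 := by
          rw [← pow_two]
          exact hS2 z hzS
        -- a third element
        obtain ⟨b, hb1, hbz⟩ : ∃ b : DihedralGroup (2 ^ 1), b ≠ 1 ∧ b ≠ e ⟨z, hzS⟩ := by
          have key : ∀ a : DihedralGroup (2 ^ 1), ∃ b, b ≠ 1 ∧ b ≠ a := by decide +kernel
          exact key _
        let w' : (S : Subgroup H) := e.symm b
        let w : H := w'
        have hwS : w ∈ (S : Subgroup H) := w'.2
        have hw1 : w ≠ 1 := by
          intro h
          apply hb1
          have h1 : w' = 1 := Subtype.ext h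
          have h2 := congrArg e h1
          simpa [w'] using h2
        have hwz : w ≠ z := by
          intro h
          apply hbz
          have h1 : w' = ⟨z, hzS⟩ := Subtype.ext h
          have h2 := congrArg e h1
          simpa [w'] using h2
        have hfour : ∀ s ∈ (S : Subgroup H), s = 1 ∨ s = z ∨ s = w ∨ s = z * w := by
          intro s hs
          have hez : e ⟨z, hzS⟩ ≠ 1 := by
            intro h
            apply hz1
            have h2 := e.injective (h.trans (map_one e).symm)
            exact congrArg Subtype.val h2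
          rcases d2_four (e ⟨z, hzS⟩) b (e ⟨s, hs⟩) hez hb1 (Ne.symm hbz) with h | h | h | h
          · left
            have h2 := e.injective (h.trans (map_one e).symm)
            exact congrArg Subtype.val h2
          · right; left
            have h2 := e.injective h
            exact congrArg Subtype.val h2
          · right; right; left
            have h2 : (⟨s, hs⟩ : (S : Subgroup H)) = w' := by
              apply e.injective
              rw [h]
              simp [w']
            exact congrArg Subtype.val h2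
          · right; right; right
            have h2 : (⟨s, hs⟩ : (S : Subgroup H)) = ⟨z, hzS⟩ * w' := by
              apply e.injective
              rw [h, map_mul]
              simp [w']
            exact congrArg Subtype.val h2
        have hu : x * w * x⁻¹ ∈ (S : Subgroup H) := hn.conj_mem w hwS x
        have hxz : x * z = z * x := hzcomm x
        rcases hfour _ hu with h | h | h | h
        · apply hw1
          exact (conj_eq_one_iff).1 h
        · apply hwz
          have h2 : x * w * x⁻¹ = x * z * x⁻¹ := by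
            rw [h, hxz]
            group
          exact mul_left_cancel (mul_right_cancel h2)
        · -- `x` centralizes `S`, so it lies in `S`
          have hxw : x * w = w * x := by
            calc x * w = x * w * x⁻¹ * x := by group
              _ = w * x := by rw [h]
          have hxS : x ∈ (S : Subgroup H) := by
            refine hKH _ hScard hS2 x ?_
            intro s hs
            rcases hfour s hs with rfl | rfl | rfl | rfl
            · simp
            · exact hxz
            · exact hxw
            · rw [← mul_assoc, hxz, mul_assoc, hxw, mul_assoc]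
          have h2 := hS2 x hxS
          have h4 := orderOf_dvd_of_pow_eq_one h2
          rw [h3] at h4
          norm_num at h4
        · -- a contradiction from `x ^ 3 = 1`
          have h1 : x * w = z * w * x := by
            calc x * w = x * w * x⁻¹ * x := by group
              _ = z * w * x := by rw [h]
          have h2 : w = z * w := by
            calc w = x * x * x * w := by rw [hx3, one_mul]
              _ = x * x * (x * w) := by group
              _ = x * x * (z * w * x) := by rw [h1]
              _ = x * (x * z) * w * x := by group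
              _ = x * (z * x) * w * x := by rw [hxz]
              _ = x * z * (x * w) * x := by group
              _ = x * z * (z * w * x) * x := by rw [h1]
              _ = x * (z * z) * w * x * x := by group
              _ = (x * w) * x * x := by rw [hzz]; group
              _ = z * w * x * x * x := by rw [h1]
              _ = z * w * (x * x * x) := by group
              _ = z * w := by rw [hx3, mul_one]
          apply hz1
          exact (mul_eq_right.1 h2.symm)

end H

theorem sc_all (P : Sylow 2 G) (hP : ∀ K : Subgroup G, K ≤ P → Nat.card K = 4 → (∀ k ∈ K, k ^ 2 = 1) →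
    Subgroup.centralizer (K : Set G) = K) (K : Subgroup G) (hK : Nat.card K = 4) (hK2 : ∀ k ∈ K, k ^ 2 = 1) :
    Subgroup.centralizer (K : Set G) = K := by
  have hp : IsPGroup 2 K := IsPGroup.of_card (n := 2) (by rw [hK]; norm_num)
  obtain ⟨Q, hQ⟩ := hp.exists_le_sylow
  obtain ⟨g, hg⟩ := MulAction.exists_smul_eq G Q P
  -- conjugate by g
  let f : G →* G := (MulAut.conj g).toMonoidHom
  have hf : Function.Injective f := (MulAut.conj g).injective
  have hfg : ∀ x, f x = g * x * g⁻¹ := fun x => rfl
  have hle : K.map f ≤ P := by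
    rintro _ ⟨k, hk, rfl⟩
    rw [← hg]
    exact Subgroup.mem_map_of_mem _ (hQ hk)
  have h1 := hP (K.map f) hle
    (by rw [← hK]; exact Nat.card_congr (K.equivMapOfInjective f hf).symm.toEquiv)
    (by
      rintro _ ⟨k, hk, rfl⟩
      rw [← map_pow, hK2 k hk, map_one])
  refine le_antisymm ?_ ?_
  · intro y hy
    have hy2 : f y ∈ Subgroup.centralizer ((K.map f : Subgroup G) : Set G) := by
      rw [Subgroup.mem_centralizer_iff]
      rintro _ ⟨k, hk, rfl⟩
      rw [← map_mul, ← map_mul, (Subgroup.mem_centralizer_iff.1 hy) k hk]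
    rw [h1] at hy2
    obtain ⟨k, hk, hkf⟩ := hy2
    rw [← hf hkf]
    exact hk
  · intro k hk
    rw [Subgroup.mem_centralizer_iff]
    intro h hh
    exact comm_of_sq K hK2 hh hk

theorem bwd (P : Sylow 2 G) (hR : IsCyclic P ∨
      ((∃ n : ℕ, 1 ≤ n ∧ Nonempty ((P : Subgroup G) ≃* DihedralGroup (2 ^ n))) ∧
        ∀ K : Subgroup G, K ≤ P → Nat.card K = 4 → (∀ k ∈ K, k ^ 2 = 1) → Subgroup.centralizer (K : Set G) = K)) :
    LHS G := by
  intro H h1 h2
  obtain ⟨S⟩ : Nonempty (Sylow 2 H) := inferInstance
  have hn := h1 S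
  have hc : IsCyclic (H ⧸ (S : Subgroup H)) := h2 S
  have hT : IsPGroup 2 ((S : Subgroup H).map H.subtype) := S.isPGroup'.map _
  obtain ⟨Q, hQ⟩ := hT.exists_le_sylow
  let ψ : (S : Subgroup H) →* (Q : Subgroup G) :=
    (H.subtype.comp (S : Subgroup H).subtype).codRestrict (Q : Subgroup G)
      (fun s => hQ ⟨s.1, s.2, rfl⟩)
  have hψ : Function.Injective ψ := by
    intro u v huv
    apply Subtype.ext
    apply Subtype.ext
    have := congrArg Subtype.val huv
    exact this
  rcases hR with hcy | ⟨⟨n, hn1, ⟨e⟩⟩, hP⟩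
  · left
    obtain ⟨x, hcard, hodd, hgen⟩ := exists_gen S hn hc
    have hQc : IsCyclic (Q : Subgroup G) := isCyclic_of_injective (Sylow.equiv Q P).toMonoidHom (Sylow.equiv Q P).injective
    exact cyclic_case S hn (isCyclic_of_injective ψ hψ) x hodd hgen
  · have hall := sc_all P hP
    have hKH : KleinSC H := by
      intro K hK hK2 y hy
      have h3 := hall (K.map H.subtype)
        (by rw [← hK]; exact Nat.card_congr (K.equivMapOfInjective _ H.subtype_injective).symm.toEquiv)
        (by
          rintro _ ⟨k, hk, rfl⟩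
          rw [← map_pow, hK2 k hk, map_one])
      have h4 : (y : G) ∈ Subgroup.centralizer ((K.map H.subtype : Subgroup G) : Set G) := by
        rw [Subgroup.mem_centralizer_iff]
        rintro _ ⟨k, hk, rfl⟩
        exact (congrArg Subtype.val (hy k hk)).symm
      rw [h3] at h4
      obtain ⟨k, hk, hky⟩ := h4
      have : k = y := Subtype.ext hky
      rwa [← this]
    refine final S hn hc ?_ hKH
    let e' : (Q : Subgroup G) ≃* DihedralGroup (2 ^ n) := (Sylow.equiv Q P).trans e
    let ψ' : (S : Subgroup H) →* DihedralGroup (2 ^ n) := e'.toMonoidHom.comp ψ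
    have hψ' : Function.Injective ψ' := e'.injective.comp hψ
    rcases dihedral_subgroup ψ'.range with h3 | ⟨k, hk, ⟨e2⟩⟩
    · left
      exact isCyclic_of_injective (MonoidHom.ofInjective hψ').toMonoidHom (MonoidHom.ofInjective hψ').injective
    · right
      exact ⟨k, hk, ⟨(MonoidHom.ofInjective hψ').trans e2⟩⟩

theorem fwd (P : Sylow 2 G) (hL : LHS G) : IsCyclic P ∨
      ((∃ n : ℕ, 1 ≤ n ∧ Nonempty ((P : Subgroup G) ≃* DihedralGroup (2 ^ n))) ∧
        ∀ K : Subgroup G, K ≤ P → Nat.card K = 4 → (∀ k ∈ K, k ^ 2 = 1) → Subgroup.centralizer (K : Set G) = K) := by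
  have hp : IsPGroup 2 (⊤ : Subgroup (P : Subgroup G)) := by
    have h1 : IsPGroup 2 (P : Subgroup G) := P.isPGroup'
    exact h1.of_equiv Subgroup.topEquiv.symm
  have hq : IsCyclic ((P : Subgroup G) ⧸ (⊤ : Subgroup (P : Subgroup G))) := by
    have : Subsingleton ((P : Subgroup G) ⧸ (⊤ : Subgroup (P : Subgroup G))) :=
      QuotientGroup.subsingleton_quotient_top
    exact isCyclic_of_subsingleton
  rcases apply_lhs hL (P : Subgroup G) ⊤ inferInstance hp hq with hc | ⟨n, ⟨e⟩⟩ | ⟨⟨e⟩⟩
  · left; exact hc
  · rcases Nat.eq_zero_or_pos n with rfl | hn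
    · left
      have h1 : Nat.card (P : Subgroup G) = 2 := by
        rw [Nat.card_congr e.toEquiv, DihedralGroup.nat_card]
        norm_num
      have : Fact (Nat.Prime (Nat.card (P : Subgroup G))) := ⟨by rw [h1]; exact Nat.prime_two⟩
      exact isCyclic_of_prime_card rfl
    · right
      refine ⟨⟨n, hn, ⟨e⟩⟩, ?_⟩
      intro K _ hK hK2
      exact fwd_klein hL P e K hK hK2
  · exfalso
    have h1 : Nat.card (P : Subgroup G) = 12 := by
      rw [Nat.card_congr e.toEquiv, Nat.card_eq_fintype_card]
      decide +kernel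
    obtain ⟨m, hm⟩ := IsPGroup.iff_card.1 P.isPGroup'
    rw [h1] at hm
    have h3 : 3 ∣ 2 ^ m := by
      rw [← hm]
      norm_num
    have h4 := Nat.Prime.dvd_of_dvd_pow Nat.prime_three h3
    norm_num at h4

end H6Main

/-- Let G be a finite group with Sylow 2-subgroup P. Every subgroup H of G whose Sylow 2-subgroup is normal in H with cyclic quotient is cyclic, dihedral of 2-power order, or isomorphic to the alternating group of degree 4, if and only if either P is cyclic, or P is dihedral (of order at least 4) and every elementary abelian subgroup K of order 4 of P satisfies C_G(K) = K. -/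
theorem result {G : Type*} [Group G] [Finite G] (P : Sylow 2 G) :
    (∀ H : Subgroup G, (∀ S : Sylow 2 ↥H, (S : Subgroup ↥H).Normal) →
        (∀ (S : Sylow 2 ↥H) [(S : Subgroup ↥H).Normal], IsCyclic (↥H ⧸ (S : Subgroup ↥H))) →
        IsCyclic H ∨ (∃ n : ℕ, Nonempty (H ≃* DihedralGroup (2 ^ n))) ∨ Nonempty (H ≃* alternatingGroup (Fin 4))) ↔
    (IsCyclic P ∨
      ((∃ n : ℕ, 1 ≤ n ∧ Nonempty ((P : Subgroup G) ≃* DihedralGroup (2 ^ n))) ∧
        ∀ K : Subgroup G, K ≤ P → Nat.card K = 4 → (∀ k ∈ K, k ^ 2 = 1) → Subgroup.centralizer (K : Set G) = K)) := by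
  exact ⟨fun hL => fwd P hL, fun hR => bwd P hR⟩

end Cfsg.Agent.S4083
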