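import Mathlib
import Cfsg.Statements.S4084
-- import your own Cfsg.Agent.* helpers here

set_option autoImplicit false
open Cfsg

namespace Cfsg.Agent.S4084

theorem one_dir {G H : Type*} [Group G] [Finite G] [Group H] [Finite H] (e : G ≃ H)
    (he : ∀ x y : G, Commute x y ↔ Commute (e x) (e y))
    {p q : ℕ} (hp : p.Prime) (hq : q.Prime) (hpq : p ≠ q) :
    (∃ g : G, orderOf g = p * q) → (∃ h : H, orderOf h = p * q) := by
  classical
  rintro ⟨g, hg⟩
  let F : Set (Set G) := {S | ∀ x ∈ S, ∀ y ∈ S, x * y = y * x}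
  have h0 : ({g} : Set G) ∈ F := by
    intro x hx y hy
    rw [Set.mem_singleton_iff] at hx hy
    rw [hx, hy]
  obtain ⟨C, hgC, hCmax⟩ := (Set.toFinite F).exists_le_maximal h0
  have hCc : ∀ x ∈ C, ∀ y ∈ C, x * y = y * x := hCmax.prop
  have hself : ∀ y, (∀ x ∈ C, x * y = y * x) → y ∈ C := by
    intro y hy
    have h1 : insert y C ∈ F := by
      rintro a (rfl | ha) b (rfl | hb)
      · rfl
      · exact (hy b hb).symm
      · exact hy a ha
      · exact hCc a ha b hb
    have h2 : insert y C ≤ C := hCmax.le_of_ge h1 (Set.subset_insert y C)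
    exact h2 (Set.mem_insert y C)
  let D : Set H := e '' C
  have hDc : ∀ a ∈ D, ∀ b ∈ D, a * b = b * a := by
    rintro _ ⟨a, ha, rfl⟩ _ ⟨b, hb, rfl⟩
    exact ((he a b).mp (hCc a ha b hb))
  have hDself : ∀ y, (∀ x ∈ D, x * y = y * x) → y ∈ D := by
    intro y hy
    refine ⟨e.symm y, hself _ ?_, by simp⟩
    intro x hx
    have h1 := hy (e x) ⟨x, hx, rfl⟩
    have h2 : Commute (e x) (e (e.symm y)) := by
      rw [e.apply_symm_apply]
      exact h1
    exact (he _ _).mpr h2
  let KG : Subgroup G := Subgroup.centralizer C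
  let KH : Subgroup H := Subgroup.centralizer D
  have hKG : ∀ y, y ∈ KG ↔ y ∈ C := by
    intro y
    constructor
    · intro hy
      exact hself y (Subgroup.mem_centralizer_iff.mp hy)
    · intro hy
      exact Subgroup.mem_centralizer_iff.mpr (fun x hx => hCc x hx y hy)
  have hKH : ∀ y, y ∈ KH ↔ y ∈ D := by
    intro y
    constructor
    · intro hy
      exact hDself y (Subgroup.mem_centralizer_iff.mp hy)
    · intro hy
      exact Subgroup.mem_centralizer_iff.mpr (fun x hx => hDc x hx y hy)
  have hcard : Nat.card KH = Nat.card KG := by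
    apply Nat.card_congr
    refine ⟨fun y => ⟨e.symm y, ?_⟩, fun x => ⟨e x, ?_⟩, ?_, ?_⟩
    · obtain ⟨x, hx, hxe⟩ := (hKH y).mp y.2
      rw [hKG, ← hxe, e.symm_apply_apply]
      exact hx
    · exact (hKH _).mpr ⟨x, (hKG x).mp x.2, rfl⟩
    · intro y
      apply Subtype.ext
      simp
    · intro x
      apply Subtype.ext
      simp
  have hgK : g ∈ KG := (hKG g).mpr (hgC (Set.mem_singleton g))
  have hdvd : p * q ∣ Nat.card KH := by
    rw [hcard, ← hg]
    have := orderOf_dvd_natCard (⟨g, hgK⟩ : KG)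
    rwa [Subgroup.orderOf_mk] at this
  haveI : Fact p.Prime := ⟨hp⟩
  haveI : Fact q.Prime := ⟨hq⟩
  obtain ⟨a, ha⟩ := exists_prime_orderOf_dvd_card' p ((dvd_mul_right p q).trans hdvd)
  obtain ⟨b, hb⟩ := exists_prime_orderOf_dvd_card' q ((dvd_mul_left q p).trans hdvd)
  have hab : Commute (a : H) b := hDc a ((hKH a).mp a.2) b ((hKH b).mp b.2)
  refine ⟨a * b, ?_⟩
  rw [hab.orderOf_mul_eq_mul_orderOf_of_coprime (by
    rw [Subgroup.orderOf_coe, Subgroup.orderOf_coe, ha, hb]
    exact (Nat.coprime_primes hp hq).mpr hpq), Subgroup.orderOf_coe, Subgroup.orderOf_coe, ha, hb]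


/-- Let G and H be finite groups whose commuting graphs are isomorphic: there is a bijection e : G → H with x, y commuting exactly when e(x), e(y) commute. Then G and H have the same prime graph: for distinct primes p, q, G has an element of order pq if and only if H does (and #G = #H, so the prime divisors agree). -/
theorem result {G H : Type*} [Group G] [Finite G] [Group H] [Finite H] (e : G ≃ H)
    (he : ∀ x y : G, Commute x y ↔ Commute (e x) (e y))
    {p q : ℕ} (hp : p.Prime) (hq : q.Prime) (hpq : p ≠ q) :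
    (∃ g : G, orderOf g = p * q) ↔ (∃ h : H, orderOf h = p * q) := by
  refine ⟨one_dir e he hp hq hpq, one_dir e.symm ?_ hp hq hpq⟩
  intro x y
  rw [he (e.symm x) (e.symm y)]
  simp

end Cfsg.Agent.S4084
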