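import Cfsg.Statements.S4086

set_option autoImplicit false
open Cfsg

namespace Cfsg.Agent.S4086

theorem mem_of_order_dvd {C : Type*} [Group C] [Finite C] [IsCyclic C] (x y : C) (h : orderOf x ∣ orderOf y) :
    x ∈ Subgroup.zpowers y := by
  classical
  haveI := Fintype.ofFinite C
  have hpos := orderOf_pos y
  have h1 := IsCyclic.card_pow_eq_one_le (α := C) hpos
  have hsub : (Subgroup.zpowers y : Set C).toFinset = (Finset.univ.filter (fun a : C => a ^ orderOf y = 1)) := by
    apply Finset.eq_of_subset_of_card_le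
    · intro t ht
      rw [Set.mem_toFinset] at ht
      obtain ⟨k, rfl⟩ := ht
      simp only [Finset.mem_filter, Finset.mem_univ, true_and]
      show (y ^ k) ^ orderOf y = 1
      rw [← zpow_natCast, ← zpow_mul, mul_comm, zpow_mul, zpow_natCast, pow_orderOf_eq_one, one_zpow]
    · refine h1.trans (le_of_eq ?_)
      rw [Set.toFinset_card]
      have := Nat.card_zpowers y
      rw [Nat.card_eq_fintype_card] at this
      exact this.symm
  have hx : x ∈ Finset.univ.filter (fun a : C => a ^ orderOf y = 1) := by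
    simp only [Finset.mem_filter, Finset.mem_univ, true_and]
    exact orderOf_dvd_iff_pow_eq_one.1 h
  rw [← hsub, Set.mem_toFinset] at hx
  exact hx

/-- For a finite group G the following are equivalent: every non-identity element has prime-power order; whenever two elements generate a cyclic subgroup, one of them is a power of the other (the enhanced power graph of G coincides with its power graph). -/
theorem result {G : Type*} [Group G] [Finite G] :
    (∀ g : G, g ≠ 1 → IsPrimePow (orderOf g)) ↔
    (∀ x y : G, IsCyclic ↥(Subgroup.closure ({x, y} : Set G)) → (x ∈ Subgroup.zpowers y ∨ y ∈ Subgroup.zpowers x)) := by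
  constructor
  · intro h x y hcyc
    obtain ⟨C, hC⟩ : ∃ C, C = Subgroup.closure ({x, y} : Set G) := ⟨_, rfl⟩
    rw [← hC] at hcyc
    have hxC : x ∈ C := hC ▸ Subgroup.subset_closure (by simp)
    have hyC : y ∈ C := hC ▸ Subgroup.subset_closure (by simp)
    by_cases hx1 : x = 1
    · left; rw [hx1]; exact Subgroup.one_mem _
    by_cases hy1 : y = 1
    · right; rw [hy1]; exact Subgroup.one_mem _
    obtain ⟨p, a, hp, ha, hpa⟩ := h x hx1
    obtain ⟨q, b, hq, hb, hqb⟩ := h y hy1
    have hp' := hp.nat_prime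
    have hq' := hq.nat_prime
    have hcomm : (⟨x, hxC⟩ : C) * ⟨y, hyC⟩ = ⟨y, hyC⟩ * ⟨x, hxC⟩ := by
      haveI := hcyc
      exact ((IsCyclic.isMulCommutative (α := C)).is_comm.comm _ _)
    have hcomm' : Commute x y := congrArg Subtype.val hcomm
    have hpq : p = q := by
      by_contra hne
      have hcop : (orderOf x).Coprime (orderOf y) := by
        rw [← hpa, ← hqb]
        exact Nat.Coprime.pow _ _ ((Nat.coprime_primes hp' hq').2 hne)
      have h1 := hcomm'.orderOf_mul_eq_mul_orderOf_of_coprime hcop
      by_cases h2 : x * y = 1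
      · rw [h2, orderOf_one] at h1
        exact hx1 (orderOf_eq_one_iff.1 (Nat.eq_one_of_mul_eq_one_right h1.symm))
      · obtain ⟨r, c, hr, hc, hrc⟩ := h _ h2
        have hr' := hr.nat_prime
        have hpd : p ∣ r ^ c := by
          rw [hrc, h1, ← hpa]
          exact Dvd.dvd.mul_right (dvd_pow_self p ha.ne') _
        have hqd : q ∣ r ^ c := by
          rw [hrc, h1, ← hqb]
          exact Dvd.dvd.mul_left (dvd_pow_self q hb.ne') _
        have e1 := (Nat.prime_dvd_prime_iff_eq hp' hr').1 (hp'.dvd_of_dvd_pow hpd)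
        have e2 := (Nat.prime_dvd_prime_iff_eq hq' hr').1 (hq'.dvd_of_dvd_pow hqd)
        exact hne (e1.trans e2.symm)
    subst hpq
    haveI : Finite C := inferInstance
    have hox : orderOf (⟨x, hxC⟩ : C) = orderOf x := Subgroup.orderOf_mk x hxC
    have hoy : orderOf (⟨y, hyC⟩ : C) = orderOf y := Subgroup.orderOf_mk y hyC
    rcases le_total a b with hab | hab
    · left
      have := mem_of_order_dvd (C := C) ⟨x, hxC⟩ ⟨y, hyC⟩ (by
        rw [hox, hoy, ← hpa, ← hqb]; exact pow_dvd_pow p hab)
      obtain ⟨k, hk⟩ := this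
      exact ⟨k, congrArg Subtype.val hk⟩
    · right
      have := mem_of_order_dvd (C := C) ⟨y, hyC⟩ ⟨x, hxC⟩ (by
        rw [hox, hoy, ← hpa, ← hqb]; exact pow_dvd_pow p hab)
      obtain ⟨k, hk⟩ := this
      exact ⟨k, congrArg Subtype.val hk⟩
  · intro h g hg
    have h1 : orderOf g ≠ 1 := fun e => hg (orderOf_eq_one_iff.1 e)
    have hpos := orderOf_pos g
    obtain ⟨p, hp, hdvd⟩ := Nat.exists_prime_and_dvd h1
    obtain ⟨a, m, hm, hab⟩ := Nat.exists_eq_pow_mul_and_not_dvd hpos.ne' p hp.ne_one
    by_cases hm1 : m = 1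
    · rw [hm1, mul_one] at hab
      rw [hab]
      have ha : a ≠ 0 := by
        rintro rfl
        rw [pow_zero] at hab
        exact h1 hab
      exact ⟨p, a, hp.prime, Nat.pos_of_ne_zero ha, rfl⟩
    · exfalso
      have ha : a ≠ 0 := by
        rintro rfl
        rw [pow_zero, one_mul] at hab
        exact hm (hab ▸ hdvd)
      have hm0 : m ≠ 0 := by
        rintro rfl
        rw [mul_zero] at hab
        exact hpos.ne' hab
      have hcop : (p ^ a).Coprime m := Nat.Coprime.pow_left a ((Nat.Prime.coprime_iff_not_dvd hp).2 hm)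
      have hcyc : IsCyclic ↥(Subgroup.closure ({g ^ (p ^ a), g ^ m} : Set G)) := by
        have hle : Subgroup.closure ({g ^ (p ^ a), g ^ m} : Set G) ≤ Subgroup.zpowers g := by
          rw [Subgroup.closure_le]
          rintro t (rfl | rfl)
          · exact Subgroup.pow_mem _ (Subgroup.mem_zpowers g) _
          · exact Subgroup.pow_mem _ (Subgroup.mem_zpowers g) _
        exact Subgroup.isCyclic_of_le hle
      have ho1 : orderOf (g ^ (p ^ a)) = m := by
        rw [orderOf_pow' _ (pow_ne_zero _ hp.ne_zero), hab, Nat.gcd_eq_right (Nat.dvd_mul_right _ _), Nat.mul_div_cancel_left _ (pow_pos hp.pos _)]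
      have ho2 : orderOf (g ^ m) = p ^ a := by
        rw [orderOf_pow' _ hm0, hab, Nat.gcd_eq_right (Nat.dvd_mul_left _ _), Nat.mul_div_cancel _ (Nat.pos_of_ne_zero hm0)]
      have hp1 : p ^ a ≠ 1 := by
        intro e
        exact ha (by simpa [hp.ne_one] using e)
      rcases h _ _ hcyc with h2 | h2
      · have h3 := orderOf_dvd_of_mem_zpowers h2
        rw [ho1, ho2] at h3
        exact hm1 (Nat.Coprime.eq_one_of_dvd hcop.symm h3)
      · have h3 := orderOf_dvd_of_mem_zpowers h2
        rw [ho1, ho2] at h3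
        exact hp1 (Nat.Coprime.eq_one_of_dvd hcop h3)

end Cfsg.Agent.S4086
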