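import Cfsg.Statements.S4089
import Cfsg.Agent.Lib.MinPClosed
import Cfsg.Agent.Lib.CharP
import Cfsg.Agent.Lib.Wielandt
import Cfsg.Agent.Lib.PCore
-- import your own Cfsg.Agent.* helpers here

set_option autoImplicit false
set_option linter.all false
open Cfsg

namespace Cfsg.Agent.S4089

open Cfsg.Agent.Lib.PCore Cfsg.Agent.Lib.MinPClosed

theorem map_pCore_normalizes {G : Type*} [Group G] [Finite G] {p : ℕ} (K : Subgroup G) {y : G} (hy : y ∈ K) :
    y ∈ Subgroup.normalizer (((pCore p K).map K.subtype : Subgroup G) : Set G) := by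
  apply mem_normalizer_of_conj_le
  rintro _ ⟨a, ha, rfl⟩
  have h1 := (pCore_normal p K).conj_mem a ha ⟨y, hy⟩
  exact ⟨_, h1, rfl⟩

theorem exists_radical {G : Type*} [Group G] [Finite G] {p : ℕ} [Fact p.Prime] (X : Subgroup G)
    (hX : IsPGroup p X) (g : G) (hg : (X.subgroupOf (X ⊔ Subgroup.zpowers g)).IsSubnormal) :
    ∃ R : Subgroup G, X ≤ R ∧
      (pCore p (Subgroup.normalizer (R : Set G))).map (Subgroup.normalizer (R : Set G)).subtype = R ∧
      g ∈ Subgroup.normalizer (R : Set G) := by
  classical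
  set L := X ⊔ Subgroup.zpowers g with hL
  have hXp : IsPGroup p (X.subgroupOf L) := hX.comap_of_injective L.subtype L.subtype_injective
  have h1 : X.subgroupOf L ≤ pCore p L := Cfsg.Agent.Lib.CharP.le_pCore_of_subnormal hg hXp
  have hgL : g ∈ L := Subgroup.mem_sup_right (Subgroup.mem_zpowers g)
  have hXR₀ : X ≤ (pCore p L).map L.subtype := by
    intro x hx
    have hxL : x ∈ L := Subgroup.mem_sup_left hx
    exact ⟨⟨x, hxL⟩, h1 hx, rfl⟩
  let S : Set (Subgroup G) := {R | IsPGroup p R ∧ X ≤ R ∧ g ∈ Subgroup.normalizer (R : Set G)}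
  have hS : S.Nonempty := ⟨(pCore p L).map L.subtype, (isPGroup_pCore p L).map _, hXR₀,
    map_pCore_normalizes L hgL⟩
  obtain ⟨R, hR⟩ := Set.Finite.exists_maximal (Set.toFinite S) hS
  obtain ⟨hRp, hXR, hgR⟩ := hR.1
  set N := Subgroup.normalizer (R : Set G) with hN
  have hRR' : R ≤ (pCore p N).map N.subtype := by
    intro r hr
    have hrN : r ∈ N := Subgroup.le_normalizer hr
    refine ⟨⟨r, hrN⟩, ?_, rfl⟩
    have h2 : R.subgroupOf N ≤ pCore p N :=
      le_pCore (Subgroup.normal_in_normalizer) (hRp.comap_of_injective N.subtype N.subtype_injective)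
    exact h2 hr
  have hR' : (pCore p N).map N.subtype ∈ S :=
    ⟨(isPGroup_pCore p N).map _, hXR.trans hRR', map_pCore_normalizes N hgR⟩
  have h3 : (pCore p N).map N.subtype ≤ R := hR.2 hR' hRR'
  exact ⟨R, hXR, le_antisymm h3 hRR', hgR⟩

theorem subnormal_of_le {G : Type*} [Group G] [Finite G] {p : ℕ} [Fact p.Prime] (X R : Subgroup G)
    (hXR : X ≤ R) (hR : IsPGroup p R) (g : G) (hg : g ∈ Subgroup.normalizer (R : Set G)) :
    (X.subgroupOf (X ⊔ Subgroup.zpowers g)).IsSubnormal := by
  set L := X ⊔ Subgroup.zpowers g with hL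
  have hLN : L ≤ Subgroup.normalizer (R : Set G) :=
    sup_le (hXR.trans Subgroup.le_normalizer) ((Subgroup.zpowers_le).mpr hg)
  let D : Subgroup L := R.subgroupOf L
  have hDn : D.Normal := by
    constructor
    intro a ha y
    exact (Subgroup.mem_normalizer_iff.mp (hLN y.2) a).mp ha
  have hDp : IsPGroup p D := hR.comap_of_injective L.subtype L.subtype_injective
  haveI : Group.IsNilpotent D := hDp.isNilpotent
  have hle : X.subgroupOf L ≤ D := fun a ha => hXR ha
  exact Subgroup.IsSubnormal.trans hle (Cfsg.Agent.Lib.Wielandt.subnormal_of_nilpotent _) hDn.isSubnormal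

theorem sInf_le_radical {G : Type*} [Group G] [Finite G] {p : ℕ} [Fact p.Prime] (H R : Subgroup G)
    (hHR : H ≤ R)
    (hrad : (pCore p (Subgroup.normalizer (R : Set G))).map (Subgroup.normalizer (R : Set G)).subtype = R) :
    sInf {K : Subgroup G | ∃ Q : Sylow p G, H ≤ (Q : Subgroup G) ∧ K = (Q : Subgroup G)} ≤ R := by
  classical
  set X := Subgroup.normalizer (R : Set G) with hX
  have hRp : IsPGroup p R := by
    rw [← hrad]
    exact (isPGroup_pCore p X).map _
  let D : Subgroup G := sInf {K : Subgroup G | ∃ Q : Sylow p G, R ≤ (Q : Subgroup G) ∧ K = (Q : Subgroup G)}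
  have hstep1 : sInf {K : Subgroup G | ∃ Q : Sylow p G, H ≤ (Q : Subgroup G) ∧ K = (Q : Subgroup G)} ≤ D := by
    apply sInf_le_sInf
    rintro K ⟨Q, hQ, rfl⟩
    exact ⟨Q, hHR.trans hQ, rfl⟩
  refine hstep1.trans ?_
  have hRD : R ≤ D := by
    apply le_sInf
    rintro K ⟨Q, hQ, rfl⟩
    exact hQ
  have hDp : IsPGroup p D := by
    obtain ⟨Q, hQ⟩ := hRp.exists_le_sylow
    refine Q.2.to_le (sInf_le ⟨Q, hQ, rfl⟩)
  -- elements of D normalizing R lie in R
  have hkey : ∀ x ∈ D, x ∈ X → x ∈ R := by
    intro x hxD hxX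
    let F : Subgroup X := ⨅ T : Sylow p X, (T : Subgroup X)
    have hFn : F.Normal := by
      constructor
      intro a ha g
      rw [Subgroup.mem_iInf] at ha ⊢
      intro T
      have h1 := ha (g⁻¹ • T)
      obtain ⟨b, hb, hba⟩ := h1
      have h2 : a = g⁻¹ * b * (g⁻¹)⁻¹ := hba.symm
      have h3 : g * a * g⁻¹ = b := by rw [h2]; group
      rw [h3]
      exact hb
    have hFp : IsPGroup p F := by
      obtain ⟨T⟩ := (inferInstance : Nonempty (Sylow p X))
      exact T.2.to_le (iInf_le _ T)
    have hFcore : F ≤ pCore p X := le_pCore hFn hFp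
    have hxF : (⟨x, hxX⟩ : X) ∈ F := by
      rw [Subgroup.mem_iInf]
      intro T
      have hcoreT : pCore p X ≤ (T : Subgroup X) := by
        have h1 : IsPGroup p ((T : Subgroup X) ⊔ pCore p X : Subgroup X) :=
          letI := pCore_normal p X
          T.2.to_sup_of_normal_right (isPGroup_pCore p X)
        have h2 := T.3 h1 le_sup_left
        rw [← h2]
        exact le_sup_right
      have hT'p : IsPGroup p ((T : Subgroup X).map X.subtype) := T.2.map _
      obtain ⟨Q, hQ⟩ := hT'p.exists_le_sylow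
      have hRQ : R ≤ (Q : Subgroup G) := by
        rw [← hrad]
        exact (Subgroup.map_mono hcoreT).trans hQ
      have hDQ : D ≤ (Q : Subgroup G) := sInf_le ⟨Q, hRQ, rfl⟩
      have hxQ : x ∈ (Q : Subgroup G) := hDQ hxD
      have hQ'p : IsPGroup p ((Q : Subgroup G).subgroupOf X) :=
        Q.2.comap_of_injective X.subtype X.subtype_injective
      have hle : (T : Subgroup X) ≤ (Q : Subgroup G).subgroupOf X := by
        intro t ht
        exact hQ ⟨t, ht, rfl⟩
      have h4 := T.3 hQ'p hle
      rw [← h4]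
      exact hxQ
    have h5 := hFcore hxF
    rw [← hrad]
    exact ⟨_, h5, rfl⟩
  -- normalizer growth
  haveI : Group.IsNilpotent D := hDp.isNilpotent
  by_contra hne
  have hR'ne : R.subgroupOf D ≠ ⊤ := by
    intro h
    apply hne
    intro d hd
    have h1 : (⟨d, hd⟩ : D) ∈ R.subgroupOf D := by rw [h]; trivial
    exact h1
  have hlt := normalizerCondition_of_isNilpotent (R.subgroupOf D) (lt_top_iff_ne_top.mpr hR'ne)
  obtain ⟨d, hd, hdn⟩ := SetLike.exists_of_lt hlt
  have hdX : (d : G) ∈ X := by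
    apply mem_normalizer_of_conj_le
    intro r hr
    have h1 := (Subgroup.mem_normalizer_iff.mp hd ⟨r, hRD hr⟩).mp hr
    exact h1
  exact hdn (hkey d d.2 hdX)


/-- Let G be a finite group, p a prime and H a p-subgroup of G. Then the set of elements g of G such that H is subnormal in the subgroup generated by H and g is the union of the normalizers N_G(R) over the subgroups R of G containing H with R = O_p(N_G(R)); and this set does not change when H is replaced by the intersection of all Sylow p-subgroups of G containing H. -/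
theorem result {G : Type*} [Group G] [Finite G] (p : ℕ) [Fact p.Prime]
    (H : Subgroup G) (hH : IsPGroup p H) :
    {g : G | ((H).subgroupOf (H ⊔ Subgroup.zpowers g)).IsSubnormal} =
      {g : G | ∃ R : Subgroup G, H ≤ R ∧ (Cfsg.pCore p (Subgroup.normalizer (R : Set G))).map (Subgroup.normalizer (R : Set G)).subtype = R ∧ g ∈ Subgroup.normalizer (R : Set G)} ∧
    ∀ g : G, (((H).subgroupOf (H ⊔ Subgroup.zpowers g)).IsSubnormal ↔
      (((sInf {K : Subgroup G | ∃ Q : Sylow p G, H ≤ (Q : Subgroup G) ∧ K = (Q : Subgroup G)})).subgroupOf ((sInf {K : Subgroup G | ∃ Q : Sylow p G, H ≤ (Q : Subgroup G) ∧ K = (Q : Subgroup G)}) ⊔ Subgroup.zpowers g)).IsSubnormal) := by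
  classical
  set Hs : Subgroup G := sInf {K : Subgroup G | ∃ Q : Sylow p G, H ≤ (Q : Subgroup G) ∧ K = (Q : Subgroup G)} with hHs
  have hHHs : H ≤ Hs := by
    apply le_sInf
    rintro K ⟨Q, hQ, rfl⟩
    exact hQ
  have hHsp : IsPGroup p Hs := by
    obtain ⟨Q, hQ⟩ := hH.exists_le_sylow
    exact Q.2.to_le (sInf_le ⟨Q, hQ, rfl⟩)
  have hrp : ∀ R : Subgroup G,
      (pCore p (Subgroup.normalizer (R : Set G))).map (Subgroup.normalizer (R : Set G)).subtype = R →
      IsPGroup p R := by
    intro R hrad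
    rw [← hrad]
    exact (isPGroup_pCore p _).map _
  constructor
  · ext g
    constructor
    · intro hg
      exact exists_radical H hH g hg
    · rintro ⟨R, hHR, hrad, hg⟩
      exact subnormal_of_le H R hHR (hrp R hrad) g hg
  · intro g
    constructor
    · intro hg
      obtain ⟨R, hHR, hrad, hgR⟩ := exists_radical H hH g hg
      exact subnormal_of_le Hs R (sInf_le_radical H R hHR hrad) (hrp R hrad) g hgR
    · intro hg
      obtain ⟨R, hHR, hrad, hgR⟩ := exists_radical Hs hHsp g hg
      exact subnormal_of_le H R (hHHs.trans hHR) (hrp R hrad) g hgR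

end Cfsg.Agent.S4089
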