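import Cfsg.Statements.S4092
import Cfsg.Agent.Lib.SylowTI

set_option autoImplicit false
open Cfsg

namespace Cfsg.Agent.S4092

open Cfsg.Agent.Lib.SylowTI

theorem card_lt {G : Type*} [Group G] [Finite G] {X Y : Subgroup G} (h : X < Y) :
    Nat.card X < Nat.card Y := by
  apply lt_of_le_of_ne (Nat.le_of_dvd Nat.card_pos (Subgroup.card_dvd_of_le h.le))
  intro e
  exact h.ne (Subgroup.eq_of_le_of_card_ge h.le e.ge)

theorem grow {G : Type*} [Group G] [Finite G] (p : ℕ) [Fact p.Prime] (A : Sylow p G) (D : Subgroup G)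
    (hD : D < (A : Subgroup G)) : ∃ a ∈ (A : Subgroup G), a ∉ D ∧ a ∈ Subgroup.normalizer (D : Set G) := by
  haveI : Group.IsNilpotent (A : Subgroup G) := A.2.isNilpotent
  have hnc := Group.normalizerCondition_of_isNilpotent (G := (A : Subgroup G))
  have hD' : D.subgroupOf (A : Subgroup G) < ⊤ := by
    rw [lt_top_iff_ne_top]
    intro e
    apply hD.not_ge
    intro x hx
    have : (⟨x, hx⟩ : (A : Subgroup G)) ∈ D.subgroupOf (A : Subgroup G) := e ▸ Subgroup.mem_top _
    simpa [Subgroup.mem_subgroupOf] using this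
  obtain ⟨x, hx, hxn⟩ := SetLike.exists_of_lt (hnc _ hD')
  refine ⟨x, x.2, ?_, ?_⟩
  · intro h
    exact hxn (by rw [Subgroup.mem_subgroupOf]; exact h)
  · rw [Subgroup.mem_normalizer_iff]
    have hx' := Subgroup.mem_normalizer_iff.1 hx
    intro y
    constructor
    · intro hy
      have h1 := (hx' ⟨y, hD.le hy⟩).1 (by rw [Subgroup.mem_subgroupOf]; exact hy)
      rw [Subgroup.mem_subgroupOf] at h1
      exact h1
    · intro hy
      have hyA : y ∈ (A : Subgroup G) := by
        have h1 := hD.le hy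
        have : y = (x : G)⁻¹ * ((x : G) * y * (x : G)⁻¹) * x := by group
        rw [this]
        exact Subgroup.mul_mem _ (Subgroup.mul_mem _ (Subgroup.inv_mem _ x.2) h1) x.2
      have h1 := (hx' ⟨y, hyA⟩).2 (by rw [Subgroup.mem_subgroupOf]; exact hy)
      rw [Subgroup.mem_subgroupOf] at h1
      exact h1

/-- Let G be a finite group, p a prime and P a Sylow p-subgroup of G that is not normal in G. Then G has at least p·#P elements of p-power order (the identity included). -/
theorem result {G : Type*} [Group G] [Finite G] (p : ℕ) [Fact p.Prime]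
    (P : Sylow p G) (hP : ¬ (P : Subgroup G).Normal) :
    p * Nat.card (P : Subgroup G) ≤ Nat.card {g : G // ∃ k : ℕ, orderOf g = p ^ k} := by
  classical
  haveI := Fintype.ofFinite G
  have hp : p.Prime := Fact.out
  have hex : ∃ A B : Sylow p G, A ≠ B := by
    by_contra hall
    push Not at hall
    apply hP
    rw [← Subgroup.normalizer_eq_top_iff, eq_top_iff]
    intro g _
    exact smul_eq_self_iff.1 (hall _ _)
  obtain ⟨A0, B0, h0⟩ := hex
  haveI : Nonempty {x : Sylow p G × Sylow p G // x.1 ≠ x.2} := ⟨⟨(A0, B0), h0⟩⟩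
  obtain ⟨⟨⟨A, B⟩, hAB⟩, hmax⟩ := Finite.exists_max
    (fun x : {x : Sylow p G × Sylow p G // x.1 ≠ x.2} => Nat.card (((x.1.1 : Subgroup G) ⊓ (x.1.2 : Subgroup G) : Subgroup G)))
  have hAB' : A ≠ B := hAB
  have hmax' : ∀ S T : Sylow p G, S ≠ T → Nat.card (((S : Subgroup G) ⊓ (T : Subgroup G) : Subgroup G)) ≤
      Nat.card (((A : Subgroup G) ⊓ (B : Subgroup G) : Subgroup G)) := fun S T h => hmax ⟨(S, T), h⟩
  obtain ⟨D, hD⟩ : ∃ D : Subgroup G, D = (A : Subgroup G) ⊓ (B : Subgroup G) := ⟨_, rfl⟩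
  rw [← hD] at hmax'
  have hDA : D < (A : Subgroup G) := by
    apply lt_of_le_of_ne (hD ▸ inf_le_left)
    intro e
    apply hAB'
    have h1 : (A : Subgroup G) ≤ B := by
      rw [← e, hD]; exact inf_le_right
    exact Sylow.ext (A.3 B.2 h1).symm
  have hDB : D < (B : Subgroup G) := by
    apply lt_of_le_of_ne (hD ▸ inf_le_right)
    intro e
    apply hAB'
    have h1 : (B : Subgroup G) ≤ A := by
      rw [← e, hD]; exact inf_le_left
    exact Sylow.ext (B.3 A.2 h1)
  obtain ⟨N, hN⟩ : ∃ N : Subgroup G, N = Subgroup.normalizer (D : Set G) := ⟨_, rfl⟩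
  have hDN : D ≤ N := hN ▸ Subgroup.le_normalizer
  have hD'n : (D.subgroupOf N).Normal := by
    refine ⟨fun x hx g => ?_⟩
    rw [Subgroup.mem_subgroupOf] at hx ⊢
    have hg : (g : G) ∈ Subgroup.normalizer (D : Set G) := hN ▸ g.2
    exact (Subgroup.mem_normalizer_iff.1 hg x).1 hx
  have hinjN : Function.Injective N.subtype := N.subtype_injective
  have hD'p : IsPGroup p (D.subgroupOf N) :=
    (A.2.to_le hDA.le).comap_of_injective N.subtype hinjN
  have hDR : ∀ R : Sylow p N, D.subgroupOf N ≤ (R : Subgroup N) := by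
    intro R
    have h1 := R.3 (R.2.to_sup_of_normal_right hD'p) le_sup_left
    have h2 := le_sup_right (a := (R : Subgroup N)) (b := D.subgroupOf N)
    rwa [h1] at h2
  have hex2 : ∀ R : Sylow p N, ∃ S : Sylow p G, (R : Subgroup N).map N.subtype ≤ (S : Subgroup G) :=
    fun R => (R.2.map N.subtype).exists_le_sylow
  choose φ hφ using hex2
  have hDφ : ∀ R, D ≤ (φ R : Subgroup G) := by
    intro R d hd
    apply hφ R
    exact ⟨⟨d, hDN hd⟩, hDR R (by rw [Subgroup.mem_subgroupOf]; exact hd), rfl⟩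
  have hφinj : Function.Injective φ := by
    intro R R' e
    have h1 := R.3 ((φ R).2.comap_of_injective N.subtype hinjN) (Subgroup.map_le_iff_le_comap.1 (hφ R))
    have h2 := R'.3 ((φ R').2.comap_of_injective N.subtype hinjN) (Subgroup.map_le_iff_le_comap.1 (hφ R'))
    rw [e] at h1
    exact Sylow.ext (h1.symm.trans h2)
  -- a maximal-intersection consequence
  have hbig : ∀ (S C : Sylow p G) (c : G), S ≠ C → c ∈ (S : Subgroup G) → c ∈ (C : Subgroup G) → D ≤ S → D ≤ C → c ∈ D := by
    intro S C c hSC hcS hcC hDS hDC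
    have h1 := hmax' S C hSC
    have h2 := Subgroup.eq_of_le_of_card_ge (le_inf hDS hDC) h1
    rw [h2]
    exact ⟨hcS, hcC⟩
  -- at least two Sylows in N
  have hn2 : Nat.card (Sylow p N) ≠ 1 := by
    intro hc
    obtain ⟨a, haA, haD, haN⟩ := grow p A D hDA
    obtain ⟨b, hbB, hbD, hbN⟩ := grow p B D hDB
    rw [← hN] at haN hbN
    obtain ⟨R1, hR1⟩ := (A.2.comap_of_injective N.subtype hinjN).exists_le_sylow
    obtain ⟨R2, hR2⟩ := (B.2.comap_of_injective N.subtype hinjN).exists_le_sylow
    have hss : Subsingleton (Sylow p N) := (Nat.card_eq_one_iff_unique.1 hc).1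
    have hR : R1 = R2 := Subsingleton.elim _ _
    subst hR
    have ha1 : a ∈ (φ R1 : Subgroup G) := hφ R1 ⟨⟨a, haN⟩, hR1 haA, rfl⟩
    have hb1 : b ∈ (φ R1 : Subgroup G) := hφ R1 ⟨⟨b, hbN⟩, hR2 hbB, rfl⟩
    have e1 : φ R1 = A := by
      by_contra hne
      exact haD (hbig _ _ a hne ha1 haA (hDφ R1) hDA.le)
    have e2 : φ R1 = B := by
      by_contra hne
      exact hbD (hbig _ _ b hne hb1 hbB (hDφ R1) hDB.le)
    exact hAB' (e1.symm.trans e2)
  have hn3 : p + 1 ≤ Nat.card (Sylow p N) := by
    have h1 := card_sylow_modEq_one p N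
    have hpos : 0 < Nat.card (Sylow p N) := Nat.card_pos
    have h2 : 2 ≤ Nat.card (Sylow p N) := by omega
    have h3 : p ∣ Nat.card (Sylow p N) - 1 := (Nat.modEq_iff_dvd' (by omega)).1 h1.symm
    have h4 := Nat.le_of_dvd (by omega) h3
    omega
  -- the count
  have hcardS : ∀ S : Sylow p G, Nat.card (S : Subgroup G) = Nat.card (P : Subgroup G) := by
    intro S
    rw [Sylow.card_eq_multiplicity, Sylow.card_eq_multiplicity]
  let a := Nat.card D
  let m := Nat.card (P : Subgroup G)
  have hDset : (Finset.univ.filter (fun g => g ∈ D)).card = a := (Nat.subtype_card _ (by simp)).symm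
  let U : Finset G := Finset.univ.filter (fun g => ∃ k : ℕ, orderOf g = p ^ k)
  let T : Sylow p N → Finset G := fun R => Finset.univ.filter (fun g => g ∈ (φ R : Subgroup G) ∧ g ∉ D)
  have hTcard : ∀ R, (T R).card + a = m := by
    intro R
    have h1 : (Finset.univ.filter (fun g => g ∈ (φ R : Subgroup G))).card = m := by
      show _ = Nat.card (P : Subgroup G)
      rw [← hcardS (φ R)]
      exact (Nat.subtype_card _ (by simp)).symm
    rw [← h1, ← hDset, ← Finset.card_union_of_disjoint]
    · congr 1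
      ext g
      simp only [T, Finset.mem_union, Finset.mem_filter, Finset.mem_univ, true_and]
      constructor
      · rintro (⟨h, -⟩ | h)
        · exact h
        · exact hDφ R h
      · intro h
        by_cases h' : g ∈ D
        · right; exact h'
        · left; exact ⟨h, h'⟩
    · rw [Finset.disjoint_left]
      intro g hg hg'
      simp only [T, Finset.mem_filter, Finset.mem_univ, true_and] at hg hg'
      exact hg.2 hg'
  have hpelt : ∀ (S : Sylow p G) g, g ∈ (S : Subgroup G) → ∃ k : ℕ, orderOf g = p ^ k := by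
    intro S g hg
    obtain ⟨k, hk⟩ := (IsPGroup.iff_orderOf.1 S.2) ⟨g, hg⟩
    exact ⟨k, by simpa using hk⟩
  have hsub : (Finset.univ.filter (fun g => g ∈ D)) ∪ (Finset.univ.biUnion T) ⊆ U := by
    intro g hg
    simp only [Finset.mem_union, Finset.mem_filter, Finset.mem_univ, true_and, Finset.mem_biUnion, T] at hg
    simp only [U, Finset.mem_filter, Finset.mem_univ, true_and]
    rcases hg with h | ⟨R, h, -⟩
    · exact hpelt A g (hDA.le h)
    · exact hpelt _ g h
  have hdisj1 : Disjoint (Finset.univ.filter (fun g => g ∈ D)) (Finset.univ.biUnion T) := by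
    rw [Finset.disjoint_left]
    intro g hg hg'
    simp only [Finset.mem_filter, Finset.mem_univ, true_and, Finset.mem_biUnion, T] at hg hg'
    obtain ⟨R, -, h⟩ := hg'
    exact h hg
  have hdisj2 : (↑(Finset.univ : Finset (Sylow p N)) : Set (Sylow p N)).PairwiseDisjoint T := by
    intro R _ R' _ hne
    rw [Function.onFun, Finset.disjoint_left]
    intro g hg hg'
    simp only [T, Finset.mem_filter, Finset.mem_univ, true_and] at hg hg'
    exact hg.2 (hbig _ _ g (fun e => hne (hφinj e)) hg.1 hg'.1 (hDφ R) (hDφ R'))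
  have hcount : a + ∑ R : Sylow p N, (T R).card ≤ U.card := by
    have := Finset.card_le_card hsub
    rw [Finset.card_union_of_disjoint hdisj1, Finset.card_biUnion hdisj2, hDset] at this
    exact this
  have hUcard : Nat.card {g : G // ∃ k : ℕ, orderOf g = p ^ k} = U.card :=
    Nat.subtype_card _ (by simp [U])
  rw [hUcard]
  obtain ⟨b, hb⟩ : ∃ b, m = b + a := ⟨m - a, by
    have := hcardS A
    have h5 := card_lt hDA
    have : a ≤ m := by
      show Nat.card D ≤ Nat.card (P : Subgroup G)
      rw [← hcardS A]; exact h5.le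
    omega⟩
  have hTb : ∀ R, (T R).card = b := by
    intro R
    have := hTcard R
    omega
  have hsum : ∑ R : Sylow p N, (T R).card = Nat.card (Sylow p N) * b := by
    rw [Finset.sum_congr rfl (fun R _ => hTb R), Finset.sum_const, smul_eq_mul, Finset.card_univ, Nat.card_eq_fintype_card]
  -- p * a ≤ m
  have hpa : p * a ≤ m := by
    obtain ⟨i, hi⟩ := IsPGroup.iff_card.1 (A.2.to_le hDA.le)
    obtain ⟨j, hj⟩ := IsPGroup.iff_card.1 A.2
    have hlt := card_lt hDA
    rw [hi, hj] at hlt
    have hij : i < j := (Nat.pow_lt_pow_iff_right hp.one_lt).1 hlt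
    show p * Nat.card D ≤ Nat.card (P : Subgroup G)
    rw [← hcardS A, hi, hj, ← pow_succ']
    exact Nat.pow_le_pow_right hp.pos hij
  show p * m ≤ _
  rw [hsum] at hcount
  have h6 : (p + 1) * b ≤ Nat.card (Sylow p N) * b := Nat.mul_le_mul_right b hn3
  have h7 : p * m + a ≤ m + a + (p * b) := by
    rw [hb] at hpa ⊢
    nlinarith
  nlinarith

end Cfsg.Agent.S4092
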