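import Cfsg.Statements.S4093
import Cfsg.Agent.Lib.SylowTI

set_option autoImplicit false
open scoped BigOperators
open Cfsg

namespace Cfsg.Agent.S4093

open Cfsg.Agent.Lib.SylowTI

theorem card_N_class {G : Type*} [Group G] [Finite G] [DecidableEq G] [Fintype G] (N : Subgroup G) (x : G) [Fintype N] :
    ((Finset.univ : Finset N).image (fun n : N => (n : G) * x * (n : G)⁻¹)).card *
      Nat.card (N ⊓ Subgroup.centralizer ({x} : Set G) : Subgroup G) = Nat.card N := by
  let C : Subgroup N := (Subgroup.centralizer ({x} : Set G)).subgroupOf N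
  have key : ∀ a b : N, (a : G) * x * (a : G)⁻¹ = (b : G) * x * (b : G)⁻¹ ↔ a⁻¹ * b ∈ C := by
    intro a b
    rw [Subgroup.mem_subgroupOf, Subgroup.mem_centralizer_singleton_iff]
    simp only [Subgroup.coe_mul, Subgroup.coe_inv]
    constructor
    · intro h
      have : (a : G)⁻¹ * b * x = (a : G)⁻¹ * ((b : G) * x * (b : G)⁻¹) * b := by group
      rw [this, ← h]; group
    · intro h
      have : (b : G) * x * (b : G)⁻¹ = a * ((a : G)⁻¹ * b * x) * (b : G)⁻¹ := by group
      rw [this, h]; group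
  let f : N ⧸ C → ↥((Finset.univ : Finset N).image (fun n : N => (n : G) * x * (n : G)⁻¹)) :=
    Quotient.lift (fun g => ⟨(g : G) * x * (g : G)⁻¹, Finset.mem_image.2 ⟨g, Finset.mem_univ _, rfl⟩⟩)
      (fun a b hab => Subtype.ext ((key a b).2 (QuotientGroup.leftRel_apply.1 hab)))
  have hf : Function.Bijective f := by
    constructor
    · intro a b
      induction a using QuotientGroup.induction_on with | _ a => ?_
      induction b using QuotientGroup.induction_on with | _ b => ?_
      intro h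
      have h1 : (a : G) * x * (a : G)⁻¹ = (b : G) * x * (b : G)⁻¹ := congrArg Subtype.val h
      exact QuotientGroup.eq.2 ((key a b).1 h1)
    · rintro ⟨y, hy⟩
      obtain ⟨g, -, rfl⟩ := Finset.mem_image.1 hy
      exact ⟨QuotientGroup.mk g, rfl⟩
  have h1 := Nat.card_eq_of_bijective f hf
  have h2 : C.index = ((Finset.univ : Finset N).image (fun n : N => (n : G) * x * (n : G)⁻¹)).card := by
    rw [Subgroup.index, h1, Nat.card_eq_fintype_card, Fintype.card_coe]
  have h3 : Nat.card C = Nat.card (N ⊓ Subgroup.centralizer ({x} : Set G) : Subgroup G) := by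
    have := Subgroup.subgroupOf_map_subtype (Subgroup.centralizer ({x} : Set G)) N
    rw [inf_comm, ← this, Subgroup.card_map_of_injective N.subtype_injective]
  rw [← h2, ← h3]
  exact C.index_mul_card

/-- Let G be a finite group with a normal subgroup N complementing a Sylow p-subgroup P (a normal p-complement). Then the number of elements of G of p-power order equals the sum over x ∈ P of the index of C_N(x) in N. -/
theorem result {G : Type*} [Group G] [Finite G] (p : ℕ) [Fact p.Prime]
    (P : Sylow p G) (N : Subgroup G) [N.Normal] (hNP : N.IsComplement' (P : Subgroup G)) :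
    Nat.card {g : G // ∃ k : ℕ, orderOf g = p ^ k} =
      ∑ᶠ x : (P : Subgroup G), Nat.card N / Nat.card ↥(N ⊓ Subgroup.centralizer ({(x : G)} : Set G)) := by
  classical
  haveI := Fintype.ofFinite G
  haveI : Fintype N := Fintype.ofFinite N
  haveI : Fintype (P : Subgroup G) := Fintype.ofFinite _
  have hp : p.Prime := Fact.out
  rw [finsum_eq_sum_of_fintype]
  have hsupNP : N ⊔ (P : Subgroup G) = ⊤ := hNP.sup_eq_top
  have hinf : N ⊓ (P : Subgroup G) = ⊥ := hNP.disjoint.eq_bot
  have hNn : N.Normal := inferInstance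
  have hcover : ∀ g : G, ∃ x : (P : Subgroup G), (x : G)⁻¹ * g ∈ N := by
    intro g
    have hg : g ∈ (P : Subgroup G) ⊔ N := by rw [sup_comm, hsupNP]; trivial
    rw [Subgroup.mem_sup_of_normal_right] at hg
    obtain ⟨x, hx, n, hn, rfl⟩ := hg
    refine ⟨⟨x, hx⟩, ?_⟩
    simpa using hn
  have hdisj : ∀ (x y : (P : Subgroup G)) (g : G), (x : G)⁻¹ * g ∈ N → (y : G)⁻¹ * g ∈ N → x = y := by
    intro x y g hx hy
    have h1 : (x : G)⁻¹ * y ∈ N := by
      have : (x : G)⁻¹ * y = ((x : G)⁻¹ * g) * ((y : G)⁻¹ * g)⁻¹ := by group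
      rw [this]
      exact N.mul_mem hx (N.inv_mem hy)
    have h2 : (x : G)⁻¹ * y ∈ N ⊓ (P : Subgroup G) :=
      ⟨h1, Subgroup.mul_mem _ (Subgroup.inv_mem _ x.2) y.2⟩
    rw [hinf, Subgroup.mem_bot] at h2
    apply Subtype.ext
    exact (inv_mul_eq_one.1 h2)
  let U : Finset G := Finset.univ.filter (fun g => ∃ k : ℕ, orderOf g = p ^ k)
  have hUcard : Nat.card {g : G // ∃ k : ℕ, orderOf g = p ^ k} = U.card :=
    Nat.subtype_card _ (by simp [U])
  rw [hUcard]
  let F : ↥(P : Subgroup G) → Finset G := fun x => U.filter (fun g => (x : G)⁻¹ * g ∈ N)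
  have hUF : U = Finset.univ.biUnion F := by
    ext g
    simp only [F, Finset.mem_biUnion, Finset.mem_filter, Finset.mem_univ, true_and]
    constructor
    · intro hg
      obtain ⟨x, hx⟩ := hcover g
      exact ⟨x, hg, hx⟩
    · rintro ⟨x, hg, -⟩
      exact hg
  have hpd : (↑(Finset.univ : Finset (P : Subgroup G)) : Set (P : Subgroup G)).PairwiseDisjoint F := by
    intro x _ y _ hne
    rw [Function.onFun, Finset.disjoint_left]
    intro g hg hg'
    simp only [F, Finset.mem_filter] at hg hg'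
    exact hne (hdisj x y g hg.2 hg'.2)
  rw [hUF, Finset.card_biUnion hpd]
  apply Finset.sum_congr rfl
  intro x _
  have hpx : ∃ k : ℕ, orderOf (x : G) = p ^ k := by
    obtain ⟨k, hk⟩ := (IsPGroup.iff_orderOf.1 P.2) x
    exact ⟨k, by simpa using hk⟩
  have hFx : F x = (Finset.univ : Finset N).image (fun n : N => (n : G) * x * (n : G)⁻¹) := by
    ext g
    simp only [F, U, Finset.mem_filter, Finset.mem_univ, true_and, Finset.mem_image]
    constructor
    · rintro ⟨⟨k, hk⟩, hg⟩
      have hpow : g ^ (p ^ k) = 1 := by rw [← hk, pow_orderOf_eq_one]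
      obtain ⟨S, hS⟩ := exists_sylow_of_pelt hpow
      obtain ⟨t, rfl⟩ := MulAction.exists_smul_eq G P S
      rw [mem_smul] at hS
      have ht : t ∈ N ⊔ (P : Subgroup G) := by rw [hsupNP]; trivial
      rw [Subgroup.mem_sup_of_normal_left] at ht
      obtain ⟨n, hn, u, hu, rfl⟩ := ht
      have hy : (n : G)⁻¹ * g * n ∈ (P : Subgroup G) := by
        have e : (n : G)⁻¹ * g * n = u * ((n * u)⁻¹ * g * (n * u)) * u⁻¹ := by group
        rw [e]
        exact Subgroup.mul_mem _ (Subgroup.mul_mem _ hu hS) (Subgroup.inv_mem _ hu)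
      have h1 : ((⟨_, hy⟩ : (P : Subgroup G)) : G)⁻¹ * g ∈ N := by
        show ((n : G)⁻¹ * g * n)⁻¹ * g ∈ N
        have e : ((n : G)⁻¹ * g * n)⁻¹ * g = n⁻¹ * (g⁻¹ * n * g) := by group
        rw [e]
        apply N.mul_mem (N.inv_mem hn)
        have := hNn.conj_mem n hn g⁻¹
        simpa using this
      have h2 := hdisj _ _ g hg h1
      refine ⟨⟨n, hn⟩, ?_⟩
      rw [h2]
      show n * ((n : G)⁻¹ * g * n) * n⁻¹ = g
      group
    · rintro ⟨n, rfl⟩
      constructor
      · obtain ⟨k, hk⟩ := hpx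
        refine ⟨k, ?_⟩
        rw [← hk]
        exact (MulAut.conj (n : G)).orderOf_eq (x : G)
      · have e : (x : G)⁻¹ * ((n : G) * x * (n : G)⁻¹) = ((x : G)⁻¹ * n * x) * (n : G)⁻¹ := by group
        rw [e]
        apply N.mul_mem _ (N.inv_mem n.2)
        have := hNn.conj_mem n n.2 (x : G)⁻¹
        simpa using this
  rw [hFx]
  have h1 := card_N_class N (x : G)
  rw [← h1, Nat.mul_div_cancel _ Nat.card_pos]

end Cfsg.Agent.S4093
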