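import Mathlib
import Cfsg.Statements.S4106
-- import your own Cfsg.Agent.* helpers here

set_option autoImplicit false
open Cfsg

namespace Cfsg.Agent.S4106

universe u

/-- classes of elements with all order primes in `S`. -/
abbrev Cl (G : Type u) [Group G] (π : Set ℕ) : Type u :=
  {C : ConjClasses G // ∀ q : ℕ, q.Prime → (∃ g : G, ConjClasses.mk g = C ∧ q ∣ orderOf g) → q ∈ π}

/-- The product bound. -/
noncomputable def part (n : ℕ) (S : Finset ℕ) : ℕ := ∏ p ∈ S, p ^ n.factorization p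

theorem part_mono {a b : ℕ} (h : a ∣ b) (hb : b ≠ 0) (S : Finset ℕ) (hS : ∀ p ∈ S, p.Prime) : part a S ≤ part b S := by
  apply Finset.prod_le_prod'
  intro p hp
  exact Nat.pow_le_pow_right (hS p hp).pos ((Nat.factorization_le_iff_dvd (ne_zero_of_dvd_ne_zero hb h) hb).mpr h p)

theorem split {G : Type u} [Group G] [Finite G] (p : ℕ) (hp : p.Prime) (g : G) :
    ∃ u v : G, g = u * v ∧ Commute u v ∧ (∃ a : ℕ, u ^ p ^ a = 1) ∧ ¬ p ∣ orderOf v ∧ orderOf v ∣ orderOf g := by
  have hpos : orderOf g ≠ 0 := (orderOf_pos g).ne'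
  obtain ⟨a, b, hb, hab⟩ := Nat.exists_eq_pow_mul_and_not_dvd hpos p hp.ne_one
  have hc : Nat.Coprime (p ^ a) b := Nat.Coprime.pow_left _ ((Nat.Prime.coprime_iff_not_dvd hp).mpr hb)
  have h1 : (1 : ℤ) = (p ^ a : ℕ) * Nat.gcdA (p ^ a) b + b * Nat.gcdB (p ^ a) b := by
    have := Nat.gcd_eq_gcd_ab (p ^ a) b
    rw [hc] at this
    exact_mod_cast this
  refine ⟨g ^ ((b : ℤ) * Nat.gcdB (p ^ a) b), g ^ (((p ^ a : ℕ) : ℤ) * Nat.gcdA (p ^ a) b), ?_, ?_, ⟨a, ?_⟩, ?_, ?_⟩
  · rw [← zpow_add, add_comm, ← h1, zpow_one]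
  · exact (Commute.refl g).zpow_zpow _ _
  · rw [← zpow_natCast, ← zpow_mul]
    have : (b : ℤ) * Nat.gcdB (p ^ a) b * ((p ^ a : ℕ) : ℤ) = ((orderOf g : ℕ) : ℤ) * Nat.gcdB (p ^ a) b := by
      rw [hab]; push_cast; ring
    rw [this, zpow_mul, zpow_natCast, pow_orderOf_eq_one, one_zpow]
  · have h2 : (g ^ (((p ^ a : ℕ) : ℤ) * Nat.gcdA (p ^ a) b)) ^ b = 1 := by
      rw [← zpow_natCast, ← zpow_mul]
      have : ((p ^ a : ℕ) : ℤ) * Nat.gcdA (p ^ a) b * (b : ℤ) = ((orderOf g : ℕ) : ℤ) * Nat.gcdA (p ^ a) b := by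
        rw [hab]; push_cast; ring
      rw [this, zpow_mul, zpow_natCast, pow_orderOf_eq_one, one_zpow]
    intro h3
    exact hb (h3.trans (orderOf_dvd_of_pow_eq_one h2))
  · have h2 : (g ^ (((p ^ a : ℕ) : ℤ) * Nat.gcdA (p ^ a) b)) ^ (orderOf g) = 1 := by
      rw [← zpow_natCast, ← zpow_mul, mul_comm, zpow_mul, zpow_natCast, pow_orderOf_eq_one, one_zpow]
    exact orderOf_dvd_of_pow_eq_one h2

theorem exists_decomp {G : Type u} [Group G] [Finite G] (S : Set ℕ) (p : ℕ) [Fact p.Prime] (P : Sylow p G)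
    (C : Cl G (insert p S)) :
    ∃ x : Σ u : (P : Subgroup G), Cl (Subgroup.centralizer ({(u : G)} : Set G)) S,
      ∃ v : Subgroup.centralizer ({(x.1 : G)} : Set G), ConjClasses.mk v = x.2.1 ∧ ConjClasses.mk ((x.1 : G) * v) = C.1 := by
  classical
  obtain ⟨C0, hC0⟩ := C
  obtain ⟨g, rfl⟩ := ConjClasses.mk_surjective C0
  obtain ⟨u, v, hg, hc, ⟨a, ha⟩, hpv, hvd⟩ := split p Fact.out g
  -- conjugate `u` into `P`
  have hpg : IsPGroup p (Subgroup.zpowers u) := by
    rw [IsPGroup.iff_card]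
    have h1 : orderOf u ∣ p ^ a := orderOf_dvd_of_pow_eq_one ha
    obtain ⟨k, -, hk⟩ := (Nat.dvd_prime_pow Fact.out).mp h1
    exact ⟨k, by rw [Nat.card_zpowers, hk]⟩
  obtain ⟨Q, hQ⟩ := hpg.exists_le_sylow
  obtain ⟨c, hc2⟩ := MulAction.exists_smul_eq G Q P
  have hu : c * u * c⁻¹ ∈ (P : Subgroup G) := by
    have h1 : u ∈ (Q : Subgroup G) := hQ (Subgroup.mem_zpowers u)
    rw [← hc2, Sylow.coe_subgroup_smul]
    exact Subgroup.smul_mem_pointwise_smul _ (MulAut.conj c) _ h1
  set u' : (P : Subgroup G) := ⟨c * u * c⁻¹, hu⟩ with hu'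
  have hv' : c * v * c⁻¹ ∈ Subgroup.centralizer ({(u' : G)} : Set G) := by
    rw [Subgroup.mem_centralizer_singleton_iff]
    show c * v * c⁻¹ * (c * u * c⁻¹) = c * u * c⁻¹ * (c * v * c⁻¹)
    have : v * u = u * v := hc.symm.eq
    calc c * v * c⁻¹ * (c * u * c⁻¹) = c * (v * u) * c⁻¹ := by group
      _ = c * (u * v) * c⁻¹ := by rw [this]
      _ = _ := by group
  set v' : Subgroup.centralizer ({(u' : G)} : Set G) := ⟨c * v * c⁻¹, hv'⟩ with hv'def
  have hordv : orderOf v' = orderOf v := by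
    rw [← Subgroup.orderOf_coe]
    show orderOf (c * v * c⁻¹) = _
    exact (MulAut.conj c).orderOf_eq v
  have hmem : ∀ q : ℕ, q.Prime → (∃ g' : Subgroup.centralizer ({(u' : G)} : Set G), ConjClasses.mk g' = ConjClasses.mk v' ∧ q ∣ orderOf g') → q ∈ S := by
    rintro q hq ⟨g', hg1, hg2⟩
    have h1 : IsConj g' v' := ConjClasses.mk_eq_mk_iff_isConj.mp hg1
    have h2 : orderOf g' = orderOf v' := by
      obtain ⟨w, hw⟩ := isConj_iff.mp h1
      rw [← hw]
      exact ((MulAut.conj w).orderOf_eq g').symm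
    rw [h2, hordv] at hg2
    have h3 : q ∈ insert p S := hC0 q hq ⟨g, rfl, hg2.trans hvd⟩
    rcases h3 with h3 | h3
    · exact absurd (h3 ▸ hg2) hpv
    · exact h3
  refine ⟨⟨u', ⟨ConjClasses.mk v', hmem⟩⟩, v', rfl, ?_⟩
  apply ConjClasses.mk_eq_mk_iff_isConj.mpr
  apply isConj_iff.mpr
  refine ⟨c⁻¹, ?_⟩
  show c⁻¹ * (c * u * c⁻¹ * (c * v * c⁻¹)) * c⁻¹⁻¹ = g
  rw [hg]; group

theorem main (S : Finset ℕ) (hS : ∀ p ∈ S, p.Prime) : ∀ (G : Type u) [Group G] [Finite G],
    Nat.card (Cl G (S : Set ℕ)) ≤ part (Nat.card G) S := by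
  classical
  induction S using Finset.induction_on with
  | empty =>
    intro G _ _
    have : Subsingleton (Cl G ((∅ : Finset ℕ) : Set ℕ)) := by
      constructor
      rintro ⟨C, hC⟩ ⟨D, hD⟩
      have key : ∀ (C : ConjClasses G), (∀ q : ℕ, q.Prime → (∃ g : G, ConjClasses.mk g = C ∧ q ∣ orderOf g) → q ∈ ((∅ : Finset ℕ) : Set ℕ)) → C = ConjClasses.mk 1 := by
        intro C hC
        obtain ⟨g, rfl⟩ := ConjClasses.mk_surjective C
        by_cases hg : orderOf g = 1
        · rw [orderOf_eq_one_iff.mp hg]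
        · obtain ⟨q, hq, hqd⟩ := Nat.exists_prime_and_dvd hg
          exact absurd (hC q hq ⟨g, rfl, hqd⟩) (by simp)
      apply Subtype.ext
      exact (key C hC).trans (key D hD).symm
    have h1 : Nat.card (Cl G ((∅ : Finset ℕ) : Set ℕ)) ≤ 1 := Finite.card_le_one_iff_subsingleton.mpr this
    simpa [part] using h1
  | insert p S hpS ih =>
    intro G _ _
    have hp : p.Prime := hS p (Finset.mem_insert_self _ _)
    have hS' : ∀ q ∈ S, q.Prime := fun q hq => hS q (Finset.mem_insert_of_mem hq)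
    have ih' := ih hS'
    haveI : Fact p.Prime := ⟨hp⟩
    let P : Sylow p G := default
    haveI : Fintype (P : Subgroup G) := Fintype.ofFinite _
    have hcoe : ((insert p S : Finset ℕ) : Set ℕ) = insert p (S : Set ℕ) := Finset.coe_insert p S
    rw [hcoe]
    have hex := exists_decomp (S : Set ℕ) p P
    choose f hf using hex
    have hinj : Function.Injective f := by
      intro C D hCD
      have hD := hf D
      rw [← hCD] at hD
      obtain ⟨v, hv1, hv2⟩ := hf C
      obtain ⟨w, hw1, hw2⟩ := hD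
      apply Subtype.ext
      rw [← hv2, ← hw2]
      have hvw : ConjClasses.mk v = ConjClasses.mk w := by rw [hv1, hw1]
      have h1 : IsConj v w := ConjClasses.mk_eq_mk_iff_isConj.mp hvw
      obtain ⟨c, hc⟩ := isConj_iff.mp h1
      apply ConjClasses.mk_eq_mk_iff_isConj.mpr
      apply isConj_iff.mpr
      refine ⟨c, ?_⟩
      have hcu : (c : G) * ((f C).1 : G) = ((f C).1 : G) * (c : G) := by
        have := c.2
        rw [Subgroup.mem_centralizer_singleton_iff] at this
        exact this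
      have hc' : (c : G) * (v : G) * (c : G)⁻¹ = (w : G) := by
        have := congrArg Subtype.val hc
        simpa using this
      calc (c : G) * (((f C).1 : G) * (v : G)) * (c : G)⁻¹ = ((c : G) * ((f C).1 : G)) * (v : G) * (c : G)⁻¹ := by group
        _ = ((f C).1 : G) * ((c : G) * (v : G) * (c : G)⁻¹) := by rw [hcu]; group
        _ = _ := by rw [hc']
    have h1 := Nat.card_le_card_of_injective f hinj
    rw [Nat.card_sigma] at h1
    have h2 : ∀ u : (P : Subgroup G), Nat.card (Cl (Subgroup.centralizer ({(u : G)} : Set G)) (S : Set ℕ)) ≤ part (Nat.card G) S := by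
      intro u
      refine (ih' _).trans (part_mono ?_ (Nat.card_pos.ne') S hS')
      exact Subgroup.card_subgroup_dvd_card _
    have h3 := Finset.sum_le_card_nsmul Finset.univ (fun u : (P : Subgroup G) => Nat.card (Cl (Subgroup.centralizer ({(u : G)} : Set G)) (S : Set ℕ))) (part (Nat.card G) S) (fun u _ => h2 u)
    refine h1.trans (h3.trans ?_)
    rw [smul_eq_mul, Finset.card_univ, ← Nat.card_eq_fintype_card, Sylow.card_eq_multiplicity]
    unfold part
    rw [Finset.prod_insert hpS]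

/-- Let G be a finite group, π a set of primes and m the π-part of the order of G. Then the number of conjugacy classes of G consisting of π-elements (elements whose order is divisible only by primes in π) is at most m. -/
theorem result {G : Type*} [Group G] [Finite G]
    (π : Set ℕ) (hπ : ∀ q ∈ π, q.Prime)
    (m : ℕ) (hm : m ∣ Nat.card G) (hmπ : ∀ q : ℕ, q.Prime → q ∣ m → q ∈ π)
    (hm' : ∀ q ∈ π, ¬ q ∣ Nat.card G / m) :
    Nat.card {C : ConjClasses G // ∀ q : ℕ, q.Prime → (∃ g : G, ConjClasses.mk g = C ∧ q ∣ orderOf g) → q ∈ π} ≤ m := by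
  classical
  let T : Finset ℕ := (Nat.card G).primeFactors.filter (· ∈ π)
  have hT : ∀ p ∈ T, p.Prime := fun p hp => Nat.prime_of_mem_primeFactors (Finset.mem_filter.mp hp).1
  have hcpos : Nat.card G ≠ 0 := Nat.card_pos.ne'
  have h1 := main T hT G
  have h2 : Nat.card (Cl G π) ≤ Nat.card (Cl G (T : Set ℕ)) := by
    refine Nat.card_le_card_of_injective (fun C => (⟨C.1, ?_⟩ : Cl G (T : Set ℕ))) ?_
    · rintro q hq ⟨g, hg, hqd⟩
      have h3 : q ∈ π := C.2 q hq ⟨g, hg, hqd⟩
      have h4 : q ∣ Nat.card G := hqd.trans (orderOf_dvd_natCard g)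
      simp only [T, Finset.coe_filter, Set.mem_setOf_eq]
      exact ⟨Nat.mem_primeFactors.mpr ⟨hq, h4, hcpos⟩, h3⟩
    · intro C D h
      apply Subtype.ext
      exact congrArg (fun x : Cl G (T : Set ℕ) => x.1) h
  have hmpos : 0 < m := Nat.pos_of_ne_zero (ne_zero_of_dvd_ne_zero hcpos hm)
  have h5 : part (Nat.card G) T ∣ m := by
    unfold part
    apply Finset.prod_dvd_of_isRelPrime
    · intro a ha b hb hab
      have ha' := hT a ha
      have hb' := hT b hb
      exact (Nat.coprime_iff_isRelPrime).mp (Nat.Coprime.pow _ _ ((Nat.coprime_primes ha' hb').mpr hab))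
    · intro p hp
      have hpπ : p ∈ π := (Finset.mem_filter.mp hp).2
      have hpp := hT p hp
      have h6 : p ^ (Nat.card G).factorization p ∣ m * (Nat.card G / m) := by
        rw [Nat.mul_div_cancel' hm]
        exact Nat.ordProj_dvd _ _
      have h7 : Nat.Coprime (p ^ (Nat.card G).factorization p) (Nat.card G / m) :=
        Nat.Coprime.pow_left _ ((Nat.Prime.coprime_iff_not_dvd hpp).mpr (hm' p hpπ))
      exact h7.dvd_of_dvd_mul_right h6
  exact h2.trans (h1.trans (Nat.le_of_dvd hmpos h5))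

end Cfsg.Agent.S4106
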