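import Mathlib
import Cfsg.Statements.S4107
import Cfsg.Agent.Lib.FitCore
import Cfsg.Agent.Lib.CoprimeAct
import Cfsg.Agent.Lib.H6Parts
-- import your own Cfsg.Agent.* helpers here

set_option autoImplicit false
open Cfsg

namespace Cfsg.Agent.S4107

open Cfsg.Agent.Lib

section
variable {G : Type*} [Group G] [Finite G]

/-- A `q`-element of the Fitting subgroup lies in `O_q(G)`. -/
theorem mem_pCore_of_mem_fitting (q : ℕ) [hq : Fact q.Prime] {z : G}
    (hz : z ∈ Cfsg.fittingSubgroup G) {k : ℕ} (hk : orderOf z = q ^ k) : z ∈ Cfsg.pCore q G := by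
  haveI hFn := FitCore.fitting_normal (G := G)
  have h1 := FitCore.relIndex_pCore_not_dvd_fitting (G := G) q
  set F := Cfsg.fittingSubgroup G with hF
  haveI hPn := FitCore.pCore_normal (G := G) q
  have h2 : ((⟨z, hz⟩ : F) ^ (Cfsg.pCore q G).relIndex F) ∈ (Cfsg.pCore q G).subgroupOf F :=
    Subgroup.pow_index_mem _ _
  have h3 : z ^ (Cfsg.pCore q G).relIndex F ∈ Cfsg.pCore q G := h2
  have hcop : ((Cfsg.pCore q G).relIndex F).Coprime (orderOf z) := by
    rw [hk]
    exact Nat.Coprime.pow_right k ((Nat.Prime.coprime_iff_not_dvd hq.out).mpr h1).symm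
  have h4 : z ∈ Subgroup.zpowers (z ^ (Cfsg.pCore q G).relIndex F) := by
    obtain ⟨a, b, hab⟩ := Nat.isCoprime_iff_coprime.mpr hcop
    refine Subgroup.mem_zpowers_iff.mpr ⟨a, ?_⟩
    have h5 : z ^ ((orderOf z : ℤ)) = 1 := by
      rw [zpow_natCast]; exact pow_orderOf_eq_one z
    rw [← zpow_natCast z, ← zpow_mul]
    calc z ^ ((((Cfsg.pCore q G).relIndex F : ℕ) : ℤ) * a)
        = z ^ (a * (((Cfsg.pCore q G).relIndex F : ℕ) : ℤ) + b * (orderOf z : ℤ)) * (z ^ (orderOf z : ℤ)) ^ (-b) := by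
          rw [← zpow_mul, ← zpow_add]; congr 1; ring
      _ = z := by rw [hab, h5, one_zpow, mul_one, zpow_one]
  exact (Subgroup.zpowers_le.mpr h3) h4

theorem key_pgroup (N : Subgroup G) [N.Normal]
    (heq : ∀ x : G, x ∉ N → ∀ n ∈ N, orderOf (x * n) = orderOf x) (q : ℕ) [hq : Fact q.Prime] {z : G}
    (hzF : z ∈ Cfsg.fittingSubgroup G) {k : ℕ} (hk : orderOf z = q ^ k) (hzN : z ∉ N) :
    IsPGroup q N := by
  refine CoprimeAct.isPGroup_of_coprime_eq_one ?_
  intro n hn hcop
  have hzP := mem_pCore_of_mem_fitting q hzF hk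
  haveI hPn := FitCore.pCore_normal (G := G) q
  have h1 : orderOf (z * n) = q ^ k := by rw [heq z hzN n hn, hk]
  have h2 : (z * n) ^ (q ^ k) = 1 := by rw [← h1]; exact pow_orderOf_eq_one _
  have h3 : n ^ (q ^ k) ∈ Cfsg.pCore q G := by
    have h4 : (QuotientGroup.mk' (Cfsg.pCore q G)) ((z * n) ^ (q ^ k)) = 1 := by rw [h2, map_one]
    rw [map_pow, map_mul] at h4
    have h5 : (QuotientGroup.mk' (Cfsg.pCore q G)) z = 1 := by
      rw [← MonoidHom.mem_ker, QuotientGroup.ker_mk']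
      exact hzP
    rw [h5, one_mul, ← map_pow, ← MonoidHom.mem_ker, QuotientGroup.ker_mk'] at h4
    exact h4
  have hco2 : (orderOf (n ^ (q ^ k))).Coprime q := by
    have h6 : orderOf (n ^ (q ^ k)) ∣ orderOf n := orderOf_pow_dvd _
    exact Nat.Coprime.coprime_dvd_left h6 hcop
  have h7 := CoprimeAct.eq_one_of_mem_pgroup_of_coprime (FitCore.pCore_isPGroup (G := G) q) h3 hco2
  have h8 : orderOf n ∣ q ^ k := orderOf_dvd_of_pow_eq_one h7
  have h9 : (orderOf n).Coprime (q ^ k) := Nat.Coprime.pow_right k hcop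
  exact orderOf_eq_one_iff.mp (Nat.eq_one_of_dvd_coprimes h9 dvd_rfl h8)

theorem exists_prime_part (N : Subgroup G) {x : G} (hx : x ∉ N) :
    ∃ q : ℕ, q.Prime ∧ ∃ z ∈ Subgroup.zpowers x, (∃ k : ℕ, orderOf z = q ^ k) ∧ z ∉ N := by
  by_contra hcon
  push_neg at hcon
  apply hx
  exact H6Parts.parts_induction (fun a => a ∈ N) (fun a b ha hb => N.mul_mem ha hb) _ x rfl
    (fun q hq z hz hzo => hcon q hq z hz hzo)

end


/-- Let G be a finite group and N a proper non-trivial normal subgroup such that for every x outside N all elements of the coset xN have the same order as x. Then N ≤ F(G) or F(G) ≤ N, where F(G) is the Fitting subgroup; and if N is properly contained in F(G) then F(G) has prime-power order. -/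
theorem result {G : Type*} [Group G] [Finite G] (N : Subgroup G) [N.Normal] (hN1 : N ≠ ⊥) (hN2 : N ≠ ⊤)
    (heq : ∀ x : G, x ∉ N → ∀ n ∈ N, orderOf (x * n) = orderOf x) :
    (N ≤ Cfsg.fittingSubgroup G ∨ Cfsg.fittingSubgroup G ≤ N) ∧
    (N < Cfsg.fittingSubgroup G → IsPrimePow (Nat.card (Cfsg.fittingSubgroup G))) := by
  classical
  haveI hFn := FitCore.fitting_normal (G := G)
  set F := Cfsg.fittingSubgroup G with hF
  have hmain : ∀ x ∈ F, x ∉ N → ∃ q : ℕ, ∃ _ : Fact q.Prime, IsPGroup q N := by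
    intro x hxF hxN
    obtain ⟨q, hq, z, hz, ⟨k, hk⟩, hzN⟩ := exists_prime_part N hxN
    haveI : Fact q.Prime := ⟨hq⟩
    have hzF : z ∈ F := Subgroup.zpowers_le.mpr hxF hz
    exact ⟨q, inferInstance, key_pgroup N heq q hzF hk hzN⟩
  constructor
  · by_cases hFN : F ≤ N
    · exact Or.inr hFN
    · left
      obtain ⟨x, hxF, hxN⟩ := SetLike.not_le_iff_exists.mp hFN
      obtain ⟨q, _, hq⟩ := hmain x hxF hxN
      have h1 : N ≤ Cfsg.pCore q G := FitCore.le_pCore q N inferInstance hq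
      exact h1.trans (FitCore.pCore_le_fitting q)
  · intro hlt
    obtain ⟨x, hxF, hxN⟩ := SetLike.exists_of_lt hlt
    obtain ⟨q, _, hq⟩ := hmain x hxF hxN
    have hqp := (Fact.out : q.Prime)
    have hFq : IsPGroup q F := by
      refine CoprimeAct.isPGroup_of_coprime_eq_one ?_
      intro y hy hcop
      by_contra hy1
      have hy2 : orderOf y ≠ 1 := fun h => hy1 (orderOf_eq_one_iff.mp h)
      obtain ⟨r, hr, hrd⟩ := Nat.exists_prime_and_dvd hy2
      haveI : Fact r.Prime := ⟨hr⟩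
      obtain ⟨m, hm⟩ := hrd
      let z := y ^ m
      have hzo : orderOf z = r := by
        have h3 : m ∣ orderOf y := ⟨r, by rw [hm, mul_comm]⟩
        have hm0 : m ≠ 0 := by
          rintro rfl
          rw [mul_zero] at hm
          exact (orderOf_pos y).ne' hm
        rw [orderOf_pow_of_dvd hm0 h3, hm]
        exact Nat.mul_div_cancel _ (Nat.pos_of_ne_zero hm0)
      have hrq : r ≠ q := by
        rintro rfl
        have : r ∣ orderOf y := ⟨m, hm⟩
        have h2 := Nat.dvd_gcd this dvd_rfl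
        rw [hcop] at h2
        exact hr.one_lt.ne' (Nat.dvd_one.mp h2)
      have hzN : z ∉ N := by
        intro hz
        obtain ⟨t, ht⟩ := (IsPGroup.iff_orderOf.mp hq) ⟨z, hz⟩
        rw [Subgroup.orderOf_mk, hzo] at ht
        have h4 : r ∣ q ^ t := ht ▸ dvd_rfl
        have h5 := (Nat.prime_dvd_prime_iff_eq hr hqp).mp (hr.dvd_of_dvd_pow h4)
        exact hrq h5
      have hzF : z ∈ F := F.pow_mem hy m
      have hNr : IsPGroup r N := key_pgroup N heq r hzF (k := 1) (by rw [hzo, pow_one]) hzN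
      exact hN1 (disjoint_self.mp (IsPGroup.disjoint_of_ne q r hrq.symm N N hq hNr))
    obtain ⟨t, ht⟩ := IsPGroup.iff_card.mp hFq
    have ht0 : t ≠ 0 := by
      rintro rfl
      rw [pow_zero] at ht
      have : F = ⊥ := Subgroup.eq_bot_of_card_eq F ht
      rw [this] at hlt
      exact absurd hlt (not_lt_bot)
    rw [ht]
    exact (isPrimePow_nat_iff _).mpr ⟨q, t, hqp, Nat.pos_of_ne_zero ht0, rfl⟩

end Cfsg.Agent.S4107
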