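import Mathlib
import Cfsg.Statements.S4108
-- import your own Cfsg.Agent.* helpers here

set_option autoImplicit false
open Cfsg

namespace Cfsg.Agent.S4108

open scoped Pointwise

theorem mem_conj' {G : Type*} [Group G] (H : Subgroup G) (x y : G) : x ∈ MulAut.conj y • H ↔ y⁻¹ * x * y ∈ H := by
  rw [Subgroup.mem_pointwise_smul_iff_inv_smul_mem]
  simp [MulAut.smul_def]


/-- Let G be a finite group, p a prime and N a proper non-trivial normal p-subgroup such that for every x outside N all elements of the coset xN have the same order as x. Then every non-trivial subgroup H of G of order prime to p acts fixed-point-freely on N: NH is a Frobenius group with complement H and kernel N. -/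
theorem result {G : Type*} [Group G] [Finite G] (N : Subgroup G) [N.Normal] (hN1 : N ≠ ⊥) (hN2 : N ≠ ⊤)
    (heq : ∀ x : G, x ∉ N → ∀ n ∈ N, orderOf (x * n) = orderOf x)
    (p : ℕ) [Fact p.Prime] (hNp : IsPGroup p N) :
    ∀ H : Subgroup G, H ≠ ⊥ → (Nat.card H).Coprime p →
      Cfsg.IsFrobeniusComplement (H.subgroupOf (N ⊔ H)) ∧ Cfsg.frobeniusKernel (H.subgroupOf (N ⊔ H)) = (N.subgroupOf (N ⊔ H) : Set ↥(N ⊔ H)) := by
  intro H hH1 hHp
  have hp := (Fact.out : p.Prime)
  obtain ⟨k, hk⟩ := IsPGroup.iff_card.mp hNp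
  have hdisj : ∀ x, x ∈ N → x ∈ H → x = 1 := by
    intro x h1 h2
    have h3 : orderOf x ∣ p ^ k := by
      rw [← hk]
      have := orderOf_dvd_natCard (⟨x, h1⟩ : N)
      rwa [Subgroup.orderOf_mk] at this
    have h4 : orderOf x ∣ Nat.card H := by
      have := orderOf_dvd_natCard (⟨x, h2⟩ : H)
      rwa [Subgroup.orderOf_mk] at this
    have h5 : (orderOf x).Coprime (p ^ k) :=
      Nat.Coprime.pow_right k (Nat.Coprime.coprime_dvd_left h4 hHp)
    exact orderOf_eq_one_iff.mp (Nat.Coprime.eq_one_of_dvd h5 h3)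
  have hfree : ∀ h ∈ H, h ≠ 1 → ∀ y ∈ N, h * y = y * h → y = 1 := by
    intro h hh hh1 y hy hc
    by_contra hy1
    have hy2 : orderOf y ∣ p ^ k := by
      rw [← hk]
      have := orderOf_dvd_natCard (⟨y, hy⟩ : N)
      rwa [Subgroup.orderOf_mk] at this
    obtain ⟨t, -, ht⟩ := (Nat.dvd_prime_pow hp).mp hy2
    have ht0 : t ≠ 0 := by
      rintro rfl
      rw [pow_zero] at ht
      exact hy1 (orderOf_eq_one_iff.mp ht)
    obtain ⟨s, rfl⟩ : ∃ s, t = s + 1 := ⟨t - 1, by omega⟩
    set w := y ^ p ^ s with hw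
    have hwo : orderOf w = p := by
      rw [hw, orderOf_pow' y (pow_pos hp.pos s).ne', ht, pow_succ]
      have h1 : (p ^ s * p).gcd (p ^ s) = p ^ s := Nat.gcd_eq_right (dvd_mul_right _ _)
      rw [h1]
      exact Nat.mul_div_cancel_left p (pow_pos hp.pos s)
    have hwN : w ∈ N := N.pow_mem hy _
    have hcw : Commute h w := (show Commute h y from hc).pow_right _
    have hhN : h ∉ N := fun hn => hh1 (hdisj h hn hh)
    have h1 := heq h hhN w hwN
    have hhco : (orderOf h).Coprime (orderOf w) := by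
      rw [hwo]
      refine Nat.Coprime.coprime_dvd_left ?_ hHp
      have := orderOf_dvd_natCard (⟨h, hh⟩ : H)
      rwa [Subgroup.orderOf_mk] at this
    rw [hcw.orderOf_mul_eq_mul_orderOf_of_coprime hhco, hwo] at h1
    have hpos : 0 < orderOf h := orderOf_pos h
    have : p = 1 := by
      apply Nat.eq_of_mul_eq_mul_left hpos
      rw [h1, mul_one]
    exact hp.ne_one this
  have hsurj : ∀ h ∈ H, h ≠ 1 → ∀ n ∈ N, ∃ m ∈ N, m * h * m⁻¹ * h⁻¹ = n := by
    intro h hh hh1 n hn
    let ψ : N → N := fun m => ⟨m * h * (m : G)⁻¹ * h⁻¹, by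
      have h1 : (m : G) * h * (m : G)⁻¹ * h⁻¹ = m * (h * (m : G)⁻¹ * h⁻¹) := by group
      rw [h1]
      exact N.mul_mem m.2 ((inferInstance : N.Normal).conj_mem _ (N.inv_mem m.2) h)⟩
    have hinj : Function.Injective ψ := by
      intro a b hab
      have h1 : (a : G) * h * (a : G)⁻¹ * h⁻¹ = b * h * (b : G)⁻¹ * h⁻¹ := congrArg Subtype.val hab
      have h2 : (a : G) * h * (a : G)⁻¹ = b * h * (b : G)⁻¹ := mul_right_cancel h1
      have h3 := hfree h hh hh1 ((b : G)⁻¹ * a) (N.mul_mem (N.inv_mem b.2) a.2) (by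
        calc h * ((b : G)⁻¹ * a) = (b : G)⁻¹ * (b * h * (b : G)⁻¹) * a := by group
          _ = (b : G)⁻¹ * ((a : G) * h * (a : G)⁻¹) * a := by rw [h2]
          _ = (b : G)⁻¹ * a * h := by group)
      apply Subtype.ext
      exact (inv_mul_eq_one.mp h3).symm
    obtain ⟨m, hm⟩ := (Finite.injective_iff_surjective.mp hinj) ⟨n, hn⟩
    exact ⟨m, m.2, congrArg Subtype.val hm⟩
  set T := N ⊔ H with hT
  have hNT : N ≤ T := le_sup_left
  have hHT : H ≤ T := le_sup_right
  have hdec : ∀ x : T, ∃ n ∈ N, ∃ h ∈ H, (x : G) = n * h := by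
    intro x
    obtain ⟨n, hn, h, hh, he⟩ := Subgroup.mem_sup_of_normal_left.mp x.2
    exact ⟨n, hn, h, hh, he.symm⟩
  have hmemH : ∀ x : T, x ∈ H.subgroupOf T ↔ (x : G) ∈ H := fun x => Subgroup.mem_subgroupOf
  refine ⟨⟨?_, ?_, ?_⟩, ?_⟩
  · intro hbot
    apply hH1
    rw [eq_bot_iff]
    intro h hh
    have h1 : (⟨h, hHT hh⟩ : T) ∈ H.subgroupOf T := (hmemH _).mpr hh
    rw [hbot, Subgroup.mem_bot] at h1
    have := congrArg Subtype.val h1
    simpa using this
  · intro htop
    apply hN1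
    rw [eq_bot_iff]
    intro n hn
    have h1 : (⟨n, hNT hn⟩ : T) ∈ H.subgroupOf T := by
      rw [htop]
      trivial
    exact hdisj n hn ((hmemH _).mp h1)
  · intro g hg
    rw [eq_bot_iff]
    rintro x ⟨hx1, hx2⟩
    rw [Subgroup.mem_bot]
    by_contra hx
    have hx1' : (x : G) ∈ H := (hmemH x).mp hx1
    have hx1ne : (x : G) ≠ 1 := fun h => hx (Subtype.ext h)
    obtain ⟨n, hn, h₀, hh₀, he⟩ := hdec g
    have hn1 : n ≠ 1 := by
      rintro rfl
      apply hg
      rw [hmemH, he, one_mul]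
      exact hh₀
    have h1 : (g⁻¹ * x * g : T) ∈ H.subgroupOf T := (mem_conj' _ _ _).mp hx2
    have h2 : ((g : G)⁻¹ * x * g) ∈ H := by
      have := (hmemH _).mp h1
      simpa using this
    rw [he] at h2
    have h3 : n⁻¹ * x * n ∈ H := by
      have h4 : n⁻¹ * x * n = h₀ * ((n * h₀)⁻¹ * x * (n * h₀)) * h₀⁻¹ := by group
      rw [h4]
      exact H.mul_mem (H.mul_mem hh₀ h2) (H.inv_mem hh₀)
    have h5 : (x : G)⁻¹ * (n⁻¹ * x * n) = 1 := by
      refine hdisj _ ?_ (H.mul_mem (H.inv_mem hx1') h3)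
      have h6 : (x : G)⁻¹ * (n⁻¹ * x * n) = ((x : G)⁻¹ * n⁻¹ * x) * n := by group
      rw [h6]
      refine N.mul_mem ?_ hn
      have := (inferInstance : N.Normal).conj_mem _ (N.inv_mem hn) (x : G)⁻¹
      simpa using this
    have h7 : (x : G) = n⁻¹ * x * n := inv_mul_eq_one.mp h5
    apply hn1
    refine hfree x hx1' hx1ne n hn ?_
    calc (x : G) * n = n * (n⁻¹ * x * n) := by group
      _ = n * x := by rw [← h7]
  · ext x
    constructor
    · intro hx
      rcases hx with hx | hx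
      · rw [hx]
        exact one_mem _
      · by_contra hxN
        have hxN' : (x : G) ∉ N := fun h => hxN (Subgroup.mem_subgroupOf.mpr h)
        obtain ⟨n, hn, h, hh, he⟩ := hdec x
        have hh1 : h ≠ 1 := by
          rintro rfl
          apply hxN'
          rw [he, mul_one]
          exact hn
        obtain ⟨m, hm, hme⟩ := hsurj h hh hh1 n hn
        apply hx ⟨m, hNT hm⟩
        refine (mem_conj' _ _ _).mpr ((hmemH _).mpr ?_)
        have h1 : (((⟨m, hNT hm⟩ : T)⁻¹ * x * ⟨m, hNT hm⟩ : T) : G) = m⁻¹ * x * m := by simp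
        rw [h1, he, ← hme]
        have h2 : m⁻¹ * (m * h * m⁻¹ * h⁻¹ * h) * m = h := by group
        rw [h2]
        exact hh
    · intro hx
      have hx' : (x : G) ∈ N := Subgroup.mem_subgroupOf.mp hx
      by_cases hx1 : x = 1
      · exact Or.inl hx1
      · refine Or.inr ?_
        intro g hg
        have h1 := (hmemH _).mp ((mem_conj' _ _ _).mp hg)
        have h2 : ((g : G)⁻¹ * x * g) ∈ H := by simpa using h1
        have h3 : ((g : G)⁻¹ * x * g) ∈ N := by
          have := (inferInstance : N.Normal).conj_mem _ hx' (g : G)⁻¹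
          simpa using this
        have h4 := hdisj _ h3 h2
        apply hx1
        apply Subtype.ext
        have h5 : (x : G) = g * ((g : G)⁻¹ * x * g) * (g : G)⁻¹ := by group
        rw [h5, h4]
        simp

end Cfsg.Agent.S4108
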