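import Cfsg.Statements.S4112
import Cfsg.Agent.Lib.PResidual
import Cfsg.Agent.Lib.PIrreducible
import Cfsg.Agent.Lib.H6Basic
import Cfsg.Agent.Lib.H7Basic
import Cfsg.Agent.Lib.PGroupBasic
-- import your own Cfsg.Agent.* helpers here

set_option autoImplicit false
open Cfsg

namespace Cfsg.Agent.S4112

open scoped Pointwise in
theorem exists_H {G : Type*} [Group G] [Finite G] (N M : Subgroup G) [N.Normal] [M.Normal]
    (hcop : N.index.Coprime (Nat.card M)) : ∃ H : Subgroup G, H ⊔ N = ⊤ ∧ H ⊓ M = ⊥ := by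
  classical
  obtain ⟨H, hH⟩ := Set.Finite.exists_minimal (s := {H : Subgroup G | H ⊔ N = ⊤})
    (Set.toFinite _) ⟨⊤, by simp⟩
  have hHN : H ⊔ N = ⊤ := hH.1
  refine ⟨H, hHN, ?_⟩
  let K : Subgroup H := N.subgroupOf H
  haveI hK : K.Normal := Subgroup.Normal.subgroupOf inferInstance H
  have hKle : K.map H.subtype ≤ N := by
    rintro _ ⟨x, hx, rfl⟩
    exact hx
  have hmin : ∀ J : Subgroup H, J ⊔ K = ⊤ → J = ⊤ := by
    intro J hJ
    have h1 : (J ⊔ K).map H.subtype = H := by
      rw [hJ, ← MonoidHom.range_eq_map, Subgroup.range_subtype]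
    rw [Subgroup.map_sup] at h1
    have h2 : J.map H.subtype ⊔ N = ⊤ := by
      rw [eq_top_iff, ← hHN]
      refine sup_le ?_ le_sup_right
      have h5 : H ≤ J.map H.subtype ⊔ K.map H.subtype := h1.ge
      exact h5.trans (sup_le le_sup_left (hKle.trans le_sup_right))
    have h3 : J.map H.subtype ≤ H := by
      rintro _ ⟨x, -, rfl⟩
      exact x.2
    have h4 : H ≤ J.map H.subtype := hH.2 h2 h3
    rw [eq_top_iff]
    intro x _
    obtain ⟨y, hy, hyx⟩ := h4 x.2
    have : y = x := Subtype.ext hyx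
    rwa [← this]
  have hidx : K.index = N.index := by
    change N.relIndex H = N.index
    rw [← Subgroup.relIndex_sup_left, sup_comm, hHN, Subgroup.relIndex_top_right]
  by_contra hne
  -- a prime dividing the intersection
  have hcard : Nat.card (H ⊓ M : Subgroup G) ≠ 1 := by
    intro h1
    exact hne (Subgroup.card_eq_one.mp h1)
  obtain ⟨p, hp, hpd⟩ := Nat.exists_prime_and_dvd hcard
  haveI : Fact p.Prime := ⟨hp⟩
  have hpM : p ∣ Nat.card M := hpd.trans (Subgroup.card_dvd_of_le inf_le_right)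
  have hpH : p ∣ Nat.card H := hpd.trans (Subgroup.card_dvd_of_le inf_le_left)
  have hpK : (K.index).Coprime p := by
    rw [hidx]
    exact Nat.Coprime.coprime_dvd_right hpM hcop
  obtain ⟨P⟩ : Nonempty (Sylow p H) := inferInstance
  have hPK : (P : Subgroup H) ≤ K := by
    intro x hx
    obtain ⟨j, hj⟩ := (IsPGroup.iff_orderOf.mp P.isPGroup') ⟨x, hx⟩
    have hj' : orderOf x = p ^ j := by
      rw [← hj]
      exact (Subgroup.orderOf_mk _ _).symm
    refine Cfsg.Agent.Lib.H7Basic.mem_of_pow_mem_of_coprime K x K.index ?_ (Subgroup.pow_index_mem K x)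
    rw [hj']
    exact Nat.Coprime.pow_left _ hpK.symm
  have hnorm : Subgroup.normalizer ((P : Subgroup H) : Set H) = ⊤ :=
    hmin _ (Sylow.normalizer_sup_eq_top' P hPK)
  haveI hPn : (P : Subgroup H).Normal := Subgroup.normalizer_eq_top_iff.mp hnorm
  obtain ⟨C, hC⟩ := Subgroup.exists_right_complement'_of_coprime P.card_coprime_index
  have hCtop : C = ⊤ := by
    apply hmin
    have h1 : (P : Subgroup H) ⊔ C = ⊤ := hC.sup_eq_top
    rw [eq_top_iff, ← h1, sup_comm]
    exact sup_le_sup_left hPK _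
  have h2 := hC.card_mul_card
  rw [hCtop, Subgroup.card_top] at h2
  have h3 : Nat.card (P : Subgroup H) = 1 := by
    have hpos : 0 < Nat.card H := Nat.card_pos
    exact Nat.eq_of_mul_eq_mul_right hpos (by rw [h2, one_mul])
  exact P.ne_bot_of_dvd_card hpH (Subgroup.card_eq_one.mp h3)


/-- Let G be a finite group and M ≤ N non-trivial proper normal subgroups such that for every g outside N the conjugacy class of g is a union of cosets of M (equivalently gm is conjugate to g for every m ∈ M). Then (1) and (2) below are equivalent, and they imply (3): (1) every g outside N acts fixed-point-freely on M, that is C_G(x) ≤ N for every x ∈ M, x ≠ 1; (2) the index of N in G is coprime to the order of M; (3) there is a subgroup H of G with HN = G and H ∩ M = 1. -/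
theorem result {G : Type*} [Group G] [Finite G] (N M : Subgroup G) [N.Normal] [M.Normal] (hMN : M ≤ N) (hM1 : M ≠ ⊥) (hN2 : N ≠ ⊤)
    (hcam : ∀ g : G, g ∉ N → ∀ m ∈ M, ∃ x : G, x * g * x⁻¹ = g * m) :
    ((∀ x ∈ M, x ≠ 1 → Subgroup.centralizer ({x} : Set G) ≤ N) ↔ N.index.Coprime (Nat.card M)) ∧
    ((∀ x ∈ M, x ≠ 1 → Subgroup.centralizer ({x} : Set G) ≤ N) → ∃ H : Subgroup G, H ⊔ N = ⊤ ∧ H ⊓ M = ⊥) := by
  classical
  have h12 : (∀ x ∈ M, x ≠ 1 → Subgroup.centralizer ({x} : Set G) ≤ N) → N.index.Coprime (Nat.card M) := by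
    intro h1
    by_contra hcop
    obtain ⟨p, hp, hpN, hpM⟩ := Nat.Prime.not_coprime_iff_dvd.mp hcop
    haveI : Fact p.Prime := ⟨hp⟩
    obtain ⟨P⟩ : Nonempty (Sylow p G) := inferInstance
    have hPN : ¬ (P : Subgroup G) ≤ N := fun h => Cfsg.Agent.Lib.H6Basic.not_dvd_index_of_sylow_le P h hpN
    obtain ⟨R, hR⟩ := Cfsg.Agent.Lib.PIrreducible.exists_sylow_inf_normal (p := p) P (N := M)
    have hne : (M.subgroupOf (P : Subgroup G)) ≠ ⊥ := by
      intro hbot
      have hR' : (R : Subgroup M) ≠ ⊥ := R.ne_bot_of_dvd_card hpM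
      apply hR'
      rw [eq_bot_iff]
      intro x hx
      have h2 : (x : G) ∈ (P : Subgroup G) ⊓ M := by
        rw [← hR]
        exact ⟨x, hx, rfl⟩
      have h3 : (⟨x, h2.1⟩ : (P : Subgroup G)) ∈ M.subgroupOf (P : Subgroup G) := h2.2
      rw [hbot, Subgroup.mem_bot] at h3
      have h4 : (x : G) = 1 := congrArg Subtype.val h3
      exact (Subgroup.mem_bot).mpr (Subtype.ext h4)
    haveI : (M.subgroupOf (P : Subgroup G)).Normal := Subgroup.Normal.subgroupOf inferInstance _
    obtain ⟨x, hxM, hx1, hxz⟩ := Cfsg.Agent.Lib.PGroupBasic.exists_ne_one_mem_center_of_normal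
      P.isPGroup' (M.subgroupOf (P : Subgroup G)) hne
    apply hPN
    refine le_trans ?_ (h1 x.1 hxM (fun h => hx1 (Subtype.ext h)))
    intro y hy
    rw [Subgroup.mem_centralizer_singleton_iff]
    have := (Subgroup.mem_center_iff.mp hxz) ⟨y, hy⟩
    exact (congrArg Subtype.val this)
  have h21 : N.index.Coprime (Nat.card M) → (∀ x ∈ M, x ≠ 1 → Subgroup.centralizer ({x} : Set G) ≤ N) := by
    intro hcop x hxM hx g hg
    by_contra hgN
    have hgx : Commute g x := by
      rw [Subgroup.mem_centralizer_singleton_iff] at hg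
      exact hg
    -- an element of prime order in `⟨x⟩`
    have hord : orderOf x ≠ 1 := fun h => hx (orderOf_eq_one_iff.mp h)
    obtain ⟨p, hp, hpd⟩ := Nat.exists_prime_and_dvd hord
    haveI : Fact p.Prime := ⟨hp⟩
    obtain ⟨t, ht⟩ := hpd
    have htpos : 0 < t := by
      rcases Nat.eq_zero_or_pos t with rfl | h
      · rw [mul_zero] at ht
        exact absurd ht (orderOf_pos x).ne'
      · exact h
    let x' := x ^ t
    have hx'ord : orderOf x' = p := by
      have := orderOf_pow_orderOf_div (x := x) (n := p) (orderOf_pos x).ne' ⟨t, ht⟩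
      rwa [show orderOf x / p = t by rw [ht]; exact Nat.mul_div_cancel_left _ hp.pos] at this
    have hx'M : x' ∈ M := M.pow_mem hxM t
    have hpM : p ∣ Nat.card M := by
      rw [← hx'ord]
      have : orderOf (⟨x', hx'M⟩ : M) = orderOf x' := Subgroup.orderOf_mk _ _
      rw [← this]
      exact orderOf_dvd_natCard _
    have hpN : (N.index).Coprime p := Nat.Coprime.coprime_dvd_right hpM hcop
    obtain ⟨y, z, rfl, hcomm, hy, ⟨k, hz⟩, hyz, hzz⟩ :=
      Cfsg.Agent.Lib.PResidual.exists_decomp (p := p) g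
    have hzN : z ∈ N := by
      refine Cfsg.Agent.Lib.H7Basic.mem_of_pow_mem_of_coprime N z N.index ?_ (Subgroup.pow_index_mem N z)
      rw [hz]
      exact Nat.Coprime.pow_left _ hpN.symm
    have hyN : y ∉ N := by
      intro hy'
      exact hgN (N.mul_mem hy' hzN)
    have hyx' : Commute y x' := by
      obtain ⟨n, hn⟩ := hyz
      have : y = (y * z) ^ n := hn.symm
      rw [this]
      exact (hgx.pow_right t).zpow_left n
    obtain ⟨u, hu⟩ := hcam y hyN x' hx'M
    have h1 : orderOf (u * y * u⁻¹) = orderOf y := by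
      have := (MulAut.conj u).orderOf_eq y
      rwa [MulAut.conj_apply] at this
    have h2 : orderOf (y * x') = orderOf y * p := by
      rw [hyx'.orderOf_mul_eq_mul_orderOf_of_coprime (by rw [hx'ord]; exact hy), hx'ord]
    rw [hu, h2] at h1
    have h3 : orderOf y * p = orderOf y * 1 := by rw [h1, mul_one]
    have h4 := Nat.eq_of_mul_eq_mul_left (orderOf_pos y) h3
    exact hp.one_lt.ne' h4
  refine ⟨⟨h12, h21⟩, fun h1 => exists_H N M (h12 h1)⟩

end Cfsg.Agent.S4112
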