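import Mathlib
import Cfsg.Statements.S4116
import Cfsg.Agent.S0046
-- import your own Cfsg.Agent.* helpers here

set_option autoImplicit false
open Cfsg

namespace Cfsg.Agent.S4116

/-- Let G be a finite group with a subgroup H whose order is coprime to its index (a Hall subgroup) and which meets each of its conjugates by elements outside N_G(H) trivially. Then every subgroup of G whose order is divisible only by primes dividing the order of H lies in a conjugate of H. -/
theorem result {G : Type*} [Group G] [Finite G] (H : Subgroup G)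
    (hHall : (Nat.card H).Coprime H.index) (hTI : Cfsg.IsTISubset (H : Set G))
    (K : Subgroup G) (hK : ∀ q : ℕ, q.Prime → q ∣ Nat.card K → q ∣ Nat.card H) :
    ∃ g : G, K ≤ H.map (MulAut.conj g).toMonoidHom := by
  classical
  -- membership in conjugates
  let Hc : G → Subgroup G := fun a => H.map (MulAut.conj a).toMonoidHom
  have hmemc : ∀ a x, x ∈ Hc a ↔ a⁻¹ * x * a ∈ H := by
    intro a x
    constructor
    · rintro ⟨y, hy, rfl⟩
      have : a⁻¹ * ((MulAut.conj a).toMonoidHom y) * a = y := by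
        simp [MulAut.conj_apply]
        group
      rw [this]
      exact hy
    · intro h
      refine ⟨_, h, ?_⟩
      simp [MulAut.conj_apply]
      group
  -- primes
  have hpi : ∀ k ∈ K, ∀ q : ℕ, q.Prime → q ∣ orderOf k → q ∣ Nat.card H := by
    intro k hk q hq hd
    apply hK q hq
    have h1 : orderOf k ∣ Nat.card K := by
      have := orderOf_dvd_natCard (⟨k, hk⟩ : K)
      rwa [Subgroup.orderOf_mk] at this
    exact hd.trans h1
  have hcopq : ∀ q : ℕ, q.Prime → q ∣ Nat.card H → ¬ q ∣ H.index := by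
    intro q hq h1 h2
    have := Nat.dvd_gcd h1 h2
    rw [hHall] at this
    exact hq.one_lt.ne' (Nat.dvd_one.mp this)
  -- fact 2
  have hfact2 : ∀ k : G, (∀ q : ℕ, q.Prime → q ∣ orderOf k → q ∣ Nat.card H) →
      k ∈ Subgroup.normalizer (H : Set G) → k ∈ H := by
    intro k hk hN
    let L := Subgroup.normalizer (H : Set G)
    haveI hn : (H.subgroupOf L).Normal := Subgroup.normal_in_normalizer
    have h1 := Subgroup.pow_index_mem (H.subgroupOf L) (⟨k, hN⟩ : L)
    have h2 : k ^ (H.subgroupOf L).index ∈ H := by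
      have := Subgroup.mem_subgroupOf.mp h1
      simpa using this
    have h3 : (H.subgroupOf L).index ∣ H.index := Dvd.intro _ (Subgroup.relIndex_mul_index Subgroup.le_normalizer)
    have hcop : Nat.Coprime (H.subgroupOf L).index (orderOf k) := by
      apply Nat.coprime_of_dvd
      intro q hq hq1 hq2
      exact hcopq q hq (hk q hq hq2) (hq1.trans h3)
    obtain ⟨r, hr⟩ := exists_pow_eq_self_of_coprime hcop
    rw [← hr]
    exact H.pow_mem h2 r
  -- fact 4
  have hfact4 : ∀ x ∈ K, x ≠ 1 → ∃ a, a⁻¹ * x * a ∈ H := by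
    intro x hx hx1
    have hne : orderOf x ≠ 1 := by
      intro h
      exact hx1 (orderOf_eq_one_iff.mp h)
    have hq := Nat.minFac_prime hne
    set q := (orderOf x).minFac with hqdef
    haveI : Fact q.Prime := ⟨hq⟩
    have hqd : q ∣ orderOf x := Nat.minFac_dvd _
    have hqH := hpi x hx q hq hqd
    set y := x ^ (orderOf x / q) with hy
    have hyo : orderOf y = q := orderOf_pow_orderOf_div (orderOf_pos x).ne' hqd
    have hP : IsPGroup q (Subgroup.zpowers y) := by
      apply IsPGroup.of_card (n := 1)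
      rw [Nat.card_zpowers, hyo, pow_one]
    have hnd : ¬ q ∣ Nat.card (G ⧸ H) := hcopq q hq hqH
    obtain ⟨w, hw⟩ := hP.nonempty_fixed_point_of_prime_not_dvd_card (G ⧸ H) hnd
    obtain ⟨a, rfl⟩ := QuotientGroup.mk_surjective w
    have h1 := hw (⟨y, Subgroup.mem_zpowers y⟩ : Subgroup.zpowers y)
    have h2 : ((y * a : G) : G ⧸ H) = (a : G ⧸ H) := h1
    have h3 : a⁻¹ * y * a ∈ H := by
      have h4 := QuotientGroup.eq.mp h2.symm
      simpa [mul_assoc] using h4
    refine ⟨a, ?_⟩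
    have hy1 : a⁻¹ * y * a ≠ 1 := by
      intro h
      have h4 : y = 1 := by
        have : y = a * (a⁻¹ * y * a) * a⁻¹ := by group
        rw [this, h]
        group
      rw [h4, orderOf_one] at hyo
      exact hq.one_lt.ne hyo
    have hcomm : x * y = y * x := (Commute.self_pow x _).eq
    have hN : a⁻¹ * x * a ∈ Subgroup.normalizer (H : Set G) := by
      by_contra hnN
      apply hy1
      apply hTI _ hnN _ h3
      have : a⁻¹ * x * a * (a⁻¹ * y * a) * (a⁻¹ * x * a)⁻¹ = a⁻¹ * y * a := by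
        calc a⁻¹ * x * a * (a⁻¹ * y * a) * (a⁻¹ * x * a)⁻¹ = a⁻¹ * (x * y) * x⁻¹ * a := by group
          _ = a⁻¹ * (y * x) * x⁻¹ * a := by rw [hcomm]
          _ = a⁻¹ * y * a := by group
      rw [this]
      exact h3
    apply hfact2 _ _ hN
    intro r hr hrd
    apply hpi x hx r hr
    have : orderOf (a⁻¹ * x * a) = orderOf x := by
      have := (MulAut.conj a⁻¹).orderOf_eq x
      simpa [MulAut.conj_apply] using this
    rwa [this] at hrd
  -- trivial case
  by_cases hKbot : K = ⊥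
  · exact ⟨1, by rw [hKbot]; exact bot_le⟩
  obtain ⟨x₀, hx₀, hx₀1⟩ : ∃ x ∈ K, x ≠ 1 := by
    obtain ⟨y, hy⟩ := Subgroup.ne_bot_iff_exists_ne_one.mp hKbot
    exact ⟨y.1, y.2, fun h => hy (Subtype.ext h)⟩
  let A : G → Subgroup K := fun a => (Hc a).subgroupOf K
  have hmemA : ∀ (a : G) (k : K), k ∈ A a ↔ a⁻¹ * (k : G) * a ∈ H := by
    intro a k
    rw [Subgroup.mem_subgroupOf, hmemc]
  have hTIK : ∀ a : G, ∀ k : K, k ∉ A a → ∀ m ∈ A a, k * m * k⁻¹ ∈ A a → m = 1 := by
    intro a k hk m hm hkm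
    by_contra hm1
    rw [hmemA] at hm hkm
    have hm1' : a⁻¹ * (m : G) * a ≠ 1 := by
      intro h
      apply hm1
      apply Subtype.ext
      have : (m : G) = a * (a⁻¹ * (m : G) * a) * a⁻¹ := by group
      rw [this, h]
      simp
    have hN : a⁻¹ * (k : G) * a ∈ Subgroup.normalizer (H : Set G) := by
      by_contra hnN
      apply hm1'
      apply hTI _ hnN _ hm
      have : a⁻¹ * (k : G) * a * (a⁻¹ * (m : G) * a) * (a⁻¹ * (k : G) * a)⁻¹ = a⁻¹ * ((k * m * k⁻¹ : K) : G) * a := by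
        push_cast
        group
      rw [this]
      exact hkm
    apply hk
    rw [hmemA]
    apply hfact2 _ _ hN
    intro r hr hrd
    apply hpi k k.2 r hr
    have : orderOf (a⁻¹ * (k : G) * a) = orderOf (k : G) := by
      have := (MulAut.conj a⁻¹).orderOf_eq (k : G)
      simpa [MulAut.conj_apply] using this
    rwa [this] at hrd
  have hcard : ∀ a : G, Nat.card (Cfsg.Agent.S0046.ncSet (A a)) + (A a).index = Nat.card K :=
    fun a => Cfsg.Agent.S0046.card_ncSet _ (hTIK a)
  have hindex : ∀ (a : G) (y : K), y ≠ 1 → y ∈ A a → 2 * (A a).index ≤ Nat.card K := by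
    intro a y hy hya
    have h1 : 1 < Nat.card (A a) := by
      rw [Finite.one_lt_card_iff_nontrivial]
      exact ⟨⟨y, hya⟩, 1, fun h => hy (congrArg Subtype.val h)⟩
    have h2 := (A a).card_mul_index
    have h3 : 2 * (A a).index ≤ Nat.card (A a) * (A a).index := Nat.mul_le_mul_right _ h1
    omega
  obtain ⟨a₁, ha₁⟩ := hfact4 x₀ hx₀ hx₀1
  have hx₀K : (⟨x₀, hx₀⟩ : K) ≠ 1 := fun h => hx₀1 (congrArg Subtype.val h)
  have hx₀A : (⟨x₀, hx₀⟩ : K) ∈ A a₁ := (hmemA a₁ _).mpr ha₁
  by_cases hi1 : (A a₁).index = 1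
  · refine ⟨a₁, fun k hk => ?_⟩
    have h1 : A a₁ = ⊤ := Subgroup.index_eq_one.mp hi1
    have h2 : (⟨k, hk⟩ : K) ∈ A a₁ := by rw [h1]; trivial
    exact Subgroup.mem_subgroupOf.mp h2
  exfalso
  have hi0 : (A a₁).index ≠ 0 := Subgroup.index_ne_zero_of_finite
  let S : G → Set K := fun a => Cfsg.Agent.S0046.ncSet (A a)
  have hSsub : ∀ a, S a ⊆ {1}ᶜ := fun a y hy => hy.1
  have hcompl : (({1} : Set K)ᶜ).ncard + 1 = Nat.card K := by
    have h1 := Set.ncard_add_ncard_compl ({1} : Set K)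
    rw [Set.ncard_singleton] at h1
    omega
  have hSncard : ∀ a, (S a).ncard + (A a).index = Nat.card K := by
    intro a
    rw [← hcard a, Nat.card_coe_set_eq]
  obtain ⟨y, hy1, hyS⟩ : ∃ y : K, y ≠ 1 ∧ y ∉ S a₁ := by
    by_contra hall
    push_neg at hall
    have h1 : ({1} : Set K)ᶜ ⊆ S a₁ := fun y hy => hall y hy
    have h2 := Set.ncard_le_ncard h1 (Set.toFinite _)
    have h3 := hSncard a₁
    omega
  obtain ⟨a₂, ha₂⟩ := hfact4 y y.2 (fun h => hy1 (Subtype.ext h))
  have hyA : y ∈ A a₂ := (hmemA a₂ _).mpr ha₂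
  have hdisj : Disjoint (S a₁) (S a₂) := by
    rw [Set.disjoint_left]
    rintro z ⟨hz1, g, hg⟩ ⟨-, h, hh⟩
    apply hyS
    refine ⟨hy1, h⁻¹ * g, ?_⟩
    rw [hmemA] at hg hh ⊢
    have hz1' : (z : G) ≠ 1 := fun hh => hz1 (Subtype.ext hh)
    -- the element of the normalizer
    set n : G := a₁⁻¹ * (g : G)⁻¹ * h * a₂ with hn
    have hm' : a₂⁻¹ * ((h⁻¹ * z * h : K) : G) * a₂ ≠ 1 := by
      intro h0
      apply hz1'
      have h5 : ((h⁻¹ * z * h : K) : G) = 1 := by
        have : ((h⁻¹ * z * h : K) : G) = a₂ * (a₂⁻¹ * ((h⁻¹ * z * h : K) : G) * a₂) * a₂⁻¹ := by group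
        rw [this, h0]
        simp
      have h6 : (z : G) = (h : G) * ((h⁻¹ * z * h : K) : G) * (h : G)⁻¹ := by
        push_cast
        group
      rw [h6, h5]
      simp
    have hNn : n ∈ Subgroup.normalizer (H : Set G) := by
      by_contra hnN
      apply hm'
      apply hTI _ hnN _ hh
      have : n * (a₂⁻¹ * ((h⁻¹ * z * h : K) : G) * a₂) * n⁻¹ = a₁⁻¹ * ((g⁻¹ * z * g : K) : G) * a₁ := by
        rw [hn]
        push_cast
        group
      rw [this]
      exact hg
    have h7 := (Subgroup.mem_normalizer_iff.mp hNn _).mp ha₂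
    have : n * (a₂⁻¹ * (y : G) * a₂) * n⁻¹ = a₁⁻¹ * (((h⁻¹ * g)⁻¹ * y * (h⁻¹ * g) : K) : G) * a₁ := by
      rw [hn]
      push_cast
      group
    rw [this] at h7
    exact h7
  have hunion := Set.ncard_union_eq hdisj (Set.toFinite _) (Set.toFinite _)
  have hle : (S a₁ ∪ S a₂).ncard ≤ (({1} : Set K)ᶜ).ncard :=
    Set.ncard_le_ncard (Set.union_subset (hSsub a₁) (hSsub a₂)) (Set.toFinite _)
  have h1 := hSncard a₁
  have h2 := hSncard a₂
  have h3 := hindex a₁ _ hx₀K hx₀A
  have h4 := hindex a₂ y hy1 hyA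
  omega

end Cfsg.Agent.S4116
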