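import Cfsg.Statements.S4127
import Cfsg.Agent.Lib.ClassParts
import Cfsg.Agent.Lib.PNilp
-- import your own Cfsg.Agent.* helpers here

set_option autoImplicit false
set_option linter.all false
open Cfsg

namespace Cfsg.Agent.S4127

open Cfsg.Agent.Lib.ConjFamily Cfsg.Agent.Lib.ConjCover Cfsg.Agent.Lib.ClassParts

theorem pgroup_zpowers {H : Type*} [Group H] {p : ℕ} {a : H} {k : ℕ} (hk : a ^ p ^ k = 1) :
    IsPGroup p (Subgroup.zpowers a) := by
  rintro ⟨u, hu⟩
  obtain ⟨i, rfl⟩ := Subgroup.mem_zpowers_iff.1 hu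
  refine ⟨k, ?_⟩
  apply Subtype.ext
  show (a ^ i) ^ p ^ k = 1
  rw [← zpow_natCast, ← zpow_mul, mul_comm, zpow_mul, zpow_natCast, hk, one_zpow]

theorem clean {H : Type*} [Group H] [Finite H] {p : ℕ} [Fact p.Prime]
    (hH : ∀ b : H, ¬ p ∣ orderOf b → ¬ p ∣ (Subgroup.centralizer ({b} : Set H)).index) :
    ∃ D K : Subgroup H, K.Normal ∧ ¬ p ∣ Nat.card K ∧ (∀ b : H, ¬ p ∣ orderOf b → b ∈ K) ∧
      (∀ k ∈ K, ∀ d ∈ D, k * d = d * k) ∧ (∀ d : H, (∃ i : ℕ, d ^ p ^ i = 1) → d ∈ D) ∧
      (∃ n : ℕ, K.index = p ^ n) := by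
  classical
  have hp : p.Prime := Fact.out
  obtain ⟨P⟩ : Nonempty (Sylow p H) := inferInstance
  set C := Subgroup.centralizer ((P : Subgroup H) : Set H) with hCdef
  set M := (P : Subgroup H) ⊔ C with hMdef
  have hU : ∀ z : H, z ∈ U M := by
    intro z
    obtain ⟨a, b, hz, ha, hb, ⟨k, hk⟩, ⟨n, hn, hbn⟩⟩ := exists_parts z hp
    have hab : Commute a b := commute_of_mem_zpowers ha hb
    have hbo : ¬ p ∣ orderOf b := fun hd => hn (hd.trans (orderOf_dvd_of_pow_eq_one hbn))
    obtain ⟨g, hg⟩ := exists_cj_le_centralizer P b (hH b hbo)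
    set Cb := Subgroup.centralizer ({b} : Set H) with hCb
    have hPcj : cj g (P : Subgroup H) = ((g • P : Sylow p H) : Subgroup H) := by
      rw [Sylow.coe_subgroup_smul]
      rfl
    have hsyl : Cfsg.Agent.Lib.SylowIn.IsSylowIn p (cj g (P : Subgroup H)) Cb := by
      refine isSylowIn_of_relIndex hg ?_ ?_
      · rw [hPcj]; exact (g • P : Sylow p H).isPGroup'
      · intro hd
        have h1 := Subgroup.relIndex_mul_index hg
        have h2 : p ∣ (cj g (P : Subgroup H)).index := by
          rw [← h1]; exact hd.trans (Nat.dvd_mul_right _ _)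
        rw [hPcj] at h2
        exact (g • P : Sylow p H).not_dvd_index h2
    have haC : Subgroup.zpowers a ≤ Cb :=
      Subgroup.zpowers_le.2 (Subgroup.mem_centralizer_singleton_iff.2 hab)
    obtain ⟨c, hc, hcX⟩ := exists_conj_le_of_isSylowIn hsyl haC (pgroup_zpowers hk)
    have h1 : c * a * c⁻¹ ∈ cj g (P : Subgroup H) := hcX (cj_mem (Subgroup.mem_zpowers a))
    have h2 : c * b * c⁻¹ = b := by
      have := Subgroup.mem_centralizer_singleton_iff.1 hc
      rw [this]; group
    have hbC : b ∈ cj g C := by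
      refine mem_cj.2 ?_
      refine Subgroup.mem_centralizer_iff.mpr ?_
      intro u hu
      have hc' : (g * u * g⁻¹) * b = b * (g * u * g⁻¹) :=
        Subgroup.mem_centralizer_singleton_iff.1 (hg (cj_mem hu))
      have : u * (g⁻¹ * b * g) = g⁻¹ * (g * u * g⁻¹ * b) * g := by group
      rw [this, hc']
      group
    have h3 : c * z * c⁻¹ ∈ cj g M := by
      have e : c * z * c⁻¹ = (c * a * c⁻¹) * (c * b * c⁻¹) := by rw [hz]; group
      rw [e, h2]
      exact Subgroup.mul_mem _ (cj_mono g le_sup_left h1) (cj_mono g le_sup_right hbC)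
    refine ⟨c⁻¹ * g, ?_⟩
    rw [← cj_cj]
    have h4 := cj_mem (g := c⁻¹) h3
    have e : c⁻¹ * (c * z * c⁻¹) * c⁻¹⁻¹ = z := by group
    rw [e] at h4
    exact h4
  have hMtop : M = ⊤ := eq_top_of_forall_mem_U M hU
  have hPn : (P : Subgroup H).Normal := by
    rw [← Subgroup.normalizer_eq_top_iff, eq_top_iff, ← hMtop]
    refine sup_le Subgroup.le_normalizer ?_
    intro c hc
    refine Subgroup.mem_normalizer_iff.2 ?_
    intro n
    have : c * n * c⁻¹ = n ∨ True := Or.inr trivial
    constructor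
    · intro hn
      have h1 := Subgroup.mem_centralizer_iff.mp hc n hn
      rw [← h1]
      simpa using hn
    · intro hn
      have h1 := Subgroup.mem_centralizer_iff.mp hc _ hn
      have h2 : n * c⁻¹ = c⁻¹ * (c * n * c⁻¹) := by group
      have h3 : (c * n * c⁻¹) * c = c * n := by group
      have h4 : c * n = c * (c * n * c⁻¹) := by rw [← h1, h3]
      have h5 : n = c * n * c⁻¹ := mul_left_cancel h4
      rw [h5]
      exact hn
  have hmem : ∀ d : H, (∃ i : ℕ, d ^ p ^ i = 1) → d ∈ (P : Subgroup H) := by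
    rintro d ⟨i, hi⟩
    obtain ⟨g, hg⟩ := Cfsg.Agent.Lib.SylowIn.exists_conj_mem_sylow P (pgroup_zpowers hi)
    have h1 := hg d (Subgroup.mem_zpowers d)
    have h2 := hPn.conj_mem _ h1 g⁻¹
    have e : g⁻¹ * (g * d * g⁻¹) * g⁻¹⁻¹ = d := by group
    rwa [e] at h2
  obtain ⟨S⟩ : Nonempty (Sylow p ↥C) := inferInstance
  have hSP : ∀ s : ↥C, s ∈ (S : Subgroup ↥C) → (s : H) ∈ (P : Subgroup H) := by
    intro s hs
    obtain ⟨i, hi⟩ := S.isPGroup' ⟨s, hs⟩
    exact hmem _ ⟨i, by simpa using congrArg (fun t => ((t : ↥C) : H)) (congrArg Subtype.val hi)⟩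
  have hScentral : ∀ s ∈ (S : Subgroup ↥C), ∀ c : ↥C, c * s = s * c := by
    intro s hs c
    have h1 := Subgroup.mem_centralizer_iff.mp c.2 _ (hSP s hs)
    exact Subtype.ext h1.symm
  have hN : Subgroup.normalizer ((S : Subgroup ↥C) : Set ↥C) ≤ Subgroup.centralizer ((S : Subgroup ↥C) : Set ↥C) := by
    intro c _
    refine Subgroup.mem_centralizer_iff.mpr ?_
    intro s hs
    exact (hScentral s hs c).symm
  have hcompl := MonoidHom.ker_transferSylow_isComplement' S hN
  set K₀ := (MonoidHom.transferSylow S hN).ker with hK₀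
  have hK₀p : ¬ p ∣ Nat.card K₀ := by
    have h1 : (S : Subgroup ↥C).index = Nat.card K₀ := hcompl.index_eq_card
    rw [← h1]
    exact S.not_dvd_index
  have hKinj : Nat.card (K₀.map C.subtype) = Nat.card K₀ :=
    Subgroup.card_map_of_injective C.subtype_injective
  have hKp : ¬ p ∣ Nat.card (K₀.map C.subtype) := by rw [hKinj]; exact hK₀p
  have hall : ∀ b : H, ¬ p ∣ orderOf b → b ∈ K₀.map C.subtype := by
    intro b hb
    obtain ⟨g, hg⟩ := exists_cj_le_centralizer P b (hH b hb)
    have hPg : cj g (P : Subgroup H) = P := by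
      apply cj_eq_of_mem_normalizer
      rw [Subgroup.normalizer_eq_top_iff.2 hPn]
      trivial
    rw [hPg] at hg
    have hbC : b ∈ C := by
      refine Subgroup.mem_centralizer_iff.mpr ?_
      intro u hu
      exact Subgroup.mem_centralizer_singleton_iff.1 (hg hu)
    obtain ⟨⟨⟨k, hk⟩, ⟨s, hs⟩⟩, e⟩ := hcompl.2 (⟨b, hbC⟩ : ↥C)
    have e' : k * s = (⟨b, hbC⟩ : ↥C) := e
    have hsk : Commute k s := (hScentral s hs k)
    have hpow : k ^ orderOf b * s ^ orderOf b = 1 := by
      rw [← hsk.mul_pow, e']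
      apply Subtype.ext
      simp [pow_orderOf_eq_one]
    have hs1 : s ^ orderOf b = 1 := by
      have h1 : s ^ orderOf b = (k ^ orderOf b)⁻¹ := eq_inv_of_mul_eq_one_right hpow
      have hmem1 : s ^ orderOf b ∈ (S : Subgroup ↥C) := Subgroup.pow_mem _ hs _
      have hmem2 : s ^ orderOf b ∈ K₀ := by
        rw [h1]; exact Subgroup.inv_mem _ (Subgroup.pow_mem _ hk _)
      exact Subgroup.disjoint_def.1 hcompl.disjoint hmem2 hmem1
    obtain ⟨i, hi⟩ := S.isPGroup' ⟨s, hs⟩
    have hi' : s ^ p ^ i = 1 := by simpa using congrArg Subtype.val hi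
    have hs2 : s = 1 := by
      have h1 : orderOf s ∣ p ^ i := orderOf_dvd_of_pow_eq_one hi'
      have h2 : orderOf s ∣ orderOf b := orderOf_dvd_of_pow_eq_one hs1
      have h3 : Nat.Coprime (p ^ i) (orderOf b) :=
        Nat.Coprime.pow_left _ ((Nat.Prime.coprime_iff_not_dvd hp).2 hb)
      have h4 : orderOf s = 1 := Nat.eq_one_of_dvd_coprimes h3 h1 h2
      exact orderOf_eq_one_iff.1 h4
    refine ⟨k, hk, ?_⟩
    have h5 : k = (⟨b, hbC⟩ : ↥C) := by rw [← e', hs2, mul_one]
    rw [h5]
    rfl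
  have hpelt : ∀ k ∈ K₀.map C.subtype, ¬ p ∣ orderOf k := fun k hk hd =>
    hKp (hd.trans (Subgroup.orderOf_dvd_natCard _ hk))
  have hKn : (K₀.map C.subtype).Normal := by
    refine ⟨fun k hk g => hall _ ?_⟩
    have h1 : orderOf (g * k * g⁻¹) = orderOf k := by
      have := (MulAut.conj g).orderOf_eq k
      simpa [MulAut.conj_apply] using this
    rw [h1]
    exact hpelt k hk
  refine ⟨P, K₀.map C.subtype, hKn, hKp, hall, ?_, hmem, ?_⟩
  · rintro _ ⟨k, _, rfl⟩ d hd
    exact (Subgroup.mem_centralizer_iff.mp k.2 d hd).symm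
  · haveI := hKn
    have hq : IsPGroup p (H ⧸ K₀.map C.subtype) := by
      intro q
      induction q using QuotientGroup.induction_on with
      | H y =>
        obtain ⟨a, b, hz, ha, hb, ⟨k, hk⟩, ⟨n, hn, hbn⟩⟩ := exists_parts y hp
        have hab : Commute a b := commute_of_mem_zpowers ha hb
        refine ⟨k, ?_⟩
        rw [← QuotientGroup.mk_pow, QuotientGroup.eq_one_iff, hz, hab.mul_pow, hk, one_mul]
        apply hall
        intro hd
        have h1 : (b ^ p ^ k) ^ n = 1 := by rw [← pow_mul, mul_comm, pow_mul, hbn, one_pow]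
        exact hn (hd.trans (orderOf_dvd_of_pow_eq_one h1))
    obtain ⟨n, hn⟩ := IsPGroup.iff_card.1 hq
    exact ⟨n, hn⟩



/-- Let G be a finite group, p a prime and p^a the largest power of p dividing the size of any conjugacy class of G. If some element of p-power order has a conjugacy class of size exactly p^a, then G has a normal p-complement. -/
theorem result {G : Type*} [Group G] [Finite G] (p : ℕ) [Fact p.Prime]
    (a : ℕ) (hmax : ∀ y : G, ¬ p ^ (a + 1) ∣ (Subgroup.centralizer ({y} : Set G)).index)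
    (hx : ∃ x : G, (∃ k : ℕ, orderOf x = p ^ k) ∧ (Subgroup.centralizer ({x} : Set G)).index = p ^ a) :
    Cfsg.HasNormalPComplement p G := by
  classical
  have hp : p.Prime := Fact.out
  obtain ⟨x, ⟨k₀, hk₀⟩, hxi⟩ := hx
  set Y := Subgroup.centralizer ({x} : Set G) with hY
  have hstep1 : ∀ b : ↥Y, ¬ p ∣ orderOf b → ¬ p ∣ (Subgroup.centralizer ({b} : Set ↥Y)).index := by
    intro b hb hd
    have hb' : ¬ p ∣ orderOf (b : G) := by rwa [Subgroup.orderOf_coe]
    have hcomm : Commute x (b : G) := (Subgroup.mem_centralizer_singleton_iff.1 b.2 : Commute (b : G) x).symm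
    have hcop : (orderOf x).Coprime (orderOf (b : G)) := by
      rw [hk₀]; exact Nat.Coprime.pow_left _ ((Nat.Prime.coprime_iff_not_dvd hp).2 hb')
    have hc := centralizer_mul hcomm hcop
    have hI : (Subgroup.centralizer ({b} : Set ↥Y)).index =
        (Subgroup.centralizer ({(b : G)} : Set G)).relIndex Y := by
      have : Subgroup.centralizer ({b} : Set ↥Y) = (Subgroup.centralizer ({(b : G)} : Set G)).subgroupOf Y := by
        ext u
        rw [Subgroup.mem_centralizer_singleton_iff, Subgroup.mem_subgroupOf,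
          Subgroup.mem_centralizer_singleton_iff]
        exact Subtype.ext_iff
      rw [this]
      rfl
    have h2 : (Y ⊓ Subgroup.centralizer ({(b : G)} : Set G)).index =
        (Subgroup.centralizer ({(b : G)} : Set G)).relIndex Y * Y.index := by
      rw [inf_comm, ← Subgroup.inf_relIndex_right, Subgroup.relIndex_mul_index inf_le_right]
    apply hmax (x * (b : G))
    rw [hc, h2, hxi, pow_succ, mul_comm]
    exact Nat.mul_dvd_mul_right (by rwa [hI] at hd) _
  obtain ⟨D, K, hKn, hKp, hKall, hKD, hDall, ⟨n, hKi⟩⟩ := clean hstep1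
  set K' := K.map Y.subtype with hK'
  have hK'card : ¬ p ∣ Nat.card K' := by
    rw [hK', Subgroup.card_map_of_injective Y.subtype_injective]; exact hKp
  -- a Sylow subgroup containing `x`
  obtain ⟨P, hxP⟩ := (pgroup_zpowers (p := p) (a := x) (k := k₀) (by rw [← hk₀, pow_orderOf_eq_one])).exists_le_sylow
  have hxP' : x ∈ (P : Subgroup G) := hxP (Subgroup.mem_zpowers x)
  have hidx : Y.index ≤ Y.relIndex (P : Subgroup G) := by
    set R := Y.subgroupOf (P : Subgroup G) with hR
    have hRp : IsPGroup p R := P.isPGroup'.to_subgroup R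
    obtain ⟨j, hj⟩ := IsPGroup.iff_card.1 hRp
    obtain ⟨e, he⟩ := IsPGroup.iff_card.1 P.isPGroup'
    have h1 : R.index * Nat.card R = Nat.card (P : Subgroup G) := Subgroup.index_mul_card R
    have h2 : Nat.card R ∣ Nat.card Y := by
      have h3 : Nat.card (R.map (P : Subgroup G).subtype) = Nat.card R :=
        Subgroup.card_map_of_injective (P : Subgroup G).subtype_injective
      rw [← h3]
      apply Subgroup.card_dvd_of_le
      rintro _ ⟨r, hr, rfl⟩
      exact hr
    have h4 : Y.index * Nat.card Y = Nat.card G := Subgroup.index_mul_card Y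
    have h5 : (P : Subgroup G).index * Nat.card (P : Subgroup G) = Nat.card G := Subgroup.index_mul_card _
    have h6 : p ^ (a + j) ∣ p ^ e := by
      have h7 : p ^ (a + j) ∣ Nat.card G := by
        rw [← h4, hxi, pow_add]
        exact Nat.mul_dvd_mul_left _ (by rwa [hj] at h2)
      rw [← h5, he] at h7
      have h8 : Nat.Coprime (p ^ (a + j)) (P : Subgroup G).index :=
        Nat.Coprime.pow_left _ ((Nat.Prime.coprime_iff_not_dvd hp).2 P.not_dvd_index)
      exact h8.dvd_of_dvd_mul_left h7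
    have h9 : p ^ a * p ^ j ≤ R.index * p ^ j := by
      rw [← pow_add, ← hj, h1, he]
      exact Nat.le_of_dvd (pow_pos hp.pos _) h6
    have h10 : p ^ a ≤ R.index := Nat.le_of_mul_le_mul_right h9 (pow_pos hp.pos _)
    rw [hxi]
    exact h10
  have hconj : ∀ g : G, g * x * g⁻¹ ∈ (P : Subgroup G) := by
    intro g
    obtain ⟨s, hs, c, hc, rfl⟩ := exists_mul_of_index (P : Subgroup G) Y hidx g
    have h1 : c * x = x * c := Subgroup.mem_centralizer_singleton_iff.1 hc
    have h2 : s * c * x * (s * c)⁻¹ = s * x * s⁻¹ := by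
      have : s * c * x * (s * c)⁻¹ = s * (c * x) * c⁻¹ * s⁻¹ := by group
      rw [this, h1]; group
    rw [h2]
    exact Subgroup.mul_mem _ (Subgroup.mul_mem _ hs hxP') (Subgroup.inv_mem _ hs)
  set T := Subgroup.normalClosure ({x} : Set G) with hTdef
  have hTn : T.Normal := Subgroup.normalClosure_normal
  have hTP : T ≤ (P : Subgroup G) := by
    refine (Subgroup.closure_le _).2 ?_
    intro y hy
    obtain ⟨z, hz, hzy⟩ := Group.mem_conjugatesOfSet_iff.1 hy
    rw [Set.mem_singleton_iff] at hz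
    subst hz
    obtain ⟨c, rfl⟩ := isConj_iff.1 hzy
    exact hconj c
  have hT : IsPGroup p T := P.isPGroup'.to_le hTP
  have hxT : x ∈ T := Subgroup.subset_normalClosure rfl
  have hKT : ∀ u ∈ K', ∀ w ∈ T, u * w = w * u := by
    intro u hu
    obtain ⟨k, hk, rfl⟩ := hu
    set u : G := (k : G) with hu
    have hux : u * x = x * u := Subgroup.mem_centralizer_singleton_iff.1 k.2
    have huo : ¬ p ∣ orderOf u := by
      intro hd
      apply hK'card
      exact hd.trans (Subgroup.orderOf_dvd_natCard K' ⟨k, hk, rfl⟩)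
    set B := T ⊓ Subgroup.centralizer ({u} : Set G) with hB
    have hBT : B = T := by
      by_contra hne
      obtain ⟨w, hwT, hwB, hwN⟩ := Cfsg.Agent.Lib.H5Basic.exists_mem_normalizer_of_lt (p := p) hT inf_le_left hne
      have hxB : x ∈ B := ⟨hxT, Subgroup.mem_centralizer_singleton_iff.2 hux.symm⟩
      have hc : w⁻¹ * x⁻¹ * w * x ∈ B := by
        have h1 := (Subgroup.mem_normalizer_iff.1 (Subgroup.inv_mem _ hwN) x⁻¹).1 (Subgroup.inv_mem _ hxB)
        rw [inv_inv] at h1
        exact Subgroup.mul_mem _ h1 hxB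
      have hcu : (w⁻¹ * x⁻¹ * w * x) * u = u * (w⁻¹ * x⁻¹ * w * x) :=
        Subgroup.mem_centralizer_singleton_iff.1 (Subgroup.mem_inf.1 hc).2
      set w' := u * w * u⁻¹ with hw'
      have hw'T : w' ∈ T := hTn.conj_mem w hwT u
      have huxi : u * x⁻¹ * u⁻¹ = x⁻¹ := by
        have : u * x⁻¹ = x⁻¹ * u := by
          have h := (Commute.inv_right (show Commute u x from hux))
          exact h
        rw [this]; group
      have huxc : u * x * u⁻¹ = x := by rw [hux]; group
      have key : w'⁻¹ * x⁻¹ * w' = w⁻¹ * x⁻¹ * w := by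
        have h1 : u * (w⁻¹ * x⁻¹ * w * x) * u⁻¹ = w'⁻¹ * (u * x⁻¹ * u⁻¹) * w' * (u * x * u⁻¹) := by
          rw [hw']; group
        rw [huxi, huxc, ← hcu] at h1
        have h2 : w⁻¹ * x⁻¹ * w * x * u * u⁻¹ = w⁻¹ * x⁻¹ * w * x := by group
        rw [h2] at h1
        exact (mul_right_cancel h1).symm
      set v := w * w'⁻¹ with hv
      have hvx : v * x = x * v := by
        have h1 : v * x⁻¹ * v⁻¹ = x⁻¹ := by
          have e : v * x⁻¹ * v⁻¹ = w * (w'⁻¹ * x⁻¹ * w') * w⁻¹ := by rw [hv]; group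
          rw [e, key]; group
        have h2 : v * x⁻¹ = x⁻¹ * v := by
          calc v * x⁻¹ = (v * x⁻¹ * v⁻¹) * v := by group
            _ = x⁻¹ * v := by rw [h1]
        have h3 : Commute v x⁻¹ := h2
        exact (Commute.inv_right_iff.1 h3)
      have hvT : v ∈ T := Subgroup.mul_mem _ hwT (Subgroup.inv_mem _ hw'T)
      have hvY : v ∈ Y := Subgroup.mem_centralizer_singleton_iff.2 hvx
      obtain ⟨i, hi⟩ := hT ⟨v, hvT⟩
      have hi' : v ^ p ^ i = 1 := by simpa using congrArg Subtype.val hi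
      have hvD : (⟨v, hvY⟩ : ↥Y) ∈ D := hDall _ ⟨i, Subtype.ext (by simpa using hi')⟩
      have huv : u * v = v * u := congrArg Subtype.val (hKD k hk _ hvD)
      have hiter : ∀ m : ℕ, u ^ m * w = (v⁻¹) ^ m * w * u ^ m := by
        intro m
        have huw : u * w = v⁻¹ * w * u := by
          have : v⁻¹ * w = w' := by rw [hv]; group
          rw [this, hw']; group
        have hcu : Commute u v⁻¹ := (Commute.inv_right (show Commute u v from huv))
        induction m with
        | zero => simp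
        | succ m ih =>
          calc u ^ (m + 1) * w = u * (u ^ m * w) := by rw [pow_succ']; group
            _ = u * ((v⁻¹) ^ m * w * u ^ m) := by rw [ih]
            _ = (u * (v⁻¹) ^ m) * w * u ^ m := by group
            _ = ((v⁻¹) ^ m * u) * w * u ^ m := by rw [(hcu.pow_right m).eq]
            _ = (v⁻¹) ^ m * (u * w) * u ^ m := by group
            _ = (v⁻¹) ^ m * (v⁻¹ * w * u) * u ^ m := by rw [huw]
            _ = (v⁻¹) ^ (m + 1) * w * u ^ (m + 1) := by rw [pow_succ (v⁻¹) m, pow_succ' u m]; group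
      have h1 := hiter (orderOf u)
      rw [pow_orderOf_eq_one, one_mul, mul_one] at h1
      have h2 : (v⁻¹) ^ orderOf u = 1 := by
        have h : (v⁻¹) ^ orderOf u * w = 1 * w := by rw [one_mul]; exact h1.symm
        exact mul_right_cancel h
      have h3 : v ^ orderOf u = 1 := by
        rw [inv_pow] at h2
        exact inv_eq_one.1 h2
      have hv1 : v = 1 := by
        have h4 : orderOf v ∣ p ^ i := orderOf_dvd_of_pow_eq_one hi'
        have h5 : orderOf v ∣ orderOf u := orderOf_dvd_of_pow_eq_one h3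
        have h6 : Nat.Coprime (p ^ i) (orderOf u) :=
          Nat.Coprime.pow_left _ ((Nat.Prime.coprime_iff_not_dvd hp).2 huo)
        exact orderOf_eq_one_iff.1 (Nat.eq_one_of_dvd_coprimes h6 h4 h5)
      apply hwB
      refine ⟨hwT, Subgroup.mem_centralizer_singleton_iff.2 ?_⟩
      have h7 : w = w' := by
        have : w * w'⁻¹ = 1 := hv1
        exact (mul_inv_eq_one.1 this)
      have h8 : w * u = u * w := by
        calc w * u = w' * u := by rw [← h7]
          _ = u * w := by rw [hw']; group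
      exact h8
    intro w hw
    have h1 : w ∈ B := by rw [hBT]; exact hw
    exact (Subgroup.mem_centralizer_singleton_iff.1 (Subgroup.mem_inf.1 h1).2).symm
  have hKn' : K'.Normal := by
    refine ⟨fun u hu g => ?_⟩
    have hu1 := hKT u hu (g⁻¹ * x * g⁻¹⁻¹) (hTn.conj_mem x hxT g⁻¹)
    rw [inv_inv] at hu1
    have hu2 : (g * u * g⁻¹) * x = x * (g * u * g⁻¹) := by
      have e1 : (g * u * g⁻¹) * x = g * (u * (g⁻¹ * x * g)) * g⁻¹ := by group
      rw [e1, hu1]; group
    have hmemY : g * u * g⁻¹ ∈ Y := Subgroup.mem_centralizer_singleton_iff.2 hu2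
    have ho : orderOf (g * u * g⁻¹) = orderOf u := by
      have := (MulAut.conj g).orderOf_eq u
      simpa [MulAut.conj_apply] using this
    have hno : ¬ p ∣ orderOf (⟨g * u * g⁻¹, hmemY⟩ : ↥Y) := by
      rw [Subgroup.orderOf_mk, ho]
      intro hd
      exact hK'card (hd.trans (Subgroup.orderOf_dvd_natCard K' hu))
    exact ⟨_, hKall _ hno, rfl⟩
  rw [Cfsg.Agent.Lib.PNilp.npc_iff]
  refine ⟨K', hKn', hK'card, fun g => ?_⟩
  haveI := hKn'
  have hcard : Nat.card (G ⧸ K') = p ^ (n + a) := by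
    have : K'.index = p ^ (n + a) := by
      rw [hK', Subgroup.index_map_subtype, hKi, hxi, pow_add]
    exact this
  have hq : IsPGroup p (G ⧸ K') := IsPGroup.of_card hcard
  obtain ⟨k, hk⟩ := hq (g : G ⧸ K')
  refine ⟨k, ?_⟩
  rw [← QuotientGroup.mk_pow, QuotientGroup.eq_one_iff] at hk
  exact hk

end Cfsg.Agent.S4127
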