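import Cfsg.Statements.S4135
import Cfsg.Agent.Lib.ClassParts
-- import your own Cfsg.Agent.* helpers here

set_option autoImplicit false
set_option linter.all false
open Cfsg

namespace Cfsg.Agent.S4135

open Cfsg.Agent.Lib.ConjFamily Cfsg.Agent.Lib.ConjCover Cfsg.Agent.Lib.ClassParts

section Aux

variable {G : Type*} [Group G] [Finite G]

theorem eq_of_le_of_index_eq {H K : Subgroup G} (h : H ≤ K) (hi : H.index = K.index) : H = K := by
  have h1 := Subgroup.index_mul_card H
  have h2 := Subgroup.index_mul_card K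
  have hpos : 0 < K.index := Nat.pos_of_ne_zero Subgroup.index_ne_zero_of_finite
  have h3 : Nat.card H = Nat.card K := by
    rw [hi] at h1
    exact Nat.eq_of_mul_eq_mul_left hpos (h1.trans h2.symm)
  exact Subgroup.eq_of_le_of_card_ge h h3.ge

theorem rel_mul_card {H K : Subgroup G} (h : H ≤ K) : H.relIndex K * Nat.card H = Nat.card K := by
  have h1 := Subgroup.index_mul_card (H.subgroupOf K)
  rwa [Nat.card_congr (Subgroup.subgroupOfEquivOfLe h).toEquiv] at h1

theorem eq_one_of_pows {r : ℕ} (hr : r.Prime) {w : G} {k n : ℕ} (hk : w ^ r ^ k = 1) (hn : ¬ r ∣ n)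
    (hw : w ^ n = 1) : w = 1 := by
  have h4 : orderOf w ∣ r ^ k := orderOf_dvd_of_pow_eq_one hk
  have h5 : orderOf w ∣ n := orderOf_dvd_of_pow_eq_one hw
  have h6 : Nat.Coprime (r ^ k) n := Nat.Coprime.pow_left _ ((Nat.Prime.coprime_iff_not_dvd hr).2 hn)
  exact orderOf_eq_one_iff.1 (Nat.eq_one_of_dvd_coprimes h6 h4 h5)

theorem cop_of_pows {r : ℕ} (hr : r.Prime) {x y : G} {k n : ℕ} (hk : x ^ r ^ k = 1) (hn : ¬ r ∣ n)
    (hw : y ^ n = 1) : (orderOf x).Coprime (orderOf y) := by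
  have h6 : Nat.Coprime (r ^ k) n := Nat.Coprime.pow_left _ ((Nat.Prime.coprime_iff_not_dvd hr).2 hn)
  exact Nat.Coprime.coprime_dvd_left (orderOf_dvd_of_pow_eq_one hk)
    (Nat.Coprime.coprime_dvd_right (orderOf_dvd_of_pow_eq_one hw) h6)

/-- The elements of `r`-power order of a commutative subgroup. -/
def rP (r : ℕ) (W : Subgroup G) (hW : ∀ u ∈ W, ∀ v ∈ W, u * v = v * u) : Subgroup G where
  carrier := {v | v ∈ W ∧ ∃ k : ℕ, v ^ r ^ k = 1}
  mul_mem' := by
    rintro a b ⟨ha, i, hi⟩ ⟨hb, j, hj⟩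
    refine ⟨W.mul_mem ha hb, i + j, ?_⟩
    have hc : Commute a b := hW a ha b hb
    rw [hc.mul_pow, pow_add, pow_mul, hi, one_pow, mul_comm (r ^ i), pow_mul, hj, one_pow, one_mul]
  one_mem' := ⟨W.one_mem, 0, by simp⟩
  inv_mem' := by
    rintro a ⟨ha, i, hi⟩
    exact ⟨W.inv_mem ha, i, by rw [inv_pow, hi, inv_one]⟩

/-- The elements of order prime to `r` of a commutative subgroup. -/
def rQ (r : ℕ) (hr : r.Prime) (W : Subgroup G) (hW : ∀ u ∈ W, ∀ v ∈ W, u * v = v * u) : Subgroup G where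
  carrier := {v | v ∈ W ∧ ∃ n : ℕ, ¬ r ∣ n ∧ v ^ n = 1}
  mul_mem' := by
    rintro a b ⟨ha, i, hi, hi'⟩ ⟨hb, j, hj, hj'⟩
    refine ⟨W.mul_mem ha hb, i * j, ?_, ?_⟩
    · intro h
      rcases hr.dvd_mul.1 h with h | h
      exacts [hi h, hj h]
    · have hc : Commute a b := hW a ha b hb
      rw [hc.mul_pow, pow_mul, hi', one_pow, mul_comm i, pow_mul, hj', one_pow, one_mul]
  one_mem' := ⟨W.one_mem, 1, hr.not_dvd_one, by simp⟩
  inv_mem' := by
    rintro a ⟨ha, i, hi, hi'⟩
    exact ⟨W.inv_mem ha, i, hi, by rw [inv_pow, hi', inv_one]⟩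

theorem card_rP_rQ {r : ℕ} (hr : r.Prime) (W : Subgroup G) (hW : ∀ u ∈ W, ∀ v ∈ W, u * v = v * u) :
    Nat.card W = Nat.card (rP r W hW) * Nat.card (rQ r hr W hW) := by
  let f : ↥(rP r W hW) × ↥(rQ r hr W hW) → ↥W := fun q => ⟨(q.1 : G) * (q.2 : G), W.mul_mem q.1.2.1 q.2.2.1⟩
  have hinj : Function.Injective f := by
    rintro ⟨⟨u, hu⟩, ⟨v, hv⟩⟩ ⟨⟨u', hu'⟩, ⟨v', hv'⟩⟩ h
    have h1 : u * v = u' * v' := congrArg Subtype.val h
    have h2 : u'⁻¹ * u = v' * v⁻¹ := by
      have : u'⁻¹ * u = u'⁻¹ * (u * v) * v⁻¹ := by group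
      rw [this, h1]; group
    have h3 : u'⁻¹ * u ∈ rP r W hW := (rP r W hW).mul_mem ((rP r W hW).inv_mem hu') hu
    have h4 : u'⁻¹ * u ∈ rQ r hr W hW := by
      rw [h2]; exact (rQ r hr W hW).mul_mem hv' ((rQ r hr W hW).inv_mem hv)
    obtain ⟨_, k, hk⟩ := h3
    obtain ⟨_, n, hn, hn'⟩ := h4
    have h5 : u'⁻¹ * u = 1 := eq_one_of_pows hr hk hn hn'
    have h6 : u = u' := by
      have : u = u' * (u'⁻¹ * u) := by group
      rw [this, h5, mul_one]
    subst h6
    have h7 : v = v' := mul_left_cancel h1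
    subst h7
    rfl
  have hsurj : Function.Surjective f := by
    rintro ⟨w, hw⟩
    obtain ⟨a, b, hz, ha, hb, ⟨k, hk⟩, ⟨n, hn, hbn⟩⟩ := exists_parts w hr
    have hle : Subgroup.zpowers w ≤ W := Subgroup.zpowers_le.2 hw
    refine ⟨(⟨a, hle ha, k, hk⟩, ⟨b, hle hb, n, hn, hbn⟩), ?_⟩
    apply Subtype.ext
    exact hz.symm
  rw [Nat.card_congr (Equiv.ofBijective f ⟨hinj, hsurj⟩).symm, Nat.card_prod]

theorem card_compl (W Z₀ : Subgroup G) :
    Nat.card {w : G // w ∈ W ∧ w ∉ Z₀} + Nat.card ↥(W ⊓ Z₀) = Nat.card W := by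
  have h1 : (((W ⊓ Z₀ : Subgroup G) : Set G)) ⊆ (W : Set G) := fun x hx => hx.1
  have h2 := Set.ncard_diff_add_ncard_of_subset h1 (Set.toFinite _)
  have h3 : (W : Set G) \ ((W ⊓ Z₀ : Subgroup G) : Set G) = {w : G | w ∈ W ∧ w ∉ Z₀} := by
    ext x
    simp only [Set.mem_diff, SetLike.mem_coe, Subgroup.mem_inf, Set.mem_setOf_eq, not_and]
    constructor
    · rintro ⟨a, b⟩; exact ⟨a, b a⟩
    · rintro ⟨a, b⟩; exact ⟨a, fun _ => b⟩
  rw [h3] at h2
  rw [← Nat.card_coe_set_eq, ← Nat.card_coe_set_eq, ← Nat.card_coe_set_eq] at h2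
  exact h2

theorem arith {r : ℕ} (hr : r.Prime) {k zr zy a b j : ℕ} (hk : 0 < k) (h1 : k ∣ zr * (a - 1))
    (h2 : k ∣ zy * (b - 1)) (hzr : zr = r ^ j) (hzy : ¬ r ∣ zy) (ha : 2 ≤ a) (hb : 2 ≤ b) : k < a * b := by
  obtain ⟨i, k', hk', hkk⟩ := Nat.exists_eq_pow_mul_and_not_dvd hk.ne' r hr.ne_one
  have h3 : r ^ i ∣ b - 1 := by
    have h5 : r ^ i ∣ zy * (b - 1) := (Dvd.intro _ hkk.symm).trans h2
    have h6 : Nat.Coprime (r ^ i) zy := Nat.Coprime.pow_left _ ((Nat.Prime.coprime_iff_not_dvd hr).2 hzy)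
    exact h6.dvd_of_dvd_mul_left h5
  have h4 : k' ∣ a - 1 := by
    have h5 : k' ∣ zr * (a - 1) := (Dvd.intro_left _ hkk.symm).trans h1
    rw [hzr] at h5
    have h6 : Nat.Coprime k' (r ^ j) :=
      (Nat.Coprime.pow_left _ ((Nat.Prime.coprime_iff_not_dvd hr).2 hk')).symm
    exact h6.dvd_of_dvd_mul_left h5
  have h7 : r ^ i ≤ b - 1 := Nat.le_of_dvd (by omega) h3
  have h8 : k' ≤ a - 1 := Nat.le_of_dvd (by omega) h4
  have h9 : r ^ i * k' ≤ (b - 1) * (a - 1) := Nat.mul_le_mul h7 h8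
  rw [hkk]
  obtain ⟨a', rfl⟩ : ∃ a', a = a' + 2 := ⟨a - 2, by omega⟩
  obtain ⟨b', rfl⟩ : ∃ b', b = b' + 2 := ⟨b - 2, by omega⟩
  simp only [Nat.add_succ_sub_one, Nat.add_one_sub_one] at h9
  nlinarith

theorem arith2 {f e s : ℕ} (hfe : f * e = 1 + s * (e - 1)) (hf0 : 0 < f) (he0 : 1 ≤ e) (hlt : f < e) : f = 1 := by
  obtain ⟨f', rfl⟩ : ∃ f', f = f' + 1 := ⟨f - 1, by omega⟩
  obtain ⟨e', rfl⟩ : ∃ e', e = e' + 1 := ⟨e - 1, by omega⟩
  have h1 : (f' + 1) * (e' + 1) = 1 + s * e' := by simpa using hfe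
  have h2 : e' ∣ f' := by
    have h3 : e' ∣ e' * (f' + 1) := Nat.dvd_mul_right _ _
    have h4 : e' * (f' + 1) + f' = s * e' := by nlinarith
    have h5 : e' ∣ s * e' := Nat.dvd_mul_left _ _
    rw [← h4] at h5
    exact (Nat.dvd_add_right h3).1 h5
  have h3 : f' < e' := by omega
  have h4 : f' = 0 := Nat.eq_zero_of_dvd_of_lt h2 h3
  omega

theorem dvd_of_conj_free (D : Subgroup G) (S : Set G)
    (hS : ∀ g ∈ Subgroup.normalizer (D : Set G), ∀ v ∈ S, g * v * g⁻¹ ∈ S)
    (hfree : ∀ v ∈ S, Subgroup.centralizer ({v} : Set G) = D) :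
    D.relIndex (Subgroup.normalizer (D : Set G)) ∣ Nat.card S := by
  classical
  set Γ := Subgroup.normalizer (D : Set G) with hΓ
  letI act : MulAction ↥Γ ↥S :=
    { smul := fun g v => ⟨(g : G) * (v : G) * (g : G)⁻¹, hS g g.2 v v.2⟩
      one_smul := by
        intro v
        apply Subtype.ext
        show ((1 : ↥Γ) : G) * (v : G) * ((1 : ↥Γ) : G)⁻¹ = v
        simp
      mul_smul := by
        intro g h v
        apply Subtype.ext
        show ((g * h : ↥Γ) : G) * (v : G) * ((g * h : ↥Γ) : G)⁻¹ = (g : G) * ((h : G) * (v : G) * (h : G)⁻¹) * (g : G)⁻¹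
        push_cast
        group }
  apply dvd_card_of_stabilizer_index (Γ := ↥Γ) (S := ↥S)
  intro v
  have : MulAction.stabilizer ↥Γ v = D.subgroupOf Γ := by
    ext g
    rw [MulAction.mem_stabilizer_iff, Subgroup.mem_subgroupOf, ← hfree v v.2,
      Subgroup.mem_centralizer_singleton_iff]
    constructor
    · intro h
      have h1 : (g : G) * (v : G) * (g : G)⁻¹ = v := congrArg Subtype.val h
      calc (g : G) * v = ((g : G) * (v : G) * (g : G)⁻¹) * g := by group
        _ = v * g := by rw [h1]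
    · intro h
      apply Subtype.ext
      show (g : G) * (v : G) * (g : G)⁻¹ = v
      rw [h]; group
  rw [this]
  rfl

theorem dvd_index_of_stab (E Z₀ X : Subgroup G) (h : ∀ g : G, ∀ u ∈ E, g⁻¹ * u * g ∈ X ↔ u ∈ Z₀) :
    Z₀.relIndex E ∣ X.index := by
  apply dvd_card_of_stabilizer_index (Γ := ↥E) (S := G ⧸ X)
  intro q
  induction q using QuotientGroup.induction_on with
  | H g =>
    have : MulAction.stabilizer ↥E (g : G ⧸ X) = Z₀.subgroupOf E := by
      ext u
      rw [MulAction.mem_stabilizer_iff, Subgroup.mem_subgroupOf, ← h g u u.2]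
      show (((u : G) * g : G) : G ⧸ X) = (g : G ⧸ X) ↔ _
      rw [QuotientGroup.eq]
      have e : ((u : G) * g)⁻¹ * g = (g⁻¹ * (u : G) * g)⁻¹ := by group
      rw [e]
      exact Subgroup.inv_mem_iff _
    rw [this]
    rfl

theorem index_eq_add (E Z₀ D : Subgroup G) (hED : E ≤ D)
    (h : ∀ g : G, g ∉ Subgroup.normalizer (D : Set G) → ∀ u ∈ E, (g⁻¹ * u * g ∈ D ↔ u ∈ Z₀)) :
    ∃ t : ℕ, D.index = D.relIndex (Subgroup.normalizer (D : Set G)) + Z₀.relIndex E * t := by
  classical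
  set Γ := Subgroup.normalizer (D : Set G) with hΓ
  let F : Set (G ⧸ D) := {q | ∃ g ∈ Γ, (g : G ⧸ D) = q}
  have hEΓ : E ≤ Γ := hED.trans Subgroup.le_normalizer
  let T : SubMulAction ↥E (G ⧸ D) :=
    { carrier := Fᶜ
      smul_mem' := by
        intro u q hq hF
        apply hq
        obtain ⟨g, hg, hgq⟩ := hF
        refine ⟨(u : G)⁻¹ * g, Γ.mul_mem (Γ.inv_mem (hEΓ u.2)) hg, ?_⟩
        have h1 : u⁻¹ • (u • q) = q := inv_smul_smul u q
        rw [← hgq] at h1
        exact h1 }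
  have hdvd : Z₀.relIndex E ∣ Nat.card ↥T := by
    apply dvd_card_of_stabilizer_index (Γ := ↥E) (S := ↥T)
    rintro ⟨q, hq⟩
    induction q using QuotientGroup.induction_on with
    | H g =>
      have hg : g ∉ Γ := fun hg => hq ⟨g, hg, rfl⟩
      have : MulAction.stabilizer ↥E (⟨(g : G ⧸ D), hq⟩ : ↥T) = Z₀.subgroupOf E := by
        ext u
        rw [MulAction.mem_stabilizer_iff, Subgroup.mem_subgroupOf, ← h g hg u u.2, Subtype.ext_iff]
        show (((u : G) * g : G) : G ⧸ D) = (g : G ⧸ D) ↔ _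
        rw [QuotientGroup.eq]
        have e : ((u : G) * g)⁻¹ * g = (g⁻¹ * (u : G) * g)⁻¹ := by group
        rw [e]
        exact Subgroup.inv_mem_iff _
      rw [this]
      rfl
  let φ : ↥Γ ⧸ D.subgroupOf Γ → G ⧸ D := fun q => Quotient.liftOn' q (fun s => (((s : ↥Γ) : G) : G ⧸ D))
    (by
      intro a b hab
      have h1 : a⁻¹ * b ∈ D.subgroupOf Γ := QuotientGroup.leftRel_apply.1 hab
      have h2 : ((a : G))⁻¹ * (b : G) ∈ D := h1
      exact QuotientGroup.eq.2 h2)
  have hinj : Function.Injective φ := by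
    intro q₁ q₂
    induction q₁ using QuotientGroup.induction_on with
    | H a =>
      induction q₂ using QuotientGroup.induction_on with
      | H b =>
        intro hab
        have h1 : ((a : G) : G ⧸ D) = ((b : G) : G ⧸ D) := hab
        have h2 : ((a : G))⁻¹ * (b : G) ∈ D := QuotientGroup.eq.1 h1
        exact QuotientGroup.eq.2 h2
  have hF : F.ncard = D.relIndex Γ := by
    have h1 : F = φ '' Set.univ := by
      ext q
      constructor
      · rintro ⟨g, hg, rfl⟩
        exact ⟨((⟨g, hg⟩ : ↥Γ) : ↥Γ ⧸ D.subgroupOf Γ), Set.mem_univ _, rfl⟩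
      · rintro ⟨q', _, rfl⟩
        induction q' using QuotientGroup.induction_on with
        | H s => exact ⟨s, s.2, rfl⟩
    rw [h1, Set.ncard_image_of_injective _ hinj, Set.ncard_univ]
    rfl
  obtain ⟨t, ht⟩ := hdvd
  refine ⟨t, ?_⟩
  rw [← ht, ← hF]
  have h2 := Set.ncard_add_ncard_compl F
  have h3 : Nat.card ↥T = Fᶜ.ncard := by
    rw [← Nat.card_coe_set_eq]
    rfl
  rw [h3, h2]
  rfl

theorem relIndex_dvd_of_normal' (N D : Subgroup G) [N.Normal] : D.relIndex N ∣ D.index := by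
  have h1 : (D ⊔ N).relIndex ⊤ = (D ⊔ N).index := Subgroup.relIndex_top_right _
  have h2 : D.relIndex (D ⊔ N) ∣ D.index := Subgroup.relIndex_dvd_index_of_le le_sup_left
  have h3 : D.relIndex (D ⊔ N) = D.relIndex N := by
    -- both sides are `|N| / |N ⊓ D|`
    have a1 : N.relIndex (D ⊔ N) = N.relIndex D := Subgroup.relIndex_sup_right D N
    have a2 := rel_mul_card (le_sup_right : N ≤ D ⊔ N)
    have a3 := rel_mul_card (le_sup_left : D ≤ D ⊔ N)
    have a4 := rel_mul_card (inf_le_left : N ⊓ D ≤ N)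
    have a5 := rel_mul_card (inf_le_right : N ⊓ D ≤ D)
    have a6 : (N ⊓ D).relIndex D = N.relIndex D := Subgroup.inf_relIndex_right N D
    have a7 : (N ⊓ D).relIndex N = D.relIndex N := by
      rw [inf_comm]; exact Subgroup.inf_relIndex_right D N
    rw [a6] at a5
    rw [a7] at a4
    rw [a1] at a2
    have hz : 0 < Nat.card ↥(N ⊓ D) := Nat.card_pos
    have hD : 0 < Nat.card D := Nat.card_pos
    have : D.relIndex (D ⊔ N) * Nat.card D = D.relIndex N * Nat.card D := by
      rw [a3, ← a2, ← a4, ← a5]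
      ring
    exact Nat.eq_of_mul_eq_mul_right hD this
  rw [h3] at h2
  exact h2

end Aux

theorem pgroup_zpowers {H : Type*} [Group H] {p : ℕ} {a : H} {k : ℕ} (hk : a ^ p ^ k = 1) :
    IsPGroup p (Subgroup.zpowers a) := by
  rintro ⟨u, hu⟩
  obtain ⟨i, rfl⟩ := Subgroup.mem_zpowers_iff.1 hu
  refine ⟨k, ?_⟩
  apply Subtype.ext
  show (a ^ i) ^ p ^ k = 1
  rw [← zpow_natCast, ← zpow_mul, mul_comm, zpow_mul, zpow_natCast, hk, one_zpow]



set_option maxHeartbeats 4000000 in
/-- Let G be a finite group, r a prime and R a Sylow r-subgroup of G that is not central, N a normal subgroup of G containing R, and m a natural number such that every element of N has a conjugacy class in G of size 1 or m. Then N is nilpotent. -/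
theorem result {G : Type*} [Group G] [Finite G] (r : ℕ) [Fact r.Prime]
    (R : Sylow r G) (hR : ¬ (R : Subgroup G) ≤ Subgroup.center G) (N : Subgroup G) [N.Normal] (hRN : (R : Subgroup G) ≤ N)
    (m : ℕ) (h : ∀ x ∈ N, (Subgroup.centralizer ({x} : Set G)).index = 1 ∨ (Subgroup.centralizer ({x} : Set G)).index = m) : Group.IsNilpotent N := by
  classical
  have hr : r.Prime := Fact.out
  set Z := Subgroup.center G with hZdef
  have hidx : ∀ x ∈ N, x ∉ Z → (Subgroup.centralizer ({x} : Set G)).index = m := by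
    intro x hx hxZ
    refine (h x hx).resolve_left ?_
    intro h1
    apply hxZ
    rw [Subgroup.index_eq_one] at h1
    refine Subgroup.mem_center_iff.2 fun z => ?_
    have : z ∈ Subgroup.centralizer ({x} : Set G) := by rw [h1]; trivial
    exact Subgroup.mem_centralizer_singleton_iff.1 this
  have hcomm : ∀ x ∈ N, ∀ y ∈ N, x ∉ Z → y ∉ Z → Commute x y → (orderOf x).Coprime (orderOf y) →
      Subgroup.centralizer ({x} : Set G) = Subgroup.centralizer ({y} : Set G) := by
    intro x hx y hy hxZ hyZ hc hcop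
    have h1 := centralizer_mul hc hcop
    have h2 : (Subgroup.centralizer ({x * y} : Set G)).index = m := by
      refine (h _ (N.mul_mem hx hy)).resolve_left ?_
      intro h3
      rw [Subgroup.index_eq_one, h1] at h3
      apply hxZ
      refine Subgroup.mem_center_iff.2 fun z => ?_
      have : z ∈ Subgroup.centralizer ({x} : Set G) ⊓ Subgroup.centralizer ({y} : Set G) := by
        rw [h3]; trivial
      exact Subgroup.mem_centralizer_singleton_iff.1 (Subgroup.mem_inf.1 this).1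
    rw [h1] at h2
    have h3 := eq_of_le_of_index_eq (inf_le_left : Subgroup.centralizer ({x} : Set G) ⊓ Subgroup.centralizer ({y} : Set G) ≤ _)
      (h2.trans (hidx x hx hxZ).symm)
    have h4 := eq_of_le_of_index_eq (inf_le_right : Subgroup.centralizer ({x} : Set G) ⊓ Subgroup.centralizer ({y} : Set G) ≤ _)
      (h2.trans (hidx y hy hyZ).symm)
    exact h3.symm.trans h4
  have hrN : ∀ z : G, (∃ k : ℕ, z ^ r ^ k = 1) → z ∈ N := by
    rintro z ⟨k, hk⟩
    obtain ⟨g, hg⟩ := Cfsg.Agent.Lib.SylowIn.exists_conj_mem_sylow R (pgroup_zpowers hk)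
    have h1 := hg z (Subgroup.mem_zpowers z)
    have h2 := (inferInstance : N.Normal).conj_mem _ (hRN h1) g⁻¹
    have e : g⁻¹ * (g * z * g⁻¹) * g⁻¹⁻¹ = z := by group
    rwa [e] at h2
  have hZR : ∀ z ∈ Z, (∃ k : ℕ, z ^ r ^ k = 1) → z ∈ (R : Subgroup G) := by
    rintro z hz ⟨k, hk⟩
    obtain ⟨g, hg⟩ := Cfsg.Agent.Lib.SylowIn.exists_conj_mem_sylow R (pgroup_zpowers hk)
    have h1 := hg z (Subgroup.mem_zpowers z)
    have e : g * z * g⁻¹ = z := by
      rw [Subgroup.mem_center_iff.1 hz g]; group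
    rwa [e] at h1
  -- step (*)
  have star : ∀ y ∈ N, y ∉ Z → (∃ n : ℕ, ¬ r ∣ n ∧ y ^ n = 1) →
      ∃ x ∈ N, x ∉ Z ∧ (∃ k : ℕ, x ^ r ^ k = 1) ∧ x * y = y * x := by
    intro y hy hyZ _
    by_contra hno
    push Not at hno
    set Cy := Subgroup.centralizer ({y} : Set G) with hCy
    obtain ⟨S⟩ : Nonempty (Sylow r ↥Cy) := inferInstance
    have hS : ∀ s ∈ (S : Subgroup ↥Cy), (s : G) ∈ Z := by
      intro s hs
      by_contra hsZ
      obtain ⟨k, hk⟩ := S.isPGroup' ⟨s, hs⟩
      have hk' : (s : G) ^ r ^ k = 1 := by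
        simpa using congrArg (fun t => ((t : ↥Cy) : G)) (congrArg Subtype.val hk)
      exact hno (s : G) (hrN _ ⟨k, hk'⟩) hsZ ⟨k, hk'⟩ (Subgroup.mem_centralizer_singleton_iff.1 s.2)
    obtain ⟨x₀, hx₀R, hx₀Z⟩ := SetLike.not_le_iff_exists.1 hR
    have hx₀N := hrN x₀ (by
      obtain ⟨k, hk⟩ := R.isPGroup' ⟨x₀, hx₀R⟩
      exact ⟨k, by simpa using congrArg Subtype.val hk⟩)
    set X := Subgroup.centralizer ({x₀} : Set G) with hX
    have hcard : Nat.card X = Nat.card Cy := by
      have h1 := Subgroup.index_mul_card X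
      have h2 := Subgroup.index_mul_card Cy
      rw [hX, hidx x₀ hx₀N hx₀Z, ← hX] at h1
      rw [hCy, hidx y hy hyZ, ← hCy] at h2
      have hpos : 0 < m := by
        rw [← hidx y hy hyZ]
        exact Nat.pos_of_ne_zero Subgroup.index_ne_zero_of_finite
      exact Nat.eq_of_mul_eq_mul_left hpos (h1.trans h2.symm)
    set R₂ := (R : Subgroup G) ⊓ X with hR₂
    have hR₂p : IsPGroup r R₂ := R.isPGroup'.to_le inf_le_left
    set S' := (S : Subgroup ↥Cy).map Cy.subtype with hS'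
    have hS'le : S' ≤ R₂ := by
      rintro _ ⟨s, hs, rfl⟩
      have hsZ := hS s hs
      obtain ⟨k, hk⟩ := S.isPGroup' ⟨s, hs⟩
      have hk' : (s : G) ^ r ^ k = 1 := by
        simpa using congrArg (fun t => ((t : ↥Cy) : G)) (congrArg Subtype.val hk)
      refine ⟨hZR _ hsZ ⟨k, hk'⟩, ?_⟩
      exact Subgroup.mem_centralizer_singleton_iff.2 (Subgroup.mem_center_iff.1 hsZ x₀).symm
    have hcardS' : Nat.card S' = Nat.card (S : Subgroup ↥Cy) :=
      Subgroup.card_map_of_injective Cy.subtype_injective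
    have hle : Nat.card R₂ ≤ Nat.card S' := by
      obtain ⟨j, hj⟩ := IsPGroup.iff_card.1 hR₂p
      have h1 : Nat.card R₂ ∣ Nat.card Cy := by
        rw [← hcard]; exact Subgroup.card_dvd_of_le inf_le_right
      rw [hj] at h1
      have hne : Nat.card Cy ≠ 0 := Nat.card_pos.ne'
      have h2 := (Nat.Prime.pow_dvd_iff_le_factorization hr hne).1 h1
      rw [hcardS', S.card_eq_multiplicity, hj]
      exact Nat.pow_le_pow_right hr.pos h2
    have heq := Subgroup.eq_of_le_of_card_ge hS'le hle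
    have hx₀mem : x₀ ∈ R₂ := ⟨hx₀R, Subgroup.mem_centralizer_singleton_iff.2 rfl⟩
    rw [← heq] at hx₀mem
    obtain ⟨s, hs, hse⟩ := hx₀mem
    apply hx₀Z
    rw [← hse]
    exact hS s hs
  by_cases hA : ∀ y ∈ N, (∃ n : ℕ, ¬ r ∣ n ∧ y ^ n = 1) → y ∈ Z
  · -- all `r'`-elements of `N` are central
    haveI hZ'n : (Z.subgroupOf N).Normal := inferInstance
    have hq : IsPGroup r (↥N ⧸ Z.subgroupOf N) := by
      intro q
      induction q using QuotientGroup.induction_on with
      | H w =>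
        obtain ⟨a, b, hz, ha, hb, ⟨k, hk⟩, ⟨n, hn, hbn⟩⟩ := exists_parts (w : G) hr
        have hab : Commute a b := commute_of_mem_zpowers ha hb
        have hle : Subgroup.zpowers (w : G) ≤ N := Subgroup.zpowers_le.2 w.2
        have hbZ : b ∈ Z := hA b (hle hb) ⟨n, hn, hbn⟩
        refine ⟨k, ?_⟩
        rw [← QuotientGroup.mk_pow, QuotientGroup.eq_one_iff, Subgroup.mem_subgroupOf]
        have e : ((w ^ r ^ k : ↥N) : G) = b ^ r ^ k := by
          push_cast
          rw [hz, hab.mul_pow, hk, one_mul]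
        rw [e]
        exact Subgroup.pow_mem _ hbZ _
    haveI := hq.isNilpotent
    refine isNilpotent_of_ker_le_center (QuotientGroup.mk' (Z.subgroupOf N)) ?_
    rw [QuotientGroup.ker_mk']
    intro u hu
    have hu' : (u : G) ∈ Z := hu
    refine Subgroup.mem_center_iff.2 fun z => ?_
    exact Subtype.ext (Subgroup.mem_center_iff.1 hu' z)
  push Not at hA
  obtain ⟨y₀, hy₀N, hy₀n, hy₀Z⟩ := hA
  obtain ⟨x₀, hx₀N, hx₀Z, hx₀r, hx₀y⟩ := star y₀ hy₀N hy₀Z hy₀n
  obtain ⟨n₀, hn₀, hn₀'⟩ := hy₀n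
  obtain ⟨k₀, hk₀⟩ := hx₀r
  set D := Subgroup.centralizer ({y₀} : Set G) with hD
  have hDx : Subgroup.centralizer ({x₀} : Set G) = D :=
    hcomm x₀ hx₀N y₀ hy₀N hx₀Z hy₀Z hx₀y (cop_of_pows hr hk₀ hn₀ hn₀')
  set E := D ⊓ N with hE
  have ha : ∀ v ∈ E, ∀ d ∈ D, v * d = d * v := by
    intro v hv d hd
    obtain ⟨a, b, hz, ha, hb, ⟨k, hk⟩, ⟨n, hn, hbn⟩⟩ := exists_parts v hr
    have hab : Commute a b := commute_of_mem_zpowers ha hb
    have hle : Subgroup.zpowers v ≤ E := Subgroup.zpowers_le.2 hv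
    have haE := hle ha
    have hbE := hle hb
    have hae : a * d = d * a := by
      by_cases haZ : a ∈ Z
      · exact (Subgroup.mem_center_iff.1 haZ d).symm
      · have h1 : Subgroup.centralizer ({a} : Set G) = D :=
          hcomm a haE.2 y₀ hy₀N haZ hy₀Z (Subgroup.mem_centralizer_singleton_iff.1 haE.1)
            (cop_of_pows hr hk hn₀ hn₀')
        have h2 : d ∈ Subgroup.centralizer ({a} : Set G) := by rw [h1]; exact hd
        exact (Subgroup.mem_centralizer_singleton_iff.1 h2).symm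
    have hbe : b * d = d * b := by
      by_cases hbZ : b ∈ Z
      · exact (Subgroup.mem_center_iff.1 hbZ d).symm
      · have hbx : b ∈ Subgroup.centralizer ({x₀} : Set G) := by rw [hDx]; exact hbE.1
        have h1 : Subgroup.centralizer ({x₀} : Set G) = Subgroup.centralizer ({b} : Set G) :=
          hcomm x₀ hx₀N b hbE.2 hx₀Z hbZ (Subgroup.mem_centralizer_singleton_iff.1 hbx).symm
            (cop_of_pows hr hk₀ hn hbn)
        have h2 : d ∈ Subgroup.centralizer ({b} : Set G) := by rw [← h1, hDx]; exact hd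
        exact (Subgroup.mem_centralizer_singleton_iff.1 h2).symm
    rw [hz]
    calc a * b * d = a * (b * d) := by group
      _ = a * (d * b) := by rw [hbe]
      _ = (a * d) * b := by group
      _ = (d * a) * b := by rw [hae]
      _ = d * (a * b) := by group
  have hDidx : D.index = m := hidx y₀ hy₀N hy₀Z
  have hb : ∀ v ∈ E, v ∉ Z → Subgroup.centralizer ({v} : Set G) = D := by
    intro v hv hvZ
    have h1 : D ≤ Subgroup.centralizer ({v} : Set G) := fun d hd =>
      Subgroup.mem_centralizer_singleton_iff.2 (ha v hv d hd).symm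
    exact (eq_of_le_of_index_eq h1 (hDidx.trans (hidx v hv.2 hvZ).symm)).symm
  have hEcomm : ∀ u ∈ E, ∀ v ∈ E, u * v = v * u := fun u hu v hv => ha u hu v hv.1
  set ZN := N ⊓ Z with hZN
  have hZNE : ZN ≤ E := fun v hv =>
    ⟨Subgroup.mem_centralizer_singleton_iff.2 (Subgroup.mem_center_iff.1 hv.2 y₀).symm, hv.1⟩
  have hZNcomm : ∀ u ∈ ZN, ∀ v ∈ ZN, u * v = v * u := fun u hu v hv => hEcomm u (hZNE hu) v (hZNE hv)
  set A := rP r E hEcomm with hAdef
  set Y := rQ r hr E hEcomm with hYdef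
  set Zr := A ⊓ Z with hZr
  set Zy := Y ⊓ Z with hZy
  have hZrP : rP r ZN hZNcomm = Zr := by
    ext v
    constructor
    · rintro ⟨h1, h2⟩
      exact ⟨⟨hZNE h1, h2⟩, h1.2⟩
    · rintro ⟨⟨h1, h2⟩, h3⟩
      exact ⟨⟨h1.2, h3⟩, h2⟩
  have hZyQ : rQ r hr ZN hZNcomm = Zy := by
    ext v
    constructor
    · rintro ⟨h1, h2⟩
      exact ⟨⟨hZNE h1, h2⟩, h1.2⟩
    · rintro ⟨⟨h1, h2⟩, h3⟩
      exact ⟨⟨h1.2, h3⟩, h2⟩
  have hcE : Nat.card E = Nat.card A * Nat.card Y := card_rP_rQ hr E hEcomm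
  have hcZ : Nat.card ZN = Nat.card Zr * Nat.card Zy := by
    rw [← hZrP, ← hZyQ]; exact card_rP_rQ hr ZN hZNcomm
  have hZrA : Zr ≤ A := inf_le_left
  have hZyY : Zy ≤ Y := inf_le_left
  set a := Zr.relIndex A with hadef
  set β := Zy.relIndex Y with hβdef
  set e := ZN.relIndex E with hedef
  have ha1 : a * Nat.card Zr = Nat.card A := rel_mul_card hZrA
  have hb1 : β * Nat.card Zy = Nat.card Y := rel_mul_card hZyY
  have he1 : e * Nat.card ZN = Nat.card E := rel_mul_card hZNE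
  have hzr : 0 < Nat.card Zr := Nat.card_pos
  have hzy : 0 < Nat.card Zy := Nat.card_pos
  have heab : e = a * β := by
    have h1 : e * (Nat.card Zr * Nat.card Zy) = (a * β) * (Nat.card Zr * Nat.card Zy) := by
      calc e * (Nat.card Zr * Nat.card Zy) = e * Nat.card ZN := by rw [hcZ]
        _ = Nat.card E := he1
        _ = Nat.card A * Nat.card Y := hcE
        _ = (a * Nat.card Zr) * (β * Nat.card Zy) := by rw [ha1, hb1]
        _ = _ := by ring
    exact Nat.eq_of_mul_eq_mul_right (Nat.mul_pos hzr hzy) h1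
  have hx₀E : x₀ ∈ E := ⟨Subgroup.mem_centralizer_singleton_iff.2 hx₀y, hx₀N⟩
  have hy₀E : y₀ ∈ E := ⟨Subgroup.mem_centralizer_singleton_iff.2 rfl, hy₀N⟩
  have ha2 : 2 ≤ a := by
    have h1 : a ≠ 1 := by
      intro h1
      have h2 : A ≤ Zr := Subgroup.relIndex_eq_one.1 h1
      exact hx₀Z (h2 (⟨hx₀E, k₀, hk₀⟩ : x₀ ∈ A)).2
    have h0 : a ≠ 0 := by
      intro h0
      rw [h0, zero_mul] at ha1
      exact (Nat.card_pos (α := A)).ne' ha1.symm
    omega
  have hb2 : 2 ≤ β := by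
    have h1 : β ≠ 1 := by
      intro h1
      have h2 : Y ≤ Zy := Subgroup.relIndex_eq_one.1 h1
      exact hy₀Z (h2 (⟨hy₀E, n₀, hn₀, hn₀'⟩ : y₀ ∈ Y)).2
    have h0 : β ≠ 0 := by
      intro h0
      rw [h0, zero_mul] at hb1
      exact (Nat.card_pos (α := Y)).ne' hb1.symm
    omega
  set Γ := Subgroup.normalizer (D : Set G) with hΓ
  set k := D.relIndex Γ with hkdef
  have hDΓ : D ≤ Γ := Subgroup.le_normalizer
  have hconjE : ∀ g ∈ Γ, ∀ v ∈ E, g * v * g⁻¹ ∈ E := by
    intro g hg v hv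
    refine ⟨(Subgroup.mem_normalizer_iff.1 hg v).1 hv.1, (inferInstance : N.Normal).conj_mem v hv.2 g⟩
  have hnotZ : ∀ g v : G, v ∉ Z → g * v * g⁻¹ ∉ Z := by
    intro g v hv h1
    apply hv
    have h2 := (inferInstance : Z.Normal).conj_mem _ h1 g⁻¹
    have e : g⁻¹ * (g * v * g⁻¹) * g⁻¹⁻¹ = v := by group
    rwa [e] at h2
  have hS1 : k ∣ Nat.card {v : G // v ∈ A ∧ v ∉ Z} := by
    refine dvd_of_conj_free D {v : G | v ∈ A ∧ v ∉ Z} ?_ ?_
    · rintro g hg v ⟨⟨hv, i, hi⟩, hvZ⟩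
      refine ⟨⟨hconjE g hg v hv, i, ?_⟩, hnotZ g v hvZ⟩
      rw [conj_pow, hi]; group
    · rintro v ⟨⟨hv, _⟩, hvZ⟩
      exact hb v hv hvZ
  have hS2 : k ∣ Nat.card {v : G // v ∈ Y ∧ v ∉ Z} := by
    refine dvd_of_conj_free D {v : G | v ∈ Y ∧ v ∉ Z} ?_ ?_
    · rintro g hg v ⟨⟨hv, i, hi, hi'⟩, hvZ⟩
      refine ⟨⟨hconjE g hg v hv, i, hi, ?_⟩, hnotZ g v hvZ⟩
      rw [conj_pow, hi']; group
    · rintro v ⟨⟨hv, _⟩, hvZ⟩
      exact hb v hv hvZ
  have hc1 := card_compl A Z
  have hc2 := card_compl Y Z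
  have hS1' : k ∣ Nat.card Zr * (a - 1) := by
    have : Nat.card {v : G // v ∈ A ∧ v ∉ Z} = Nat.card Zr * (a - 1) := by
      have h1 : Nat.card {v : G // v ∈ A ∧ v ∉ Z} + Nat.card Zr = a * Nat.card Zr := by
        rw [ha1]; exact hc1
      have h2 : Nat.card Zr * (a - 1) + Nat.card Zr = a * Nat.card Zr := by
        obtain ⟨a', ha'⟩ : ∃ a', a = a' + 1 := ⟨a - 1, by omega⟩
        rw [ha']; simp; ring
      omega
    rw [← this]; exact hS1
  have hS2' : k ∣ Nat.card Zy * (β - 1) := by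
    have : Nat.card {v : G // v ∈ Y ∧ v ∉ Z} = Nat.card Zy * (β - 1) := by
      have h1 : Nat.card {v : G // v ∈ Y ∧ v ∉ Z} + Nat.card Zy = β * Nat.card Zy := by
        rw [hb1]; exact hc2
      have h2 : Nat.card Zy * (β - 1) + Nat.card Zy = β * Nat.card Zy := by
        obtain ⟨a', ha'⟩ : ∃ a', β = a' + 1 := ⟨β - 1, by omega⟩
        rw [ha']; simp; ring
      omega
    rw [← this]; exact hS2
  have hkpos : 0 < k := by
    have h1 := Subgroup.relIndex_mul_index hDΓ
    have h2 : D.index ≠ 0 := Subgroup.index_ne_zero_of_finite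
    rw [← hkdef] at h1
    refine Nat.pos_of_ne_zero fun h0 => ?_
    rw [h0, zero_mul] at h1
    exact h2 h1.symm
  have hApg : IsPGroup r A := by
    rintro ⟨u, _, i, hi⟩
    exact ⟨i, Subtype.ext hi⟩
  have hZrpg : IsPGroup r Zr := hApg.to_le hZrA
  obtain ⟨j, hj⟩ := IsPGroup.iff_card.1 hZrpg
  have hZynd : ¬ r ∣ Nat.card Zy := by
    intro hd
    haveI : Fact r.Prime := ⟨hr⟩
    obtain ⟨u, hu⟩ := exists_prime_orderOf_dvd_card' (G := ↥Zy) r hd
    obtain ⟨⟨_, n, hn, hn'⟩, _⟩ := u.2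
    apply hn
    have h1 : orderOf (u : G) = r := by rw [Subgroup.orderOf_coe]; exact hu
    rw [← h1]
    exact orderOf_dvd_of_pow_eq_one hn'
  have hklt : k < e := by
    rw [heab]
    exact arith hr hkpos hS1' hS2' hj hZynd ha2 hb2
  by_cases hcov : ∀ w ∈ N, ∃ g : G, w ∈ cj g E
  · -- case: `N` is covered by the conjugates of `E`
    set s := Γ.index with hsdef
    have hms : k * s = m := by
      rw [← hDidx]; exact Subgroup.relIndex_mul_index hDΓ
    have hcount : Nat.card {w : G // w ∈ N ∧ w ∉ Z} = s * Nat.card {v : G // v ∈ E ∧ v ∉ Z} := by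
      let Φ : (G ⧸ Γ) × {v : G // v ∈ E ∧ v ∉ Z} → {w : G // w ∈ N ∧ w ∉ Z} := fun q =>
        ⟨q.1.out * (q.2 : G) * q.1.out⁻¹, (inferInstance : N.Normal).conj_mem _ q.2.2.1.2 _, hnotZ _ _ q.2.2.2⟩
      have hinj : Function.Injective Φ := by
        rintro ⟨q, ⟨v, hv⟩⟩ ⟨q', ⟨v', hv'⟩⟩ he
        have h1 : q.out * v * q.out⁻¹ = q'.out * v' * q'.out⁻¹ := congrArg Subtype.val he
        have hCc : ∀ (g v : G), Subgroup.centralizer ({g * v * g⁻¹} : Set G) = cj g (Subgroup.centralizer ({v} : Set G)) := by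
          intro g v
          ext y
          rw [mem_cj, Subgroup.mem_centralizer_singleton_iff, Subgroup.mem_centralizer_singleton_iff]
          constructor
          · intro h2
            have e1 : g⁻¹ * y * g * v = g⁻¹ * (y * (g * v * g⁻¹)) * g := by group
            rw [e1, h2]; group
          · intro h2
            have e1 : y * (g * v * g⁻¹) = g * (g⁻¹ * y * g * v) * g⁻¹ := by group
            rw [e1, h2]; group
        have h2 : cj q.out D = cj q'.out D := by
          have h3 := hCc q.out v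
          have h4 := hCc q'.out v'
          rw [hb v hv.1 hv.2] at h3
          rw [hb v' hv'.1 hv'.2] at h4
          rw [← h3, ← h4, h1]
        have h3 : cj (q.out⁻¹ * q'.out) D = D := by
          rw [← cj_cj, ← h2, cj_cj]
          simp [cj_one]
        have h4 : q.out⁻¹ * q'.out ∈ Γ := mem_normalizer_of_cj_eq h3
        have h5 : (q.out : G ⧸ Γ) = (q'.out : G ⧸ Γ) := QuotientGroup.eq.2 h4
        have h6 : q = q' := by
          rw [QuotientGroup.out_eq', QuotientGroup.out_eq'] at h5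
          exact h5
        subst h6
        have h7 : v = v' := by
          have := mul_right_cancel h1
          exact mul_left_cancel this
        subst h7
        rfl
      have hsurj : Function.Surjective Φ := by
        rintro ⟨w, hwN, hwZ⟩
        obtain ⟨g, hg⟩ := hcov w hwN
        have hv₀ : g⁻¹ * w * g ∈ E := mem_cj.1 hg
        have hv₀Z : g⁻¹ * w * g ∉ Z := by
          have := hnotZ g⁻¹ w hwZ
          simpa using this
        let q : G ⧸ Γ := (g : G ⧸ Γ)
        have hq : (q.out : G ⧸ Γ) = g := QuotientGroup.out_eq' q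
        have hn : q.out⁻¹ * g ∈ Γ := QuotientGroup.eq.1 hq
        set n := q.out⁻¹ * g with hndef
        have hv : n * (g⁻¹ * w * g) * n⁻¹ ∈ E := hconjE n hn _ hv₀
        have hvZ : n * (g⁻¹ * w * g) * n⁻¹ ∉ Z := hnotZ _ _ hv₀Z
        refine ⟨(q, ⟨_, hv, hvZ⟩), ?_⟩
        apply Subtype.ext
        show q.out * (n * (g⁻¹ * w * g) * n⁻¹) * q.out⁻¹ = w
        rw [hndef]; group
      rw [Nat.card_congr (Equiv.ofBijective Φ ⟨hinj, hsurj⟩).symm, Nat.card_prod]
      rfl
    have hc3 := card_compl N Z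
    have hc4 := card_compl E Z
    have hEZ : E ⊓ Z = ZN := by
      ext v
      constructor
      · rintro ⟨h1, h2⟩; exact ⟨h1.2, h2⟩
      · rintro ⟨h1, h2⟩; exact ⟨hZNE ⟨h1, h2⟩, h2⟩
    rw [hEZ] at hc4
    set f := E.relIndex N with hfdef
    have hEN : E ≤ N := inf_le_right
    have hf1 : f * Nat.card E = Nat.card N := rel_mul_card hEN
    set z := Nat.card ZN with hzdef
    have hzpos : 0 < z := Nat.card_pos
    have he0 : 1 ≤ e := by
      have : 0 < a * β := Nat.mul_pos (by omega) (by omega)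
      omega
    have hfe : f * e = 1 + s * (e - 1) := by
      have h1 : Nat.card {v : G // v ∈ E ∧ v ∉ Z} = z * (e - 1) := by
        have h2 : z * (e - 1) + z = e * z := by
          obtain ⟨a', ha'⟩ : ∃ a', e = a' + 1 := ⟨e - 1, by omega⟩
          rw [ha']; simp; ring
        have h3 : Nat.card {v : G // v ∈ E ∧ v ∉ Z} + z = e * z := by rw [he1]; exact hc4
        omega
      have h2 : (f * e) * z = (1 + s * (e - 1)) * z := by
        have h3 : Nat.card N = f * (e * z) := by rw [← hf1, ← he1]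
        have h4 : (f * e) * z = Nat.card N := by rw [h3]; ring
        rw [h4, ← hc3, hcount, h1]
        ring
      exact Nat.eq_of_mul_eq_mul_right hzpos h2
    have hfm : f ∣ k * s := by
      rw [hms, ← hDidx]
      have h1 : f = D.relIndex N := by
        rw [hfdef, hE]
        exact Subgroup.inf_relIndex_right D N
      rw [h1]
      exact relIndex_dvd_of_normal' N D
    have hcop : Nat.Coprime f s := by
      have h1 : Nat.gcd f s ∣ 1 := by
        have h2 : Nat.gcd f s ∣ f * e := (Nat.gcd_dvd_left f s).trans (Nat.dvd_mul_right _ _)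
        have h3 : Nat.gcd f s ∣ s * (e - 1) := (Nat.gcd_dvd_right f s).trans (Nat.dvd_mul_right _ _)
        rw [hfe] at h2
        exact (Nat.dvd_add_left h3).1 h2
      exact Nat.dvd_one.1 h1
    have hfk : f ∣ k := hcop.dvd_of_dvd_mul_right hfm
    have hfle : f ≤ k := Nat.le_of_dvd hkpos hfk
    have hf1' : f = 1 := by
      have hfpos : 0 < f := by
        refine Nat.pos_of_ne_zero fun h0 => ?_
        rw [h0, zero_mul] at hf1
        exact (Nat.card_pos (α := N)).ne' hf1.symm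
      exact arith2 hfe hfpos he0 (lt_of_le_of_lt hfle hklt)
    have hNE : N ≤ E := Subgroup.relIndex_eq_one.1 hf1'
    have hNcomm : ∀ u v : ↥N, u * v = v * u := by
      intro u v
      exact Subtype.ext (hEcomm u (hNE u.2) v (hNE v.2))
    letI : CommGroup ↥N := { (inferInstance : Group ↥N) with mul_comm := hNcomm }
    exact CommGroup.isNilpotent
  · -- case: some element of `N` is outside the conjugates of `E`
    exfalso
    push Not at hcov
    obtain ⟨w, hwN, hw⟩ := hcov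
    have hwZ : w ∉ Z := by
      intro hwZ
      apply hw 1
      rw [cj_one]
      exact hZNE ⟨hwN, hwZ⟩
    have hst1 : ∀ g : G, ∀ u ∈ E, g⁻¹ * u * g ∈ Subgroup.centralizer ({w} : Set G) ↔ u ∈ ZN := by
      intro g u hu
      constructor
      · intro h1
        by_contra huZN
        have huZ : u ∉ Z := fun h2 => huZN ⟨hu.2, h2⟩
        have h2 := Subgroup.mem_centralizer_singleton_iff.1 h1
        have h3 : g * w * g⁻¹ ∈ Subgroup.centralizer ({u} : Set G) := by
          refine Subgroup.mem_centralizer_singleton_iff.2 ?_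
          have e1 : g * w * g⁻¹ * u = g * (w * (g⁻¹ * u * g)) * g⁻¹ := by group
          rw [e1, ← h2]; group
        rw [hb u hu huZ] at h3
        have h4 : g * w * g⁻¹ ∈ E := ⟨h3, (inferInstance : N.Normal).conj_mem w hwN g⟩
        apply hw g⁻¹
        refine mem_cj.2 ?_
        rw [inv_inv]
        exact h4
      · intro h1
        have hc := Subgroup.mem_center_iff.1 h1.2
        have e1 : g⁻¹ * u * g = u := by rw [hc g⁻¹]; group
        rw [e1]
        exact Subgroup.mem_centralizer_singleton_iff.2 (hc w).symm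
    have hdvd1 : e ∣ m := by
      rw [← hidx w hwN hwZ]
      exact dvd_index_of_stab E ZN _ hst1
    have hst2 : ∀ g : G, g ∉ Γ → ∀ u ∈ E, (g⁻¹ * u * g ∈ D ↔ u ∈ ZN) := by
      intro g hg u hu
      constructor
      · intro h1
        by_contra huZN
        have huZ : u ∉ Z := fun h2 => huZN ⟨hu.2, h2⟩
        have h2 : g⁻¹ * u * g ∈ E := by
          refine ⟨h1, ?_⟩
          have := (inferInstance : N.Normal).conj_mem u hu.2 g⁻¹
          simpa using this
        have h3 : g⁻¹ * u * g ∉ Z := by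
          have := hnotZ g⁻¹ u huZ
          simpa using this
        have h4 := hb _ h2 h3
        have h5 : cj g D = D := by
          ext y
          rw [mem_cj]
          constructor
          · intro h6
            rw [← h4] at h6
            have h7 := Subgroup.mem_centralizer_singleton_iff.1 h6
            have h8 : y ∈ Subgroup.centralizer ({u} : Set G) := by
              refine Subgroup.mem_centralizer_singleton_iff.2 ?_
              have e1 : y * u = g * (g⁻¹ * y * g * (g⁻¹ * u * g)) * g⁻¹ := by group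
              rw [e1, h7]; group
            rwa [hb u hu huZ] at h8
          · intro h6
            rw [← hb u hu huZ] at h6
            have h7 := Subgroup.mem_centralizer_singleton_iff.1 h6
            rw [← h4]
            refine Subgroup.mem_centralizer_singleton_iff.2 ?_
            have e1 : g⁻¹ * y * g * (g⁻¹ * u * g) = g⁻¹ * (y * u) * g := by group
            rw [e1, h7]; group
        exact hg (mem_normalizer_of_cj_eq h5)
      · intro h1
        have hc := Subgroup.mem_center_iff.1 h1.2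
        have e1 : g⁻¹ * u * g = u := by rw [hc g⁻¹]; group
        rw [e1]
        exact hu.1
    obtain ⟨t, ht⟩ := index_eq_add E ZN D inf_le_left hst2
    rw [hDidx] at ht
    rw [ht] at hdvd1
    have h1 : e ∣ k := (Nat.dvd_add_left (Nat.dvd_mul_right e t)).1 hdvd1
    have h2 := Nat.le_of_dvd hkpos h1
    omega

end Cfsg.Agent.S4135
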