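import Cfsg.Statements.S4134
import Cfsg.Agent.S4135
import Cfsg.Agent.Lib.H6Hughes
-- import your own Cfsg.Agent.* helpers here

set_option autoImplicit false
set_option linter.all false
open Cfsg

namespace Cfsg.Agent.S4134

open Cfsg.Agent.Lib.ConjFamily Cfsg.Agent.Lib.ConjCover Cfsg.Agent.Lib.ClassParts
open Cfsg.Agent.S4135 (eq_of_le_of_index_eq pgroup_zpowers)

theorem prod_lines {M : Type*} [CommGroup M] {p : ℕ} [Fact p.Prime] (Z' : Subgroup M)
    (f : ZMod p × ZMod p → M)
    (h1 : ∀ i : ZMod p, ∏ u : ZMod p, f (u, i) ∈ Z')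
    (h2 : ∀ t : ZMod p, ∏ i : ZMod p, f (i * t, i) ∈ Z') : f (0, 0) ^ p ∈ Z' := by
  classical
  have hA : ∏ t : ZMod p, ∏ i : ZMod p, f (i * t, i) ∈ Z' := Subgroup.prod_mem _ fun t _ => h2 t
  have hsplit : ∀ t : ZMod p, ∏ i : ZMod p, f (i * t, i) =
      f (0, 0) * ∏ i ∈ Finset.univ.erase (0 : ZMod p), f (i * t, i) := by
    intro t
    have := Finset.mul_prod_erase Finset.univ (fun i : ZMod p => f (i * t, i)) (Finset.mem_univ (0 : ZMod p))
    simp only [zero_mul] at this
    exact this.symm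
  have hB : ∏ i ∈ Finset.univ.erase (0 : ZMod p), ∏ t : ZMod p, f (i * t, i) ∈ Z' := by
    refine Subgroup.prod_mem _ fun i hi => ?_
    have hi0 : i ≠ 0 := Finset.ne_of_mem_erase hi
    have : ∏ t : ZMod p, f (i * t, i) = ∏ u : ZMod p, f (u, i) :=
      Fintype.prod_equiv (Equiv.mulLeft₀ i hi0) _ _ (fun t => rfl)
    rw [this]
    exact h1 i
  have hE : ∏ t : ZMod p, ∏ i : ZMod p, f (i * t, i) =
      f (0, 0) ^ p * ∏ i ∈ Finset.univ.erase (0 : ZMod p), ∏ t : ZMod p, f (i * t, i) := by
    simp_rw [hsplit]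
    rw [Finset.prod_mul_distrib, Finset.prod_const, Finset.card_univ, ZMod.card]
    congr 1
    exact Finset.prod_comm
  rw [hE] at hA
  have := Z'.mul_mem hA (Z'.inv_mem hB)
  rwa [mul_inv_cancel_right] at this

section Ito

variable {P : Type*} [Group P] [Finite P] {p : ℕ} [Fact p.Prime]

/-- The two-class-sizes theorem for `p`-groups: `P / Z(P)` has exponent `p`. -/
theorem ito (hP : IsPGroup p P) (n : ℕ) (hn : 1 < n)
    (h : ∀ x : P, (Subgroup.centralizer ({x} : Set P)).index = 1 ∨ (Subgroup.centralizer ({x} : Set P)).index = n)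
    (x : P) : x ^ p ∈ Subgroup.center P := by
  classical
  by_contra hx
  have hp : p.Prime := Fact.out
  set Z := Subgroup.center P with hZdef
  let Cn : P → Subgroup P := fun g => Subgroup.centralizer ({g} : Set P)
  have hCn : ∀ g u : P, u ∈ Cn g ↔ u * g = g * u := fun g u => Subgroup.mem_centralizer_singleton_iff
  have hidx : ∀ g, g ∉ Z → (Cn g).index = n := by
    intro g hg
    refine (h g).resolve_left ?_
    intro h1
    apply hg
    rw [Subgroup.index_eq_one] at h1
    refine Subgroup.mem_center_iff.2 fun z => ?_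
    have : z ∈ Cn g := by
      show z ∈ Subgroup.centralizer ({g} : Set P)
      rw [h1]; trivial
    exact (hCn g z).1 this
  have hpownot : ∀ g, g ^ p ∉ Z → g ∉ Z := fun g h1 h2 => h1 (Subgroup.pow_mem _ h2 _)
  have heqC : ∀ g h, g ∉ Z → h ∉ Z → Cn g ≤ Cn h → Cn g = Cn h := fun g h hg hh hle =>
    eq_of_le_of_index_eq hle ((hidx g hg).trans (hidx h hh).symm)
  have hCpow : ∀ g, g ^ p ∉ Z → Cn g = Cn (g ^ p) := by
    intro g hg
    refine heqC g (g ^ p) (hpownot g hg) hg ?_
    intro u hu
    have h1 : Commute u g := (hCn g u).1 hu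
    exact (hCn _ u).2 (h1.pow_right p)
  -- an element of the second centre
  haveI : Nontrivial (P ⧸ Z) := by
    refine ⟨⟨(x : P ⧸ Z), 1, ?_⟩⟩
    intro h1
    exact hpownot x hx ((QuotientGroup.eq_one_iff x).1 h1)
  have hq : IsPGroup p (P ⧸ Z) := hP.to_quotient Z
  haveI := hq.center_nontrivial
  obtain ⟨tb, htb⟩ := exists_ne (1 : Subgroup.center (P ⧸ Z))
  obtain ⟨t, ht⟩ := QuotientGroup.mk'_surjective Z (tb : P ⧸ Z)
  have htZ : t ∉ Z := by
    intro h1
    apply htb
    apply Subtype.ext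
    rw [← ht]
    exact (QuotientGroup.eq_one_iff t).2 h1
  have hc : ∀ g : P, t * g * t⁻¹ * g⁻¹ ∈ Z := by
    intro g
    have h1 := Subgroup.mem_center_iff.1 tb.2 (g : P ⧸ Z)
    rw [← ht] at h1
    rw [← QuotientGroup.eq_one_iff]
    have h2 : (g : P ⧸ Z) * (t : P ⧸ Z) = (t : P ⧸ Z) * (g : P ⧸ Z) := h1
    have e : ((t * g * t⁻¹ * g⁻¹ : P) : P ⧸ Z) = (t : P ⧸ Z) * (g : P ⧸ Z) * (t : P ⧸ Z)⁻¹ * (g : P ⧸ Z)⁻¹ := rfl
    rw [e, ← h2]
    group
  let c : P → P := fun g => t * g * t⁻¹ * g⁻¹
  have hcent : ∀ g u : P, c g * u = u * c g := fun g u => (Subgroup.mem_center_iff.1 (hc g) u).symm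
  have hts : ∀ g : P, t * g = c g * g * t := by
    intro g
    show t * g = t * g * t⁻¹ * g⁻¹ * g * t
    group
  -- the homomorphism `g ↦ [t, g]`
  let cH : P →* ↥Z :=
    { toFun := fun g => ⟨c g, hc g⟩
      map_one' := by
        apply Subtype.ext
        show t * 1 * t⁻¹ * 1⁻¹ = 1
        group
      map_mul' := by
        intro a b
        apply Subtype.ext
        show t * (a * b) * t⁻¹ * (a * b)⁻¹ = c a * c b
        have e : t * (a * b) * t⁻¹ * (a * b)⁻¹ = (t * a * t⁻¹) * (c b) * a⁻¹ := by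
          show t * (a * b) * t⁻¹ * (a * b)⁻¹ = (t * a * t⁻¹) * (t * b * t⁻¹ * b⁻¹) * a⁻¹
          group
        rw [e, mul_assoc, hcent b a⁻¹, ← mul_assoc] }
  have hcH : ∀ g, ((cH g : ↥Z) : P) = c g := fun g => rfl
  have hker : ∀ g, g ∈ cH.ker ↔ t * g = g * t := by
    intro g
    rw [MonoidHom.mem_ker, Subtype.ext_iff, hcH]
    show t * g * t⁻¹ * g⁻¹ = 1 ↔ _
    constructor
    · intro h1
      have : t * g = (t * g * t⁻¹ * g⁻¹) * g * t := by group
      rw [this, h1, one_mul]
    · intro h1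
      rw [h1]
      group
  have hpow1 : ∀ (k : ℕ) (g : P), t ^ k * g = (c g) ^ k * g * t ^ k := by
    intro k g
    induction k with
    | zero => simp
    | succ k ih =>
      have hcom : Commute (c g) t := hcent g t
      calc t ^ (k + 1) * g = t * (t ^ k * g) := by rw [pow_succ']; group
        _ = t * ((c g) ^ k * g * t ^ k) := by rw [ih]
        _ = (t * (c g) ^ k) * g * t ^ k := by group
        _ = ((c g) ^ k * t) * g * t ^ k := by rw [(hcom.pow_left k).eq]
        _ = (c g) ^ k * (t * g) * t ^ k := by group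
        _ = (c g) ^ k * (c g * g * t) * t ^ k := by rw [hts]
        _ = (c g) ^ (k + 1) * g * t ^ (k + 1) := by rw [pow_succ (c g), pow_succ' t]; group
  have hpow2 : ∀ (k : ℕ) (g : P), c (g ^ k) = (c g) ^ k := by
    intro k g
    calc c (g ^ k) = ((cH (g ^ k) : ↥Z) : P) := rfl
      _ = (((cH g) ^ k : ↥Z) : P) := by rw [map_pow]
      _ = (c g) ^ k := rfl
  have htp : t ^ p ∈ Z := by
    by_contra htp
    have h1 := hCpow t htp
    obtain ⟨g, hg⟩ : ∃ g, ¬ (t * g = g * t) := by
      by_contra h2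
      push Not at h2
      exact htZ (Subgroup.mem_center_iff.2 fun z => (h2 z).symm)
    have hcg : c g ≠ 1 := by
      intro h2
      apply hg
      rw [hts, h2, one_mul]
    have hpp : ∃ k : ℕ, (c g) ^ p ^ k = 1 := by
      obtain ⟨k, hk⟩ := hP (c g)
      exact ⟨k, hk⟩
    let K := Nat.find hpp
    have hK : (c g) ^ p ^ K = 1 := Nat.find_spec hpp
    have hK0 : K ≠ 0 := by
      intro h0
      rw [h0] at hK
      simp at hK
      exact hcg hK
    obtain ⟨j, hj⟩ : ∃ j, K = j + 1 := ⟨K - 1, by omega⟩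
    have hz : (c g) ^ p ^ j ≠ 1 := Nat.find_min hpp (by omega)
    set w := g ^ p ^ j with hw
    have hcw : c w = (c g) ^ p ^ j := hpow2 _ g
    have hz' : (c w) ^ p = 1 := by
      rw [hcw, ← pow_mul, ← pow_succ, ← hj]
      exact hK
    have h2 : t ^ p * w = w * t ^ p := by
      rw [hpow1, hz', one_mul]
    have h3 : w ∈ Cn (t ^ p) := (hCn _ w).2 h2.symm
    rw [← h1] at h3
    have h4 : w * t = t * w := (hCn _ w).1 h3
    apply hz
    rw [← hcw]
    have h5 : t * w = c w * w * t := hts w
    rw [← h4, mul_assoc] at h5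
    exact (mul_eq_right.1 h5.symm)
  have hcp : ∀ g, (c g) ^ p = 1 := by
    intro g
    have h1 : t ^ p * g = g * t ^ p := (Subgroup.mem_center_iff.1 htp g).symm
    rw [hpow1] at h1
    have h2 : (c g) ^ p * (g * t ^ p) = 1 * (g * t ^ p) := by
      rw [one_mul, ← mul_assoc]; exact h1
    exact mul_right_cancel h2
  have hgp : ∀ g, g ^ p ∈ cH.ker := by
    intro g
    rw [MonoidHom.mem_ker, Subtype.ext_iff, hcH, hpow2]
    exact hcp g
  -- the element `x`
  have hx0 := hpownot x hx
  have hxpt : t ∈ Cn (x ^ p) := (hCn _ t).2 ((hker _).1 (hgp x)).symm.symm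
  have htx : t * x = x * t := by
    rw [← hCpow x hx] at hxpt
    exact (hCn x t).1 hxpt
  have hcomm : Commute t x := htx
  have h1 : (t * x) ^ p ∉ Z := by
    intro h2
    apply hx
    rw [hcomm.mul_pow] at h2
    have := Z.mul_mem (Z.inv_mem htp) h2
    rwa [inv_mul_cancel_left] at this
  have hCtx : Cn (t * x) = Cn x := by
    rw [hCpow _ h1, hcomm.mul_pow, hCpow x hx]
    ext u
    rw [hCn, hCn]
    have hu := Subgroup.mem_center_iff.1 htp u
    constructor
    · intro h2
      have e : u * (t ^ p * x ^ p) = t ^ p * (u * x ^ p) := by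
        rw [← mul_assoc, hu, mul_assoc]
      rw [e] at h2
      have e2 : t ^ p * x ^ p * u = t ^ p * (x ^ p * u) := by group
      rw [e2] at h2
      exact mul_left_cancel h2
    · intro h2
      have e : u * (t ^ p * x ^ p) = t ^ p * (u * x ^ p) := by
        rw [← mul_assoc, hu, mul_assoc]
      rw [e, h2]
      group
  have hle : Cn x ≤ Cn t := by
    intro g hg
    have h2 : g ∈ Cn (t * x) := by rw [hCtx]; exact hg
    have h3 := (hCn _ g).1 h2
    have h4 := (hCn _ g).1 hg
    refine (hCn _ g).2 ?_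
    have e : g * t * x = t * g * x := by
      calc g * t * x = g * (t * x) := by group
        _ = t * x * g := h3
        _ = t * (x * g) := by group
        _ = t * (g * x) := by rw [h4]
        _ = t * g * x := by group
    exact mul_right_cancel e
  have hCeq : Cn x = Cn t := heqC x t hx0 htZ hle
  set C := Cn x with hCdef
  have hCker : C = cH.ker := by
    ext g
    rw [hCeq, hker, hCn]
    exact ⟨fun h => h.symm, fun h => h.symm⟩
  haveI hCnormal : C.Normal := by rw [hCker]; exact MonoidHom.normal_ker cH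
  have hCab : ∀ a b : P, (a : P ⧸ C) * (b : P ⧸ C) = (b : P ⧸ C) * (a : P ⧸ C) := by
    intro a b
    have h2 : (b * a)⁻¹ * (a * b) ∈ C := by
      rw [hCker, MonoidHom.mem_ker, map_mul, map_inv, map_mul, map_mul]
      have hcc : cH a * cH b = cH b * cH a := Subtype.ext (hcent a (c b))
      rw [hcc]
      exact inv_mul_cancel _
    have h3 : ((b * a : P) : P ⧸ C) = ((a * b : P) : P ⧸ C) := QuotientGroup.eq.2 h2
    exact h3.symm
  have hCp : ∀ g, g ^ p ∈ C := by
    intro g
    rw [hCker]
    exact hgp g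
  have hxC : x ∈ C := (hCn x x).2 rfl
  by_cases hV : ∃ y y' : P, y ∉ C ∧ ∀ k : ℕ, y ^ k * y' ∉ C
  · obtain ⟨y, y', hy, hyy'⟩ := hV
    -- the centre of `C`
    let B : Subgroup P :=
      { carrier := {b | b ∈ C ∧ ∀ d ∈ C, b * d = d * b}
        mul_mem' := by
          rintro a b ⟨ha, ha'⟩ ⟨hb, hb'⟩
          refine ⟨C.mul_mem ha hb, fun d hd => ?_⟩
          rw [mul_assoc, hb' d hd, ← mul_assoc, ha' d hd, mul_assoc]
        one_mem' := ⟨C.one_mem, fun d _ => by simp⟩
        inv_mem' := by
          rintro a ⟨ha, ha'⟩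
          refine ⟨C.inv_mem ha, fun d hd => ?_⟩
          have h2 := ha' d hd
          have h3 : Commute a d := h2
          exact h3.inv_left }
    have hxB : x ∈ B := ⟨hxC, fun d hd => ((hCn x d).1 hd).symm⟩
    have hBconj : ∀ b ∈ B, ∀ g : P, g * b * g⁻¹ ∈ B := by
      rintro b ⟨hb, hb'⟩ g
      refine ⟨hCnormal.conj_mem b hb g, fun d hd => ?_⟩
      have h2 := hb' _ (hCnormal.conj_mem d hd g⁻¹)
      rw [inv_inv] at h2
      have e1 : g * b * g⁻¹ * d = g * (b * (g⁻¹ * d * g)) * g⁻¹ := by group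
      rw [e1, h2]
      group
    have hBC : ∀ b ∈ B, b ∉ Z → Cn b = C := by
      rintro b ⟨hb, hb'⟩ hbZ
      symm
      refine heqC x b hx0 hbZ ?_
      intro d hd
      exact (hCn b d).2 (hb' d hd).symm
    letI : CommGroup ↥B :=
      { (inferInstance : Group ↥B) with
        mul_comm := fun a b => Subtype.ext (a.2.2 b b.2.1) }
    have hconjC : ∀ a b : P, a⁻¹ * b ∈ C → ∀ w ∈ B, a * w * a⁻¹ = b * w * b⁻¹ := by
      intro a b hab w hw
      have h2 := hw.2 _ hab
      have h3 : a⁻¹ * b * w * (a⁻¹ * b)⁻¹ = w := by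
        rw [← h2]
        group
      calc a * w * a⁻¹ = a * (a⁻¹ * b * w * (a⁻¹ * b)⁻¹) * a⁻¹ := by rw [h3]
        _ = b * w * b⁻¹ := by group
    let F : P → ↥B → ℕ → ↥B := fun v w k => ⟨v ^ k * (w : P) * (v ^ k)⁻¹, hBconj w w.2 _⟩
    have hN : ∀ v, v ∉ C → ∀ w : ↥B, ((∏ k ∈ Finset.range p, F v w k : ↥B) : P) ∈ Z := by
      intro v hv w
      let φ : ↥B →* ↥B :=
        { toFun := fun b => ⟨v * (b : P) * v⁻¹, hBconj b b.2 v⟩
          map_one' := by
            apply Subtype.ext
            show v * 1 * v⁻¹ = 1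
            group
          map_mul' := by
            intro a b
            apply Subtype.ext
            show v * ((a : P) * (b : P)) * v⁻¹ = (v * (a : P) * v⁻¹) * (v * (b : P) * v⁻¹)
            group }
      have hφF : ∀ k, φ (F v w k) = F v w (k + 1) := by
        intro k
        apply Subtype.ext
        show v * (v ^ k * (w : P) * (v ^ k)⁻¹) * v⁻¹ = v ^ (k + 1) * (w : P) * (v ^ (k + 1))⁻¹
        rw [pow_succ' v k]
        group
      have hFp : F v w p = F v w 0 := by
        apply Subtype.ext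
        show v ^ p * (w : P) * (v ^ p)⁻¹ = v ^ 0 * (w : P) * (v ^ 0)⁻¹
        have h2 := w.2.2 _ (hCp v)
        rw [← h2]
        simp
      set M := ∏ k ∈ Finset.range p, F v w k with hM
      have hφM : φ M = M := by
        rw [hM, map_prod]
        simp_rw [hφF]
        have e1 := Finset.prod_range_succ (fun k => F v w k) p
        have e2 := Finset.prod_range_succ' (fun k => F v w k) p
        rw [hFp] at e1
        have e3 : (∏ k ∈ Finset.range p, F v w k) * F v w 0 = (∏ k ∈ Finset.range p, F v w (k + 1)) * F v w 0 := by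
          rw [← e1, e2]
        exact (mul_right_cancel e3).symm
      by_contra hMZ
      have h2 := hBC M M.2 hMZ
      apply hv
      rw [← h2]
      refine (hCn _ v).2 ?_
      have h3 : v * (M : P) * v⁻¹ = (M : P) := congrArg Subtype.val hφM
      calc v * (M : P) = (v * (M : P) * v⁻¹) * v := by group
        _ = (M : P) * v := by rw [h3]
    let Z' : Subgroup ↥B := Z.subgroupOf B
    let f : ZMod p × ZMod p → ↥B := fun q =>
      F y ⟨y' ^ q.2.val * x * (y' ^ q.2.val)⁻¹, hBconj x hxB _⟩ q.1.val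
    have hprodval : ∀ G : ℕ → ↥B, ∏ u : ZMod p, G u.val = ∏ k ∈ Finset.range p, G k := by
      intro G
      refine Finset.prod_bij (fun u _ => u.val) ?_ ?_ ?_ ?_
      · intro u _
        exact Finset.mem_range.2 (ZMod.val_lt u)
      · intro a _ b _ hab
        exact ZMod.val_injective p hab
      · intro k hk
        refine ⟨(k : ZMod p), Finset.mem_univ _, ?_⟩
        exact ZMod.val_cast_of_lt (Finset.mem_range.1 hk)
      · intro _ _
        rfl
    have hf1 : ∀ i : ZMod p, ∏ u : ZMod p, f (u, i) ∈ Z' := by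
      intro i
      have := hN y hy ⟨y' ^ i.val * x * (y' ^ i.val)⁻¹, hBconj x hxB _⟩
      rw [← hprodval] at this
      exact this
    have hf2 : ∀ t : ZMod p, ∏ i : ZMod p, f (i * t, i) ∈ Z' := by
      intro s
      set v := y ^ s.val * y' with hv
      have hvC : v ∉ C := hyy' _
      have hN' := hN v hvC ⟨x, hxB⟩
      rw [← hprodval] at hN'
      have e : ∏ i : ZMod p, f (i * s, i) = ∏ i : ZMod p, F v ⟨x, hxB⟩ i.val := by
        refine Finset.prod_congr rfl fun i _ => ?_
        apply Subtype.ext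
        show y ^ (i * s).val * (y' ^ i.val * x * (y' ^ i.val)⁻¹) * (y ^ (i * s).val)⁻¹ =
          v ^ i.val * x * (v ^ i.val)⁻¹
        have e1 : y ^ (i * s).val * (y' ^ i.val * x * (y' ^ i.val)⁻¹) * (y ^ (i * s).val)⁻¹ =
            (y ^ (i * s).val * y' ^ i.val) * x * (y ^ (i * s).val * y' ^ i.val)⁻¹ := by group
        rw [e1]
        refine hconjC _ _ ?_ x hxB
        have h2 : (((y ^ (i * s).val * y' ^ i.val : P)) : P ⧸ C) = ((v ^ i.val : P) : P ⧸ C) := by
          have hy1 : (y : P ⧸ C) ^ p = 1 := by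
            rw [← QuotientGroup.mk_pow]
            exact (QuotientGroup.eq_one_iff _).2 (hCp y)
          have h3 : Commute ((y : P ⧸ C) ^ s.val) (y' : P ⧸ C) := by
            have h4 : Commute (y : P ⧸ C) (y' : P ⧸ C) := hCab y y'
            exact h4.pow_left _
          have L : (((y ^ (i * s).val * y' ^ i.val : P)) : P ⧸ C) = (y : P ⧸ C) ^ (i * s).val * (y' : P ⧸ C) ^ i.val := rfl
          have R : ((v ^ i.val : P) : P ⧸ C) = ((y : P ⧸ C) ^ s.val * (y' : P ⧸ C)) ^ i.val := rfl
          rw [L, R, h3.mul_pow, ← pow_mul, ZMod.val_mul, mul_comm s.val i.val]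
          congr 1
          exact (pow_eq_pow_mod _ hy1).symm
        exact QuotientGroup.eq.1 h2
      rw [e]
      exact hN'
    have hfin := prod_lines Z' f hf1 hf2
    have e0 : f (0, 0) = ⟨x, hxB⟩ := by
      apply Subtype.ext
      show y ^ (0 : ZMod p).val * (y' ^ (0 : ZMod p).val * x * (y' ^ (0 : ZMod p).val)⁻¹) * (y ^ (0 : ZMod p).val)⁻¹ = x
      simp [ZMod.val_zero]
    rw [e0] at hfin
    apply hx
    have : ((⟨x, hxB⟩ : ↥B) ^ p : ↥B) ∈ Z' := hfin
    exact this
  · push Not at hV
    -- the index of `C` is `p`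
    have hCne : C ≠ ⊤ := by
      intro h2
      have h3 : C.index = 1 := by rw [h2]; exact Subgroup.index_top
      rw [hidx x hx0] at h3
      omega
    obtain ⟨y, hy⟩ : ∃ y, y ∉ C := by
      by_contra h2
      push Not at h2
      exact hCne (eq_top_iff.2 fun g _ => h2 g)
    have hyb : (y : P ⧸ C) ^ p = 1 := by
      rw [← QuotientGroup.mk_pow]
      exact (QuotientGroup.eq_one_iff _).2 (hCp y)
    have hyne : (y : P ⧸ C) ≠ 1 := fun h2 => hy ((QuotientGroup.eq_one_iff y).1 h2)
    have hord : orderOf (y : P ⧸ C) = p := orderOf_eq_prime hyb hyne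
    have htop : Subgroup.zpowers (y : P ⧸ C) = ⊤ := by
      refine eq_top_iff.2 fun q _ => ?_
      induction q using QuotientGroup.induction_on with
      | H y' =>
        obtain ⟨k, hk⟩ := hV y y' hy
        have h2 : ((y ^ k * y' : P) : P ⧸ C) = 1 := (QuotientGroup.eq_one_iff _).2 hk
        rw [QuotientGroup.mk_mul, QuotientGroup.mk_pow] at h2
        have h3 : (y' : P ⧸ C) = ((y : P ⧸ C) ^ k)⁻¹ := eq_inv_of_mul_eq_one_right h2
        rw [h3]
        exact Subgroup.inv_mem _ (Subgroup.pow_mem _ (Subgroup.mem_zpowers _) _)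
    have hCi : C.index = p := by
      have h2 : Nat.card (P ⧸ C) = p := by
        rw [← Nat.card_congr (Subgroup.topEquiv (G := P ⧸ C)).toEquiv, ← htop, Nat.card_zpowers, hord]
      exact h2
    have hnp : n = p := by rw [← hCi]; exact (hidx x hx0).symm
    apply hx
    refine Subgroup.mem_center_iff.2 fun g => ?_
    by_cases hg : g ∈ Z
    · exact (Subgroup.mem_center_iff.1 hg _).symm
    · have h2 : (Cn g).index = p := by rw [hidx g hg, hnp]
      have hmin : (Nat.card P).minFac = p := by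
        obtain ⟨e, he⟩ := IsPGroup.iff_card.1 hP
        have hCard : Nat.card P ≠ 1 := by
          intro h3
          haveI : Subsingleton P := (Nat.card_eq_one_iff_unique.1 h3).1
          exact htZ (by rw [Subsingleton.elim t 1]; exact Z.one_mem)
        have he0 : e ≠ 0 := by
          rintro rfl
          exact hCard (by simpa using he)
        rw [he]
        exact (Nat.Prime.pow_minFac hp he0)
      haveI : (Cn g).Normal := Subgroup.normal_of_index_eq_minFac_card (h2.trans hmin.symm)
      have h3 : (x : P ⧸ Cn g) ^ p = 1 := by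
        have h4 : Nat.card (P ⧸ Cn g) = p := h2
        rw [← h4]
        exact pow_card_eq_one'
      rw [← QuotientGroup.mk_pow] at h3
      have h5 := (QuotientGroup.eq_one_iff _).1 h3
      exact ((hCn g _).1 h5).symm

end Ito

theorem exists_prime_noncentral {G : Type*} [Group G] [Finite G] (x : G) (hx : x ∉ Subgroup.center G) :
    ∃ p : ℕ, p.Prime ∧ ∃ (a : G) (k : ℕ), a ∉ Subgroup.center G ∧ a ^ p ^ k = 1 := by
  induction h : orderOf x using Nat.strong_induction_on generalizing x with
  | _ N ih =>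
    have hne : orderOf x ≠ 1 := by
      intro h1
      rw [orderOf_eq_one_iff] at h1
      exact hx (h1 ▸ Subgroup.one_mem _)
    have hp : (orderOf x).minFac.Prime := Nat.minFac_prime hne
    set p := (orderOf x).minFac with hpdef
    obtain ⟨a, b, hz, ha, hb, ⟨k, hk⟩, ⟨n, hn, hbn⟩⟩ := exists_parts x hp
    by_cases haZ : a ∈ Subgroup.center G
    · have hbZ : b ∉ Subgroup.center G := by
        intro hbZ
        exact hx (hz ▸ Subgroup.mul_mem _ haZ hbZ)
      have hlt : orderOf b < N := by
        rw [← h]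
        have hd : orderOf b ∣ orderOf x := by
          exact orderOf_dvd_of_mem_zpowers hb
        refine lt_of_le_of_ne (Nat.le_of_dvd (orderOf_pos x) hd) ?_
        intro he
        have h2 : p ∣ orderOf x := Nat.minFac_dvd _
        rw [← he] at h2
        exact hn (h2.trans (orderOf_dvd_of_pow_eq_one hbn))
      exact ih _ hlt b hbZ rfl
    · exact ⟨p, hp, a, k, haZ, hk⟩

theorem relIndex_eq_index_of_mul {G : Type*} [Group G] [Finite G] (P Y : Subgroup G)
    (h : ∀ g : G, ∃ s ∈ P, ∃ c ∈ Y, g = s * c) : Y.relIndex P = Y.index := by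
  classical
  let φ : ↥P ⧸ Y.subgroupOf P → G ⧸ Y := fun q => Quotient.liftOn' q (fun s => (((s : ↥P) : G) : G ⧸ Y))
    (by
      intro a b hab
      have h1 : a⁻¹ * b ∈ Y.subgroupOf P := QuotientGroup.leftRel_apply.1 hab
      have h2 : ((a : G))⁻¹ * (b : G) ∈ Y := h1
      exact QuotientGroup.eq.2 h2)
  have hinj : Function.Injective φ := by
    intro q₁ q₂
    induction q₁ using QuotientGroup.induction_on with
    | H a =>
      induction q₂ using QuotientGroup.induction_on with
      | H b =>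
        intro hab
        have h1 : ((a : G) : G ⧸ Y) = ((b : G) : G ⧸ Y) := hab
        have h2 : ((a : G))⁻¹ * (b : G) ∈ Y := QuotientGroup.eq.1 h1
        exact QuotientGroup.eq.2 h2
  have hsurj : Function.Surjective φ := by
    intro q
    induction q using QuotientGroup.induction_on with
    | H g =>
      obtain ⟨s, hs, c, hc, rfl⟩ := h g
      refine ⟨((⟨s, hs⟩ : ↥P) : ↥P ⧸ Y.subgroupOf P), ?_⟩
      have : (s : G ⧸ Y) = ((s * c : G) : G ⧸ Y) := by
        apply QuotientGroup.eq.2
        simpa using hc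
      exact this
  exact Nat.card_congr (Equiv.ofBijective φ ⟨hinj, hsurj⟩)



/-- Let G be a finite group whose conjugacy classes have exactly two sizes, 1 and n > 1. Then n is a power of a prime p and G is the direct product of a p-group and an abelian group of order prime to p: its Sylow p-subgroup P is normal with an abelian normal complement centralizing it; moreover P has an abelian normal subgroup A with P/A of exponent dividing p. -/
theorem result {G : Type*} [Group G] [Finite G] (n : ℕ) (hn : 1 < n)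
    (h : ∀ x : G, (Subgroup.centralizer ({x} : Set G)).index = 1 ∨ (Subgroup.centralizer ({x} : Set G)).index = n) (hex : ∃ x : G, (Subgroup.centralizer ({x} : Set G)).index = n) :
    ∃ (p : ℕ) (_ : Fact p.Prime) (a : ℕ), n = p ^ a ∧ ∀ P : Sylow p G, (P : Subgroup G).Normal ∧
      (∃ N : Subgroup G, N.Normal ∧ N.IsComplement' (P : Subgroup G) ∧ IsMulCommutative N ∧
        ∀ x ∈ N, ∀ y ∈ (P : Subgroup G), x * y = y * x) ∧
      ∃ A : Subgroup (P : Subgroup G), A.Normal ∧ IsMulCommutative A ∧ ∀ y : (P : Subgroup G), y ^ p ∈ A := by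
  classical
  obtain ⟨x₀, hx₀⟩ := hex
  have hx₀Z : x₀ ∉ Subgroup.center G := by
    intro h1
    have h2 : Subgroup.centralizer ({x₀} : Set G) = ⊤ := by
      refine eq_top_iff.2 fun z _ => ?_
      exact Subgroup.mem_centralizer_singleton_iff.2 (Subgroup.mem_center_iff.1 h1 z)
    rw [h2, Subgroup.index_top] at hx₀
    omega
  obtain ⟨p, hp, a₀, k₀, ha₀Z, ha₀⟩ := exists_prime_noncentral x₀ hx₀Z
  haveI : Fact p.Prime := ⟨hp⟩
  obtain ⟨R, hR⟩ := (pgroup_zpowers (p := p) ha₀).exists_le_sylow
  have ha₀R : a₀ ∈ (R : Subgroup G) := hR (Subgroup.mem_zpowers a₀)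
  have hRZ : ¬ (R : Subgroup G) ≤ Subgroup.center G := fun h1 => ha₀Z (h1 ha₀R)
  have hnil' : Group.IsNilpotent ↥(⊤ : Subgroup G) :=
    Cfsg.Agent.S4135.result p R hRZ ⊤ le_top n (fun x _ => h x)
  haveI hnil : Group.IsNilpotent G := Group.nilpotent_of_mulEquiv (Subgroup.topEquiv (G := G))
  have hRn : (R : Subgroup G).Normal := inferInstance
  have hpel : ∀ g : G, (∃ k : ℕ, g ^ p ^ k = 1) → g ∈ (R : Subgroup G) := by
    rintro g ⟨k, hk⟩
    obtain ⟨c, hc⟩ := Cfsg.Agent.Lib.SylowIn.exists_conj_mem_sylow R (pgroup_zpowers hk)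
    have h1 := hc g (Subgroup.mem_zpowers g)
    have h2 := hRn.conj_mem _ h1 c⁻¹
    have e : c⁻¹ * (c * g * c⁻¹) * c⁻¹⁻¹ = g := by group
    rwa [e] at h2
  have hcomm' : ∀ a b : G, (∃ k : ℕ, a ^ p ^ k = 1) → ¬ p ∣ orderOf b → a * b = b * a := fun a b ha hb =>
    Cfsg.Agent.Lib.H6Hughes.commute_of_nilpotent (p := p) a b ha hb
  have hidx : ∀ x : G, x ∉ Subgroup.center G → (Subgroup.centralizer ({x} : Set G)).index = n := by
    intro x hx
    refine (h x).resolve_left ?_
    intro h1
    apply hx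
    rw [Subgroup.index_eq_one] at h1
    refine Subgroup.mem_center_iff.2 fun z => ?_
    have : z ∈ Subgroup.centralizer ({x} : Set G) := by rw [h1]; trivial
    exact Subgroup.mem_centralizer_singleton_iff.1 this
  -- every `p'`-element is central
  have hcentral : ∀ b : G, ¬ p ∣ orderOf b → b ∈ Subgroup.center G := by
    intro b hb
    by_contra hbZ
    have hab : Commute a₀ b := hcomm' a₀ b ⟨k₀, ha₀⟩ hb
    have hcop : (orderOf a₀).Coprime (orderOf b) := by
      have h1 : orderOf a₀ ∣ p ^ k₀ := orderOf_dvd_of_pow_eq_one ha₀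
      exact Nat.Coprime.coprime_dvd_left h1 (Nat.Coprime.pow_left _ ((Nat.Prime.coprime_iff_not_dvd hp).2 hb))
    have hc := centralizer_mul hab hcop
    have h2 : (Subgroup.centralizer ({a₀ * b} : Set G)).index = n := by
      refine (h _).resolve_left ?_
      intro h3
      rw [Subgroup.index_eq_one, hc] at h3
      apply ha₀Z
      refine Subgroup.mem_center_iff.2 fun z => ?_
      have : z ∈ Subgroup.centralizer ({a₀} : Set G) ⊓ Subgroup.centralizer ({b} : Set G) := by
        rw [h3]; trivial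
      exact Subgroup.mem_centralizer_singleton_iff.1 (Subgroup.mem_inf.1 this).1
    rw [hc] at h2
    have h3 := eq_of_le_of_index_eq (inf_le_left : Subgroup.centralizer ({a₀} : Set G) ⊓ Subgroup.centralizer ({b} : Set G) ≤ _)
      (h2.trans (hidx a₀ ha₀Z).symm)
    have h4 := eq_of_le_of_index_eq (inf_le_right : Subgroup.centralizer ({a₀} : Set G) ⊓ Subgroup.centralizer ({b} : Set G) ≤ _)
      (h2.trans (hidx b hbZ).symm)
    have heq : Subgroup.centralizer ({a₀} : Set G) = Subgroup.centralizer ({b} : Set G) := h3.symm.trans h4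
    apply ha₀Z
    refine Subgroup.mem_center_iff.2 fun g => ?_
    obtain ⟨u, v, hz, hu, hv, ⟨k, hk⟩, ⟨m, hm, hvm⟩⟩ := exists_parts g hp
    have hvo : ¬ p ∣ orderOf v := fun hd => hm (hd.trans (orderOf_dvd_of_pow_eq_one hvm))
    have h5 : a₀ * v = v * a₀ := hcomm' a₀ v ⟨k₀, ha₀⟩ hvo
    have h6 : u ∈ Subgroup.centralizer ({a₀} : Set G) := by
      rw [heq]
      refine Subgroup.mem_centralizer_singleton_iff.2 ?_
      exact hcomm' u b ⟨k, hk⟩ hb
    have h7 : u * a₀ = a₀ * u := Subgroup.mem_centralizer_singleton_iff.1 h6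
    rw [hz]
    calc u * v * a₀ = u * (v * a₀) := by group
      _ = u * (a₀ * v) := by rw [h5]
      _ = (u * a₀) * v := by group
      _ = (a₀ * u) * v := by rw [h7]
      _ = a₀ * (u * v) := by group
  have hcop' : (Nat.card (R : Subgroup G)).Coprime (R : Subgroup G).index := by
    obtain ⟨e, he⟩ := IsPGroup.iff_card.1 R.isPGroup'
    rw [he]
    exact Nat.Coprime.pow_left _ ((Nat.Prime.coprime_iff_not_dvd hp).2 R.not_dvd_index)
  obtain ⟨K, hK⟩ := Subgroup.exists_right_complement'_of_coprime hcop'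
  have hKcard : Nat.card K = (R : Subgroup G).index := hK.symm.index_eq_card.symm
  have hKcen : K ≤ Subgroup.center G := by
    intro b hb
    apply hcentral
    intro hd
    have h1 : p ∣ Nat.card K := hd.trans (Subgroup.orderOf_dvd_natCard K hb)
    rw [hKcard] at h1
    exact R.not_dvd_index h1
  obtain ⟨e, he⟩ := IsPGroup.iff_card.1 R.isPGroup'
  have hKi : K.index = p ^ e := by rw [← he]; exact hK.index_eq_card
  have hnd : n ∣ p ^ e := by
    rw [← hidx a₀ ha₀Z, ← hKi]
    refine Subgroup.index_dvd_of_le fun b hb => ?_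
    exact Subgroup.mem_centralizer_singleton_iff.2 (Subgroup.mem_center_iff.1 (hKcen hb) a₀).symm
  obtain ⟨a, _, han⟩ := (Nat.dvd_prime_pow hp).1 hnd
  refine ⟨p, inferInstance, a, han, fun P => ?_⟩
  haveI := Sylow.unique_of_normal R hRn
  have hPR : P = R := Subsingleton.elim _ _
  subst hPR
  refine ⟨hRn, ⟨K, ?_, hK.symm, ?_, ?_⟩, ?_⟩
  · refine ⟨fun u hu g => ?_⟩
    have h1 := Subgroup.mem_center_iff.1 (hKcen hu) g
    rw [h1]
    simpa using hu
  · refine IsMulCommutative.of_comm fun u v => ?_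
    apply Subtype.ext
    exact Subgroup.mem_center_iff.1 (hKcen v.2) (u : G)
  · intro u hu v _
    exact (Subgroup.mem_center_iff.1 (hKcen hu) v).symm
  · -- the extra statement: the centre of `P`
    refine ⟨Subgroup.center ↥(P : Subgroup G), inferInstance, inferInstance, fun y => ?_⟩
    refine ito P.isPGroup' n hn ?_ y
    intro u
    have hI : (Subgroup.centralizer ({u} : Set ↥(P : Subgroup G))).index =
        (Subgroup.centralizer ({(u : G)} : Set G)).relIndex (P : Subgroup G) := by
      have : Subgroup.centralizer ({u} : Set ↥(P : Subgroup G)) =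
          (Subgroup.centralizer ({(u : G)} : Set G)).subgroupOf (P : Subgroup G) := by
        ext w
        rw [Subgroup.mem_centralizer_singleton_iff, Subgroup.mem_subgroupOf,
          Subgroup.mem_centralizer_singleton_iff]
        exact Subtype.ext_iff
      rw [this]
      rfl
    rw [hI, relIndex_eq_index_of_mul]
    · exact h _
    · intro g
      obtain ⟨⟨⟨s, hs⟩, ⟨c, hc⟩⟩, hg⟩ := hK.2 g
      refine ⟨s, hs, c, ?_, hg.symm⟩
      exact Subgroup.mem_centralizer_singleton_iff.2 (Subgroup.mem_center_iff.1 (hKcen hc) _).symm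

end Cfsg.Agent.S4134
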