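import Cfsg.Statements.S4142
import Cfsg.Agent.Lib.SylowCount
-- import your own Cfsg.Agent.* helpers here

set_option autoImplicit false
open Cfsg

namespace Cfsg.Agent.S4142

open Cfsg.Agent.Lib.SylowCount in
theorem pointwise {G : Type*} [Group G] [Finite G] (N : Subgroup G) [N.Normal] (g : G) :
    (∀ n ∈ N, ∃ x : G, x * g * x⁻¹ = g * n) ↔
      Nat.card (Subgroup.centralizer ({g} : Set G)) =
        Nat.card (Subgroup.centralizer ({(QuotientGroup.mk g : G ⧸ N)} : Set (G ⧸ N))) := by
  classical
  let q : G → G ⧸ N := fun y => (y : G ⧸ N)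
  let X := {y : G // IsConj (q g) (q y)}
  let Z := {y : G ⧸ N // IsConj (q g) y}
  -- |X| = |Z| |N|
  let f : X → Z := fun y => ⟨q y.1, y.2⟩
  have hfib : ∀ z : Z, Nat.card {y // f y = z} = Nat.card N := by
    intro z
    obtain ⟨y₀, hy₀⟩ := QuotientGroup.mk_surjective z.1
    have hy₀' : q y₀ = z.1 := hy₀
    have e : {y // f y = z} ≃ N :=
      { toFun := fun y => ⟨y₀⁻¹ * y.1.1, by
          have h1 : q y.1.1 = z.1 := congrArg Subtype.val y.2
          rw [← hy₀'] at h1
          exact QuotientGroup.eq.mp h1.symm⟩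
        invFun := fun n => ⟨⟨y₀ * n.1, by
          have h1 : q (y₀ * n.1) = q y₀ := by
            exact (QuotientGroup.eq.mpr (by simp)).symm
          change IsConj (q g) (q (y₀ * n.1))
          rw [h1, hy₀']
          exact z.2⟩, by
          apply Subtype.ext
          change q (y₀ * n.1) = z.1
          rw [← hy₀']
          exact (QuotientGroup.eq.mpr (by simp)).symm⟩
        left_inv := fun y => by
          apply Subtype.ext
          apply Subtype.ext
          simp
        right_inv := fun n => by
          apply Subtype.ext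
          simp }
    exact Nat.card_congr e
  have hX := card_eq_mul_of_fibers f _ hfib
  have hG := card_class_mul_centralizer g
  have hQ := card_class_mul_centralizer (q g)
  have hcardQ := N.card_mul_index
  have hindex : N.index = Nat.card (G ⧸ N) := rfl
  -- the class of g inside X
  let ι : {y : G // IsConj g y} → X := fun y => ⟨y.1, by
    obtain ⟨c, hc⟩ := isConj_iff.mp y.2
    refine isConj_iff.mpr ⟨q c, ?_⟩
    rw [← hc]
    rfl⟩
  have hι : Function.Injective ι := fun y y' h =>
    Subtype.ext (congrArg (fun w : X => w.1) h)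
  have hpos1 : 0 < Nat.card (Subgroup.centralizer ({g} : Set G)) := Nat.card_pos
  have hposN : 0 < Nat.card N := Nat.card_pos
  set A := Nat.card {y : G // IsConj g y} with hA
  set c := Nat.card (Subgroup.centralizer ({g} : Set G)) with hc
  set B := Nat.card {y : G ⧸ N // IsConj (q g) y} with hB
  set c' := Nat.card (Subgroup.centralizer ({(q g)} : Set (G ⧸ N))) with hc'
  have hXeq : Nat.card X = B * Nat.card N := hX
  have hmain : (∀ n ∈ N, ∃ x : G, x * g * x⁻¹ = g * n) ↔ Function.Surjective ι := by
    constructor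
    · intro hcam y
      obtain ⟨xb, hxb⟩ := isConj_iff.mp y.2
      obtain ⟨x, hx⟩ := QuotientGroup.mk_surjective xb
      subst hx
      have h1 : ((x * g * x⁻¹ : G) : G ⧸ N) = (y.1 : G ⧸ N) := hxb
      have h2 := QuotientGroup.eq.mp h1
      -- (x g x⁻¹)⁻¹ y ∈ N
      have h3 : x⁻¹ * ((x * g * x⁻¹)⁻¹ * y.1) * x ∈ N := by
        have := ‹N.Normal›.conj_mem _ h2 x⁻¹
        simpa using this
      obtain ⟨w, hw⟩ := hcam _ h3
      refine ⟨⟨y.1, isConj_iff.mpr ⟨x * w, ?_⟩⟩, rfl⟩
      have h4 : (x * w) * g * (x * w)⁻¹ = x * (w * g * w⁻¹) * x⁻¹ := by group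
      rw [h4, hw]
      group
    · intro hsurj n hn
      have h1 : IsConj (q g) (q (g * n)) := by
        have : q (g * n) = q g := (QuotientGroup.eq.mpr (by simpa using hn)).symm
        rw [this]
      obtain ⟨y, hy⟩ := hsurj ⟨g * n, h1⟩
      have h2 : y.1 = g * n := congrArg (fun w : X => w.1) hy
      obtain ⟨x, hx⟩ := isConj_iff.mp y.2
      exact ⟨x, by rw [hx, h2]⟩
  rw [hmain]
  have hApos : 0 < A := Nat.card_pos_iff.mpr ⟨⟨⟨g, IsConj.refl g⟩⟩, inferInstance⟩
  rw [hindex] at hcardQ
  rw [hcardQ.symm.trans (by rw [← hQ]) ] at hG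
  constructor
  · intro hsurj
    have hbij : Function.Bijective ι := ⟨hι, hsurj⟩
    have h1 : A = Nat.card X := Nat.card_congr (Equiv.ofBijective ι hbij)
    rw [hXeq] at h1
    have h2 : A * c = A * c' := by
      rw [hG]
      rw [h1]; ring
    exact Nat.eq_of_mul_eq_mul_left hApos h2
  · intro hcc
    have h1 : A * c = Nat.card X * c := by
      rw [hG, hXeq, hcc]; ring
    have h2 : A = Nat.card X := Nat.eq_of_mul_eq_mul_right hpos1 h1
    exact (hι.bijective_of_nat_card_le h2.ge).2


/-- Let G be a finite group and N a normal subgroup. Then the conjugacy class of every element g outside N is a union of cosets of N (gn is conjugate to g for all n ∈ N) if and only if for every g outside N the centralizer of g in G has the same order as the centralizer of gN in G/N. -/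
theorem result {G : Type*} [Group G] [Finite G] (N : Subgroup G) [N.Normal] :
    (∀ g : G, g ∉ N → ∀ n ∈ N, ∃ x : G, x * g * x⁻¹ = g * n) ↔
      ∀ g : G, g ∉ N → Nat.card (Subgroup.centralizer ({g} : Set G)) =
        Nat.card (Subgroup.centralizer ({(QuotientGroup.mk g : G ⧸ N)} : Set (G ⧸ N))) := by
  exact forall_congr' fun g => imp_congr_right fun _ => pointwise N g

end Cfsg.Agent.S4142
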