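import Mathlib
import Cfsg.Statements.S4143
-- import your own Cfsg.Agent.* helpers here

set_option autoImplicit false
open Cfsg

namespace Cfsg.Agent.S4143

universe u

theorem card_le_comm {X : Type*} [Group X] [Finite X] (Z D : Subgroup X) (hZ : Z ≤ Subgroup.center X) (a : X)
    (h : ∀ x ∈ D, x * a * x⁻¹ * a⁻¹ ∈ Z) :
    Nat.card D ≤ Nat.card Z * Nat.card (D ⊓ Subgroup.centralizer ({a} : Set X) : Subgroup X) := by
  classical
  have hcentral : ∀ z ∈ Z, ∀ w : X, z * w = w * z := by
    intro z hz w
    exact (Subgroup.mem_center_iff.mp (hZ hz) w).symm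
  let φ : D →* Z := MonoidHom.mk' (fun x => ⟨x.1 * a * x.1⁻¹ * a⁻¹, h x.1 x.2⟩) (by
    intro x y
    apply Subtype.ext
    show (x.1 * y.1) * a * (x.1 * y.1)⁻¹ * a⁻¹ = (x.1 * a * x.1⁻¹ * a⁻¹) * (y.1 * a * y.1⁻¹ * a⁻¹)
    have hc := h y.1 y.2
    set c := y.1 * a * y.1⁻¹ * a⁻¹ with hcdef
    have h1 : y.1 * a * y.1⁻¹ = c * a := by rw [hcdef]; group
    calc (x.1 * y.1) * a * (x.1 * y.1)⁻¹ * a⁻¹ = x.1 * (y.1 * a * y.1⁻¹) * x.1⁻¹ * a⁻¹ := by group
      _ = x.1 * (c * a) * x.1⁻¹ * a⁻¹ := by rw [h1]
      _ = (x.1 * c) * a * x.1⁻¹ * a⁻¹ := by group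
      _ = (c * x.1) * a * x.1⁻¹ * a⁻¹ := by rw [hcentral c hc x.1]
      _ = c * (x.1 * a * x.1⁻¹ * a⁻¹) := by group
      _ = _ := hcentral c hc _)
  have h1 : Nat.card φ.ker * Nat.card φ.range = Nat.card D := by
    rw [← Subgroup.index_ker]; exact Subgroup.card_mul_index _
  have h2 : Nat.card φ.range ≤ Nat.card Z := Subgroup.card_le_card_group _
  have h3 : Nat.card φ.ker ≤ Nat.card (D ⊓ Subgroup.centralizer ({a} : Set X) : Subgroup X) := by
    refine Nat.card_le_card_of_injective (fun x : φ.ker => (⟨x.1.1, x.1.2, ?_⟩ : (D ⊓ Subgroup.centralizer ({a} : Set X) : Subgroup X))) ?_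
    · have hx : φ x.1 = 1 := x.2
      have hx2 : x.1.1 * a * x.1.1⁻¹ * a⁻¹ = 1 := congrArg Subtype.val hx
      show x.1.1 ∈ Subgroup.centralizer ({a} : Set X)
      rw [Subgroup.mem_centralizer_singleton_iff]
      have : x.1.1 * a * x.1.1⁻¹ = a := by
        calc _ = (x.1.1 * a * x.1.1⁻¹ * a⁻¹) * a := by group
          _ = a := by rw [hx2, one_mul]
      calc x.1.1 * a = (x.1.1 * a * x.1.1⁻¹) * x.1.1 := by group
        _ = a * x.1.1 := by rw [this]
    · intro x y hxy
      have := congrArg Subtype.val hxy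
      exact Subtype.ext (Subtype.ext this)
  rw [← h1, mul_comm]
  exact Nat.mul_le_mul h2 h3

theorem card_comap {X : Type*} [Group X] [Finite X] (Z : Subgroup X) [Z.Normal] (S : Subgroup (X ⧸ Z)) :
    Nat.card (S.comap (QuotientGroup.mk' Z)) = Nat.card S * Nat.card Z := by
  have h1 := Subgroup.index_comap_of_surjective S (QuotientGroup.mk'_surjective Z)
  have h2 := Subgroup.card_mul_index (S.comap (QuotientGroup.mk' Z))
  have h3 := Subgroup.card_mul_index S
  have h4 := Subgroup.card_eq_card_quotient_mul_card_subgroup Z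
  rw [h1] at h2
  rw [← h3] at h4
  have h5 : 0 < S.index := Nat.pos_of_ne_zero Subgroup.FiniteIndex.index_ne_zero
  apply Nat.eq_of_mul_eq_mul_right h5
  rw [h2, h4]
  ring

variable {p : ℕ} [hp : Fact p.Prime]

theorem card_mul_le_of_lt {X : Type*} [Group X] [Finite X] (hX : IsPGroup p X) {S T : Subgroup X} (hST : S < T) :
    Nat.card S * p ≤ Nat.card T := by
  obtain ⟨c, hc⟩ := Subgroup.card_dvd_of_le hST.le
  have hTpos : 0 < Nat.card T := Nat.card_pos
  have hc1 : c ≠ 1 := by
    rintro rfl
    rw [mul_one] at hc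
    exact hST.not_ge (Subgroup.eq_of_le_of_card_ge hST.le hc.le).ge
  have hc0 : c ≠ 0 := by
    rintro rfl
    omega
  obtain ⟨m, hm⟩ := (hX.to_subgroup T).exists_card_eq
  have hcd : c ∣ p ^ m := by rw [← hm, hc]; exact Dvd.intro_left _ rfl
  obtain ⟨j, -, hj⟩ := (Nat.dvd_prime_pow hp.out).mp hcd
  have hpc : p ≤ c := by
    rcases j with _ | j
    · simp at hj; exact absurd hj hc1
    · rw [hj, pow_succ]
      exact Nat.le_mul_of_pos_left _ (Nat.pow_pos hp.out.pos)
  rw [hc]
  exact Nat.mul_le_mul_left _ hpc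

theorem L : ∀ (n : ℕ) (X : Type u) [Group X] [Finite X], Nat.card X = p ^ n → ∀ A : Subgroup X, Nat.card A = p ^ 2 →
    Subgroup.centralizer (A : Set X) ≤ A → Group.nilpotencyClass X = n - 1 := by
  intro n
  induction n using Nat.strong_induction_on with
  | _ n ih =>
  intro X _ _ hX A hA hC
  have hp1 : 1 < p := hp.out.one_lt
  have hpX : IsPGroup p X := IsPGroup.of_card hX
  haveI : Group.IsNilpotent X := hpX.isNilpotent
  have hdvd : p ^ 2 ∣ p ^ n := by rw [← hA, ← hX]; exact Subgroup.card_subgroup_dvd_card A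
  have hn2 : 2 ≤ n := (Nat.pow_dvd_pow_iff_le_right hp1).mp hdvd
  haveI : Nontrivial X := by
    have : 1 < Nat.card X := by rw [hX]; exact Nat.one_lt_pow (by omega) hp1
    exact (Finite.one_lt_card_iff_nontrivial).mp this
  have hcl := Group.nilpotencyClass_eq_quotient_center_plus_one (G := X)
  have hAcomm : ∀ x ∈ A, ∀ y ∈ A, x * y = y * x := by
    intro x hx y hy
    have := (IsPGroup.isMulCommutative_of_card_eq_prime_sq hA).is_comm.comm (⟨x, hx⟩ : A) ⟨y, hy⟩
    exact congrArg Subtype.val this
  have hZC : Subgroup.center X ≤ A := le_trans (Subgroup.center_le_centralizer _) hC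
  by_cases hAtop : A = ⊤
  · have hn : n = 2 := by
      have h1 : Nat.card A = Nat.card X := by rw [hAtop]; exact Nat.card_congr Subgroup.topEquiv.toEquiv
      rw [hA, hX] at h1
      exact (Nat.pow_right_injective hp.out.two_le h1).symm
    subst hn
    have hcen : Subgroup.center X = ⊤ := by
      rw [eq_top_iff]
      intro x _
      rw [Subgroup.mem_center_iff]
      intro y
      exact hAcomm y (by rw [hAtop]; trivial) x (by rw [hAtop]; trivial)
    have : Subsingleton (X ⧸ Subgroup.center X) := by
      rw [hcen]; exact QuotientGroup.subsingleton_quotient_top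
    have h0 := (Group.nilpotencyClass_zero_iff_subsingleton (G := X ⧸ Subgroup.center X)).mpr this
    rw [hcl, h0]
  -- the centre has order `p`
  have hcenne : Nontrivial (Subgroup.center X) := hpX.center_nontrivial
  have hZcard : Nat.card (Subgroup.center X) = p := by
    have h1 : Nat.card (Subgroup.center X) ∣ p ^ 2 := by
      rw [← hA]
      exact Subgroup.card_dvd_of_le hZC
    obtain ⟨k, hk, hk2⟩ := (Nat.dvd_prime_pow hp.out).mp h1
    interval_cases k
    · exfalso
      have h2 : 1 < Nat.card (Subgroup.center X) := Finite.one_lt_card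
      rw [hk2] at h2
      simp at h2
    · simpa using hk2
    · exfalso
      have h3 : Subgroup.center X = A := Subgroup.eq_of_le_of_card_ge hZC (by rw [hk2, hA])
      apply hAtop
      rw [eq_top_iff]
      refine le_trans ?_ hC
      intro x _
      rw [Subgroup.mem_centralizer_iff]
      intro y hy
      have hy' : y ∈ Subgroup.center X := by rw [h3]; exact hy
      exact (Subgroup.mem_center_iff.mp hy' x).symm
  -- an element of `A` outside the centre
  obtain ⟨a, haA, haZ⟩ : ∃ a ∈ A, a ∉ Subgroup.center X := by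
    by_contra hcon
    push_neg at hcon
    have h1 : Nat.card A ≤ Nat.card (Subgroup.center X) := Subgroup.card_le_of_le hcon
    rw [hA, hZcard] at h1
    have h2 : p ^ 1 < p ^ 2 := Nat.pow_lt_pow_right hp1 (by norm_num)
    rw [pow_one] at h2
    omega
  set π := QuotientGroup.mk' (Subgroup.center X) with hπ
  set Abar : Subgroup (X ⧸ Subgroup.center X) := A.map π with hAbar
  set Cbar : Subgroup (X ⧸ Subgroup.center X) := Subgroup.centralizer (Abar : Set (X ⧸ Subgroup.center X)) with hCbar
  set D : Subgroup X := Cbar.comap π with hD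
  have hAD : A ≤ D := by
    intro x hx
    show π x ∈ Cbar
    rw [hCbar, Subgroup.mem_centralizer_iff]
    rintro _ ⟨y, hy, rfl⟩
    show π y * π x = π x * π y
    rw [← map_mul, ← map_mul, hAcomm y hy x hx]
  have hDcard : Nat.card D = Nat.card Cbar * p := by
    rw [hD, card_comap, hZcard]
  have hDcomm : ∀ x ∈ D, x * a * x⁻¹ * a⁻¹ ∈ Subgroup.center X := by
    intro x hx
    have h1 : π x ∈ Cbar := hx
    rw [hCbar, Subgroup.mem_centralizer_iff] at h1
    have h2 := h1 (π a) ⟨a, haA, rfl⟩
    rw [← QuotientGroup.ker_mk' (Subgroup.center X), MonoidHom.mem_ker]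
    show π (x * a * x⁻¹ * a⁻¹) = 1
    simp only [map_mul, map_inv]
    rw [← h2]
    group
  have h3 := card_le_comm (Subgroup.center X) D le_rfl a hDcomm
  -- `D ⊓ C(a)` centralizes `A`
  set K : Subgroup X := Subgroup.closure ({a} : Set X) ⊔ Subgroup.center X with hK
  have hKA : K ≤ A := by
    refine sup_le ?_ hZC
    rw [Subgroup.closure_le]
    simpa using haA
  have haK : a ∈ K := (le_sup_left : Subgroup.closure ({a} : Set X) ≤ K) (Subgroup.subset_closure rfl)
  have hZK : Subgroup.center X < K := by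
    refine lt_of_le_of_ne le_sup_right ?_
    intro h
    exact haZ (h ▸ haK)
  have hKeq : K = A := by
    apply Subgroup.eq_of_le_of_card_ge hKA
    have h1 := card_mul_le_of_lt hpX hZK
    rw [hZcard] at h1
    rw [hA, pow_two]
    exact h1
  have h4 : D ⊓ Subgroup.centralizer ({a} : Set X) ≤ A := by
    intro x hx
    apply hC
    rw [Subgroup.mem_centralizer_iff]
    intro y hy
    have hy' : y ∈ K := by rw [hKeq]; exact hy
    have hle : K ≤ Subgroup.centralizer ({x} : Set X) := by
      refine sup_le ?_ (Subgroup.center_le_centralizer _)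
      rw [Subgroup.closure_le]
      intro m hm
      rw [Set.mem_singleton_iff] at hm
      rw [hm]
      have hxa : x ∈ Subgroup.centralizer ({a} : Set X) := hx.2
      rw [Subgroup.mem_centralizer_singleton_iff] at hxa
      show a ∈ Subgroup.centralizer ({x} : Set X)
      rw [Subgroup.mem_centralizer_singleton_iff]
      exact hxa.symm
    have := hle hy'
    rw [Subgroup.mem_centralizer_singleton_iff] at this
    exact this
  have h5 : Nat.card (D ⊓ Subgroup.centralizer ({a} : Set X) : Subgroup X) ≤ p ^ 2 := by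
    rw [← hA]; exact Subgroup.card_le_of_le h4
  have hCbarle : Nat.card Cbar ≤ p ^ 2 := by
    rw [hDcard, hZcard] at h3
    have h6 : Nat.card Cbar * p ≤ p ^ 2 * p := by
      refine h3.trans ?_
      rw [mul_comm]
      exact Nat.mul_le_mul_right _ h5
    exact Nat.le_of_mul_le_mul_right h6 hp.out.pos
  have hAbarcard : Nat.card Abar = p := by
    have h1 : Abar.comap π = A := by
      rw [hAbar, Subgroup.comap_map_eq_self]
      rw [hπ, QuotientGroup.ker_mk']
      exact hZC
    have h2 := card_comap (Subgroup.center X) Abar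
    rw [h1, hA, hZcard, pow_two] at h2
    exact (Nat.eq_of_mul_eq_mul_right hp.out.pos h2).symm
  have hABC : Abar ≤ Cbar := by
    rintro _ ⟨y, hy, rfl⟩
    exact hAD hy
  have hXbar : Nat.card (X ⧸ Subgroup.center X) = p ^ (n - 1) := by
    have h2 := Subgroup.card_eq_card_quotient_mul_card_subgroup (Subgroup.center X)
    rw [hX, hZcard] at h2
    obtain ⟨r, rfl⟩ : ∃ r, n = r + 1 := ⟨n - 1, by omega⟩
    rw [pow_succ] at h2
    exact (Nat.eq_of_mul_eq_mul_right hp.out.pos h2).symm
  have hpXbar : IsPGroup p (X ⧸ Subgroup.center X) := IsPGroup.of_card hXbar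
  have hCbarne : Abar ≠ Cbar := by
    intro h
    have hcn : Nontrivial (X ⧸ Subgroup.center X) := by
      have : 1 < Nat.card (X ⧸ Subgroup.center X) := by
        have h7 : Nat.card Abar ≤ Nat.card (X ⧸ Subgroup.center X) := Subgroup.card_le_card_group _
        have := hp.out.one_lt
        omega
      exact (Finite.one_lt_card_iff_nontrivial).mp this
    have hcc : Nontrivial (Subgroup.center (X ⧸ Subgroup.center X)) := hpXbar.center_nontrivial
    have hce : Subgroup.center (X ⧸ Subgroup.center X) ≤ Abar := by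
      rw [h]; exact Subgroup.center_le_centralizer _
    have hce2 : Subgroup.center (X ⧸ Subgroup.center X) = Abar := by
      apply Subgroup.eq_of_le_of_card_ge hce
      rw [hAbarcard]
      have h1 : Nat.card (Subgroup.center (X ⧸ Subgroup.center X)) ∣ p ^ 1 := by
        rw [pow_one, ← hAbarcard]; exact Subgroup.card_dvd_of_le hce
      obtain ⟨k, hk, hk2⟩ := (Nat.dvd_prime_pow hp.out).mp h1
      have h8 : 1 < Nat.card (Subgroup.center (X ⧸ Subgroup.center X)) := Finite.one_lt_card
      interval_cases k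
      · rw [hk2] at h8; simp at h8
      · simp [hk2]
    have htop : Cbar = ⊤ := by
      rw [eq_top_iff]
      intro x _
      rw [hCbar, Subgroup.mem_centralizer_iff]
      intro y hy
      have hy' : y ∈ Subgroup.center (X ⧸ Subgroup.center X) := by rw [hce2]; exact hy
      exact (Subgroup.mem_center_iff.mp hy' x).symm
    have hAtop2 : D = ⊤ := by rw [hD, htop, Subgroup.comap_top]
    apply hAtop
    rw [eq_top_iff, ← hAtop2]
    intro x hx
    have hx2 : π x ∈ Abar := by rw [h]; exact hx
    obtain ⟨y, hy, hxy⟩ := hx2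
    have hxy2 : y⁻¹ * x ∈ Subgroup.center X := by
      rw [← QuotientGroup.ker_mk' (Subgroup.center X), MonoidHom.mem_ker, map_mul, map_inv]
      show (π y)⁻¹ * π x = 1
      rw [hxy]; group
    have := A.mul_mem hy (hZC hxy2)
    simpa using this
  have hCbarcard : Nat.card Cbar = p ^ 2 := by
    apply le_antisymm hCbarle
    have h1 := card_mul_le_of_lt hpXbar (lt_of_le_of_ne hABC hCbarne)
    rw [hAbarcard] at h1
    rw [pow_two]
    exact h1
  have hcent : Subgroup.centralizer (Cbar : Set (X ⧸ Subgroup.center X)) ≤ Cbar := by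
    apply Subgroup.centralizer_le
    exact hABC
  have hlt : n - 1 < n := by omega
  have hres := ih (n - 1) hlt (X ⧸ Subgroup.center X) hXbar Cbar hCbarcard hcent
  rw [hcl, hres]
  omega

theorem comm_of_card {T : Type*} [Group T] [Finite T] {k : ℕ} (h : Nat.card T = p ^ k) (hk : k ≤ 2) (a b : T) : a * b = b * a := by
  interval_cases k
  · have : Subsingleton T := (Nat.card_eq_one_iff_unique.mp (by simpa using h)).1
    exact Subsingleton.elim _ _
  · have : Nat.card T = p := by simpa using h
    haveI := isCyclic_of_prime_card this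
    exact mul_comm' a b
  · exact (IsPGroup.isMulCommutative_of_card_eq_prime_sq h).is_comm.comm a b

theorem main (n : ℕ) (X : Type u) [Group X] [Finite X] (hX : Nat.card X = p ^ n)
    (B : Subgroup X) (hB : Nat.card B = p ^ 3) (hBna : ¬ IsMulCommutative B) (hC : Subgroup.centralizer (B : Set X) ≤ B) :
    Group.nilpotencyClass X = n - 1 := by
  have hp1 : 1 < p := hp.out.one_lt
  have hpX : IsPGroup p X := IsPGroup.of_card hX
  haveI : Group.IsNilpotent X := hpX.isNilpotent
  have hdvd : p ^ 3 ∣ p ^ n := by rw [← hB, ← hX]; exact Subgroup.card_subgroup_dvd_card B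
  have hn3 : 3 ≤ n := (Nat.pow_dvd_pow_iff_le_right hp1).mp hdvd
  haveI : Nontrivial X := by
    have : 1 < Nat.card X := by rw [hX]; exact Nat.one_lt_pow (by omega) hp1
    exact (Finite.one_lt_card_iff_nontrivial).mp this
  have hcl := Group.nilpotencyClass_eq_quotient_center_plus_one (G := X)
  obtain ⟨a, haB, b, hbB, hab⟩ : ∃ a ∈ B, ∃ b ∈ B, a * b ≠ b * a := by
    by_contra hcon
    push_neg at hcon
    apply hBna
    constructor
    constructor
    intro x y
    apply Subtype.ext
    exact hcon x.1 x.2 y.1 y.2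
  set W : Subgroup X := Subgroup.centralizer (B : Set X) with hW
  have hZW : Subgroup.center X ≤ W := Subgroup.center_le_centralizer _
  have hWcom : ∀ w ∈ W, ∀ y ∈ B, y * w = w * y := by
    intro w hw y hy
    exact (Subgroup.mem_centralizer_iff.mp hw) y hy
  -- `W` is small
  set T : Subgroup X := Subgroup.closure ({a} : Set X) ⊔ W with hT
  have hTB : T ≤ B := by
    refine sup_le ?_ hC
    rw [Subgroup.closure_le]
    simpa using haB
  have hTa : T ≤ Subgroup.centralizer ({a} : Set X) := by
    refine sup_le ?_ ?_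
    · rw [Subgroup.closure_le]
      intro m hm
      rw [Set.mem_singleton_iff] at hm
      rw [hm]
      show a ∈ Subgroup.centralizer ({a} : Set X)
      rw [Subgroup.mem_centralizer_singleton_iff]
    · intro w hw
      rw [Subgroup.mem_centralizer_singleton_iff]
      exact (hWcom w hw a haB).symm
  have hbT : b ∉ T := by
    intro h
    have := hTa h
    rw [Subgroup.mem_centralizer_singleton_iff] at this
    exact hab this.symm
  have haT : a ∈ T := (le_sup_left : Subgroup.closure ({a} : Set X) ≤ T) (Subgroup.subset_closure rfl)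
  have haW : a ∉ W := by
    intro h
    exact hab (hWcom a h b hbB).symm
  have hWT : W < T := by
    refine lt_of_le_of_ne le_sup_right ?_
    intro h
    exact haW (h ▸ haT)
  have hTlt : T < B := by
    refine lt_of_le_of_ne hTB ?_
    intro h
    exact hbT (h ▸ hbB)
  have hWcard : Nat.card W ≤ p := by
    have h1 := card_mul_le_of_lt hpX hWT
    have h2 := card_mul_le_of_lt hpX hTlt
    rw [hB] at h2
    have h3 : Nat.card T ≤ p ^ 2 := by
      have : Nat.card T * p ≤ p ^ 2 * p := by rw [← pow_succ]; exact h2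
      exact Nat.le_of_mul_le_mul_right this hp.out.pos
    have h4 : Nat.card W * p ≤ p * p := by rw [← pow_two]; exact h1.trans h3
    exact Nat.le_of_mul_le_mul_right h4 hp.out.pos
  have hcenne : Nontrivial (Subgroup.center X) := hpX.center_nontrivial
  have hZcard : Nat.card (Subgroup.center X) = p := by
    have h1 : Nat.card (Subgroup.center X) ∣ p ^ n := by
      rw [← hX]; exact Subgroup.card_subgroup_dvd_card _
    obtain ⟨k, hk, hk2⟩ := (Nat.dvd_prime_pow hp.out).mp h1
    have h2 : 1 < Nat.card (Subgroup.center X) := Finite.one_lt_card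
    have h3 : Nat.card (Subgroup.center X) ≤ p := (Subgroup.card_le_of_le hZW).trans hWcard
    rcases k with _ | _ | k
    · rw [hk2] at h2; simp at h2
    · simpa using hk2
    · exfalso
      rw [hk2, pow_succ, pow_succ] at h3
      have h5 : 1 ≤ p ^ k := Nat.one_le_pow _ _ hp.out.pos
      have h6 : p * p ≤ p ^ k * p * p := by
        calc p * p = 1 * p * p := by ring
          _ ≤ p ^ k * p * p := by gcongr
      have h7 : p * p ≤ p := h6.trans h3
      nlinarith
  have hZB : Subgroup.center X ≤ B := hZW.trans hC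
  set π := QuotientGroup.mk' (Subgroup.center X) with hπ
  set Bbar : Subgroup (X ⧸ Subgroup.center X) := B.map π with hBbar
  have hBbarcomap : Bbar.comap π = B := by
    rw [hBbar, Subgroup.comap_map_eq_self]
    rw [hπ, QuotientGroup.ker_mk']
    exact hZB
  have hBbarcard : Nat.card Bbar = p ^ 2 := by
    have h2 := card_comap (Subgroup.center X) Bbar
    rw [hBbarcomap, hB, hZcard, pow_succ] at h2
    exact (Nat.eq_of_mul_eq_mul_right hp.out.pos h2).symm
  have hBbarcomm : ∀ x ∈ Bbar, ∀ y ∈ Bbar, x * y = y * x := by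
    intro x hx y hy
    have := comm_of_card hBbarcard le_rfl (⟨x, hx⟩ : Bbar) ⟨y, hy⟩
    exact congrArg Subtype.val this
  set Cbar : Subgroup (X ⧸ Subgroup.center X) := Subgroup.centralizer (Bbar : Set (X ⧸ Subgroup.center X)) with hCbar
  set D : Subgroup X := Cbar.comap π with hD
  have hBD : B ≤ D := by
    intro x hx
    show π x ∈ Cbar
    rw [hCbar, Subgroup.mem_centralizer_iff]
    intro y hy
    exact hBbarcomm y hy _ ⟨x, hx, rfl⟩
  have hDcomm : ∀ c ∈ B, ∀ x ∈ D, x * c * x⁻¹ * c⁻¹ ∈ Subgroup.center X := by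
    intro c hc x hx
    have h1 : π x ∈ Cbar := hx
    rw [hCbar, Subgroup.mem_centralizer_iff] at h1
    have h2 := h1 (π c) ⟨c, hc, rfl⟩
    rw [← QuotientGroup.ker_mk' (Subgroup.center X), MonoidHom.mem_ker]
    show π (x * c * x⁻¹ * c⁻¹) = 1
    simp only [map_mul, map_inv]
    rw [← h2]
    group
  have h1 := card_le_comm (Subgroup.center X) D le_rfl a (hDcomm a haB)
  have h2 := card_le_comm (Subgroup.center X) (D ⊓ Subgroup.centralizer ({a} : Set X)) le_rfl b
    (fun x hx => hDcomm b hbB x hx.1)
  have h3 : ((D ⊓ Subgroup.centralizer ({a} : Set X)) ⊓ Subgroup.centralizer ({b} : Set X) : Subgroup X) ≤ W := by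
    intro x hx
    have hxa : x ∈ Subgroup.centralizer ({a} : Set X) := hx.1.2
    have hxb : x ∈ Subgroup.centralizer ({b} : Set X) := hx.2
    rw [Subgroup.mem_centralizer_singleton_iff] at hxa hxb
    set R : Subgroup X := B ⊓ Subgroup.centralizer ({x} : Set X) with hR
    have haR : a ∈ R := ⟨haB, by show a ∈ Subgroup.centralizer ({x} : Set X); rw [Subgroup.mem_centralizer_singleton_iff]; exact hxa.symm⟩
    have hbR : b ∈ R := ⟨hbB, by show b ∈ Subgroup.centralizer ({x} : Set X); rw [Subgroup.mem_centralizer_singleton_iff]; exact hxb.symm⟩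
    have hRB : R = B := by
      apply Subgroup.eq_of_le_of_card_ge inf_le_left
      rw [hB]
      have hd : Nat.card R ∣ p ^ 3 := by rw [← hB]; exact Subgroup.card_dvd_of_le inf_le_left
      obtain ⟨k, hk, hk2⟩ := (Nat.dvd_prime_pow hp.out).mp hd
      by_cases hk3 : k = 3
      · rw [hk2, hk3]
      · exfalso
        have := comm_of_card hk2 (by omega) (⟨a, haR⟩ : R) ⟨b, hbR⟩
        exact hab (congrArg Subtype.val this)
    rw [hW, Subgroup.mem_centralizer_iff]
    intro y hy
    have hy' : y ∈ R := by rw [hRB]; exact hy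
    have hy2 : y ∈ Subgroup.centralizer ({x} : Set X) := hy'.2
    rw [Subgroup.mem_centralizer_singleton_iff] at hy2
    exact hy2
  have h4 := Subgroup.card_le_of_le h3
  have hDle : Nat.card D ≤ p ^ 3 := by
    rw [hZcard] at h1 h2
    calc Nat.card D ≤ p * Nat.card (D ⊓ Subgroup.centralizer ({a} : Set X) : Subgroup X) := h1
      _ ≤ p * (p * Nat.card ((D ⊓ Subgroup.centralizer ({a} : Set X)) ⊓ Subgroup.centralizer ({b} : Set X) : Subgroup X)) := Nat.mul_le_mul_left _ h2
      _ ≤ p * (p * p) := Nat.mul_le_mul_left _ (Nat.mul_le_mul_left _ (h4.trans hWcard))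
      _ = p ^ 3 := by ring
  have hDB : B = D := Subgroup.eq_of_le_of_card_ge hBD (by rw [hB]; exact hDle)
  have hcent : Subgroup.centralizer (Bbar : Set (X ⧸ Subgroup.center X)) ≤ Bbar := by
    intro x hx
    obtain ⟨y, rfl⟩ := QuotientGroup.mk'_surjective _ x
    have : y ∈ D := hx
    rw [← hDB] at this
    exact ⟨y, this, rfl⟩
  have hXbar : Nat.card (X ⧸ Subgroup.center X) = p ^ (n - 1) := by
    have h2 := Subgroup.card_eq_card_quotient_mul_card_subgroup (Subgroup.center X)
    rw [hX, hZcard] at h2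
    obtain ⟨r, rfl⟩ : ∃ r, n = r + 1 := ⟨n - 1, by omega⟩
    rw [pow_succ] at h2
    exact (Nat.eq_of_mul_eq_mul_right hp.out.pos h2).symm
  have hres := L (n - 1) (X ⧸ Subgroup.center X) hXbar Bbar hBbarcard hcent
  rw [hcl, hres]
  omega

/-- Let X be a finite p-group of order p^n containing a non-abelian subgroup B of order p³ with C_X(B) ≤ B. Then X has nilpotency class n − 1 (maximal class). -/
theorem result {X : Type*} [Group X] [Finite X] {p : ℕ} [Fact p.Prime] (n : ℕ) (hX : Nat.card X = p ^ n)
    (B : Subgroup X) (hB : Nat.card B = p ^ 3) (hBna : ¬ IsMulCommutative B) (hC : Subgroup.centralizer (B : Set X) ≤ B) :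
    Group.nilpotencyClass X = n - 1 := by
  exact main n X hX B hB hBna hC

end Cfsg.Agent.S4143
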