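import Mathlib
import Cfsg.Statements.S4152
import Cfsg.Agent.Lib.H6PiPart
import Cfsg.Agent.Lib.SylowCount
-- import your own Cfsg.Agent.* helpers here

set_option autoImplicit false
open Cfsg

namespace Cfsg.Agent.S4152

open Subgroup Cfsg.Agent.Lib.H6PiPart

/-- The class formula for classes of `π`-elements. -/
theorem class_formula (π : Set ℕ) (H : Type*) [Group H] [Fintype H] [DecidableEq H] [DecidablePred (· ∈ PiE π H)] :
    Nat.card {C : ConjClasses H // ∀ q : ℕ, q.Prime → (∃ g : H, ConjClasses.mk g = C ∧ q ∣ orderOf g) → q ∈ π} * Nat.card H =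
      ∑ g ∈ Finset.univ.filter (· ∈ PiE π H), Nat.card (centralizer ({g} : Set H)) := by
  classical
  have hconj : ∀ {a b : H}, IsConj a b → orderOf a = orderOf b := by
    intro a b hab
    obtain ⟨c, hc⟩ := isConj_iff.mp hab
    rw [← hc]
    exact ((MulAut.conj c).orderOf_eq a).symm
  set P : ConjClasses H → Prop := fun C => ∀ q : ℕ, q.Prime → (∃ g : H, ConjClasses.mk g = C ∧ q ∣ orderOf g) → q ∈ π with hP
  have hPmk : ∀ g : H, P (ConjClasses.mk g) ↔ g ∈ PiE π H := by
    intro g
    constructor
    · intro h q hq hd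
      exact h q hq ⟨g, rfl, hd⟩
    · rintro h q hq ⟨g', hg', hd⟩
      have : IsConj g' g := ConjClasses.mk_eq_mk_iff_isConj.mp hg'
      rw [hconj this] at hd
      exact h q hq hd
  set S := Finset.univ.filter (· ∈ PiE π H) with hS
  set Sc : Finset (ConjClasses H) := Finset.univ.filter P with hSc
  have hmaps : ∀ g ∈ S, ConjClasses.mk g ∈ Sc := by
    intro g hg
    rw [hSc, Finset.mem_filter]
    exact ⟨Finset.mem_univ _, (hPmk g).mpr (Finset.mem_filter.mp hg).2⟩
  rw [← Finset.sum_fiberwise_of_maps_to hmaps]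
  have hfib : ∀ C ∈ Sc, ∑ g ∈ S with ConjClasses.mk g = C, Nat.card (centralizer ({g} : Set H)) = Nat.card H := by
    intro C hC
    obtain ⟨g₀, rfl⟩ := ConjClasses.mk_surjective C
    have hg₀ : g₀ ∈ PiE π H := (hPmk g₀).mp (Finset.mem_filter.mp hC).2
    have h1 := Cfsg.Agent.Lib.SylowCount.card_class_mul_centralizer g₀
    have hterm : ∀ g ∈ S.filter (fun g => ConjClasses.mk g = ConjClasses.mk g₀),
        Nat.card (centralizer ({g} : Set H)) = Nat.card (centralizer ({g₀} : Set H)) := by
      intro g hg
      have hgc : IsConj g g₀ := ConjClasses.mk_eq_mk_iff_isConj.mp (Finset.mem_filter.mp hg).2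
      have h2 := Cfsg.Agent.Lib.SylowCount.card_class_mul_centralizer g
      have h3 : Nat.card {y : H // IsConj g y} = Nat.card {y : H // IsConj g₀ y} :=
        Nat.card_congr (Equiv.subtypeEquivRight fun y => ⟨fun h => hgc.symm.trans h, fun h => hgc.trans h⟩)
      rw [h3] at h2
      have hpos : 0 < Nat.card {y : H // IsConj g₀ y} := Nat.card_pos_iff.mpr ⟨⟨⟨g₀, IsConj.refl _⟩⟩, inferInstance⟩
      exact Nat.eq_of_mul_eq_mul_left hpos (h2.trans h1.symm)
    rw [Finset.sum_congr rfl hterm, Finset.sum_const, smul_eq_mul, ← h1]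
    congr 1
    rw [Nat.card_eq_fintype_card, Fintype.card_subtype]
    congr 1
    ext y
    simp only [Finset.mem_filter, Finset.mem_univ, true_and, hS]
    constructor
    · rintro ⟨_, h⟩
      exact (ConjClasses.mk_eq_mk_iff_isConj.mp h).symm
    · intro h
      refine ⟨?_, ConjClasses.mk_eq_mk_iff_isConj.mpr h.symm⟩
      intro q hq hd
      rw [← hconj h] at hd
      exact hg₀ q hq hd
  rw [Finset.sum_congr rfl hfib, Finset.sum_const, smul_eq_mul]
  congr 1
  rw [Nat.card_eq_fintype_card, Fintype.card_subtype]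

/-- Centralizer bound across a normal subgroup. -/
theorem centralizer_bound {G : Type*} [Group G] [Fintype G] [DecidableEq G] (N : Subgroup G) [N.Normal] [Fintype N]
    (g : G) :
    Nat.card (centralizer ({g} : Set G)) ≤
      Nat.card (centralizer ({(QuotientGroup.mk' N) g} : Set (G ⧸ N))) *
        (Finset.univ.filter (fun n : N => (n : G) * g = g * n)).card := by
  classical
  set K := centralizer ({g} : Set G) with hK
  set ψ : K →* G ⧸ N := (QuotientGroup.mk' N).comp K.subtype with hψ
  have h1 : Nat.card ψ.ker * Nat.card ψ.range = Nat.card K := by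
    rw [← Subgroup.index_ker]
    exact ψ.ker.card_mul_index
  have h2 : Nat.card ψ.range ≤ Nat.card (centralizer ({(QuotientGroup.mk' N) g} : Set (G ⧸ N))) := by
    apply Subgroup.card_le_of_le
    rintro _ ⟨k, rfl⟩
    rw [Subgroup.mem_centralizer_singleton_iff]
    have hk : (k : G) * g = g * k := Subgroup.mem_centralizer_singleton_iff.mp k.2
    show (QuotientGroup.mk' N) (k : G) * (QuotientGroup.mk' N) g = (QuotientGroup.mk' N) g * (QuotientGroup.mk' N) (k : G)
    rw [← map_mul, ← map_mul, hk]
  have h3 : Nat.card ψ.ker ≤ (Finset.univ.filter (fun n : N => (n : G) * g = g * n)).card := by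
    have h4 : (Finset.univ.filter (fun n : N => (n : G) * g = g * n)).card = Nat.card {n : N // (n : G) * g = g * n} := by
      rw [Nat.card_eq_fintype_card, Fintype.card_subtype]
    rw [h4]
    have hmemN : ∀ k : ψ.ker, ((k.1 : K) : G) ∈ N := by
      intro k
      have := k.2
      rw [MonoidHom.mem_ker] at this
      exact (QuotientGroup.eq_one_iff _).mp this
    refine Nat.card_le_card_of_injective (fun k => ⟨⟨((k.1 : K) : G), hmemN k⟩,
      Subgroup.mem_centralizer_singleton_iff.mp (k.1 : K).2⟩) ?_
    intro a b hab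
    have h5 : ((a.1 : K) : G) = ((b.1 : K) : G) := congrArg (fun x : {n : N // (n : G) * g = g * n} => ((x.1 : N) : G)) hab
    exact Subtype.ext (Subtype.ext h5)
  calc Nat.card K = Nat.card ψ.ker * Nat.card ψ.range := h1.symm
    _ ≤ (Finset.univ.filter (fun n : N => (n : G) * g = g * n)).card * Nat.card (centralizer ({(QuotientGroup.mk' N) g} : Set (G ⧸ N))) :=
        Nat.mul_le_mul h3 h2
    _ = _ := Nat.mul_comm _ _

/-- The coset count. -/
theorem key_bound {G : Type*} [Group G] [Fintype G] [DecidableEq G] (N : Subgroup G) [N.Normal] [Fintype N] [DecidableEq N]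
    (π : Set ℕ) [DecidablePred (· ∈ PiE π G)] [DecidablePred (· ∈ PiE π N)] [DecidableEq (G ⧸ N)] (x : G ⧸ N) :
    ∑ g ∈ (Finset.univ.filter (· ∈ PiE π G)).filter (fun g => (QuotientGroup.mk' N) g = x),
        (Finset.univ.filter (fun n : N => (n : G) * g = g * n)).card ≤
      ∑ n ∈ Finset.univ.filter (· ∈ PiE π N), Nat.card (centralizer ({n} : Set N)) := by
  classical
  choose a ha t ht hat haP htP using fun n : N => exists_decomp π n
  set S := (Finset.univ.filter (· ∈ PiE π G)).filter (fun g => (QuotientGroup.mk' N) g = x) with hS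
  set T : G → Finset N := fun g => Finset.univ.filter (fun n : N => (n : G) * g = g * n) with hT
  set S' := Finset.univ.filter (· ∈ PiE π N) with hS'
  set T' : N → Finset G := fun n => Finset.univ.filter (fun c : G => (QuotientGroup.mk' N) c = x ∧ c * n = n * c) with hT'
  have hbound : ∀ n ∈ S', (T' n).card ≤ Nat.card (centralizer ({n} : Set N)) := by
    intro n _
    rcases (T' n).eq_empty_or_nonempty with h | ⟨c₀, hc₀⟩
    · rw [h, Finset.card_empty]; exact Nat.zero_le _
    · have hc₀' := (Finset.mem_filter.mp hc₀).2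
      have h4 : (T' n).card = Nat.card {c : G // (QuotientGroup.mk' N) c = x ∧ c * n = n * c} := by
        rw [Nat.card_eq_fintype_card, Fintype.card_subtype]
      rw [h4]
      have hmem : ∀ c : {c : G // (QuotientGroup.mk' N) c = x ∧ c * n = n * c}, c₀⁻¹ * c.1 ∈ N := by
        intro c
        have h5 : (QuotientGroup.mk' N) c.1 = (QuotientGroup.mk' N) c₀ := c.2.1.trans hc₀'.1.symm
        exact (QuotientGroup.eq).mp h5.symm
      refine Nat.card_le_card_of_injective (fun c => ⟨⟨c₀⁻¹ * c.1, hmem c⟩, ?_⟩) ?_
      · rw [Subgroup.mem_centralizer_singleton_iff]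
        apply Subtype.ext
        have h6 := c.2.2
        have h7 := hc₀'.2
        show c₀⁻¹ * c.1 * n = n * (c₀⁻¹ * c.1)
        have h8 : c₀⁻¹ * (n : G) = n * c₀⁻¹ := by
          have : (c₀ * (n : G)) = n * c₀ := h7
          calc c₀⁻¹ * (n : G) = c₀⁻¹ * (n * c₀) * c₀⁻¹ := by group
            _ = c₀⁻¹ * (c₀ * n) * c₀⁻¹ := by rw [this]
            _ = n * c₀⁻¹ := by group
        rw [mul_assoc, h6, ← mul_assoc, h8, mul_assoc]
      · intro c d hcd
        have h9 : c₀⁻¹ * c.1 = c₀⁻¹ * d.1 := congrArg (fun z : centralizer ({n} : Set N) => ((z.1 : N) : G)) hcd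
        exact Subtype.ext (mul_left_cancel h9)
  have hinj : (S.sigma T).card ≤ (S'.sigma T').card := by
    refine Finset.card_le_card_of_injOn (fun p => ⟨a p.2, p.1 * (t p.2 : G)⟩) ?_ ?_
    · rintro ⟨g, n⟩ hp
      simp only [Finset.coe_sigma, Set.mem_sigma_iff, Finset.mem_coe] at hp
      obtain ⟨hg, hn⟩ := hp
      have hg1 := (Finset.mem_filter.mp hg).2
      have hn1 : (n : G) * g = g * n := (Finset.mem_filter.mp hn).2
      have hcomm : ∀ z ∈ zpowers n, (z : G) * g = g * z := by
        rintro _ ⟨i, rfl⟩
        have : Commute (n : G) g := hn1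
        have h2 : Commute ((n : G) ^ i) g := this.zpow_left i
        simpa using h2.eq
      simp only [Finset.coe_sigma, Set.mem_sigma_iff, Finset.mem_coe]
      refine ⟨Finset.mem_filter.mpr ⟨Finset.mem_univ _, haP n⟩, Finset.mem_filter.mpr ⟨Finset.mem_univ _, ?_, ?_⟩⟩
      · have : (QuotientGroup.mk' N) (t n : G) = 1 := (QuotientGroup.eq_one_iff _).mpr (t n).2
        rw [map_mul, this, mul_one]
        exact hg1
      · have h3 : ((t n : N) : G) * (a n : G) = (a n : G) * (t n : G) := by
          have hcz : Commute (a n) (t n) := by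
            obtain ⟨i, hi⟩ := ha n
            obtain ⟨j, hj⟩ := ht n
            rw [← hi, ← hj]
            exact (Commute.refl n).zpow_zpow i j
          exact congrArg Subtype.val hcz.symm.eq
        have h4 := hcomm _ (ha n)
        calc g * (t n : G) * (a n : G) = g * ((t n : G) * (a n : G)) := by group
          _ = g * ((a n : G) * (t n : G)) := by rw [h3]
          _ = (g * (a n : G)) * (t n : G) := by group
          _ = ((a n : G) * g) * (t n : G) := by rw [h4]
          _ = (a n : G) * (g * (t n : G)) := by group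
    · rintro ⟨g, n⟩ hp ⟨h, m⟩ hq hpq
      simp only [Finset.coe_sigma, Set.mem_sigma_iff, Finset.mem_coe] at hp hq
      obtain ⟨hg, hn⟩ := hp
      obtain ⟨hh, hm⟩ := hq
      simp only [Sigma.mk.injEq, heq_eq_eq] at hpq
      obtain ⟨h1, h2⟩ := hpq
      have hgP : g ∈ PiE π G := (Finset.mem_filter.mp (Finset.mem_filter.mp hg).1).2
      have hhP : h ∈ PiE π G := (Finset.mem_filter.mp (Finset.mem_filter.mp hh).1).2
      have htn : ((t n : N) : G) ∈ PiP π G := by
        intro q hq hd
        rw [Subgroup.orderOf_coe] at hd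
        exact htP n q hq hd
      have htm : ((t m : N) : G) ∈ PiP π G := by
        intro q hq hd
        rw [Subgroup.orderOf_coe] at hd
        exact htP m q hq hd
      have hn1 : (n : G) * g = g * n := (Finset.mem_filter.mp hn).2
      have hm1 : (m : G) * h = h * m := (Finset.mem_filter.mp hm).2
      have hcg : Commute g (t n : G) := by
        obtain ⟨j, hj⟩ := ht n
        have h3 : Commute (n : G) g := hn1
        have h4 := h3.zpow_left j
        rw [← hj]
        simpa using h4.symm
      have hch : Commute h (t m : G) := by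
        obtain ⟨j, hj⟩ := ht m
        have h3 : Commute (m : G) h := hm1
        have h4 := h3.zpow_left j
        rw [← hj]
        simpa using h4.symm
      obtain ⟨h3, h4⟩ := decomp_unique hcg hch h2 hgP htn hhP htm
      have h5 : t n = t m := Subtype.ext h4
      have h6 : n = m := by
        rw [hat n, hat m, h1, h5]
      simp only [Sigma.mk.injEq, heq_eq_eq]
      exact ⟨h3, h6⟩
  rw [Finset.card_sigma, Finset.card_sigma] at hinj
  exact hinj.trans (Finset.sum_le_sum hbound)

/-- Let G be a finite group, N a normal subgroup and π a set of primes. Then the number of conjugacy classes of π-elements of G (elements whose order is divisible only by primes in π) is at most the number of conjugacy classes of π-elements of N (under conjugation by N) times the number of conjugacy classes of π-elements of G/N. -/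
theorem result {G : Type*} [Group G] [Finite G] (N : Subgroup G) [N.Normal] (π : Set ℕ) :
    Nat.card {C : ConjClasses G // ∀ q : ℕ, q.Prime → (∃ g : G, ConjClasses.mk g = C ∧ q ∣ orderOf g) → q ∈ π} ≤ Nat.card {C : ConjClasses N // ∀ q : ℕ, q.Prime → (∃ g : N, ConjClasses.mk g = C ∧ q ∣ orderOf g) → q ∈ π} * Nat.card {C : ConjClasses (G ⧸ N) // ∀ q : ℕ, q.Prime → (∃ g : (G ⧸ N), ConjClasses.mk g = C ∧ q ∣ orderOf g) → q ∈ π} := by
  classical
  letI : Fintype G := Fintype.ofFinite G
  letI : Fintype N := Fintype.ofFinite N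
  letI : Fintype (G ⧸ N) := Fintype.ofFinite _
  have hA := class_formula π G
  have hB := class_formula π N
  have hD := class_formula π (G ⧸ N)
  set A := Nat.card {C : ConjClasses G // ∀ q : ℕ, q.Prime → (∃ g : G, ConjClasses.mk g = C ∧ q ∣ orderOf g) → q ∈ π}
  set B := Nat.card {C : ConjClasses N // ∀ q : ℕ, q.Prime → (∃ g : N, ConjClasses.mk g = C ∧ q ∣ orderOf g) → q ∈ π}
  set D := Nat.card {C : ConjClasses (G ⧸ N) // ∀ q : ℕ, q.Prime → (∃ g : (G ⧸ N), ConjClasses.mk g = C ∧ q ∣ orderOf g) → q ∈ π}
  have hcard : Nat.card G = Nat.card (G ⧸ N) * Nat.card N := Subgroup.card_eq_card_quotient_mul_card_subgroup N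
  have hmaps : ∀ g ∈ Finset.univ.filter (· ∈ PiE π G), (QuotientGroup.mk' N) g ∈ Finset.univ.filter (· ∈ PiE π (G ⧸ N)) := by
    intro g hg
    refine Finset.mem_filter.mpr ⟨Finset.mem_univ _, ?_⟩
    intro q hq hd
    exact (Finset.mem_filter.mp hg).2 q hq (hd.trans (orderOf_map_dvd _ g))
  have hmain : A * Nat.card G ≤ D * Nat.card (G ⧸ N) * (B * Nat.card N) := by
    rw [hA, hD, Finset.sum_mul]
    calc ∑ g ∈ Finset.univ.filter (· ∈ PiE π G), Nat.card (centralizer ({g} : Set G))
        ≤ ∑ g ∈ Finset.univ.filter (· ∈ PiE π G), Nat.card (centralizer ({(QuotientGroup.mk' N) g} : Set (G ⧸ N))) *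
            (Finset.univ.filter (fun n : N => (n : G) * g = g * n)).card :=
          Finset.sum_le_sum fun g _ => centralizer_bound N g
      _ = ∑ x ∈ Finset.univ.filter (· ∈ PiE π (G ⧸ N)), ∑ g ∈ (Finset.univ.filter (· ∈ PiE π G)).filter (fun g => (QuotientGroup.mk' N) g = x),
            Nat.card (centralizer ({(QuotientGroup.mk' N) g} : Set (G ⧸ N))) *
              (Finset.univ.filter (fun n : N => (n : G) * g = g * n)).card :=
          (Finset.sum_fiberwise_of_maps_to hmaps _).symm
      _ ≤ ∑ x ∈ Finset.univ.filter (· ∈ PiE π (G ⧸ N)), Nat.card (centralizer ({x} : Set (G ⧸ N))) * (B * Nat.card N) := by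
          apply Finset.sum_le_sum
          intro x _
          have h1 : ∑ g ∈ (Finset.univ.filter (· ∈ PiE π G)).filter (fun g => (QuotientGroup.mk' N) g = x),
              Nat.card (centralizer ({(QuotientGroup.mk' N) g} : Set (G ⧸ N))) *
                (Finset.univ.filter (fun n : N => (n : G) * g = g * n)).card =
              Nat.card (centralizer ({x} : Set (G ⧸ N))) * ∑ g ∈ (Finset.univ.filter (· ∈ PiE π G)).filter (fun g => (QuotientGroup.mk' N) g = x),
                (Finset.univ.filter (fun n : N => (n : G) * g = g * n)).card := by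
            rw [Finset.mul_sum]
            apply Finset.sum_congr rfl
            intro g hg
            rw [(Finset.mem_filter.mp hg).2]
          rw [h1]
          apply Nat.mul_le_mul_left
          rw [hB]
          exact key_bound N π x
  have hpos : 0 < Nat.card G := Nat.card_pos
  have h2 : A * Nat.card G ≤ (B * D) * Nat.card G := by
    calc A * Nat.card G ≤ D * Nat.card (G ⧸ N) * (B * Nat.card N) := hmain
      _ = (B * D) * (Nat.card (G ⧸ N) * Nat.card N) := by ring
      _ = (B * D) * Nat.card G := by rw [← hcard]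
  exact Nat.le_of_mul_le_mul_right h2 hpos

end Cfsg.Agent.S4152
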