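import Cfsg.Statements.S4153
import Cfsg.Agent.Lib.PResidual
import Cfsg.Agent.Lib.PIrreducible
-- import your own Cfsg.Agent.* helpers here

set_option autoImplicit false
open Cfsg

namespace Cfsg.Agent.S4153

/-- Let G be a finite group, p a prime, N a normal subgroup, P a Sylow p-subgroup of G and P̄ a Sylow p-subgroup of G/N. Count the elements of p-power order, the identity included. Then (number of such elements of G/N)/#P̄ ≤ (number of such elements of G)/#P, stated as a cross-multiplied inequality, with equality when N is central. -/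
theorem result {G : Type*} [Group G] [Finite G] (p : ℕ) [Fact p.Prime] (N : Subgroup G) [N.Normal]
    (P : Sylow p G) (Pbar : Sylow p (G ⧸ N)) :
    Nat.card {g : (G ⧸ N) // ∃ k : ℕ, orderOf g = p ^ k} * Nat.card (P : Subgroup G) ≤ Nat.card {g : G // ∃ k : ℕ, orderOf g = p ^ k} * Nat.card (Pbar : Subgroup (G ⧸ N)) ∧
    (N ≤ Subgroup.center G → Nat.card {g : (G ⧸ N) // ∃ k : ℕ, orderOf g = p ^ k} * Nat.card (P : Subgroup G) = Nat.card {g : G // ∃ k : ℕ, orderOf g = p ^ k} * Nat.card (Pbar : Subgroup (G ⧸ N))) := by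
  classical
  haveI := Fintype.ofFinite G
  haveI := Fintype.ofFinite (G ⧸ N)
  have hp : p.Prime := Fact.out
  let q : G →* G ⧸ N := QuotientGroup.mk' N
  let s : ℕ := p ^ (Nat.card N).factorization p
  have hGcard : Nat.card G = Nat.card N * Nat.card (G ⧸ N) := N.card_mul_index.symm
  have hP : Nat.card (P : Subgroup G) = s * Nat.card (Pbar : Subgroup (G ⧸ N)) := by
    rw [P.card_eq_multiplicity, Pbar.card_eq_multiplicity, ← pow_add, hGcard,
      Nat.factorization_mul Nat.card_pos.ne' Nat.card_pos.ne']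
    rfl
  let AG := {g : G // ∃ k : ℕ, orderOf g = p ^ k}
  let AQ := {g : (G ⧸ N) // ∃ k : ℕ, orderOf g = p ^ k}
  have hφ : ∀ g : AG, ∃ k : ℕ, orderOf (q g.1) = p ^ k := by
    rintro ⟨g, k, hk⟩
    have h1 : orderOf (q g) ∣ p ^ k := hk ▸ orderOf_map_dvd q g
    obtain ⟨t, -, ht⟩ := (Nat.dvd_prime_pow hp).mp h1
    exact ⟨t, ht⟩
  let φ : AG → AQ := fun g => ⟨q g.1, hφ g⟩
  have hsum : Nat.card AG = ∑ w : AQ, Nat.card {g // φ g = w} := by
    rw [Nat.card_congr (Equiv.sigmaFiberEquiv φ).symm, Nat.card_sigma]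
  have hA : ∀ w : AQ, s ≤ Nat.card {g // φ g = w} := by
    rintro ⟨w, k, hk⟩
    obtain ⟨x, rfl⟩ := QuotientGroup.mk_surjective w
    obtain ⟨y, z, rfl, hcomm, hy, ⟨k', hz⟩, hyz, -⟩ :=
      Cfsg.Agent.Lib.PResidual.exists_decomp (p := p) x
    have hqy : q y = 1 := by
      have h1 : orderOf (q y) ∣ orderOf y := orderOf_map_dvd q y
      obtain ⟨n, hn⟩ := hyz
      have h2 : orderOf (q y) ∣ p ^ k := by
        have h3 : q y = (q (y * z)) ^ n := by
          rw [← map_zpow]
          exact congrArg q hn.symm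
        rw [h3]
        have h4 : (q (y * z)) ^ (p ^ k) = 1 := by
          have : orderOf (q (y * z)) = p ^ k := hk
          rw [← this]
          exact pow_orderOf_eq_one _
        exact orderOf_dvd_of_pow_eq_one (by rw [← zpow_natCast, zpow_comm, zpow_natCast, h4, one_zpow])
      have h5 : (orderOf y).Coprime (p ^ k) := Nat.Coprime.pow_right _ hy
      have h6 : orderOf (q y) ∣ 1 := by
        rw [← Nat.Coprime.gcd_eq_one h5]
        exact Nat.dvd_gcd h1 h2
      exact orderOf_eq_one_iff.mp (Nat.dvd_one.mp h6)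
    have hqz : q z = q (y * z) := by
      rw [map_mul, hqy, one_mul]
    have hzp : IsPGroup p (Subgroup.zpowers z) := by
      apply IsPGroup.of_card (n := k')
      rw [Nat.card_zpowers, hz]
    obtain ⟨T, hT⟩ := hzp.exists_le_sylow
    have hzT : z ∈ (T : Subgroup G) := hT (Subgroup.mem_zpowers z)
    obtain ⟨R, hR⟩ := Cfsg.Agent.Lib.PIrreducible.exists_sylow_inf_normal (p := p) T (N := N)
    have hcardR : Nat.card ((T : Subgroup G) ⊓ N : Subgroup G) = s := by
      rw [← hR]
      have : Nat.card ((R : Subgroup N).map N.subtype) = Nat.card (R : Subgroup N) :=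
        Nat.card_congr (Subgroup.equivMapOfInjective _ N.subtype N.subtype_injective).symm.toEquiv
      rw [this, R.card_eq_multiplicity]
    have hmemT : ∀ t : ((T : Subgroup G) ⊓ N : Subgroup G), ∃ k : ℕ, orderOf (z * t.1) = p ^ k := by
      intro t
      have hm : z * t.1 ∈ (T : Subgroup G) := (T : Subgroup G).mul_mem hzT t.2.1
      obtain ⟨j, hj⟩ := (IsPGroup.iff_orderOf.mp T.isPGroup') ⟨z * t.1, hm⟩
      refine ⟨j, ?_⟩
      rw [← hj]
      exact (Subgroup.orderOf_mk _ _).symm
    rw [← hcardR]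
    refine Nat.card_le_card_of_injective (fun t => ⟨⟨z * t.1, hmemT t⟩, ?_⟩) ?_
    · apply Subtype.ext
      change q (z * t.1) = q (y * z)
      have : q t.1 = 1 := (QuotientGroup.eq_one_iff t.1).mpr t.2.2
      rw [map_mul, this, mul_one, hqz]
    · intro t t' h
      have h1 : z * t.1 = z * t'.1 := congrArg (fun u => (u.1.1 : G)) h
      exact Subtype.ext (mul_left_cancel h1)
  have hB : N ≤ Subgroup.center G → ∀ w : AQ, Nat.card {g // φ g = w} ≤ s := by
    intro hcen w
    by_cases hne : Nonempty {g // φ g = w}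
    · obtain ⟨⟨h₀, hh₀⟩⟩ := hne
      obtain ⟨R⟩ : Nonempty (Sylow p N) := inferInstance
      haveI hRsub : Subsingleton (Sylow p N) := by
        suffices hnorm : (R : Subgroup N).Normal from
          (Sylow.unique_of_normal R hnorm).instSubsingleton
        refine ⟨fun x hx g => ?_⟩
        have hg : (g : G) ∈ Subgroup.center G := hcen g.2
        have h2 : g * x * g⁻¹ = x := by
          apply Subtype.ext
          have := (Subgroup.mem_center_iff.mp hg) (x : G)
          simp only [Subgroup.coe_mul, Subgroup.coe_inv]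
          rw [← this, mul_assoc, mul_inv_cancel, mul_one]
        rw [h2]
        exact hx
      rw [show s = Nat.card (R : Subgroup N) from R.card_eq_multiplicity.symm]
      have hmem : ∀ h : {g // φ g = w}, ∃ hN : h₀.1⁻¹ * h.1.1 ∈ N, (⟨_, hN⟩ : N) ∈ (R : Subgroup N) := by
        intro h
        have hN : h₀.1⁻¹ * h.1.1 ∈ N := by
          apply QuotientGroup.eq.mp
          have h1 : q h₀.1 = q h.1.1 := by
            have h2 : φ h₀ = φ h.1 := hh₀.trans h.2.symm
            exact congrArg Subtype.val h2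
          exact h1
        refine ⟨hN, ?_⟩
        obtain ⟨a, ha⟩ := h₀.2
        obtain ⟨b, hb⟩ := h.1.2
        have hcomm : Commute h₀.1⁻¹ h.1.1 := by
          have hz : h₀.1⁻¹ * h.1.1 ∈ Subgroup.center G := hcen hN
          have h3 := (Subgroup.mem_center_iff.mp hz) h₀.1⁻¹
          have h4 : h₀.1⁻¹ * (h₀.1⁻¹ * h.1.1) = (h₀.1⁻¹ * h.1.1) * h₀.1⁻¹ := h3
          have h5 : h₀.1⁻¹ * h.1.1 = h.1.1 * h₀.1⁻¹ := by
            have h6 := mul_left_cancel (a := h₀.1⁻¹) (b := h₀.1⁻¹ * h.1.1) (c := h.1.1 * h₀.1⁻¹)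
              (by rw [h4]; group)
            exact h6
          exact h5
        have hpow : (h₀.1⁻¹ * h.1.1) ^ (p ^ (a + b)) = 1 := by
          rw [hcomm.mul_pow, pow_add, inv_pow, pow_mul]
          have h7 : h₀.1 ^ p ^ a = 1 := by rw [← ha]; exact pow_orderOf_eq_one _
          rw [h7, one_pow, inv_one, one_mul, mul_comm (p ^ a), pow_mul]
          have h8 : h.1.1 ^ p ^ b = 1 := by rw [← hb]; exact pow_orderOf_eq_one _
          rw [h8, one_pow]
        let n : N := ⟨_, hN⟩
        have hn : n ^ (p ^ (a + b)) = 1 := Subtype.ext hpow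
        have hzp : IsPGroup p (Subgroup.zpowers n) := by
          have h9 : orderOf n ∣ p ^ (a + b) := orderOf_dvd_of_pow_eq_one hn
          obtain ⟨t, -, ht⟩ := (Nat.dvd_prime_pow hp).mp h9
          apply IsPGroup.of_card (n := t)
          rw [Nat.card_zpowers, ht]
        obtain ⟨T, hT⟩ := hzp.exists_le_sylow
        have hTR : T = R := Subsingleton.elim _ _
        rw [← hTR]
        exact hT (Subgroup.mem_zpowers n)
      refine Nat.card_le_card_of_injective
        (fun h => (⟨⟨h₀.1⁻¹ * h.1.1, (hmem h).1⟩, (hmem h).2⟩ : (R : Subgroup N))) ?_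
      intro h h' hh
      have h1 : h₀.1⁻¹ * h.1.1 = h₀.1⁻¹ * h'.1.1 := congrArg (fun u => ((u.1 : N) : G)) hh
      exact Subtype.ext (Subtype.ext (mul_left_cancel h1))
    · rw [not_nonempty_iff] at hne
      rw [Nat.card_of_isEmpty]
      exact Nat.zero_le _
  have hAQ : Nat.card AQ * s = ∑ _w : AQ, s := by
    rw [Finset.sum_const, Finset.card_univ, Nat.card_eq_fintype_card, smul_eq_mul]
  have hlow : Nat.card AQ * s ≤ Nat.card AG := by
    rw [hAQ, hsum]
    exact Finset.sum_le_sum (fun w _ => hA w)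
  have hup : N ≤ Subgroup.center G → Nat.card AG ≤ Nat.card AQ * s := by
    intro hcen
    rw [hAQ, hsum]
    exact Finset.sum_le_sum (fun w _ => hB hcen w)
  constructor
  · rw [hP, ← mul_assoc]
    exact Nat.mul_le_mul_right _ hlow
  · intro hcen
    rw [hP, ← mul_assoc, le_antisymm hlow (hup hcen)]

end Cfsg.Agent.S4153
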