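import Cfsg.Statements.S4154
import Cfsg.Agent.Lib.SylowCount
-- import your own Cfsg.Agent.* helpers here

set_option autoImplicit false
open Cfsg

namespace Cfsg.Agent.S4154

/-- Let G be a finite group and α an automorphism of G such that every element of G is the product of an element fixed by α and an element of the form g⁻¹α(g). If N is a normal α-invariant subgroup, then the automorphism ᾱ induced on G/N has the same property, and every coset fixed by ᾱ contains an element fixed by α (so the fixed points of ᾱ are the images of the fixed points of α). -/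
theorem result {G : Type*} [Group G] [Finite G] (α : MulAut G)
    (hccp : ∀ x : G, ∃ c g : G, α c = c ∧ x = c * (g⁻¹ * α g))
    (N : Subgroup G) [N.Normal] (hN : ∀ n ∈ N, α n ∈ N) :
    (∀ x : G, ∃ c g : G, c⁻¹ * α c ∈ N ∧ x⁻¹ * (c * (g⁻¹ * α g)) ∈ N) ∧
    (∀ x : G, x⁻¹ * α x ∈ N → ∃ c : G, α c = c ∧ c⁻¹ * x ∈ N) := by
  classical
  refine ⟨fun x => ?_, fun x hx => ?_⟩
  · obtain ⟨c, g, hc, hx⟩ := hccp x
    refine ⟨c, g, ?_, ?_⟩
    · rw [hc]; simp [one_mem]
    · rw [← hx]; simp [one_mem]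
  -- the induced automorphism
  let Q := G ⧸ N
  have hmap : N ≤ N.comap α.toMonoidHom := fun n hn => hN n hn
  let β : Q →* Q := QuotientGroup.map N N α.toMonoidHom hmap
  have hβ : ∀ y : G, β (y : Q) = ((α y : G) : Q) := fun y => rfl
  let F : Subgroup Q := MonoidHom.eqLocus β (MonoidHom.id Q)
  let C : Subgroup G := MonoidHom.eqLocus α.toMonoidHom (MonoidHom.id G)
  let C' : Subgroup Q := C.map (QuotientGroup.mk' N)
  have hC'F : C' ≤ F := by
    rintro _ ⟨c, hc, rfl⟩
    change β (c : Q) = (c : Q)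
    rw [hβ]
    have : α c = c := hc
    rw [this]
  let S := Set.range (fun q : Q => q⁻¹ * β q)
  let f : Q → S := fun q => ⟨q⁻¹ * β q, q, rfl⟩
  have hfib : ∀ s : S, Nat.card {q // f q = s} = Nat.card F := by
    rintro ⟨_, q₀, rfl⟩
    have e : {q // f q = ⟨q₀⁻¹ * β q₀, q₀, rfl⟩} ≃ F :=
      { toFun := fun q => ⟨q₀ * q.1⁻¹, by
          have h1 : q.1⁻¹ * β q.1 = q₀⁻¹ * β q₀ := congrArg Subtype.val q.2
          change β (q₀ * q.1⁻¹) = q₀ * q.1⁻¹
          rw [map_mul, map_inv]
          calc β q₀ * (β q.1)⁻¹ = q₀ * (q₀⁻¹ * β q₀) * (β q.1)⁻¹ := by group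
            _ = q₀ * (q.1⁻¹ * β q.1) * (β q.1)⁻¹ := by rw [h1]
            _ = q₀ * q.1⁻¹ := by group⟩
        invFun := fun t => ⟨t.1⁻¹ * q₀, by
          apply Subtype.ext
          have ht : β t.1 = t.1 := t.2
          change (t.1⁻¹ * q₀)⁻¹ * β (t.1⁻¹ * q₀) = q₀⁻¹ * β q₀
          rw [map_mul, map_inv, ht]
          group⟩
        left_inv := fun q => by
          apply Subtype.ext
          change (q₀ * q.1⁻¹)⁻¹ * q₀ = q.1
          group
        right_inv := fun t => by
          apply Subtype.ext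
          change q₀ * (t.1⁻¹ * q₀)⁻¹ = t.1
          group }
    exact Nat.card_congr e
  have hcount := Cfsg.Agent.Lib.SylowCount.card_eq_mul_of_fibers f _ hfib
  -- C' × S covers Q
  have hsurj : Function.Surjective (fun p : C' × S => (p.1 : Q) * (p.2 : Q)) := by
    intro q
    obtain ⟨y, rfl⟩ := QuotientGroup.mk_surjective q
    obtain ⟨c, g, hc, hy⟩ := hccp y
    refine ⟨(⟨(c : Q), c, hc, rfl⟩, ⟨(g : Q)⁻¹ * β (g : Q), (g : Q), rfl⟩), ?_⟩
    simp only []
    rw [hy, hβ]
    rfl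
  have hle : Nat.card Q ≤ Nat.card C' * Nat.card S := by
    rw [← Nat.card_prod]
    exact Nat.card_le_card_of_surjective _ hsurj
  have hSpos : 0 < Nat.card S := Nat.card_pos_iff.mpr ⟨⟨⟨_, 1, rfl⟩⟩, inferInstance⟩
  have hFle : Nat.card F ≤ Nat.card C' := by
    rw [hcount, mul_comm] at hle
    exact Nat.le_of_mul_le_mul_right hle hSpos
  have hEq : C' = F := Subgroup.eq_of_le_of_card_ge hC'F hFle
  have hxF : (x : Q) ∈ F := by
    change β (x : Q) = (x : Q)
    rw [hβ]
    exact (QuotientGroup.eq.mpr hx).symm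
  rw [← hEq] at hxF
  obtain ⟨c, hc, hcx⟩ := hxF
  exact ⟨c, hc, QuotientGroup.eq.mp hcx⟩

end Cfsg.Agent.S4154
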