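import Mathlib
import Cfsg.Statements.S4155
import Cfsg.Agent.S4107
import Cfsg.Agent.S0040
import Cfsg.Agent.Lib.FitCore
-- import your own Cfsg.Agent.* helpers here

set_option autoImplicit false
open Cfsg

namespace Cfsg.Agent.S4155

open Cfsg.Agent.Lib

theorem lift_sylow {G : Type*} [Group G] [Finite G] (N : Subgroup G) [N.Normal] (q : ℕ) [Fact q.Prime]
    (Qb : Subgroup (G ⧸ N)) (hQ : IsPGroup q Qb) :
    ∃ Q : Subgroup G, IsPGroup q Q ∧ Q.map (QuotientGroup.mk' N) = Qb := by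
  classical
  let R := Qb.comap (QuotientGroup.mk' N)
  let g : R →* Qb := ((QuotientGroup.mk' N).comp R.subtype).codRestrict Qb (fun x => x.2)
  have hg : Function.Surjective g := by
    rintro ⟨y, hy⟩
    obtain ⟨x, rfl⟩ := QuotientGroup.mk_surjective y
    exact ⟨⟨x, hy⟩, rfl⟩
  let P : Sylow q R := default
  let P' := P.mapSurjective hg
  have hP' : (P' : Subgroup Qb) = ⊤ := by
    have h1 : IsPGroup q (⊤ : Subgroup Qb) := hQ.to_subgroup ⊤
    exact P'.is_maximal' h1 le_top |>.symm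
  refine ⟨(P : Subgroup R).map R.subtype, P.isPGroup'.map _, ?_⟩
  apply le_antisymm
  · rintro _ ⟨_, ⟨x, hx, rfl⟩, rfl⟩
    exact x.2
  · intro y hy
    have h2 : (⟨y, hy⟩ : Qb) ∈ (P' : Subgroup Qb) := by rw [hP']; trivial
    rw [Sylow.coe_mapSurjective] at h2
    obtain ⟨x, hx, hxe⟩ := h2
    exact ⟨x, ⟨x, hx, rfl⟩, congrArg Subtype.val hxe⟩


/-- Let G be a finite group and N a proper non-trivial normal nilpotent subgroup whose order is not a prime power, such that for every x outside N all elements of the coset xN have the same order as x. Then N is the Fitting subgroup of G, and for every prime q every Sylow q-subgroup of G/N is cyclic or generalized quaternion. -/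
theorem result {G : Type*} [Group G] [Finite G] (N : Subgroup G) [N.Normal] (hN1 : N ≠ ⊥) (hN2 : N ≠ ⊤)
    (heq : ∀ x : G, x ∉ N → ∀ n ∈ N, orderOf (x * n) = orderOf x)
    (hnil : Group.IsNilpotent N) (hnpp : ¬ IsPrimePow (Nat.card N)) :
    N = Cfsg.fittingSubgroup G ∧
    ∀ (q : ℕ) [Fact q.Prime] (Q : Sylow q (G ⧸ N)), IsCyclic (Q : Subgroup (G ⧸ N)) ∨ ∃ n : ℕ, Nonempty ((Q : Subgroup (G ⧸ N)) ≃* QuaternionGroup (2 ^ n)) := by
  classical
  haveI hFn := FitCore.fitting_normal (G := G)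
  have hNpp : ∀ (r t : ℕ), r.Prime → Nat.card N = r ^ t → False := by
    intro r t hr ht
    apply hnpp
    rw [ht]
    refine (isPrimePow_nat_iff _).mpr ⟨r, t, hr, Nat.pos_of_ne_zero ?_, rfl⟩
    rintro rfl
    rw [pow_zero] at ht
    exact hN1 (Subgroup.eq_bot_of_card_eq N ht)
  have hFN : Cfsg.fittingSubgroup G ≤ N := by
    by_contra hcon
    obtain ⟨x, hxF, hxN⟩ := SetLike.not_le_iff_exists.mp hcon
    obtain ⟨q, hq, z, hz, ⟨k, hk⟩, hzN⟩ := Cfsg.Agent.S4107.exists_prime_part N hxN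
    haveI : Fact q.Prime := ⟨hq⟩
    have hzF := Subgroup.zpowers_le.mpr hxF hz
    have hq1 := Cfsg.Agent.S4107.key_pgroup N heq q hzF hk hzN
    obtain ⟨t, ht⟩ := IsPGroup.iff_card.mp hq1
    exact hNpp q t hq ht
  have hNF : N ≤ Cfsg.fittingSubgroup G := FitCore.le_fitting N inferInstance hnil
  refine ⟨le_antisymm hNF hFN, ?_⟩
  intro q _ Qb
  obtain ⟨p, hp, hpd, hpq⟩ : ∃ p, p.Prime ∧ p ∣ Nat.card N ∧ p ≠ q := by
    by_contra hcon
    push_neg at hcon
    have h1 := Nat.eq_prime_pow_of_unique_prime_dvd (n := Nat.card N) (p := q) Nat.card_pos.ne'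
      (fun {d} hd hdd => hcon d hd hdd)
    exact hNpp q _ Fact.out h1
  haveI : Fact p.Prime := ⟨hp⟩
  let K := Cfsg.pCore p G
  haveI hKn : K.Normal := FitCore.pCore_normal (G := G) p
  have hKp : IsPGroup p K := FitCore.pCore_isPGroup p
  have hKN : K ≤ N := (FitCore.pCore_le_fitting p).trans hFN
  have hKne : K ≠ ⊥ := by
    obtain ⟨u, hu⟩ := exists_prime_orderOf_dvd_card' p hpd
    have hu' : orderOf (u : G) = p ^ 1 := by rw [Subgroup.orderOf_coe, hu, pow_one]
    have h1 := Cfsg.Agent.S4107.mem_pCore_of_mem_fitting p (hNF u.2) hu'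
    intro hbot
    have h2 : (u : G) = 1 := by
      have : (u : G) ∈ K := h1
      rw [hbot] at this
      exact this
    rw [h2, orderOf_one, pow_one] at hu'
    exact hp.one_lt.ne hu'
  obtain ⟨Q, hQp, hQe⟩ := lift_sylow N q Qb (Qb.isPGroup')
  let χ : Q →* MulAut K := (MulAut.conjNormal (H := K)).comp Q.subtype
  have hχ : ∀ (x : Q) (u : K), ((χ x u : K) : G) = x * u * (x : G)⁻¹ := fun x u => rfl
  have hQb : ∀ x : Q, (QuotientGroup.mk' N) (x : G) ∈ (Qb : Subgroup (G ⧸ N)) := by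
    intro x
    rw [← hQe]
    exact ⟨x, x.2, rfl⟩
  let f : Q →* (Qb : Subgroup (G ⧸ N)) := ((QuotientGroup.mk' N).comp Q.subtype).codRestrict _ hQb
  have hf : Function.Surjective f := by
    rintro ⟨y, hy⟩
    have hy' := hy
    rw [← hQe] at hy'
    obtain ⟨x, hx, hxe⟩ := hy'
    exact ⟨⟨x, hx⟩, Subtype.ext hxe⟩
  have hfN : ∀ x : Q, f x = 1 ↔ (x : G) ∈ N := by
    intro x
    constructor
    · intro h
      have h1 : (QuotientGroup.mk' N) (x : G) = 1 := congrArg Subtype.val h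
      rw [← MonoidHom.mem_ker, QuotientGroup.ker_mk'] at h1
      exact h1
    · intro h
      apply Subtype.ext
      show (QuotientGroup.mk' N) (x : G) = 1
      rw [← MonoidHom.mem_ker, QuotientGroup.ker_mk']
      exact h
  have hxo : ∀ x : Q, ∃ a, orderOf (x : G) = q ^ a := by
    intro x
    obtain ⟨a, ha⟩ := (IsPGroup.iff_orderOf.mp hQp) x
    exact ⟨a, by rw [Subgroup.orderOf_coe, ha]⟩
  have huo : ∀ u : K, ∃ c, orderOf (u : G) = p ^ c := by
    intro u
    obtain ⟨a, ha⟩ := (IsPGroup.iff_orderOf.mp hKp) u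
    exact ⟨a, by rw [Subgroup.orderOf_coe, ha]⟩
  have hker : f.ker ≤ χ.ker := by
    intro x hx
    have hxN := (hfN x).mp hx
    obtain ⟨a, ha⟩ := hxo x
    have hxP := Cfsg.Agent.S4107.mem_pCore_of_mem_fitting q (hNF hxN) ha
    rw [MonoidHom.mem_ker]
    apply MulEquiv.ext
    intro u
    apply Subtype.ext
    rw [hχ]
    show (x : G) * u * (x : G)⁻¹ = u
    haveI hPn := FitCore.pCore_normal (G := G) q
    have hd : Cfsg.pCore q G ⊓ Cfsg.pCore p G = ⊥ := by
      have h1 := IsPGroup.disjoint_of_ne q p hpq.symm (Cfsg.pCore q G) (Cfsg.pCore p G)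
        (FitCore.pCore_isPGroup q) (FitCore.pCore_isPGroup p)
      exact h1.eq_bot
    have hcomm := Subgroup.commute_of_normal_of_disjoint _ _ hPn hKn
      (disjoint_iff.mpr hd) (x : G) u hxP u.2
    rw [hcomm.eq]
    group
  let ψ : (Qb : Subgroup (G ⧸ N)) →* MulAut K := f.liftOfSurjective hf ⟨χ, hker⟩
  have hψ : ∀ x : Q, ψ (f x) = χ x := fun x =>
    f.liftOfRightInverse_comp_apply _ _ ⟨χ, hker⟩ x
  let G' := K ⋊[ψ] (Qb : Subgroup (G ⧸ N))
  haveI : Finite G' := Finite.of_equiv _ (SemidirectProduct.equivProd (N := K) (G := (Qb : Subgroup (G ⧸ N))) (φ := ψ)).symm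
  let K' : Subgroup G' := (SemidirectProduct.inl : K →* G').range
  let H' : Subgroup G' := (SemidirectProduct.inr : (Qb : Subgroup (G ⧸ N)) →* G').range
  haveI hK'n : K'.Normal := by
    show ((SemidirectProduct.inl : K →* G').range).Normal
    rw [SemidirectProduct.range_inl_eq_ker_rightHom]
    infer_instance
  have hc : Subgroup.IsComplement' K' H' := by
    refine Subgroup.isComplement'_of_disjoint_and_mul_eq_univ ?_ ?_
    · rw [disjoint_iff, eq_bot_iff]
      rintro _ ⟨⟨u, rfl⟩, ⟨b, hb⟩⟩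
      rw [Subgroup.mem_bot]
      have h1 := congrArg SemidirectProduct.left hb
      have h2 : u = 1 := by
        simpa using h1.symm
      rw [h2, map_one]
    · rw [Set.eq_univ_iff_forall]
      intro x
      exact Set.mem_mul.mpr ⟨_, ⟨x.left, rfl⟩, _, ⟨x.right, rfl⟩, SemidirectProduct.inl_left_mul_inr_right x⟩
  have hK'ne : K' ≠ ⊥ := by
    intro h
    apply hKne
    rw [eq_bot_iff]
    intro u hu
    have h1 : (SemidirectProduct.inl (⟨u, hu⟩ : K) : G') ∈ K' := ⟨_, rfl⟩
    rw [h] at h1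
    have h2 : (SemidirectProduct.inl (⟨u, hu⟩ : K) : G') = 1 := h1
    have h3 : (⟨u, hu⟩ : K) = 1 := by
      apply SemidirectProduct.inl_injective (φ := ψ)
      rw [h2, map_one]
    rw [Subgroup.mem_bot]
    exact congrArg Subtype.val h3
  have hfpf : ∀ h ∈ H', h ≠ 1 → K' ⊓ Subgroup.centralizer {h} = ⊥ := by
    rintro _ ⟨b, rfl⟩ hb1
    rw [eq_bot_iff]
    rintro _ ⟨⟨u, rfl⟩, hcen⟩
    rw [Subgroup.mem_bot]
    have hb : b ≠ 1 := by
      rintro rfl
      exact hb1 (map_one _)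
    have h1 : (SemidirectProduct.inr b : G') * SemidirectProduct.inl u =
        SemidirectProduct.inl u * SemidirectProduct.inr b :=
      Subgroup.mem_centralizer_iff.mp hcen _ rfl
    have h2 : (SemidirectProduct.inl (ψ b u) : G') = SemidirectProduct.inl u := by
      rw [SemidirectProduct.inl_aut, h1, map_inv]
      group
    have h3 : ψ b u = u := SemidirectProduct.inl_injective h2
    obtain ⟨x, rfl⟩ := hf b
    rw [hψ] at h3
    have h4 : (x : G) * u * (x : G)⁻¹ = u := by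
      have := congrArg Subtype.val h3
      rwa [hχ] at this
    have hxN : (x : G) ∉ N := fun h => hb ((hfN x).mpr h)
    have h5 := heq x hxN u (hKN u.2)
    have hcomm : Commute (x : G) (u : G) := by
      show (x : G) * u = u * x
      calc (x : G) * u = ((x : G) * u * (x : G)⁻¹) * x := by group
        _ = u * x := by rw [h4]
    obtain ⟨a, ha⟩ := hxo x
    obtain ⟨c, hc'⟩ := huo u
    have hco : (orderOf (x : G)).Coprime (orderOf (u : G)) := by
      rw [ha, hc']
      exact Nat.Coprime.pow _ _ ((Nat.coprime_primes Fact.out hp).mpr hpq.symm)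
    rw [hcomm.orderOf_mul_eq_mul_orderOf_of_coprime hco] at h5
    have h6 : orderOf (u : G) = 1 := by
      have hpos : 0 < orderOf (x : G) := orderOf_pos _
      exact Nat.eq_of_mul_eq_mul_left hpos (by rw [h5, mul_one])
    have h7 : u = 1 := Subtype.ext (orderOf_eq_one_iff.mp h6)
    rw [h7, map_one]
  have hH'p : IsPGroup q H' := by
    rintro ⟨_, ⟨b, rfl⟩⟩
    obtain ⟨k, hk⟩ := Qb.isPGroup' b
    refine ⟨k, Subtype.ext ?_⟩
    show (SemidirectProduct.inr b : G') ^ (q ^ k) = 1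
    rw [← map_pow, hk, map_one]
  let P' : Sylow q H' := (hH'p.to_subgroup ⊤).toSylow (by
    rw [Subgroup.index_top]
    exact Nat.Prime.not_dvd_one Fact.out)
  have hP' : (P' : Subgroup H') = ⊤ := rfl
  have r := Cfsg.Agent.S0040.result K' H' hc hK'ne hfpf q P'
  let e₁ : (P' : Subgroup H') ≃* (⊤ : Subgroup H') := MulEquiv.subgroupCongr hP'
  let e₂ : (⊤ : Subgroup H') ≃* H' := Subgroup.topEquiv
  let e₃ : (Qb : Subgroup (G ⧸ N)) ≃* H' :=
    MonoidHom.ofInjective (f := (SemidirectProduct.inr : (Qb : Subgroup (G ⧸ N)) →* G'))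
      SemidirectProduct.inr_injective
  let e : (P' : Subgroup H') ≃* (Qb : Subgroup (G ⧸ N)) := e₁.trans (e₂.trans e₃.symm)
  rcases r with r | ⟨n, ⟨e'⟩⟩
  · left
    exact isCyclic_of_surjective e e.surjective
  · right
    exact ⟨n, ⟨e.symm.trans e'⟩⟩
end Cfsg.Agent.S4155
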