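import Mathlib
import Cfsg.Statements.S4156
-- import your own Cfsg.Agent.* helpers here

set_option autoImplicit false
open Cfsg

namespace Cfsg.Agent.S4156

/-- Let n ≥ 5 and F a finite field. Then the projective special linear group PSL_n(F) contains a subgroup isomorphic to the alternating group of degree n + 1. -/
theorem result (n : ℕ) (hn : 5 ≤ n) (F : Type*) [Field F] [Finite F] :
    ∃ f : alternatingGroup (Fin (n + 1)) →* Matrix.ProjectiveSpecialLinearGroup (Fin n) F, Function.Injective f := by
  classical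
  haveI := Fintype.ofFinite F
  let φ : (Fin (n + 1) → F) →ₗ[F] F := ∑ i, LinearMap.proj i
  have hφ : ∀ v, φ v = ∑ i, v i := by
    intro v; simp [φ, LinearMap.sum_apply]
  let V : Submodule F (Fin (n + 1) → F) := LinearMap.ker φ
  have hsurj : Function.Surjective φ := by
    intro c
    refine ⟨Function.update 0 0 c, ?_⟩
    rw [hφ]
    rw [Finset.sum_eq_single 0]
    · simp
    · intro b _ hb
      simp [Function.update_of_ne hb]
    · simp
  have hfin : Module.finrank F V = n := by
    have h := LinearMap.finrank_range_add_finrank_ker φ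
    rw [LinearMap.range_eq_top.2 hsurj] at h
    simp only [finrank_top, Module.finrank_self, Module.finrank_fin_fun] at h
    change 1 + Module.finrank F V = n + 1 at h
    omega
  let b : Module.Basis (Fin n) F V := Module.finBasisOfFinrankEq F V hfin
  have hV : ∀ (σ : Equiv.Perm (Fin (n + 1))) (v : Fin (n + 1) → F), v ∈ V → (v ∘ σ) ∈ V := by
    intro σ v hv
    have hv' : ∑ i, v i = 0 := by
      have : φ v = 0 := hv
      rwa [hφ] at this
    change φ (v ∘ σ) = 0
    rw [hφ, ← hv']
    exact Equiv.sum_comp σ v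
  let act : Equiv.Perm (Fin (n + 1)) → (V →ₗ[F] V) := fun σ =>
    { toFun := fun v => ⟨(v : Fin (n + 1) → F) ∘ (σ⁻¹ : Equiv.Perm _), hV _ _ v.2⟩
      map_add' := fun x y => by ext i; simp
      map_smul' := fun c x => by ext i; simp }
  have act_apply : ∀ σ (v : V) i, (act σ v : Fin (n + 1) → F) i = (v : Fin (n + 1) → F) (σ⁻¹ i) :=
    fun _ _ _ => rfl
  have act_one : act 1 = LinearMap.id := by
    ext v i; simp [act_apply]
  have act_mul : ∀ σ τ, act (σ * τ) = act σ ∘ₗ act τ := by
    intro σ τ; ext v i; simp [act_apply]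
  let M : alternatingGroup (Fin (n + 1)) →* Matrix (Fin n) (Fin n) F :=
    { toFun := fun σ => LinearMap.toMatrix b b (act σ)
      map_one' := by
        change LinearMap.toMatrix b b (act 1) = 1
        rw [act_one, LinearMap.toMatrix_id]
      map_mul' := fun σ τ => by
        change LinearMap.toMatrix b b (act (σ.1 * τ.1)) = _
        rw [act_mul, LinearMap.toMatrix_comp b b b] }
  have h5 : 5 ≤ Nat.card (Fin (n + 1)) := by simp; omega
  have hdet : ∀ σ, (M σ).det = 1 := by
    let d : alternatingGroup (Fin (n + 1)) →* Fˣ :=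
      MonoidHom.toHomUnits (Matrix.detMonoidHom.comp M)
    have hd : d = 1 := by
      have hk : commutator (alternatingGroup (Fin (n + 1))) ≤ d.ker := by
        rw [commutator_def, Subgroup.commutator_le]
        intro x _ y _
        rw [MonoidHom.mem_ker, map_commutatorElement, commutatorElement_eq_one_iff_mul_comm]
        exact mul_comm _ _
      rw [commutator_alternatingGroup_eq_top h5, top_le_iff] at hk
      exact MonoidHom.ker_eq_top_iff.1 hk
    intro σ
    have h1 : d σ = 1 := by rw [hd]; rfl
    have h2 : ((d σ : Fˣ) : F) = (M σ).det := rfl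
    rw [← h2, h1]; rfl
  let ρ : alternatingGroup (Fin (n + 1)) →* Matrix.SpecialLinearGroup (Fin n) F :=
    { toFun := fun σ => ⟨M σ, hdet σ⟩
      map_one' := Subtype.ext M.map_one
      map_mul' := fun σ τ => Subtype.ext (M.map_mul σ τ) }
  refine ⟨(QuotientGroup.mk' (Subgroup.center (Matrix.SpecialLinearGroup (Fin n) F))).comp ρ, ?_⟩
  rw [injective_iff_map_eq_one]
  intro σ hσ
  have hmem : ρ σ ∈ Subgroup.center (Matrix.SpecialLinearGroup (Fin n) F) :=
    (QuotientGroup.eq_one_iff _).1 hσ
  obtain ⟨r, -, hr⟩ := Matrix.SpecialLinearGroup.mem_center_iff.1 hmem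
  have hact : act σ.1 = r • LinearMap.id := by
    apply (LinearMap.toMatrix b b).injective
    have h1 : LinearMap.toMatrix b b (act σ.1) = Matrix.scalar (Fin n) r := hr.symm
    rw [h1, map_smul, LinearMap.toMatrix_id]
    ext i j
    simp [Matrix.scalar_apply, Matrix.diagonal_apply, Matrix.one_apply, Matrix.smul_apply]
  by_contra hne
  have hne' : (σ.1 : Equiv.Perm (Fin (n + 1)))⁻¹ ≠ 1 := by
    intro h
    apply hne
    ext1
    exact inv_eq_one.1 h
  obtain ⟨i, hi⟩ : ∃ i, (σ.1 : Equiv.Perm (Fin (n + 1)))⁻¹ i ≠ i := by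
    by_contra hall
    push_neg at hall
    exact hne' (Equiv.ext hall)
  set j := (σ.1 : Equiv.Perm (Fin (n + 1)))⁻¹ i with hj
  -- choose a third point `l` different from `i`, `j`, and the preimage of `j`
  obtain ⟨l, hli, hlj, hlk⟩ : ∃ l : Fin (n + 1), l ≠ j ∧ l ≠ i ∧ l ≠ σ.1 j := by
    by_contra hall
    push_neg at hall
    have hsub : (Finset.univ : Finset (Fin (n + 1))) ⊆ {j, i, σ.1 j} := by
      intro x _
      simp only [Finset.mem_insert, Finset.mem_singleton]
      by_cases h1 : x = j
      · exact Or.inl h1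
      by_cases h2 : x = i
      · exact Or.inr (Or.inl h2)
      exact Or.inr (Or.inr (hall x h1 h2))
    have := Finset.card_le_card hsub
    have h3 : ({j, i, σ.1 j} : Finset (Fin (n + 1))).card ≤ 3 := Finset.card_le_three
    simp at this
    omega
  -- test vector supported on `j` and `l`
  let v0 : Fin (n + 1) → F := Function.update (Function.update 0 j 1) l (-1)
  have hv0j : v0 j = 1 := by
    simp [v0, Function.update_of_ne hli.symm]
  have hv0l : v0 l = -1 := by simp [v0]
  have hv0o : ∀ x, x ≠ j → x ≠ l → v0 x = 0 := by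
    intro x h1 h2
    simp [v0, Function.update_of_ne h2, Function.update_of_ne h1]
  have hv0 : v0 ∈ V := by
    change φ v0 = 0
    rw [hφ, ← Finset.add_sum_erase _ _ (Finset.mem_univ j),
      ← Finset.add_sum_erase _ _ (Finset.mem_erase.2 ⟨hli, Finset.mem_univ l⟩)]
    rw [hv0j, hv0l, Finset.sum_eq_zero]
    · ring
    · intro x hx
      simp only [Finset.mem_erase] at hx
      exact hv0o x hx.2.1 hx.1
  have hev := congrArg (fun f : V →ₗ[F] V => ((f ⟨v0, hv0⟩ : V) : Fin (n + 1) → F) i) hact
  simp only [act_apply, LinearMap.smul_apply, LinearMap.id_apply] at hev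
  change v0 ((σ.1 : Equiv.Perm (Fin (n + 1)))⁻¹ i) = r • v0 i at hev
  rw [← hj, hv0j, hv0o i (Ne.symm hi) hlj.symm] at hev
  simp at hev

end Cfsg.Agent.S4156
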