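import Cfsg.Statements.S4160
import Cfsg.Agent.Lib.ConjCover
-- import your own Cfsg.Agent.* helpers here

set_option autoImplicit false
set_option linter.all false
open Cfsg

namespace Cfsg.Agent.S4160

open Cfsg.Agent.Lib.ConjFamily Cfsg.Agent.Lib.ConjCover

theorem mem_U_of_not_dvd {G : Type*} [Group G] [Finite G] {p : ℕ} [Fact p.Prime] (P : Sylow p G) (x : G)
    (h : ¬ p ∣ (Subgroup.centralizer ({x} : Set G)).index) :
    x ∈ U (Subgroup.centralizer ((P : Subgroup G) : Set G)) := by
  obtain ⟨S⟩ : Nonempty (Sylow p ↥(Subgroup.centralizer ({x} : Set G))) := inferInstance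
  set C := Subgroup.centralizer ({x} : Set G) with hC
  have hR : IsPGroup p ((S : Subgroup ↥C).map C.subtype) := S.2.map _
  have hidx : ¬ p ∣ ((S : Subgroup ↥C).map C.subtype).index := by
    rw [Subgroup.index_map_subtype]
    intro hd
    rcases (Fact.out : p.Prime).dvd_mul.1 hd with hd | hd
    · exact S.not_dvd_index hd
    · exact h hd
  obtain ⟨g, hg⟩ := MulAction.exists_smul_eq G P (hR.toSylow hidx)
  refine ⟨g, ?_⟩
  refine mem_cj.2 ?_
  refine Subgroup.mem_centralizer_iff.mpr ?_
  intro u hu
  have hu' : g * u * g⁻¹ ∈ ((g • P : Sylow p G) : Subgroup G) := by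
    rw [Sylow.coe_subgroup_smul]
    exact Subgroup.mem_map_of_mem _ hu
  rw [hg] at hu'
  obtain ⟨r, hr, hre⟩ := hu'
  have hc : (r : G) ∈ C := r.2
  have hc' : (r : G) * x = x * (r : G) := Subgroup.mem_centralizer_singleton_iff.1 hc
  have hre' : (r : G) = g * u * g⁻¹ := hre
  rw [hre'] at hc'
  have : u * (g⁻¹ * x * g) = g⁻¹ * (g * u * g⁻¹ * x) * g := by group
  rw [this, hc']
  group

theorem sylow_centralizer_not_le {G : Type*} [Group G] [Finite G] {p : ℕ} [Fact p.Prime] (P : Sylow p G)
    (hno : ¬ Cfsg.HasNormalPComplement p G) :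
    ¬ Subgroup.normalizer ((Subgroup.centralizer ((P : Subgroup G) : Set G) : Subgroup G) : Set G) ≤
      Subgroup.centralizer ((P : Subgroup G) : Set G) := by
  intro hle
  apply hno
  -- the normalizer of `P` normalizes the centralizer of `P`
  have h1 : Subgroup.normalizer ((P : Subgroup G) : Set G) ≤
      Subgroup.normalizer ((Subgroup.centralizer ((P : Subgroup G) : Set G) : Subgroup G) : Set G) := by
    intro n hn
    refine Subgroup.mem_normalizer_iff.2 ?_
    intro c
    constructor
    · intro hc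
      refine Subgroup.mem_centralizer_iff.mpr ?_
      intro u hu
      have hu' : n⁻¹ * u * n⁻¹⁻¹ ∈ (P : Subgroup G) :=
        (Subgroup.mem_normalizer_iff.1 (Subgroup.inv_mem _ hn) u).1 hu
      have hcu := Subgroup.mem_centralizer_iff.mp hc _ hu'
      have e : u * (n * c * n⁻¹) = n * ((n⁻¹ * u * n⁻¹⁻¹) * c) * n⁻¹ := by group
      rw [e, hcu]; group
    · intro hc
      refine Subgroup.mem_centralizer_iff.mpr ?_
      intro u hu
      have hu' : n * u * n⁻¹ ∈ (P : Subgroup G) :=
        (Subgroup.mem_normalizer_iff.1 hn u).1 hu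
      have hcu := Subgroup.mem_centralizer_iff.mp hc _ hu'
      have e : u * c = n⁻¹ * ((n * u * n⁻¹) * (n * c * n⁻¹)) * n := by group
      rw [e, hcu]; group
  have hN : Subgroup.normalizer ((P : Subgroup G) : Set G) ≤ Subgroup.centralizer ((P : Subgroup G) : Set G) :=
    h1.trans hle
  exact ⟨P, _, inferInstance, MonoidHom.ker_transferSylow_isComplement' P hN⟩



/-- Let G be a finite group and p ≠ q primes each dividing the size of some conjugacy class of G, such that no conjugacy class size is divisible by pq. Then G has a normal p-complement or a normal q-complement. -/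
theorem result {G : Type*} [Group G] [Finite G] (p q : ℕ) (hp : p.Prime) (hq : q.Prime) (hpq : p ≠ q)
    (hp' : ∃ x : G, p ∣ (Subgroup.centralizer ({x} : Set G)).index) (hq' : ∃ x : G, q ∣ (Subgroup.centralizer ({x} : Set G)).index) (h : ∀ x : G, ¬ p * q ∣ (Subgroup.centralizer ({x} : Set G)).index) :
    Cfsg.HasNormalPComplement p G ∨ Cfsg.HasNormalPComplement q G := by
  classical
  haveI : Fact p.Prime := ⟨hp⟩
  haveI : Fact q.Prime := ⟨hq⟩
  by_contra hno
  have hno1 : ¬ Cfsg.HasNormalPComplement p G := fun h => hno (Or.inl h)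
  have hno2 : ¬ Cfsg.HasNormalPComplement q G := fun h => hno (Or.inr h)
  obtain ⟨P⟩ : Nonempty (Sylow p G) := inferInstance
  obtain ⟨Q⟩ : Nonempty (Sylow q G) := inferInstance
  have hA := sylow_centralizer_not_le P hno1
  have hB := sylow_centralizer_not_le Q hno2
  have h1 := two_mul_ncard_U_le _ hA
  have h2 := two_mul_ncard_U_le _ hB
  set A := Subgroup.centralizer ((P : Subgroup G) : Set G) with hAdef
  set B := Subgroup.centralizer ((Q : Subgroup G) : Set G) with hBdef
  have hcov : (Set.univ : Set G) ⊆ U A ∪ U B := by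
    intro x _
    by_cases hpd : p ∣ (Subgroup.centralizer ({x} : Set G)).index
    · right
      have hqd : ¬ q ∣ (Subgroup.centralizer ({x} : Set G)).index := fun hqd =>
        h x (((Nat.coprime_primes hp hq).2 hpq).mul_dvd_of_dvd_of_dvd hpd hqd)
      exact mem_U_of_not_dvd Q x hqd
    · left
      exact mem_U_of_not_dvd P x hpd
  have hcard : Nat.card G + 1 ≤ (U A).ncard + (U B).ncard := by
    have h3 := Set.ncard_union_add_ncard_inter (U A) (U B) (Set.toFinite _) (Set.toFinite _)
    have h4 : (U A ∪ U B) = Set.univ := Set.eq_univ_of_univ_subset hcov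
    rw [h4, Set.ncard_univ] at h3
    have h5 : 1 ≤ (U A ∩ U B).ncard := by
      have : (U A ∩ U B).Nonempty := ⟨1, one_mem_U _, one_mem_U _⟩
      exact (Set.ncard_pos (Set.toFinite _)).2 this
    omega
  have hi1 : 0 < (Subgroup.normalizer (A : Set G)).index := Nat.pos_of_ne_zero Subgroup.index_ne_zero_of_finite
  have hi2 : 0 < (Subgroup.normalizer (B : Set G)).index := Nat.pos_of_ne_zero Subgroup.index_ne_zero_of_finite
  omega

end Cfsg.Agent.S4160
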