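import Cfsg.Statements.S4168
-- import your own Cfsg.Agent.* helpers here

set_option autoImplicit false
open Cfsg

namespace Cfsg.Agent.S4168

theorem transfer_pow_eq_one {L : Type*} [Group L] [Finite L] (hperf : Group.IsPerfect L) (x : L) : x ^ (Subgroup.center L).index = 1 := by
  have hker : commutator L ≤ (MonoidHom.transferCenterPow L).ker := by
    rw [_root_.commutator_def, Subgroup.commutator_le]
    intro a _ b _
    rw [MonoidHom.mem_ker, map_commutatorElement]
    exact commutatorElement_eq_one_iff_mul_comm.mpr (Subtype.ext (Subgroup.mem_center_iff.mp (MonoidHom.transferCenterPow L b).2 _))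
  rw [hperf.commutator_eq_top] at hker
  have h1 : MonoidHom.transferCenterPow L x = 1 := hker (Subgroup.mem_top _)
  rw [← MonoidHom.transferCenterPow_apply, h1]; rfl

/-- Let L be a finite quasisimple group (perfect with L/Z(L) simple). Then every prime dividing the order of the centre Z(L) also divides the order of L/Z(L). -/
theorem result {L : Type*} [Group L] [Finite L] (hL : Cfsg.IsQuasisimple L)
    (p : ℕ) (hp : p.Prime) (hdiv : p ∣ Nat.card (Subgroup.center L)) : p ∣ (Subgroup.center L).index := by
  classical
  obtain ⟨hperf, -⟩ := hL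
  haveI : Fact p.Prime := ⟨hp⟩
  obtain ⟨x, hx⟩ := exists_prime_orderOf_dvd_card' p hdiv
  have h2 := transfer_pow_eq_one hperf (x : L)
  have h3 : orderOf (x : L) = p := by
    rw [Subgroup.orderOf_coe]; exact hx
  rw [← h3]
  exact orderOf_dvd_of_pow_eq_one h2

end Cfsg.Agent.S4168
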