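import Cfsg.Statements.S4176
import Cfsg.Agent.Lib.H6OrbitSpan
import Cfsg.Agent.Lib.H6Hall
import Cfsg.Agent.Lib.H6Basic
-- import your own Cfsg.Agent.* helpers here

set_option autoImplicit false
open Cfsg

namespace Cfsg.Agent.S4176

open Cfsg.Agent.Lib.H6OrbitSpan Cfsg.Agent.Lib.H6Hall in
theorem hall_step {k V H : Type*} [Field k] (p : ℕ) [Fact p.Prime] [CharP k p] [AddCommGroup V] [Module k V]
    [Group H] [Finite H] (ρ : Representation k H V) (a : V) (B : Subgroup H)
    (hB : Cfsg.IsPSolvable p B) (htr : ∀ h : H, ∃ s ∈ B, ρ s a = ρ h a)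
    (hcop : (stab ρ a).index.Coprime p) :
    ∃ S : Subgroup H, S ≤ B ∧ (Nat.card S : k) ≠ 0 ∧ ∀ h : H, ∃ s ∈ S, ρ s a = ρ h a := by
  classical
  obtain ⟨S₀, hS₀, m, hm⟩ := exists_hall p hB
  -- the index of the stabilizer inside `B`
  let T : Subgroup B := (stab ρ a).subgroupOf B
  have hTidx : T.index = (stab ρ a).index := by
    letI := actOf ρ
    have h1 : (MulAction.stabilizer B a).index = Set.ncard (MulAction.orbit B a) :=
      MulAction.index_stabilizer B a
    have h2 : (MulAction.stabilizer H a).index = Set.ncard (MulAction.orbit H a) :=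
      MulAction.index_stabilizer H a
    have h3 : MulAction.stabilizer B a = T := by
      ext s
      rfl
    have h4 : MulAction.orbit B a = MulAction.orbit H a := by
      ext u
      constructor
      · rintro ⟨s, rfl⟩
        exact ⟨s.1, rfl⟩
      · rintro ⟨h, rfl⟩
        obtain ⟨s, hs, hsa⟩ := htr h
        exact ⟨⟨s, hs⟩, hsa⟩
    rw [← h3, h1, h4, ← h2]
    rfl
  have hc2 : T.index.Coprime S₀.index := by
    rw [hTidx, hm]
    exact Nat.Coprime.pow_right _ hcop
  refine ⟨S₀.map B.subtype, ?_, ?_, ?_⟩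
  · rintro _ ⟨x, -, rfl⟩
    exact x.2
  · have hS : Nat.card (S₀.map B.subtype) = Nat.card S₀ :=
      Nat.card_congr (Subgroup.equivMapOfInjective S₀ B.subtype B.subtype_injective).symm.toEquiv
    rw [hS]
    intro h0
    rw [CharP.cast_eq_zero_iff k p] at h0
    have hpd : p ∣ Nat.gcd (Nat.card S₀) p := Nat.dvd_gcd h0 dvd_rfl
    rw [hS₀] at hpd
    exact (Fact.out : p.Prime).one_lt.ne' (Nat.dvd_one.mp hpd)
  · intro h
    obtain ⟨s, hs, hsa⟩ := htr h
    obtain ⟨s₀, hs₀, hT⟩ := exists_mul_of_coprime T S₀ hc2 ⟨s, hs⟩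
    refine ⟨s₀.1, ⟨s₀, hs₀, rfl⟩, ?_⟩
    rw [← hsa]
    have h5 : ρ ((s₀⁻¹ * ⟨s, hs⟩ : B) : H) a = a := hT
    have h6 : ρ (s₀.1⁻¹ * s) a = a := h5
    have h7 : ρ (s₀.1 * (s₀.1⁻¹ * s)) a = ρ s₀.1 a := by
      rw [map_mul, Module.End.mul_apply, h6]
    rw [← h7]
    simp


/-- Let k be a field of prime characteristic p, H a finite p-soluble group and ρ a k-linear representation of H on V. Let a be a vector that is fixed by some Sylow p-subgroup of H and whose H-orbit spans V. Then the space of H-fixed vectors has dimension at most 1, and every vector b whose H-orbit has size coprime to the size of the orbit of a is fixed by H. -/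
theorem result {k V H : Type*} [Field k] (p : ℕ) [Fact p.Prime] [CharP k p] [AddCommGroup V] [Module k V]
    [Group H] [Finite H] (hsol : Cfsg.IsPSolvable p H) (ρ : Representation k H V) (a : V)
    (hfix : ∃ P : Sylow p H, ∀ x : H, x ∈ (P : Subgroup H) → ρ x a = a)
    (hspan : Submodule.span k {u : V | ∃ h : H, ρ h a = u} = ⊤) :
    Module.finrank k ρ.invariants ≤ 1 ∧
    ∀ b : V, (Nat.card {u : V | ∃ h : H, ρ h a = u}).Coprime (Nat.card {u : V | ∃ h : H, ρ h b = u}) → ∀ h : H, ρ h b = b := by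
  classical
  obtain ⟨P, hP⟩ := hfix
  have hcop : (Cfsg.Agent.Lib.H6OrbitSpan.stab ρ a).index.Coprime p := by
    have hnd : ¬ p ∣ (Cfsg.Agent.Lib.H6OrbitSpan.stab ρ a).index :=
      Cfsg.Agent.Lib.H6Basic.not_dvd_index_of_sylow_le P (fun x hx => hP x hx)
    exact ((Nat.Prime.coprime_iff_not_dvd (Fact.out : p.Prime)).mpr hnd).symm
  constructor
  · obtain ⟨S, -, hS, htr⟩ := hall_step p ρ a ⊤
      (Cfsg.Agent.Lib.H6Hall.isPSolvable_subgroup p hsol ⊤) (fun h => ⟨h, trivial, rfl⟩) hcop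
    exact Cfsg.Agent.Lib.H6OrbitSpan.finrank_le ρ a hspan S hS htr
  · intro b hb h
    obtain ⟨S, hSle, hS, htr⟩ := hall_step p ρ a (Cfsg.Agent.Lib.H6OrbitSpan.stab ρ b)
      (Cfsg.Agent.Lib.H6Hall.isPSolvable_subgroup p hsol _)
      (Cfsg.Agent.Lib.H6OrbitSpan.transitive_of_coprime ρ a b hb) hcop
    exact Cfsg.Agent.Lib.H6OrbitSpan.fixed_of_fixed ρ a hspan S hS htr b (fun s hs => hSle hs) h

end Cfsg.Agent.S4176
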