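import Cfsg.Statements.S4177
import Cfsg.Agent.Lib.H6OrbitSpan
-- import your own Cfsg.Agent.* helpers here

set_option autoImplicit false
open Cfsg

namespace Cfsg.Agent.S4177

/-- Let k be a field whose characteristic does not divide the order of the finite group H (for instance a field of characteristic zero), and ρ a k-linear representation of H on V. Let a be a vector whose H-orbit spans V. Then the space of H-fixed vectors has dimension at most 1, and every vector b whose H-orbit has size coprime to the size of the orbit of a is fixed by H. -/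
theorem result {k V H : Type*} [Field k] [AddCommGroup V] [Module k V] [Group H] [Finite H]
    (hchar : ¬ ringChar k ∣ Nat.card H) (ρ : Representation k H V) (a : V)
    (hspan : Submodule.span k {u : V | ∃ h : H, ρ h a = u} = ⊤) :
    Module.finrank k ρ.invariants ≤ 1 ∧
    ∀ b : V, (Nat.card {u : V | ∃ h : H, ρ h a = u}).Coprime (Nat.card {u : V | ∃ h : H, ρ h b = u}) → ∀ h : H, ρ h b = b := by
  classical
  have hne : ∀ S : Subgroup H, (Nat.card S : k) ≠ 0 := by
    intro S hS
    rw [ringChar.spec] at hS
    exact hchar (hS.trans (Subgroup.card_subgroup_dvd_card S))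
  refine ⟨Cfsg.Agent.Lib.H6OrbitSpan.finrank_le ρ a hspan ⊤ (hne ⊤) (fun h => ⟨h, trivial, rfl⟩), ?_⟩
  intro b hcop h
  exact Cfsg.Agent.Lib.H6OrbitSpan.fixed_of_fixed ρ a hspan (Cfsg.Agent.Lib.H6OrbitSpan.stab ρ b) (hne _)
    (Cfsg.Agent.Lib.H6OrbitSpan.transitive_of_coprime ρ a b hcop) b (fun s hs => hs) h

end Cfsg.Agent.S4177
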