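import Mathlib
import Cfsg.Statements.S4178
-- import your own Cfsg.Agent.* helpers here

set_option autoImplicit false
open Cfsg

namespace Cfsg.Agent.S4178

private lemma index_le_card {H X : Type*} [Group H] [Finite H] [MulAction H X] [Finite X] (R : Subgroup H) (x : X)
    (hx : MulAction.stabilizer H x ≤ R) : R.index ≤ Nat.card X := by
  have h1 : R.index ∣ (MulAction.stabilizer H x).index := Subgroup.index_dvd_of_le hx
  have h2 : (MulAction.stabilizer H x).index ≠ 0 := Subgroup.index_ne_zero_of_finite
  have h3 := Nat.le_of_dvd (Nat.pos_of_ne_zero h2) h1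
  rw [MulAction.index_stabilizer] at h3
  exact h3.trans (Set.ncard_le_card _)

private lemma card_ne_sub {A : Type*} [Finite A] [DecidableEq A] (a : A) : Nat.card {u : A // u ≠ a} = Nat.card A - 1 := by
  classical
  letI := Fintype.ofFinite A
  rw [Nat.card_eq_fintype_card, Nat.card_eq_fintype_card, Fintype.card_subtype_compl]
  congr 1


/-- Let F be a finite field with q elements, V a non-zero finite-dimensional F-space of dimension d, H a group of invertible linear maps of V, and R the subgroup of H generated by the elements of H that fix some non-zero vector (have eigenvalue 1). Then the index of R in H is at most q^d − 1; and if H leaves invariant some proper non-zero subspace, the index is at most q^(d/2) − 1. -/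
theorem result {F V : Type*} [Field F] [Fintype F] [AddCommGroup V] [Module F V] [FiniteDimensional F V] [Nontrivial V]
    (H : Subgroup (V ≃ₗ[F] V)) :
    (Subgroup.closure {h : ↥H | ∃ v : V, v ≠ 0 ∧ (h : V ≃ₗ[F] V) v = v}).index ≤ Fintype.card F ^ Module.finrank F V - 1 ∧
    ((∃ W : Submodule F V, W ≠ ⊥ ∧ W ≠ ⊤ ∧ ∀ h ∈ H, ∀ w ∈ W, h w ∈ W) →
      ((Subgroup.closure {h : ↥H | ∃ v : V, v ≠ 0 ∧ (h : V ≃ₗ[F] V) v = v}).index : ℝ) ≤ Real.sqrt ((Fintype.card F : ℝ) ^ Module.finrank F V) - 1) := by
  classical
  haveI hVfin : Finite V := Module.finite_of_finite (R := F) (M := V)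
  haveI hEfin : Finite (V ≃ₗ[F] V) := Finite.of_injective (fun f : V ≃ₗ[F] V => (f : V → V))
    (fun f g h => LinearEquiv.ext (congrFun h))
  set S : Set H := {h : ↥H | ∃ v : V, v ≠ 0 ∧ (h : V ≃ₗ[F] V) v = v} with hS
  set R := Subgroup.closure S with hR
  have hsmem : ∀ (h : H) (v : V), v ≠ 0 → (h : V ≃ₗ[F] V) v = v → h ∈ R :=
    fun h v hv hfix => Subgroup.subset_closure ⟨v, hv, hfix⟩
  have hcardV : Nat.card V = Fintype.card F ^ Module.finrank F V := by
    rw [Module.natCard_eq_pow_finrank (K := F), Nat.card_eq_fintype_card]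
  constructor
  · letI act : MulAction H {u : V // u ≠ 0} :=
      { smul := fun h u => ⟨(h : V ≃ₗ[F] V) u, fun h0 => u.2 (by simpa using h0)⟩
        one_smul := fun u => Subtype.ext rfl
        mul_smul := fun a b u => Subtype.ext rfl }
    obtain ⟨v₀, hv₀⟩ := exists_ne (0 : V)
    have h1 := index_le_card (H := H) (X := {u : V // u ≠ 0}) R ⟨v₀, hv₀⟩ (by
      intro h hh
      exact hsmem h v₀ hv₀ (congrArg Subtype.val hh))
    rwa [card_ne_sub, hcardV] at h1
  · rintro ⟨W, hW1, hW2, hW⟩
    have hinvW : ∀ (h : H) (w : V), w ∈ W → (h : V ≃ₗ[F] V) w ∈ W := fun h w hw => hW h h.2 w hw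
    set q := Fintype.card F with hq
    set d := Module.finrank F V with hd
    set k := Module.finrank F W with hk
    have hq1 : 1 < q := Fintype.one_lt_card
    have hk0 : 0 < k := Module.finrank_pos_iff.mpr (Submodule.nontrivial_iff_ne_bot.mpr hW1)
    have hkd : k < d := Submodule.finrank_lt hW2
    have hcardW : Nat.card W = q ^ k := by
      rw [Module.natCard_eq_pow_finrank (K := F), Nat.card_eq_fintype_card]
    have hcardQ : Nat.card (V ⧸ W) = q ^ (d - k) := by
      rw [Module.natCard_eq_pow_finrank (K := F), Nat.card_eq_fintype_card]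
      congr 1
      have := Submodule.finrank_quotient_add_finrank W
      omega
    -- numeric reduction
    have num : ∀ m : ℕ, 2 * m ≤ d → R.index ≤ q ^ m - 1 →
        (R.index : ℝ) ≤ Real.sqrt ((q : ℝ) ^ d) - 1 := by
      intro m hm hle
      have hpos : 1 ≤ q ^ m := Nat.one_le_pow _ _ (by omega)
      have h1 : (R.index : ℝ) ≤ (q : ℝ) ^ m - 1 := by
        have : ((q ^ m - 1 : ℕ) : ℝ) = (q : ℝ) ^ m - 1 := by
          rw [Nat.cast_sub hpos]; push_cast; ring
        rw [← this]; exact_mod_cast hle
      have h2 : (q : ℝ) ^ m ≤ Real.sqrt ((q : ℝ) ^ d) := by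
        apply Real.le_sqrt_of_sq_le
        rw [← pow_mul]
        apply pow_le_pow_right₀ (by exact_mod_cast hq1.le)
        omega
      linarith
    by_cases hcase : 2 * k ≤ d
    · -- act on nonzero vectors of W
      letI act : MulAction H {u : W // u ≠ 0} :=
        { smul := fun h u => ⟨⟨(h : V ≃ₗ[F] V) u.1.1, hinvW h _ u.1.2⟩, fun h0 => u.2 (by
              apply Subtype.ext
              have : (h : V ≃ₗ[F] V) u.1.1 = 0 := congrArg Subtype.val h0
              simpa using this)⟩
          one_smul := fun u => Subtype.ext (Subtype.ext rfl)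
          mul_smul := fun a b u => Subtype.ext (Subtype.ext rfl) }
      haveI : Nontrivial W := Submodule.nontrivial_iff_ne_bot.mpr hW1
      obtain ⟨w₀, hw₀⟩ := exists_ne (0 : W)
      have h1 := index_le_card (H := H) (X := {u : W // u ≠ 0}) R ⟨w₀, hw₀⟩ (by
        intro h hh
        have : (h : V ≃ₗ[F] V) w₀.1 = w₀.1 := congrArg (fun x : {u : W // u ≠ 0} => x.1.1) hh
        exact hsmem h w₀.1 (fun h0 => hw₀ (Subtype.ext h0)) this)
      rw [card_ne_sub, hcardW] at h1
      exact num k hcase h1
    · -- act on nonzero vectors of V ⧸ W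
      have hlt : W ≠ ⊤ := hW2
      obtain ⟨v₀, hv₀⟩ : ∃ v₀ : V, v₀ ∉ W := by
        by_contra hcon
        push_neg at hcon
        exact hW2 (eq_top_iff.mpr fun x _ => hcon x)
      have hmapQ : ∀ h : H, W ≤ W.comap ((h : V ≃ₗ[F] V) : V →ₗ[F] V) := fun h w hw => hinvW h w hw
      let phi : H → (V ⧸ W) →ₗ[F] (V ⧸ W) := fun h => W.mapQ W ((h : V ≃ₗ[F] V) : V →ₗ[F] V) (hmapQ h)
      have phi_mk : ∀ (h : H) (v : V), phi h (W.mkQ v) = W.mkQ ((h : V ≃ₗ[F] V) v) := fun h v => rfl
      have phi_one : ∀ x, phi 1 x = x := by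
        intro x
        obtain ⟨v, rfl⟩ := W.mkQ_surjective x
        exact phi_mk 1 v
      have phi_mul : ∀ a b x, phi (a * b) x = phi a (phi b x) := by
        intro a b x
        obtain ⟨v, rfl⟩ := W.mkQ_surjective x
        exact phi_mk (a * b) v
      letI act : MulAction H {u : V ⧸ W // u ≠ 0} :=
        { smul := fun h u => ⟨phi h u.1, fun h0 => u.2 (by
              have := congrArg (phi h⁻¹) h0
              rw [← phi_mul, inv_mul_cancel, phi_one, map_zero] at this
              exact this)⟩
          one_smul := fun u => Subtype.ext (phi_one u.1)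
          mul_smul := fun a b u => Subtype.ext (phi_mul a b u.1) }
      haveI : Finite (V ⧸ W) := Nat.finite_of_card_ne_zero (by rw [hcardQ]; positivity)
      have hq0 : W.mkQ v₀ ≠ 0 := by
        intro h0
        exact hv₀ ((Submodule.Quotient.mk_eq_zero W).mp h0)
      have h1 := index_le_card (H := H) (X := {u : V ⧸ W // u ≠ 0}) R ⟨W.mkQ v₀, hq0⟩ (by
        intro h hh
        have hfix : phi h (W.mkQ v₀) = W.mkQ v₀ := congrArg (fun x : {u : V ⧸ W // u ≠ 0} => x.1) hh
        rw [phi_mk] at hfix
        have hmem : (h : V ≃ₗ[F] V) v₀ - v₀ ∈ W := by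
          have := (Submodule.Quotient.eq W).mp hfix
          exact this
        -- the map h - 1 on W
        by_contra hnot
        have hnofix : ∀ v : V, v ≠ 0 → (h : V ≃ₗ[F] V) v ≠ v := fun v hv hfx => hnot (hsmem h v hv hfx)
        let T : W →ₗ[F] W := LinearMap.restrict
          (((h : V ≃ₗ[F] V) : V →ₗ[F] V) - LinearMap.id) (fun w hw => by
            simp only [LinearMap.sub_apply, LinearEquiv.coe_coe, LinearMap.id_apply]
            exact W.sub_mem (hinvW h w hw) hw)
        have hTinj : Function.Injective T := by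
          rw [← LinearMap.ker_eq_bot, LinearMap.ker_eq_bot']
          intro w hw
          have hw' : (h : V ≃ₗ[F] V) w.1 - w.1 = 0 := congrArg Subtype.val hw
          by_contra hne
          exact hnofix w.1 (fun h0 => hne (Subtype.ext h0)) (sub_eq_zero.mp hw')
        have hTsurj : Function.Surjective T := LinearMap.injective_iff_surjective.mp hTinj
        obtain ⟨w, hw⟩ := hTsurj ⟨_, hmem⟩
        have hw' : (h : V ≃ₗ[F] V) w.1 - w.1 = (h : V ≃ₗ[F] V) v₀ - v₀ := congrArg Subtype.val hw
        -- h (w - v₀) = w - v₀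
        have hfx : (h : V ≃ₗ[F] V) (w.1 - v₀) = w.1 - v₀ := by
          rw [map_sub]
          linear_combination (norm := abel) hw'
        have hne : w.1 - v₀ ≠ 0 := by
          intro h0
          rw [sub_eq_zero] at h0
          exact hv₀ (h0 ▸ w.2)
        exact hnofix _ hne hfx)
      rw [card_ne_sub, hcardQ] at h1
      exact num (d - k) (by omega) h1

end Cfsg.Agent.S4178
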