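import Mathlib
import Cfsg.Statements.S4184
import Cfsg.Agent.Lib.H6ClassSize
-- import your own Cfsg.Agent.* helpers here

set_option autoImplicit false
open Cfsg

namespace Cfsg.Agent.S4184

open Subgroup Cfsg.Agent.Lib.H6ClassSize

section core
variable {G : Type*} [Group G] [Finite G]

theorem core_aux (hZ : center G = ⊥) {u w : ℕ} (hcop : u.Coprime w) (hw : 1 < w)
    (h : ∀ x : G, x ≠ 1 → (centralizer ({x} : Set G)).index ∣ u * w ∧
      (centralizer ({x} : Set G)).index ≠ u * w ∧
      (u ∣ (centralizer ({x} : Set G)).index ∨ w ∣ (centralizer ({x} : Set G)).index))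
    (k : ℕ) (hk : Nat.card G = k * (u * w)) {p : ℕ} [Fact p.Prime] (hpk : p ∣ k) (hpu : p ∣ u) :
    False := by
  classical
  have hp : p.Prime := Fact.out
  have hpw : ¬ p ∣ w := fun h => (Nat.not_coprime_of_dvd_of_dvd hp.one_lt hpu h) hcop
  have hu0 : 0 < u := Nat.pos_of_ne_zero (by rintro rfl; simp at hcop; omega)
  have hk0 : k ≠ 0 := by
    rintro rfl
    rw [zero_mul] at hk
    exact Nat.card_pos.ne' hk
  -- the two types exclude each other
  have F2 : ∀ x y : G, x ≠ 1 → u ∣ (centralizer ({x} : Set G)).index →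
      w ∣ (centralizer ({y} : Set G)).index → Commute x y → (orderOf x).Coprime (orderOf y) → False := by
    intro x y hx hu hw' hc hcc
    have hz : x * y ≠ 1 := by
      intro h1
      have h2 := hc.orderOf_mul_eq_mul_orderOf_of_coprime hcc
      rw [h1, orderOf_one] at h2
      have h3 : orderOf x = 1 := Nat.eq_one_of_mul_eq_one_right h2.symm
      exact hx (orderOf_eq_one_iff.1 h3)
    obtain ⟨h1, h2, -⟩ := h _ hz
    apply h2
    apply Nat.dvd_antisymm h1
    apply hcop.mul_dvd_of_dvd_of_dvd
    · exact hu.trans (Subgroup.index_dvd_of_le (centralizer_mul_le hc hcc))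
    · refine hw'.trans (Subgroup.index_dvd_of_le ?_)
      have := centralizer_mul_le hc.symm hcc.symm
      rwa [hc.symm.eq] at this
  have hval : ∀ x : G, x ≠ 1 → u ∣ (centralizer ({x} : Set G)).index →
      (Nat.card (centralizer ({x} : Set G))).factorization p = k.factorization p := by
    intro x hx hu
    obtain ⟨h1, -, -⟩ := h x hx
    obtain ⟨t, ht⟩ := hu
    rw [ht] at h1
    have ht' : t ∣ w := Nat.dvd_of_mul_dvd_mul_left hu0 h1
    have hc := (centralizer ({x} : Set G)).card_mul_index
    rw [ht, hk] at hc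
    have h2 : Nat.card (centralizer ({x} : Set G)) * t = k * w := by
      apply Nat.eq_of_mul_eq_mul_left hu0
      calc u * (Nat.card (centralizer ({x} : Set G)) * t)
          = Nat.card (centralizer ({x} : Set G)) * (u * t) := by ring
        _ = k * (u * w) := hc
        _ = u * (k * w) := by ring
    have hc0 : Nat.card (centralizer ({x} : Set G)) ≠ 0 := Nat.card_pos.ne'
    have ht0 : t ≠ 0 := by
      rintro rfl
      simp at ht'
      omega
    have hw0 : w ≠ 0 := by omega
    have h3 : (Nat.card (centralizer ({x} : Set G)) * t).factorization p = (k * w).factorization p := by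
      rw [h2]
    rw [Nat.factorization_mul hc0 ht0, Nat.factorization_mul hk0 hw0, Finsupp.add_apply,
      Finsupp.add_apply, Nat.factorization_eq_zero_of_not_dvd hpw,
      Nat.factorization_eq_zero_of_not_dvd (fun h => hpw (h.trans ht'))] at h3
    simpa using h3
  -- a prime divisor of `w`
  obtain ⟨b, hb, hbw⟩ := Nat.exists_prime_and_dvd hw.ne'
  haveI : Fact b.Prime := ⟨hb⟩
  have hbp : b ≠ p := by
    rintro rfl
    exact hpw hbw
  have hbG : b ∣ Nat.card G := by
    rw [hk]
    exact hbw.trans (Dvd.intro_left _ rfl |>.trans (Dvd.intro_left _ rfl))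
  obtain ⟨B⟩ : Nonempty (Sylow b G) := inferInstance
  obtain ⟨v, hvB, hv1, hvc, j, hvo⟩ := exists_central_elem (B : Subgroup G) B.isPGroup' (B.ne_bot_of_dvd_card hbG)
  have hvu : u ∣ (centralizer ({v} : Set G)).index := by
    obtain ⟨-, -, h3⟩ := h v hv1
    rcases h3 with h3 | h3
    · exact h3
    · exfalso
      have hle : (B : Subgroup G) ≤ centralizer ({v} : Set G) := by
        intro y hy
        rw [Subgroup.mem_centralizer_singleton_iff]
        exact (hvc y hy).symm
      exact Cfsg.Agent.Lib.H6Basic.not_dvd_index_of_sylow_le B hle (hbw.trans h3)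
  -- a Sylow subgroup of `C(v)`
  obtain ⟨T0⟩ : Nonempty (Sylow p (centralizer ({v} : Set G))) := inferInstance
  set T : Subgroup G := (T0 : Subgroup (centralizer ({v} : Set G))).map (centralizer ({v} : Set G)).subtype with hT
  have hTcard : Nat.card T = p ^ k.factorization p := by
    rw [hT, Subgroup.card_map_of_injective (Subgroup.subtype_injective _), T0.card_eq_multiplicity,
      hval v hv1 hvu]
  have hTv : T ≤ centralizer ({v} : Set G) := Subgroup.map_subtype_le _
  have hTp : IsPGroup p T := IsPGroup.of_card hTcard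
  have hTne : T ≠ ⊥ := by
    intro hb
    rw [hb] at hTcard
    have h1 : p ^ 1 ∣ k := by simpa using hpk
    have h2 := (hp.pow_dvd_iff_le_factorization hk0).1 h1
    have h3 : p ^ k.factorization p ≠ 1 := by
      apply (Nat.one_lt_pow (by omega) hp.one_lt).ne'
    apply h3
    rw [← hTcard]
    simp
  obtain ⟨t, htT, ht1, htc, i, hto⟩ := exists_central_elem T hTp hTne
  have hcopo : ∀ a c : ℕ, (b ^ a).Coprime (p ^ c) := fun a c =>
    Nat.Coprime.pow a c ((Nat.coprime_primes hb hp).2 hbp)
  have hvt : Commute v t := by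
    have := hTv htT
    rw [Subgroup.mem_centralizer_singleton_iff] at this
    exact this.symm
  have htu : u ∣ (centralizer ({t} : Set G)).index := by
    obtain ⟨-, -, h3⟩ := h t ht1
    rcases h3 with h3 | h3
    · exact h3
    · exact (F2 v t hv1 hvu h3 hvt (by rw [hvo, hto]; exact hcopo _ _)).elim
  have htval := hval t ht1 htu
  have hTt : T ≤ centralizer ({t} : Set G) := by
    intro y hy
    rw [Subgroup.mem_centralizer_singleton_iff]
    exact (htc y hy).symm
  obtain ⟨P, hTP⟩ := hTp.exists_le_sylow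
  have hPne : (P : Subgroup G) ≠ ⊥ := by
    intro hb
    rw [hb] at hTP
    exact hTne (le_bot_iff.1 hTP)
  obtain ⟨x, hxP, hx1, hxc, l, hxo⟩ := exists_central_elem (P : Subgroup G) P.isPGroup' hPne
  -- `x` lies in `T`
  have hxT : x ∈ T := by
    have hU : T ⊔ zpowers x ≤ (P : Subgroup G) := sup_le hTP (by
      rw [Subgroup.zpowers_le]
      exact hxP)
    have hUt : T ⊔ zpowers x ≤ centralizer ({t} : Set G) := sup_le hTt (by
      rw [Subgroup.zpowers_le, Subgroup.mem_centralizer_singleton_iff]
      exact hxc t (hTP htT))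
    have hUp : IsPGroup p (T ⊔ zpowers x : Subgroup G) := P.isPGroup'.to_le hU
    obtain ⟨m, hm⟩ := IsPGroup.iff_card.1 hUp
    have hd : p ^ m ∣ Nat.card (centralizer ({t} : Set G)) := by
      rw [← hm]
      exact Subgroup.card_dvd_of_le hUt
    have hm' := (hp.pow_dvd_iff_le_factorization Nat.card_pos.ne').1 hd
    rw [htval] at hm'
    have hEq : T = T ⊔ zpowers x := by
      apply Subgroup.eq_of_le_of_card_ge le_sup_left
      rw [hm, hTcard]
      exact Nat.pow_le_pow_right hp.pos hm'
    rw [hEq]
    exact (le_sup_right : zpowers x ≤ _) (mem_zpowers x)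
  -- the contradiction
  have hxv : Commute v x := by
    have := hTv hxT
    rw [Subgroup.mem_centralizer_singleton_iff] at this
    exact this.symm
  have hPx : (P : Subgroup G) ≤ centralizer ({x} : Set G) := by
    intro y hy
    rw [Subgroup.mem_centralizer_singleton_iff]
    exact (hxc y hy).symm
  obtain ⟨-, -, h3⟩ := h x hx1
  rcases h3 with h3 | h3
  · exact Cfsg.Agent.Lib.H6Basic.not_dvd_index_of_sylow_le P hPx (hpu.trans h3)
  · exact F2 v x hv1 hvu h3 hxv (by rw [hvo, hxo]; exact hcopo _ _)

theorem core (hZ : center G = ⊥) {u w : ℕ} (hcop : u.Coprime w) (hu : 1 < u) (hw : 1 < w)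
    (h : ∀ x : G, x ≠ 1 → (centralizer ({x} : Set G)).index ∣ u * w ∧
      (centralizer ({x} : Set G)).index ≠ u * w ∧
      (u ∣ (centralizer ({x} : Set G)).index ∨ w ∣ (centralizer ({x} : Set G)).index))
    (hd : u * w ∣ Nat.card G) : Nat.card G = u * w := by
  classical
  obtain ⟨k, hk⟩ := hd
  have hk' : Nat.card G = k * (u * w) := by rw [hk, mul_comm]
  by_cases hk1 : k = 1
  · rw [hk', hk1, one_mul]
  exfalso
  obtain ⟨p, hp, hpk⟩ := Nat.exists_prime_and_dvd hk1
  haveI : Fact p.Prime := ⟨hp⟩
  by_cases hpu : p ∣ u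
  · exact core_aux hZ hcop hw h k hk' hpk hpu
  by_cases hpw : p ∣ w
  · refine core_aux hZ hcop.symm hu (fun x hx => ?_) k (by rw [hk', mul_comm u w]) hpk hpw
    obtain ⟨h1, h2, h3⟩ := h x hx
    refine ⟨by rwa [mul_comm], by rwa [mul_comm], h3.symm⟩
  have hpuw : ¬ p ∣ u * w := fun h => (hp.dvd_mul.1 h).elim hpu hpw
  obtain ⟨P⟩ : Nonempty (Sylow p G) := inferInstance
  have hle := sylow_le_center P (fun x hx => by
    by_cases hx1 : x = 1
    · subst hx1
      have h1 : centralizer ({(1 : G)} : Set G) = ⊤ := by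
        ext z
        simp [Subgroup.mem_centralizer_singleton_iff]
      rw [h1, Subgroup.index_top] at hx
      exact hp.one_lt.ne' (Nat.dvd_one.1 hx)
    · exact hpuw (hx.trans (h x hx1).1))
  rw [hZ] at hle
  have hbot := le_bot_iff.1 hle
  have hdG : p ∣ Nat.card G := by
    rw [hk']
    exact hpk.trans (Dvd.intro _ rfl)
  exact P.ne_bot_of_dvd_card hdG hbot

end core

section split

theorem split (n : ℕ) (hn : n ≠ 0) (A : Set ℕ) : ∃ u w : ℕ, n = u * w ∧
    (∀ q : ℕ, q.Prime → q ∣ u → q ∈ A) ∧ (∀ q : ℕ, q.Prime → q ∣ w → q ∉ A) := by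
  classical
  refine ⟨∏ q ∈ n.primeFactors with q ∈ A, q ^ n.factorization q,
    ∏ q ∈ n.primeFactors with q ∉ A, q ^ n.factorization q, ?_, ?_, ?_⟩
  · rw [Finset.prod_filter_mul_prod_filter_not]
    exact (Nat.factorization_prod_pow_eq_self hn).symm
  · intro q hq hd
    obtain ⟨r, hr, hdr⟩ := (Prime.dvd_finset_prod_iff hq.prime _).1 hd
    rw [Finset.mem_filter] at hr
    have h1 := hq.dvd_of_dvd_pow hdr
    rw [(Nat.prime_dvd_prime_iff_eq hq (Nat.prime_of_mem_primeFactors hr.1)).1 h1]
    exact hr.2
  · intro q hq hd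
    obtain ⟨r, hr, hdr⟩ := (Prime.dvd_finset_prod_iff hq.prime _).1 hd
    rw [Finset.mem_filter] at hr
    have h1 := hq.dvd_of_dvd_pow hdr
    rw [(Nat.prime_dvd_prime_iff_eq hq (Nat.prime_of_mem_primeFactors hr.1)).1 h1]
    exact hr.2

end split

section Mpart
variable {M : Type*} [Group M] [Finite M]

theorem M_part (A : Set ℕ) (u w : ℕ) (hn : Nat.card M = u * w)
    (hu : ∀ q : ℕ, q.Prime → q ∣ u → q ∈ A) (hw : ∀ q : ℕ, q.Prime → q ∣ w → q ∉ A)
    (hdisc : ∀ a ∈ A, ∀ b ∉ A, a.Prime → b.Prime → a ∣ Nat.card M → b ∣ Nat.card M →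
      ¬ ∃ x : M, orderOf x = a * b)
    (y : M) (q : ℕ) (hq : q.Prime) (hqy : q ∣ orderOf y) :
    (q ∈ A → w ∣ (centralizer ({y} : Set M)).index) ∧
      (q ∉ A → u ∣ (centralizer ({y} : Set M)).index) := by
  classical
  haveI : Fact q.Prime := ⟨hq⟩
  have hy0 : orderOf (y ^ (orderOf y / q)) = q :=
    orderOf_pow_orderOf_div (orderOf_pos y).ne' hqy
  have hqM : q ∣ Nat.card M := hqy.trans (orderOf_dvd_natCard y)
  set y0 := y ^ (orderOf y / q) with hy0def
  have hcM := (centralizer ({y} : Set M)).card_mul_index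
  have hcomm : ∀ x ∈ centralizer ({y} : Set M), Commute x y0 := by
    intro x hx
    rw [Subgroup.mem_centralizer_singleton_iff] at hx
    exact (show Commute x y from hx).pow_right _
  have helem : ∀ r : ℕ, r.Prime → r ∣ Nat.card (centralizer ({y} : Set M)) → r ≠ q →
      ∃ x : M, orderOf x = r * q := by
    intro r hr hrd hrq
    haveI : Fact r.Prime := ⟨hr⟩
    obtain ⟨x, hx⟩ := exists_prime_orderOf_dvd_card' r hrd
    refine ⟨(x : M) * y0, ?_⟩
    have hxo : orderOf (x : M) = r := by rw [← hx]; exact Subgroup.orderOf_coe x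
    have := (hcomm x x.2).orderOf_mul_eq_mul_orderOf_of_coprime
      (by rw [hxo, hy0]; exact (Nat.coprime_primes hr hq).2 hrq)
    rw [this, hxo, hy0]
  have hrM : ∀ r : ℕ, r ∣ Nat.card (centralizer ({y} : Set M)) → r ∣ Nat.card M := fun r hr =>
    hr.trans (Subgroup.card_subgroup_dvd_card _)
  constructor
  · intro hqA
    have hcop : Nat.Coprime w (Nat.card (centralizer ({y} : Set M))) := by
      apply Nat.coprime_of_dvd
      intro r hr hrw hrc
      have hrA := hw r hr hrw
      have hrq : r ≠ q := by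
        rintro rfl
        exact hrA hqA
      obtain ⟨x, hx⟩ := helem r hr hrc hrq
      exact hdisc q hqA r hrA hq hr hqM (hrM r hrc) ⟨x, by rw [hx, mul_comm]⟩
    apply hcop.dvd_of_dvd_mul_left
    rw [hcM, hn]
    exact Dvd.intro_left _ rfl
  · intro hqA
    have hcop : Nat.Coprime u (Nat.card (centralizer ({y} : Set M))) := by
      apply Nat.coprime_of_dvd
      intro r hr hru hrc
      have hrA := hu r hr hru
      have hrq : r ≠ q := by
        rintro rfl
        exact hqA hrA
      obtain ⟨x, hx⟩ := helem r hr hrc hrq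
      exact hdisc r hrA q hqA hr hq (hrM r hrc) hqM ⟨x, hx⟩
    apply hcop.dvd_of_dvd_mul_left
    rw [hcM, hn]
    exact Dvd.intro _ rfl

end Mpart


/-- Let G and M be finite groups with trivial centres and the same set of conjugacy class sizes, and suppose the prime graph of M is disconnected: the prime divisors of #M split into two non-empty parts such that M has no element of order pq with p in one part and q in the other. Then #G = #M. -/
theorem result {G M : Type*}
    [Group G] [Finite G] [Group M] [Finite M] (hZG : Subgroup.center G = ⊥) (hZM : Subgroup.center M = ⊥)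
    (h : Set.range (fun g : G => (Subgroup.centralizer ({g} : Set G)).index) = Set.range (fun g : M => (Subgroup.centralizer ({g} : Set M)).index))
    (hdisc : ∃ A : Set ℕ, (∃ a ∈ A, a.Prime ∧ a ∣ Nat.card M) ∧ (∃ b ∉ A, b.Prime ∧ b ∣ Nat.card M) ∧
      ∀ a ∈ A, ∀ b ∉ A, a.Prime → b.Prime → a ∣ Nat.card M → b ∣ Nat.card M → ¬ ∃ x : M, orderOf x = a * b) :
    Nat.card G = Nat.card M := by
  classical
  obtain ⟨A, ⟨a, haA, ha, haM⟩, ⟨b, hbA, hb, hbM⟩, hdisc⟩ := hdisc
  obtain ⟨u, w, hn, hu, hw⟩ := split (Nat.card M) Nat.card_pos.ne' A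
  have hcop : u.Coprime w := by
    apply Nat.coprime_of_dvd
    intro r hr hru hrw
    exact hw r hr hrw (hu r hr hru)
  have hau : a ∣ u := by
    rw [hn] at haM
    rcases ha.dvd_mul.1 haM with h1 | h1
    · exact h1
    · exact (hw a ha h1 haA).elim
  have hbw : b ∣ w := by
    rw [hn] at hbM
    rcases hb.dvd_mul.1 hbM with h1 | h1
    · exact (hbA (hu b hb h1)).elim
    · exact h1
  have hn0 : Nat.card M ≠ 0 := Nat.card_pos.ne'
  have hu0 : u ≠ 0 := by
    rintro rfl
    rw [zero_mul] at hn
    exact hn0 hn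
  have hw0 : w ≠ 0 := by
    rintro rfl
    rw [mul_zero] at hn
    exact hn0 hn
  have hu1 : 1 < u := lt_of_lt_of_le ha.one_lt (Nat.le_of_dvd (Nat.pos_of_ne_zero hu0) hau)
  have hw1 : 1 < w := lt_of_lt_of_le hb.one_lt (Nat.le_of_dvd (Nat.pos_of_ne_zero hw0) hbw)
  have hM := M_part A u w hn hu hw hdisc
  have hrange : ∀ g : G, ∃ y : M, (centralizer ({y} : Set M)).index = (centralizer ({g} : Set G)).index := by
    intro g
    have : (fun g : G => (Subgroup.centralizer ({g} : Set G)).index) g ∈
        Set.range (fun g : G => (Subgroup.centralizer ({g} : Set G)).index) := ⟨g, rfl⟩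
    rw [h] at this
    exact this
  have hrange' : ∀ y : M, ∃ g : G, (centralizer ({g} : Set G)).index = (centralizer ({y} : Set M)).index := by
    intro g
    have : (fun g : M => (Subgroup.centralizer ({g} : Set M)).index) g ∈
        Set.range (fun g : M => (Subgroup.centralizer ({g} : Set M)).index) := ⟨g, rfl⟩
    rw [← h] at this
    exact this
  have hcard : Nat.card G = u * w := by
    apply core hZG hcop hu1 hw1
    · intro x hx
      obtain ⟨y, hy⟩ := hrange x
      rw [← hy]
      have hy1 : y ≠ 1 := by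
        rintro rfl
        have h1 : (centralizer ({x} : Set G)).index = 1 := by
          rw [← hy]
          have : centralizer ({(1 : M)} : Set M) = ⊤ := by
            ext z
            simp [Subgroup.mem_centralizer_singleton_iff]
          rw [this]
          exact Subgroup.index_top
        rw [Subgroup.index_eq_one] at h1
        apply hx
        have h2 : x ∈ center G := by
          rw [Subgroup.mem_center_iff]
          intro z
          have : z ∈ centralizer ({x} : Set G) := by rw [h1]; trivial
          rw [Subgroup.mem_centralizer_singleton_iff] at this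
          exact this
        rw [hZG] at h2
        exact h2
      refine ⟨?_, ?_, ?_⟩
      · rw [← hn]
        exact Subgroup.index_dvd_card _
      · intro h1
        have h2 := (centralizer ({y} : Set M)).card_mul_index
        rw [h1, ← hn] at h2
        have h3 : Nat.card (centralizer ({y} : Set M)) = 1 :=
          Nat.eq_of_mul_eq_mul_right (Nat.pos_of_ne_zero hn0) (by rw [h2, one_mul])
        have h4 := Subgroup.eq_bot_of_card_eq _ h3
        have h5 : y ∈ centralizer ({y} : Set M) := by
          rw [Subgroup.mem_centralizer_singleton_iff]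
        rw [h4] at h5
        exact hy1 h5
      · have hoy : orderOf y ≠ 1 := fun h => hy1 (orderOf_eq_one_iff.1 h)
        obtain ⟨q, hq, hqd⟩ := Nat.exists_prime_and_dvd hoy
        by_cases hqA : q ∈ A
        · exact Or.inr ((hM y q hq hqd).1 hqA)
        · exact Or.inl ((hM y q hq hqd).2 hqA)
    · apply hcop.mul_dvd_of_dvd_of_dvd
      · haveI : Fact b.Prime := ⟨hb⟩
        obtain ⟨y, hy⟩ := exists_prime_orderOf_dvd_card' b hbM
        obtain ⟨g, hg⟩ := hrange' y
        have := (hM y b hb (by rw [hy])).2 hbA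
        rw [← hg] at this
        exact this.trans (Subgroup.index_dvd_card _)
      · haveI : Fact a.Prime := ⟨ha⟩
        obtain ⟨y, hy⟩ := exists_prime_orderOf_dvd_card' a haM
        obtain ⟨g, hg⟩ := hrange' y
        have := (hM y a ha (by rw [hy])).1 haA
        rw [← hg] at this
        exact this.trans (Subgroup.index_dvd_card _)
  rw [hcard, hn]

end Cfsg.Agent.S4184
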