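import Cfsg.Statements.S4186
-- import your own Cfsg.Agent.* helpers here

set_option autoImplicit false
open Cfsg

namespace Cfsg.Agent.S4186

/-- Let T and X be subgroups of a group with T a finite 2-group normalizing X but not centralizing it. Then some element of T inverts some non-identity element of X under conjugation. -/
theorem result {G : Type*} [Group G] (T X : Subgroup G) [Finite ↥T] (hT : IsPGroup 2 ↥T) (hTN : T ≤ Subgroup.normalizer (X : Set G)) (hTC : ¬ T ≤ Subgroup.centralizer (X : Set G)) : ∃ t ∈ T, ∃ x ∈ X, x ≠ 1 ∧ t * x * t⁻¹ = x⁻¹ := by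
  classical
  -- choose t of minimal order among those not centralizing X
  have hex : ∃ n : ℕ, ∃ t ∈ T, t ∉ Subgroup.centralizer (X : Set G) ∧ orderOf t = n := by
    obtain ⟨t, ht, ht'⟩ := SetLike.not_le_iff_exists.mp hTC
    exact ⟨_, t, ht, ht', rfl⟩
  obtain ⟨t, ht, htc, htord⟩ := Nat.find_spec hex
  have hmin := fun m (hm : m < Nat.find hex) => Nat.find_min hex hm
  -- order of t is a power of two
  obtain ⟨k, hk⟩ := (hT ⟨t, ht⟩)
  have hk' : t ^ 2 ^ k = 1 := by
    have := congrArg Subtype.val hk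
    simpa using this
  have ht1 : t ≠ 1 := by
    rintro rfl
    exact htc (Subgroup.one_mem _)
  -- t^2 centralizes X
  have ht2 : t ^ 2 ∈ Subgroup.centralizer (X : Set G) := by
    by_contra hcon
    have hlt : orderOf (t ^ 2) < orderOf t := by
      rw [orderOf_pow' t (by norm_num : (2 : ℕ) ≠ 0)]
      have hpos : 0 < orderOf t := orderOf_pos_iff.mpr (isOfFinOrder_iff_pow_eq_one.mpr ⟨2 ^ k, by positivity, hk'⟩)
      have hdvd : orderOf t ∣ 2 ^ k := orderOf_dvd_of_pow_eq_one hk'
      obtain ⟨j, -, hj⟩ := (Nat.dvd_prime_pow Nat.prime_two).mp hdvd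
      have hj0 : j ≠ 0 := by
        rintro rfl
        simp only [pow_zero] at hj
        exact ht1 (orderOf_eq_one_iff.mp hj)
      have hgcd : (orderOf t).gcd 2 = 2 := by
        rw [hj]
        exact Nat.gcd_eq_right (dvd_pow_self 2 hj0)
      rw [hgcd]
      exact Nat.div_lt_self hpos (by norm_num)
    rw [htord] at hlt
    exact hmin _ hlt ⟨t ^ 2, T.pow_mem ht 2, hcon, rfl⟩
  -- pick x not commuting with t
  have : ∃ x ∈ X, t * x ≠ x * t := by
    by_contra hcon
    push Not at hcon
    apply htc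
    rw [Subgroup.mem_centralizer_iff]
    intro x hx
    exact (hcon x hx).symm
  obtain ⟨x, hx, htx⟩ := this
  have hnorm := hTN ht
  rw [Subgroup.mem_normalizer_iff] at hnorm
  have hconj : t * x * t⁻¹ ∈ X := (hnorm x).mp hx
  refine ⟨t, ht, x⁻¹ * (t * x * t⁻¹), X.mul_mem (X.inv_mem hx) hconj, ?_, ?_⟩
  · intro h
    apply htx
    have h1 : t * x * t⁻¹ = x := by
      rw [inv_mul_eq_one] at h
      exact h.symm
    have h2 := congrArg (· * t) h1
    simpa [mul_assoc] using h2
  · have h2 := Subgroup.mem_centralizer_iff.mp ht2 x hx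
    have h3 : t * (t * x) = x * t * t := by
      have : t * (t * x) = t ^ 2 * x := by rw [sq, mul_assoc]
      rw [this, ← h2, sq, mul_assoc]
    have h4 : t * (x⁻¹ * (t * x * t⁻¹)) * t⁻¹ = (t * x⁻¹ * t⁻¹) * ((t * (t * x)) * t⁻¹ * t⁻¹) := by group
    rw [h4, h3]
    group

end Cfsg.Agent.S4186
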