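import Cfsg.Statements.S4195
import Cfsg.Agent.Lib.H6Basic
-- import your own Cfsg.Agent.* helpers here

set_option autoImplicit false
open Cfsg

namespace Cfsg.Agent.S4195

/-- Let x be a non-identity element of a finite group G whose centralizer contains a Sylow 2-subgroup of G. If x is conjugate to its inverse, then x has order 2. -/
theorem result {G : Type*} [Group G] [Finite G] (x : G) (hx : x ≠ 1) (P : Sylow 2 G) (hP : (P : Subgroup G) ≤ Subgroup.centralizer ({x} : Set G)) (hreal : IsConj x x⁻¹) : orderOf x = 2 := by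
  classical
  have hodd : ¬ 2 ∣ (Subgroup.centralizer ({x} : Set G)).index :=
    Cfsg.Agent.Lib.H6Basic.not_dvd_index_of_sylow_le P hP
  haveI : Fintype {y : G // IsConj x y} := Fintype.ofFinite _
  have hinv : ∀ y : {y : G // IsConj x y}, IsConj x (y : G)⁻¹ := fun y =>
    hreal.trans (Cfsg.Agent.Lib.H6Basic.isConj_inv_inv y.2)
  let σ : Equiv.Perm {y : G // IsConj x y} :=
    { toFun := fun y => ⟨(y : G)⁻¹, hinv y⟩
      invFun := fun y => ⟨(y : G)⁻¹, hinv y⟩
      left_inv := fun y => by simp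
      right_inv := fun y => by simp }
  have hσ : σ ^ 2 ^ 1 = 1 := by
    ext y
    simp [σ, pow_two]
  have hcard : ¬ 2 ∣ Fintype.card {y : G // IsConj x y} := by
    rw [← Nat.card_eq_fintype_card, Cfsg.Agent.Lib.H6Basic.card_class_eq_index]
    exact hodd
  haveI : Fact (Nat.Prime 2) := ⟨Nat.prime_two⟩
  obtain ⟨y, hy⟩ := Equiv.Perm.exists_fixed_point_of_prime hcard hσ
  have hy' : (y : G)⁻¹ = y := congrArg Subtype.val hy
  have hy2 : (y : G) ^ 2 = 1 := by
    rw [pow_two]
    nth_rewrite 1 [← hy']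
    simp
  obtain ⟨c, hc⟩ := isConj_iff.mp y.2
  have hx2 : x ^ 2 = 1 := by
    have h1 : (c * x * c⁻¹) ^ 2 = 1 := by rw [hc]; exact hy2
    have h2 : (c * x * c⁻¹) ^ 2 = c * x ^ 2 * c⁻¹ := conj_pow
    rw [h2] at h1
    have h3 : x ^ 2 = c⁻¹ * (c * x ^ 2 * c⁻¹) * c := by group
    rw [h3, h1]; simp
  exact orderOf_eq_prime hx2 hx

end Cfsg.Agent.S4195
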