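import Cfsg.Statements.S4196
import Cfsg.Agent.S4195
-- import your own Cfsg.Agent.* helpers here

set_option autoImplicit false
open Cfsg

namespace Cfsg.Agent.S4196

open scoped Pointwise

/-- A finite group G has elementary abelian Sylow 2-subgroups (commutative with every element squaring to the identity) if and only if every 2-element of G has a Sylow 2-subgroup in its centralizer and is conjugate to its inverse. -/
theorem result {G : Type*} [Group G] [Finite G] (P : Sylow 2 G) :
    (IsMulCommutative (P : Subgroup G) ∧ ∀ x ∈ (P : Subgroup G), x ^ 2 = 1) ↔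
      ∀ x : G, (∃ k : ℕ, orderOf x = 2 ^ k) → (∃ Q : Sylow 2 G, (Q : Subgroup G) ≤ Subgroup.centralizer ({x} : Set G)) ∧ IsConj x x⁻¹ := by
  classical
  haveI : Fact (Nat.Prime 2) := ⟨Nat.prime_two⟩
  constructor
  · rintro ⟨hab, hexp⟩ x ⟨k, hk⟩
    -- x lies in a Sylow subgroup, conjugate to P
    have hx2 : IsPGroup 2 (Subgroup.zpowers x) := by
      rw [IsPGroup.iff_card, Nat.card_zpowers]
      exact ⟨k, hk⟩
    obtain ⟨Q, hQ⟩ := hx2.exists_le_sylow
    have hxQ : x ∈ (Q : Subgroup G) := hQ (Subgroup.mem_zpowers x)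
    obtain ⟨g, hg⟩ := MulAction.exists_smul_eq G P Q
    have hconj : ∀ a ∈ (Q : Subgroup G), g⁻¹ * a * g ∈ (P : Subgroup G) := by
      intro a ha
      have : a ∈ (g • P : Sylow 2 G) := by rw [hg]; exact ha
      have h2 := (Cfsg.Agent.Lib.SylowCount.mem_smul_sylow g a P).mp this
      simpa using h2
    have hcomm : ∀ a ∈ (P : Subgroup G), ∀ b ∈ (P : Subgroup G), a * b = b * a := by
      intro a ha b hb
      have := hab.is_comm.comm (⟨a, ha⟩ : (P : Subgroup G)) ⟨b, hb⟩
      exact congrArg Subtype.val this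
    refine ⟨⟨Q, ?_⟩, ?_⟩
    · intro y hy
      rw [Subgroup.mem_centralizer_singleton_iff]
      have h1 := hcomm _ (hconj y hy) _ (hconj x hxQ)
      have h2 : g⁻¹ * y * g * (g⁻¹ * x * g) = g⁻¹ * (y * x) * g := by group
      have h3 : g⁻¹ * x * g * (g⁻¹ * y * g) = g⁻¹ * (x * y) * g := by group
      rw [h2, h3] at h1
      exact mul_left_cancel (mul_right_cancel h1)
    · have h1 := hexp _ (hconj x hxQ)
      have h2 : x ^ 2 = 1 := by
        have h5 : (g⁻¹ * x * g) ^ 2 = g⁻¹ * x ^ 2 * g := by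
          rw [pow_two, pow_two]; group
        rw [h5] at h1
        have h6 : x ^ 2 = g * (g⁻¹ * x ^ 2 * g) * g⁻¹ := by group
        rw [h6, h1]; simp
      have h3 : x⁻¹ = x := by
        rw [inv_eq_iff_mul_eq_one, ← pow_two, h2]
      rw [h3]
  · intro h
    have hexp : ∀ x ∈ (P : Subgroup G), x ^ 2 = 1 := by
      intro x hx
      by_cases hx1 : x = 1
      · simp [hx1]
      have hord : ∃ k : ℕ, orderOf x = 2 ^ k := by
        have := (IsPGroup.iff_orderOf.mp P.isPGroup') ⟨x, hx⟩
        simpa using this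
      obtain ⟨⟨Q, hQ⟩, hreal⟩ := h x hord
      have := Cfsg.Agent.S4195.result x hx1 Q hQ hreal
      rw [← this]
      exact pow_orderOf_eq_one x
    refine ⟨⟨⟨?_⟩⟩, hexp⟩
    rintro ⟨a, ha⟩ ⟨b, hb⟩
    apply Subtype.ext
    have h1 := hexp a ha
    have h2 := hexp b hb
    have h3 := hexp (a * b) ((P : Subgroup G).mul_mem ha hb)
    simp only [Subgroup.coe_mul]
    have h4 : a * b * (a * b) = 1 := by rw [← pow_two]; exact h3
    have h5 : a⁻¹ = a := by rw [inv_eq_iff_mul_eq_one, ← pow_two, h1]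
    have h6 : b⁻¹ = b := by rw [inv_eq_iff_mul_eq_one, ← pow_two, h2]
    have h7 : a * b = (a * b)⁻¹ := by
      rw [eq_inv_iff_mul_eq_one]; exact h4
    rw [h7, mul_inv_rev, h5, h6]

end Cfsg.Agent.S4196
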