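import Mathlib
import Cfsg.Statements.S4218
import Cfsg.Agent.Lib.SchurZ2
import Cfsg.Agent.Lib.FitCore
import Cfsg.Agent.Lib.CharBlockPSolv
import Cfsg.Agent.Lib.PComps
import Cfsg.Agent.Lib.H6PGroup
-- import your own Cfsg.Agent.* helpers here

set_option autoImplicit false
open Cfsg

namespace Cfsg.Agent.S4218

open Subgroup

theorem relIndex_map_dvd {G H : Type*} [Group G] [Group H] [Finite G] (f : G →* H) {A B : Subgroup G} (hAB : A ≤ B) :
    (A.map f).relIndex (B.map f) ∣ A.relIndex B := by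
  have hf : Function.Surjective (f.subgroupMap B) := f.subgroupMap_surjective B
  have h1 : (A.map f).subgroupOf (B.map f) = (A.subgroupOf B).map (f.subgroupMap B) := by
    ext ⟨x, hx⟩
    rw [Subgroup.mem_subgroupOf]
    constructor
    · rintro ⟨a, ha, rfl⟩
      exact ⟨⟨a, hAB ha⟩, by rw [SetLike.mem_coe, Subgroup.mem_subgroupOf]; exact ha, rfl⟩
    · rintro ⟨⟨a, haB⟩, ha, hax⟩
      have h2 : f a = x := congrArg Subtype.val hax
      exact ⟨a, (Subgroup.mem_subgroupOf.mp ha), h2⟩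
  rw [Subgroup.relIndex, h1]
  exact Subgroup.index_map_dvd _ hf

theorem pSolvable_quotient {G : Type*} [Group G] [Finite G] {p : ℕ} [hp : Fact p.Prime] (hG : Cfsg.IsPSolvable p G)
    (N : Subgroup G) [N.Normal] : Cfsg.IsPSolvable p (G ⧸ N) := by
  obtain ⟨n, H, h0, hl, hmono, hnorm, hc⟩ := hG
  have hsurj : Function.Surjective (QuotientGroup.mk' N) := QuotientGroup.mk'_surjective N
  refine ⟨n, fun i => (H i).map (QuotientGroup.mk' N), ?_, ?_, ?_, ?_, ?_⟩
  · simp [h0]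
  · simp only [hl]
    rw [← MonoidHom.range_eq_map, MonoidHom.range_eq_top]
    exact hsurj
  · intro i j hij
    exact Subgroup.map_mono (hmono hij)
  · intro i
    haveI := hnorm i
    exact Subgroup.Normal.map (hnorm i) _ hsurj
  · intro i
    have hd := relIndex_map_dvd (QuotientGroup.mk' N) (hmono (Fin.castSucc_le_succ i))
    rcases hc i with ⟨m, hm⟩ | hm
    · left
      rw [hm] at hd
      obtain ⟨k, _, hk⟩ := (Nat.dvd_prime_pow hp.out).mp hd
      exact ⟨k, hk⟩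
    · right
      exact Nat.Coprime.coprime_dvd_left hd hm

/-- The subgroup acting trivially modulo the Frattini subgroup of a normal subgroup `Q`. -/
def Cb {Γ : Type*} [Group Γ] (Q : Subgroup Γ) [hQ : Q.Normal] : Subgroup Γ where
  carrier := {h | ∀ q ∈ Q, h * q * h⁻¹ * q⁻¹ ∈ (frattini Q).map Q.subtype}
  one_mem' := by
    intro q _
    simp
  mul_mem' := by
    intro a b ha hb q hq
    haveI hD : ((frattini Q).map Q.subtype).Normal := Cfsg.Agent.Lib.FitCore.map_subtype_normal_of_char Q _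
    have e : a * b * q * (a * b)⁻¹ * q⁻¹ =
        (a * (b * q * b⁻¹ * q⁻¹) * a⁻¹) * (a * q * a⁻¹ * q⁻¹) := by group
    rw [e]
    exact Subgroup.mul_mem _ (hD.conj_mem _ (hb q hq) a) (ha q hq)
  inv_mem' := by
    intro a ha q hq
    haveI hD : ((frattini Q).map Q.subtype).Normal := Cfsg.Agent.Lib.FitCore.map_subtype_normal_of_char Q _
    have h1 := ha _ (hQ.conj_mem q hq a⁻¹)
    have h2 := Subgroup.inv_mem _ h1
    have e : a⁻¹ * q * a⁻¹⁻¹ * q⁻¹ =
        (a * (a⁻¹ * q * a⁻¹⁻¹) * a⁻¹ * (a⁻¹ * q * a⁻¹⁻¹)⁻¹)⁻¹ := by group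
    rw [e]
    exact h2

theorem Cb_normal {Γ : Type*} [Group Γ] (Q : Subgroup Γ) [hQ : Q.Normal] : (Cb Q).Normal := by
  constructor
  intro h hh u q hq
  haveI hD : ((frattini Q).map Q.subtype).Normal := Cfsg.Agent.Lib.FitCore.map_subtype_normal_of_char Q _
  have h1 := hh _ (hQ.conj_mem q hq u⁻¹)
  have h2 := hD.conj_mem _ h1 u
  have e : u * h * u⁻¹ * q * (u * h * u⁻¹)⁻¹ * q⁻¹ =
      u * (h * (u⁻¹ * q * u⁻¹⁻¹) * h⁻¹ * (u⁻¹ * q * u⁻¹⁻¹)⁻¹) * u⁻¹ := by group
  rw [e]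
  exact h2

/-- The main step in the quotient. -/
theorem Cb_le {Γ : Type*} [Group Γ] [Finite Γ] {p : ℕ} [hp : Fact p.Prime] (hs : Cfsg.IsPSolvable p Γ)
    (h0 : Cfsg.pPrimeCore p Γ = ⊥) :
    haveI := Cfsg.Agent.Lib.FitCore.pCore_normal (G := Γ) p
    Cb (Cfsg.pCore p Γ) ≤ Cfsg.pCore p Γ := by
  classical
  intro _
  set Q := Cfsg.pCore p Γ with hQ
  have hQn : Q.Normal := Cfsg.Agent.Lib.FitCore.pCore_normal p
  have hQp : IsPGroup p Q := Cfsg.Agent.Lib.FitCore.pCore_isPGroup p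
  have hCn : (Cb Q).Normal := Cb_normal Q
  have hp' : ∀ h ∈ Cb Q, Nat.Coprime (orderOf h) p → h = 1 := by
    intro h hh hco
    have hcop : (Nat.card (zpowers h)).Coprime (Nat.card (frattini Q)) := by
      rw [Nat.card_zpowers]
      have hF : IsPGroup p (frattini Q) := hQp.to_subgroup _
      obtain ⟨k, hk⟩ := IsPGroup.iff_card.mp hF
      rw [hk]
      exact Nat.Coprime.pow_right _ hco
    have hcent := Cfsg.Agent.Lib.SchurZ2.le_centralizer_of_frattini (zpowers h) Q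
      (by rw [Subgroup.normalizer_eq_top_iff.mpr hQn]; exact le_top) hcop
      (by
        intro a ha k hk
        have h1 : a ∈ Cb Q := (zpowers_le.mpr hh) ha
        exact h1 k hk)
    have hc2 : h ∈ Subgroup.centralizer (Q : Set Γ) := hcent (Subgroup.mem_zpowers h)
    have hhQ : h ∈ Q := Cfsg.Agent.Lib.CharBlockPSolv.centralizer_pCore_le_of_pSolvable hs h0 hc2
    obtain ⟨k, hk⟩ := hQp ⟨h, hhQ⟩
    have hk' : h ^ (p ^ k) = 1 := by simpa using congrArg Subtype.val hk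
    have h7 : orderOf h = 1 := Nat.Coprime.eq_one_of_dvd (Nat.Coprime.pow_right _ hco) (orderOf_dvd_of_pow_eq_one hk')
    exact orderOf_eq_one_iff.mp h7
  apply Cfsg.Agent.Lib.FitCore.le_pCore p _ hCn
  rw [IsPGroup.iff_card]
  refine ⟨_, Nat.eq_prime_pow_of_unique_prime_dvd Nat.card_pos.ne' ?_⟩
  intro d hd hdvd
  by_contra hne
  haveI : Fact d.Prime := ⟨hd⟩
  obtain ⟨x, hx⟩ := exists_prime_orderOf_dvd_card' d hdvd
  have hxo : orderOf (x : Γ) = d := by rw [Subgroup.orderOf_coe]; exact hx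
  have h1 := hp' x x.2 (by rw [hxo]; exact (Nat.coprime_primes hd hp.out).mpr hne)
  rw [h1, orderOf_one] at hxo
  exact hd.ne_one hxo.symm

/-- Let `G` be a finite `p`-solvable group, `N₀ = O_{p'}(G)`, `P₁ = O_{p',p}(G)`, and let `F ≤ P₁` be the preimage of the Frattini subgroup of `P₁/N₀`. Then an element `g` of `G` induces the identity on `P₁/F` by conjugation (that is, `g x g⁻¹ x⁻¹ ∈ F` for all `x ∈ P₁`) if and only if `g ∈ P₁`: the group `G/P₁` acts faithfully on `P₁/F`. -/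
theorem result {G : Type*} [Group G] [Finite G] {p : ℕ} [Fact p.Prime] (hG : Cfsg.IsPSolvable p G) (g : G) : (∀ x ∈ Cfsg.pPrimePCore p G, g * x * g⁻¹ * x⁻¹ ∈ ((frattini (↥(Cfsg.pPrimePCore p G) ⧸ (Cfsg.pPrimeCore p G).subgroupOf (Cfsg.pPrimePCore p G))).comap (QuotientGroup.mk' ((Cfsg.pPrimeCore p G).subgroupOf (Cfsg.pPrimePCore p G)))).map (Cfsg.pPrimePCore p G).subtype) ↔ g ∈ Cfsg.pPrimePCore p G := by
  classical
  set O := Cfsg.pPrimeCore p G with hO
  set P₁ := Cfsg.pPrimePCore p G with hP₁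
  set π := QuotientGroup.mk' O with hπ
  set Q := Cfsg.pCore p (G ⧸ O) with hQ
  have hQn : Q.Normal := Cfsg.Agent.Lib.FitCore.pCore_normal p
  have hQp : IsPGroup p Q := Cfsg.Agent.Lib.FitCore.pCore_isPGroup p
  have hmem : ∀ x : G, x ∈ P₁ ↔ π x ∈ Q := fun x => Iff.rfl
  have hπs : Function.Surjective π := QuotientGroup.mk'_surjective O
  constructor
  · intro hg
    rw [hmem]
    let f : P₁ →* Q := MonoidHom.codRestrict (π.comp P₁.subtype) Q (fun x => x.2)
    have hker : ∀ x ∈ O.subgroupOf P₁, f x = 1 := by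
      intro x hx
      apply Subtype.ext
      exact (QuotientGroup.eq_one_iff (x : G)).mpr (Subgroup.mem_subgroupOf.mp hx)
    let φ : (P₁ ⧸ O.subgroupOf P₁) →* Q := QuotientGroup.lift _ f hker
    have hφs : Function.Surjective φ := by
      rintro ⟨q, hq⟩
      obtain ⟨x, rfl⟩ := hπs q
      exact ⟨((⟨x, hq⟩ : P₁) : P₁ ⧸ O.subgroupOf P₁), rfl⟩
    have hfrat := frattini_le_comap_frattini_of_surjective hφs
    haveI := hQn
    have hC : π g ∈ Cb Q := by
      intro q hq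
      obtain ⟨x, rfl⟩ := hπs q
      have hxP : x ∈ P₁ := hq
      obtain ⟨z, hz, hzx⟩ := hg x hxP
      have hz' : ((z : P₁) : P₁ ⧸ O.subgroupOf P₁) ∈ frattini (P₁ ⧸ O.subgroupOf P₁) := hz
      have h1 := hfrat hz'
      refine ⟨_, h1, ?_⟩
      show π (z : G) = _
      have hzx' : (z : G) = g * x * g⁻¹ * x⁻¹ := hzx
      rw [hzx']
      simp only [map_mul, map_inv]
    exact Cb_le (pSolvable_quotient hG O) Cfsg.Agent.Lib.PComps.pPrimeCore_quotient_eq_bot hC
  · intro hg x hx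
    have hPp : IsPGroup p (P₁ ⧸ O.subgroupOf P₁) := by
      intro y
      induction y using QuotientGroup.induction_on with
      | H y =>
        obtain ⟨k, hk⟩ := hQp ⟨π y, y.2⟩
        refine ⟨k, ?_⟩
        have h1 : π ((y : G) ^ (p ^ k)) = 1 := by
          rw [map_pow]
          simpa using congrArg Subtype.val hk
        have h2 : (y ^ (p ^ k)) ∈ O.subgroupOf P₁ := by
          rw [Subgroup.mem_subgroupOf]
          have := (QuotientGroup.eq_one_iff _).mp h1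
          simpa using this
        rw [← QuotientGroup.mk_pow]
        exact (QuotientGroup.eq_one_iff _).mpr h2
    have h1 := Cfsg.Agent.Lib.H6PGroup.comm_mem_frattini hPp
      ((⟨g, hg⟩ : P₁) : P₁ ⧸ O.subgroupOf P₁) ((⟨x, hx⟩ : P₁) : P₁ ⧸ O.subgroupOf P₁)
    refine ⟨⟨g, hg⟩ * ⟨x, hx⟩ * ⟨g, hg⟩⁻¹ * ⟨x, hx⟩⁻¹, ?_, rfl⟩
    exact h1

end Cfsg.Agent.S4218
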