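import Cfsg.Statements.S4230
-- import your own Cfsg.Agent.* helpers here

set_option autoImplicit false
open Cfsg

namespace Cfsg.Agent.S4230

/-- Let p be an odd prime, q a natural number not divisible by p, and e the multiplicative order of q modulo p. For a natural number f, p divides the value at q of the f-th cyclotomic polynomial if and only if f = e·p^j for some j ≥ 0. -/
theorem result (p q f : ℕ) (hp : p.Prime) (hp2 : p ≠ 2) (hpq : ¬ p ∣ q) :
    ((p : ℤ) ∣ (Polynomial.cyclotomic f ℤ).eval (q : ℤ)) ↔ ∃ j : ℕ, f = orderOf (q : ZMod p) * p ^ j := by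
  classical
  haveI : Fact p.Prime := ⟨hp⟩
  set x : ZMod p := (q : ZMod p) with hx
  have hx0 : x ≠ 0 := by
    rw [hx, Ne, ZMod.natCast_eq_zero_iff]
    exact hpq
  have key : ((p : ℤ) ∣ (Polynomial.cyclotomic f ℤ).eval (q : ℤ)) ↔
      (Polynomial.cyclotomic f (ZMod p)).eval x = 0 := by
    rw [← ZMod.intCast_zmod_eq_zero_iff_dvd]
    have h1 : (((Polynomial.cyclotomic f ℤ).eval (q : ℤ) : ℤ) : ZMod p)
        = (Polynomial.cyclotomic f (ZMod p)).eval x := by
      rw [← Polynomial.map_cyclotomic_int f (ZMod p)]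
      have := Polynomial.eval_intCast_map (Int.castRingHom (ZMod p)) (Polynomial.cyclotomic f ℤ) (q : ℤ)
      simp only [Int.cast_natCast] at this
      rw [hx, this]
      simp
    rw [h1]
  rw [key]
  have hE : ¬ p ∣ orderOf x := by
    intro hd
    have h2 : orderOf x ∣ p - 1 := orderOf_dvd_of_pow_eq_one (ZMod.pow_card_sub_one_eq_one hx0)
    have h3 : p ∣ p - 1 := hd.trans h2
    have h4 : p ≤ p - 1 := Nat.le_of_dvd (Nat.sub_pos_of_lt hp.one_lt) h3
    have := hp.one_lt
    omega
  have hroot : ∀ m : ℕ, ¬ p ∣ m → ((Polynomial.cyclotomic m (ZMod p)).eval x = 0 ↔ orderOf x = m) := by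
    intro m hm
    haveI : NeZero ((m : ℕ) : ZMod p) := ⟨by rwa [Ne, ZMod.natCast_eq_zero_iff]⟩
    have h5 : (Polynomial.cyclotomic m (ZMod p)).eval x = 0 ↔ IsPrimitiveRoot x m :=
      Polynomial.isRoot_cyclotomic_iff
    rw [h5]
    constructor
    · intro h
      exact h.eq_orderOf.symm
    · intro h
      rw [← h]
      exact IsPrimitiveRoot.orderOf x
  have hpow : ∀ (k m : ℕ), ¬ p ∣ m → ((Polynomial.cyclotomic (p ^ k * m) (ZMod p)).eval x = 0 ↔
      (Polynomial.cyclotomic m (ZMod p)).eval x = 0) := by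
    intro k m hm
    rcases Nat.eq_zero_or_pos k with rfl | hk
    · simp
    · rw [Polynomial.cyclotomic_mul_prime_pow_eq (ZMod p) hm hk, Polynomial.eval_pow]
      rw [pow_eq_zero_iff]
      have h6 : p ^ (k - 1) < p ^ k := Nat.pow_lt_pow_right hp.one_lt (by omega)
      omega
  constructor
  · intro h
    rcases Nat.eq_zero_or_pos f with rfl | hf
    · simp at h
    · obtain ⟨k, m, hm, rfl⟩ := Nat.exists_eq_pow_mul_and_not_dvd (n := f) hf.ne' p hp.ne_one
      rw [hpow k m hm, hroot m hm] at h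
      refine ⟨k, ?_⟩
      rw [h, mul_comm]
  · rintro ⟨j, rfl⟩
    rw [mul_comm, hpow j _ hE, hroot _ hE]

end Cfsg.Agent.S4230
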