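import Cfsg.Statements.S4242
import Cfsg.Agent.Lib.Carter
import Cfsg.Agent.Lib.H6Hughes
import Cfsg.Agent.Lib.SecTransfer
import Cfsg.Agent.Lib.MinPClosed
import Cfsg.Agent.Lib.PNilp
import Cfsg.Agent.Lib.ThompsonFpf
import Cfsg.Agent.Lib.SchurZ2
-- import your own Cfsg.Agent.* helpers here

set_option autoImplicit false
set_option linter.all false
open Cfsg

namespace Cfsg.Agent.S4242

open Cfsg.Agent.Lib.Carter Cfsg.Agent.Lib.H6Hughes

theorem dvd_card_of {G : Type*} [Group G] [Finite G] {p : ℕ} [Fact p.Prime] {O : Subgroup G}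
    (hOp : IsPGroup p O) (hOb : O ≠ ⊥) : p ∣ Nat.card O := by
  obtain ⟨n, hn⟩ := IsPGroup.iff_card.1 hOp
  have hn0 : n ≠ 0 := by
    rintro rfl
    rw [pow_zero] at hn
    exact hOb (Subgroup.eq_bot_of_card_eq _ hn)
  rw [hn]
  exact dvd_pow_self p hn0

theorem nil_of_comm {X : Type*} [Group X] (h : ∀ a b : X, a * b = b * a) : Group.IsNilpotent X := by
  letI : CommGroup X := { (inferInstance : Group X) with mul_comm := h }
  exact CommGroup.isNilpotent

theorem forward_case1 {G : Type*} [Group G] [Finite G] (p : ℕ) (hp : p.Prime)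
    (hprop : ∀ L : Subgroup G, L ≠ ⊤ → p ∣ Nat.card L → Group.IsNilpotent L)
    (M₀ : Subgroup G) (hM₀ : IsCoatom M₀) (hM₀nil : ¬ Group.IsNilpotent M₀) (hM₀p : ¬ p ∣ Nat.card M₀)
    (O : Subgroup G) (hOn : O.Normal) (hOb : O ≠ ⊥) (hOp : IsPGroup p O) :
    ∃ Z K : Subgroup G, Z.Normal ∧ K.Normal ∧ Z ⊓ K = ⊥ ∧ Z ⊔ K = ⊤ ∧ Nat.card Z = p ∧
          Cfsg.IsMinimalNonNilpotent K ∧ ¬ p ∣ Nat.card K := by
  classical
  haveI : Fact p.Prime := ⟨hp⟩
  haveI := hOn
  have hdO := dvd_card_of hOp hOb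
  have hOM₀ : ¬ O ≤ M₀ := fun hle => hM₀p (hdO.trans (Subgroup.card_dvd_of_le hle))
  have hsup : M₀ ⊔ O = ⊤ := hM₀.2 _ (lt_of_le_of_ne le_sup_left
    (fun h => hOM₀ (by rw [h]; exact le_sup_right)))
  have hdisj : ∀ x ∈ M₀, x ∈ O → x = 1 := fun x h1 h2 =>
    Cfsg.Agent.Lib.SecTransfer.eq_one_of_mem_coprime hOp hM₀p h2 h1
  have hsmall : ∀ L ≤ M₀, L ≠ M₀ → L ⊔ O ≠ ⊤ := by
    intro L hLM hne htop
    apply hne
    apply le_antisymm hLM
    intro m hm
    have h1 : m ∈ L ⊔ O := by rw [htop]; trivial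
    obtain ⟨l, hl, o, ho, e⟩ := Subgroup.mem_sup_of_normal_right.1 h1
    have h2 : o = l⁻¹ * m := by rw [← e]; group
    have h3 : o = 1 := hdisj o (by rw [h2]; exact M₀.mul_mem (M₀.inv_mem (hLM hl)) hm) ho
    rw [← e, h3, mul_one]; exact hl
  have hnilp : ∀ L ≤ M₀, L ≠ M₀ → Group.IsNilpotent ↥(L ⊔ O) := fun L hLM hne =>
    hprop _ (hsmall L hLM hne) (hdO.trans (Subgroup.card_dvd_of_le le_sup_right))
  have hcomm : ∀ L ≤ M₀, L ≠ M₀ → ∀ l ∈ L, ∀ o ∈ O, l * o = o * l := by
    intro L hLM hne l hl o ho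
    haveI := hnilp L hLM hne
    obtain ⟨k, hk⟩ := hOp ⟨o, ho⟩
    have h1 : Commute (⟨o, Subgroup.mem_sup_right ho⟩ : ↥(L ⊔ O))
        (⟨l, Subgroup.mem_sup_left hl⟩ : ↥(L ⊔ O)) := by
      refine commute_of_nilpotent (p := p) _ _ ⟨k, ?_⟩ ?_
      · apply Subtype.ext
        simpa using congrArg Subtype.val hk
      · rw [Subgroup.orderOf_mk]
        intro hd
        exact hM₀p (hd.trans (Subgroup.orderOf_dvd_natCard M₀ (hLM hl)))
    exact (congrArg Subtype.val h1.eq).symm
  have hzp : ∀ m ∈ M₀, Subgroup.zpowers m ≠ M₀ := by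
    intro m hm h
    apply hM₀nil
    rw [← h]
    refine nil_of_comm (fun a b => ?_)
    apply Subtype.ext
    obtain ⟨i, hi⟩ := Subgroup.mem_zpowers_iff.1 a.2
    obtain ⟨j, hj⟩ := Subgroup.mem_zpowers_iff.1 b.2
    show (a : G) * b = b * a
    rw [← hi, ← hj, ← zpow_add, ← zpow_add, add_comm]
  have hMC : ∀ m ∈ M₀, ∀ o ∈ O, m * o = o * m := fun m hm o ho =>
    hcomm _ ((Subgroup.zpowers_le).2 hm) (hzp m hm) m (Subgroup.mem_zpowers m) o ho
  have hmin : Cfsg.IsMinimalNonNilpotent ↥M₀ := by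
    refine ⟨hM₀nil, fun H' hH' => ?_⟩
    have hle : H'.map M₀.subtype ≤ M₀ := by
      rintro _ ⟨y, _, rfl⟩
      exact y.2
    have hne : H'.map M₀.subtype ≠ M₀ := by
      intro h
      apply hH'
      apply Subgroup.map_injective M₀.subtype_injective
      rw [h]
      ext x
      constructor
      · intro hx
        exact ⟨⟨x, hx⟩, trivial, rfl⟩
      · rintro ⟨y, _, rfl⟩
        exact y.2
    have h1 : Group.IsNilpotent ↥(H'.map M₀.subtype) := nilp_of_le le_sup_left (hnilp _ hle hne)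
    exact Group.nilpotent_of_mulEquiv (H'.equivMapOfInjective _ M₀.subtype_injective).symm
  haveI : Nontrivial ↥O := (Subgroup.nontrivial_iff_ne_bot _).2 hOb
  haveI : Nontrivial (Subgroup.center ↥O) := hOp.center_nontrivial
  have hpc : IsPGroup p (Subgroup.center ↥O) := hOp.to_subgroup _
  have hdc : p ∣ Nat.card (Subgroup.center ↥O) := by
    obtain ⟨n, hn⟩ := IsPGroup.iff_card.1 hpc
    have h1 : 1 < Nat.card (Subgroup.center ↥O) := Finite.one_lt_card
    have hn0 : n ≠ 0 := by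
      rintro rfl
      rw [pow_zero] at hn
      omega
    rw [hn]
    exact dvd_pow_self p hn0
  obtain ⟨z₀, hz₀⟩ := exists_prime_orderOf_dvd_card' (G := Subgroup.center ↥O) p hdc
  set z : G := ((z₀ : ↥O) : G) with hzdef
  have hord : orderOf z = p := by
    rw [hzdef, Subgroup.orderOf_coe, Subgroup.orderOf_coe, hz₀]
  have hzO : z ∈ O := (z₀ : ↥O).2
  have hzc : ∀ o ∈ O, o * z = z * o := by
    intro o ho
    have h1 := Subgroup.mem_center_iff.1 z₀.2 ⟨o, ho⟩
    exact congrArg Subtype.val h1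
  have hzcen : ∀ g : G, g * z = z * g := by
    intro g
    have hle : M₀ ⊔ O ≤ Subgroup.centralizer ({z} : Set G) := by
      refine sup_le ?_ ?_
      · intro m hm
        exact Subgroup.mem_centralizer_singleton_iff.2 (hMC m hm z hzO)
      · intro o ho
        exact Subgroup.mem_centralizer_singleton_iff.2 (hzc o ho)
    exact Subgroup.mem_centralizer_singleton_iff.1 (hle (by rw [hsup]; trivial))
  have hZcen : ∀ n ∈ Subgroup.zpowers z, ∀ g : G, g * n = n * g := by
    intro n hn g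
    have hle : Subgroup.zpowers z ≤ Subgroup.centralizer ({g} : Set G) := by
      rw [Subgroup.zpowers_le]
      exact Subgroup.mem_centralizer_singleton_iff.2 (hzcen g).symm
    exact (Subgroup.mem_centralizer_singleton_iff.1 (hle hn)).symm
  have hZn : (Subgroup.zpowers z).Normal := ⟨fun n hn g => by
    have h1 : g * n * g⁻¹ = n := by rw [hZcen n hn g]; group
    rw [h1]; exact hn⟩
  have hZO : Subgroup.zpowers z ≤ O := (Subgroup.zpowers_le).2 hzO
  have hZM : ¬ Subgroup.zpowers z ≤ M₀ := by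
    intro hle
    have h1 := hdisj z (hle (Subgroup.mem_zpowers z)) hzO
    rw [h1, orderOf_one] at hord
    exact hp.one_lt.ne hord
  have hsup2 : M₀ ⊔ Subgroup.zpowers z = ⊤ := hM₀.2 _ (lt_of_le_of_ne le_sup_left
    (fun h => hZM (by rw [h]; exact le_sup_right)))
  have hKn : M₀.Normal := by
    apply Subgroup.normalizer_eq_top_iff.1
    rw [eq_top_iff, ← hsup2]
    refine sup_le Subgroup.le_normalizer ?_
    intro n hn
    apply Cfsg.Agent.Lib.MinPClosed.mem_normalizer_of_conj_le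
    intro s hs
    have h1 : n * s * n⁻¹ = s := by rw [← hZcen n hn s]; group
    rw [h1]; exact hs
  refine ⟨Subgroup.zpowers z, M₀, hZn, hKn, ?_, ?_, ?_, hmin, hM₀p⟩
  · rw [eq_bot_iff]
    rintro x ⟨h1, h2⟩
    exact (Subgroup.mem_bot).2 (hdisj x h2 (hZO h1))
  · rw [sup_comm]; exact hsup2
  · rw [Nat.card_zpowers, hord]

theorem forward_case2 {G : Type*} [Group G] [Finite G] (p : ℕ) (hp : p.Prime) (hpG : p ∣ Nat.card G)
    (hprop : ∀ L : Subgroup G, L ≠ ⊤ → p ∣ Nat.card L → Group.IsNilpotent L)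
    (M₀ : Subgroup G) (hM₀ : IsCoatom M₀) (hM₀nil : ¬ Group.IsNilpotent M₀) (hM₀p : ¬ p ∣ Nat.card M₀)
    (hO : ∀ O : Subgroup G, O.Normal → O ≠ ⊥ → ¬ IsPGroup p O) : False := by
  classical
  haveI : Fact p.Prime := ⟨hp⟩
  have hloc : ∀ Q : Subgroup G, IsPGroup p Q → Q ≠ ⊥ →
      Cfsg.HasNormalPComplement p ↥(Subgroup.normalizer (Q : Set G)) := by
    intro Q hQ hb
    have hne : Subgroup.normalizer (Q : Set G) ≠ ⊤ := fun h =>
      hO Q (Subgroup.normalizer_eq_top_iff.1 h) hb hQ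
    have hd : p ∣ Nat.card (Subgroup.normalizer (Q : Set G)) :=
      (dvd_card_of hQ hb).trans (Subgroup.card_dvd_of_le Subgroup.le_normalizer)
    haveI := hprop _ hne hd
    exact Cfsg.Agent.Lib.ThompsonFpf.npc_of_nilpotent p
  obtain ⟨N, hNn, hNp, hpow⟩ := Cfsg.Agent.Lib.PNilp.npc_iff.1 (Cfsg.Agent.Lib.PNilp.frobenius.2 hloc)
  haveI := hNn
  have hMN : M₀ ≤ N := fun m hm => (mem_npc_iff N hNp hpow m).2
    (fun hd => hM₀p (hd.trans (Subgroup.orderOf_dvd_natCard M₀ hm)))
  have hNtop : N ≠ ⊤ := by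
    intro h
    rw [h, Subgroup.card_top] at hNp
    exact hNp hpG
  have hEq : M₀ = N := by
    by_contra hne
    exact hNtop (hM₀.2 N (lt_of_le_of_ne hMN hne))
  subst hEq
  obtain ⟨P⟩ : Nonempty (Sylow p G) := inferInstance
  have hPb : (P : Subgroup G) ≠ ⊥ := P.ne_bot_of_dvd_card hpG
  have hPN : (P : Subgroup G) ≤ Subgroup.normalizer (M₀ : Set G) := by
    rw [Subgroup.normalizer_eq_top_iff.2 hNn]; exact le_top
  have hcop : Nat.Coprime (Nat.card M₀) (Nat.card (P : Subgroup G)) := by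
    obtain ⟨n, hn⟩ := IsPGroup.iff_card.1 P.isPGroup'
    rw [hn]
    exact Nat.Coprime.pow_right _ ((Nat.Prime.coprime_iff_not_dvd hp).2 hM₀p).symm
  have hs : Group.IsSolvable M₀ ∨ Group.IsSolvable (P : Subgroup G) := by
    right
    haveI := P.isPGroup'.isNilpotent
    infer_instance
  have hcent : ∀ x ∈ (P : Subgroup G), ∀ y ∈ M₀, x * y = y * x := by
    intro x hx y hy
    have hC : (Subgroup.centralizer ({x} : Set G)).subgroupOf M₀ = ⊤ := by
      rw [← Subgroup.index_eq_one]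
      by_contra hne
      obtain ⟨q, hq, hd⟩ := Nat.exists_prime_and_dvd hne
      haveI : Fact q.Prime := ⟨hq⟩
      obtain ⟨R, hR⟩ := Cfsg.Agent.Lib.SchurZ2.exists_invariant_sylow (P : Subgroup G) M₀ hPN hcop hs q
      let Q₀ : Subgroup G := (R : Subgroup M₀).map M₀.subtype
      have hQ₀M : Q₀ ≤ M₀ := by
        rintro _ ⟨r, _, rfl⟩
        exact r.2
      have hne2 : Q₀ ⊔ (P : Subgroup G) ≠ ⊤ := by
        intro htop
        have hQn : Q₀.Normal := Subgroup.normalizer_eq_top_iff.1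
          (eq_top_iff.2 (htop ▸ sup_le Subgroup.le_normalizer hR))
        have hle : M₀ ≤ Q₀ := by
          intro n hn
          have h1 : n ∈ (P : Subgroup G) ⊔ Q₀ := by rw [sup_comm, htop]; trivial
          obtain ⟨a, ha, b, hb, e⟩ := Subgroup.mem_sup_of_normal_right.1 h1
          have h2 : a = n * b⁻¹ := by rw [← e]; group
          have h3 : a = 1 := Cfsg.Agent.Lib.SecTransfer.eq_one_of_mem_coprime P.isPGroup' hM₀p ha
            (by rw [h2]; exact M₀.mul_mem hn (M₀.inv_mem (hQ₀M hb)))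
          rw [← e, h3, one_mul]; exact hb
        have hQ₀p : IsPGroup q Q₀ := R.2.map _
        have hMp : IsPGroup q M₀ := hQ₀p.to_le hle
        exact hM₀nil hMp.isNilpotent
      have hdP : p ∣ Nat.card ↥(Q₀ ⊔ (P : Subgroup G)) :=
        (dvd_card_of P.isPGroup' hPb).trans (Subgroup.card_dvd_of_le le_sup_right)
      haveI := hprop _ hne2 hdP
      have hRC : (R : Subgroup M₀) ≤ (Subgroup.centralizer ({x} : Set G)).subgroupOf M₀ := by
        intro r hr
        rw [Subgroup.mem_subgroupOf, Subgroup.mem_centralizer_singleton_iff]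
        obtain ⟨k, hk⟩ := P.isPGroup' ⟨x, hx⟩
        have h1 : Commute (⟨x, Subgroup.mem_sup_right hx⟩ : ↥(Q₀ ⊔ (P : Subgroup G)))
            (⟨r, Subgroup.mem_sup_left ⟨r, hr, rfl⟩⟩ : ↥(Q₀ ⊔ (P : Subgroup G))) := by
          refine commute_of_nilpotent (p := p) _ _ ⟨k, ?_⟩ ?_
          · apply Subtype.ext
            simpa using congrArg Subtype.val hk
          · rw [Subgroup.orderOf_mk]
            intro hd
            exact hM₀p (hd.trans (Subgroup.orderOf_dvd_natCard M₀ r.2))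
        exact (congrArg Subtype.val h1.eq).symm
      exact R.not_dvd_index (hd.trans (Subgroup.index_dvd_of_le hRC))
    have h1 : (⟨y, hy⟩ : M₀) ∈ (Subgroup.centralizer ({x} : Set G)).subgroupOf M₀ := by
      rw [hC]; trivial
    rw [Subgroup.mem_subgroupOf, Subgroup.mem_centralizer_singleton_iff] at h1
    exact h1.symm
  have hPM : ¬ (P : Subgroup G) ≤ M₀ := fun hle =>
    hM₀p ((dvd_card_of P.isPGroup' hPb).trans (Subgroup.card_dvd_of_le hle))
  have hsup : M₀ ⊔ (P : Subgroup G) = ⊤ := hM₀.2 _ (lt_of_le_of_ne le_sup_left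
    (fun h => hPM (by rw [h]; exact le_sup_right)))
  have hPn : (P : Subgroup G).Normal := by
    apply Subgroup.normalizer_eq_top_iff.1
    rw [eq_top_iff, ← hsup]
    refine sup_le ?_ Subgroup.le_normalizer
    intro y hy
    apply Cfsg.Agent.Lib.MinPClosed.mem_normalizer_of_conj_le
    intro s hs
    have h1 : y * s * y⁻¹ = s := by rw [← hcent s hs y hy]; group
    rw [h1]; exact hs
  exact hO _ hPn hPb P.isPGroup'



/-- Let G be a finite group and p a prime dividing its order. Every maximal subgroup of G of order divisible by p is nilpotent if and only if G is nilpotent, or G is a minimal non-nilpotent group, or G is the internal direct product of a normal subgroup of order p and a normal minimal non-nilpotent subgroup of order prime to p. -/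
theorem result {G : Type*} [Group G] [Finite G] (p : ℕ) (hp : p.Prime) (hpG : p ∣ Nat.card G) :
    (∀ M : Subgroup G, IsCoatom M → p ∣ Nat.card M → Group.IsNilpotent M) ↔
      (Group.IsNilpotent G ∨ Cfsg.IsMinimalNonNilpotent G ∨
        ∃ Z K : Subgroup G, Z.Normal ∧ K.Normal ∧ Z ⊓ K = ⊥ ∧ Z ⊔ K = ⊤ ∧ Nat.card Z = p ∧
          Cfsg.IsMinimalNonNilpotent K ∧ ¬ p ∣ Nat.card K) := by
  classical
  haveI : Fact p.Prime := ⟨hp⟩
  constructor
  · intro hmax
    have hprop : ∀ L : Subgroup G, L ≠ ⊤ → p ∣ Nat.card L → Group.IsNilpotent L := by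
      intro L hL hd
      obtain hT | ⟨M, hM, hLM⟩ := eq_top_or_exists_le_coatom L
      · exact absurd hT hL
      · exact nilp_of_le hLM (hmax M hM (hd.trans (Subgroup.card_dvd_of_le hLM)))
    by_cases hnil : Group.IsNilpotent G
    · exact Or.inl hnil
    by_cases hmin : ∀ H : Subgroup G, H ≠ ⊤ → Group.IsNilpotent H
    · exact Or.inr (Or.inl ⟨hnil, hmin⟩)
    right; right
    push Not at hmin
    obtain ⟨H, hH, hHn⟩ := hmin
    obtain hT | ⟨M₀, hM₀, hHM₀⟩ := eq_top_or_exists_le_coatom H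
    · exact absurd hT hH
    have hM₀nil : ¬ Group.IsNilpotent M₀ := fun h => hHn (nilp_of_le hHM₀ h)
    have hM₀p : ¬ p ∣ Nat.card M₀ := fun h => hM₀nil (hmax _ hM₀ h)
    by_cases hO : ∃ O : Subgroup G, O.Normal ∧ O ≠ ⊥ ∧ IsPGroup p O
    · obtain ⟨O, hOn, hOb, hOp⟩ := hO
      exact forward_case1 p hp hprop M₀ hM₀ hM₀nil hM₀p O hOn hOb hOp
    · exact (forward_case2 p hp hpG hprop M₀ hM₀ hM₀nil hM₀p
        (fun O h1 h2 h3 => hO ⟨O, h1, h2, h3⟩)).elim
  · rintro (hnil | ⟨_, hmin⟩ | ⟨Z, K, hZ, hK, hinf, hsup, hcard, hmin, hpK⟩)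
    · intro M _ _
      haveI := hnil
      exact Subgroup.isNilpotent M
    · intro M hM _
      exact hmin M hM.1
    · intro M hM hd
      haveI := hZ
      haveI := hK
      have hdis : Disjoint Z K := by rw [disjoint_iff]; exact hinf
      have hcomm : ∀ a ∈ Z, ∀ b ∈ K, a * b = b * a := fun a ha b hb =>
        Subgroup.commute_of_normal_of_disjoint _ _ hZ hK hdis a b ha hb
      have hZp : IsPGroup p Z := IsPGroup.of_card (n := 1) (by rw [hcard, pow_one])
      obtain ⟨x, hx⟩ := exists_prime_orderOf_dvd_card' (G := M) p hd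
      have hx0 : (x : G) ∈ Z ⊔ K := by rw [hsup]; trivial
      obtain ⟨z, hz, k, hk, e⟩ := Subgroup.mem_sup_of_normal_right.1 hx0
      have hxp : (x : G) ^ p = 1 := by
        have h1 := pow_orderOf_eq_one x
        rw [hx] at h1
        exact congrArg Subtype.val h1
      have hzp : z ^ p = 1 := by
        have h1 := pow_card_eq_one' (x := (⟨z, hz⟩ : Z))
        rw [hcard] at h1
        exact congrArg Subtype.val h1
      have hkp : k ^ p = 1 := by
        have h1 : (z * k) ^ p = z ^ p * k ^ p := (show Commute z k from hcomm z hz k hk).mul_pow p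
        rw [e, hxp, hzp, one_mul] at h1
        exact h1.symm
      have hk1 : k = 1 := by
        by_contra hne
        have h2 : orderOf k = p := orderOf_eq_prime hkp hne
        exact hpK (h2 ▸ Subgroup.orderOf_dvd_natCard K hk)
      have hxz : (x : G) = z := by rw [← e, hk1, mul_one]
      have hz1 : z ≠ 1 := by
        intro h
        have h2 : orderOf (x : G) = 1 := by rw [hxz, h, orderOf_one]
        rw [Subgroup.orderOf_coe, hx] at h2
        exact hp.one_lt.ne' h2
      have hzM : z ∈ M := by rw [← hxz]; exact x.2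
      have hordz : orderOf z = p := orderOf_eq_prime hzp hz1
      have hZeq : Subgroup.zpowers z = Z := Subgroup.eq_of_le_of_card_ge
        ((Subgroup.zpowers_le).2 hz) (by rw [Nat.card_zpowers, hordz, hcard])
      have hZM : Z ≤ M := by rw [← hZeq]; exact (Subgroup.zpowers_le).2 hzM
      have hH'ne : M.subgroupOf K ≠ ⊤ := by
        intro h
        have hKM : K ≤ M := Subgroup.subgroupOf_eq_top.1 h
        apply hM.1
        rw [eq_top_iff, ← hsup]
        exact sup_le hZM hKM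
      have hH'nil := hmin.2 _ hH'ne
      have hB : Group.IsNilpotent ↥(M ⊓ K) := by
        haveI := hH'nil
        have h1 := Group.nilpotent_of_mulEquiv
          ((M.subgroupOf K).equivMapOfInjective K.subtype K.subtype_injective)
        rwa [Subgroup.subgroupOf_map_subtype] at h1
      have hA : Group.IsNilpotent Z := hZp.isNilpotent
      have h2 := nilp_sup_of_commute (A := Z) (B := M ⊓ K)
        (fun a ha b hb => hcomm a ha b hb.2) hA hB
      have hEq : Z ⊔ (M ⊓ K) = M := le_antisymm (sup_le hZM inf_le_left) (by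
        intro m hm
        have h3 : m ∈ Z ⊔ K := by rw [hsup]; trivial
        obtain ⟨a, ha, b, hb, e2⟩ := Subgroup.mem_sup_of_normal_right.1 h3
        have h4 : b = a⁻¹ * m := by rw [← e2]; group
        rw [← e2]
        exact Subgroup.mul_mem _ (Subgroup.mem_sup_left ha) (Subgroup.mem_sup_right
          ⟨by rw [h4]; exact M.mul_mem (M.inv_mem (hZM ha)) hm, hb⟩))
      rwa [hEq] at h2

end Cfsg.Agent.S4242
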