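import Mathlib
import Cfsg.Statements.S4249
import Cfsg.Agent.Lib.H6Hughes
import Cfsg.Agent.Lib.H6PGroup
-- import your own Cfsg.Agent.* helpers here

set_option autoImplicit false
open Cfsg

namespace Cfsg.Agent.S4249

open Cfsg Cfsg.Agent.Lib.H6Hughes Cfsg.Agent.Lib.PNilp

theorem coatom_normal_index {Y : Type*} [Group Y] [Finite Y] {p : ℕ} [hp : Fact p.Prime]
    (hP : IsPGroup p Y) {M : Subgroup Y} (hM : IsCoatom M) : M.Normal ∧ M.index = p := by
  classical
  haveI hnil : Group.IsNilpotent Y := hP.isNilpotent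
  have hnorm : M.Normal := by
    have h : Group.IsNilpotent Y ↔ ∀ H : Subgroup Y, IsCoatom H → H.Normal :=
      (Group.isNilpotent_of_finite_tfae (G := Y)).out 0 2
    exact h.mp hnil M hM
  refine ⟨hnorm, ?_⟩
  haveI := hnorm
  obtain ⟨y, hy⟩ : ∃ y, y ∉ M := by
    by_contra hall
    push Not at hall
    exact hM.1 (eq_top_iff.2 fun x _ => hall x)
  have hpw := (Cfsg.Agent.Lib.H6PGroup.coatom_facts hP hM).1 y
  have hne : ((y : Y ⧸ M)) ≠ 1 := fun h0 => hy ((QuotientGroup.eq_one_iff y).1 h0)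
  have ho : orderOf ((y : Y ⧸ M)) = p := by
    apply orderOf_eq_prime _ hne
    rw [← QuotientGroup.mk_pow]
    exact (QuotientGroup.eq_one_iff _).2 hpw
  have htop : Subgroup.zpowers ((y : Y ⧸ M)) = ⊤ := by
    have h1 : M < (Subgroup.zpowers ((y : Y ⧸ M))).comap (QuotientGroup.mk' M) := by
      refine lt_of_le_of_ne ?_ ?_
      · intro m hm
        show ((m : Y ⧸ M)) ∈ Subgroup.zpowers ((y : Y ⧸ M))
        rw [(QuotientGroup.eq_one_iff m).2 hm]
        exact Subgroup.one_mem _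
      · intro he
        apply hy
        rw [he]
        exact Subgroup.mem_zpowers _
    have h2 := hM.2 _ h1
    rw [eq_top_iff]
    intro x _
    induction x using QuotientGroup.induction_on with
    | H x =>
      have : x ∈ (Subgroup.zpowers ((y : Y ⧸ M))).comap (QuotientGroup.mk' M) := by rw [h2]; trivial
      exact this
  have hc : Nat.card (Y ⧸ M) = p := by
    rw [← ho, ← Nat.card_zpowers, htop]
    exact (Nat.card_congr Subgroup.topEquiv.toEquiv).symm
  exact hc

theorem exists_center_part {G : Type*} [Group G] [Finite G] (K : Subgroup G) [hKn : K.Normal] (hKbot : K ≠ ⊥)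
    [Group.IsNilpotent K] : ∃ A : Subgroup G, A.Normal ∧ A ≤ K ∧ A ≠ ⊥ ∧ ∀ a ∈ A, ∀ b ∈ A, a * b = b * a := by
  haveI : Nontrivial K := (Subgroup.nontrivial_iff_ne_bot K).2 hKbot
  have hcne := Group.IsNilpotent.center_ne_bot (G := K)
  refine ⟨(Subgroup.center K).map K.subtype,
    Cfsg.Agent.Lib.FitCore.map_subtype_normal_of_char K (Subgroup.center K), ?_, ?_, ?_⟩
  · rintro _ ⟨u, _, rfl⟩
    exact u.2
  · intro h0
    rw [Subgroup.map_eq_bot_iff_of_injective _ K.subtype_injective] at h0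
    exact hcne h0
  · rintro _ ⟨a, ha, rfl⟩ _ ⟨b, hb, rfl⟩
    have := Subgroup.mem_center_iff.1 ha b
    exact (congrArg Subtype.val this).symm

theorem aux {G : Type*} [Group G] [Finite G] (p : ℕ) [hp : Fact p.Prime] (hG : ¬ IsPGroup p G)
    (H : Subgroup G) (hHdef : H = Subgroup.closure {g : G | g ^ p ≠ 1}) (hH : H ≠ ⊤) :
    Group.IsNilpotent H ∧ H.index = p := by
  classical
  have hout : ∀ g, g ∉ H → g ^ p = 1 := by
    intro g hg
    by_contra h1
    apply hg
    rw [hHdef]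
    exact Subgroup.subset_closure h1
  haveI hHn : H.Normal := by
    constructor
    intro n hn g
    rw [hHdef] at hn ⊢
    induction hn using Subgroup.closure_induction with
    | mem x hx =>
      apply Subgroup.subset_closure
      show (g * x * g⁻¹) ^ p ≠ 1
      rw [conj_pow]
      intro h1
      apply hx
      have h2 : x ^ p = g⁻¹ * (g * x ^ p * g⁻¹) * g := by group
      rw [h2, h1]
      group
    | one => simpa using Subgroup.one_mem _
    | mul x y _ _ hx hy =>
      have : g * (x * y) * g⁻¹ = (g * x * g⁻¹) * (g * y * g⁻¹) := by group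
      rw [this]
      exact Subgroup.mul_mem _ hx hy
    | inv x _ hx =>
      have : g * x⁻¹ * g⁻¹ = (g * x * g⁻¹)⁻¹ := by group
      rw [this]
      exact Subgroup.inv_mem _ hx
  have hq : ∀ x : G ⧸ H, x ^ p = 1 := by
    intro x
    induction x using QuotientGroup.induction_on with
    | H x =>
      by_cases hx : x ∈ H
      · rw [(QuotientGroup.eq_one_iff x).2 hx, one_pow]
      · rw [← QuotientGroup.mk_pow, hout x hx]
        rfl
  have hqp : IsPGroup p (G ⧸ H) := fun x => ⟨1, by simpa using hq x⟩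
  have hcoat : ∀ S : Subgroup (G ⧸ H), S ≠ ⊤ → ∃ N : Subgroup G, Hyp p N ∧ H ≤ N ∧ ∀ x : G, (x : G ⧸ H) ∈ S → x ∈ N := by
    intro S hS
    obtain h0 | ⟨M, hM, hSM⟩ := eq_top_or_exists_le_coatom S
    · exact absurd h0 hS
    obtain ⟨hMn, hMi⟩ := coatom_normal_index hqp hM
    have hle : H ≤ M.comap (QuotientGroup.mk' H) := by
      intro x hx
      show (x : G ⧸ H) ∈ M
      rw [(QuotientGroup.eq_one_iff x).2 hx]
      exact M.one_mem
    refine ⟨M.comap (QuotientGroup.mk' H), ⟨Subgroup.Normal.comap hMn _, ?_, ?_⟩, hle, fun x hx => hSM hx⟩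
    · rw [Subgroup.index_comap_of_surjective _ (QuotientGroup.mk'_surjective H), hMi]
    · intro x hx
      exact hout x (fun h1 => hx (hle h1))
  haveI : Nontrivial (G ⧸ H) := QuotientGroup.nontrivial_iff.2 hH
  obtain ⟨N₁, hN₁, hHN₁, -⟩ := hcoat ⊥ bot_ne_top
  have hnil₁ := hughes_main (p := p) _ G rfl N₁ hN₁
  have hHnil : Group.IsNilpotent H :=
    nilpotent_of_injective (Subgroup.inclusion hHN₁) (Subgroup.inclusion_injective hHN₁)
  refine ⟨hHnil, ?_⟩
  by_contra hne
  obtain ⟨g, hg⟩ : ∃ g, g ∉ N₁ := by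
    by_contra hall
    push Not at hall
    have h1 : N₁ = ⊤ := eq_top_iff.2 fun x _ => hall x
    have h2 := hN₁.index
    rw [h1, Subgroup.index_top] at h2
    exact hp.out.one_lt.ne h2
  have hgH : g ∉ H := fun h1 => hg (hHN₁ h1)
  have hgp : g ^ p = 1 := hout g hgH
  have hz : Subgroup.zpowers ((g : G ⧸ H)) ≠ ⊤ := by
    intro htop
    apply hne
    have ho : orderOf ((g : G ⧸ H)) = p :=
      orderOf_eq_prime (hq _) (fun h0 => hgH ((QuotientGroup.eq_one_iff g).1 h0))
    show Nat.card (G ⧸ H) = p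
    rw [← ho, ← Nat.card_zpowers, htop]
    exact (Nat.card_congr Subgroup.topEquiv.toEquiv).symm
  obtain ⟨N₂, hN₂, hHN₂, hgN₂⟩ := hcoat _ hz
  have hgN₂' : g ∈ N₂ := hgN₂ g (Subgroup.mem_zpowers _)
  -- the abelian normal subgroup
  obtain ⟨N₀, hN₀, hN₀p, hN₀pow⟩ :=
    Cfsg.Agent.Lib.PNilp.npc_iff.1 (Cfsg.Agent.Lib.ThompsonFpf.npc_of_nilpotent (N := H) p)
  set K : Subgroup G := N₀.map H.subtype with hK
  haveI hKn : K.Normal := npc_map_normal H N₀ hN₀p hN₀pow
  have hKH : K ≤ H := by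
    rintro _ ⟨u, _, rfl⟩
    exact u.2
  have hKc : Nat.card K = Nat.card N₀ := Subgroup.card_map_of_injective H.subtype_injective
  have hKp : ¬ p ∣ Nat.card K := by rw [hKc]; exact hN₀p
  have hKbot : K ≠ ⊥ := by
    intro h0
    rw [hK, Subgroup.map_eq_bot_iff_of_injective _ H.subtype_injective] at h0
    apply hG
    intro x
    have h1 : x ^ p ∈ H := by
      by_cases hx : x ∈ H
      · exact H.pow_mem hx p
      · rw [hout x hx]
        exact H.one_mem
    obtain ⟨k, hk⟩ := hN₀pow ⟨_, h1⟩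
    rw [h0, Subgroup.mem_bot] at hk
    have h2 : (x ^ p) ^ p ^ k = 1 := congrArg Subtype.val hk
    refine ⟨k + 1, ?_⟩
    rw [pow_succ', pow_mul]
    exact h2
  haveI hKnil : Group.IsNilpotent K :=
    nilpotent_of_mulEquiv (N₀.equivMapOfInjective _ H.subtype_injective)
  obtain ⟨A, hAn, hAK, hAne, hcomm⟩ := exists_center_part K hKbot
  haveI := hAn
  have hAp : ¬ p ∣ Nat.card A := fun hd => hKp (hd.trans (Subgroup.card_dvd_of_le hAK))
  -- `g` centralizes `A`
  have hcen : ∀ v ∈ A, g * v * g⁻¹ = v := by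
    intro v hv
    obtain ⟨Q, hQ⟩ := (isPGroup_zpowers (p := p) g 1 (by simpa using hgp)).exists_le_sylow
    have hgQ : g ∈ (Q : Subgroup G) := hQ (Subgroup.mem_zpowers g)
    obtain ⟨t₁, ht₁Q, ht₁G⟩ := Set.not_subset.1 (sylow_escape hN₂ Q)
    haveI hN₂n := hN₂.normal
    refine centralize_abelian A hcomm ((Q : Subgroup G) ⊓ N₂) p hp.out t₁ ?_ ?_ ?_ g ⟨hgQ, hgN₂'⟩ v hv
    · rw [Subgroup.mem_normalizer_iff]
      intro x
      constructor
      · rintro ⟨h1, h2⟩
        exact ⟨Q.toSubgroup.mul_mem (Q.toSubgroup.mul_mem ht₁Q h1) (Q.toSubgroup.inv_mem ht₁Q),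
          hN₂n.conj_mem _ h2 t₁⟩
      · rintro ⟨h1, h2⟩
        have h3 : t₁⁻¹ * (t₁ * x * t₁⁻¹) * t₁ = x := by group
        rw [← h3]
        refine ⟨Q.toSubgroup.mul_mem (Q.toSubgroup.mul_mem (Q.toSubgroup.inv_mem ht₁Q) h1) ht₁Q, ?_⟩
        have := hN₂n.conj_mem _ h2 t₁⁻¹
        simpa using this
    · intro y' hy' v' hv'
      apply hN₂.pow
      intro hin
      apply ht₁G
      have h1 : v'⁻¹ * (v' * (t₁ * y')) * y'⁻¹ ∈ N₂ :=
        N₂.mul_mem (N₂.mul_mem (N₂.inv_mem (hHN₂ (hKH (hAK hv')))) hin) (N₂.inv_mem hy'.2)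
      simpa using h1
    · obtain ⟨a, ha⟩ := IsPGroup.iff_card.1 (Q.isPGroup'.to_le (inf_le_left : (Q : Subgroup G) ⊓ N₂ ≤ Q))
      rw [ha]
      exact Nat.Coprime.pow_right _ (Nat.Coprime.symm ((Nat.Prime.coprime_iff_not_dvd hp.out).2 hAp))
  apply hAne
  rw [eq_bot_iff]
  intro v hv
  have h1 : Commute g v := by
    show g * v = v * g
    calc g * v = g * v * g⁻¹ * g := by group
      _ = v * g := by rw [hcen v hv]
  have h2 : g * v ∉ N₁ := by
    intro hin
    apply hg
    have := N₁.mul_mem hin (N₁.inv_mem (hHN₁ (hKH (hAK hv))))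
    simpa using this
  have h3 := hN₁.pow _ h2
  rw [h1.mul_pow, hgp, one_mul] at h3
  rw [Subgroup.mem_bot]
  exact eq_one_of_pow A hAp v hv 1 (by simpa using h3)


/-- Let G be a finite group and p a prime such that G is not a p-group, and suppose the Hughes subgroup H_p(G), generated by all elements g with g^p ≠ 1, is a proper subgroup. Then H_p(G) is nilpotent and has index p in G. -/
theorem result {G : Type*} [Group G] [Finite G] (p : ℕ) (hp : p.Prime) (hG : ¬ IsPGroup p G)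
    (hH : Subgroup.closure {g : G | g ^ p ≠ 1} ≠ ⊤) :
    Group.IsNilpotent (Subgroup.closure {g : G | g ^ p ≠ 1}) ∧ (Subgroup.closure {g : G | g ^ p ≠ 1}).index = p := by
  haveI : Fact p.Prime := ⟨hp⟩
  exact aux p hG _ rfl hH

end Cfsg.Agent.S4249
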