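import Cfsg.Statements.S4250
import Cfsg.Agent.Lib.ConjFamily
import Cfsg.Agent.Lib.Focal
import Cfsg.Agent.Lib.TameInter
import Cfsg.Agent.Lib.H5Basic
import Cfsg.Agent.Lib.SylowIn
import Cfsg.Agent.Lib.WeakCl
-- import your own Cfsg.Agent.* helpers here

set_option autoImplicit false
set_option linter.all false
open Cfsg

namespace Cfsg.Agent.S4250

open scoped commutatorElement

open Cfsg.Agent.Lib.ConjFamily Cfsg.Agent.Lib.SylowIn Cfsg.Agent.Lib.TameInter

variable {G : Type*} [Group G] [Finite G] {p : ℕ} [hp : Fact p.Prime]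

/-- The relation for a pair of Sylow subgroups. -/
def CtlZ (P : Sylow p G) (Z : Subgroup G) (X Y : Sylow p G) : Prop :=
  ∀ a ∈ (X : Subgroup G) ⊓ (Y : Subgroup G), ∀ h g : G, cj h (X : Subgroup G) = (P : Subgroup G) →
    cj g (Y : Subgroup G) = (P : Subgroup G) → (h * a * h⁻¹)⁻¹ * (g * a * g⁻¹) ∈ Z

theorem exists_cj_eq (X P : Sylow p G) : ∃ k : G, cj k (X : Subgroup G) = (P : Subgroup G) := by
  obtain ⟨k, hk⟩ := exists_conj_le_sylow P X.isPGroup'
  refine ⟨k, Subgroup.eq_of_le_of_card_ge hk ?_⟩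
  have h1 : Nat.card (cj k (X : Subgroup G)) = Nat.card (X : Subgroup G) := card_cj k _
  rw [h1, Sylow.card_eq_multiplicity X, Sylow.card_eq_multiplicity P]

theorem composeZ {P : Sylow p G} {Z : Subgroup G} {X R Y : Sylow p G} (h1 : CtlZ P Z X R)
    (h2 : CtlZ P Z R Y) {a : G} (ha : a ∈ (X : Subgroup G) ⊓ (Y : Subgroup G))
    (haR : a ∈ (R : Subgroup G)) (h g : G) (hh : cj h (X : Subgroup G) = (P : Subgroup G))
    (hg : cj g (Y : Subgroup G) = (P : Subgroup G)) : (h * a * h⁻¹)⁻¹ * (g * a * g⁻¹) ∈ Z := by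
  obtain ⟨k, hk⟩ := exists_cj_eq R P
  have h3 := h1 a ⟨ha.1, haR⟩ h k hh hk
  have h4 := h2 a ⟨haR, ha.2⟩ k g hk hg
  have e : (h * a * h⁻¹)⁻¹ * (g * a * g⁻¹) =
      ((h * a * h⁻¹)⁻¹ * (k * a * k⁻¹)) * ((k * a * k⁻¹)⁻¹ * (g * a * g⁻¹)) := by group
  rw [e]; exact Z.mul_mem h3 h4

theorem alperin_Z (P : Sylow p G) (Z : Subgroup G)
    (hZ1 : ∀ x ∈ (P : Subgroup G), ∀ m ∈ Subgroup.normalizer ((P : Subgroup G) : Set G),
      x⁻¹ * (m * x * m⁻¹) ∈ Z)
    (hZ2 : ∀ Q : Sylow p G,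
      IsSylowIn p ((P : Subgroup G) ⊓ Subgroup.normalizer (((P : Subgroup G) ⊓ (Q : Subgroup G) : Subgroup G) : Set G))
        (Subgroup.normalizer (((P : Subgroup G) ⊓ (Q : Subgroup G) : Subgroup G) : Set G)) →
      IsSylowIn p ((Q : Subgroup G) ⊓ Subgroup.normalizer (((P : Subgroup G) ⊓ (Q : Subgroup G) : Subgroup G) : Set G))
        (Subgroup.normalizer (((P : Subgroup G) ⊓ (Q : Subgroup G) : Subgroup G) : Set G)) →
      ∀ x ∈ Subgroup.normalizer (((P : Subgroup G) ⊓ (Q : Subgroup G) : Subgroup G) : Set G),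
        (∃ k : ℕ, orderOf x = p ^ k) → ∀ a ∈ (P : Subgroup G) ⊓ (Q : Subgroup G),
        a⁻¹ * (x * a * x⁻¹) ∈ Z) :
    ∀ (n : ℕ) (X Y : Sylow p G),
    Nat.card (X : Subgroup G) - Nat.card ((X : Subgroup G) ⊓ (Y : Subgroup G) : Subgroup G) = n →
      CtlZ P Z X Y := by
  intro n
  induction n using Nat.strong_induction_on with
  | _ n IH =>
  have hcard : ∀ X Y : Sylow p G, Nat.card (X : Subgroup G) = Nat.card (Y : Subgroup G) := fun X Y => by
    rw [Sylow.card_eq_multiplicity X, Sylow.card_eq_multiplicity Y]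
  have hinfle : ∀ X Y : Sylow p G, Nat.card ((X : Subgroup G) ⊓ (Y : Subgroup G) : Subgroup G) ≤ Nat.card (X : Subgroup G) :=
    fun X Y => Nat.le_of_dvd Nat.card_pos (Subgroup.card_dvd_of_le inf_le_left)
  have hsmall : ∀ X Y R : Sylow p G, Nat.card (X : Subgroup G) - Nat.card ((X : Subgroup G) ⊓ (Y : Subgroup G) : Subgroup G) = n →
      Nat.card ((X : Subgroup G) ⊓ (Y : Subgroup G) : Subgroup G) < Nat.card ((X : Subgroup G) ⊓ (R : Subgroup G) : Subgroup G) →
      CtlZ P Z X R := by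
    intro X Y R hn hlt
    refine IH _ ?_ X R rfl
    have := hinfle X R
    omega
  have hsmall' : ∀ X Y R : Sylow p G, Nat.card (X : Subgroup G) - Nat.card ((X : Subgroup G) ⊓ (Y : Subgroup G) : Subgroup G) = n →
      Nat.card ((X : Subgroup G) ⊓ (Y : Subgroup G) : Subgroup G) < Nat.card ((R : Subgroup G) ⊓ (Y : Subgroup G) : Subgroup G) →
      CtlZ P Z R Y := by
    intro X Y R hn hlt
    refine IH _ ?_ R Y rfl
    have := hinfle R Y
    have h2 := hcard X R
    omega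
  have hLT : ∀ X Y : Sylow p G, Nat.card (X : Subgroup G) - Nat.card ((X : Subgroup G) ⊓ (Y : Subgroup G) : Subgroup G) = n →
      IsSylowIn p ((X : Subgroup G) ⊓ Subgroup.normalizer (((X : Subgroup G) ⊓ (Y : Subgroup G) : Subgroup G) : Set G))
        (Subgroup.normalizer (((X : Subgroup G) ⊓ (Y : Subgroup G) : Subgroup G) : Set G)) →
      IsSylowIn p ((Y : Subgroup G) ⊓ Subgroup.normalizer (((X : Subgroup G) ⊓ (Y : Subgroup G) : Subgroup G) : Set G))
        (Subgroup.normalizer (((X : Subgroup G) ⊓ (Y : Subgroup G) : Subgroup G) : Set G)) → CtlZ P Z X Y := by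
    intro X Y hn hX hY a ha h g hh hg
    set D : Subgroup G := (X : Subgroup G) ⊓ (Y : Subgroup G) with hD
    by_cases hDX : D = (X : Subgroup G)
    · have hXY : (X : Subgroup G) ≤ (Y : Subgroup G) := by
        rw [← hDX]
        exact inf_le_right
      have hXYe : (X : Subgroup G) = (Y : Subgroup G) :=
        Subgroup.eq_of_le_of_card_ge hXY (hcard X Y).ge
      have hg' : cj g (X : Subgroup G) = (P : Subgroup G) := by rw [hXYe]; exact hg
      have hinv : cj h⁻¹ (P : Subgroup G) = (X : Subgroup G) := by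
        rw [← hh, cj_cj, inv_mul_cancel, cj_one]
      have hnorm : cj (g * h⁻¹) (P : Subgroup G) = (P : Subgroup G) := by
        rw [← cj_cj, hinv, hg']
      have hm : g * h⁻¹ ∈ Subgroup.normalizer ((P : Subgroup G) : Set G) :=
        mem_normalizer_of_cj_eq hnorm
      have haP : h * a * h⁻¹ ∈ (P : Subgroup G) := by
        rw [← hh]; exact cj_mem ha.1
      have h3 := hZ1 _ haP _ hm
      have e : (g * h⁻¹) * (h * a * h⁻¹) * (g * h⁻¹)⁻¹ = g * a * g⁻¹ := by group
      rwa [e] at h3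
    have hDY : D ≠ (Y : Subgroup G) := by
      intro h'
      apply hDX
      have hYX : (Y : Subgroup G) ≤ (X : Subgroup G) := by
        rw [← h']
        exact inf_le_left
      have hYXe : (Y : Subgroup G) = (X : Subgroup G) :=
        Subgroup.eq_of_le_of_card_ge hYX (hcard Y X).ge
      rw [h', hYXe]
    let L : Subgroup G := Subgroup.normalizer ((D : Subgroup G) : Set G)
    obtain ⟨Q, hQ⟩ := exists_sylow_cj h Y
    have hPQ : (P : Subgroup G) ⊓ (Q : Subgroup G) = cj h D := by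
      rw [hD, Cfsg.Agent.Lib.Focal.cj_inf, hh, hQ]
    have hNc : Subgroup.normalizer (((P : Subgroup G) ⊓ (Q : Subgroup G) : Subgroup G) : Set G) = cj h L := by
      rw [hPQ, normalizer_cj]
    have tame1 : IsSylowIn p ((P : Subgroup G) ⊓ Subgroup.normalizer (((P : Subgroup G) ⊓ (Q : Subgroup G) : Subgroup G) : Set G))
        (Subgroup.normalizer (((P : Subgroup G) ⊓ (Q : Subgroup G) : Subgroup G) : Set G)) := by
      rw [hNc]
      have h3 := isSylowIn_cj hX inf_le_right h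
      rw [Cfsg.Agent.Lib.Focal.cj_inf, hh] at h3
      exact h3
    have tame2 : IsSylowIn p ((Q : Subgroup G) ⊓ Subgroup.normalizer (((P : Subgroup G) ⊓ (Q : Subgroup G) : Subgroup G) : Set G))
        (Subgroup.normalizer (((P : Subgroup G) ⊓ (Q : Subgroup G) : Subgroup G) : Set G)) := by
      rw [hNc]
      have h3 := isSylowIn_cj hY inf_le_right h
      rw [Cfsg.Agent.Lib.Focal.cj_inf, ← hQ] at h3
      exact h3
    have hDconj : ∀ b ∈ L, ∀ w ∈ D, b * w * b⁻¹ ∈ D :=
      fun b hb w hw => (Subgroup.mem_normalizer_iff.1 hb w).1 hw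
    let F : Subgroup G :=
      { carrier := {u | u ∈ L ∧ ∀ w ∈ D, (h * w * h⁻¹)⁻¹ * (h * (u * w * u⁻¹) * h⁻¹) ∈ Z}
        mul_mem' := by
          rintro b c ⟨hb, hb'⟩ ⟨hc, hc'⟩
          refine ⟨L.mul_mem hb hc, fun w hw => ?_⟩
          have h1 := hc' w hw
          have h2 := hb' _ (hDconj c hc w hw)
          have e : (h * w * h⁻¹)⁻¹ * (h * (b * c * w * (b * c)⁻¹) * h⁻¹) =
              ((h * w * h⁻¹)⁻¹ * (h * (c * w * c⁻¹) * h⁻¹)) *
              ((h * (c * w * c⁻¹) * h⁻¹)⁻¹ * (h * (b * (c * w * c⁻¹) * b⁻¹) * h⁻¹)) := by group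
          rw [e]; exact Z.mul_mem h1 h2
        one_mem' := by
          refine ⟨L.one_mem, fun w hw => ?_⟩
          have e : (h * w * h⁻¹)⁻¹ * (h * (1 * w * 1⁻¹) * h⁻¹) = 1 := by group
          rw [e]; exact Z.one_mem
        inv_mem' := by
          rintro b ⟨hb, hb'⟩
          refine ⟨L.inv_mem hb, fun w hw => ?_⟩
          have h0 : b⁻¹ * w * b⁻¹⁻¹ ∈ D := hDconj _ (L.inv_mem hb) w hw
          have h1 := hb' _ h0
          have e : (h * w * h⁻¹)⁻¹ * (h * (b⁻¹ * w * b⁻¹⁻¹) * h⁻¹) =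
              ((h * (b⁻¹ * w * b⁻¹⁻¹) * h⁻¹)⁻¹ * (h * (b * (b⁻¹ * w * b⁻¹⁻¹) * b⁻¹) * h⁻¹))⁻¹ := by
            group
          rw [e]; exact Z.inv_mem h1 }
    let gens : Set G := {x | x ∈ L ∧ ∃ k : ℕ, orderOf x = p ^ k}
    let E : Subgroup G := Subgroup.closure gens
    have hgenF : gens ⊆ F := by
      rintro x ⟨hxL, k, hk⟩
      refine ⟨hxL, fun w hw => ?_⟩
      have hx' : h * x * h⁻¹ ∈ Subgroup.normalizer (((P : Subgroup G) ⊓ (Q : Subgroup G) : Subgroup G) : Set G) := by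
        rw [hNc]; exact cj_mem hxL
      have hord : orderOf (h * x * h⁻¹) = p ^ k := by
        rw [← hk]
        exact MulEquiv.orderOf_eq (MulAut.conj h) x
      have hw' : h * w * h⁻¹ ∈ (P : Subgroup G) ⊓ (Q : Subgroup G) := by
        rw [hPQ]; exact cj_mem hw
      have h3 := hZ2 Q tame1 tame2 _ hx' ⟨k, hord⟩ _ hw'
      have e : (h * x * h⁻¹) * (h * w * h⁻¹) * (h * x * h⁻¹)⁻¹ = h * (x * w * x⁻¹) * h⁻¹ := by group
      rwa [e] at h3
    have hEF : E ≤ F := (Subgroup.closure_le _).2 hgenF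
    have hEL : E ≤ L := hEF.trans (fun x hx => hx.1)
    have hPE : ∀ W : Subgroup G, IsPGroup p W → W ≤ L → W ≤ E := by
      intro W hW hWL y hy
      apply Subgroup.subset_closure
      refine ⟨hWL hy, ?_⟩
      obtain ⟨k, hk⟩ := IsPGroup.iff_orderOf.mp hW ⟨y, hy⟩
      refine ⟨k, ?_⟩
      rw [← hk, Subgroup.orderOf_mk]
    have hXE := hPE _ (X.isPGroup'.to_le inf_le_left) (inf_le_right : (X : Subgroup G) ⊓ L ≤ L)
    have hYE := hPE _ (Y.isPGroup'.to_le inf_le_left) (inf_le_right : (Y : Subgroup G) ⊓ L ≤ L)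
    have hAE : IsSylowIn p ((X : Subgroup G) ⊓ L) E := IsSylowIn.mono hX hXE hEL
    obtain ⟨u, huE, huc⟩ := exists_conj_le_of_isSylowIn hAE hYE (Y.isPGroup'.to_le inf_le_left)
    obtain ⟨Y₁, hY₁⟩ := exists_sylow_cj u Y
    have hle : cj u ((Y : Subgroup G) ⊓ L) ≤ (X : Subgroup G) ⊓ (Y₁ : Subgroup G) := by
      refine le_inf (huc.trans inf_le_left) ?_
      rw [hY₁]
      exact cj_mono _ inf_le_left
    obtain ⟨h1, h2⟩ := lt_inf_normalizer Y.isPGroup' (inf_le_right : D ≤ (Y : Subgroup G)) hDY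
    have hlt : Nat.card D < Nat.card ((X : Subgroup G) ⊓ (Y₁ : Subgroup G) : Subgroup G) := by
      refine lt_of_lt_of_le (card_lt_of_le_of_not_le h1 h2) ?_
      rw [← card_cj u]
      exact Nat.le_of_dvd Nat.card_pos (Subgroup.card_dvd_of_le hle)
    have hctl : CtlZ P Z X Y₁ := hsmall X Y Y₁ hn hlt
    have huL : u ∈ L := hEL huE
    have ha₁ : u * a * u⁻¹ ∈ (X : Subgroup G) ⊓ (Y₁ : Subgroup G) := by
      refine ⟨(inf_le_left : D ≤ (X : Subgroup G)) (hDconj u huL a ha), ?_⟩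
      show u * a * u⁻¹ ∈ (Y₁ : Subgroup G)
      rw [hY₁]
      exact cj_mem ha.2
    have hg₁ : cj (g * u⁻¹) (Y₁ : Subgroup G) = (P : Subgroup G) := by
      rw [hY₁, cj_cj]
      have e : g * u⁻¹ * u = g := by group
      rw [e]; exact hg
    have h3 := hctl _ ha₁ h (g * u⁻¹) hh hg₁
    have h4 := (hEF huE).2 a ha
    have e : (h * a * h⁻¹)⁻¹ * (g * a * g⁻¹) =
        ((h * a * h⁻¹)⁻¹ * (h * (u * a * u⁻¹) * h⁻¹)) *
        ((h * (u * a * u⁻¹) * h⁻¹)⁻¹ * ((g * u⁻¹) * (u * a * u⁻¹) * (g * u⁻¹)⁻¹)) := by group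
    rw [e]; exact Z.mul_mem h4 h3
  have hLA : ∀ X Y : Sylow p G, Nat.card (X : Subgroup G) - Nat.card ((X : Subgroup G) ⊓ (Y : Subgroup G) : Subgroup G) = n →
      IsSylowIn p ((Y : Subgroup G) ⊓ Subgroup.normalizer (((X : Subgroup G) ⊓ (Y : Subgroup G) : Subgroup G) : Set G))
        (Subgroup.normalizer (((X : Subgroup G) ⊓ (Y : Subgroup G) : Subgroup G) : Set G)) → CtlZ P Z X Y := by
    intro X Y hn hY
    by_cases hX : IsSylowIn p ((X : Subgroup G) ⊓ Subgroup.normalizer (((X : Subgroup G) ⊓ (Y : Subgroup G) : Subgroup G) : Set G))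
        (Subgroup.normalizer (((X : Subgroup G) ⊓ (Y : Subgroup G) : Subgroup G) : Set G))
    · exact hLT X Y hn hX hY
    set D : Subgroup G := (X : Subgroup G) ⊓ (Y : Subgroup G) with hD
    obtain ⟨R, hAR, hRS⟩ := exists_sylow_over
      (inf_le_right : (X : Subgroup G) ⊓ Subgroup.normalizer ((D : Subgroup G) : Set G) ≤ _)
      (X.isPGroup'.to_le inf_le_left)
    have hDX : D ≠ (X : Subgroup G) := by
      intro h
      apply hX
      have h1 : (X : Subgroup G) ≤ Subgroup.normalizer ((D : Subgroup G) : Set G) := by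
        rw [h]
        exact Subgroup.le_normalizer
      rw [inf_eq_left.2 h1]
      exact IsSylowIn.mono (Cfsg.Agent.Lib.WeakCl.isSylowIn_top X) h1 le_top
    obtain ⟨h1, h2⟩ := lt_inf_normalizer X.isPGroup' (inf_le_left : D ≤ (X : Subgroup G)) hDX
    have hDR : D ≤ (R : Subgroup G) := h1.trans hAR
    have hXR : Nat.card D < Nat.card ((X : Subgroup G) ⊓ (R : Subgroup G) : Subgroup G) := by
      refine lt_of_lt_of_le (card_lt_of_le_of_not_le h1 h2) ?_
      exact Nat.le_of_dvd Nat.card_pos (Subgroup.card_dvd_of_le (le_inf inf_le_left (inf_le_left.trans' (le_inf hAR le_rfl))))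
    have hc1 : CtlZ P Z X R := hsmall X Y R hn hXR
    have hc2 : CtlZ P Z R Y := by
      by_cases hRY : (R : Subgroup G) ⊓ (Y : Subgroup G) = D
      · refine hLT R Y ?_ ?_ ?_
        · rw [hRY, hcard R X]
          exact hn
        · rw [hRY]
          exact hRS
        · rw [hRY]
          exact hY
      · have hle : D ≤ (R : Subgroup G) ⊓ (Y : Subgroup G) := le_inf hDR inf_le_right
        have hlt : Nat.card D < Nat.card ((R : Subgroup G) ⊓ (Y : Subgroup G) : Subgroup G) :=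
          card_lt_of_le_of_not_le hle (fun h => hRY (le_antisymm h hle))
        exact hsmall' X Y R hn hlt
    intro a ha h g hh hg
    exact composeZ hc1 hc2 ha (hDR ha) h g hh hg
  intro X Y hn
  by_cases hY : IsSylowIn p ((Y : Subgroup G) ⊓ Subgroup.normalizer (((X : Subgroup G) ⊓ (Y : Subgroup G) : Subgroup G) : Set G))
      (Subgroup.normalizer (((X : Subgroup G) ⊓ (Y : Subgroup G) : Subgroup G) : Set G))
  · exact hLA X Y hn hY
  set D : Subgroup G := (X : Subgroup G) ⊓ (Y : Subgroup G) with hD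
  obtain ⟨R, hAR, hRS⟩ := exists_sylow_over
    (inf_le_right : (Y : Subgroup G) ⊓ Subgroup.normalizer ((D : Subgroup G) : Set G) ≤ _)
    (Y.isPGroup'.to_le inf_le_left)
  have hDY : D ≠ (Y : Subgroup G) := by
    intro h
    apply hY
    have h1 : (Y : Subgroup G) ≤ Subgroup.normalizer ((D : Subgroup G) : Set G) := by
      rw [h]
      exact Subgroup.le_normalizer
    rw [inf_eq_left.2 h1]
    exact IsSylowIn.mono (Cfsg.Agent.Lib.WeakCl.isSylowIn_top Y) h1 le_top
  obtain ⟨h1, h2⟩ := lt_inf_normalizer Y.isPGroup' (inf_le_right : D ≤ (Y : Subgroup G)) hDY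
  have hDR : D ≤ (R : Subgroup G) := h1.trans hAR
  have hRY : Nat.card D < Nat.card ((R : Subgroup G) ⊓ (Y : Subgroup G) : Subgroup G) := by
    refine lt_of_lt_of_le (card_lt_of_le_of_not_le h1 h2) ?_
    refine Nat.le_of_dvd Nat.card_pos (Subgroup.card_dvd_of_le (le_inf hAR inf_le_left))
  have hc2 : CtlZ P Z R Y := hsmall' X Y R hn hRY
  have hc1 : CtlZ P Z X R := by
    by_cases hXR : (X : Subgroup G) ⊓ (R : Subgroup G) = D
    · refine hLA X R ?_ ?_
      · rw [hXR]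
        exact hn
      · rw [hXR]
        exact hRS
    · have hle : D ≤ (X : Subgroup G) ⊓ (R : Subgroup G) := le_inf inf_le_left hDR
      have hlt : Nat.card D < Nat.card ((X : Subgroup G) ⊓ (R : Subgroup G) : Subgroup G) :=
        card_lt_of_le_of_not_le hle (fun h => hXR (le_antisymm h hle))
      exact hsmall X Y R hn hlt
  intro a ha h g hh hg
  exact composeZ hc1 hc2 ha (hDR ha) h g hh hg



/-- Let P be a Sylow p-subgroup of a finite group G. Call an intersection H = P ∩ Q with a Sylow p-subgroup Q tame when N_P(H) and N_Q(H) are Sylow p-subgroups of N_G(H). Then P ∩ G′ is generated by [P, N_G(P)] together with the commutator subgroups [P ∩ Q, ⟨x⟩] for all tame intersections P ∩ Q and all p-elements x of N_G(P ∩ Q). -/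
theorem result {G : Type*} [Group G] [Finite G] (p : ℕ) [Fact p.Prime] (P : Sylow p G) :
    (P : Subgroup G) ⊓ commutator G =
      ⁅(P : Subgroup G), Subgroup.normalizer ((P : Subgroup G) : Set G)⁆ ⊔
        ⨆ (Q : Sylow p G) (_ : (¬ p ∣ ((P : Subgroup G) ⊓ Subgroup.normalizer (((P : Subgroup G) ⊓ (Q : Subgroup G) : Subgroup G) : Set G)).relIndex (Subgroup.normalizer (((P : Subgroup G) ⊓ (Q : Subgroup G) : Subgroup G) : Set G)) ∧ ¬ p ∣ ((Q : Subgroup G) ⊓ Subgroup.normalizer (((P : Subgroup G) ⊓ (Q : Subgroup G) : Subgroup G) : Set G)).relIndex (Subgroup.normalizer (((P : Subgroup G) ⊓ (Q : Subgroup G) : Subgroup G) : Set G))))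
          (x : G) (_ : x ∈ Subgroup.normalizer (((P : Subgroup G) ⊓ (Q : Subgroup G) : Subgroup G) : Set G) ∧ ∃ k : ℕ, orderOf x = p ^ k),
          ⁅(P : Subgroup G) ⊓ (Q : Subgroup G), Subgroup.zpowers x⁆ := by
  apply le_antisymm
  · refine Cfsg.Agent.Lib.Focal.inf_commutator_le_of P _ ?_
    intro x hx g hgx
    obtain ⟨Y, hY⟩ := exists_sylow_cj g⁻¹ P
    have hxY : x ∈ (Y : Subgroup G) := by
      rw [hY, mem_cj, inv_inv]
      exact hgx
    have hgY : cj g (Y : Subgroup G) = (P : Subgroup G) := by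
      rw [hY, cj_cj, mul_inv_cancel, cj_one]
    have e : (1 * x * 1⁻¹)⁻¹ * (g * x * g⁻¹) = x⁻¹ * (g * x * g⁻¹) := by group
    rw [← e]
    refine alperin_Z P _ ?_ ?_ _ P Y rfl x ⟨hx, hxY⟩ 1 g (cj_one _) hgY
    · intro a ha m hm
      have e : a⁻¹ * (m * a * m⁻¹) = ⁅a⁻¹, m⁆ := by
        rw [commutatorElement_def]; group
      rw [e]
      exact Subgroup.mem_sup_left (Subgroup.commutator_mem_commutator ((P : Subgroup G).inv_mem ha) hm)
    · intro Q h1 h2 y hy hy' a ha
      have e : a⁻¹ * (y * a * y⁻¹) = ⁅a⁻¹, y⁆ := by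
        rw [commutatorElement_def]; group
      rw [e]
      have h3 : ⁅a⁻¹, y⁆ ∈ ⁅(P : Subgroup G) ⊓ (Q : Subgroup G), Subgroup.zpowers y⁆ :=
        Subgroup.commutator_mem_commutator (Subgroup.inv_mem _ ha) (Subgroup.mem_zpowers y)
      refine Subgroup.mem_sup_right ?_
      refine Subgroup.mem_iSup_of_mem Q (Subgroup.mem_iSup_of_mem
        ⟨Cfsg.Agent.Lib.ConjFamily.isSylowIn_not_dvd h1, Cfsg.Agent.Lib.ConjFamily.isSylowIn_not_dvd h2⟩ ?_)
      exact Subgroup.mem_iSup_of_mem y (Subgroup.mem_iSup_of_mem ⟨hy, hy'⟩ h3)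
  · have hn : (commutator G).Normal := inferInstance
    have hle : ∀ A B : Subgroup G, ⁅A, B⁆ ≤ commutator G := fun A B => by
      rw [commutator_def]; exact Subgroup.commutator_mono le_top le_top
    refine sup_le (le_inf ?_ (hle _ _)) (iSup_le fun Q => iSup_le fun hQ => iSup_le fun y => iSup_le fun hy => le_inf ?_ (hle _ _))
    · rw [Subgroup.commutator_le]
      intro a ha m hm
      rw [commutatorElement_def]
      have e : a * m * a⁻¹ * m⁻¹ = a * (m * a⁻¹ * m⁻¹) := by group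
      rw [e]
      exact (P : Subgroup G).mul_mem ha ((Subgroup.mem_normalizer_iff.1 hm _).1 ((P : Subgroup G).inv_mem ha))
    · rw [Subgroup.commutator_le]
      intro a ha m hm
      have hmN : m ∈ Subgroup.normalizer (((P : Subgroup G) ⊓ (Q : Subgroup G) : Subgroup G) : Set G) :=
        (Subgroup.zpowers_le.2 hy.1) hm
      rw [commutatorElement_def]
      have e : a * m * a⁻¹ * m⁻¹ = a * (m * a⁻¹ * m⁻¹) := by group
      rw [e]
      exact (Subgroup.mul_mem _ ha ((Subgroup.mem_normalizer_iff.1 hmN _).1 (Subgroup.inv_mem _ ha))).1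

end Cfsg.Agent.S4250
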