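import Cfsg.Statements.S4252
-- import your own Cfsg.Agent.* helpers here

set_option autoImplicit false
open Cfsg

namespace Cfsg.Agent.S4252

open scoped Pointwise

theorem mem_conj_stab {G Ω : Type*} [Group G] [MulAction G Ω] (α : Ω) (g x : G) :
    x ∈ MulAut.conj g • MulAction.stabilizer G α ↔ x • (g • α) = g • α := by
  rw [Subgroup.mem_pointwise_smul_iff_inv_smul_mem, MulAction.mem_stabilizer_iff]
  simp only [MulAut.smul_def, map_inv, MulAut.conj_inv_apply]
  rw [mul_smul, mul_smul, inv_smul_eq_iff]


/-- Let a finite group G act on a finite set Ω with more than one point, transitively but not regularly, so that no non-identity element of G fixes two distinct points. Then the stabilizer H of any point is a Frobenius complement in G (nontrivial, proper, meeting its other conjugates trivially), and the Frobenius kernel of G with respect to H (the identity together with the elements lying in no conjugate of H) is exactly the set consisting of the identity and the elements fixing no point. -/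
theorem result {G Ω : Type*} [Group G] [Finite G] [Fintype Ω] [MulAction G Ω] (hΩ : 1 < Fintype.card Ω)
    (htrans : ∀ α β : Ω, ∃ g : G, g • α = β) (hnreg : ∃ g : G, g ≠ 1 ∧ ∃ α : Ω, g • α = α)
    (hfix : ∀ g : G, g ≠ 1 → ∀ α β : Ω, g • α = α → g • β = β → α = β) (α : Ω) :
    Cfsg.IsFrobeniusComplement (MulAction.stabilizer G α) ∧
      Cfsg.frobeniusKernel (MulAction.stabilizer G α) = {g : G | g = 1 ∨ ∀ ω : Ω, g • ω ≠ ω} := by
  refine ⟨⟨?_, ?_, ?_⟩, ?_⟩
  · obtain ⟨g, hg1, β, hβ⟩ := hnreg
    intro hbot
    obtain ⟨h, hh⟩ := htrans β α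
    have : h * g * h⁻¹ ∈ MulAction.stabilizer G α := by
      rw [MulAction.mem_stabilizer_iff, mul_smul, mul_smul, ← hh]
      simp [hβ]
    rw [hbot, Subgroup.mem_bot] at this
    apply hg1
    have h2 : g = h⁻¹ * (h * g * h⁻¹) * h := by group
    rw [h2, this]; simp
  · intro htop
    obtain ⟨β, hβ⟩ := Fintype.exists_ne_of_one_lt_card hΩ α
    obtain ⟨g, hg⟩ := htrans α β
    have : g ∈ MulAction.stabilizer G α := by rw [htop]; trivial
    rw [MulAction.mem_stabilizer_iff] at this
    exact hβ (hg ▸ this)
  · intro g hg
    rw [eq_bot_iff]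
    rintro x ⟨hx1, hx2⟩
    have hx2' := (mem_conj_stab α g x).mp hx2
    have hx1' : x • α = α := hx1
    by_contra hx
    have := hfix x hx α (g • α) hx1' hx2'
    exact hg (MulAction.mem_stabilizer_iff.mpr this.symm)
  · ext x
    simp only [Cfsg.frobeniusKernel, Set.mem_ofPred_eq]
    refine or_congr Iff.rfl ?_
    constructor
    · intro h ω hω
      obtain ⟨g, hg⟩ := htrans α ω
      apply h g
      rw [mem_conj_stab, hg]; exact hω
    · intro h g hg
      rw [mem_conj_stab] at hg
      exact h _ hg

end Cfsg.Agent.S4252
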