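import Cfsg.Statements.S4253
-- import your own Cfsg.Agent.* helpers here

set_option autoImplicit false
open Cfsg

namespace Cfsg.Agent.S4253

open scoped Pointwise


/-- Let H be a Frobenius complement in a finite group G (a nontrivial proper subgroup meeting each conjugate gHg⁻¹ with g outside H trivially). Then in the action of G on the left cosets of H by left multiplication, no non-identity element of G fixes two distinct cosets. -/
theorem result {G : Type*} [Group G] [Finite G] (H : Subgroup G) (hH : Cfsg.IsFrobeniusComplement H)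
    (g : G) (hg : g ≠ 1) (a b : G ⧸ H) (ha : g • a = a) (hb : g • b = b) : a = b := by
  obtain ⟨-, -, hTI⟩ := hH
  induction a using QuotientGroup.induction_on with | H x => ?_
  induction b using QuotientGroup.induction_on with | H y => ?_
  rw [QuotientGroup.eq]
  by_contra hz
  have h1 := hTI _ hz
  have hx : x⁻¹ * (g * x) ∈ H := by
    have h2 : ((g * x : G) : G ⧸ H) = (x : G ⧸ H) := ha
    have h3 := QuotientGroup.eq.mp h2.symm
    exact h3
  have hy : y⁻¹ * (g * y) ∈ H := by
    have h2 : ((g * y : G) : G ⧸ H) = (y : G ⧸ H) := hb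
    have h3 := QuotientGroup.eq.mp h2.symm
    exact h3
  have hmem : x⁻¹ * (g * x) ∈ H ⊓ (MulAut.conj (x⁻¹ * y) • H) := by
    refine Subgroup.mem_inf.mpr ⟨hx, ?_⟩
    rw [Subgroup.mem_pointwise_smul_iff_inv_smul_mem]
    simp only [MulAut.smul_def, map_inv, MulAut.conj_inv_apply]
    have : (x⁻¹ * y)⁻¹ * (x⁻¹ * (g * x)) * (x⁻¹ * y) = y⁻¹ * (g * y) := by group
    rw [this]; exact hy
  rw [h1, Subgroup.mem_bot] at hmem
  apply hg
  have h4 : g = x * (x⁻¹ * (g * x)) * x⁻¹ := by group
  rw [h4, hmem]; simp

end Cfsg.Agent.S4253
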