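import Cfsg.Statements.S4260
import Cfsg.Agent.Lib.H7Basic

set_option autoImplicit false
set_option linter.all false
open Cfsg

namespace Cfsg.Agent.S4260

/-- Let H be a Hall subgroup of a finite group G (the order of H is coprime to its index) such that x^[G : H] lies in H for every x in G. Then H is normal in G. -/
theorem result {G : Type*} [Group G] [Finite G] (H : Subgroup G) (hHall : (Nat.card H).Coprime H.index)
    (hexp : ∀ x : G, x ^ H.index ∈ H) : H.Normal := by
  classical
  have key : ∀ y : G, y ^ Nat.card H = 1 → y ∈ H := by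
    intro y hy
    have hcop : Nat.Coprime (orderOf y) H.index :=
      Nat.Coprime.coprime_dvd_left (orderOf_dvd_of_pow_eq_one hy) hHall
    exact Cfsg.Agent.Lib.H7Basic.mem_of_pow_mem_of_coprime H y _ hcop (hexp y)
  refine ⟨fun n hn g => key _ ?_⟩
  have h1 : n ^ Nat.card H = 1 := by
    have h0 : ((⟨n, hn⟩ : H) ^ Nat.card H : H) = 1 := pow_card_eq_one'
    have h2 := congrArg (fun z : H => (z : G)) h0
    simpa only [Subgroup.coe_pow, Subgroup.coe_one] using h2
  rw [conj_pow, h1]
  simp

end Cfsg.Agent.S4260
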