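import Cfsg.Statements.S4261
import Cfsg.Agent.Lib.H7Basic
import Cfsg.Agent.Lib.FitCore

set_option autoImplicit false
set_option linter.all false
open Cfsg

namespace Cfsg.Agent.S4261

/-- Let M be a maximal subgroup of a finite solvable group G such that x^[G : M] lies in M for every x in G. Then M is normal in G. -/
theorem result {G : Type*} [Group G] [Finite G] (hG : Group.IsSolvable G) (M : Subgroup G) (hM : IsCoatom M)
    (hexp : ∀ x : G, x ^ M.index ∈ M) : M.Normal := by
  classical
  set N := M.normalCore with hNdef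
  have hNM : N ≤ M := M.normalCore_le
  haveI hNn : N.Normal := Subgroup.normalCore_normal M
  have hpow : ∀ x : G, x ^ M.index ∈ N := by
    intro x b
    rw [← conj_pow]
    exact hexp _
  by_cases hNtop : N = M
  · rw [← hNtop]; exact hNn
  -- nontrivial quotient
  have hMne : M ≠ ⊤ := hM.1
  have hNne : N ≠ ⊤ := fun h => hMne (top_le_iff.mp (h ▸ hNM))
  haveI hnt : Nontrivial (G ⧸ N) := QuotientGroup.nontrivial_iff.mpr hNne
  have hGs : IsSolvable G := hG
  haveI hQs : IsSolvable (G ⧸ N) := solvable_of_surjective (QuotientGroup.mk'_surjective N)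
  obtain ⟨p, A, hp, hAn, hAne, hAp, -⟩ := Cfsg.Agent.Lib.H7Basic.exists_normal_pGroup (G := G ⧸ N) hQs
  haveI : Fact p.Prime := ⟨hp⟩
  let T : Subgroup G := A.comap (QuotientGroup.mk' N)
  haveI hTn : T.Normal := hAn.comap _
  have hNT : N ≤ T := by
    intro x hx
    have : (QuotientGroup.mk' N) x = 1 := by
      simpa [QuotientGroup.eq_one_iff] using hx
    change (QuotientGroup.mk' N) x ∈ A
    rw [this]; exact A.one_mem
  have hTnot : ¬ T ≤ M := by
    intro h
    have hTN : T ≤ N := Subgroup.normal_le_normalCore.mpr h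
    apply hAne
    rw [eq_bot_iff]
    intro y hy
    obtain ⟨x, rfl⟩ := QuotientGroup.mk'_surjective N y
    have hxT : x ∈ T := hy
    have := hTN hxT
    rw [Subgroup.mem_bot]
    exact (QuotientGroup.eq_one_iff x).mpr this
  have hsup : M ⊔ T = ⊤ := hM.2 _ (lt_of_le_of_ne le_sup_left (fun h => hTnot (by
    rw [h]; exact le_sup_right)))
  -- the index of `M` is a power of `p`
  have hidx : M.index = M.relIndex T := by
    have h1 : (T ⊔ M : Subgroup G) = ⊤ := by rwa [sup_comm]
    have := Cfsg.Agent.Lib.FitCore.relIndex_sup_of_normal M T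
    rw [h1, Subgroup.relIndex_top_right] at this
    exact this
  have hcardA : ∃ k, Nat.card A = p ^ k := by
    exact IsPGroup.iff_card.mp hAp
  have hdvd : M.relIndex T ∣ Nat.card A := by
    have h1 : N.relIndex T = Nat.card A := by
      -- `T ⧸ N` is `A`
      have hmap : T.map (QuotientGroup.mk' N) = A := Subgroup.map_comap_eq_self_of_surjective (QuotientGroup.mk'_surjective N) A
      have h2 : Nat.card (T.map (QuotientGroup.mk' N)) = N.relIndex T := by
        have := Subgroup.relIndex_ker (K := T) (QuotientGroup.mk' N)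
        rw [QuotientGroup.ker_mk'] at this
        rw [this]
      rw [← h2, hmap]
    have h2 : M.relIndex T ∣ N.relIndex T := by
      exact Subgroup.relIndex_dvd_of_le_left T hNM
    rwa [h1] at h2
  obtain ⟨k, hk⟩ := hcardA
  obtain ⟨i, -, hi⟩ := (Nat.dvd_prime_pow hp).mp (hk ▸ hdvd)
  have hidxp : M.index = p ^ i := hidx.trans hi
  -- the quotient is a `p`-group
  have hQp : IsPGroup p (G ⧸ N) := by
    intro y
    obtain ⟨x, rfl⟩ := QuotientGroup.mk'_surjective N y
    refine ⟨i, ?_⟩
    rw [← map_pow, ← hidxp]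
    exact (QuotientGroup.eq_one_iff _).mpr (hpow x)
  have hQn : Group.IsNilpotent (G ⧸ N) := hQp.isNilpotent
  have hcond := ((Group.isNilpotent_of_finite_tfae (G := G ⧸ N)).out 0 1).mp hQn
  set Mb : Subgroup (G ⧸ N) := M.map (QuotientGroup.mk' N) with hMb
  have hcomap : Mb.comap (QuotientGroup.mk' N) = M := by
    rw [hMb, Subgroup.comap_map_eq, QuotientGroup.ker_mk']
    exact sup_eq_left.mpr hNM
  have hMbtop : Mb ≠ ⊤ := by
    intro h
    apply hMne
    rw [← hcomap, h, Subgroup.comap_top]
  have hlt : Mb < Subgroup.normalizer (Mb : Set (G ⧸ N)) := hcond Mb (lt_top_iff_ne_top.mpr hMbtop)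
  have hW : (Subgroup.normalizer (Mb : Set (G ⧸ N))).comap (QuotientGroup.mk' N) = ⊤ := by
    apply hM.2
    refine lt_of_le_of_ne ?_ ?_
    · rw [← hcomap]
      exact Subgroup.comap_mono hlt.le
    · intro h
      apply hlt.not_ge
      intro y hy
      obtain ⟨x, rfl⟩ := QuotientGroup.mk'_surjective N y
      have : x ∈ M := by
        rw [h]
        exact hy
      exact ⟨x, this, rfl⟩
  have hnorm : Subgroup.normalizer (Mb : Set (G ⧸ N)) = ⊤ := by
    rw [eq_top_iff]
    intro y _
    obtain ⟨x, rfl⟩ := QuotientGroup.mk'_surjective N y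
    have : x ∈ (Subgroup.normalizer (Mb : Set (G ⧸ N))).comap (QuotientGroup.mk' N) := by
      rw [hW]; trivial
    exact this
  haveI hMbn : Mb.Normal := Subgroup.normalizer_eq_top_iff.mp hnorm
  have := hMbn.comap (QuotientGroup.mk' N)
  rwa [hcomap] at this

end Cfsg.Agent.S4261
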