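import Cfsg.Statements.S4263
import Cfsg.Agent.Lib.FitCore

set_option autoImplicit false
open Cfsg

namespace Cfsg.Agent.S4263

/-- Let G be a finite group. An element x lies in the Fitting subgroup F(G) if and only if, for every subgroup H of G, the power x^[G : H] lies in H. -/
theorem result {G : Type*} [Group G] [Finite G] (x : G) :
    x ∈ Cfsg.fittingSubgroup G ↔ ∀ H : Subgroup G, x ^ H.index ∈ H := by
  constructor
  · intro hx H
    exact Cfsg.Agent.Lib.FitCore.pow_index_mem_of_mem_fitting x hx H
  · intro h
    haveI := Cfsg.Agent.Lib.FitCore.fitting_normal (G := G)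
    by_contra hx
    let π := QuotientGroup.mk' (Cfsg.fittingSubgroup G)
    have hd : orderOf (π x) ≠ 1 := by
      rw [Ne, orderOf_eq_one_iff]
      intro h1
      exact hx ((QuotientGroup.eq_one_iff x).mp h1)
    obtain ⟨p, hp, hpd⟩ := Nat.exists_prime_and_dvd hd
    haveI : Fact p.Prime := ⟨hp⟩
    obtain ⟨P⟩ : Nonempty (Sylow p G) := inferInstance
    have key : x ^ (P : Subgroup G).index ∈ Cfsg.pCore p G := by
      apply Cfsg.Agent.Lib.FitCore.mem_pCore_of_forall_sylow
      intro Q
      have hc : Nat.card (Q : Subgroup G) = Nat.card (P : Subgroup G) := by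
        rw [Sylow.card_eq_multiplicity, Sylow.card_eq_multiplicity]
      have h1 := (Q : Subgroup G).card_mul_index
      have h2 := (P : Subgroup G).card_mul_index
      rw [hc] at h1
      have : (Q : Subgroup G).index = (P : Subgroup G).index :=
        Nat.eq_of_mul_eq_mul_left Nat.card_pos (h1.trans h2.symm)
      rw [← this]
      exact h Q
    have h2 : π x ^ (P : Subgroup G).index = 1 := by
      rw [← map_pow]
      exact (QuotientGroup.eq_one_iff _).mpr (Cfsg.Agent.Lib.FitCore.pCore_le_fitting p key)
    exact P.not_dvd_index (hpd.trans (orderOf_dvd_of_pow_eq_one h2))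

end Cfsg.Agent.S4263
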