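import Cfsg.Statements.S4269


set_option autoImplicit false
set_option linter.all false
open Cfsg

namespace Cfsg.Agent.S4269


open scoped commutatorElement
theorem mem_sup_comm' {G : Type*} [Group G] (A B : Subgroup G)
    (h : ∀ a ∈ A, ∀ b ∈ B, a * b = b * a) {x : G} (hx : x ∈ A ⊔ B) :
    ∃ a ∈ A, ∃ b ∈ B, x = a * b := by
  rw [Subgroup.sup_eq_closure] at hx
  induction hx using Subgroup.closure_induction with
  | mem x hx =>
    rcases hx with hx | hx
    · exact ⟨x, hx, 1, B.one_mem, by simp⟩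
    · exact ⟨1, A.one_mem, x, hx, by simp⟩
  | one => exact ⟨1, A.one_mem, 1, B.one_mem, by simp⟩
  | mul x y _ _ ihx ihy =>
    obtain ⟨a, ha, b, hb, rfl⟩ := ihx
    obtain ⟨a', ha', b', hb', rfl⟩ := ihy
    refine ⟨a * a', A.mul_mem ha ha', b * b', B.mul_mem hb hb', ?_⟩
    have : b * a' = a' * b := (h a' ha' b hb).symm
    calc a * b * (a' * b') = a * (b * a') * b' := by group
      _ = a * (a' * b) * b' := by rw [this]
      _ = _ := by group
  | inv x _ ih =>
    obtain ⟨a, ha, b, hb, rfl⟩ := ih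
    refine ⟨a⁻¹, A.inv_mem ha, b⁻¹, B.inv_mem hb, ?_⟩
    have : a * b = b * a := h a ha b hb
    rw [mul_inv_rev]
    calc b⁻¹ * a⁻¹ = (a * b)⁻¹ := by group
      _ = (b * a)⁻¹ := by rw [this]
      _ = _ := by group

theorem map_conj_norm {G : Type*} [Group G] (H : Subgroup G) {a : G}
    (ha : a ∈ Subgroup.normalizer (H : Set G)) : H.map (MulAut.conj a).toMonoidHom = H := by
  rw [Subgroup.mem_normalizer_iff] at ha
  ext x
  simp only [Subgroup.mem_map, MulEquiv.coe_toMonoidHom, MulAut.conj_apply]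
  constructor
  · rintro ⟨y, hy, rfl⟩
    exact (ha y).1 hy
  · intro hx
    refine ⟨a⁻¹ * x * a, ?_, by group⟩
    rw [ha]
    have : a * (a⁻¹ * x * a) * a⁻¹ = x := by group
    rwa [this]

theorem map_conj_mul_norm {G : Type*} [Group G] (H : Subgroup G) (w : G) {a : G}
    (ha : a ∈ Subgroup.normalizer (H : Set G)) :
    H.map (MulAut.conj (w * a)).toMonoidHom = H.map (MulAut.conj w).toMonoidHom := by
  have h1 : (MulAut.conj (w * a)).toMonoidHom
      = (MulAut.conj w).toMonoidHom.comp (MulAut.conj a).toMonoidHom := by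
    ext x; simp [mul_assoc]
  rw [h1, ← Subgroup.map_map, map_conj_norm H ha]


/-- Let G be a finite group, V an abelian normal subgroup and H a subgroup with HV = G. Then H is pronormal in G (H and gHg⁻¹ are conjugate inside the subgroup they generate, for every g) if and only if every H-invariant subgroup U of V satisfies U = N_U(H)·[H, U], that is, U is the join of U ∩ N_G(H) and the commutator subgroup [H, U]. -/
theorem result {G : Type*} [Group G] [Finite G]
    (V : Subgroup G) [V.Normal] (hV : IsMulCommutative ↥V) (H : Subgroup G) (hHV : H ⊔ V = ⊤) :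
    Cfsg.IsPronormal H ↔
      ∀ U : Subgroup G, U ≤ V → (∀ h ∈ H, U.map (MulAut.conj h).toMonoidHom = U) →
        U = (U ⊓ Subgroup.normalizer (H : Set G)) ⊔ ⁅H, U⁆ := by
  classical
  have hcomm : ∀ {a b : G}, a ∈ V → b ∈ V → a * b = b * a := by
    intro a b ha hb
    have := hV.is_comm.comm (⟨a, ha⟩ : V) ⟨b, hb⟩
    simpa using congrArg Subtype.val this
  constructor
  · intro hp U hUV hU
    have hinv : ∀ h ∈ H, ∀ u ∈ U, h * u * h⁻¹ ∈ U := by
      intro h hh u hu
      rw [← hU h hh]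
      exact ⟨u, hu, by simp⟩
    have hWU : ⁅H, U⁆ ≤ U := by
      rw [Subgroup.commutator_le]
      intro h hh u hu
      exact U.mul_mem (hinv h hh u hu) (U.inv_mem hu)
    apply le_antisymm
    · intro u hu
      obtain ⟨x, hx, hxe⟩ := hp u
      set W : Subgroup G := ⁅H, U⁆ with hW
      have hHW : H ≤ Subgroup.normalizer (W : Set G) := by
        intro h hh
        have key : ∀ h ∈ H, ∀ y ∈ W, h * y * h⁻¹ ∈ W := by
          intro h hh y hy
          have : W.map (MulAut.conj h).toMonoidHom ≤ W := by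
            rw [hW, Subgroup.map_le_iff_le_comap, Subgroup.commutator_le]
            intro a ha b hb
            rw [Subgroup.mem_comap]
            have e : (MulAut.conj h).toMonoidHom ⁅a, b⁆ = ⁅h * a * h⁻¹, h * b * h⁻¹⁆ := by
              simp [commutatorElement_def]; group
            rw [e]
            exact Subgroup.commutator_mem_commutator (H.mul_mem (H.mul_mem hh ha) (H.inv_mem hh)) (hinv h hh b hb)
          exact this ⟨y, hy, by simp⟩
        rw [Subgroup.mem_normalizer_iff]
        intro y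
        constructor
        · exact key h hh y
        · intro hy
          have := key h⁻¹ (H.inv_mem hh) _ hy
          have e : h⁻¹ * (h * y * h⁻¹) * h⁻¹⁻¹ = y := by group
          rwa [e] at this
      have hJ : H ⊔ H.map (MulAut.conj u).toMonoidHom ≤ H ⊔ W := by
        apply sup_le le_sup_left
        rw [Subgroup.map_le_iff_le_comap]
        intro h hh
        rw [Subgroup.mem_comap]
        have e : (MulAut.conj u).toMonoidHom h = (h * u * h⁻¹ * u⁻¹)⁻¹ * h := by
          simp; group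
        rw [e]
        refine Subgroup.mul_mem _ (Subgroup.inv_mem _ (Subgroup.mem_sup_right ?_)) (Subgroup.mem_sup_left hh)
        exact Subgroup.commutator_mem_commutator hh hu
      have hx' := hJ hx
      have hset := Subgroup.coe_mul_of_left_le_normalizer_right H W hHW
      have hx2 : x ∈ ((H ⊔ W : Subgroup G) : Set G) := hx'
      rw [hset, Set.mem_mul] at hx2
      obtain ⟨h, hh, w₀, hw₀, rfl⟩ := hx2
      have hw₀' : w₀ ∈ W := hw₀
      -- rewrite as w * h
      set w : G := h * w₀ * h⁻¹ with hw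
      have hwW : w ∈ W := by
        have := (Subgroup.mem_normalizer_iff.1 (hHW hh) w₀).1 hw₀'
        exact this
      have hxe2 : H.map (MulAut.conj u).toMonoidHom = H.map (MulAut.conj w).toMonoidHom := by
        rw [hxe]
        have e : h * w₀ = w * h := by rw [hw]; group
        rw [e]
        exact map_conj_mul_norm H w (Subgroup.le_normalizer hh)
      have hn : w⁻¹ * u ∈ Subgroup.normalizer (H : Set G) := by
        rw [Subgroup.mem_normalizer_iff]
        intro y
        constructor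
        · intro hy
          have : u * y * u⁻¹ ∈ H.map (MulAut.conj u).toMonoidHom := ⟨y, hy, by simp⟩
          rw [hxe2] at this
          obtain ⟨y', hy', e⟩ := this
          simp at e
          have : w⁻¹ * u * y * (w⁻¹ * u)⁻¹ = y' := by
            calc w⁻¹ * u * y * (w⁻¹ * u)⁻¹ = w⁻¹ * (u * y * u⁻¹) * w := by group
              _ = w⁻¹ * (w * y' * w⁻¹) * w := by rw [e]
              _ = y' := by group
          rwa [this]
        · intro hy
          have : w * (w⁻¹ * u * y * (w⁻¹ * u)⁻¹) * w⁻¹ ∈ H.map (MulAut.conj w).toMonoidHom := ⟨_, hy, by simp⟩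
          rw [← hxe2] at this
          obtain ⟨y', hy', e⟩ := this
          simp only [MulEquiv.coe_toMonoidHom, MulAut.conj_apply] at e
          have : y = y' := by
            have e2 : u * y' * u⁻¹ = u * y * u⁻¹ := by
              rw [e]; group
            have := congrArg (fun t => u⁻¹ * t * u) e2
            have a1 : u⁻¹ * (u * y' * u⁻¹) * u = y' := by group
            have a2 : u⁻¹ * (u * y * u⁻¹) * u = y := by group
            rw [a1, a2] at this
            exact this.symm
          rwa [this]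
      have hyU : w⁻¹ * u ∈ U := U.mul_mem (U.inv_mem (hWU hwW)) hu
      have : u = (w⁻¹ * u) * (u⁻¹ * w * u) := by group
      have hcw : u⁻¹ * w * u = w := by
        have := hcomm (hUV hu) (hUV (hWU hwW))
        calc u⁻¹ * w * u = u⁻¹ * (w * u) := by group
          _ = u⁻¹ * (u * w) := by rw [this]
          _ = w := by group
      rw [hcw] at this
      rw [this]
      exact Subgroup.mul_mem _ (Subgroup.mem_sup_left ⟨hyU, hn⟩) (Subgroup.mem_sup_right hwW)
    · exact sup_le inf_le_left hWU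
  · intro hU g
    -- write g = v * h
    have hg : g ∈ V ⊔ H := by rw [sup_comm, hHV]; trivial
    have hgm : g ∈ ((V ⊔ H : Subgroup G) : Set G) := hg
    rw [Subgroup.normal_mul V H, Set.mem_mul] at hgm
    obtain ⟨v, hv, h₁, hh₁, rfl⟩ := hgm
    have hv : v ∈ V := hv
    have hh₁ : h₁ ∈ H := hh₁
    set J : Subgroup G := H ⊔ H.map (MulAut.conj (v * h₁)).toMonoidHom with hJ
    have hgv : H.map (MulAut.conj (v * h₁)).toMonoidHom = H.map (MulAut.conj v).toMonoidHom :=
      map_conj_mul_norm H v (Subgroup.le_normalizer hh₁)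
    have hHJ : H ≤ J := le_sup_left
    -- the invariant subgroup
    let T : Subgroup G :=
      { carrier := {u | u ∈ V ∧ ∀ h ∈ H, h * u * h⁻¹ * u⁻¹ ∈ J}
        one_mem' := ⟨V.one_mem, fun h _ => by simp [J.one_mem]⟩
        mul_mem' := by
          rintro a b ⟨ha, ha'⟩ ⟨hb, hb'⟩
          refine ⟨V.mul_mem ha hb, fun h hh => ?_⟩
          have hc1 : h * b * h⁻¹ ∈ V := Subgroup.Normal.conj_mem ‹_› b hb h
          have e : h * (a * b) * h⁻¹ * (a * b)⁻¹
              = (h * a * h⁻¹ * a⁻¹) * (h * b * h⁻¹ * b⁻¹) := by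
            have c1 : a⁻¹ * (h * b * h⁻¹) = (h * b * h⁻¹) * a⁻¹ := hcomm (V.inv_mem ha) hc1
            have c2 : a⁻¹ * b⁻¹ = b⁻¹ * a⁻¹ := hcomm (V.inv_mem ha) (V.inv_mem hb)
            calc h * (a * b) * h⁻¹ * (a * b)⁻¹
                = h * a * h⁻¹ * ((h * b * h⁻¹) * (b⁻¹ * a⁻¹)) := by group
              _ = h * a * h⁻¹ * ((h * b * h⁻¹) * (a⁻¹ * b⁻¹)) := by rw [c2]
              _ = h * a * h⁻¹ * (((h * b * h⁻¹) * a⁻¹) * b⁻¹) := by group
              _ = h * a * h⁻¹ * ((a⁻¹ * (h * b * h⁻¹)) * b⁻¹) := by rw [c1]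
              _ = _ := by group
          rw [e]
          exact J.mul_mem (ha' h hh) (hb' h hh)
        inv_mem' := by
          rintro a ⟨ha, ha'⟩
          refine ⟨V.inv_mem ha, fun h hh => ?_⟩
          have hc1 : h * a * h⁻¹ ∈ V := Subgroup.Normal.conj_mem ‹_› a ha h
          have e : h * a⁻¹ * h⁻¹ * a⁻¹⁻¹ = (h * a * h⁻¹ * a⁻¹)⁻¹ := by
            have c1 : (h * a * h⁻¹)⁻¹ * a = a * (h * a * h⁻¹)⁻¹ := hcomm (V.inv_mem hc1) ha
            calc h * a⁻¹ * h⁻¹ * a⁻¹⁻¹ = (h * a * h⁻¹)⁻¹ * a := by group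
              _ = a * (h * a * h⁻¹)⁻¹ := c1
              _ = _ := by group
          rw [e]
          exact J.inv_mem (ha' h hh) }
    have hT : ∀ {u : G}, u ∈ T ↔ (u ∈ V ∧ ∀ h ∈ H, h * u * h⁻¹ * u⁻¹ ∈ J) := Iff.rfl
    have hTV : T ≤ V := fun u hu => hu.1
    have hTconj : ∀ h₀ ∈ H, ∀ u ∈ T, h₀ * u * h₀⁻¹ ∈ T := by
      intro h₀ hh₀ u hu
      refine ⟨Subgroup.Normal.conj_mem ‹_› u hu.1 h₀, fun h hh => ?_⟩
      have e : h * (h₀ * u * h₀⁻¹) * h⁻¹ * (h₀ * u * h₀⁻¹)⁻¹
          = ((h * h₀) * u * (h * h₀)⁻¹ * u⁻¹) * (h₀ * u * h₀⁻¹ * u⁻¹)⁻¹ := by group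
      rw [e]
      exact J.mul_mem (hu.2 _ (H.mul_mem hh hh₀)) (J.inv_mem (hu.2 _ hh₀))
    have hTinv : ∀ h ∈ H, T.map (MulAut.conj h).toMonoidHom = T := by
      intro h hh
      apply le_antisymm
      · rintro _ ⟨u, hu, rfl⟩
        exact hTconj h hh u hu
      · intro u hu
        refine ⟨h⁻¹ * u * h⁻¹⁻¹, hTconj _ (H.inv_mem hh) u hu, ?_⟩
        simp only [MulEquiv.coe_toMonoidHom, MulAut.conj_apply]
        group
    have hvT : v ∈ T := by
      refine ⟨hv, fun h hh => ?_⟩
      have e : h * v * h⁻¹ * v⁻¹ = h * (v * h⁻¹ * v⁻¹) := by group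
      rw [e]
      refine J.mul_mem (hHJ hh) ?_
      rw [hJ, hgv]
      refine Subgroup.mem_sup_right ⟨h⁻¹, H.inv_mem hh, by simp⟩
    have hcJ : ⁅H, T⁆ ≤ J := by
      rw [Subgroup.commutator_le]
      intro h hh u hu
      exact hu.2 h hh
    have hcT : ⁅H, T⁆ ≤ T := by
      rw [Subgroup.commutator_le]
      intro h hh u hu
      exact T.mul_mem (hTconj h hh u hu) (T.inv_mem hu)
    have hvs : v ∈ (T ⊓ Subgroup.normalizer (H : Set G)) ⊔ ⁅H, T⁆ := by
      rw [← hU T hTV hTinv]; exact hvT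
    obtain ⟨n, hn, w, hw, hvnw⟩ := mem_sup_comm' (T ⊓ Subgroup.normalizer (H : Set G)) (⁅H, T⁆) (fun a ha b hb => hcomm (hTV (Subgroup.mem_inf.1 ha).1) (hTV (hcT hb))) hvs
    have hn := Subgroup.mem_inf.1 hn
    refine ⟨w, hcJ hw, ?_⟩
    rw [hgv]
    have : v = w * n := by rw [hvnw]; exact hcomm (hTV hn.1) (hTV (hcT hw))
    rw [this]
    exact map_conj_mul_norm H w hn.2

end Cfsg.Agent.S4269
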