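import Cfsg.Statements.S4270
import Cfsg.Agent.Lib.ConjFamily
import Cfsg.Agent.Lib.SylowIn
import Cfsg.Agent.Lib.TameInter
import Cfsg.Agent.Lib.MinPClosed
import Cfsg.Agent.Lib.SchurZ2
import Cfsg.Agent.Lib.WeakCl
-- import your own Cfsg.Agent.* helpers here

set_option autoImplicit false
set_option linter.all false
open Cfsg

namespace Cfsg.Agent.S4270

open Cfsg.Agent.Lib.ConjFamily Cfsg.Agent.Lib.SylowIn Cfsg.Agent.Lib.TameInter

/-- `K₁` is conjugate to `K` inside the join. -/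
def Pron {G : Type*} [Group G] (K K₁ : Subgroup G) : Prop := ∃ x ∈ K ⊔ K₁, K₁ = cj x K

theorem cj_map' {G G' : Type*} [Group G] [Group G'] (f : G →* G') (g : G) (X : Subgroup G) :
    (cj g X).map f = cj (f g) (X.map f) := by
  ext y
  constructor
  · rintro ⟨_, ⟨x, hx, rfl⟩, rfl⟩
    exact ⟨f x, ⟨x, hx, rfl⟩, by simp [MulAut.conj_apply]⟩
  · rintro ⟨_, ⟨x, hx, rfl⟩, rfl⟩
    exact ⟨_, ⟨x, hx, rfl⟩, by simp [MulAut.conj_apply]⟩

theorem cj_sup' {G : Type*} [Group G] (g : G) (X Y : Subgroup G) :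
    cj g (X ⊔ Y) = cj g X ⊔ cj g Y := Subgroup.map_sup X Y _

theorem pron_step {G : Type*} [Group G] {K K₁ : Subgroup G} {y : G} (hy : y ∈ K ⊔ K₁)
    (h : Pron K (cj y⁻¹ K₁)) : Pron K K₁ := by
  obtain ⟨x, hx, hxe⟩ := h
  have hle : K ⊔ cj y⁻¹ K₁ ≤ K ⊔ K₁ := by
    refine sup_le le_sup_left ?_
    rintro _ ⟨k, hk, rfl⟩
    show y⁻¹ * k * y⁻¹⁻¹ ∈ K ⊔ K₁
    exact Subgroup.mul_mem _ (Subgroup.mul_mem _ (Subgroup.inv_mem _ hy) (Subgroup.mem_sup_right hk))
      (Subgroup.inv_mem _ (Subgroup.inv_mem _ hy))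
  refine ⟨y * x, Subgroup.mul_mem _ hy (hle hx), ?_⟩
  rw [← cj_cj, ← hxe, cj_cj, mul_inv_cancel, cj_one]

theorem pronormal_cj {G : Type*} [Group G] {H : Subgroup G} (h : Cfsg.IsPronormal H) (b : G) :
    Cfsg.IsPronormal (cj b H) := by
  intro g
  obtain ⟨x, hx, hxe⟩ := h (b⁻¹ * g * b)
  have hxe' : cj (b⁻¹ * g * b) H = cj x H := hxe
  have e1 : cj b (cj (b⁻¹ * g * b) H) = cj g (cj b H) := by
    rw [cj_cj, cj_cj]
    have e : b * (b⁻¹ * g * b) = g * b := by group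
    rw [e]
  refine ⟨b * x * b⁻¹, ?_, ?_⟩
  · have h1 : b * x * b⁻¹ ∈ cj b (H ⊔ cj (b⁻¹ * g * b) H) := cj_mem hx
    rwa [cj_sup', e1] at h1
  · show cj g (cj b H) = cj (b * x * b⁻¹) (cj b H)
    rw [← e1, hxe', cj_cj, cj_cj]
    have e : b * x * b⁻¹ * b = b * x := by group
    rw [e]

theorem exists_cj_eq' {G : Type*} [Group G] [Finite G] {p : ℕ} [Fact p.Prime] (X P : Sylow p G) :
    ∃ k : G, cj k (X : Subgroup G) = (P : Subgroup G) := by
  obtain ⟨k, hk⟩ := exists_conj_le_sylow P X.isPGroup'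
  refine ⟨k, Subgroup.eq_of_le_of_card_ge hk ?_⟩
  have h1 : Nat.card (cj k (X : Subgroup G)) = Nat.card (X : Subgroup G) := card_cj k _
  rw [h1, Sylow.card_eq_multiplicity X, Sylow.card_eq_multiplicity P]

theorem inf_eq_of_le {G : Type*} [Group G] [Finite G] {p : ℕ} [Fact p.Prime]
    (A : Subgroup G) (T : Subgroup G) (R : Sylow p ↥A)
    (hR : (R : Subgroup ↥A).map A.subtype = T) (P : Sylow p G) (hTP : T ≤ (P : Subgroup G)) :
    (P : Subgroup G) ⊓ A = T := by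
  apply le_antisymm
  · intro x hx
    have hp : IsPGroup p (((P : Subgroup G) ⊓ A).subgroupOf A) :=
      (P.isPGroup'.to_le inf_le_left).of_equiv (Subgroup.subgroupOfEquivOfLe inf_le_right).symm
    have hle : (R : Subgroup ↥A) ≤ ((P : Subgroup G) ⊓ A).subgroupOf A := by
      intro r hr
      rw [Subgroup.mem_subgroupOf]
      exact ⟨hTP (by rw [← hR]; exact ⟨r, hr, rfl⟩), r.2⟩
    have h1 := R.3 hp hle
    have h2 : (⟨x, hx.2⟩ : ↥A) ∈ ((P : Subgroup G) ⊓ A).subgroupOf A := by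
      rw [Subgroup.mem_subgroupOf]; exact hx
    rw [h1] at h2
    rw [← hR]; exact ⟨_, h2, rfl⟩
  · refine le_inf hTP ?_
    rw [← hR]
    rintro _ ⟨r, _, rfl⟩
    exact r.2

theorem le_normalizer_of_inf {G : Type*} [Group G] [Finite G] (A : Subgroup G) [hAn : A.Normal]
    (P T : Subgroup G) (h : P ⊓ A = T) : P ≤ Subgroup.normalizer (T : Set G) := by
  intro x hx
  apply Cfsg.Agent.Lib.MinPClosed.mem_normalizer_of_conj_le
  intro t ht
  rw [← h] at ht ⊢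
  exact ⟨P.mul_mem (P.mul_mem hx ht.1) (P.inv_mem hx), hAn.conj_mem t ht.2 x⟩

theorem conv1 {G : Type*} [Group G] [Finite G] {p : ℕ} [Fact p.Prime] (T : Subgroup G)
    [inst : (T.subgroupOf (Subgroup.normalizer (T : Set G))).Normal]
    (hi : ∀ K : Subgroup (↥(Subgroup.normalizer (T : Set G)) ⧸ T.subgroupOf (Subgroup.normalizer (T : Set G))),
      (∃ P : Sylow p (↥(Subgroup.normalizer (T : Set G)) ⧸ T.subgroupOf (Subgroup.normalizer (T : Set G))),
        (P : Subgroup (↥(Subgroup.normalizer (T : Set G)) ⧸ T.subgroupOf (Subgroup.normalizer (T : Set G)))) ≤ K) →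
        Cfsg.IsPronormal K)
    (H : Subgroup G) (hTH : T ≤ H) (hHM : H ≤ Subgroup.normalizer (T : Set G))
    (hS : ∃ P : Sylow p G, (P : Subgroup G) ≤ H) (a : G) (ha : a ∈ Subgroup.normalizer (T : Set G)) :
    Pron H (cj a H) := by
  let M : Subgroup G := Subgroup.normalizer (T : Set G)
  let mk := QuotientGroup.mk' (T.subgroupOf (Subgroup.normalizer (T : Set G)))
  have hmk : Function.Surjective mk := QuotientGroup.mk'_surjective _
  let H' : Subgroup M := H.subgroupOf M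
  obtain ⟨P, hPH⟩ := hS
  obtain ⟨R₁, hR₁⟩ := IsSylowIn.mono (Cfsg.Agent.Lib.WeakCl.isSylowIn_top P) (hPH.trans hHM) le_top
  have hRH : (R₁ : Subgroup M) ≤ H' := by
    rw [hR₁]
    intro x hx
    exact hPH hx
  have hpro := hi (H'.map mk) ⟨R₁.mapSurjective hmk, Subgroup.map_mono hRH⟩
  let a' : M := ⟨a, ha⟩
  obtain ⟨xb, hxb, hxbe⟩ := hpro (mk a')
  have hxbe' : cj (mk a') (H'.map mk) = cj xb (H'.map mk) := hxbe
  have hj : H'.map mk ⊔ cj (mk a') (H'.map mk) = (H' ⊔ cj a' H').map mk := by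
    rw [Subgroup.map_sup, cj_map']
  have hxb' : xb ∈ (H' ⊔ cj a' H').map mk := by rw [← hj]; exact hxb
  obtain ⟨x', hx', rfl⟩ := hxb'
  rw [← cj_map', ← cj_map'] at hxbe'
  have hT'H' : T.subgroupOf M ≤ H' := fun t ht => hTH ht
  have hT'c : ∀ b : M, T.subgroupOf M ≤ cj b H' := by
    intro b t ht
    refine mem_cj.2 ?_
    apply hT'H'
    have h2 := inst.conj_mem t ht b⁻¹
    rwa [inv_inv] at h2
  have hker : mk.ker = T.subgroupOf M := QuotientGroup.ker_mk' _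
  have hcomap : cj a' H' = cj x' H' := by
    have h1 := congrArg (Subgroup.comap mk) hxbe'
    rw [Subgroup.comap_map_eq, Subgroup.comap_map_eq, hker, sup_eq_left.2 (hT'c a'),
      sup_eq_left.2 (hT'c x')] at h1
    exact h1
  have hmapH : H'.map M.subtype = H := Subgroup.map_subgroupOf_eq_of_le hHM
  refine ⟨(x' : G), ?_, ?_⟩
  · have h1 := Subgroup.mem_map_of_mem M.subtype hx'
    rw [Subgroup.map_sup, cj_map', hmapH] at h1
    exact h1
  · have h1 := congrArg (Subgroup.map M.subtype) hcomap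
    rw [cj_map', cj_map', hmapH] at h1
    exact h1

theorem conv2 {G : Type*} [Group G] [Finite G] {p : ℕ} [Fact p.Prime]
    (A : Subgroup G) [hAn : A.Normal] (T : Subgroup G) (R : Sylow p ↥A)
    (hR : (R : Subgroup ↥A).map A.subtype = T)
    [inst : (T.subgroupOf (Subgroup.normalizer (T : Set G))).Normal]
    (hall : ∀ K : Subgroup G, (∃ P : Sylow p G, (P : Subgroup G) ≤ K) → Cfsg.IsPronormal K)
    (Kb : Subgroup (↥(Subgroup.normalizer (T : Set G)) ⧸ T.subgroupOf (Subgroup.normalizer (T : Set G))))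
    (hKb : ∃ P : Sylow p (↥(Subgroup.normalizer (T : Set G)) ⧸ T.subgroupOf (Subgroup.normalizer (T : Set G))),
        (P : Subgroup (↥(Subgroup.normalizer (T : Set G)) ⧸ T.subgroupOf (Subgroup.normalizer (T : Set G)))) ≤ Kb) :
    Cfsg.IsPronormal Kb := by
  let M : Subgroup G := Subgroup.normalizer (T : Set G)
  let mk := QuotientGroup.mk' (T.subgroupOf (Subgroup.normalizer (T : Set G)))
  have hmk : Function.Surjective mk := QuotientGroup.mk'_surjective _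
  obtain ⟨Sb, hSb⟩ := hKb
  let H' : Subgroup M := Kb.comap mk
  let H : Subgroup G := H'.map M.subtype
  have hTp : IsPGroup p T := by rw [← hR]; exact R.2.map A.subtype
  obtain ⟨P, hTP⟩ := hTp.exists_le_sylow
  have hPM : (P : Subgroup G) ≤ M :=
    le_normalizer_of_inf A (P : Subgroup G) T (inf_eq_of_le A T R hR P hTP)
  have hW0 : IsPGroup p (((P : Subgroup G).subgroupOf M)) :=
    P.isPGroup'.of_equiv (Subgroup.subgroupOfEquivOfLe hPM).symm
  have hW : IsPGroup p (((P : Subgroup G).subgroupOf M).map mk) := hW0.map mk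
  obtain ⟨mb, hmb⟩ := exists_conj_le_sylow Sb hW
  obtain ⟨m, rfl⟩ := hmk mb
  obtain ⟨P₂, hP₂⟩ := exists_sylow_cj (m : G) P
  have hP₂H : (P₂ : Subgroup G) ≤ H := by
    rw [hP₂]
    rintro _ ⟨x, hx, rfl⟩
    have hxM := hPM hx
    have h1 : mk m * mk ⟨x, hxM⟩ * (mk m)⁻¹ ∈ Sb :=
      hmb ⟨mk ⟨x, hxM⟩, ⟨⟨x, hxM⟩, hx, rfl⟩, rfl⟩
    have h2 : (m * ⟨x, hxM⟩ * m⁻¹ : M) ∈ H' := by
      show mk (m * ⟨x, hxM⟩ * m⁻¹) ∈ Kb
      rw [map_mul, map_mul, map_inv]
      exact hSb h1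
    exact ⟨_, h2, rfl⟩
  have hpro := hall H ⟨P₂, hP₂H⟩
  intro gb
  obtain ⟨g', rfl⟩ := hmk gb
  obtain ⟨x, hx, hxe⟩ := hpro (g' : G)
  have hxe' : cj (g' : G) H = cj x H := hxe
  have hmapKb : H'.map mk = Kb := Subgroup.map_comap_eq_self_of_surjective hmk Kb
  have hcjH : cj (g' : G) H = (cj g' H').map M.subtype := (cj_map' M.subtype g' H').symm
  have hjoin : H ⊔ cj (g' : G) H = (H' ⊔ cj g' H').map M.subtype := by
    rw [Subgroup.map_sup, hcjH]
  have hx2 : x ∈ (H' ⊔ cj g' H').map M.subtype := by rw [← hjoin]; exact hx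
  obtain ⟨x', hx', rfl⟩ := hx2
  have hcomp : cj g' H' = cj x' H' := by
    apply Subgroup.map_injective M.subtype_injective
    rw [cj_map', cj_map']; exact hxe'
  refine ⟨mk x', ?_, ?_⟩
  · have h1 := Subgroup.mem_map_of_mem mk hx'
    rw [Subgroup.map_sup, cj_map', hmapKb] at h1
    exact h1
  · show cj (mk g') Kb = cj (mk x') Kb
    rw [← hmapKb, ← cj_map', ← cj_map', hcomp]

theorem back_main {G : Type*} [Group G] [Finite G] {p : ℕ} [Fact p.Prime]
    (A : Subgroup G) [hAn : A.Normal]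
    (hA : ∀ K : Subgroup ↥A, (∃ P : Sylow p ↥A, (P : Subgroup ↥A) ≤ K) → Cfsg.IsPronormal K)
    (hQ : ∀ K : Subgroup (G ⧸ A), (∃ P : Sylow p (G ⧸ A), (P : Subgroup (G ⧸ A)) ≤ K) → Cfsg.IsPronormal K)
    (T : Subgroup G) (R : Sylow p ↥A) (hR : (R : Subgroup ↥A).map A.subtype = T)
    (hi : ∀ H : Subgroup G, T ≤ H → H ≤ Subgroup.normalizer (T : Set G) →
      (∃ P : Sylow p G, (P : Subgroup G) ≤ H) →
      ∀ a ∈ Subgroup.normalizer (T : Set G), Pron H (cj a H))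
    (hii : ∀ K : Subgroup G, (∃ P : Sylow p G, (P : Subgroup G) ≤ K) →
      (Subgroup.normalizer (K : Set G)).map (QuotientGroup.mk' A) =
        Subgroup.normalizer ((K.map (QuotientGroup.mk' A) : Subgroup (G ⧸ A)) : Set (G ⧸ A)))
    (K : Subgroup G) (P₀ : Sylow p G) (hP₀K : (P₀ : Subgroup G) ≤ K)
    (hP₀T : (P₀ : Subgroup G) ⊓ A = T) (g : G) : Pron K (cj g K) := by
  classical
  let mk := QuotientGroup.mk' A
  have hmk : Function.Surjective mk := QuotientGroup.mk'_surjective A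
  have hTK : T ≤ K := by rw [← hP₀T]; exact inf_le_left.trans hP₀K
  have hTA : T ≤ A := by rw [← hP₀T]; exact inf_le_right
  have hTp : IsPGroup p T := by rw [← hP₀T]; exact P₀.isPGroup'.to_le inf_le_left
  have hQK : Cfsg.IsPronormal (K.map mk) := hQ _ ⟨P₀.mapSurjective hmk, Subgroup.map_mono hP₀K⟩
  obtain ⟨xb, hxb, hxbe⟩ := hQK (mk g)
  have hxbe' : cj (mk g) (K.map mk) = cj xb (K.map mk) := hxbe
  have hj : K.map mk ⊔ cj (mk g) (K.map mk) = (K ⊔ cj g K).map mk := by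
    rw [Subgroup.map_sup, cj_map']
  have hxb' : xb ∈ (K ⊔ cj g K).map mk := by rw [← hj]; exact hxb
  obtain ⟨y, hy, rfl⟩ := hxb'
  apply pron_step hy
  rw [cj_cj]
  have hg₂N : mk (y⁻¹ * g) ∈ Subgroup.normalizer ((K.map mk : Subgroup (G ⧸ A)) : Set (G ⧸ A)) := by
    apply mem_normalizer_of_cj_eq
    rw [map_mul, map_inv, ← cj_cj, hxbe', cj_cj, inv_mul_cancel, cj_one]
  rw [← hii K ⟨P₀, hP₀K⟩] at hg₂N
  obtain ⟨n, hn, hne⟩ := hg₂N
  obtain ⟨a, ha, hae⟩ : ∃ a ∈ A, cj (y⁻¹ * g) K = cj a K := by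
    refine ⟨y⁻¹ * g * n⁻¹, ?_, ?_⟩
    · have h3 : mk (y⁻¹ * g * n⁻¹) = 1 := by
        rw [map_mul, map_inv]
        show mk (y⁻¹ * g) * (mk n)⁻¹ = 1
        rw [show mk n = mk (y⁻¹ * g) from hne, mul_inv_cancel]
      exact (QuotientGroup.eq_one_iff _).1 h3
    · have h3 : y⁻¹ * g = (y⁻¹ * g * n⁻¹) * n := by group
      conv_lhs => rw [h3]
      rw [← cj_cj, cj_eq_of_mem_normalizer hn]
  rw [hae]
  -- the intersection with `A`
  have hRK : (R : Subgroup ↥A) ≤ K.subgroupOf A := by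
    intro r hr
    rw [Subgroup.mem_subgroupOf]
    apply hTK
    rw [← hR]
    exact ⟨r, hr, rfl⟩
  have hAK := hA _ ⟨R, hRK⟩
  obtain ⟨x', hx', hxe'⟩ := hAK ⟨a, ha⟩
  let K₀ : Subgroup G := K ⊓ A
  have hmap0 : (K.subgroupOf A).map A.subtype = K₀ := Subgroup.subgroupOf_map_subtype K A
  have e₁ := cj_map' A.subtype (⟨a, ha⟩ : A) (K.subgroupOf A)
  have e₂ := cj_map' A.subtype x' (K.subgroupOf A)
  rw [hmap0] at e₁ e₂
  have hx1 : (x' : G) ∈ K₀ ⊔ cj a K₀ := by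
    have h1 := Subgroup.mem_map_of_mem A.subtype hx'
    rw [Subgroup.map_sup, hmap0] at h1
    have e₃ : Subgroup.map A.subtype (Subgroup.map (MulAut.conj (⟨a, ha⟩ : A)).toMonoidHom (K.subgroupOf A)) =
        cj a K₀ := e₁
    rw [e₃] at h1
    exact h1
  have hx2 : cj a K₀ = cj (x' : G) K₀ := by
    have h3 := congrArg (Subgroup.map A.subtype) hxe'
    exact e₁.symm.trans (h3.trans e₂)
  have hle0 : K₀ ⊔ cj a K₀ ≤ K ⊔ cj a K := sup_le_sup inf_le_left (cj_mono a inf_le_left)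
  apply pron_step (hle0 hx1)
  rw [cj_cj]
  have ha₃ : (x' : G)⁻¹ * a ∈ A := A.mul_mem (A.inv_mem x'.2) ha
  have hN₃ : cj ((x' : G)⁻¹ * a) K₀ = K₀ := by
    rw [← cj_cj, hx2, cj_cj, inv_mul_cancel, cj_one]
  generalize (x' : G)⁻¹ * a = a₃ at ha₃ hN₃ ⊢
  -- moving `T`
  have hTAs : IsSylowIn p T A := ⟨R, by
    rw [← hR]
    exact (Subgroup.comap_map_eq_self_of_injective A.subtype_injective _).symm⟩
  have hTK₀ : T ≤ K₀ := le_inf hTK hTA
  have hT₀ : IsSylowIn p T K₀ := IsSylowIn.mono hTAs hTK₀ inf_le_right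
  have hXK₀ : cj a₃ T ≤ K₀ := by
    have h1 := cj_mono a₃ hTK₀
    rwa [hN₃] at h1
  have hXp : IsPGroup p (cj a₃ T) := hTp.map _
  obtain ⟨y₁, hy₁, hy₁c⟩ := exists_conj_le_of_isSylowIn hT₀ hXK₀ hXp
  have hy₁e : cj (y₁ * a₃) T = T := by
    rw [← cj_cj]
    refine Subgroup.eq_of_le_of_card_ge hy₁c ?_
    rw [card_cj, card_cj]
  have hy₁K : y₁ ∈ K := hy₁.1
  apply pron_step (y := y₁⁻¹) (Subgroup.mem_sup_left (K.inv_mem hy₁K))
  rw [inv_inv, cj_cj]
  have hN₄ : cj (y₁ * a₃) K₀ = K₀ := by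
    rw [← cj_cj, hN₃, cj_eq_self_of_mem hy₁]
  have ha₄T : y₁ * a₃ ∈ Subgroup.normalizer (T : Set G) := mem_normalizer_of_cj_eq hy₁e
  generalize y₁ * a₃ = a₄ at hN₄ ha₄T hy₁e ⊢
  -- the normalizer of `T`
  let H : Subgroup G := K ⊓ Subgroup.normalizer (T : Set G)
  have hP₀N := le_normalizer_of_inf A (P₀ : Subgroup G) T hP₀T
  obtain ⟨z, hz, hze⟩ := hi H (le_inf hTK Subgroup.le_normalizer) inf_le_right
    ⟨P₀, le_inf hP₀K hP₀N⟩ a₄ ha₄T
  have hK₀N : K ≤ Subgroup.normalizer (K₀ : Set G) := by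
    intro k hk
    apply Cfsg.Agent.Lib.MinPClosed.mem_normalizer_of_conj_le
    intro s hs
    exact ⟨K.mul_mem (K.mul_mem hk hs.1) (K.inv_mem hk), hAn.conj_mem s hs.2 k⟩
  obtain ⟨R₀, hR₀⟩ := hT₀
  have hR₀T : (R₀ : Subgroup K₀).map K₀.subtype = T := by
    rw [hR₀]; exact Subgroup.map_subgroupOf_eq_of_le hTK₀
  have hKeq : K = K₀ ⊔ H := by
    apply le_antisymm
    · intro k hk
      obtain ⟨k₀, hk₀, hk₀k⟩ := Cfsg.Agent.Lib.SchurZ2.frattini_of_normalizer R₀ (hK₀N hk)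
      rw [hR₀T] at hk₀k
      have h1 : k = k₀⁻¹ * (k₀ * k) := by group
      rw [h1]
      exact Subgroup.mul_mem _ (Subgroup.mem_sup_left (K₀.inv_mem hk₀))
        (Subgroup.mem_sup_right ⟨K.mul_mem hk₀.1 hk, hk₀k⟩)
    · exact sup_le inf_le_left inf_le_left
  have hHN : H ≤ Subgroup.normalizer (K₀ : Set G) := inf_le_left.trans hK₀N
  have hcjN : cj a₄ H ≤ Subgroup.normalizer (K₀ : Set G) := by
    have h1 := cj_mono a₄ hHN
    rwa [← normalizer_cj, hN₄] at h1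
  have hzN : z ∈ Subgroup.normalizer (K₀ : Set G) := (sup_le hHN hcjN) hz
  have hzK₀ : cj z K₀ = K₀ := cj_eq_of_mem_normalizer hzN
  refine ⟨z, (sup_le_sup inf_le_left (cj_mono a₄ inf_le_left) : H ⊔ cj a₄ H ≤ K ⊔ cj a₄ K) hz, ?_⟩
  calc cj a₄ K = cj a₄ (K₀ ⊔ H) := by rw [← hKeq]
    _ = cj a₄ K₀ ⊔ cj a₄ H := cj_sup' _ _ _
    _ = cj z K₀ ⊔ cj z H := by rw [hN₄, hze, hzK₀]
    _ = cj z (K₀ ⊔ H) := (cj_sup' _ _ _).symm
    _ = cj z K := by rw [← hKeq]



/-- Let p be a prime and G a finite group with a normal subgroup A such that, both in A and in G/A, every subgroup containing a Sylow p-subgroup of that group is pronormal in that group. Let T be a Sylow p-subgroup of A. Then every subgroup of G containing a Sylow p-subgroup of G is pronormal in G if and only if (i) every subgroup of N_G(T)/T containing a Sylow p-subgroup of N_G(T)/T is pronormal there, and (ii) for every subgroup H of G containing a Sylow p-subgroup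 of G, the image of N_G(H) in G/A is the full normalizer of the image of H. (Pronormal: H and gHg⁻¹ are conjugate inside the subgroup they generate, for every g.) -/
theorem result {G : Type*} [Group G] [Finite G] {p : ℕ} [Fact p.Prime]
    (A : Subgroup G) [A.Normal] (hA : (∀ K : Subgroup ↥A, (∃ P : Sylow p ↥A, (P : Subgroup ↥A) ≤ K) → Cfsg.IsPronormal K)) (hQ : (∀ K : Subgroup (G ⧸ A), (∃ P : Sylow p (G ⧸ A), (P : Subgroup (G ⧸ A)) ≤ K) → Cfsg.IsPronormal K))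
    (T : Subgroup G) (hT : ∃ P : Sylow p ↥A, (P : Subgroup ↥A).map A.subtype = T) [(T.subgroupOf (Subgroup.normalizer (T : Set G))).Normal] :
    (∀ K : Subgroup G, (∃ P : Sylow p G, (P : Subgroup G) ≤ K) → Cfsg.IsPronormal K) ↔
      ((∀ K : Subgroup (↥(Subgroup.normalizer (T : Set G)) ⧸ T.subgroupOf (Subgroup.normalizer (T : Set G))), (∃ P : Sylow p (↥(Subgroup.normalizer (T : Set G)) ⧸ T.subgroupOf (Subgroup.normalizer (T : Set G))), (P : Subgroup (↥(Subgroup.normalizer (T : Set G)) ⧸ T.subgroupOf (Subgroup.normalizer (T : Set G)))) ≤ K) → Cfsg.IsPronormal K) ∧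
        ∀ K : Subgroup G, (∃ P : Sylow p G, (P : Subgroup G) ≤ K) →
          (Subgroup.normalizer (K : Set G)).map (QuotientGroup.mk' A) = Subgroup.normalizer ((K.map (QuotientGroup.mk' A) : Subgroup (G ⧸ A)) : Set (G ⧸ A))) := by
  classical
  obtain ⟨R, hR⟩ := hT
  have hTp : IsPGroup p T := by rw [← hR]; exact R.2.map A.subtype
  constructor
  · intro hall
    refine ⟨fun Kb hKb => conv2 A T R hR hall Kb hKb, fun K hK => ?_⟩
    apply le_antisymm
    · rintro _ ⟨n, hn, rfl⟩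
      apply Cfsg.Agent.Lib.ConjFamily.mem_normalizer_of_cj_eq
      rw [← cj_map', Cfsg.Agent.Lib.ConjFamily.cj_eq_of_mem_normalizer hn]
    · intro gb hgb
      obtain ⟨g, rfl⟩ := QuotientGroup.mk'_surjective A gb
      have hc : Cfsg.Agent.Lib.ConjFamily.cj (QuotientGroup.mk' A g) (K.map (QuotientGroup.mk' A)) =
          K.map (QuotientGroup.mk' A) := Cfsg.Agent.Lib.ConjFamily.cj_eq_of_mem_normalizer hgb
      rw [← cj_map'] at hc
      obtain ⟨x, hx, hxe⟩ := hall K hK g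
      have hle : K ⊔ Cfsg.Agent.Lib.ConjFamily.cj g K ≤ K ⊔ A := by
        refine sup_le le_sup_left ?_
        intro y hy
        have h1 : QuotientGroup.mk' A y ∈ K.map (QuotientGroup.mk' A) := by
          rw [← hc]; exact ⟨y, hy, rfl⟩
        obtain ⟨k, hk, hke⟩ := h1
        have h2 : k⁻¹ * y ∈ A := QuotientGroup.eq.1 hke
        have h3 : y = k * (k⁻¹ * y) := by group
        rw [h3]
        exact Subgroup.mul_mem _ (Subgroup.mem_sup_left hk) (Subgroup.mem_sup_right h2)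
      obtain ⟨k, hk, a, ha, hka⟩ := Subgroup.mem_sup_of_normal_right.1 (hle hx)
      have ha' : k * a * k⁻¹ ∈ A := ‹A.Normal›.conj_mem a ha k
      have hxa : x = (k * a * k⁻¹) * k := by rw [← hka]; group
      have hcj : Cfsg.Agent.Lib.ConjFamily.cj g K = Cfsg.Agent.Lib.ConjFamily.cj (k * a * k⁻¹) K := by
        have h5 : Cfsg.Agent.Lib.ConjFamily.cj g K = Cfsg.Agent.Lib.ConjFamily.cj x K := hxe
        rw [h5, hxa, ← Cfsg.Agent.Lib.ConjFamily.cj_cj, Cfsg.Agent.Lib.ConjFamily.cj_eq_self_of_mem hk]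
      have hn : (k * a * k⁻¹)⁻¹ * g ∈ Subgroup.normalizer (K : Set G) := by
        apply Cfsg.Agent.Lib.ConjFamily.mem_normalizer_of_cj_eq
        rw [← Cfsg.Agent.Lib.ConjFamily.cj_cj, hcj, Cfsg.Agent.Lib.ConjFamily.cj_cj, inv_mul_cancel,
          Cfsg.Agent.Lib.ConjFamily.cj_one]
      refine ⟨_, hn, ?_⟩
      have h4 : QuotientGroup.mk' A (k * a * k⁻¹) = 1 := (QuotientGroup.eq_one_iff _).2 ha'
      rw [map_mul, map_inv, h4, inv_one, one_mul]
  · rintro ⟨hi, hii⟩ K ⟨P, hPK⟩ g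
    obtain ⟨P₁, hTP₁⟩ := hTp.exists_le_sylow
    obtain ⟨b, hb⟩ := exists_cj_eq' P P₁
    have hK₁ : (P₁ : Subgroup G) ≤ Cfsg.Agent.Lib.ConjFamily.cj b K := by
      rw [← hb]; exact Cfsg.Agent.Lib.ConjFamily.cj_mono b hPK
    have hinf := inf_eq_of_le A T R hR P₁ hTP₁
    have hmain : Cfsg.IsPronormal (Cfsg.Agent.Lib.ConjFamily.cj b K) := fun g' =>
      back_main A hA hQ T R hR (fun H h1 h2 h3 a ha => conv1 T hi H h1 h2 h3 a ha) hii
        (Cfsg.Agent.Lib.ConjFamily.cj b K) P₁ hK₁ hinf g'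
    have h6 := pronormal_cj hmain b⁻¹
    rw [Cfsg.Agent.Lib.ConjFamily.cj_cj, inv_mul_cancel, Cfsg.Agent.Lib.ConjFamily.cj_one] at h6
    exact h6 g

end Cfsg.Agent.S4270
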