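import Cfsg.Statements.S4271
import Cfsg.Agent.S4270
import Cfsg.Agent.Lib.ConjFamily
import Cfsg.Agent.Lib.SylowIn
import Cfsg.Agent.Lib.WeakCl
-- import your own Cfsg.Agent.* helpers here

set_option autoImplicit false
set_option linter.all false
open Cfsg

namespace Cfsg.Agent.S4271

open Cfsg.Agent.Lib.ConjFamily Cfsg.Agent.Lib.SylowIn

theorem self_norm_aux {Q : Type*} [Group Q] [Finite Q] {p : ℕ} [Fact p.Prime]
    (hQ : ∀ P : Sylow p Q, Subgroup.normalizer ((P : Subgroup Q) : Set Q) = P)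
    (S : Sylow p Q) (L : Subgroup Q) (hSL : (S : Subgroup Q) ≤ L) (g : Q)
    (hg : cj g (S : Subgroup Q) ≤ L) : ∃ y ∈ L, y * g ∈ (S : Subgroup Q) := by
  have h1 : IsSylowIn p (S : Subgroup Q) L :=
    IsSylowIn.mono (Cfsg.Agent.Lib.WeakCl.isSylowIn_top S) hSL le_top
  obtain ⟨y, hy, hyc⟩ := exists_conj_le_of_isSylowIn h1 hg (S.isPGroup'.map _)
  refine ⟨y, hy, ?_⟩
  have h2 : cj (y * g) (S : Subgroup Q) = (S : Subgroup Q) := by
    rw [← cj_cj]
    refine Subgroup.eq_of_le_of_card_ge hyc ?_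
    rw [card_cj, card_cj]
  have h3 := mem_normalizer_of_cj_eq h2
  rwa [hQ S] at h3



/-- Let p be a prime and G a finite group with a normal subgroup A such that every subgroup of A containing a Sylow p-subgroup of A is pronormal in A, and the Sylow p-subgroups of G/A are self-normalizing. Let T be a Sylow p-subgroup of A. Then every subgroup of G containing a Sylow p-subgroup of G is pronormal in G if and only if every subgroup of N_G(T)/T containing a Sylow p-subgroup of N_G(T)/T is pronormal in N_G(T)/T. (Pronormal: H and gHg⁻¹ are conjugate inside the subgroup they generate, for every g.) -/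
theorem result {G : Type*} [Group G] [Finite G] {p : ℕ} [Fact p.Prime]
    (A : Subgroup G) [A.Normal] (hA : (∀ K : Subgroup ↥A, (∃ P : Sylow p ↥A, (P : Subgroup ↥A) ≤ K) → Cfsg.IsPronormal K))
    (hQ : ∀ P : Sylow p (G ⧸ A), Subgroup.normalizer ((P : Subgroup (G ⧸ A)) : Set (G ⧸ A)) = P)
    (T : Subgroup G) (hT : ∃ P : Sylow p ↥A, (P : Subgroup ↥A).map A.subtype = T) [(T.subgroupOf (Subgroup.normalizer (T : Set G))).Normal] :
    (∀ K : Subgroup G, (∃ P : Sylow p G, (P : Subgroup G) ≤ K) → Cfsg.IsPronormal K) ↔ (∀ K : Subgroup (↥(Subgroup.normalizer (T : Set G)) ⧸ T.subgroupOf (Subgroup.normalizer (T : Set G))), (∃ P : Sylow p (↥(Subgroup.normalizer (T : Set G)) ⧸ T.subgroupOf (Subgroup.normalizer (T : Set G))), (P : Subgroup (↥(Subgroup.normalizer (T : Set G)) ⧸ T.subgroupOf (Subgroup.normalizer (T : Set G)))) ≤ K) → Cfsg.IsPronormal K) := by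
  classical
  have hmk := QuotientGroup.mk'_surjective A
  have hQ' : ∀ K : Subgroup (G ⧸ A), (∃ P : Sylow p (G ⧸ A), (P : Subgroup (G ⧸ A)) ≤ K) →
      Cfsg.IsPronormal K := by
    rintro K ⟨S, hSK⟩ g
    have hc : cj g (S : Subgroup (G ⧸ A)) ≤ K ⊔ cj g K :=
      (cj_mono g hSK).trans le_sup_right
    obtain ⟨y, hy, hyS⟩ := self_norm_aux hQ S (K ⊔ cj g K) (hSK.trans le_sup_left) g hc
    refine ⟨y⁻¹, Subgroup.inv_mem _ hy, ?_⟩
    show cj g K = cj y⁻¹ K
    have h1 : cj (y * g) K = K := cj_eq_self_of_mem (hSK hyS)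
    conv_rhs => rw [← h1]
    rw [cj_cj]
    have e : y⁻¹ * (y * g) = g := by group
    rw [e]
  have hii : ∀ K : Subgroup G, (∃ P : Sylow p G, (P : Subgroup G) ≤ K) →
      (Subgroup.normalizer (K : Set G)).map (QuotientGroup.mk' A) =
        Subgroup.normalizer ((K.map (QuotientGroup.mk' A) : Subgroup (G ⧸ A)) : Set (G ⧸ A)) := by
    rintro K ⟨P, hPK⟩
    apply le_antisymm
    · rintro _ ⟨n, hn, rfl⟩
      apply mem_normalizer_of_cj_eq
      rw [← Cfsg.Agent.S4270.cj_map', cj_eq_of_mem_normalizer hn]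
    · intro gb hgb
      have hSK : ((P.mapSurjective hmk : Sylow p (G ⧸ A)) : Subgroup (G ⧸ A)) ≤
          K.map (QuotientGroup.mk' A) := Subgroup.map_mono hPK
      have hc : cj gb ((P.mapSurjective hmk : Sylow p (G ⧸ A)) : Subgroup (G ⧸ A)) ≤
          K.map (QuotientGroup.mk' A) := by
        have h1 := cj_mono gb hSK
        rwa [cj_eq_of_mem_normalizer hgb] at h1
      obtain ⟨y, hy, hyS⟩ := self_norm_aux hQ _ _ hSK gb hc
      have h2 : gb ∈ K.map (QuotientGroup.mk' A) := by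
        have h3 : gb = y⁻¹ * (y * gb) := by group
        rw [h3]
        exact Subgroup.mul_mem _ (Subgroup.inv_mem _ hy) (hSK hyS)
      obtain ⟨k, hk, rfl⟩ := h2
      exact ⟨k, Subgroup.le_normalizer hk, rfl⟩
  exact (Cfsg.Agent.S4270.result A hA hQ' T hT).trans ⟨fun h => h.1, fun h => ⟨h, hii⟩⟩

end Cfsg.Agent.S4271
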