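import Cfsg.Statements.S4343
import Cfsg.Agent.Lib.H7Basic

set_option autoImplicit false
set_option linter.all false
open Cfsg

namespace Cfsg.Agent.S4343


open Subgroup
open scoped Pointwise

variable {S : Type*} [Group S] [Finite S] {p : ℕ} [Fact p.Prime]

theorem relIndex_inf_eq (hn : Nat.card (Sylow p S) < p ^ 2) (A B : Sylow p S) (hAB : A ≠ B) :
    ((A : Subgroup S) ⊓ (B : Subgroup S)).relIndex (A : Subgroup S) = p := by
  classical
  have hpp : p.Prime := Fact.out
  have h1 : ((A : Subgroup S) ⊓ (B : Subgroup S)).relIndex (A : Subgroup S)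
      = (MulAction.orbit (A : Subgroup S) B).ncard := by
    rw [← MulAction.index_stabilizer]
    have h2 : MulAction.stabilizer (A : Subgroup S) B =
        ((A : Subgroup S) ⊓ normalizer ((B : Subgroup S) : Set S)).subgroupOf (A : Subgroup S) := by
      ext x
      simp only [MulAction.mem_stabilizer_iff, Subgroup.mem_subgroupOf, Subgroup.mem_inf]
      constructor
      · intro h
        exact ⟨x.2, Sylow.smul_eq_iff_mem_normalizer.mp h⟩
      · intro h
        exact Sylow.smul_eq_iff_mem_normalizer.mpr h.2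
    have h3 : (A : Subgroup S) ⊓ normalizer ((B : Subgroup S) : Set S) = (A : Subgroup S) ⊓ (B : Subgroup S) :=
      IsPGroup.inf_normalizer_sylow A.isPGroup' B
    rw [h2, h3]
    rfl
  have hdvd : ((A : Subgroup S) ⊓ (B : Subgroup S)).relIndex (A : Subgroup S) ∣ Nat.card A :=
    Subgroup.relIndex_dvd_card _ _
  obtain ⟨a, ha⟩ := IsPGroup.iff_card.mp A.isPGroup'
  rw [ha] at hdvd
  obtain ⟨i, -, hi⟩ := (Nat.dvd_prime_pow hpp).mp hdvd
  have hle : ((A : Subgroup S) ⊓ (B : Subgroup S)).relIndex (A : Subgroup S) ≤ Nat.card (Sylow p S) := by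
    rw [h1]
    exact Set.ncard_le_card _
  rw [hi] at hle ⊢
  have h2 : i < 2 := by
    by_contra h
    have : p ^ 2 ≤ p ^ i := Nat.pow_le_pow_right hpp.pos (by omega)
    omega
  have h3 : i ≠ 0 := by
    intro h0
    rw [h0, pow_zero] at hi
    have h4 : (A : Subgroup S) ≤ (A : Subgroup S) ⊓ (B : Subgroup S) := Subgroup.relIndex_eq_one.mp hi
    have h5 : (A : Subgroup S) ≤ B := h4.trans inf_le_right
    apply hAB
    ext1
    apply Subgroup.eq_of_le_of_card_ge h5
    rw [A.card_eq_multiplicity, B.card_eq_multiplicity]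
  have h4 : i = 1 := by omega
  rw [h4, pow_one]

theorem card_line_ge (E : Subgroup S) (Z Q : Sylow p S) (hEZ : E ≤ Z) (hEQ : E ≤ Q) (hZQ : Q ≠ Z)
    (hidx : E.relIndex (Z : Subgroup S) = p) :
    1 + p ≤ Nat.card {R : Sylow p S // E ≤ R} := by
  classical
  have hpp : p.Prime := Fact.out
  -- `Z` normalizes `E`
  have hnorm : ∀ z ∈ (Z : Subgroup S), ∀ x ∈ E, z * x * z⁻¹ ∈ E := by
    obtain ⟨a, ha⟩ := IsPGroup.iff_card.mp Z.isPGroup'
    have ha0 : a ≠ 0 := by
      intro h
      rw [h, pow_zero] at ha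
      have h1 : E.relIndex (Z : Subgroup S) ∣ Nat.card Z := Subgroup.relIndex_dvd_card _ _
      rw [ha, hidx] at h1
      exact hpp.one_lt.ne' (Nat.dvd_one.mp h1)
    have hmin : (E.subgroupOf (Z : Subgroup S)).index = (Nat.card Z).minFac := by
      rw [ha, Nat.Prime.pow_minFac hpp ha0]
      exact hidx
    have hn := Subgroup.normal_of_index_eq_minFac_card hmin
    intro z hz x hx
    have h1 : (⟨x, hEZ hx⟩ : (Z : Subgroup S)) ∈ E.subgroupOf (Z : Subgroup S) := hx
    have h2 := hn.conj_mem _ h1 ⟨z, hz⟩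
    exact h2
  let M : SubMulAction (Z : Subgroup S) (Sylow p S) :=
    { carrier := {R | E ≤ R}
      smul_mem' := by
        intro z R hR x hx
        have h1 : (z : S)⁻¹ * x * ((z : S)⁻¹)⁻¹ ∈ E := hnorm _ ((Z : Subgroup S).inv_mem z.2) x hx
        have h2 : (z : S)⁻¹ * x * (z : S) ∈ E := by simpa using h1
        have h3 : x ∈ ((z : S) • R : Sylow p S) := by
          change x ∈ MulAut.conj (z : S) • (R : Subgroup S)
          rw [Cfsg.Agent.Lib.H7Basic.mem_smul_conj_iff]
          exact hR h2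
        exact h3 }
  have hmod := (Z.isPGroup').card_modEq_card_fixedPoints M
  have hfix : Nat.card (MulAction.fixedPoints (Z : Subgroup S) M) = 1 := by
    haveI : Subsingleton (MulAction.fixedPoints (Z : Subgroup S) M) := by
      constructor
      have key : ∀ R : MulAction.fixedPoints (Z : Subgroup S) M, R.1.1 = Z := by
        intro R
        have h1 : (R.1.1 : Sylow p S) ∈ MulAction.fixedPoints (Z : Subgroup S) (Sylow p S) := by
          intro z
          exact congrArg Subtype.val (R.2 z)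
        have h2 := (IsPGroup.sylow_mem_fixedPoints_iff Z.isPGroup').mp h1
        ext1
        symm
        apply Subgroup.eq_of_le_of_card_ge h2
        rw [Z.card_eq_multiplicity, R.1.1.card_eq_multiplicity]
      intro R R'
      apply Subtype.ext
      apply Subtype.ext
      rw [key R, key R']
    haveI : Nonempty (MulAction.fixedPoints (Z : Subgroup S) M) := by
      refine ⟨⟨⟨Z, hEZ⟩, ?_⟩⟩
      intro z
      apply Subtype.ext
      have h1 : (Z : Sylow p S) ∈ MulAction.fixedPoints (Z : Subgroup S) (Sylow p S) :=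
        (IsPGroup.sylow_mem_fixedPoints_iff Z.isPGroup').mpr le_rfl
      exact h1 z
    rw [Nat.card_eq_one_iff_unique]
    exact ⟨inferInstance, inferInstance⟩
  rw [hfix] at hmod
  have hcardM : Nat.card M = Nat.card {R : Sylow p S // E ≤ R} := rfl
  rw [← hcardM]
  have h2 : 2 ≤ Nat.card M := by
    have h3 : (⟨Z, hEZ⟩ : M) ≠ ⟨Q, hEQ⟩ := by
      intro h
      exact hZQ (congrArg Subtype.val h).symm
    haveI : Nontrivial M := ⟨⟨_, _, h3⟩⟩
    exact Finite.one_lt_card
  have h4 : p ∣ Nat.card M - 1 := (Nat.modEq_iff_dvd' (by omega)).mp hmod.symm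
  have h5 := Nat.le_of_dvd (by omega) h4
  omega

theorem card_subtype_le_succ {α : Type*} [Finite α] (s : α → Prop) (x : α) :
    Nat.card {y // s y} ≤ Nat.card {y // s y ∧ y ≠ x} + 1 := by
  classical
  let g : {y // s y} → Option {y // s y ∧ y ≠ x} := fun y =>
    if h : y.1 = x then none else some ⟨y.1, y.2, h⟩
  have hg : Function.Injective g := by
    intro a b hab
    simp only [g] at hab
    split_ifs at hab with h1 h2 h2
    · exact Subtype.ext (h1.trans h2.symm)
    · simp only [Option.some.injEq, Subtype.mk.injEq] at hab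
      exact Subtype.ext hab
  have := Nat.card_le_card_of_injective g hg
  rwa [Finite.card_option] at this

theorem card_ne_succ_le {α : Type*} [Finite α] (x : α) :
    Nat.card {y // y ≠ x} + 1 ≤ Nat.card α := by
  classical
  let g : Option {y // y ≠ x} → α := fun y => match y with
    | none => x
    | some z => z.1
  have hg : Function.Injective g := by
    rintro (_ | a) (_ | b) hab
    · rfl
    · exact absurd hab.symm b.2
    · exact absurd hab a.2
    · simp only [Option.some.injEq]
      exact Subtype.ext hab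
  have := Nat.card_le_card_of_injective g hg
  rwa [Finite.card_option] at this

theorem sylow_ne_top [Nontrivial S] [IsSimpleGroup S] (hS : ¬ IsMulCommutative S) (P : Sylow p S) :
    (P : Subgroup S) ≠ ⊤ := by
  intro h
  have hp : IsPGroup p S := by
    intro x
    obtain ⟨k, hk⟩ := P.isPGroup' ⟨x, by rw [h]; trivial⟩
    exact ⟨k, by simpa [Subtype.ext_iff] using hk⟩
  haveI := hp.center_nontrivial
  rcases IsSimpleGroup.eq_bot_or_eq_top_of_normal (Subgroup.center S) inferInstance with h1 | h1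
  · exact (Subgroup.center S).nontrivial_iff_ne_bot.mp inferInstance h1
  · apply hS
    exact ⟨⟨fun a b => by
      have := (Subgroup.mem_center_iff.mp (h1 ▸ Subgroup.mem_top b : b ∈ Subgroup.center S)) a
      exact this⟩⟩



/-- Let S be a finite non-abelian simple group and p a prime dividing its order. If S has fewer than p² Sylow p-subgroups, then its Sylow p-subgroups have order p. -/
theorem result {S : Type*} [Group S] [Finite S]
    [IsSimpleGroup S] (hS : ¬ IsMulCommutative S) (p : ℕ) [Fact p.Prime] (hp : p ∣ Nat.card S)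
    (hn : Nat.card (Sylow p S) < p ^ 2) (P : Sylow p S) : Nat.card P = p := by
  classical
  have hpp : p.Prime := Fact.out
  -- all Sylow subgroups have the same order
  set c := Nat.card P with hc
  have hcard : ∀ R : Sylow p S, Nat.card R = c := by
    intro R
    rw [hc, R.card_eq_multiplicity, P.card_eq_multiplicity]
  have hinf : ∀ A B : Sylow p S, A ≠ B → Nat.card ((A : Subgroup S) ⊓ (B : Subgroup S) : Subgroup S) * p = c := by
    intro A B hAB
    have h1 := Subgroup.relIndex_mul_relIndex (⊥ : Subgroup S) ((A : Subgroup S) ⊓ (B : Subgroup S)) A bot_le inf_le_left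
    simp only [Subgroup.relIndex_bot_left] at h1
    rw [relIndex_inf_eq hn A B hAB] at h1
    rw [h1]
    exact hcard A
  by_contra hne
  obtain ⟨a, ha⟩ := IsPGroup.iff_card.mp P.isPGroup'
  have hpc : p ∣ c := P.dvd_card_of_dvd_card hp
  have ha2 : 2 ≤ a := by
    rw [← hc] at ha
    rw [ha] at hpc
    have h1 : a ≠ 0 := by
      intro h
      rw [h, pow_zero] at hpc
      exact hpp.one_lt.ne' (Nat.dvd_one.mp hpc)
    have h2 : a ≠ 1 := by
      intro h
      rw [h, pow_one] at ha
      exact hne ha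
    omega
  have hPtop : ∀ R : Sylow p S, (R : Subgroup S) ≠ ⊤ := sylow_ne_top hS
  -- a second Sylow subgroup
  obtain ⟨Q, hQ⟩ : ∃ Q : Sylow p S, Q ≠ P := by
    by_contra hcon
    push_neg at hcon
    haveI : Subsingleton (Sylow p S) := ⟨fun x y => (hcon x).trans (hcon y).symm⟩
    have hn1 := Sylow.normal_of_subsingleton P
    rcases IsSimpleGroup.eq_bot_or_eq_top_of_normal (P : Subgroup S) hn1 with h1 | h1
    · exact P.ne_bot_of_dvd_card hp h1
    · exact hPtop P h1
  set D : Subgroup S := (P : Subgroup S) ⊓ (Q : Subgroup S) with hD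
  have hDcard : Nat.card D * p = c := hinf P Q hQ.symm
  have hc1 : c = p ^ a := ha
  have hDbot : D ≠ ⊥ := by
    intro h
    rw [h, Subgroup.card_bot, one_mul] at hDcard
    rw [← hDcard] at hc1
    have : p ^ 1 < p ^ a := Nat.pow_lt_pow_right hpp.one_lt (by omega)
    rw [pow_one] at this
    omega
  obtain ⟨X, hDX⟩ : ∃ X : Sylow p S, ¬ D ≤ X := by
    by_contra hcon
    push_neg at hcon
    have hle : D ≤ (P : Subgroup S).normalCore := by
      intro x hx g
      have h1 : x ∈ ((g⁻¹ • P : Sylow p S) : Subgroup S) := hcon _ hx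
      change x ∈ MulAut.conj g⁻¹ • (P : Subgroup S) at h1
      rw [Cfsg.Agent.Lib.H7Basic.mem_smul_conj_iff] at h1
      simpa using h1
    rcases IsSimpleGroup.eq_bot_or_eq_top_of_normal ((P : Subgroup S).normalCore) inferInstance with h | h
    · rw [h] at hle
      exact hDbot (le_bot_iff.mp hle)
    · apply hPtop P
      rw [eq_top_iff, ← h]
      exact Subgroup.normalCore_le _
  have hRX : ∀ R : Sylow p S, D ≤ R → R ≠ X := by
    rintro R hR rfl
    exact hDX hR
  have hEcard : ∀ R : Sylow p S, R ≠ X → Nat.card ((X : Subgroup S) ⊓ (R : Subgroup S) : Subgroup S) * p = c :=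
    fun R hR => hinf X R hR.symm
  have hEinj : ∀ R R' : {R : Sylow p S // D ≤ R},
      (X : Subgroup S) ⊓ (R.1 : Subgroup S) = (X : Subgroup S) ⊓ (R'.1 : Subgroup S) → R = R' := by
    intro R R' h
    by_contra hne
    have hRR' : R.1 ≠ R'.1 := fun h' => hne (Subtype.ext h')
    have h1 := hinf R.1 R'.1 hRR'
    have h2 : D = (R.1 : Subgroup S) ⊓ (R'.1 : Subgroup S) := by
      apply Subgroup.eq_of_le_of_card_ge (le_inf R.2 R'.2)
      have : Nat.card ((R.1 : Subgroup S) ⊓ (R'.1 : Subgroup S) : Subgroup S) = Nat.card D :=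
        Nat.eq_of_mul_eq_mul_right hpp.pos (h1.trans hDcard.symm)
      exact this.le
    have h3 : (X : Subgroup S) ⊓ (R.1 : Subgroup S) ≤ (R.1 : Subgroup S) ⊓ (R'.1 : Subgroup S) := by
      intro x hx
      refine Subgroup.mem_inf.mpr ⟨(Subgroup.mem_inf.mp hx).2, ?_⟩
      rw [h] at hx
      exact (Subgroup.mem_inf.mp hx).2
    have h4 : (X : Subgroup S) ⊓ (R.1 : Subgroup S) = (R.1 : Subgroup S) ⊓ (R'.1 : Subgroup S) := by
      apply Subgroup.eq_of_le_of_card_ge h3
      have : Nat.card ((R.1 : Subgroup S) ⊓ (R'.1 : Subgroup S) : Subgroup S) =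
          Nat.card ((X : Subgroup S) ⊓ (R.1 : Subgroup S) : Subgroup S) :=
        Nat.eq_of_mul_eq_mul_right hpp.pos (h1.trans (hEcard R.1 (hRX R.1 R.2)).symm)
      exact this.le
    apply hDX
    rw [h2, ← h4]
    exact inf_le_left
  -- the line through `D`
  have hLD : 1 + p ≤ Nat.card {R : Sylow p S // D ≤ R} :=
    card_line_ge D P Q inf_le_left inf_le_right hQ (relIndex_inf_eq hn P Q hQ.symm)
  let F : {R : Sylow p S // D ≤ R} → Type _ := fun R =>
    {Y : Sylow p S // ((X : Subgroup S) ⊓ (R.1 : Subgroup S) ≤ Y) ∧ Y ≠ X}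
  have hF : ∀ R : {R : Sylow p S // D ≤ R}, p ≤ Nat.card (F R) := by
    intro R
    have h1 := card_line_ge ((X : Subgroup S) ⊓ (R.1 : Subgroup S)) X R.1 inf_le_left inf_le_right
      (hRX R.1 R.2) (relIndex_inf_eq hn X R.1 (hRX R.1 R.2).symm)
    have h2 := card_subtype_le_succ (fun Y : Sylow p S => ((X : Subgroup S) ⊓ (R.1 : Subgroup S) ≤ Y)) X
    have h3 : Nat.card {y : Sylow p S // ((X : Subgroup S) ⊓ (R.1 : Subgroup S) ≤ y) ∧ y ≠ X} = Nat.card (F R) := rfl
    omega
  let φ : (Σ R : {R : Sylow p S // D ≤ R}, F R) → {Y : Sylow p S // Y ≠ X} := fun z => ⟨z.2.1, z.2.2.2⟩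
  have hφ : Function.Injective φ := by
    rintro ⟨R, Y⟩ ⟨R', Y'⟩ h
    have hY : Y.1 = Y'.1 := congrArg Subtype.val h
    -- `X ⊓ Y` is the common hyperplane
    have h1 : ∀ (T : {R : Sylow p S // D ≤ R}) (Z : F T), (X : Subgroup S) ⊓ (T.1 : Subgroup S) = (X : Subgroup S) ⊓ (Z.1 : Subgroup S) := by
      intro T Z
      apply Subgroup.eq_of_le_of_card_ge (le_inf inf_le_left Z.2.1)
      have : Nat.card ((X : Subgroup S) ⊓ (Z.1 : Subgroup S) : Subgroup S) =
          Nat.card ((X : Subgroup S) ⊓ (T.1 : Subgroup S) : Subgroup S) :=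
        Nat.eq_of_mul_eq_mul_right hpp.pos ((hEcard Z.1 Z.2.2).trans (hEcard T.1 (hRX T.1 T.2)).symm)
      exact this.le
    have hRR : R = R' := by
      apply hEinj
      rw [h1 R Y, h1 R' Y', hY]
    subst hRR
    have hYY : Y = Y' := Subtype.ext hY
    rw [hYY]
  haveI : Fintype {R : Sylow p S // D ≤ R} := Fintype.ofFinite _
  have hle1 := Nat.card_le_card_of_injective φ hφ
  rw [Nat.card_sigma] at hle1
  have hle2 : Nat.card {R : Sylow p S // D ≤ R} * p ≤ ∑ R : {R : Sylow p S // D ≤ R}, Nat.card (F R) := by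
    have := Finset.card_nsmul_le_sum (Finset.univ : Finset {R : Sylow p S // D ≤ R}) (fun R => Nat.card (F R)) p (fun R _ => hF R)
    simpa [Nat.card_eq_fintype_card] using this
  have hle3 := card_ne_succ_le X
  have hle4 : (1 + p) * p ≤ Nat.card {R : Sylow p S // D ≤ R} * p := Nat.mul_le_mul_right _ hLD
  have : p ^ 2 < (1 + p) * p + 1 := by nlinarith
  omega

end Cfsg.Agent.S4343
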