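import Cfsg.Statements.S4304
import Cfsg.Agent.S4303
import Cfsg.Agent.S4343
import Cfsg.Agent.Lib.SylowCount

set_option autoImplicit false
set_option linter.all false
open Cfsg

namespace Cfsg.Agent.S4304


open Subgroup
open scoped Pointwise
open Cfsg.Agent.Lib.SylowCount

theorem no_simple {S : Type*} [Group S] [Finite S] [IsSimpleGroup S] [Fact (Nat.Prime 7)]
    (hn : Nat.card (Sylow 7 S) = 15) : False := by
  classical
  haveI : Fintype (Sylow 7 S) := Fintype.ofFinite _
  -- `S` is not abelian and `7` divides its order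
  have hS : ¬ IsMulCommutative S := by
    intro hc
    obtain ⟨P⟩ : Nonempty (Sylow 7 S) := inferInstance
    have hPn : (P : Subgroup S).Normal := by
      constructor
      intro x hx g
      have h1 : g * x = x * g := hc.is_comm.comm g x
      rw [h1, mul_inv_cancel_right]
      exact hx
    haveI := Sylow.unique_of_normal P hPn
    rw [Nat.card_unique] at hn
    omega
  have h7 : 7 ∣ Nat.card S := by
    by_contra h
    obtain ⟨P⟩ : Nonempty (Sylow 7 S) := inferInstance
    have hall : ∀ Q : Sylow 7 S, (Q : Subgroup S) = ⊥ := by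
      intro Q
      obtain ⟨a, ha⟩ := IsPGroup.iff_card.mp Q.isPGroup'
      have h1 : Nat.card Q ∣ Nat.card S := Subgroup.card_subgroup_dvd_card _
      rcases Nat.eq_zero_or_pos a with h0 | h0
      · rw [h0, pow_zero] at ha
        exact Subgroup.card_eq_one.mp ha
      · exfalso
        apply h
        rw [ha] at h1
        exact (dvd_pow_self 7 h0.ne').trans h1
    haveI : Subsingleton (Sylow 7 S) := ⟨fun A B => Sylow.ext ((hall A).trans (hall B).symm)⟩
    haveI : Nonempty (Sylow 7 S) := ⟨P⟩
    rw [Nat.card_unique] at hn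
    omega
  obtain ⟨P⟩ : Nonempty (Sylow 7 S) := inferInstance
  have hP : Nat.card P = 7 := Cfsg.Agent.S4343.result hS 7 h7 (by rw [hn]; norm_num) P
  have hcom : ∀ s ∈ centralizer ((P : Subgroup S) : Set S), ∀ x ∈ (P : Subgroup S), s * x = x * s :=
    fun s hs x hx => ((Subgroup.mem_centralizer_iff.mp hs) x hx).symm
  -- the action of `P` on the other Sylow subgroups is free
  have hfree : ∀ Q : Sylow 7 S, Q ≠ P → ∀ y ∈ (P : Subgroup S), y • Q = Q → y = 1 := by
    intro Q hQ y hy hyQ
    have h1 : y ∈ normalizer ((Q : Subgroup S) : Set S) := Sylow.smul_eq_iff_mem_normalizer.mp hyQ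
    have h2 : (P : Subgroup S) ⊓ normalizer ((Q : Subgroup S) : Set S) = (P : Subgroup S) ⊓ (Q : Subgroup S) :=
      IsPGroup.inf_normalizer_sylow P.isPGroup' Q
    have h3 : y ∈ (P : Subgroup S) ⊓ (Q : Subgroup S) := by
      rw [← h2]
      exact Subgroup.mem_inf.mpr ⟨hy, h1⟩
    have h4' : Nat.card ((P : Subgroup S) ⊓ (Q : Subgroup S) : Subgroup S) ∣ Nat.card (P : Subgroup S) :=
      Subgroup.card_dvd_of_le inf_le_left
    have h4 : Nat.card ((P : Subgroup S) ⊓ (Q : Subgroup S) : Subgroup S) ∣ 7 := by
      have : Nat.card (P : Subgroup S) = 7 := hP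
      rwa [this] at h4'
    rcases (Nat.dvd_prime (Fact.out : Nat.Prime 7)).mp h4 with h5 | h5
    · have h6 := Subgroup.card_eq_one.mp h5
      rw [h6] at h3
      exact h3
    · exfalso
      apply hQ
      have h6 : (P : Subgroup S) ⊓ (Q : Subgroup S) = P := by
        apply Subgroup.eq_of_le_of_card_ge inf_le_left
        rw [h5]
        exact hP.le
      have h7 : (P : Subgroup S) ≤ Q := inf_eq_left.mp h6
      symm
      apply Sylow.ext
      apply Subgroup.eq_of_le_of_card_ge h7
      rw [Q.card_eq_multiplicity, P.card_eq_multiplicity]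
  -- the power trick
  have ha : ∀ s ∈ centralizer ((P : Subgroup S) : Set S), ∀ m : ℕ, s ^ m = 1 → ¬ 7 ∣ m →
      ∀ Q : Sylow 7 S, Q ≠ P → ∀ x ∈ (P : Subgroup S), s • Q = x • Q → s • Q = Q := by
    intro s hs m hm h7m Q hQ x hx hsx
    have hpow : ∀ i : ℕ, s ^ i • Q = x ^ i • Q := by
      intro i
      induction i with
      | zero => simp
      | succ i ih =>
        have hcomm : s ^ i * x = x * s ^ i := by
          have : s ^ i ∈ centralizer ((P : Subgroup S) : Set S) := Subgroup.pow_mem _ hs i
          exact hcom _ this x hx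
        calc s ^ (i + 1) • Q = (s ^ i) • (s • Q) := by rw [pow_succ, mul_smul]
          _ = (s ^ i) • (x • Q) := by rw [hsx]
          _ = x • ((s ^ i) • Q) := by rw [← mul_smul, hcomm, mul_smul]
          _ = x • (x ^ i • Q) := by rw [ih]
          _ = x ^ (i + 1) • Q := by rw [← mul_smul, pow_succ']
    have h1 : x ^ m • Q = Q := by
      rw [← hpow, hm, one_smul]
    have h2 : x ^ m = 1 := hfree Q hQ _ (Subgroup.pow_mem _ hx m) h1
    have h3 : x ^ 7 = 1 := by
      have := pow_card_eq_one' (x := (⟨x, hx⟩ : (P : Subgroup S)))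
      have h7' : Nat.card (P : Subgroup S) = 7 := hP
      rw [h7'] at this
      simpa using congrArg Subtype.val this
    have h4 : x ^ Nat.gcd m 7 = 1 := pow_gcd_eq_one.mpr ⟨h2, h3⟩
    have h5 : Nat.gcd m 7 = 1 :=
      Nat.Coprime.symm ((Nat.Prime.coprime_iff_not_dvd (by norm_num : Nat.Prime 7)).mpr h7m)
    rw [h5, pow_one] at h4
    rw [hsx, h4, one_smul]
  -- pigeonhole: at most two `P`-orbits off `P`
  have hpig : ∀ Q₁ Q₂ Q₃ : Sylow 7 S, Q₁ ≠ P → Q₂ ≠ P → Q₃ ≠ P →
      (∃ x ∈ (P : Subgroup S), Q₂ = x • Q₁) ∨ (∃ x ∈ (P : Subgroup S), Q₃ = x • Q₁) ∨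
        (∃ x ∈ (P : Subgroup S), Q₃ = x • Q₂) := by
    intro Q₁ Q₂ Q₃ h1 h2 h3
    by_contra hcon
    push_neg at hcon
    obtain ⟨h12, h13, h23⟩ := hcon
    let F : Fin 3 → Sylow 7 S := ![Q₁, Q₂, Q₃]
    have hF : ∀ i, F i ≠ P := by
      intro i
      fin_cases i
      · exact h1
      · exact h2
      · exact h3
    have key : ∀ (i j : Fin 3) (x : S), x ∈ (P : Subgroup S) → F j = x • F i → i = j := by
      intro i j x hx h
      have hi : ∀ y z : Sylow 7 S, y = x • z → z = x⁻¹ • y := by
        intro y z hyz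
        rw [hyz, inv_smul_smul]
      fin_cases i <;> fin_cases j
      · rfl
      · exact absurd h (h12 x hx)
      · exact absurd h (h13 x hx)
      · exact absurd (hi _ _ h) (h12 x⁻¹ ((P : Subgroup S).inv_mem hx))
      · rfl
      · exact absurd h (h23 x hx)
      · exact absurd (hi _ _ h) (h13 x⁻¹ ((P : Subgroup S).inv_mem hx))
      · exact absurd (hi _ _ h) (h23 x⁻¹ ((P : Subgroup S).inv_mem hx))
      · rfl
    let f : Fin 3 × (P : Subgroup S) → Sylow 7 S := fun a => (a.2 : S) • F a.1
    have hinj : Function.Injective f := by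
      rintro ⟨i, y⟩ ⟨j, z⟩ hyz
      have h0 : (y : S) • F i = (z : S) • F j := hyz
      have h4 : F j = ((z : S)⁻¹ * y) • F i := by
        rw [mul_smul, h0, inv_smul_smul]
      have hij : i = j := key i j _ ((P : Subgroup S).mul_mem ((P : Subgroup S).inv_mem z.2) y.2) h4
      subst hij
      have h5 : (z : S)⁻¹ * y = 1 := hfree (F i) (hF i) _
        ((P : Subgroup S).mul_mem ((P : Subgroup S).inv_mem z.2) y.2) h4.symm
      have h6 : (y : S) = z := by
        rw [inv_mul_eq_one] at h5
        exact h5.symm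
      have h7 : y = z := Subtype.ext h6
      rw [h7]
    have := Nat.card_le_card_of_injective f hinj
    rw [Nat.card_prod, Nat.card_eq_fintype_card (α := Fin 3), Fintype.card_fin, hn] at this
    have h7' : Nat.card (P : Subgroup S) = 7 := hP
    rw [h7'] at this
    omega
  -- the permutation action is faithful
  have hφinj : Function.Injective (MulAction.toPermHom S (Sylow 7 S)) := by
    rw [injective_iff_map_eq_one]
    have hker : (MulAction.toPermHom S (Sylow 7 S)).ker = ⊥ := by
      rcases IsSimpleGroup.eq_bot_or_eq_top_of_normal (MulAction.toPermHom S (Sylow 7 S)).ker inferInstance with h | h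
      · exact h
      · exfalso
        have h1 : ∀ Q R : Sylow 7 S, Q = R := by
          intro Q R
          obtain ⟨g, hg⟩ := MulAction.exists_smul_eq S Q R
          have h2 : g ∈ (MulAction.toPermHom S (Sylow 7 S)).ker := by rw [h]; trivial
          have h3 : MulAction.toPermHom S (Sylow 7 S) g = 1 := h2
          have h4 : g • Q = Q := by
            have := congrArg (fun f : Equiv.Perm (Sylow 7 S) => f Q) h3
            simpa using this
          rw [← hg, h4]
        haveI : Subsingleton (Sylow 7 S) := ⟨h1⟩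
        haveI : Nonempty (Sylow 7 S) := ⟨P⟩
        rw [Nat.card_unique] at hn
        omega
    intro g hg
    have : g ∈ (MulAction.toPermHom S (Sylow 7 S)).ker := hg
    rw [hker] at this
    exact this
  -- elements of the centralizer have order a power of `7`
  have hno : ∀ t ∈ centralizer ((P : Subgroup S) : Set S), ∀ r : ℕ, r.Prime → orderOf t = r → r ≠ 7 → False := by
    intro t ht r hr hor hr7
    have h7r : ¬ 7 ∣ r := fun h => hr7 ((Nat.prime_dvd_prime_iff_eq (by norm_num) hr).mp h).symm
    have htr : t ^ r = 1 := by rw [← hor]; exact pow_orderOf_eq_one t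
    have ht1 : t ≠ 1 := by
      intro h
      rw [h, orderOf_one] at hor
      exact hr.one_lt.ne hor
    have htP : t • P = P :=
      Sylow.smul_eq_iff_mem_normalizer.mpr (Subgroup.centralizer_le_normalizer _ ht)
    obtain ⟨Q₂, hQ₂⟩ : ∃ Q₂ : Sylow 7 S, t • Q₂ ≠ Q₂ := by
      by_contra hcon
      push_neg at hcon
      apply ht1
      apply hφinj
      rw [map_one]
      ext1 Q
      simpa using hcon Q
    have hQ₂P : Q₂ ≠ P := by
      rintro rfl
      exact hQ₂ htP
    have hne : ∀ Q : Sylow 7 S, Q ≠ P → t • Q ≠ P := by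
      intro Q hQ h
      apply hQ
      have h1 : t • Q = t • P := by rw [h, htP]
      exact MulAction.injective t h1
    by_cases hr2 : r = 2
    · subst hr2
      by_cases hfix : ∃ Q₁ : Sylow 7 S, Q₁ ≠ P ∧ t • Q₁ = Q₁
      · obtain ⟨Q₁, hQ₁, hQ₁t⟩ := hfix
        have hcomm : ∀ x ∈ (P : Subgroup S), t • (x • Q₁) = x • Q₁ := by
          intro x hx
          rw [← mul_smul, hcom t ht x hx, mul_smul, hQ₁t]
        rcases hpig Q₁ Q₂ (t • Q₂) hQ₁ hQ₂P (hne Q₂ hQ₂P) with ⟨x, hx, h⟩ | ⟨x, hx, h⟩ | ⟨x, hx, h⟩
        · apply hQ₂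
          rw [h]
          exact hcomm x hx
        · have h1 : t • (t • Q₂) = t • Q₂ := by
            rw [h]
            exact hcomm x hx
          exact hQ₂ (MulAction.injective t h1)
        · exact hQ₂ (ha t ht 2 htr h7r Q₂ hQ₂P x hx h)
      · push_neg at hfix
        have hs := sign_toPerm_of_sq_one (Ω := Sylow 7 S) t htr
        have hfixcard : Nat.card (MulAction.fixedBy (Sylow 7 S) t) = 1 := by
          rw [Nat.card_eq_one_iff_unique]
          refine ⟨⟨?_⟩, ⟨⟨P, htP⟩⟩⟩
          rintro ⟨A, hA⟩ ⟨B, hB⟩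
          have hA' : A = P := by
            by_contra hAP
            exact hfix A hAP hA
          have hB' : B = P := by
            by_contra hBP
            exact hfix B hBP hB
          subst hA'
          subst hB'
          rfl
        rw [hn, hfixcard] at hs
        have h1 := sign_eq_one_of_simple hS (MulAction.toPermHom S (Sylow 7 S)) t
        have h2 : Equiv.Perm.sign (MulAction.toPermHom S (Sylow 7 S) t) = (-1) ^ ((15 - 1) / 2) := hs.2
        rw [h1] at h2
        revert h2
        decide
    · have hQ₃ := hne Q₂ hQ₂P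
      have hQ₄ := hne _ hQ₃
      rcases hpig Q₂ (t • Q₂) (t • t • Q₂) hQ₂P hQ₃ hQ₄ with ⟨x, hx, h⟩ | ⟨x, hx, h⟩ | ⟨x, hx, h⟩
      · exact hQ₂ (ha t ht r htr h7r Q₂ hQ₂P x hx h)
      · have h1 : (t * t) • Q₂ = x • Q₂ := by
          rw [mul_smul]
          exact h
        have htt : (t * t) ^ r = 1 := by
          rw [← sq, ← pow_mul, mul_comm, pow_mul, htr, one_pow]
        have h2 : (t * t) • Q₂ = Q₂ :=
          ha (t * t) (Subgroup.mul_mem _ ht ht) r htt h7r Q₂ hQ₂P x hx h1
        obtain ⟨k, hk⟩ := hr.odd_of_ne_two hr2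
        have h3 : (t * t) ^ k ∈ MulAction.stabilizer S Q₂ :=
          Subgroup.pow_mem _ (MulAction.mem_stabilizer_iff.mpr h2) k
        have h4 : t ^ r = t * (t * t) ^ k := by
          rw [hk, pow_succ', pow_mul, sq]
        apply hQ₂
        have h5 : (t * (t * t) ^ k) • Q₂ = Q₂ := by
          rw [← h4, htr, one_smul]
        rw [mul_smul, MulAction.mem_stabilizer_iff.mp h3] at h5
        exact h5
      · have h1 : t • (t • Q₂) = t • Q₂ := ha t ht r htr h7r _ hQ₃ x hx h
        exact hQ₂ (MulAction.injective t h1)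
  -- so the centralizer is a `7`-group
  have hCp : IsPGroup 7 (centralizer ((P : Subgroup S) : Set S)) := by
    rw [IsPGroup.iff_card]
    refine ⟨_, Nat.eq_prime_pow_of_unique_prime_dvd Nat.card_pos.ne' ?_⟩
    intro d hd hdvd
    haveI := Fact.mk hd
    obtain ⟨t, ht⟩ := exists_prime_orderOf_dvd_card' d hdvd
    by_contra hd7
    exact hno t t.2 d hd (by rw [Subgroup.orderOf_coe]; exact ht) hd7
  have hPC : (P : Subgroup S) ≤ centralizer ((P : Subgroup S) : Set S) := by
    haveI : IsCyclic (P : Subgroup S) := isCyclic_of_prime_card hP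
    intro x hx
    rw [Subgroup.mem_centralizer_iff]
    intro y hy
    letI := IsCyclic.commGroup (α := (P : Subgroup S))
    have := mul_comm (⟨y, hy⟩ : (P : Subgroup S)) ⟨x, hx⟩
    exact congrArg Subtype.val this
  have hCeq : centralizer ((P : Subgroup S) : Set S) = P := P.3 hCp hPC
  -- the index of the centralizer in the normalizer
  set N := normalizer ((P : Subgroup S) : Set S) with hN
  set C := centralizer ((P : Subgroup S) : Set S) with hC
  set k := C.relIndex N with hk
  have hCN : C ≤ N := Subgroup.centralizer_le_normalizer _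
  have hk6 : k ∣ 6 := by
    have h1 := relIndex_centralizer_dvd_card_mulAut (P : Subgroup S)
    rw [card_mulAut_of_card_prime hP] at h1
    exact h1
  have hk1 : k ≠ 1 := by
    intro h1
    exact not_normalizer_le_centralizer_of_simple hS P h7 (Subgroup.relIndex_eq_one.mp h1)
  have hNidx : N.index = 15 := by
    have h1 : Nat.card (Sylow 7 S) = N.index := Sylow.card_eq_index_normalizer P
    rw [← h1, hn]
  have hcard : Nat.card S = 105 * k := by
    have h1 := Subgroup.relIndex_mul_index hCN
    rw [hNidx] at h1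
    have h2 := C.card_mul_index
    have h3 : Nat.card C = 7 := by
      rw [hCeq]
      exact hP
    rw [h3, ← h1] at h2
    rw [← h2]
    ring
  have hk0 : k ≠ 0 := fun h => by
    rw [h] at hk6
    norm_num at hk6
  have hk_le : k ≤ 6 := Nat.le_of_dvd (by norm_num) hk6
  have hodd : Even k → False := by
    intro hev
    obtain ⟨j, hj⟩ := hev
    have h2 : 2 ∣ Nat.card S := by
      rw [hcard, hj]
      exact ⟨105 * j, by ring⟩
    obtain ⟨t, ht⟩ := exists_prime_orderOf_dvd_card' (hp := Fact.mk Nat.prime_two) 2 h2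
    have ht2 : t ^ 2 = 1 := by
      rw [← ht]
      exact pow_orderOf_eq_one t
    have ht1 : t ≠ 1 := by
      intro h
      rw [h, orderOf_one] at ht
      omega
    haveI : Fintype S := Fintype.ofFinite S
    have hs := sign_toPerm_of_sq_one (Ω := S) t ht2
    have hfix : Nat.card (MulAction.fixedBy S t) = 0 := by
      haveI : IsEmpty (MulAction.fixedBy S t) := ⟨by
        rintro ⟨x, hx⟩
        have h1 : t * x = x := hx
        exact ht1 (mul_eq_right.mp h1)⟩
      exact Nat.card_of_isEmpty
    rw [hfix, Nat.sub_zero] at hs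
    have h1 := sign_eq_one_of_simple hS (MulAction.toPermHom S S) t
    have h3 : Equiv.Perm.sign (MulAction.toPermHom S S t) = (-1) ^ (Nat.card S / 2) := hs.2
    rw [h1] at h3
    have hjo : Odd j := by
      have : j = 1 ∨ j = 3 := by
        have h6 : 2 * j ∣ 6 := by
          rw [two_mul, ← hj]
          exact hk6
        have h7 : j ∣ 3 := Nat.dvd_of_mul_dvd_mul_left (by norm_num : 0 < 2) h6
        exact (Nat.dvd_prime (by norm_num)).mp h7
      rcases this with rfl | rfl <;> decide
    have h4 : Nat.card S / 2 = 105 * j := by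
      rw [hcard, hj]
      omega
    rw [h4, Odd.neg_one_pow (Odd.mul (by decide) hjo)] at h3
    revert h3
    decide
  have hk3 : k = 3 := by
    interval_cases k
    · exact absurd rfl hk0
    · exact absurd rfl hk1
    · exact (hodd (by decide)).elim
    · rfl
    · revert hk6
      decide
    · revert hk6
      decide
    · exact (hodd (by decide)).elim
  rw [hk3] at hcard
  -- `|S| = 315`
  haveI : Fact (Nat.Prime 5) := ⟨by norm_num⟩
  obtain ⟨R⟩ : Nonempty (Sylow 5 S) := inferInstance
  have hR : Nat.card R = 5 := by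
    have := card_sylow_of_factor R 1 63 (by rw [hcard]; norm_num) (by norm_num)
    simpa using this
  have hd5 : 5 ∣ Nat.card S := by
    rw [hcard]
    norm_num
  apply not_coprime_normalizer_of_simple hS R hR hd5
  have h1 : Nat.card (normalizer ((R : Subgroup S) : Set S)) ∣ 315 := by
    have := Subgroup.card_subgroup_dvd_card (normalizer ((R : Subgroup S) : Set S))
    rw [hcard] at this
    simpa using this
  exact Nat.Coprime.coprime_dvd_left h1 (by norm_num)


/-- No finite group has exactly 15 Sylow 7-subgroups. -/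
theorem result {G : Type*} [Group G] [Finite G] : Nat.card (Sylow 7 G) ≠ 15 := by
  intro hn
  haveI : Fact (Nat.Prime 7) := ⟨by norm_num⟩
  obtain ⟨l, hl, hm⟩ := Cfsg.Agent.S4303.aux 7 _ G rfl
  have hl15 : l.prod = 15 := by rw [hl, hn]
  have hallone : ∀ m ∈ l, m = 1 := by
    intro m hml
    have hd : m ∣ 15 := by
      rw [← hl15]
      exact List.dvd_prod hml
    rcases hm m hml with ⟨hpp, hmod⟩ | ⟨S, _, _, hS, hmS⟩
    · have hle : m ≤ 15 := Nat.le_of_dvd (by norm_num) hd
      interval_cases m <;> first | rfl | (exfalso; revert hmod; decide) | (exfalso; revert hd; decide) | (exfalso; revert hpp; decide +kernel)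
    · have hmod : m % 7 = 1 := by
        rw [hmS]
        exact Cfsg.Agent.Lib.SylowCount.card_sylow_mod 7
      have hle : m ≤ 15 := Nat.le_of_dvd (by norm_num) hd
      have h15 : m = 1 ∨ m = 15 := by
        interval_cases m <;> first | (left; rfl) | (right; rfl) | (exfalso; revert hmod; decide) | (exfalso; revert hd; decide)
      rcases h15 with h | h
      · exact h
      · exfalso
        rw [h] at hmS
        exact no_simple hmS.symm
  have : l.prod = 1 := List.prod_eq_one hallone
  omega

end Cfsg.Agent.S4304
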