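import Cfsg.Statements.S4332
import Cfsg.Agent.Lib.FitCore

set_option autoImplicit false
set_option linter.all false
open Pointwise
open Cfsg

namespace Cfsg.Agent.S4332


/-- Every permutation of eight points has a triple that it moves off itself or maps to itself. -/
theorem exists_triple (c : Equiv.Perm (Fin 8)) : ∃ U : Finset (Fin 8), U.card = 3 ∧
    ((∀ x ∈ U, ∀ y ∈ U, c x ≠ y) ∨ (∀ x ∈ U, c x ∈ U)) := by
  classical
  set F : Finset (Fin 8) := Finset.univ.filter (fun x => c x = x) with hF
  set W : Finset (Fin 8) := Finset.univ.filter (fun x => c x ≠ x) with hW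
  have hFW : F.card + W.card = 8 := by
    have := Finset.card_filter_add_card_filter_not (s := (Finset.univ : Finset (Fin 8))) (fun x => c x = x)
    simpa [hF, hW] using this
  have hFmem : ∀ x, x ∈ F ↔ c x = x := by simp [hF]
  have hWmem : ∀ x, x ∈ W ↔ c x ≠ x := by simp [hW]
  by_cases h3 : 3 ≤ F.card
  · obtain ⟨U, hUF, hU⟩ := Finset.exists_subset_card_eq h3
    refine ⟨U, hU, Or.inr fun x hx => ?_⟩
    rw [(hFmem x).1 (hUF hx)]
    exact hx
  have hW6 : 6 ≤ W.card := by omega
  -- a triple from three points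
  have mk3 : ∀ u v w : Fin 8, u ≠ v → u ≠ w → v ≠ w → (c u ≠ u ∧ c u ≠ v ∧ c u ≠ w) →
      (c v ≠ u ∧ c v ≠ v ∧ c v ≠ w) → (c w ≠ u ∧ c w ≠ v ∧ c w ≠ w) →
      ∃ U : Finset (Fin 8), U.card = 3 ∧
        ((∀ x ∈ U, ∀ y ∈ U, c x ≠ y) ∨ (∀ x ∈ U, c x ∈ U)) := by
    intro u v w huv huw hvw hu hv hw
    refine ⟨{u, v, w}, Finset.card_eq_three.2 ⟨u, v, w, huv, huw, hvw, rfl⟩, Or.inl ?_⟩
    intro x hx y hy
    simp only [Finset.mem_insert, Finset.mem_singleton] at hx hy
    rcases hx with rfl | rfl | rfl <;> rcases hy with rfl | rfl | rfl <;> tauto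
  by_cases h3c : ∃ x, c x ≠ x ∧ c (c (c x)) = x
  · obtain ⟨x, hx, hx3⟩ := h3c
    have h1 : c (c x) ≠ c x := fun h => hx (c.injective h)
    have h2 : c (c x) ≠ x := by
      intro h
      rw [h] at hx3
      exact hx hx3
    refine ⟨{x, c x, c (c x)}, Finset.card_eq_three.2 ⟨x, c x, c (c x), hx.symm, h2.symm, h1.symm, rfl⟩, Or.inr ?_⟩
    intro y hy
    simp only [Finset.mem_insert, Finset.mem_singleton] at hy ⊢
    rcases hy with rfl | rfl | rfl
    · tauto
    · tauto
    · left; exact hx3
  push_neg at h3c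
  by_cases h2c : ∃ u, c u ≠ u ∧ c (c u) = u
  · obtain ⟨u, hu, hu2⟩ := h2c
    -- remove the 2-cycle
    set W' := (W.erase u).erase (c u) with hW'
    have hW'card : 4 ≤ W'.card := by
      have h1 := Finset.pred_card_le_card_erase (s := W) (a := u)
      have h2 := Finset.pred_card_le_card_erase (s := W.erase u) (a := c u)
      rw [hW']
      omega
    have hW'mem : ∀ x, x ∈ W' ↔ (x ≠ c u ∧ x ≠ u ∧ c x ≠ x) := by
      intro x
      simp only [hW', Finset.mem_erase, hWmem]
    obtain ⟨v, hv⟩ : W'.Nonempty := Finset.card_pos.1 (by omega)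
    have hvm := (hW'mem v).1 hv
    obtain ⟨w, hw⟩ : ((W'.erase v).erase (c v)).erase (c⁻¹ v) |>.Nonempty := by
      apply Finset.card_pos.1
      have h1 := Finset.pred_card_le_card_erase (s := W') (a := v)
      have h2 := Finset.pred_card_le_card_erase (s := W'.erase v) (a := c v)
      have h3 := Finset.pred_card_le_card_erase (s := (W'.erase v).erase (c v)) (a := c⁻¹ v)
      omega
    simp only [Finset.mem_erase] at hw
    obtain ⟨hw1, hw2, hw3, hw4⟩ := hw
    have hwm := (hW'mem w).1 hw4
    have hcw : c w ≠ v := by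
      intro h
      apply hw1
      rw [← h]
      simp
    have hinj : ∀ a b, c a = b → a = c⁻¹ b := by
      intro a b h; rw [← h]; simp
    refine mk3 u v w hvm.2.1.symm hwm.2.1.symm (Ne.symm hw3) ⟨hu, hvm.1.symm, hwm.1.symm⟩
      ⟨?_, hvm.2.2, (Ne.symm hw2)⟩ ⟨?_, hcw, hwm.2.2⟩
    · intro h
      apply hvm.1
      have h3 : c (c v) = c u := by rw [h]
      apply c.injective
      rw [h, hu2] 
    · intro h
      apply hwm.1
      apply c.injective
      rw [h, hu2]
  push_neg at h2c
  -- all nontrivial cycles have length at least four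
  obtain ⟨x, hx⟩ : W.Nonempty := Finset.card_pos.1 (by omega)
  have hxm := (hWmem x).1 hx
  have h2x := h2c x hxm
  have h3x := h3c x hxm
  have hcc : c (c x) ≠ c x := fun h => hxm (c.injective h)
  have h4 : c (c (c x)) ≠ c (c x) := fun h => hcc (c.injective h)
  have hcc2 : c (c x) ≠ x := h2x
  have hcx2 : c (c (c x)) ≠ x := h3x
  obtain ⟨w, hw⟩ : ((((W.erase x).erase (c x)).erase (c⁻¹ x)).erase (c (c x))).erase (c (c (c x))) |>.Nonempty := by
    apply Finset.card_pos.1
    have h1 := Finset.pred_card_le_card_erase (s := W) (a := x)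
    have h2 := Finset.pred_card_le_card_erase (s := W.erase x) (a := c x)
    have h3 := Finset.pred_card_le_card_erase (s := (W.erase x).erase (c x)) (a := c⁻¹ x)
    have h5 := Finset.pred_card_le_card_erase (s := ((W.erase x).erase (c x)).erase (c⁻¹ x)) (a := c (c x))
    have h6 := Finset.pred_card_le_card_erase (s := (((W.erase x).erase (c x)).erase (c⁻¹ x)).erase (c (c x))) (a := c (c (c x)))
    omega
  simp only [Finset.mem_erase] at hw
  obtain ⟨hw1, hw2, hw3, hw4, hw5, hw6⟩ := hw
  have hwm := (hWmem w).1 hw6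
  have hcw1 : c w ≠ x := by
    intro h
    apply hw3
    rw [← h]
    simp
  have hcw2 : c w ≠ c (c x) := by
    intro h
    exact hw4 (c.injective h)
  exact mk3 x (c (c x)) w hcc2.symm (Ne.symm hw5) (Ne.symm hw2) ⟨hxm, hcc.symm, Ne.symm hw4⟩
    ⟨hcx2, h4, Ne.symm hw1⟩ ⟨hcw1, hcw2, hwm⟩

/-- Two three-cycles with the same support commute. -/
theorem commute_of_same_support {σ τ : Equiv.Perm (Fin 8)} (hσ : σ.IsThreeCycle) (hτ : τ.IsThreeCycle)
    (h : σ.support = τ.support) : Commute σ τ := by
  classical
  have hcard := hσ.card_support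
  obtain ⟨x, hx⟩ : σ.support.Nonempty := Finset.card_pos.1 (by omega)
  have hσ3 : σ ^ 3 = 1 := by rw [← hσ.orderOf]; exact pow_orderOf_eq_one σ
  have hτ3 : τ ^ 3 = 1 := by rw [← hτ.orderOf]; exact pow_orderOf_eq_one τ
  have hxm : σ x ≠ x := Equiv.Perm.mem_support.1 hx
  have h1 : σ (σ x) ≠ σ x := fun h => hxm (σ.injective h)
  have hs3 : σ (σ (σ x)) = x := by
    have := congrArg (fun f : Equiv.Perm (Fin 8) => f x) hσ3
    simpa [pow_succ] using this
  have h2 : σ (σ x) ≠ x := by
    intro h
    rw [h] at hs3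
    exact hxm hs3
  have hT : σ.support = {x, σ x, σ (σ x)} := by
    symm
    apply Finset.eq_of_subset_of_card_le
    · intro y hy
      simp only [Finset.mem_insert, Finset.mem_singleton] at hy
      rcases hy with rfl | rfl | rfl
      · exact hx
      · exact Equiv.Perm.apply_mem_support.2 hx
      · exact Equiv.Perm.apply_mem_support.2 (Equiv.Perm.apply_mem_support.2 hx)
    · rw [hcard, Finset.card_eq_three.2 ⟨x, σ x, σ (σ x), hxm.symm, h2.symm, h1.symm, rfl⟩]
  have hmemT : ∀ y, y ∈ τ.support ↔ y = x ∨ y = σ x ∨ y = σ (σ x) := by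
    intro y
    rw [← h, hT]
    simp
  have hτsupp : ∀ y, τ y ≠ y ↔ (y = x ∨ y = σ x ∨ y = σ (σ x)) := by
    intro y
    rw [← hmemT, Equiv.Perm.mem_support]
  have hτmem : ∀ y, (y = x ∨ y = σ x ∨ y = σ (σ x)) →
      (τ y = x ∨ τ y = σ x ∨ τ y = σ (σ x)) := by
    intro y hy
    rw [← hmemT, Equiv.Perm.apply_mem_support, hmemT]
    exact hy
  have hxT : τ x ≠ x := (hτsupp x).2 (Or.inl rfl)
  have hyT : τ (σ x) ≠ σ x := (hτsupp _).2 (Or.inr (Or.inl rfl))
  have hzT : τ (σ (σ x)) ≠ σ (σ x) := (hτsupp _).2 (Or.inr (Or.inr rfl))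
  have hx' := hτmem x (Or.inl rfl)
  have hy' := hτmem (σ x) (Or.inr (Or.inl rfl))
  have hz' := hτmem (σ (σ x)) (Or.inr (Or.inr rfl))
  have hinjx : ∀ a b, τ a = τ b → a = b := fun a b h => τ.injective h
  have hoff : ∀ y, ¬ (y = x ∨ y = σ x ∨ y = σ (σ x)) → τ y = y ∧ σ y = y := by
    intro y hy
    constructor
    · by_contra hne
      exact hy ((hτsupp y).1 hne)
    · by_contra hne
      apply hy
      have : y ∈ σ.support := Equiv.Perm.mem_support.2 hne
      rw [hT] at this
      simpa using this
  -- the eight cases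
  have hcases : (τ x = σ x ∧ τ (σ x) = σ (σ x) ∧ τ (σ (σ x)) = x) ∨
      (τ x = σ (σ x) ∧ τ (σ x) = x ∧ τ (σ (σ x)) = σ x) := by
    rcases hx' with h3 | h3 | h3
    · exact absurd h3 hxT
    · left
      refine ⟨h3, ?_, ?_⟩
      · rcases hy' with h4 | h4 | h4
        · exfalso
          rcases hz' with h5 | h5 | h5
          · have := hinjx _ _ (h5.trans h4.symm)
            exact h1 this
          · have := hinjx _ _ (h5.trans h3.symm)
            exact h2 this
          · exact hzT h5
        · exact absurd h4 hyT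
        · exact h4
      · rcases hy' with h4 | h4 | h4
        · exfalso
          rcases hz' with h5 | h5 | h5
          · have := hinjx _ _ (h5.trans h4.symm)
            exact h1 this
          · have := hinjx _ _ (h5.trans h3.symm)
            exact h2 this
          · exact hzT h5
        · exact absurd h4 hyT
        · rcases hz' with h5 | h5 | h5
          · exact h5
          · have := hinjx _ _ (h5.trans h3.symm)
            exact absurd this h2
          · have := hinjx _ _ (h5.trans h4.symm)
            exact absurd this h1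
    · right
      refine ⟨h3, ?_, ?_⟩
      · rcases hy' with h4 | h4 | h4
        · exact h4
        · exact absurd h4 hyT
        · have := hinjx _ _ (h4.trans h3.symm)
          exact absurd this hxm
      · rcases hz' with h5 | h5 | h5
        · exfalso
          rcases hy' with h4 | h4 | h4
          · have := hinjx _ _ (h5.trans h4.symm)
            exact h1 this
          · exact hyT h4
          · have := hinjx _ _ (h4.trans h3.symm)
            exact hxm this
        · exact h5
        · exact absurd h5 hzT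
  have hcomm : ∀ y, σ (τ y) = τ (σ y) := by
    intro y
    by_cases hy : y = x ∨ y = σ x ∨ y = σ (σ x)
    · rcases hcases with ⟨e1, e2, e3⟩ | ⟨e1, e2, e3⟩
      · rcases hy with rfl | rfl | rfl
        · rw [e1, e2]
        · rw [e2, e3, hs3]
        · rw [e3, hs3, e1]
      · rcases hy with rfl | rfl | rfl
        · rw [e1, hs3, e2]
        · rw [e2, e3]
        · rw [e3, hs3, e1]
    · have h5 := hoff y hy
      rw [h5.1, h5.2, h5.1]
  exact Equiv.ext hcomm


/-- In the symmetric group of degree 8, let A be the subgroup generated by a 3-cycle. Then every conjugacy class contains an element g for which A is subnormal in the subgroup generated by A and its conjugate by g, although O_3 of the symmetric group of degree 8 is trivial. -/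
theorem result
    (σ : Equiv.Perm (Fin 8)) (hσ : σ.IsThreeCycle) :
    (∀ c : Equiv.Perm (Fin 8), ∃ g : Equiv.Perm (Fin 8), IsConj c g ∧
      ((Subgroup.zpowers σ).subgroupOf (Subgroup.zpowers σ ⊔ MulAut.conj g • Subgroup.zpowers σ)).IsSubnormal) ∧
    Cfsg.pCore 3 (Equiv.Perm (Fin 8)) = ⊥ := by
  classical
  constructor
  · intro c
    have hTc := hσ.card_support
    obtain ⟨U, hU, hcase⟩ := exists_triple c
    set T := σ.support with hT
    -- the permutation taking `U` to `T`
    let e : {x // x ∈ U} ≃ {x // x ∈ T} := Finset.equivOfCardEq (by rw [hU, hTc])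
    let h : Equiv.Perm (Fin 8) := e.extendSubtype
    have hh1 : ∀ x ∈ U, h x ∈ T := fun x hx => e.extendSubtype_mem x hx
    have hh2 : ∀ x, x ∉ U → h x ∉ T := fun x hx => e.extendSubtype_not_mem x hx
    have hh3 : ∀ t ∈ T, h⁻¹ t ∈ U := by
      intro t ht
      by_contra hcon
      have h5 := hh2 _ hcon
      rw [show h (h⁻¹ t) = t from by simp] at h5
      exact h5 ht
    let g : Equiv.Perm (Fin 8) := h * c * h⁻¹
    let τ : Equiv.Perm (Fin 8) := g * σ * g⁻¹
    have hτ : τ.IsThreeCycle := by
      rw [← card_support_eq_three_iff, Equiv.Perm.support_conj, Finset.card_map]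
      exact hTc
    have hcomm : Commute σ τ := by
      rcases hcase with hc | hc
      · apply Equiv.Perm.Disjoint.commute
        rw [Equiv.Perm.disjoint_iff_disjoint_support, Equiv.Perm.support_conj, Finset.disjoint_left]
        intro t ht ht'
        rw [Finset.mem_map] at ht'
        obtain ⟨t', ht'', hte⟩ := ht'
        have hte' : g t' = t := hte
        apply hc _ (hh3 t' ht'') _ (hh3 t ht)
        have : h (c (h⁻¹ t')) = t := hte'
        rw [← this]
        simp
      · apply commute_of_same_support hσ hτ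
        apply Finset.eq_of_subset_of_card_le
        · intro t ht
          rw [Equiv.Perm.support_conj, Finset.mem_map]
          -- `t` is the image of a point of the support
          have hinj : Set.MapsTo g (T : Set (Fin 8)) (T : Set (Fin 8)) := by
            intro t' ht'
            exact hh1 _ (hc _ (hh3 t' ht'))
          have hsurj : Set.SurjOn g (T : Set (Fin 8)) (T : Set (Fin 8)) :=
            Finset.surjOn_of_injOn_of_card_le g hinj (g.injective.injOn) le_rfl
          obtain ⟨t', ht', hte⟩ := hsurj ht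
          exact ⟨t', ht', hte⟩
        · rw [hTc, hτ.card_support]
    refine ⟨g, isConj_iff.2 ⟨h, rfl⟩, ?_⟩
    have hconj : MulAut.conj g • Subgroup.zpowers σ = Subgroup.zpowers τ := by
      rw [Subgroup.pointwise_smul_def]
      exact MonoidHom.map_zpowers _ _
    rw [hconj]
    apply Subgroup.Normal.isSubnormal
    rw [Subgroup.normal_subgroupOf_iff_le_normalizer le_sup_left]
    have hle : Subgroup.zpowers σ ⊔ Subgroup.zpowers τ ≤ Subgroup.centralizer (Subgroup.zpowers σ : Set (Equiv.Perm (Fin 8))) := by
      apply sup_le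
      · rw [Subgroup.zpowers_le]
        rintro _ ⟨i, rfl⟩
        exact (Commute.refl σ).zpow_left i
      · rw [Subgroup.zpowers_le]
        rintro _ ⟨i, rfl⟩
        exact hcomm.zpow_left i
    intro x hx
    have hx' := hle hx
    rw [Subgroup.mem_centralizer_iff] at hx'
    rw [Subgroup.mem_normalizer_iff]
    intro y
    constructor
    · intro hy
      have e : x * y * x⁻¹ = y := by
        rw [← hx' y hy]; group
      rw [e]; exact hy
    · intro hy
      have e := hx' _ hy
      have e2 : y = x * y * x⁻¹ := by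
        have e3 : x * y * x⁻¹ * x = x * (x * y * x⁻¹) := e
        have e4 : x * y = x * (x * y * x⁻¹) := by
          rw [← e3]; group
        exact mul_left_cancel e4
      rw [e2]; exact hy
  · by_contra hcon
    haveI : Fact (Nat.Prime 3) := ⟨Nat.prime_three⟩
    have hn := Cfsg.Agent.Lib.FitCore.pCore_normal (G := Equiv.Perm (Fin 8)) 3
    have hp := Cfsg.Agent.Lib.FitCore.pCore_isPGroup (G := Equiv.Perm (Fin 8)) 3
    set O := Cfsg.pCore 3 (Equiv.Perm (Fin 8)) with hO
    obtain ⟨x, hxO, hx1⟩ : ∃ x ∈ O, x ≠ 1 := by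
      by_contra hc2
      push_neg at hc2
      apply hcon
      rw [eq_bot_iff]
      intro g hg
      exact Subgroup.mem_bot.2 (hc2 g hg)
    have hfix : MulAction.fixedPoints O (Fin 8) ≠ ⊤ := by
      intro h
      apply hx1
      ext y
      have : y ∈ MulAction.fixedPoints O (Fin 8) := by rw [h]; trivial
      have h3 := this ⟨x, hxO⟩
      exact congrArg Fin.val h3
    haveI htr := MulAction.IsQuasiPreprimitive.isPretransitive_of_normal (G := Equiv.Perm (Fin 8)) (X := Fin 8) hfix
    have hy : Fin 8 := 0
    have h1 : Nat.card (MulAction.orbit O hy) = 8 := by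
      rw [MulAction.orbit_eq_univ, Nat.card_coe_set_eq, Set.ncard_univ, Nat.card_eq_fintype_card,
        Fintype.card_fin]
    have h2 : Nat.card (MulAction.orbit O hy) ∣ Nat.card O := by
      rw [Nat.card_congr (MulAction.orbitEquivQuotientStabilizer _ hy)]
      exact Subgroup.card_quotient_dvd_card _
    rw [h1] at h2
    obtain ⟨k, hk⟩ := IsPGroup.iff_card.1 hp
    rw [hk] at h2
    have h4 : 2 ∣ 3 ^ k := dvd_trans (by norm_num) h2
    have h5 := Nat.Prime.dvd_of_dvd_pow Nat.prime_two h4
    omega

end Cfsg.Agent.S4332
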