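import Cfsg.Statements.S4333
import Cfsg.Agent.Lib.WielandtZip

set_option autoImplicit false
set_option linter.all false
open Pointwise
open Cfsg

namespace Cfsg.Agent.S4333


universe u

open Cfsg.Agent.Lib.Wielandt in
theorem aux : ∀ (n : ℕ) (G : Type u) [Group G] [Finite G], Nat.card G = n →
    ∀ A : Subgroup G, (∀ a ∈ A, ∀ g : G,
      SN A (A ⊔ A.map (MulAut.conj (g⁻¹ * a * g)).toMonoidHom)) → A.IsSubnormal := by
  intro n
  induction n using Nat.strong_induction_on with
  | _ n ih =>
    intro G _ _ hn A hyp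
    by_contra hA
    have h1 : ∀ Y : Subgroup G, A ≤ Y → Y ≠ ⊤ → SN A Y := by
      intro Y hAY hY
      have hcard : Nat.card Y < n := by
        rw [← hn]
        exact card_lt_of_ne_top hY
      apply ih _ hcard Y rfl (A.subgroupOf Y)
      intro a ha y
      have hx : ((y⁻¹ * a * y : Y) : G) ∈ Y := (y⁻¹ * a * y).2
      have hB : A ⊔ A.map (MulAut.conj ((y⁻¹ * a * y : Y) : G)).toMonoidHom ≤ Y := by
        refine sup_le hAY ?_
        rintro _ ⟨b, hb, rfl⟩
        exact Y.mul_mem (Y.mul_mem hx (hAY hb)) (Y.inv_mem hx)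
      have h2 := sn_subgroupOf hB (hyp (a : G) (Subgroup.mem_subgroupOf.1 ha) (y : G))
      have h3 : (A ⊔ A.map (MulAut.conj ((y⁻¹ * a * y : Y) : G)).toMonoidHom).subgroupOf Y =
          A.subgroupOf Y ⊔ (A.subgroupOf Y).map (MulAut.conj (y⁻¹ * a * y)).toMonoidHom := by
        rw [Subgroup.subgroupOf_sup hAY (le_sup_right.trans hB)]
        congr 1
        ext x
        constructor
        · rintro ⟨b, hb, hbx⟩
          refine ⟨⟨b, hAY hb⟩, Subgroup.mem_subgroupOf.mpr hb, ?_⟩
          exact Subtype.ext hbx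
        · rintro ⟨b, hb, rfl⟩
          exact Subgroup.mem_subgroupOf.mpr ⟨b, Subgroup.mem_subgroupOf.mp hb, rfl⟩
      unfold SN at h2 ⊢
      rw [h3] at h2
      exact h2
    have huniq := Cfsg.Agent.Lib.WielandtZip.zipper A hA h1
    have h2 : Subgroup.normalClosure (A : Set G) = ⊤ := by
      by_contra hne
      have hAN : A ≤ Subgroup.normalClosure (A : Set G) := Subgroup.subset_normalClosure
      have h3 := h1 _ hAN hne
      have h4 : SN (Subgroup.normalClosure (A : Set G)) ⊤ :=
        sn_of_isSubnormal (Subgroup.Normal.isSubnormal Subgroup.normalClosure_normal) _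
      exact hA (sn_top_iff.mp (sn_trans hAN le_top h3 h4))
    have hAtop : A ≠ ⊤ := by
      intro h
      apply hA
      rw [h]
      exact Subgroup.IsSubnormal.top
    obtain ⟨M, hM, hAM⟩ := (eq_top_or_exists_le_coatom A).resolve_left hAtop
    have hunique : ∀ T : Subgroup G, A ≤ T → T ≠ ⊤ → T ≤ M := by
      intro T hAT hT
      obtain ⟨M', hM', hTM'⟩ := (eq_top_or_exists_le_coatom _).resolve_left hT
      have h4 : M' = M := huniq M' M hM' hM (hAT.trans hTM') hAM
      rwa [← h4]
    have hstep : ∀ a ∈ A, ∀ g : G, A.map (MulAut.conj (g⁻¹ * a * g)).toMonoidHom ≤ M := by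
      intro a ha g
      have hT : A ⊔ A.map (MulAut.conj (g⁻¹ * a * g)).toMonoidHom ≠ ⊤ := by
        intro h
        have h3 := hyp a ha g
        rw [h] at h3
        exact hA (sn_top_iff.mp h3)
      exact le_sup_right.trans (hunique _ le_sup_left hT)
    have hconjM : ∀ g : G, A.map (MulAut.conj g).toMonoidHom ≤ M := by
      intro g
      by_contra hB
      set B := A.map (MulAut.conj g).toMonoidHom with hBdef
      set L := nc B A with hL
      have hLM : L ≤ M.map (MulAut.conj g).toMonoidHom := by
        apply nc_le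
        rintro x hx _ ⟨_, ⟨b, hb, rfl⟩, rfl⟩
        refine ⟨(MulAut.conj (g⁻¹ * x * g)).toMonoidHom b, hstep x hx g ⟨b, hb, rfl⟩, ?_⟩
        show g * ((g⁻¹ * x * g) * b * (g⁻¹ * x * g)⁻¹) * g⁻¹ = x * (g * b * g⁻¹) * x⁻¹
        group
      have hMtop : M.map (MulAut.conj g).toMonoidHom ≠ ⊤ := by
        intro h
        have h3 : M = ⊤ := by
          rw [eq_top_iff]
          intro x _
          have h4 : g * x * g⁻¹ ∈ M.map (MulAut.conj g).toMonoidHom := by rw [h]; trivial
          obtain ⟨y, hy, hyx⟩ := h4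
          have h5 : y = x := by
            have h6 : g * y * g⁻¹ = g * x * g⁻¹ := hyx
            simpa using h6
          rwa [← h5]
        exact hM.1 h3
      have hBL : B ≤ L := le_nc _ _
      have hLtop : L ≠ ⊤ := fun h => hMtop (top_le_iff.1 (h ▸ hLM))
      have hTtop : L ⊔ A = ⊤ := by
        by_contra hne
        exact hB (hBL.trans (le_sup_left.trans (hunique _ le_sup_right hne)))
      have hLn : L.Normal := by
        rw [← Subgroup.normalizer_eq_top_iff, eq_top_iff, ← hTtop]
        exact sup_le Subgroup.le_normalizer (le_normalizer_nc B A)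
      have hAL : A ≤ L := by
        intro a ha
        have h3 : g * a * g⁻¹ ∈ L := hBL ⟨a, ha, rfl⟩
        have h4 := hLn.conj_mem _ h3 g⁻¹
        have e : g⁻¹ * (g * a * g⁻¹) * g⁻¹⁻¹ = a := by group
        rwa [e] at h4
      have h3 := h1 L hAL hLtop
      have h4 : SN L ⊤ := sn_of_isSubnormal (Subgroup.Normal.isSubnormal hLn) _
      exact hA (sn_top_iff.mp (sn_trans hAL le_top h3 h4))
    have h3 : Subgroup.normalClosure (A : Set G) ≤ M := by
      apply (Subgroup.closure_le _).mpr
      intro x hx
      obtain ⟨a, ha, hax⟩ := Group.mem_conjugatesOfSet_iff.mp hx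
      obtain ⟨c, hc⟩ := isConj_iff.mp hax
      apply hconjM c
      exact ⟨a, ha, hc⟩
    rw [h2] at h3
    exact hM.1 (top_le_iff.mp h3)


/-- Let A be a subgroup of a finite group G. If A is subnormal in the subgroup generated by A and its conjugate by g⁻¹ a g, for every a ∈ A and every g ∈ G, then A is subnormal in G. (A sharpening of Wielandt's subnormality criterion: only conjugates of A by conjugates of elements of A are needed.) -/
theorem result {G : Type*} [Group G] [Finite G]
    (A : Subgroup G)
    (h : ∀ a ∈ A, ∀ g : G, (A.subgroupOf (A ⊔ MulAut.conj (g⁻¹ * a * g) • A)).IsSubnormal) :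
    A.IsSubnormal := by
  exact aux _ G rfl A (fun a ha g => h a ha g)

end Cfsg.Agent.S4333
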