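import Cfsg.Statements.S4334
import Cfsg.Agent.Lib.PNilpC
import Cfsg.Agent.Lib.ThompsonFpf
import Cfsg.Agent.Lib.H6ClassSize

set_option autoImplicit false
set_option linter.all false
open Cfsg

namespace Cfsg.Agent.S4334


open Cfsg.Agent.Lib

theorem mem_of_coprime_index' {G : Type*} [Group G] [Finite G] {A B : Subgroup G}
    (hn : (A.subgroupOf B).Normal) {y : G} (hy : y ∈ B) (hco : (orderOf y).Coprime (A.relIndex B)) :
    y ∈ A := by
  haveI := hn
  let q : ↥B ⧸ A.subgroupOf B := QuotientGroup.mk ⟨y, hy⟩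
  have h1 : q ^ orderOf y = 1 := by
    have : (⟨y, hy⟩ : ↥B) ^ orderOf y = 1 := by
      ext; simp [pow_orderOf_eq_one]
    change QuotientGroup.mk ((⟨y, hy⟩ : ↥B) ^ orderOf y) = (1 : ↥B ⧸ A.subgroupOf B)
    rw [this]; rfl
  have h2 : q ^ (A.relIndex B) = 1 := by
    have : q ^ Nat.card (↥B ⧸ A.subgroupOf B) = 1 := pow_card_eq_one'
    exact this
  have h3 := pow_gcd_eq_one.2 ⟨h1, h2⟩
  rw [Nat.Coprime.gcd_eq_one hco, pow_one] at h3
  have h4 : (⟨y, hy⟩ : ↥B) ∈ A.subgroupOf B := (QuotientGroup.eq_one_iff _).1 h3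
  exact h4

theorem exists_sylow_in' {G : Type*} [Group G] [Finite G] (K : Subgroup G) {r : ℕ} [hr : Fact r.Prime]
    (h : ¬ r ∣ K.index) : ∃ R : Sylow r G, (R : Subgroup G) ≤ K := by
  let R₀ : Sylow r K := default
  have hcard : Nat.card (R₀.1.map K.subtype) = r ^ (Nat.card G).factorization r := by
    have h1 : Nat.card (R₀.1.map K.subtype) = Nat.card R₀ :=
      Subgroup.card_map_of_injective K.subtype_injective
    rw [h1, Sylow.card_eq_multiplicity R₀]
    have h2 := Subgroup.card_mul_index K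
    have hk : Nat.card K ≠ 0 := Nat.card_pos.ne'
    have hi : K.index ≠ 0 := Subgroup.index_ne_zero_of_finite
    rw [← h2, Nat.factorization_mul hk hi]
    simp [Nat.factorization_eq_zero_of_not_dvd h]
  refine ⟨Sylow.ofCard _ hcard, ?_⟩
  rintro _ ⟨x, -, rfl⟩
  exact x.2

theorem sylow_conj_in' {G : Type*} [Group G] [Finite G] {r : ℕ} [hr : Fact r.Prime] (N : Subgroup G)
    (R : Sylow r G) (hR : (R : Subgroup G) ≤ N) {P : Subgroup G} (hP : IsPGroup r P) (hPN : P ≤ N) :
    ∃ n ∈ N, ∀ x ∈ P, n * x * n⁻¹ ∈ (R : Subgroup G) := by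
  have hP₀ : IsPGroup r (P.subgroupOf N) :=
    IsPGroup.of_equiv hP (Subgroup.subgroupOfEquivOfLe hPN).symm
  obtain ⟨Q, hQ⟩ := hP₀.exists_le_sylow
  obtain ⟨n, hn⟩ := MulAction.exists_smul_eq N Q (R.subtype hR)
  refine ⟨n, n.2, fun x hx => ?_⟩
  have h1 : (⟨x, hPN hx⟩ : N) ∈ (Q : Subgroup N) := hQ (by simpa [Subgroup.mem_subgroupOf] using hx)
  have h2 : n * (⟨x, hPN hx⟩ : N) * n⁻¹ ∈ ((n • Q : Sylow r N) : Subgroup N) := by
    rw [Sylow.coe_subgroup_smul, Subgroup.mem_pointwise_smul_iff_inv_smul_mem, MulAut.smul_def, MulAut.conj_inv_apply]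
    simpa [mul_assoc] using h1
  rw [hn, Sylow.coe_subtype, Subgroup.mem_subgroupOf] at h2
  simpa using h2

theorem nil_commute' {N : Type*} [Group N] [Finite N] [hN : Group.IsNilpotent N] {r : ℕ} [hr : Fact r.Prime]
    {x z : N} (hx : IsPGroup r (Subgroup.zpowers x)) (hz : (orderOf z).Coprime r) : z * x = x * z := by
  obtain ⟨P, hP⟩ := hx.exists_le_sylow
  haveI : (P : Subgroup N).Normal := inferInstance
  have hnpc : HasNormalPComplement r ↥(⊤ : Subgroup N) :=
    ThompsonFpf.npc_of_nilpotent r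
  exact PNilpC.commute_of_npc_in (H := ⊤) (S := (P : Subgroup N)) hnpc P.isPGroup' le_top
    (fun h _ s hs => Subgroup.Normal.conj_mem ‹_› s hs h) trivial hz (hP (Subgroup.mem_zpowers x))

theorem mem_sup_comm'' {G : Type*} [Group G] (A B : Subgroup G)
    (h : ∀ a ∈ A, ∀ b ∈ B, a * b = b * a) {x : G} (hx : x ∈ A ⊔ B) :
    ∃ a ∈ A, ∃ b ∈ B, x = a * b := by
  rw [Subgroup.sup_eq_closure] at hx
  induction hx using Subgroup.closure_induction with
  | mem x hx =>
    rcases hx with hx | hx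
    · exact ⟨x, hx, 1, B.one_mem, by simp⟩
    · exact ⟨1, A.one_mem, x, hx, by simp⟩
  | one => exact ⟨1, A.one_mem, 1, B.one_mem, by simp⟩
  | mul x y _ _ ihx ihy =>
    obtain ⟨a, ha, b, hb, rfl⟩ := ihx
    obtain ⟨a', ha', b', hb', rfl⟩ := ihy
    refine ⟨a * a', A.mul_mem ha ha', b * b', B.mul_mem hb hb', ?_⟩
    have : b * a' = a' * b := (h a' ha' b hb).symm
    calc a * b * (a' * b') = a * (b * a') * b' := by group
      _ = a * (a' * b) * b' := by rw [this]
      _ = _ := by group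
  | inv x _ ih =>
    obtain ⟨a, ha, b, hb, rfl⟩ := ih
    refine ⟨a⁻¹, A.inv_mem ha, b⁻¹, B.inv_mem hb, ?_⟩
    have : a * b = b * a := h a ha b hb
    rw [mul_inv_rev]
    calc b⁻¹ * a⁻¹ = (a * b)⁻¹ := by group
      _ = (b * a)⁻¹ := by rw [this]
      _ = _ := by group

theorem mem_map_conj' {G : Type*} [Group G] {H : Subgroup G} {a x : G} :
    x ∈ H.map (MulAut.conj a).toMonoidHom ↔ a⁻¹ * x * a ∈ H := by
  constructor
  · rintro ⟨y, hy, rfl⟩
    simpa [mul_assoc] using hy
  · intro h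
    exact ⟨_, h, by simp [mul_assoc]⟩


/-- Let σ and τ be disjoint sets of primes with union π. Suppose a finite group G has a Hall π-subgroup H which is the direct product of a nilpotent σ-subgroup and a τ-subgroup (two elementwise-commuting subgroups generating H), and that the maximal τ-subgroups of G are pairwise conjugate. Then the maximal π-subgroups of G are pairwise conjugate. -/
theorem result {G : Type*} [Group G] [Finite G]
    (σ τ π : Set ℕ) (hπ : π = σ ∪ τ) (hd : Disjoint σ τ) (H Hs Ht : Subgroup G) (hH : Cfsg.IsPiHall π H)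
    (hs : Cfsg.IsPiSubgroup σ Hs) (ht : Cfsg.IsPiSubgroup τ Ht) (hsn : Group.IsNilpotent Hs)
    (hjoin : Hs ⊔ Ht = H) (hcomm : ∀ a ∈ Hs, ∀ b ∈ Ht, a * b = b * a) (hD : Cfsg.IsDPiGroup τ G) :
    Cfsg.IsDPiGroup π G := by
  classical
  subst hπ
  have hHsH : Hs ≤ H := hjoin ▸ le_sup_left
  have hHtH : Ht ≤ H := hjoin ▸ le_sup_right
  have hdisj : ∀ p : ℕ, p ∈ σ → p ∈ τ → False := fun p h1 h2 => Set.disjoint_left.1 hd h1 h2
  -- order of H
  have hinf : Hs ⊓ Ht = ⊥ := by
    rw [eq_bot_iff]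
    intro x hx
    by_contra hne
    have hne' : x ≠ 1 := hne
    obtain ⟨p, hp, hpd⟩ := Nat.exists_prime_and_dvd (n := orderOf x) (by
      intro h; exact hne' (orderOf_eq_one_iff.1 h))
    exact hdisj p (hs p hp (hpd.trans (Subgroup.orderOf_dvd_natCard _ hx.1)))
      (ht p hp (hpd.trans (Subgroup.orderOf_dvd_natCard _ hx.2)))
  have hcardH : Nat.card H = Nat.card Hs * Nat.card Ht := by
    have hc' : ∀ (m : Hs) (n : Ht), Commute (Hs.subtype m) (Ht.subtype n) := fun a b => hcomm a a.2 b b.2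
    let φ : Hs × Ht →* G := MonoidHom.noncommCoprod Hs.subtype Ht.subtype hc'
    have hinj : Function.Injective φ := by
      rw [injective_iff_map_eq_one]
      rintro ⟨a, b⟩ hab
      have hab' : (a : G) * (b : G) = 1 := hab
      have h1 : (a : G) = (b : G)⁻¹ := eq_inv_of_mul_eq_one_left hab'
      have h2 : (a : G) ∈ Hs ⊓ Ht := ⟨a.2, h1 ▸ Ht.inv_mem b.2⟩
      rw [hinf] at h2
      have h3 : (a : G) = 1 := h2
      have h4 : (b : G) = 1 := by
        rw [h3, one_mul] at hab'; exact hab'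
      exact Prod.ext (Subtype.ext h3) (Subtype.ext h4)
    have hrange : φ.range = H := by
      rw [← hjoin]
      change (MonoidHom.noncommCoprod Hs.subtype Ht.subtype hc').range = _
      rw [MonoidHom.noncommCoprod_range, Subgroup.range_subtype, Subgroup.range_subtype]
    have e1 : Nat.card (Hs × Ht) = Nat.card φ.range := Nat.card_congr (MonoidHom.ofInjective hinj).toEquiv
    rw [← hrange, ← e1, Nat.card_prod]
  have hG := Subgroup.card_mul_index H
  have hGs := Subgroup.card_mul_index Hs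
  have hGt := Subgroup.card_mul_index Ht
  have hs0 : 0 < Nat.card Hs := Nat.card_pos
  have ht0 : 0 < Nat.card Ht := Nat.card_pos
  have hidxs : Hs.index = Nat.card Ht * H.index := by
    apply Nat.eq_of_mul_eq_mul_left hs0
    rw [hGs, ← hG, hcardH]; ring
  have hidxt : Ht.index = Nat.card Hs * H.index := by
    apply Nat.eq_of_mul_eq_mul_left ht0
    rw [hGt, ← hG, hcardH]; ring
  have hnots : ∀ r : ℕ, r.Prime → r ∈ σ → ¬ r ∣ Hs.index := by
    intro r hr hrs hd'
    rw [hidxs] at hd'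
    rcases (Nat.Prime.dvd_mul hr).1 hd' with h | h
    · exact hdisj r hrs (ht r hr h)
    · exact hH.2 r hr (Or.inl hrs) h
  have hnott : ∀ r : ℕ, r.Prime → r ∈ τ → ¬ r ∣ Ht.index := by
    intro r hr hrt hd'
    rw [hidxt] at hd'
    rcases (Nat.Prime.dvd_mul hr).1 hd' with h | h
    · exact hdisj r (hs r hr h) hrt
    · exact hH.2 r hr (Or.inr hrt) h
  haveI := hsn
  -- elements of Hs commute by coprimality
  have hnilc : ∀ (r : ℕ) [Fact r.Prime] (x z : G), x ∈ Hs → z ∈ Hs → IsPGroup r (Subgroup.zpowers x) →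
      (orderOf z).Coprime r → z * x = x * z := by
    intro r _ x z hx hz hxp hzc
    have h1 : IsPGroup r (Subgroup.zpowers (⟨x, hx⟩ : Hs)) := by
      obtain ⟨k, hk⟩ := IsPGroup.iff_card.1 hxp
      rw [IsPGroup.iff_card]
      refine ⟨k, ?_⟩
      rw [Nat.card_zpowers] at hk ⊢
      rw [Subgroup.orderOf_mk]; exact hk
    have h2 : (orderOf (⟨z, hz⟩ : Hs)).Coprime r := by
      rw [Subgroup.orderOf_mk]; exact hzc
    have := nil_commute' h1 h2
    exact congrArg Subtype.val this
  -- commuting of Sylow subgroups of G inside H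
  have hBt : ∀ (r : ℕ) [Fact r.Prime] (R : Sylow r G) (T : Subgroup G), r ∈ σ → (R : Subgroup G) ≤ Hs → T ≤ H →
      ¬ r ∣ Nat.card T → ∀ x ∈ (R : Subgroup G), ∀ t ∈ T, t * x = x * t := by
    intro r _ R T hrs hRs hTH hrT x hx t ht'
    have htH : t ∈ Hs ⊔ Ht := hjoin ▸ hTH ht'
    obtain ⟨a, ha, b, hb, rfl⟩ := mem_sup_comm'' Hs Ht hcomm htH
    have hc : Commute a b := hcomm a ha b hb
    have hcop : (orderOf a).Coprime (orderOf b) := by
      apply Nat.coprime_of_dvd
      intro k hk h1 h2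
      exact hdisj k (hs k hk (h1.trans (Subgroup.orderOf_dvd_natCard _ ha)))
        (ht k hk (h2.trans (Subgroup.orderOf_dvd_natCard _ hb)))
    have hazp : a ∈ Subgroup.zpowers (a * b) := H6ClassSize.mem_zpowers_mul hc hcop
    have hord : orderOf a ∣ orderOf (a * b) := orderOf_dvd_of_mem_zpowers hazp
    have hrord : ¬ r ∣ orderOf (a * b) := fun h => hrT (h.trans (Subgroup.orderOf_dvd_natCard _ ht'))
    have hac : (orderOf a).Coprime r :=
      ((Nat.Prime.coprime_iff_not_dvd Fact.out).2 (fun h => hrord (h.trans hord))).symm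
    have hxp : IsPGroup r (Subgroup.zpowers x) :=
      R.isPGroup'.to_le ((Subgroup.zpowers_le).2 hx)
    have h1 : a * x = x * a := hnilc r x a (hRs hx) ha hxp hac
    have h2 : x * b = b * x := hcomm x (hRs hx) b hb
    calc a * b * x = a * (b * x) := by group
      _ = a * (x * b) := by rw [h2]
      _ = (a * x) * b := by group
      _ = (x * a) * b := by rw [h1]
      _ = _ := by group
  -- existence of Sylow subgroups in Hs
  have hSy : ∀ (r : ℕ) [Fact r.Prime], r ∈ σ → ∃ R : Sylow r G, (R : Subgroup G) ≤ Hs :=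
    fun r _ hrs => exists_sylow_in' Hs (hnots r Fact.out hrs)
  -- the N/C argument
  have hNC : ∀ (r : ℕ) [Fact r.Prime] (X : Subgroup G) (y : G), r ∈ σ → IsPGroup r X →
      y ∈ Subgroup.normalizer (X : Set G) → (∀ s : ℕ, s.Prime → s ∣ orderOf y → s ∈ σ ∪ τ ∧ s ≠ r) →
      y ∈ Subgroup.centralizer (X : Set G) := by
    intro r _ X y hrs hX hyN hy
    obtain ⟨R₀, hR₀⟩ := hSy r hrs
    obtain ⟨R', hR'⟩ := hX.exists_le_sylow
    obtain ⟨g, hg⟩ := MulAction.exists_smul_eq G R₀ R'
    have hnorm : ((Subgroup.centralizer (X : Set G)).subgroupOf (Subgroup.normalizer (X : Set G))).Normal := by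
      constructor
      rintro ⟨c, hcN⟩ hc ⟨n, hn⟩
      rw [Subgroup.mem_subgroupOf] at hc ⊢
      rw [Subgroup.mem_centralizer_iff] at hc ⊢
      intro x hx
      have hx' : n⁻¹ * x * n ∈ X := by
        rw [Subgroup.mem_normalizer_iff] at hn
        rw [hn]
        have e : n * (n⁻¹ * x * n) * n⁻¹ = x := by group
        rw [e]; exact hx
      have h1 := hc _ hx'
      simp only [Subgroup.coe_mul, InvMemClass.coe_inv] at *
      calc x * (n * c * n⁻¹) = n * ((n⁻¹ * x * n) * c) * n⁻¹ := by group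
        _ = n * (c * (n⁻¹ * x * n)) * n⁻¹ := by rw [h1]
        _ = _ := by group
    apply mem_of_coprime_index' hnorm hyN
    apply Nat.coprime_of_dvd
    intro s hs hs1 hs2
    obtain ⟨hsπ, hsr⟩ := hy s hs hs1
    haveI : Fact s.Prime := ⟨hs⟩
    -- a Sylow `s`-subgroup of G centralizing R₀
    obtain ⟨S, hS⟩ : ∃ S : Sylow s G, ∀ a ∈ (S : Subgroup G), ∀ x ∈ (R₀ : Subgroup G), a * x = x * a := by
      rcases hsπ with hss | hst
      · obtain ⟨S, hS⟩ := hSy s hss
        refine ⟨S, fun a ha x hx => ?_⟩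
        have hxp : IsPGroup r (Subgroup.zpowers x) := R₀.isPGroup'.to_le ((Subgroup.zpowers_le).2 hx)
        have hao : (orderOf a).Coprime r := by
          have h1 : IsPGroup s (Subgroup.zpowers a) := S.isPGroup'.to_le ((Subgroup.zpowers_le).2 ha)
          obtain ⟨k, hk⟩ := IsPGroup.iff_card.1 h1
          rw [Nat.card_zpowers] at hk
          rw [hk]
          exact Nat.Coprime.pow_left k ((Nat.coprime_primes hs Fact.out).2 hsr)
        exact hnilc r x a (hR₀ hx) (hS ha) hxp hao
      · obtain ⟨S, hS⟩ := exists_sylow_in' Ht (hnott s hs hst)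
        exact ⟨S, fun a ha x hx => (hcomm x (hR₀ hx) a (hS ha)).symm⟩
    -- transport by g
    have hle : ((g • S : Sylow s G) : Subgroup G) ≤ Subgroup.centralizer (X : Set G) := by
      intro a ha
      rw [Sylow.coe_subgroup_smul, Subgroup.mem_pointwise_smul_iff_inv_smul_mem, MulAut.smul_def, MulAut.conj_inv_apply] at ha
      rw [Subgroup.mem_centralizer_iff]
      intro x hx
      have hx1 : x ∈ ((g • R₀ : Sylow r G) : Subgroup G) := by rw [hg]; exact hR' hx
      rw [Sylow.coe_subgroup_smul, Subgroup.mem_pointwise_smul_iff_inv_smul_mem, MulAut.smul_def, MulAut.conj_inv_apply] at hx1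
      have h1 := hS _ ha _ hx1
      calc x * a = g * ((g⁻¹ * x * g) * (g⁻¹ * a * g)) * g⁻¹ := by group
        _ = g * ((g⁻¹ * a * g) * (g⁻¹ * x * g)) * g⁻¹ := by rw [h1]
        _ = _ := by group
    have hnd := (g • S : Sylow s G).not_dvd_index
    have hd1 := Subgroup.index_dvd_of_le hle
    have hCN : Subgroup.centralizer (X : Set G) ≤ Subgroup.normalizer (X : Set G) :=
      Subgroup.centralizer_le_normalizer _
    have hd2 := Subgroup.relIndex_mul_index hCN
    exact hnd ((hs2.trans ⟨_, hd2.symm⟩).trans hd1)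
  -- normal complement for H
  have hHnpc : ∀ (r : ℕ) [Fact r.Prime], r ∈ σ → HasNormalPComplement r ↥H := by
    intro r _ hrs
    have hHtn : (Ht.subgroupOf H).Normal := by
      constructor
      rintro ⟨t, htH⟩ ht' ⟨h, hh⟩
      rw [Subgroup.mem_subgroupOf] at ht' ⊢
      have hh' : h ∈ Hs ⊔ Ht := hjoin ▸ hh
      obtain ⟨a, ha, b, hb, rfl⟩ := mem_sup_comm'' Hs Ht hcomm hh'
      have e1 : a * t = t * a := hcomm a ha t ht'
      have e : a * b * t * (a * b)⁻¹ = b * t * b⁻¹ := by
        have h1 : a * b = b * a := hcomm a ha b hb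
        calc a * b * t * (a * b)⁻¹ = b * a * t * (a⁻¹ * b⁻¹ ) := by
              rw [h1]; group
          _ = b * (a * t) * a⁻¹ * b⁻¹ := by group
          _ = b * (t * a) * a⁻¹ * b⁻¹ := by rw [e1]
          _ = _ := by group
      simp only [Subgroup.coe_mul, InvMemClass.coe_inv]
      rw [e]
      exact Ht.mul_mem (Ht.mul_mem hb ht') (Ht.inv_mem hb)
    haveI := hHtn
    apply PNilp.npc_of_quot_coprime (Ht.subgroupOf H)
    · intro hd'
      have hcard : Nat.card (Ht.subgroupOf H) = Nat.card Ht :=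
        Nat.card_congr (Subgroup.subgroupOfEquivOfLe hHtH).toEquiv
      rw [hcard] at hd'
      exact hdisj r hrs (ht r Fact.out hd')
    · let f : Hs →* (↥H ⧸ Ht.subgroupOf H) :=
        (QuotientGroup.mk' (Ht.subgroupOf H)).comp (Subgroup.inclusion hHsH)
      have hf : Function.Surjective f := by
        intro q
        obtain ⟨⟨h, hh⟩, rfl⟩ := QuotientGroup.mk_surjective q
        have hh' : h ∈ Hs ⊔ Ht := hjoin ▸ hh
        obtain ⟨a, ha, b, hb, rfl⟩ := mem_sup_comm'' Hs Ht hcomm hh'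
        refine ⟨⟨a, ha⟩, ?_⟩
        change QuotientGroup.mk _ = _
        rw [QuotientGroup.eq, Subgroup.mem_subgroupOf]
        simpa using hb
      haveI : Group.IsNilpotent (↥H ⧸ Ht.subgroupOf H) := nilpotent_of_surjective f hf
      exact ThompsonFpf.npc_of_nilpotent r
  -- main claim
  have key : ∀ (n : ℕ) (U : Subgroup G), Nat.card U = n → IsPiSubgroup (σ ∪ τ) U →
      ∃ g : G, U ≤ H.map (MulAut.conj g).toMonoidHom := by
    intro n
    induction n using Nat.strong_induction_on with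
    | _ n IH =>
    intro U hUn hU
    by_cases hτ : ∀ p : ℕ, p.Prime → p ∣ Nat.card U → p ∈ τ
    · -- τ-subgroups
      have hUt : IsPiSubgroup τ U := hτ
      obtain ⟨M, hUM, hM⟩ := (Set.toFinite {K : Subgroup G | IsPiSubgroup τ K}).exists_le_maximal hUt
      have hHtm : Maximal (IsPiSubgroup τ) Ht := by
        refine ⟨ht, fun K hK hle => ?_⟩
        have hcop : Nat.Coprime (Nat.card K) Ht.index := by
          apply Nat.coprime_of_dvd
          intro p hp h1 h2
          exact hnott p hp (hK p hp h1) h2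
        have hdvd : Nat.card K ∣ Nat.card Ht := by
          have h3 : Nat.card K ∣ Nat.card Ht * Ht.index := by
            rw [hGt]; exact Subgroup.card_subgroup_dvd_card K
          exact hcop.dvd_of_dvd_mul_right h3
        exact (Subgroup.eq_of_le_of_card_ge hle (Nat.le_of_dvd Nat.card_pos hdvd)).ge
      have hM' : Maximal (IsPiSubgroup τ) M := hM
      obtain ⟨g, hg⟩ := hD Ht M hHtm hM'
      refine ⟨g, hUM.trans ?_⟩
      rw [hg]
      exact Subgroup.map_mono hHtH
    push Not at hτ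
    obtain ⟨r, hr, hrU, hrτ⟩ := hτ
    have hrσ : r ∈ σ := by
      rcases hU r hr hrU with h | h
      · exact h
      · exact absurd h hrτ
    haveI : Fact r.Prime := ⟨hr⟩
    -- proper subgroups are fine
    have hIH : ∀ K : Subgroup G, K ≤ U → K ≠ U → ∃ g : G, K ≤ H.map (MulAut.conj g).toMonoidHom := by
      intro K hKU hne
      have hlt : K < U := lt_of_le_of_ne hKU hne
      have hdvd : Nat.card K ∣ Nat.card U := Subgroup.card_dvd_of_le hKU
      have hcl : Nat.card K < n := by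
        rw [← hUn]
        refine lt_of_le_of_ne (Nat.le_of_dvd Nat.card_pos hdvd) ?_
        intro he
        exact hne (Subgroup.eq_of_le_of_card_ge hKU he.ge)
      exact IH _ hcl K rfl (fun p hp hpd => hU p hp (hpd.trans hdvd))
    have hprop : ∀ K : Subgroup ↥U, K ≠ ⊤ → HasNormalPComplement r ↥K := by
      intro K hK
      have hK' : K.map U.subtype ≠ U := by
        intro he
        apply hK
        rw [eq_top_iff]
        intro x _
        have hx : (x : G) ∈ K.map U.subtype := by rw [he]; exact x.2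
        obtain ⟨y, hy, hye⟩ := hx
        have hyx : y = x := Subtype.ext hye
        exact hyx ▸ hy
      obtain ⟨g, hg⟩ := hIH (K.map U.subtype) (by rintro _ ⟨x, -, rfl⟩; exact x.2) hK'
      have hmem : ∀ k : ↥K, g⁻¹ * ((k : ↥U) : G) * g ∈ H := fun k =>
        mem_map_conj'.1 (hg ⟨k, k.2, rfl⟩)
      let f : ↥K →* ↥H :=
        { toFun := fun k => ⟨g⁻¹ * ((k : ↥U) : G) * g, hmem k⟩
          map_one' := by ext; simp
          map_mul' := fun a b => by ext; simp; group }
      have hfi : Function.Injective f := by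
        intro a b hab
        have h1 : g⁻¹ * ((a : ↥U) : G) * g = g⁻¹ * ((b : ↥U) : G) * g := congrArg Subtype.val hab
        have h2 : ((a : ↥U) : G) = ((b : ↥U) : G) := by
          have := congrArg (fun z => g * z * g⁻¹) h1
          simpa [mul_assoc] using this
        exact Subtype.ext (Subtype.ext h2)
      exact PNilp.npc_of_injective f hfi (hHnpc r hrσ)
    have hnpc : HasNormalPComplement r ↥U := by
      by_contra hno
      obtain ⟨-, -, hSn⟩ := PNilpC.ito_minimal hno hprop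
      let P₀ : Sylow r ↥U := default
      haveI hP₀n : (P₀ : Subgroup ↥U).Normal := hSn P₀
      have hcop : Nat.Coprime (Nat.card (P₀ : Subgroup ↥U)) (P₀ : Subgroup ↥U).index := P₀.card_coprime_index
      obtain ⟨W, hW⟩ := Subgroup.exists_right_complement'_of_coprime hcop
      have hWr : ¬ r ∣ Nat.card W := by
        rw [← hW.symm.index_eq_card]; exact P₀.not_dvd_index
      have hWc : ∀ w ∈ W, ∀ p ∈ (P₀ : Subgroup ↥U), w * p = p * w := by
        intro w hw p hp
        have hyN : (w : G) ∈ Subgroup.normalizer (((P₀ : Subgroup ↥U).map U.subtype : Subgroup G) : Set G) := by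
          rw [Subgroup.mem_normalizer_iff]
          intro x
          constructor
          · rintro ⟨y, hy, rfl⟩
            exact ⟨w * y * w⁻¹, hP₀n.conj_mem y hy w, by simp⟩
          · rintro ⟨y, hy, hye⟩
            refine ⟨w⁻¹ * y * w, ?_, ?_⟩
            · have := hP₀n.conj_mem y hy w⁻¹
              rw [inv_inv] at this
              exact this
            · have h1 : (y : G) = w * x * (w : G)⁻¹ := hye
              simp [h1, mul_assoc]
        have hc := hNC r ((P₀ : Subgroup ↥U).map U.subtype) (w : G) hrσ (P₀.isPGroup'.map _) hyN (by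
          intro s hs hsd
          have hsd' : s ∣ orderOf w := by
            rwa [← Subgroup.orderOf_coe]
          have h1 : s ∣ Nat.card W := hsd'.trans (Subgroup.orderOf_dvd_natCard _ hw)
          have h2 : s ∣ Nat.card U := h1.trans (Subgroup.card_subgroup_dvd_card W)
          refine ⟨hU s hs h2, fun he => hWr (he ▸ h1)⟩)
        rw [Subgroup.mem_centralizer_iff] at hc
        have := hc (p : G) ⟨p, hp, rfl⟩
        exact Subtype.ext this.symm
      have hWn : W.Normal := by
        constructor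
        intro w hw u
        have hu : u ∈ (P₀ : Subgroup ↥U) ⊔ W := by rw [hW.sup_eq_top]; trivial
        obtain ⟨p, hp, w', hw', rfl⟩ := mem_sup_comm'' _ _ (fun a ha b hb => (hWc b hb a ha).symm) hu
        have h1 : w' * w * w'⁻¹ ∈ W := W.mul_mem (W.mul_mem hw' hw) (W.inv_mem hw')
        have h2 := hWc _ h1 p hp
        have e : p * w' * w * (p * w')⁻¹ = w' * w * w'⁻¹ := by
          calc p * w' * w * (p * w')⁻¹ = p * (w' * w * w'⁻¹) * p⁻¹ := by group
            _ = (w' * w * w'⁻¹) * p * p⁻¹ := by rw [← h2]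
            _ = _ := by group
        rw [e]; exact h1
      exact hno ⟨P₀, W, hWn, hW.symm⟩
    obtain ⟨P₁, T₀, hT₀n, hc⟩ := hnpc
    have hT₀r : ¬ r ∣ Nat.card T₀ := by
      rw [← hc.index_eq_card]; exact P₁.not_dvd_index
    let T : Subgroup G := T₀.map U.subtype
    have hTU : T ≤ U := by rintro _ ⟨x, -, rfl⟩; exact x.2
    have hTc : Nat.card T = Nat.card T₀ := Subgroup.card_map_of_injective U.subtype_injective
    have hTne : T ≠ U := by
      intro he
      rw [he] at hTc
      exact hT₀r (hTc ▸ hrU)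
    obtain ⟨g, hg⟩ := hIH T hTU hTne
    obtain ⟨R₀, hR₀⟩ := hSy r hrσ
    -- T conjugated into H is centralized by R₀
    let T' : Subgroup G := T.map (MulAut.conj g⁻¹).toMonoidHom
    have hT'H : T' ≤ H := by
      rintro _ ⟨t, ht', rfl⟩
      have := mem_map_conj'.1 (hg ht')
      simpa [mul_assoc] using this
    have hT'c : Nat.card T' = Nat.card T :=
      Subgroup.card_map_of_injective (MulAut.conj g⁻¹).injective
    have hcomT := hBt r R₀ T' hrσ hR₀ hT'H (by rw [hT'c, hTc]; exact hT₀r)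
    let N : Subgroup G := Subgroup.normalizer (T : Set G)
    have hR'N : ((g • R₀ : Sylow r G) : Subgroup G) ≤ N := by
      refine le_trans ?_ (Subgroup.centralizer_le_normalizer (T : Set G))
      intro a ha
      rw [Sylow.coe_subgroup_smul, Subgroup.mem_pointwise_smul_iff_inv_smul_mem, MulAut.smul_def, MulAut.conj_inv_apply] at ha
      rw [Subgroup.mem_centralizer_iff]
      intro t ht'
      have h1 := hcomT _ ha (g⁻¹ * t * g) ⟨t, ht', by simp [mul_assoc]⟩
      calc t * a = g * ((g⁻¹ * t * g) * (g⁻¹ * a * g)) * g⁻¹ := by group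
        _ = g * ((g⁻¹ * a * g) * (g⁻¹ * t * g)) * g⁻¹ := by rw [h1]
        _ = _ := by group
    let P : Subgroup G := (P₁ : Subgroup ↥U).map U.subtype
    have hPp : IsPGroup r P := P₁.isPGroup'.map _
    have hUN : U ≤ N := by
      intro u hu
      rw [Subgroup.mem_normalizer_iff]
      intro x
      constructor
      · rintro ⟨y, hy, rfl⟩
        exact ⟨⟨u, hu⟩ * y * ⟨u, hu⟩⁻¹, hT₀n.conj_mem y hy _, by simp⟩
      · rintro ⟨y, hy, hye⟩
        refine ⟨⟨u, hu⟩⁻¹ * y * ⟨u, hu⟩, ?_, ?_⟩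
        · have := hT₀n.conj_mem y hy ⟨u, hu⟩⁻¹
          simpa using this
        · have h1 : (y : G) = u * x * u⁻¹ := hye
          simp [h1, mul_assoc]
    have hPU : P ≤ U := by rintro _ ⟨x, -, rfl⟩; exact x.2
    obtain ⟨n, hn, hnP⟩ := sylow_conj_in' N (g • R₀) hR'N hPp (hPU.trans hUN)
    refine ⟨n⁻¹ * g, fun u hu => ?_⟩
    rw [mem_map_conj']
    obtain ⟨⟨t₀, p₁⟩, hu'⟩ := hc.2 (⟨u, hu⟩ : ↥U)
    have hu'' : ((t₀ : ↥U) : G) * ((p₁ : ↥U) : G) = u := congrArg Subtype.val hu'
    have ht₁ : n * ((t₀ : ↥U) : G) * n⁻¹ ∈ T := by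
      exact (Subgroup.mem_normalizer_iff.1 hn _).1 ⟨_, t₀.2, rfl⟩
    have ht₂ : g⁻¹ * (n * ((t₀ : ↥U) : G) * n⁻¹) * g ∈ H := mem_map_conj'.1 (hg ht₁)
    have hp₁ := hnP ((p₁ : ↥U) : G) ⟨_, p₁.2, rfl⟩
    rw [Sylow.coe_subgroup_smul, Subgroup.mem_pointwise_smul_iff_inv_smul_mem, MulAut.smul_def, MulAut.conj_inv_apply] at hp₁
    have hp₂ : g⁻¹ * (n * ((p₁ : ↥U) : G) * n⁻¹) * g ∈ H := hHsH (hR₀ hp₁)
    have e : (n⁻¹ * g)⁻¹ * u * (n⁻¹ * g) = (g⁻¹ * (n * ((t₀ : ↥U) : G) * n⁻¹) * g) * (g⁻¹ * (n * ((p₁ : ↥U) : G) * n⁻¹) * g) := by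
      rw [← hu'']; group
    rw [e]
    exact H.mul_mem ht₂ hp₂
  intro K L hK hL
  have hpi : ∀ g : G, IsPiSubgroup (σ ∪ τ) (H.map (MulAut.conj g).toMonoidHom) := by
    intro g p hp hpd
    have hc : Nat.card (H.map (MulAut.conj g).toMonoidHom) = Nat.card H :=
      Subgroup.card_map_of_injective (MulAut.conj g).injective
    rw [hc] at hpd
    exact hH.1 p hp hpd
  obtain ⟨g₁, hg₁⟩ := key _ K rfl hK.prop
  obtain ⟨g₂, hg₂⟩ := key _ L rfl hL.prop
  have hK' : K = H.map (MulAut.conj g₁).toMonoidHom := le_antisymm hg₁ (hK.le_of_ge (hpi g₁) hg₁)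
  have hL' : L = H.map (MulAut.conj g₂).toMonoidHom := le_antisymm hg₂ (hL.le_of_ge (hpi g₂) hg₂)
  refine ⟨g₂ * g₁⁻¹, ?_⟩
  rw [hK', hL', Subgroup.map_map]
  congr 1
  ext x
  simp [mul_assoc]

end Cfsg.Agent.S4334
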