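import Cfsg.Statements.S4337
import Cfsg.Agent.Lib.CharBurnside
-- import your own Cfsg.Agent.* helpers here

set_option autoImplicit false
set_option linter.all false
open Cfsg

namespace Cfsg.Agent.S4337

theorem exists_invariant {α : Type*} [DecidableEq α] [DecidableEq (Equiv.Perm α)] :
    ∀ (k : ℕ) (L : Finset (Equiv.Perm α)) (S : Finset α), L.card = k → (∀ t ∈ L, t.IsSwap) →
      ∃ S' : Finset α, S ⊆ S' ∧ S'.card ≤ S.card + k ∧ ∀ t ∈ L, ∀ z ∈ S', t z ∈ S' := by
  intro k
  induction k with
  | zero =>
    intro L S hL _
    refine ⟨S, subset_rfl, by omega, ?_⟩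
    intro t ht
    rw [Finset.card_eq_zero] at hL
    subst hL
    simp at ht
  | succ k IH =>
    intro L S hL hsw
    by_cases h : ∀ t ∈ L, ∀ z ∈ S, t z ∈ S
    · exact ⟨S, subset_rfl, by omega, h⟩
    · push Not at h
      obtain ⟨t, ht, z, hz, htz⟩ := h
      obtain ⟨u, v, huv, rfl⟩ := hsw t ht
      have hL' : (L.erase (Equiv.swap u v)).card = k := by
        rw [Finset.card_erase_of_mem ht, hL]
        rfl
      obtain ⟨S', hS, hc, hinv⟩ := IH (L.erase (Equiv.swap u v)) (insert (Equiv.swap u v z) S) hL'
        (fun t' ht' => hsw t' (Finset.mem_of_mem_erase ht'))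
      have hzS' : z ∈ S' := hS (Finset.mem_insert_of_mem hz)
      have hwS' : Equiv.swap u v z ∈ S' := hS (Finset.mem_insert_self _ _)
      have hcard := Finset.card_insert_le (Equiv.swap u v z) S
      refine ⟨S', (Finset.subset_insert _ _).trans hS, by omega, ?_⟩
      intro t' ht' y hy
      by_cases ht'eq : t' = Equiv.swap u v
      · subst ht'eq
        have huvS : u ∈ S' ∧ v ∈ S' := by
          by_cases hzu : z = u
          · subst hzu
            rw [Equiv.swap_apply_left] at hwS'
            exact ⟨hzS', hwS'⟩
          · by_cases hzv : z = v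
            · subst hzv
              rw [Equiv.swap_apply_right] at hwS'
              exact ⟨hwS', hzS'⟩
            · exfalso
              rw [Equiv.swap_apply_of_ne_of_ne hzu hzv] at htz
              exact htz hz
        rw [Equiv.swap_apply_def]
        split_ifs
        · exact huvS.2
        · exact huvS.1
        · exact hy
      · exact hinv t' (Finset.mem_erase.2 ⟨ht'eq, ht'⟩) y hy


/-- In a finite symmetric group, any three transpositions generate a solvable subgroup. -/
theorem result (n : ℕ) (a b c : Equiv.Perm (Fin n))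
    (ha : a.IsSwap) (hb : b.IsSwap) (hc : c.IsSwap) :
    Group.IsSolvable (Subgroup.closure ({a, b, c} : Set (Equiv.Perm (Fin n)))) := by
  classical
  let G : Subgroup (Equiv.Perm (Fin n)) := Subgroup.closure ({a, b, c} : Set (Equiv.Perm (Fin n)))
  have hbound : ∀ x : Fin n, ∃ S : Finset (Fin n), x ∈ S ∧ S.card ≤ 4 ∧ ∀ g ∈ G, ∀ z ∈ S, g z ∈ S := by
    intro x
    obtain ⟨S, hxS, hcard, hinv⟩ := exists_invariant _ ({a, b, c} : Finset (Equiv.Perm (Fin n))) {x} rfl (by
      intro t ht
      simp only [Finset.mem_insert, Finset.mem_singleton] at ht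
      rcases ht with rfl | rfl | rfl <;> assumption)
    have hinvo : ∀ t : Equiv.Perm (Fin n), t.IsSwap → t ∈ ({a, b, c} : Finset (Equiv.Perm (Fin n))) → ∀ z, z ∈ S ↔ t z ∈ S := by
      intro t hts ht z
      constructor
      · exact hinv t ht z
      · intro h
        have h1 := hinv t ht _ h
        obtain ⟨u, v, -, rfl⟩ := hts
        simpa using h1
    refine ⟨S, hxS (Finset.mem_singleton_self x), ?_, ?_⟩
    · have h3 : ({a, b, c} : Finset (Equiv.Perm (Fin n))).card ≤ 3 := Finset.card_le_three
      rw [Finset.card_singleton] at hcard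
      omega
    · have hP : ∀ g ∈ G, ∀ z, z ∈ S ↔ g z ∈ S := by
        intro g hg
        induction hg using Subgroup.closure_induction with
        | mem t ht =>
          simp only [Set.mem_insert_iff, Set.mem_singleton_iff] at ht
          rcases ht with rfl | rfl | rfl
          · exact hinvo _ ha (by simp)
          · exact hinvo _ hb (by simp)
          · exact hinvo _ hc (by simp)
        | one => intro z; rfl
        | mul g h _ _ hg hh =>
          intro z
          rw [hh z, hg (h z)]
          rfl
        | inv g _ hg =>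
          intro z
          rw [hg (g⁻¹ z)]
          simp
      intro g hg z hz
      exact (hP g hg z).1 hz
  have hprimes : ∀ q : ℕ, q.Prime → q ∣ Nat.card G → q = 2 ∨ q = 3 := by
    intro q hq hd
    haveI : Fact q.Prime := ⟨hq⟩
    obtain ⟨g, hg⟩ := exists_prime_orderOf_dvd_card' q hd
    have hg' : orderOf (g : Equiv.Perm (Fin n)) = q := by
      rw [Subgroup.orderOf_coe]
      exact hg
    set g' : Equiv.Perm (Fin n) := (g : Equiv.Perm (Fin n)) with hgdef
    have hne : g' ≠ 1 := by
      intro h1
      rw [h1, orderOf_one] at hg'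
      exact hq.one_lt.ne hg'
    obtain ⟨x, hx⟩ : ∃ x, g' x ≠ x := by
      by_contra hcon
      push Not at hcon
      exact hne (Equiv.ext hcon)
    obtain ⟨S, hxS, hS4, hinv⟩ := hbound x
    have hpowS : ∀ k : ℕ, (g' ^ k) x ∈ S := by
      intro k
      induction k with
      | zero => simpa using hxS
      | succ k ih =>
        rw [pow_succ', Equiv.Perm.mul_apply]
        exact hinv _ g.2 _ ih
    have hne2 : ∀ i j : ℕ, i < j → j < q → (g' ^ i) x ≠ (g' ^ j) x := by
      intro i j hij hj heq
      have hd1 : (g' ^ (j - i)) x = x := by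
        have h1 : g' ^ j = g' ^ i * g' ^ (j - i) := by
          rw [← pow_add]
          congr 1
          omega
        rw [h1, Equiv.Perm.mul_apply] at heq
        exact ((g' ^ i).injective heq).symm
      have hcop : (j - i).Coprime (orderOf g') := by
        rw [hg']
        exact ((Nat.Prime.coprime_iff_not_dvd hq).2 (Nat.not_dvd_of_pos_of_lt (by omega) (by omega))).symm
      obtain ⟨m, hm⟩ := exists_pow_eq_self_of_coprime hcop
      apply hx
      rw [← hm]
      exact Equiv.Perm.pow_apply_eq_self_of_apply_eq_self hd1 m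
    have hq4 : q ≤ 4 := by
      have hcardle : (Finset.range q).card ≤ S.card := by
        refine Finset.card_le_card_of_injOn (fun k => (g' ^ k) x) (fun k _ => hpowS k) ?_
        intro i hi j hj heq
        have hi' : i < q := by simpa using hi
        have hj' : j < q := by simpa using hj
        rcases Nat.lt_trichotomy i j with h | h | h
        · exact absurd heq (hne2 i j h hj')
        · exact h
        · exact absurd heq.symm (hne2 j i h hi')
      rw [Finset.card_range] at hcardle
      omega
    have h2 := hq.two_le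
    interval_cases q
    · left; rfl
    · right; rfl
    · exact absurd hq (by norm_num)
  have hpos : Nat.card G ≠ 0 := Nat.card_pos.ne'
  have h2p : Nat.Prime 2 := Nat.prime_two
  have h3p : Nat.Prime 3 := Nat.prime_three
  obtain ⟨s, t, hst⟩ : ∃ s t : ℕ, Nat.card G = 2 ^ s * 3 ^ t := by
    have h1 := Nat.ordProj_mul_ordCompl_eq_self (Nat.card G) 2
    have h2 : ordCompl[2] (Nat.card G) ≠ 0 := by
      intro h0
      rw [h0, mul_zero] at h1
      exact hpos h1.symm
    have h3 := Nat.eq_prime_pow_of_unique_prime_dvd (p := 3) h2 (fun {d} hd hdd => by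
      have h4 : d ∣ Nat.card G := hdd.trans (Nat.ordCompl_dvd _ _)
      rcases hprimes d hd h4 with h5 | h5
      · subst h5
        exact absurd hdd (Nat.not_dvd_ordCompl h2p hpos)
      · exact h5)
    obtain ⟨t, ht⟩ : ∃ t, ordCompl[2] (Nat.card G) = 3 ^ t := ⟨_, h3⟩
    refine ⟨(Nat.card G).factorization 2, t, ?_⟩
    rw [← ht]
    exact h1.symm
  exact Cfsg.Agent.Lib.CharBurnside.solvable_two_prime 2 3 h2p h3p _ G s t rfl hst

end Cfsg.Agent.S4337
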