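import Cfsg.Statements.S4342
import Cfsg.Agent.Lib.SylowIdx

set_option autoImplicit false
set_option linter.all false
open Cfsg

namespace Cfsg.Agent.S4342

/-- Let H be a normal subgroup of a finite group G and p a prime not dividing the index of H. Then the number of Sylow p-subgroups of H/Z(H) equals the number of Sylow p-subgroups of G. -/
theorem result {G : Type*} [Group G] [Finite G]
    (p : ℕ) [Fact p.Prime] (H : Subgroup G) [H.Normal] (hp : ¬ p ∣ H.index) :
    Nat.card (Sylow p (H ⧸ Subgroup.center H)) = Nat.card (Sylow p G) := by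
  classical
  obtain ⟨P⟩ : Nonempty (Sylow p G) := inferInstance
  have hPH : (P : Subgroup G) ≤ H := Cfsg.Agent.Lib.SylowIdx.sylow_le_of_not_dvd_index P H hp
  rw [← Cfsg.Agent.Lib.SylowIdx.card_sylow_eq_of_le P H hPH]
  obtain ⟨Q⟩ : Nonempty (Sylow p H) := inferInstance
  rw [Cfsg.Agent.Lib.SylowIdx.card_sylow_eq_mul Q (Subgroup.center H)]
  have h1 : Nat.card (Sylow p ((Q : Subgroup H) ⊔ Subgroup.center H : Subgroup H)) = 1 := by
    rw [Cfsg.Agent.Lib.SylowIdx.card_sylow_sup_eq Q _ le_sup_left]
    apply Subgroup.relIndex_eq_one.mpr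
    refine sup_le Subgroup.le_normalizer ?_
    intro z hz
    rw [Subgroup.mem_normalizer_iff]
    intro y
    have : z * y * z⁻¹ = y := by
      have := Subgroup.mem_center_iff.mp hz y
      rw [← this]
      simp
    rw [this]
  rw [h1, mul_one]

end Cfsg.Agent.S4342
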