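import Cfsg.Statements.S4344
import Cfsg.Agent.Lib.H7Basic

set_option autoImplicit false
set_option linter.all false
open Cfsg

namespace Cfsg.Agent.S4344

/-- Let S be a finite non-abelian simple group, M a maximal subgroup of S and C a cyclic normal subgroup of M. If a Sylow p-subgroup P of S (for a prime p dividing the order of S) is contained in C, then the number of Sylow p-subgroups of S equals the index of M. -/
theorem result {S : Type*} [Group S] [Finite S]
    [IsSimpleGroup S] (hS : ¬ IsMulCommutative S) (p : ℕ) [Fact p.Prime] (hp : p ∣ Nat.card S)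
    (M : Subgroup S) (hM : IsCoatom M) (C : Subgroup S) (hCM : C ≤ M) (hCn : (C.subgroupOf M).Normal)
    (hC : IsCyclic C) (P : Sylow p S) (hP : (P : Subgroup S) ≤ C) :
    Nat.card (Sylow p S) = M.index := by
  classical
  -- the elements of `C` killed by `|P|` are exactly those of `P`
  set n := Nat.card (P : Subgroup S) with hn
  have hn0 : 0 < n := Nat.card_pos
  have hPC : (P : Subgroup S) ≤ C := hP
  haveI := Fintype.ofFinite C
  have huniq : ∀ y : S, y ∈ C → y ^ n = 1 → y ∈ (P : Subgroup S) := by
    intro y hyC hy
    let T : Finset C := Finset.univ.filter (fun z => z ^ n = 1)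
    let U : Finset C := Finset.univ.filter (fun z => (z : S) ∈ (P : Subgroup S))
    have hU : U.card = n := by
      rw [hn, Nat.card_congr (Subgroup.subgroupOfEquivOfLe hPC).symm.toEquiv, Nat.card_eq_fintype_card,
        Fintype.card_subtype]
      congr 1
    have hUT : U ⊆ T := by
      intro z hz
      simp only [U, T, Finset.mem_filter, Finset.mem_univ, true_and] at hz ⊢
      apply Subtype.ext
      have := pow_card_eq_one' (x := (⟨z, hz⟩ : (P : Subgroup S)))
      have h2 := congrArg (fun w : (P : Subgroup S) => (w : S)) this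
      simpa only [Subgroup.coe_pow, Subgroup.coe_one] using h2
    have hTle : T.card ≤ n := IsCyclic.card_pow_eq_one_le hn0
    have hUTeq : U = T := Finset.eq_of_subset_of_card_le hUT (by rw [hU]; exact hTle)
    have hmem : (⟨y, hyC⟩ : C) ∈ T := by
      simp only [T, Finset.mem_filter, Finset.mem_univ, true_and]
      exact Subtype.ext hy
    rw [← hUTeq] at hmem
    simpa [U] using hmem
  -- hence `M` normalizes `P`
  have hMN : M ≤ Subgroup.normalizer ((P : Subgroup S) : Set S) := by
    have hle : ∀ m ∈ M, ∀ x ∈ (P : Subgroup S), m * x * m⁻¹ ∈ (P : Subgroup S) := by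
      intro m hm x hx
      apply huniq
      · have h1 := hCn.conj_mem (⟨x, hCM (hP hx)⟩ : M) (by
          rw [Subgroup.mem_subgroupOf]; exact hP hx) ⟨m, hm⟩
        rw [Subgroup.mem_subgroupOf] at h1
        simpa using h1
      · rw [conj_pow]
        have h0 : ((⟨x, hx⟩ : (P : Subgroup S)) ^ n : (P : Subgroup S)) = 1 := pow_card_eq_one'
        have h2 := congrArg (fun w : (P : Subgroup S) => (w : S)) h0
        have h3 : x ^ n = 1 := by simpa only [Subgroup.coe_pow, Subgroup.coe_one] using h2
        rw [h3]
        simp
    intro m hm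
    rw [Cfsg.Agent.Lib.H7Basic.mem_normalizer_iff_map_conj]
    apply Subgroup.eq_of_le_of_card_ge
    · rintro _ ⟨x, hx, rfl⟩
      exact hle m hm x hx
    · rw [Subgroup.card_map_of_injective (MulAut.conj m).injective]
  have hNtop : Subgroup.normalizer ((P : Subgroup S) : Set S) ≠ ⊤ := by
    intro htop
    have hnorm : (P : Subgroup S).Normal := Subgroup.normalizer_eq_top_iff.mp htop
    have hne : (P : Subgroup S) ≠ ⊥ := P.ne_bot_of_dvd_card hp
    have hT : (P : Subgroup S) = ⊤ := (hnorm.eq_bot_or_eq_top).resolve_left hne
    have hCT : C = ⊤ := top_le_iff.mp (hT ▸ hPC)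
    apply hS
    subst hCT
    have hc : IsCyclic S := by
      exact isCyclic_of_surjective (Subgroup.topEquiv (G := S)).toMonoidHom
        (Subgroup.topEquiv (G := S)).surjective
    let _ := hc.commGroup
    exact ⟨⟨mul_comm⟩⟩
  have hNM : Subgroup.normalizer ((P : Subgroup S) : Set S) = M := by
    by_contra hne
    exact hNtop ((hM.2 _ (lt_of_le_of_ne hMN (Ne.symm hne))))
  rw [P.card_eq_index_normalizer]
  exact congrArg Subgroup.index hNM

end Cfsg.Agent.S4344
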