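import Cfsg.Statements.S4345
import Cfsg.Agent.Lib.SylowIdx
import Cfsg.Agent.Lib.H7Basic

set_option autoImplicit false
set_option linter.all false
open Cfsg

namespace Cfsg.Agent.S4345


universe u

theorem aux (p ℓ : ℕ) [Fact p.Prime] (hℓ : ℓ.Prime) (n : ℕ) : ∀ (X : Type u) [Group X] [Finite X], Nat.card X = n → IsSolvable X →
      ℓ ^ (Nat.card (Sylow p X)).factorization ℓ ≡ 1 [MOD p] := by
    induction n using Nat.strong_induction_on with
    | _ n ih =>
    intro X _ _ hn hX
    haveI hXs : Group.IsSolvable X := hX
    by_cases hnt : Nontrivial X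
    · obtain ⟨q, A, hq, hAn, hAne, hAp, -⟩ := Cfsg.Agent.Lib.H7Basic.exists_normal_pGroup (G := X) hX
      haveI : Fact q.Prime := ⟨hq⟩
      obtain ⟨P⟩ : Nonempty (Sylow p X) := inferInstance
      rw [Cfsg.Agent.Lib.SylowIdx.card_sylow_eq_mul P A]
      have hQlt : Nat.card (X ⧸ A) < n := by
        rw [← hn]
        have h1 := A.card_mul_index
        have h2 : 1 < Nat.card A := by
          refine Nat.one_lt_iff_ne_zero_and_ne_one.mpr ⟨Nat.card_pos.ne', ?_⟩
          exact fun h => hAne (Subgroup.card_eq_one.mp h)
        have h3 : 0 < A.index := Nat.pos_of_ne_zero Subgroup.index_ne_zero_of_finite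
        rw [Subgroup.index_eq_card] at h3 h1
        nlinarith
      have hih := ih _ hQlt (X ⧸ A) rfl (solvable_of_surjective (QuotientGroup.mk'_surjective A))
      -- the other factor is a power of `q`
      have hdvd : Nat.card (Sylow p ((P : Subgroup X) ⊔ A : Subgroup X)) ∣ Nat.card A := by
        rw [Cfsg.Agent.Lib.SylowIdx.card_sylow_sup_eq P _ le_sup_left]
        have h1 : (Subgroup.normalizer ((P : Subgroup X) : Set X)).relIndex ((P : Subgroup X) ⊔ A) ∣
            (P : Subgroup X).relIndex ((P : Subgroup X) ⊔ A) :=
          Subgroup.relIndex_dvd_of_le_left _ Subgroup.le_normalizer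
        have h2 : (P : Subgroup X).relIndex ((P : Subgroup X) ⊔ A) = (P : Subgroup X).relIndex A := by
          rw [sup_comm]
          exact Cfsg.Agent.Lib.FitCore.relIndex_sup_of_normal _ A
        rw [h2] at h1
        exact h1.trans (Subgroup.relIndex_dvd_card _ _)
      obtain ⟨a, ha⟩ := IsPGroup.iff_card.mp hAp
      rw [ha] at hdvd
      obtain ⟨c, -, hc⟩ := (Nat.dvd_prime_pow hq).mp hdvd
      haveI : Finite (Sylow p ((P : Subgroup X) ⊔ A : Subgroup X)) := inferInstance
      have hmod : Nat.card (Sylow p ((P : Subgroup X) ⊔ A : Subgroup X)) ≡ 1 [MOD p] := card_sylow_modEq_one p _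
      set m := Nat.card (Sylow p ((P : Subgroup X) ⊔ A : Subgroup X)) with hm
      have hm0 : m ≠ 0 := by
        rw [hc]; exact pow_ne_zero _ hq.ne_zero
      have hn0 : Nat.card (Sylow p (X ⧸ A)) ≠ 0 := Nat.card_pos.ne'
      rw [Nat.factorization_mul hn0 hm0, Finsupp.add_apply, pow_add]
      have hfin : ℓ ^ m.factorization ℓ ≡ 1 [MOD p] := by
        by_cases hlq : ℓ = q
        · subst hlq
          rw [hc, Nat.Prime.factorization_pow hq]
          simp only [Finsupp.smul_single, smul_eq_mul, mul_one, Finsupp.single_eq_same]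
          rw [← hc]
          exact hmod
        · have : m.factorization ℓ = 0 := by
            rw [hc, Nat.Prime.factorization_pow hq]
            simp [Finsupp.single_apply, Ne.symm hlq]
          rw [this, pow_zero]
      simpa using hih.mul hfin
    · rw [not_nontrivial_iff_subsingleton] at hnt
      have : Nat.card (Sylow p X) = 1 := by
        haveI : Subsingleton (Sylow p X) := by
          constructor
          intro a b
          ext x
          rw [Subsingleton.elim x 1]
          simp [Subgroup.one_mem]
        haveI : Nonempty (Sylow p X) := inferInstance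
        exact Nat.card_unique
      rw [this]
      simp [Nat.ModEq.refl]


/-- Let G be a finite solvable group and p, ℓ primes. Then the largest power of ℓ dividing the number of Sylow p-subgroups of G is congruent to 1 modulo p. -/
theorem result {G : Type*} [Group G] [Finite G]
    (hG : Group.IsSolvable G) (p ℓ : ℕ) [Fact p.Prime] (hℓ : ℓ.Prime) :
    ℓ ^ (Nat.card (Sylow p G)).factorization ℓ ≡ 1 [MOD p] := by
  exact aux p ℓ hℓ _ G rfl hG

end Cfsg.Agent.S4345
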