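import Cfsg.Statements.S4365
import Cfsg.Agent.Lib.ItoExp

set_option autoImplicit false
set_option linter.all false
open Cfsg

namespace Cfsg.Agent.S4365

/-- Let P be a finite p-group whose conjugacy class sizes are exactly 1 and pᵃ for some a ≥ 1. Then every element of P has its p-th power in the center of P (P/Z(P) has exponent p). -/
theorem result {P : Type*} [Group P] [Finite P] (p : ℕ) [Fact p.Prime]
    (hP : IsPGroup p P) (a : ℕ) (ha : 1 ≤ a)
    (hcs : {k : ℕ | ∃ x : P, (Subgroup.centralizer ({x} : Set P)).index = k} = {1, p ^ a}) (x : P) :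
    x ^ p ∈ Subgroup.center P := by
  have hidx : ∀ y : P, y ∉ Subgroup.center P → (Subgroup.centralizer ({y} : Set P)).index = p ^ a := by
    intro y hy
    have h1 : (Subgroup.centralizer ({y} : Set P)).index ∈ ({1, p ^ a} : Set ℕ) := by
      rw [← hcs]
      exact ⟨y, rfl⟩
    rcases h1 with h1 | h1
    · exfalso
      apply hy
      rw [Subgroup.index_eq_one] at h1
      rw [Subgroup.mem_center_iff]
      intro g
      have h2 : g ∈ Subgroup.centralizer ({y} : Set P) := by rw [h1]; trivial
      exact Subgroup.mem_centralizer_singleton_iff.1 h2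
    · exact h1
  exact Cfsg.Agent.Lib.ItoExp.main_exp hP (p ^ a) (pow_ne_zero _ (Fact.out : p.Prime).ne_zero) hidx x

end Cfsg.Agent.S4365
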