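import Cfsg.Statements.S4377
import Cfsg.Agent.Lib.H7Basic

set_option autoImplicit false
set_option linter.all false
open Cfsg

namespace Cfsg.Agent.S4377

open scoped BigOperators in
theorem card_pow_eq_one_eq_sum (X : Type*) [Group X] [Finite X] (n : ℕ) (hn : n ≠ 0) :
    Nat.card {g : X // g ^ n = 1} = ∑ d ∈ n.divisors, Nat.card {g : X // orderOf g = d} := by
  classical
  haveI := Fintype.ofFinite X
  simp only [Nat.card_eq_fintype_card, Fintype.card_subtype]
  rw [Finset.card_eq_sum_card_fiberwise (f := orderOf) (t := n.divisors)]
  · refine Finset.sum_congr rfl (fun d hd => ?_)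
    congr 1
    ext g
    simp only [Finset.mem_filter, Finset.mem_univ, true_and]
    constructor
    · exact fun h => h.2
    · intro h
      refine ⟨?_, h⟩
      rw [← orderOf_dvd_iff_pow_eq_one, h]
      exact Nat.dvd_of_mem_divisors hd
  · intro g hg
    simp only [Finset.coe_filter, Finset.mem_univ, true_and, Set.mem_setOf_eq] at hg
    simp only [Finset.mem_coe, Nat.mem_divisors]
    exact ⟨orderOf_dvd_of_pow_eq_one hg, hn⟩


/-- Two finite groups have the same number of elements of each order if and only if, for every n, they have the same number of elements g with gⁿ = 1. -/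
theorem result {G H : Type*} [Group G] [Finite G] [Group H] [Finite H] :
    (∀ n : ℕ, Nat.card {g : G // orderOf g = n} = Nat.card {h : H // orderOf h = n}) ↔
      ∀ n : ℕ, Nat.card {g : G // g ^ n = 1} = Nat.card {h : H // h ^ n = 1} := by
  classical
  constructor
  · intro h
    have hpos : ∀ n : ℕ, n ≠ 0 → Nat.card {g : G // g ^ n = 1} = Nat.card {h : H // h ^ n = 1} := by
      intro n hn
      rw [card_pow_eq_one_eq_sum G n hn, card_pow_eq_one_eq_sum H n hn]
      exact Finset.sum_congr rfl (fun d _ => h d)
    intro n
    by_cases hn : n = 0
    · subst hn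
      have hGc : 0 < Nat.card G := Nat.card_pos
      have hHc : 0 < Nat.card H := Nat.card_pos
      have hN : Nat.card G * Nat.card H ≠ 0 := by positivity
      have h1 := hpos _ hN
      have h2 : Nat.card {g : G // g ^ (Nat.card G * Nat.card H) = 1} = Nat.card G := by
        apply Nat.card_congr
        refine Equiv.subtypeUnivEquiv (fun g => ?_)
        rw [pow_mul, pow_card_eq_one', one_pow]
      have h3 : Nat.card {h : H // h ^ (Nat.card G * Nat.card H) = 1} = Nat.card H := by
        apply Nat.card_congr
        refine Equiv.subtypeUnivEquiv (fun g => ?_)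
        rw [mul_comm, pow_mul, pow_card_eq_one', one_pow]
      have h4 : Nat.card {g : G // g ^ 0 = 1} = Nat.card G := by
        apply Nat.card_congr
        exact Equiv.subtypeUnivEquiv (fun g => by simp)
      have h5 : Nat.card {h : H // h ^ 0 = 1} = Nat.card H := by
        apply Nat.card_congr
        exact Equiv.subtypeUnivEquiv (fun g => by simp)
      rw [h4, h5]
      exact h2.symm.trans (h1.trans h3)
    · exact hpos n hn
  · intro h n
    induction n using Nat.strong_induction_on with
    | _ n ih =>
      by_cases hn : n = 0
      · subst hn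
        have h1 : IsEmpty {g : G // orderOf g = 0} :=
          ⟨fun x => (orderOf_pos x.1).ne' x.2⟩
        have h2 : IsEmpty {g : H // orderOf g = 0} :=
          ⟨fun x => (orderOf_pos x.1).ne' x.2⟩
        rw [Nat.card_of_isEmpty, Nat.card_of_isEmpty]
      · have h1 := h n
        rw [card_pow_eq_one_eq_sum G n hn, card_pow_eq_one_eq_sum H n hn,
          ← Nat.insert_self_properDivisors hn,
          Finset.sum_insert Nat.self_notMem_properDivisors,
          Finset.sum_insert Nat.self_notMem_properDivisors] at h1
        have h2 : ∑ d ∈ n.properDivisors, Nat.card {g : G // orderOf g = d}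
            = ∑ d ∈ n.properDivisors, Nat.card {g : H // orderOf g = d} :=
          Finset.sum_congr rfl (fun d hd => ih d (Nat.mem_properDivisors.mp hd).2 )
        rw [h2] at h1
        exact Nat.add_right_cancel h1

end Cfsg.Agent.S4377
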