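import Cfsg.Statements.S4376
import Cfsg.Agent.S4377

set_option autoImplicit false
set_option linter.all false
open Cfsg

namespace Cfsg.Agent.S4376


open Multiplicative Subgroup

/-! ### Numbers of solutions of `x ^ d = 1` -/

/-- The number of solutions of `x ^ d = 1`. -/
noncomputable def F (X : Type) [Group X] (d : ℕ) : ℕ := Nat.card {x : X // x ^ d = 1}

theorem F_prod (A B : Type) [Group A] [Group B] (d : ℕ) : F (A × B) d = F A d * F B d := by
  unfold F
  rw [← Nat.card_prod]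
  apply Nat.card_congr
  refine ⟨fun z => (⟨z.1.1, by simpa using congrArg Prod.fst z.2⟩, ⟨z.1.2, by simpa using congrArg Prod.snd z.2⟩),
    fun p => ⟨(p.1.1, p.2.1), by simp [p.1.2, p.2.2]⟩, ?_, ?_⟩
  · intro z; rfl
  · intro p; rfl

theorem F_pi (c : ℕ) (A : Type) [Group A] (d : ℕ) : F (Fin c → A) d = F A d ^ c := by
  unfold F
  have : Nat.card {x : A // x ^ d = 1} ^ c = Nat.card (Fin c → {x : A // x ^ d = 1}) := by
    rw [Nat.card_fun]; simp
  rw [this]
  apply Nat.card_congr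
  refine ⟨fun z i => ⟨z.1 i, by simpa using congrFun z.2 i⟩, fun p => ⟨fun i => (p i).1, by
    funext i; simpa using (p i).2⟩, ?_, ?_⟩
  · intro z; rfl
  · intro p; rfl

theorem F_gcd (X : Type) [Group X] (e : ℕ) (h : ∀ x : X, x ^ e = 1) (d : ℕ) :
    F X d = F X (Nat.gcd d e) := by
  unfold F
  apply Nat.card_congr
  refine Equiv.subtypeEquivRight (fun x => ?_)
  constructor
  · intro hx
    exact pow_gcd_eq_one.mpr ⟨hx, h x⟩
  · intro hx
    obtain ⟨k, hk⟩ := Nat.gcd_dvd_left d e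
    rw [hk, pow_mul, hx, one_pow]

/-- Splitting the count by pairwise coprime exponents. -/
theorem F_split (X : Type) [Group X] [Finite X] (a b c : ℕ) (hab : a.Coprime b) (hac : a.Coprime c)
    (hbc : b.Coprime c) (h : ∀ x : X, x ^ a = 1 ∨ x ^ b = 1 ∨ x ^ c = 1) (d : ℕ) :
    F X d + 2 = F X (Nat.gcd d a) + F X (Nat.gcd d b) + F X (Nat.gcd d c) := by
  classical
  haveI := Fintype.ofFinite X
  have hF : ∀ e, F X e = (Finset.univ.filter (fun x : X => x ^ e = 1)).card := by
    intro e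
    unfold F
    rw [Nat.card_eq_fintype_card, Fintype.card_subtype]
  simp only [hF]
  set U := Finset.univ.filter (fun x : X => x ^ d = 1)
  set A := Finset.univ.filter (fun x : X => x ^ Nat.gcd d a = 1) with hA
  set B := Finset.univ.filter (fun x : X => x ^ Nat.gcd d b = 1) with hB
  set C := Finset.univ.filter (fun x : X => x ^ Nat.gcd d c = 1) with hC
  have hU : U = (A ∪ B) ∪ C := by
    ext x
    simp only [U, hA, hB, hC, Finset.mem_union, Finset.mem_filter, Finset.mem_univ, true_and]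
    constructor
    · intro hx
      rcases h x with h1 | h1 | h1
      · exact Or.inl (Or.inl (pow_gcd_eq_one.mpr ⟨hx, h1⟩))
      · exact Or.inl (Or.inr (pow_gcd_eq_one.mpr ⟨hx, h1⟩))
      · exact Or.inr (pow_gcd_eq_one.mpr ⟨hx, h1⟩)
    · have key : ∀ e, x ^ Nat.gcd d e = 1 → x ^ d = 1 := by
        intro e he
        obtain ⟨k, hk⟩ := Nat.gcd_dvd_left d e
        rw [hk, pow_mul, he, one_pow]
      rintro ((h1 | h1) | h1)
      · exact key _ h1
      · exact key _ h1
      · exact key _ h1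
  have hone : ∀ s t : ℕ, s.Coprime t → ∀ x : X, x ^ Nat.gcd d s = 1 → x ^ Nat.gcd d t = 1 → x = 1 := by
    intro s t hst x h1 h2
    have h3 : x ^ Nat.gcd (Nat.gcd d s) (Nat.gcd d t) = 1 := pow_gcd_eq_one.mpr ⟨h1, h2⟩
    have h4 : Nat.gcd (Nat.gcd d s) (Nat.gcd d t) = 1 := by
      apply Nat.Coprime.coprime_dvd_left (Nat.gcd_dvd_right d s)
      exact Nat.Coprime.coprime_dvd_right (Nat.gcd_dvd_right d t) hst
    rw [h4, pow_one] at h3
    exact h3
  have hAB : A ∩ B = {1} := by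
    ext x
    simp only [hA, hB, Finset.mem_inter, Finset.mem_filter, Finset.mem_univ, true_and, Finset.mem_singleton]
    constructor
    · rintro ⟨h1, h2⟩
      exact hone a b hab x h1 h2
    · rintro rfl
      simp
  have hABC : (A ∪ B) ∩ C = {1} := by
    ext x
    simp only [hA, hB, hC, Finset.mem_inter, Finset.mem_union, Finset.mem_filter, Finset.mem_univ, true_and, Finset.mem_singleton]
    constructor
    · rintro ⟨h1 | h1, h2⟩
      · exact hone a c hac x h1 h2
      · exact hone b c hbc x h1 h2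
    · rintro rfl
      simp
  have h1 := Finset.card_union_add_card_inter A B
  have h2 := Finset.card_union_add_card_inter (A ∪ B) C
  rw [hAB, Finset.card_singleton] at h1
  rw [hABC, Finset.card_singleton] at h2
  rw [hU]
  omega

/-! ### Groups over `Z/2` -/

abbrev Q2 := Multiplicative (ZMod 2)

/-- A finite solvable group of exponent dividing `84`, with a homomorphism to `Z/2`. -/
structure B where
  X : Type
  [grp : Group X]
  [fin : Finite X]
  α : X →* Q2
  solv : Group.IsSolvable X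
  exp84 : ∀ x : X, x ^ 84 = 1

attribute [instance] B.grp B.fin

noncomputable def T (b : B) (q : Q2) (d : ℕ) : ℕ := Nat.card {x : b.X // b.α x = q ∧ x ^ d = 1}

/-- The fibre product over `Z/2`. -/
def B.fib (a b : B) : B where
  X := ↥((a.α.comp (MonoidHom.fst a.X b.X)).eqLocus (b.α.comp (MonoidHom.snd a.X b.X)))
  grp := inferInstance
  fin := inferInstance
  α := (a.α.comp (MonoidHom.fst a.X b.X)).comp (Subgroup.subtype _)
  solv := by
    haveI : Group.IsSolvable a.X := a.solv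
    haveI : Group.IsSolvable b.X := b.solv
    infer_instance
  exp84 := by
    rintro ⟨⟨x, y⟩, h⟩
    apply Subtype.ext
    show (x ^ 84, y ^ 84) = (1, 1)
    rw [a.exp84, b.exp84]

theorem T_fib (a b : B) (q : Q2) (d : ℕ) : T (a.fib b) q d = T a q d * T b q d := by
  unfold T
  rw [← Nat.card_prod]
  apply Nat.card_congr
  refine ⟨fun z => (⟨z.1.1.1, z.2.1, congrArg (fun w : (a.fib b).X => w.1.1) z.2.2⟩,
      ⟨z.1.1.2, ?_, congrArg (fun w : (a.fib b).X => w.1.2) z.2.2⟩),
    fun p => ⟨⟨(p.1.1, p.2.1), ?_⟩, p.1.2.1, ?_⟩, ?_, ?_⟩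
  · have h1 : a.α z.1.1.1 = b.α z.1.1.2 := z.1.2
    rw [← h1]
    exact z.2.1
  · have h1 : a.α p.1.1 = b.α p.2.1 := by rw [p.1.2.1, p.2.2.1]
    exact h1
  · apply Subtype.ext
    show (p.1.1 ^ d, p.2.1 ^ d) = (1, 1)
    rw [p.1.2.2, p.2.2.2]
  · intro z; rfl
  · intro p; rfl

abbrev g2 : Q2 := ofAdd (1 : ZMod 2)

theorem Q2_cases (q : Q2) : q = 1 ∨ q = g2 := by
  revert q
  decide

theorem F_eq_add (b : B) (d : ℕ) : F b.X d = T b 1 d + T b g2 d := by
  classical
  unfold F T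
  rw [← Nat.card_sum]
  apply Nat.card_congr
  refine ⟨fun z => if h : b.α z.1 = 1 then Sum.inl ⟨z.1, h, z.2⟩ else Sum.inr ⟨z.1, ?_, z.2⟩,
    fun s => match s with
      | Sum.inl x => ⟨x.1, x.2.2⟩
      | Sum.inr x => ⟨x.1, x.2.2⟩, ?_, ?_⟩
  · exact (Q2_cases _).resolve_left h
  · intro z
    by_cases h : b.α z.1 = 1 <;> simp [h]
  · rintro (x | x)
    · have h : b.α x.1 = 1 := x.2.1
      simp [h]
    · have h : ¬ b.α x.1 = 1 := by
        rw [x.2.1]
        decide
      simp [h]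

/-! ### Bundled products -/

/-- A finite solvable group of exponent dividing `84`. -/
structure R where
  X : Type
  [grp : Group X]
  [fin : Finite X]
  solv : Group.IsSolvable X
  exp84 : ∀ x : X, x ^ 84 = 1

attribute [instance] R.grp R.fin

theorem isSolvable_pi (I : Type) (A : Type) [Group A] (h : Group.IsSolvable A) : Group.IsSolvable (I → A) := by
  obtain ⟨n, hn⟩ := h.solvable
  have key : ∀ m, ∀ x ∈ derivedSeries (I → A) m, ∀ i, x i ∈ derivedSeries A m := by
    intro m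
    induction m with
    | zero => intro x _ i; trivial
    | succ m ih =>
      intro x hx i
      rw [derivedSeries_succ] at hx ⊢
      have hle : ⁅derivedSeries (I → A) m, derivedSeries (I → A) m⁆ ≤
          (⁅derivedSeries A m, derivedSeries A m⁆ : Subgroup A).comap (Pi.evalMonoidHom _ i) := by
        rw [Subgroup.commutator_le]
        intro p hp r hr
        show (p * r * p⁻¹ * r⁻¹ : I → A) i ∈ (⁅derivedSeries A m, derivedSeries A m⁆ : Subgroup A)
        exact Subgroup.commutator_mem_commutator (ih p hp i) (ih r hr i)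
      exact hle hx
  refine ⟨n, ?_⟩
  rw [eq_bot_iff]
  intro x hx
  rw [Subgroup.mem_bot]
  funext i
  have := key n x hx i
  rw [hn] at this
  exact this

def R.pow (b : B) (c : ℕ) : R where
  X := Fin c → b.X
  grp := inferInstance
  fin := inferInstance
  solv := isSolvable_pi _ _ b.solv
  exp84 := fun x => by
    funext i
    exact b.exp84 (x i)

def R.unit : R where
  X := Unit
  grp := inferInstance
  fin := inferInstance
  solv := inferInstance
  exp84 := fun x => rfl

def R.mul (r s : R) : R where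
  X := r.X × s.X
  grp := inferInstance
  fin := inferInstance
  solv := by
    haveI : Group.IsSolvable r.X := r.solv
    haveI : Group.IsSolvable s.X := s.solv
    infer_instance
  exp84 := fun x => by
    show (x.1 ^ 84, x.2 ^ 84) = (1, 1)
    rw [r.exp84, s.exp84]

def R.ofList : List (B × ℕ) → R
  | [] => R.unit
  | p :: L => (R.pow p.1 p.2).mul (R.ofList L)

theorem F_ofList (L : List (B × ℕ)) (d : ℕ) :
    F (R.ofList L).X d = (L.map (fun p => F p.1.X d ^ p.2)).prod := by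
  induction L with
  | nil =>
    show F Unit d = 1
    unfold F
    have : Subsingleton {x : Unit // x ^ d = 1} := inferInstance
    haveI : Nonempty {x : Unit // x ^ d = 1} := ⟨⟨(), rfl⟩⟩
    exact Nat.card_of_subsingleton (⟨(), rfl⟩ : {x : Unit // x ^ d = 1})
  | cons p L ih =>
    show F ((Fin p.2 → p.1.X) × (R.ofList L).X) d = _
    rw [F_prod, F_pi, ih]
    simp

/-! ### Metacyclic groups -/

def autMul (n : ℕ) (u v : ZMod n) (h : u * v = 1) : MulAut (Multiplicative (ZMod n)) where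
  toFun x := ofAdd (u * x.toAdd)
  invFun x := ofAdd (v * x.toAdd)
  left_inv x := by
    show ofAdd (v * (u * x.toAdd)) = x
    rw [← mul_assoc, mul_comm v u, h, one_mul]; rfl
  right_inv x := by
    show ofAdd (u * (v * x.toAdd)) = x
    rw [← mul_assoc, h, one_mul]; rfl
  map_mul' x y := by
    show ofAdd (u * (x.toAdd + y.toAdd)) = ofAdd (u * x.toAdd + u * y.toAdd)
    rw [mul_add]

theorem pow_val_add (m : ℕ) [NeZero m] {M : Type*} [Monoid M] (u : M) (hu : u ^ m = 1) (i j : ZMod m) :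
    u ^ (i + j).val = u ^ i.val * u ^ j.val := by
  rw [ZMod.val_add, ← pow_add]
  exact (pow_eq_pow_mod _ hu).symm

def cycAct (m n : ℕ) [NeZero m] (u v : ZMod n) (h : u * v = 1) (hu : u ^ m = 1) (hv : v ^ m = 1) :
    Multiplicative (ZMod m) →* MulAut (Multiplicative (ZMod n)) where
  toFun i := autMul n (u ^ i.toAdd.val) (v ^ i.toAdd.val) (by rw [← mul_pow, h, one_pow])
  map_one' := by
    ext x
    show ofAdd (u ^ (0 : ZMod m).val * x.toAdd) = x
    simp
  map_mul' i j := by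
    ext x
    show ofAdd (u ^ (i.toAdd + j.toAdd).val * x.toAdd) = ofAdd (u ^ i.toAdd.val * (u ^ j.toAdd.val * x.toAdd))
    rw [pow_val_add m u hu, mul_assoc]

instance instFintypeSemidirect (N G : Type) [Group N] [Group G] [Fintype N] [Fintype G] (φ : G →* MulAut N) :
    Fintype (SemidirectProduct N G φ) :=
  Fintype.ofEquiv _ SemidirectProduct.equivProd.symm

theorem solvable_semidirect (N G : Type) [CommGroup N] [Group G] (hG : Group.IsSolvable G) (φ : G →* MulAut N) :
    Group.IsSolvable (SemidirectProduct N G φ) := by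
  haveI := hG
  exact solvable_of_ker_le_range (SemidirectProduct.inl : N →* SemidirectProduct N G φ)
    (SemidirectProduct.rightHom : SemidirectProduct N G φ →* G)
    (by rw [SemidirectProduct.range_inl_eq_ker_rightHom])

abbrev MX (m n : ℕ) [NeZero m] (u v : ZMod n) (h : u * v = 1) (hu : u ^ m = 1) (hv : v ^ m = 1) : Type :=
  SemidirectProduct (Multiplicative (ZMod n)) (Multiplicative (ZMod m)) (cycAct m n u v h hu hv)

abbrev XC2 := MX 2 1 0 0 (by decide) (by decide) (by decide)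
abbrev XC3 := MX 3 1 0 0 (by decide) (by decide) (by decide)
abbrev XC4 := MX 4 1 0 0 (by decide) (by decide) (by decide)
abbrev XC7 := MX 7 1 0 0 (by decide) (by decide) (by decide)
abbrev XS3 := MX 2 3 2 2 (by decide) (by decide) (by decide)
abbrev XD4 := MX 2 4 3 3 (by decide) (by decide) (by decide)
abbrev XD7 := MX 2 7 6 6 (by decide) (by decide) (by decide)
abbrev XDic7 := MX 4 7 6 6 (by decide) (by decide) (by decide)
abbrev XF42 := MX 6 7 3 5 (by decide) (by decide) (by decide)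
abbrev XF21 := MX 3 7 2 4 (by decide) (by decide) (by decide)

/-- The parity homomorphism on the complement. -/
def alphaI (m n : ℕ) [NeZero m] (u v : ZMod n) (h : u * v = 1) (hu : u ^ m = 1) (hv : v ^ m = 1)
    (hm : 2 ∣ m) : MX m n u v h hu hv →* Q2 :=
  (AddMonoidHom.toMultiplicative (ZMod.castHom hm (ZMod 2)).toAddMonoidHom).comp SemidirectProduct.rightHom

set_option maxRecDepth 100000

theorem exp_C2 : ∀ x : XC2, x ^ 84 = 1 := by decide +kernel
theorem exp_C3 : ∀ x : XC3, x ^ 84 = 1 := by decide +kernel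
theorem exp_C4 : ∀ x : XC4, x ^ 84 = 1 := by decide +kernel
theorem exp_C7 : ∀ x : XC7, x ^ 84 = 1 := by decide +kernel
theorem exp_S3 : ∀ x : XS3, x ^ 84 = 1 := by decide +kernel
theorem exp_D4 : ∀ x : XD4, x ^ 84 = 1 := by decide +kernel
theorem exp_D7 : ∀ x : XD7, x ^ 84 = 1 := by decide +kernel
theorem exp_Dic7 : ∀ x : XDic7, x ^ 84 = 1 := by decide +kernel
theorem exp_F42 : ∀ x : XF42, x ^ 84 = 1 := by decide +kernel
theorem exp_F21 : ∀ x : XF21, x ^ 84 = 1 := by decide +kernel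

/-- The homomorphism of `D₄` with Klein kernel. -/
def alphaV : XD4 →* Q2 :=
  MonoidHom.mk' (fun x => ofAdd (((x.left.toAdd.val : ℕ) : ZMod 2))) (by decide +kernel)

theorem solv_M (m n : ℕ) [NeZero m] (u v : ZMod n) (h : u * v = 1) (hu : u ^ m = 1) (hv : v ^ m = 1) :
    Group.IsSolvable (MX m n u v h hu hv) :=
  solvable_semidirect _ _ inferInstance _

def bC2 : B := ⟨XC2, alphaI 2 1 0 0 _ _ _ (by decide), solv_M _ _ _ _ _ _ _, exp_C2⟩
def bC3 : B := ⟨XC3, 1, solv_M _ _ _ _ _ _ _, exp_C3⟩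
def bC4 : B := ⟨XC4, alphaI 4 1 0 0 _ _ _ (by decide), solv_M _ _ _ _ _ _ _, exp_C4⟩
def bC7 : B := ⟨XC7, 1, solv_M _ _ _ _ _ _ _, exp_C7⟩
def bS3 : B := ⟨XS3, alphaI 2 3 2 2 _ _ _ (by decide), solv_M _ _ _ _ _ _ _, exp_S3⟩
def bD4c : B := ⟨XD4, alphaI 2 4 3 3 _ _ _ (by decide), solv_M _ _ _ _ _ _ _, exp_D4⟩
def bD4v : B := ⟨XD4, alphaV, solv_M _ _ _ _ _ _ _, exp_D4⟩
def bD7 : B := ⟨XD7, alphaI 2 7 6 6 _ _ _ (by decide), solv_M _ _ _ _ _ _ _, exp_D7⟩
def bDic7 : B := ⟨XDic7, alphaI 4 7 6 6 _ _ _ (by decide), solv_M _ _ _ _ _ _ _, exp_Dic7⟩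
def bF42 : B := ⟨XF42, alphaI 6 7 3 5 _ _ _ (by decide), solv_M _ _ _ _ _ _ _, exp_F42⟩
def bF21 : B := ⟨XF21, 1, solv_M _ _ _ _ _ _ _, exp_F21⟩

/-! ### The affine semilinear group of the field with eight elements -/

abbrev V8 := ZMod 2 × ZMod 2 × ZMod 2

def gAut : MulAut (Multiplicative V8) where
  toFun x := ofAdd (x.toAdd.2.2, x.toAdd.1 + x.toAdd.2.2, x.toAdd.2.1)
  invFun x := ofAdd (x.toAdd.2.1 + x.toAdd.1, x.toAdd.2.2, x.toAdd.1)
  left_inv := by decide +kernel
  right_inv := by decide +kernel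
  map_mul' := by decide +kernel

def fAut : MulAut (Multiplicative V8) where
  toFun x := ofAdd (x.toAdd.1, x.toAdd.2.2, x.toAdd.2.1 + x.toAdd.2.2)
  invFun x := ofAdd (x.toAdd.1, x.toAdd.2.2 + x.toAdd.2.1, x.toAdd.2.1)
  left_inv := by decide +kernel
  right_inv := by decide +kernel
  map_mul' := by decide +kernel

def psiFun (k : XF21) : MulAut (Multiplicative V8) := gAut ^ k.left.toAdd.val * fAut ^ k.right.toAdd.val

theorem psi_mul : ∀ (a b : XF21) (v : Multiplicative V8), psiFun (a * b) v = psiFun a (psiFun b v) := by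
  decide +kernel

def psi : XF21 →* MulAut (Multiplicative V8) :=
  MonoidHom.mk' psiFun (fun a b => MulEquiv.ext fun v => psi_mul a b v)

abbrev XAgl := SemidirectProduct (Multiplicative V8) XF21 psi

theorem agl_orders : ∀ x : XAgl, x ^ 6 = 1 ∨ x ^ 7 = 1 := by decide +kernel

theorem exp_Agl (x : XAgl) : x ^ 84 = 1 := by
  rcases agl_orders x with h | h
  · have : (84 : ℕ) = 6 * 14 := by norm_num
    rw [this, pow_mul, h, one_pow]
  · have : (84 : ℕ) = 7 * 12 := by norm_num
    rw [this, pow_mul, h, one_pow]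

def bAgl : B := ⟨XAgl, 1, solvable_semidirect _ _ (solv_M _ _ _ _ _ _ _) _, exp_Agl⟩

theorem F_filter (X : Type) [Group X] [Fintype X] [DecidableEq X] (d : ℕ) :
    F X d = (Finset.univ.filter (fun x : X => x ^ d = 1)).card := by
  unfold F
  rw [Nat.card_eq_fintype_card, Fintype.card_subtype]

theorem F_agl_1 : F XAgl 1 = 1 := by rw [F_filter]; decide +kernel
theorem F_agl_2 : F XAgl 2 = 8 := by rw [F_filter]; decide +kernel
theorem F_agl_3 : F XAgl 3 = 57 := by rw [F_filter]; decide +kernel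
theorem F_agl_6 : F XAgl 6 = 120 := by rw [F_filter]; decide +kernel
theorem F_agl_7 : F XAgl 7 = 49 := by rw [F_filter]; decide +kernel

theorem F_agl (d : ℕ) : F XAgl d + 2 = F XAgl (Nat.gcd d 6) + F XAgl (Nat.gcd d 7) + F XAgl (Nat.gcd d 1) :=
  F_split XAgl 6 7 1 (by norm_num) (by norm_num) (by norm_num)
    (fun x => (agl_orders x).elim Or.inl (fun h => Or.inr (Or.inl h))) d

/-! ### `GL₃(F₂)` -/

abbrev M3 := Matrix (Fin 3) (Fin 3) (ZMod 2)
abbrev PX := M3ˣ

theorem F_PX (d : ℕ) (hd : d ≠ 0) :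
    F PX d = (Finset.univ.filter (fun m : M3 => m ^ d = 1)).card := by
  unfold F
  rw [← Fintype.card_subtype, ← Nat.card_eq_fintype_card]
  obtain ⟨e, rfl⟩ := Nat.exists_eq_succ_of_ne_zero hd
  apply Nat.card_congr
  refine ⟨fun u => ⟨u.1.1, ?_⟩, fun m => ⟨⟨m.1, m.1 ^ e, ?_, ?_⟩, ?_⟩, ?_, ?_⟩
  · have := congrArg Units.val u.2
    simpa using this
  · rw [← pow_succ']; exact m.2
  · rw [← pow_succ]; exact m.2
  · apply Units.ext
    simpa using m.2
  · intro u
    apply Subtype.ext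
    apply Units.ext
    rfl
  · intro m
    rfl

theorem F_P1 : F PX 1 = 1 := by rw [F_PX _ (by norm_num)]; decide +kernel
theorem F_P2 : F PX 2 = 22 := by rw [F_PX _ (by norm_num)]; decide +kernel
theorem F_P3 : F PX 3 = 57 := by rw [F_PX _ (by norm_num)]; decide +kernel
theorem F_P4 : F PX 4 = 64 := by rw [F_PX _ (by norm_num)]; decide +kernel
theorem F_P7 : F PX 7 = 49 := by rw [F_PX _ (by norm_num)]; decide +kernel

def det3 (m : M3) : ZMod 2 :=
  m 0 0 * m 1 1 * m 2 2 - m 0 0 * m 1 2 * m 2 1 - m 0 1 * m 1 0 * m 2 2 +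
    m 0 1 * m 1 2 * m 2 0 + m 0 2 * m 1 0 * m 2 1 - m 0 2 * m 1 1 * m 2 0

theorem M3_orders : ∀ m : M3, det3 m = 0 ∨ m ^ 4 = 1 ∨ m ^ 3 = 1 ∨ m ^ 7 = 1 := by decide +kernel

theorem PX_orders (u : PX) : u ^ 4 = 1 ∨ u ^ 3 = 1 ∨ u ^ 7 = 1 := by
  have h1 : det3 u.1 ≠ 0 := by
    have h2 : IsUnit (u.1.det) := (Matrix.isUnit_iff_isUnit_det _).mp u.isUnit
    have h3 : u.1.det = det3 u.1 := by
      rw [Matrix.det_fin_three]
      rfl
    rw [← h3]
    exact h2.ne_zero
  rcases M3_orders u.1 with h | h | h | h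
  · exact absurd h h1
  · exact Or.inl (Units.ext (by simpa using h))
  · exact Or.inr (Or.inl (Units.ext (by simpa using h)))
  · exact Or.inr (Or.inr (Units.ext (by simpa using h)))

theorem exp_PX (x : PX) : x ^ 84 = 1 := by
  rcases PX_orders x with h | h | h
  · have : (84 : ℕ) = 4 * 21 := by norm_num
    rw [this, pow_mul, h, one_pow]
  · have : (84 : ℕ) = 3 * 28 := by norm_num
    rw [this, pow_mul, h, one_pow]
  · have : (84 : ℕ) = 7 * 12 := by norm_num
    rw [this, pow_mul, h, one_pow]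

theorem F_PX_split (d : ℕ) : F PX d + 2 = F PX (Nat.gcd d 4) + F PX (Nat.gcd d 3) + F PX (Nat.gcd d 7) :=
  F_split PX 4 3 7 (by norm_num) (by norm_num) (by norm_num) PX_orders d

/-- A nonempty subset of elements, each a commutator of two of its elements, obstructs solvability. -/
theorem not_solvable_of_subset {X : Type} [Group X] (S : Set X) (h : ∀ x ∈ S, ∃ a ∈ S, ∃ b ∈ S, x = a * b * a⁻¹ * b⁻¹)
    (y : X) (hy : y ∈ S) (hy1 : y ≠ 1) : ¬ Group.IsSolvable X := by
  intro hs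
  obtain ⟨n, hn⟩ := hs.solvable
  have key : ∀ m, ∀ x ∈ S, x ∈ derivedSeries X m := by
    intro m
    induction m with
    | zero => intro x _; trivial
    | succ m ih =>
      intro x hx
      rw [derivedSeries_succ]
      obtain ⟨a, ha, b, hb, rfl⟩ := h x hx
      exact Subgroup.commutator_mem_commutator (ih a ha) (ih b hb)
  have := key n y hy
  rw [hn] at this
  exact hy1 this

def e0 : PX := ⟨!![0,0,1;0,1,0;1,0,0], !![0,0,1;0,1,0;1,0,0], by decide +kernel, by decide +kernel⟩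
def e1 : PX := ⟨!![0,1,1;0,0,1;1,1,0], !![1,1,1;1,1,0;0,1,0], by decide +kernel, by decide +kernel⟩
def e2 : PX := ⟨!![0,1,1;0,1,0;1,1,0], !![0,1,1;0,1,0;1,1,0], by decide +kernel, by decide +kernel⟩
def e3 : PX := ⟨!![1,0,0;1,0,1;0,1,1], !![1,0,0;1,1,1;1,1,0], by decide +kernel, by decide +kernel⟩
def e4 : PX := ⟨!![1,0,0;1,1,1;0,0,1], !![1,0,0;1,1,1;0,0,1], by decide +kernel, by decide +kernel⟩

theorem not_solvable_PX : ¬ Group.IsSolvable PX := by
  refine not_solvable_of_subset ({e0, e1, e2, e3, e4} : Set PX) ?_ e0 (by simp) ?_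
  · intro x hx
    simp only [Set.mem_insert_iff, Set.mem_singleton_iff] at hx
    rcases hx with rfl | rfl | rfl | rfl | rfl
    · exact ⟨e2, by simp, e4, by simp, Units.ext (by decide +kernel)⟩
    · exact ⟨e2, by simp, e1, by simp, Units.ext (by decide +kernel)⟩
    · exact ⟨e0, by simp, e3, by simp, Units.ext (by decide +kernel)⟩
    · exact ⟨e4, by simp, e3, by simp, Units.ext (by decide +kernel)⟩
    · exact ⟨e0, by simp, e1, by simp, Units.ext (by decide +kernel)⟩
  · intro h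
    have := congrArg Units.val h
    revert this
    decide +kernel

/-! ### Tables and the final count -/

inductive Base where
  | c2 | c3 | c4 | c7 | s3 | d4c | d4v | d7 | dic7 | f42 | f21 | agl
  deriving DecidableEq

def Base.toB : Base → B
  | .c2 => bC2 | .c3 => bC3 | .c4 => bC4 | .c7 => bC7 | .s3 => bS3 | .d4c => bD4c | .d4v => bD4v
  | .d7 => bD7 | .dic7 => bDic7 | .f42 => bF42 | .f21 => bF21 | .agl => bAgl

def dlist : List ℕ := [1, 2, 3, 4, 6, 7, 12, 14, 21, 28, 42, 84]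

def tabRow : Base → Bool → List ℕ
  | .c2, false => [1, 1, 1, 1, 1, 1, 1, 1, 1, 1, 1, 1]
  | .c2, true => [0, 1, 0, 1, 1, 0, 1, 1, 0, 1, 1, 1]
  | .c3, false => [1, 1, 3, 1, 3, 1, 3, 1, 3, 1, 3, 3]
  | .c3, true => [0, 0, 0, 0, 0, 0, 0, 0, 0, 0, 0, 0]
  | .c4, false => [1, 2, 1, 2, 2, 1, 2, 2, 1, 2, 2, 2]
  | .c4, true => [0, 0, 0, 2, 0, 0, 2, 0, 0, 2, 0, 2]
  | .c7, false => [1, 1, 1, 1, 1, 7, 1, 7, 7, 7, 7, 7]
  | .c7, true => [0, 0, 0, 0, 0, 0, 0, 0, 0, 0, 0, 0]
  | .s3, false => [1, 1, 3, 1, 3, 1, 3, 1, 3, 1, 3, 3]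
  | .s3, true => [0, 3, 0, 3, 3, 0, 3, 3, 0, 3, 3, 3]
  | .d4c, false => [1, 2, 1, 4, 2, 1, 4, 2, 1, 4, 2, 4]
  | .d4c, true => [0, 4, 0, 4, 4, 0, 4, 4, 0, 4, 4, 4]
  | .d4v, false => [1, 4, 1, 4, 4, 1, 4, 4, 1, 4, 4, 4]
  | .d4v, true => [0, 2, 0, 4, 2, 0, 4, 2, 0, 4, 2, 4]
  | .d7, false => [1, 1, 1, 1, 1, 7, 1, 7, 7, 7, 7, 7]
  | .d7, true => [0, 7, 0, 7, 7, 0, 7, 7, 0, 7, 7, 7]
  | .dic7, false => [1, 2, 1, 2, 2, 7, 2, 14, 7, 14, 14, 14]
  | .dic7, true => [0, 0, 0, 14, 0, 0, 14, 0, 0, 14, 0, 14]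
  | .f42, false => [1, 1, 15, 1, 15, 7, 15, 7, 21, 7, 21, 21]
  | .f42, true => [0, 7, 0, 7, 21, 0, 21, 7, 0, 7, 21, 21]
  | .f21, false => [1, 1, 15, 1, 15, 7, 15, 7, 21, 7, 21, 21]
  | .f21, true => [0, 0, 0, 0, 0, 0, 0, 0, 0, 0, 0, 0]
  | .agl, false => [1, 8, 57, 8, 120, 49, 120, 56, 105, 56, 168, 168]
  | .agl, true => [0, 0, 0, 0, 0, 0, 0, 0, 0, 0, 0, 0]

def tab (b : Base) (q : Bool) (d : ℕ) : ℕ :=
  ((dlist.zip (tabRow b q)).lookup d).getD 0

def qOf : Bool → Q2
  | false => 1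
  | true => g2

theorem T_filter (X : Type) [Group X] [Fintype X] [DecidableEq X] (α : X →* Q2) (q : Q2) (d : ℕ) :
    Nat.card {x : X // α x = q ∧ x ^ d = 1} = (Finset.univ.filter (fun x : X => α x = q ∧ x ^ d = 1)).card := by
  rw [Nat.card_eq_fintype_card, Fintype.card_subtype]

theorem T_c2 : ∀ q : Bool, ∀ d ∈ dlist, (Finset.univ.filter (fun x : XC2 => alphaI 2 1 0 0 _ _ _ (by decide) x = qOf q ∧ x ^ d = 1)).card = tab .c2 q d := by decide +kernel
theorem T_c3 : ∀ q : Bool, ∀ d ∈ dlist, (Finset.univ.filter (fun x : XC3 => (1 : XC3 →* Q2) x = qOf q ∧ x ^ d = 1)).card = tab .c3 q d := by decide +kernel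
theorem T_c4 : ∀ q : Bool, ∀ d ∈ dlist, (Finset.univ.filter (fun x : XC4 => alphaI 4 1 0 0 _ _ _ (by decide) x = qOf q ∧ x ^ d = 1)).card = tab .c4 q d := by decide +kernel
theorem T_c7 : ∀ q : Bool, ∀ d ∈ dlist, (Finset.univ.filter (fun x : XC7 => (1 : XC7 →* Q2) x = qOf q ∧ x ^ d = 1)).card = tab .c7 q d := by decide +kernel
theorem T_s3 : ∀ q : Bool, ∀ d ∈ dlist, (Finset.univ.filter (fun x : XS3 => alphaI 2 3 2 2 _ _ _ (by decide) x = qOf q ∧ x ^ d = 1)).card = tab .s3 q d := by decide +kernel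
theorem T_d4c : ∀ q : Bool, ∀ d ∈ dlist, (Finset.univ.filter (fun x : XD4 => alphaI 2 4 3 3 _ _ _ (by decide) x = qOf q ∧ x ^ d = 1)).card = tab .d4c q d := by decide +kernel
theorem T_d4v : ∀ q : Bool, ∀ d ∈ dlist, (Finset.univ.filter (fun x : XD4 => alphaV x = qOf q ∧ x ^ d = 1)).card = tab .d4v q d := by decide +kernel
theorem T_d7 : ∀ q : Bool, ∀ d ∈ dlist, (Finset.univ.filter (fun x : XD7 => alphaI 2 7 6 6 _ _ _ (by decide) x = qOf q ∧ x ^ d = 1)).card = tab .d7 q d := by decide +kernel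
theorem T_dic7 : ∀ q : Bool, ∀ d ∈ dlist, (Finset.univ.filter (fun x : XDic7 => alphaI 4 7 6 6 _ _ _ (by decide) x = qOf q ∧ x ^ d = 1)).card = tab .dic7 q d := by decide +kernel
theorem T_f42 : ∀ q : Bool, ∀ d ∈ dlist, (Finset.univ.filter (fun x : XF42 => alphaI 6 7 3 5 _ _ _ (by decide) x = qOf q ∧ x ^ d = 1)).card = tab .f42 q d := by decide +kernel
theorem T_f21 : ∀ q : Bool, ∀ d ∈ dlist, (Finset.univ.filter (fun x : XF21 => (1 : XF21 →* Q2) x = qOf q ∧ x ^ d = 1)).card = tab .f21 q d := by decide +kernel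

theorem T_agl_true (d : ℕ) : T bAgl g2 d = 0 := by
  unfold T
  have : IsEmpty {x : bAgl.X // bAgl.α x = g2 ∧ x ^ d = 1} := ⟨fun x => by
    have h : (1 : Q2) = g2 := x.2.1
    exact absurd h (by decide)⟩
  exact Nat.card_of_isEmpty

theorem T_agl_false (d : ℕ) : T bAgl 1 d = F XAgl d := by
  unfold T F
  apply Nat.card_congr
  exact ⟨fun x => ⟨x.1, x.2.2⟩, fun x => ⟨x.1, rfl, x.2⟩, fun x => rfl, fun x => rfl⟩

theorem Fagl_4 : F XAgl 4 = 8 := by
  have h := F_agl 4
  rw [show Nat.gcd 4 6 = 2 from by norm_num, show Nat.gcd 4 7 = 1 from by norm_num, show Nat.gcd 4 1 = 1 from by norm_num] at h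
  simp only [F_agl_1, F_agl_2, F_agl_3, F_agl_6, F_agl_7] at h
  omega

theorem Fagl_12 : F XAgl 12 = 120 := by
  have h := F_agl 12
  rw [show Nat.gcd 12 6 = 6 from by norm_num, show Nat.gcd 12 7 = 1 from by norm_num, show Nat.gcd 12 1 = 1 from by norm_num] at h
  simp only [F_agl_1, F_agl_2, F_agl_3, F_agl_6, F_agl_7] at h
  omega

theorem Fagl_14 : F XAgl 14 = 56 := by
  have h := F_agl 14
  rw [show Nat.gcd 14 6 = 2 from by norm_num, show Nat.gcd 14 7 = 7 from by norm_num, show Nat.gcd 14 1 = 1 from by norm_num] at h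
  simp only [F_agl_1, F_agl_2, F_agl_3, F_agl_6, F_agl_7] at h
  omega

theorem Fagl_21 : F XAgl 21 = 105 := by
  have h := F_agl 21
  rw [show Nat.gcd 21 6 = 3 from by norm_num, show Nat.gcd 21 7 = 7 from by norm_num, show Nat.gcd 21 1 = 1 from by norm_num] at h
  simp only [F_agl_1, F_agl_2, F_agl_3, F_agl_6, F_agl_7] at h
  omega

theorem Fagl_28 : F XAgl 28 = 56 := by
  have h := F_agl 28
  rw [show Nat.gcd 28 6 = 2 from by norm_num, show Nat.gcd 28 7 = 7 from by norm_num, show Nat.gcd 28 1 = 1 from by norm_num] at h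
  simp only [F_agl_1, F_agl_2, F_agl_3, F_agl_6, F_agl_7] at h
  omega

theorem Fagl_42 : F XAgl 42 = 168 := by
  have h := F_agl 42
  rw [show Nat.gcd 42 6 = 6 from by norm_num, show Nat.gcd 42 7 = 7 from by norm_num, show Nat.gcd 42 1 = 1 from by norm_num] at h
  simp only [F_agl_1, F_agl_2, F_agl_3, F_agl_6, F_agl_7] at h
  omega

theorem Fagl_84 : F XAgl 84 = 168 := by
  have h := F_agl 84
  rw [show Nat.gcd 84 6 = 6 from by norm_num, show Nat.gcd 84 7 = 7 from by norm_num, show Nat.gcd 84 1 = 1 from by norm_num] at h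
  simp only [F_agl_1, F_agl_2, F_agl_3, F_agl_6, F_agl_7] at h
  omega



theorem F_agl_val : ∀ d ∈ dlist, F XAgl d = tab .agl false d := by
  intro d hd
  simp only [dlist, List.mem_cons, List.not_mem_nil, or_false] at hd
  rcases hd with rfl | rfl | rfl | rfl | rfl | rfl | rfl | rfl | rfl | rfl | rfl | rfl
  · exact F_agl_1
  · exact F_agl_2
  · exact F_agl_3
  · exact Fagl_4
  · exact F_agl_6
  · exact F_agl_7
  · exact Fagl_12
  · exact Fagl_14
  · exact Fagl_21
  · exact Fagl_28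
  · exact Fagl_42
  · exact Fagl_84

theorem FP_6 : F PX 6 = 78 := by
  have h := F_PX_split 6
  rw [show Nat.gcd 6 4 = 2 from by norm_num, show Nat.gcd 6 3 = 3 from by norm_num, show Nat.gcd 6 7 = 1 from by norm_num] at h
  simp only [F_P1, F_P2, F_P3, F_P4, F_P7] at h
  omega

theorem FP_12 : F PX 12 = 120 := by
  have h := F_PX_split 12
  rw [show Nat.gcd 12 4 = 4 from by norm_num, show Nat.gcd 12 3 = 3 from by norm_num, show Nat.gcd 12 7 = 1 from by norm_num] at h
  simp only [F_P1, F_P2, F_P3, F_P4, F_P7] at h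
  omega

theorem FP_14 : F PX 14 = 70 := by
  have h := F_PX_split 14
  rw [show Nat.gcd 14 4 = 2 from by norm_num, show Nat.gcd 14 3 = 1 from by norm_num, show Nat.gcd 14 7 = 7 from by norm_num] at h
  simp only [F_P1, F_P2, F_P3, F_P4, F_P7] at h
  omega

theorem FP_21 : F PX 21 = 105 := by
  have h := F_PX_split 21
  rw [show Nat.gcd 21 4 = 1 from by norm_num, show Nat.gcd 21 3 = 3 from by norm_num, show Nat.gcd 21 7 = 7 from by norm_num] at h
  simp only [F_P1, F_P2, F_P3, F_P4, F_P7] at h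
  omega

theorem FP_28 : F PX 28 = 112 := by
  have h := F_PX_split 28
  rw [show Nat.gcd 28 4 = 4 from by norm_num, show Nat.gcd 28 3 = 1 from by norm_num, show Nat.gcd 28 7 = 7 from by norm_num] at h
  simp only [F_P1, F_P2, F_P3, F_P4, F_P7] at h
  omega

theorem FP_42 : F PX 42 = 126 := by
  have h := F_PX_split 42
  rw [show Nat.gcd 42 4 = 2 from by norm_num, show Nat.gcd 42 3 = 3 from by norm_num, show Nat.gcd 42 7 = 7 from by norm_num] at h
  simp only [F_P1, F_P2, F_P3, F_P4, F_P7] at h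
  omega

theorem FP_84 : F PX 84 = 168 := by
  have h := F_PX_split 84
  rw [show Nat.gcd 84 4 = 4 from by norm_num, show Nat.gcd 84 3 = 3 from by norm_num, show Nat.gcd 84 7 = 7 from by norm_num] at h
  simp only [F_P1, F_P2, F_P3, F_P4, F_P7] at h
  omega



def tabP (d : ℕ) : ℕ := ((dlist.zip [1, 22, 57, 64, 78, 49, 120, 70, 105, 112, 126, 168]).lookup d).getD 0

theorem F_PX_val : ∀ d ∈ dlist, F PX d = tabP d := by
  intro d hd
  simp only [dlist, List.mem_cons, List.not_mem_nil, or_false] at hd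
  rcases hd with rfl | rfl | rfl | rfl | rfl | rfl | rfl | rfl | rfl | rfl | rfl | rfl
  · exact F_P1
  · exact F_P2
  · exact F_P3
  · exact F_P4
  · exact FP_6
  · exact F_P7
  · exact FP_12
  · exact FP_14
  · exact FP_21
  · exact FP_28
  · exact FP_42
  · exact FP_84

theorem T_base (b : Base) (q : Bool) (d : ℕ) (hd : d ∈ dlist) : T b.toB (qOf q) d = tab b q d := by
  cases b
  · exact (T_filter XC2 _ _ _).trans (T_c2 q d hd)
  · exact (T_filter XC3 _ _ _).trans (T_c3 q d hd)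
  · exact (T_filter XC4 _ _ _).trans (T_c4 q d hd)
  · exact (T_filter XC7 _ _ _).trans (T_c7 q d hd)
  · exact (T_filter XS3 _ _ _).trans (T_s3 q d hd)
  · exact (T_filter XD4 _ _ _).trans (T_d4c q d hd)
  · exact (T_filter XD4 _ _ _).trans (T_d4v q d hd)
  · exact (T_filter XD7 _ _ _).trans (T_d7 q d hd)
  · exact (T_filter XDic7 _ _ _).trans (T_dic7 q d hd)
  · exact (T_filter XF42 _ _ _).trans (T_f42 q d hd)
  · exact (T_filter XF21 _ _ _).trans (T_f21 q d hd)
  · cases q
    · exact (T_agl_false d).trans (F_agl_val d hd)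
    · refine (T_agl_true d).trans ?_
      simp only [dlist, List.mem_cons, List.not_mem_nil, or_false] at hd
      rcases hd with rfl | rfl | rfl | rfl | rfl | rfl | rfl | rfl | rfl | rfl | rfl | rfl <;> rfl

def mkB : Base → List Base → B
  | b, [] => b.toB
  | b, c :: L => b.toB.fib (mkB c L)

def tabT (t : Base × List Base) (q : Bool) (d : ℕ) : ℕ :=
  tab t.1 q d * (t.2.map (fun b => tab b q d)).prod

theorem T_mkB (L : List Base) (b : Base) (q : Bool) (d : ℕ) (hd : d ∈ dlist) :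
    T (mkB b L) (qOf q) d = tabT (b, L) q d := by
  induction L generalizing b with
  | nil =>
    show T b.toB (qOf q) d = tab b q d * 1
    rw [T_base b q d hd, mul_one]
  | cons c L ih =>
    show T (b.toB.fib (mkB c L)) (qOf q) d = tab b q d * (tab c q d * (L.map (fun b => tab b q d)).prod)
    rw [T_fib, T_base b q d hd, ih c]
    rfl

abbrev Spec := List ((Base × List Base) × ℕ)

def mkL (L : Spec) : List (B × ℕ) := L.map (fun p => (mkB p.1.1 p.1.2, p.2))

def valL (L : Spec) (d : ℕ) : ℕ := (L.map (fun p => (tabT p.1 false d + tabT p.1 true d) ^ p.2)).prod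

theorem F_mkL (L : Spec) (d : ℕ) (hd : d ∈ dlist) : F (R.ofList (mkL L)).X d = valL L d := by
  rw [F_ofList]
  induction L with
  | nil => rfl
  | cons p L ih =>
    show F (mkB p.1.1 p.1.2).X d ^ p.2 * ((mkL L).map (fun p => F p.1.X d ^ p.2)).prod =
      (tabT p.1 false d + tabT p.1 true d) ^ p.2 * valL L d
    rw [ih, F_eq_add]
    have h1 := T_mkB p.1.2 p.1.1 false d hd
    have h2 := T_mkB p.1.2 p.1.1 true d hd
    have e1 : (1 : Q2) = qOf false := rfl
    have e2 : g2 = qOf true := rfl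
    rw [e1, e2, h1, h2]

def Glist : Spec := [((.c4, []), 23), ((.c7, []), 2), ((.s3, [.s3]), 6), ((.s3, [.d4v]), 6), ((.f42, []), 18), ((.d4c, [.d7]), 4), ((.s3, [.s3, .d4v]), 6), ((.d7, [.d7]), 4), ((.agl, []), 6), ((.d4v, [.d4v, .d7]), 6), ((.s3, [.s3, .dic7]), 12), ((.dic7, [.f42]), 2), ((.d4v, [.d4v, .d4v, .d4v, .d4v, .d7]), 6)]
def Hlist : Spec := [((.c2, []), 31), ((.c3, []), 6), ((.d4v, []), 4), ((.d7, []), 3), ((.f21, []), 8), ((.dic7, []), 19), ((.d4v, [.d4v]), 6), ((.c4, [.s3, .s3]), 12), ((.c4, [.f42]), 6), ((.s3, [.s3, .d7]), 6), ((.d7, [.f42]), 6), ((.s3, [.s3, .d4v, .d7]), 6), ((.d4v, [.d4v, .d4v, .d4v, .d4v]), 6)]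

theorem numeric : ∀ d ∈ dlist, valL Glist d = tabP d ^ 6 * valL Hlist d := by decide +kernel

theorem dvd_mem : ∀ m < 85, m ∣ 84 → m ∈ dlist := by decide

def XG : Type := (R.ofList (mkL Glist)).X
def XH : Type := (Fin 6 → PX) × (R.ofList (mkL Hlist)).X

instance : Group XG := (R.ofList (mkL Glist)).grp
instance : Finite XG := (R.ofList (mkL Glist)).fin
instance : Group XH := inferInstanceAs (Group ((Fin 6 → PX) × (R.ofList (mkL Hlist)).X))
instance : Finite XH := inferInstanceAs (Finite ((Fin 6 → PX) × (R.ofList (mkL Hlist)).X))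

theorem F_same (n : ℕ) : F XG n = F XH n := by
  have hG : ∀ x : XG, x ^ 84 = 1 := (R.ofList (mkL Glist)).exp84
  have hH : ∀ x : XH, x ^ 84 = 1 := by
    rintro ⟨x, y⟩
    show (x ^ 84, y ^ 84) = (1, 1)
    have h1 : x ^ 84 = 1 := by
      funext i
      exact exp_PX (x i)
    rw [h1, (R.ofList (mkL Hlist)).exp84 y]
  rw [F_gcd XG 84 hG n, F_gcd XH 84 hH n]
  set m := Nat.gcd n 84 with hm
  have hmd : m ∣ 84 := Nat.gcd_dvd_right n 84
  have hmem : m ∈ dlist := dvd_mem m (Nat.lt_of_le_of_lt (Nat.le_of_dvd (by norm_num) hmd) (by norm_num)) hmd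
  have h1 : F XG m = valL Glist m := F_mkL Glist m hmem
  have h2 : F XH m = F (Fin 6 → PX) m * F (R.ofList (mkL Hlist)).X m := F_prod _ _ m
  rw [h1, h2, F_pi, F_PX_val m hmem, F_mkL Hlist m hmem]
  exact numeric m hmem

theorem solv_G : Group.IsSolvable XG := (R.ofList (mkL Glist)).solv

theorem not_solv_H : ¬ Group.IsSolvable XH := by
  intro h
  haveI := h
  let f : PX →* XH := MonoidHom.mk' (fun p => ((fun _ => p), 1)) (fun a b => by
    apply Prod.ext
    · rfl
    · exact (mul_one (1 : (R.ofList (mkL Hlist)).X)).symm)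
  have hf : Function.Injective f := by
    intro a b hab
    have := congrArg Prod.fst hab
    exact congrFun this 0
  exact not_solvable_PX (Group.isSolvable_of_isSolvable_injective hf)


/-- There are finite groups G and H having the same number of elements of each order (the same order type) with G solvable and H not solvable. -/
theorem result :
    ∃ (G : Type) (_ : Group G) (_ : Finite G) (H : Type) (_ : Group H) (_ : Finite H),
      Group.IsSolvable G ∧ ¬ Group.IsSolvable H ∧ ∀ n : ℕ, Nat.card {g : G // orderOf g = n} = Nat.card {h : H // orderOf h = n} := by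
  refine ⟨XG, inferInstance, inferInstance, XH, inferInstance, inferInstance, solv_G, not_solv_H, ?_⟩
  exact (Cfsg.Agent.S4377.result (G := XG) (H := XH)).mpr F_same

end Cfsg.Agent.S4376
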