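import Cfsg.Statements.S4383
import Cfsg.Agent.Lib.TwoMaxClass

set_option autoImplicit false
set_option linter.all false
open Pointwise
open Cfsg

namespace Cfsg.Agent.S4383


open Cfsg.Agent.Lib.TwoMaxClass in
theorem le_of_card_dvd_cyclic' {G : Type*} [Group G] [Finite G] [IsCyclic G] (A B : Subgroup G)
    (h : Nat.card A ∣ Nat.card B) : A ≤ B := by
  classical
  haveI := Fintype.ofFinite G
  intro x hx
  have hx1 : x ^ Nat.card B = 1 := by
    obtain ⟨k, hk⟩ := h
    have : x ^ Nat.card A = 1 := by
      have h := congrArg Subtype.val (pow_card_eq_one' (G := A) (x := ⟨x, hx⟩))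
      exact h
    rw [hk, pow_mul, this, one_pow]
  have hle := IsCyclic.card_pow_eq_one_le (α := G) (n := Nat.card B) Nat.card_pos
  let F : Finset G := Finset.univ.filter (fun a : G => a ^ Nat.card B = 1)
  let B' : Finset G := Finset.univ.filter (fun a : G => a ∈ B)
  have hsub : B' ⊆ F := by
    intro y hy
    simp only [B', Finset.mem_filter, Finset.mem_univ, true_and] at hy
    simp only [F, Finset.mem_filter, Finset.mem_univ, true_and]
    have h := congrArg Subtype.val (pow_card_eq_one' (G := B) (x := ⟨y, hy⟩))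
    exact h
  have hcardB : B'.card = Nat.card B := by
    rw [Nat.card_eq_fintype_card]
    rw [Fintype.card_subtype]
  have hEq : B' = F := Finset.eq_of_subset_of_card_le hsub (by rw [hcardB]; exact hle)
  have : x ∈ F := Finset.mem_filter.2 ⟨Finset.mem_univ _, hx1⟩
  rw [← hEq] at this
  simpa [B'] using this


/-- A finite group with exactly two conjugacy classes of maximal subgroups is solvable and its order has exactly two prime divisors. -/
theorem result {G : Type*} [Group G] [Finite G]
    (M₁ M₂ : Subgroup G) (h1 : IsCoatom M₁) (h2 : IsCoatom M₂) (hne : ∀ g : G, M₂ ≠ MulAut.conj g • M₁)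
    (hall : ∀ M : Subgroup G, IsCoatom M → ∃ g : G, M = MulAut.conj g • M₁ ∨ M = MulAut.conj g • M₂) :
    Group.IsSolvable G ∧ (Nat.card G).primeFactors.card = 2 := by
  classical
  have hallS : Group.IsSolvable G :=
    Cfsg.Agent.Lib.TwoMaxClass.solvable_of_two _ G M₁ M₂ rfl hall
  refine ⟨hallS, ?_⟩
  haveI := hallS
  have hne1 : Nat.card G ≠ 1 := by
    intro h
    haveI : Subsingleton G := (Nat.card_eq_one_iff_unique.1 h).1
    exact h1.1 (Subsingleton.elim _ _)
  have hG0 : Nat.card G ≠ 0 := Nat.card_pos.ne'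
  have hle : (Nat.card G).primeFactors.card ≤ 2 := by
    have hsub : (Nat.card G).primeFactors ⊆ {M₁.index.minFac, M₂.index.minFac} := by
      intro p hp
      have hpp := Nat.prime_of_mem_primeFactors hp
      have hpd := Nat.dvd_of_mem_primeFactors hp
      haveI : Fact p.Prime := ⟨hpp⟩
      obtain ⟨e, n, hpn, hen⟩ := Nat.exists_eq_pow_mul_and_not_dvd hG0 p hpp.ne_one
      have he0 : e ≠ 0 := by
        rintro rfl
        rw [pow_zero, one_mul] at hen
        exact hpn (hen ▸ hpd)
      have hcop : n.Coprime (p ^ e) :=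
        Nat.Coprime.pow_right e ((Nat.Prime.coprime_iff_not_dvd hpp).2 hpn).symm
      obtain ⟨K, hK⟩ := Cfsg.Agent.Lib.Hall.hall_exists _ G n (p ^ e) rfl (by rw [hen]; ring) hcop
      have hKi : K.index = p ^ e := by
        have h := Subgroup.card_mul_index K
        rw [hK, hen] at h
        have hn0 : 0 < n := by
          rcases Nat.eq_zero_or_pos n with h0 | h0
          · exact absurd (by simp [h0]) hpn
          · exact h0
        have : n * K.index = n * p ^ e := by rw [h]; ring
        exact Nat.eq_of_mul_eq_mul_left hn0 this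
      have hKne : K ≠ ⊤ := by
        intro h
        rw [h, Subgroup.index_top] at hKi
        have : 1 < p ^ e := Nat.one_lt_pow he0 hpp.one_lt
        omega
      obtain ⟨M, hM, hKM⟩ := (eq_top_or_exists_le_coatom K).resolve_left hKne
      have hMd : M.index ∣ p ^ e := hKi ▸ Subgroup.index_dvd_of_le hKM
      obtain ⟨j, -, hj⟩ := (Nat.dvd_prime_pow hpp).1 hMd
      have hj0 : j ≠ 0 := by
        rintro rfl
        rw [pow_zero] at hj
        exact hM.1 (Subgroup.index_eq_one.1 hj)
      have hmin : M.index.minFac = p := by rw [hj]; exact Nat.Prime.pow_minFac hpp hj0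
      obtain ⟨g, hg | hg⟩ := hall M hM
      · have : M.index = M₁.index := by rw [hg]; exact Cfsg.Agent.Lib.TwoMaxClass.index_conjS g M₁
        rw [this] at hmin
        simp [hmin]
      · have : M.index = M₂.index := by rw [hg]; exact Cfsg.Agent.Lib.TwoMaxClass.index_conjS g M₂
        rw [this] at hmin
        simp [hmin]
    exact (Finset.card_le_card hsub).trans Finset.card_le_two
  have hge : 2 ≤ (Nat.card G).primeFactors.card := by
    by_contra hlt
    have hcases : (Nat.card G).primeFactors.card = 0 ∨ (Nat.card G).primeFactors.card = 1 := by omega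
    rcases hcases with h0 | h0
    · rw [Finset.card_eq_zero, Nat.primeFactors_eq_empty] at h0
      omega
    obtain ⟨p, hp⟩ := Finset.card_eq_one.1 h0
    have hpp : p.Prime := Nat.prime_of_mem_primeFactors (hp ▸ Finset.mem_singleton_self p)
    haveI : Fact p.Prime := ⟨hpp⟩
    have hpow := Nat.eq_prime_pow_of_unique_prime_dvd hG0 (p := p) (fun {d} hd hdv => by
      have : d ∈ (Nat.card G).primeFactors := Nat.mem_primeFactors.2 ⟨hd, hdv, hG0⟩
      rw [hp] at this
      exact Finset.mem_singleton.1 this)
    have hGp : IsPGroup p G := IsPGroup.of_card hpow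
    haveI : Group.IsNilpotent G := hGp.isNilpotent
    have hnorm : ∀ M : Subgroup G, IsCoatom M → M.Normal :=
      ((Group.isNilpotent_of_finite_tfae (G := G)).out 0 2 rfl rfl).1 ‹_›
    have hn1 := hnorm M₁ h1
    have hn2 := hnorm M₂ h2
    have hne12 : M₂ ≠ M₁ := by
      intro h
      apply hne 1
      rw [h]; simp
    have hnl1 : ¬ M₁ ≤ M₂ := fun h => by
      rcases eq_or_lt_of_le h with he | hl
      · exact hne12 he.symm
      · exact h2.1 (h1.2 _ hl)
    have hnl2 : ¬ M₂ ≤ M₁ := fun h => by
      rcases eq_or_lt_of_le h with he | hl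
      · exact hne12 he
      · exact h1.1 (h2.2 _ hl)
    obtain ⟨a, ha1, ha2⟩ := SetLike.not_le_iff_exists.1 hnl1
    obtain ⟨b, hb2, hb1⟩ := SetLike.not_le_iff_exists.1 hnl2
    have hc1 : a * b ∉ M₁ := fun h => hb1 ((Subgroup.mul_mem_cancel_left _ ha1).1 h)
    have hc2 : a * b ∉ M₂ := fun h => ha2 ((Subgroup.mul_mem_cancel_right _ hb2).1 h)
    have hcyc : Subgroup.zpowers (a * b) = ⊤ := by
      by_contra hne'
      obtain ⟨M, hM, hle'⟩ := (eq_top_or_exists_le_coatom (Subgroup.zpowers (a * b))).resolve_left hne'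
      have hab : a * b ∈ M := hle' (Subgroup.mem_zpowers _)
      obtain ⟨g, hg | hg⟩ := hall M hM
      · rw [hg, Subgroup.Normal.conj_smul_eq_self] at hab
        exact hc1 hab
      · rw [hg, Subgroup.Normal.conj_smul_eq_self] at hab
        exact hc2 hab
    haveI : IsCyclic G := ⟨a * b, fun x => by
      have : x ∈ Subgroup.zpowers (a * b) := by rw [hcyc]; trivial
      exact this⟩
    obtain ⟨i, hi⟩ := IsPGroup.iff_card.1 (hGp.to_subgroup M₁)
    obtain ⟨j, hj⟩ := IsPGroup.iff_card.1 (hGp.to_subgroup M₂)
    rcases le_total i j with hij | hij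
    · exact hnl1 (le_of_card_dvd_cyclic' M₁ M₂ (by rw [hi, hj]; exact pow_dvd_pow p hij))
    · exact hnl2 (le_of_card_dvd_cyclic' M₂ M₁ (by rw [hi, hj]; exact pow_dvd_pow p hij))
  omega

end Cfsg.Agent.S4383
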