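import Cfsg.Statements.S4387
import Cfsg.Agent.Lib.H7Basic

set_option autoImplicit false
set_option linter.all false
open Pointwise
open Cfsg

namespace Cfsg.Agent.S4387

/-- Let G be a non-trivial finite group in which any two maximal subgroups are conjugate. Then G is cyclic of prime-power order. -/
theorem result {G : Type*} [Group G] [Finite G] [Nontrivial G]
    (h : ∀ M N : Subgroup G, IsCoatom M → IsCoatom N → ∃ g : G, N = MulAut.conj g • M) :
    IsCyclic G ∧ IsPrimePow (Nat.card G) := by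
  classical
  obtain ⟨M, hM⟩ : ∃ M : Subgroup G, IsCoatom M := by
    obtain h | ⟨M, hM, -⟩ := eq_top_or_exists_le_coatom (⊥ : Subgroup G)
    · exact absurd h bot_ne_top
    · exact ⟨M, hM⟩
  obtain ⟨x, hx⟩ := Cfsg.Agent.Lib.H7Basic.exists_forall_notMem_conj M hM.1
  -- `x` generates `G`
  have htop : Subgroup.zpowers x = ⊤ := by
    by_contra hne
    obtain h | ⟨N, hN, hle⟩ := eq_top_or_exists_le_coatom (Subgroup.zpowers x)
    · exact hne h
    · obtain ⟨g, hg⟩ := h M N hM hN
      have hxN : x ∈ N := hle (Subgroup.mem_zpowers x)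
      rw [hg, Cfsg.Agent.Lib.H7Basic.mem_smul_conj_iff] at hxN
      exact hx g⁻¹ (by simpa using hxN)
  have hcyc : IsCyclic G := isCyclic_iff_exists_zpowers_eq_top.mpr ⟨x, htop⟩
  refine ⟨hcyc, ?_⟩
  let _ := hcyc.commGroup
  -- a unique coatom
  have huniq : ∀ N : Subgroup G, IsCoatom N → N = M := by
    intro N hN
    obtain ⟨g, hg⟩ := h M N hM hN
    rw [hg]
    ext y
    rw [Cfsg.Agent.Lib.H7Basic.mem_smul_conj_iff]
    have : g⁻¹ * y * g = y := by
      rw [mul_comm g⁻¹ y, mul_assoc, inv_mul_cancel, mul_one]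
    rw [this]
  have hcard : Nat.card G ≠ 1 := by
    rw [Ne, Nat.card_eq_one_iff_unique]
    intro hu
    exact not_subsingleton G hu.1
  obtain ⟨p, hp, hpd⟩ := Nat.exists_prime_and_dvd hcard
  haveI : Fact p.Prime := ⟨hp⟩
  obtain ⟨P⟩ : Nonempty (Sylow p G) := inferInstance
  by_cases hPt : (P : Subgroup G) = ⊤
  · have hc : IsPGroup p G := by
      intro g
      have h1 := P.isPGroup' (⟨g, by rw [hPt]; trivial⟩ : (P : Subgroup G))
      obtain ⟨k, hk⟩ := h1
      exact ⟨k, by simpa using congrArg Subtype.val hk⟩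
    obtain ⟨k, hk⟩ := IsPGroup.iff_card.mp hc
    rw [hk]
    refine ⟨p, k, hp.prime, ?_, rfl⟩
    rcases Nat.eq_zero_or_pos k with h0 | h0
    · subst h0
      simp at hk
      exact absurd hk hcard
    · exact h0
  · exfalso
    obtain h1 | ⟨N, hN, hle⟩ := eq_top_or_exists_le_coatom (P : Subgroup G)
    · exact hPt h1
    · rw [huniq N hN] at hle
      have hidx : M.index ≠ 1 := fun h1 => hM.1 (Subgroup.index_eq_one.mp h1)
      obtain ⟨q, hq, hqd⟩ := Nat.exists_prime_and_dvd hidx
      haveI : Fact q.Prime := ⟨hq⟩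
      obtain ⟨Q⟩ : Nonempty (Sylow q G) := inferInstance
      have hQt : (Q : Subgroup G) ≠ ⊤ := by
        intro hQ
        have hqp : q ≠ p := by
          rintro rfl
          exact P.not_dvd_index (hqd.trans (Subgroup.index_dvd_of_le hle))
        have hc : IsPGroup q G := by
          intro g
          have h1 := Q.isPGroup' (⟨g, by rw [hQ]; trivial⟩ : (Q : Subgroup G))
          obtain ⟨k, hk⟩ := h1
          exact ⟨k, by simpa using congrArg Subtype.val hk⟩
        obtain ⟨k, hk⟩ := IsPGroup.iff_card.mp hc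
        rw [hk] at hpd
        exact hqp ((Nat.prime_dvd_prime_iff_eq hp hq).mp (hp.dvd_of_dvd_pow hpd)).symm
      obtain h1 | ⟨N', hN', hle'⟩ := eq_top_or_exists_le_coatom (Q : Subgroup G)
      · exact hQt h1
      · rw [huniq N' hN'] at hle'
        exact Q.not_dvd_index (hqd.trans (Subgroup.index_dvd_of_le hle'))

end Cfsg.Agent.S4387
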