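import Cfsg.Statements.S4400
import Cfsg.Agent.Lib.PGroupBasic
import Cfsg.Agent.Lib.H6PGroup

set_option autoImplicit false
set_option linter.all false
open Cfsg

namespace Cfsg.Agent.S4400


open Cfsg.Agent.Lib
open scoped commutatorElement

/-- The nontrivial central element of a normal subgroup with centre of order two. -/
theorem center_two_gen {S : Type*} [Group S] [Finite S] (P : Subgroup S) [hPn : P.Normal]
    (hZ : Nat.card ↥(Subgroup.center ↥P) = 2) :
    ∃ a ∈ P, a ≠ 1 ∧ (∀ g : S, g * a * g⁻¹ = a) ∧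
      (∀ x : ↥P, x ∈ Subgroup.center ↥P → (x : S) = 1 ∨ (x : S) = a) ∧
      (∀ h : a ∈ P, (⟨a, h⟩ : ↥P) ∈ Subgroup.center ↥P) := by
  classical
  obtain ⟨⟨z, hz⟩, hz1, hzu⟩ := (Nat.card_eq_two_iff' (1 : ↥(Subgroup.center ↥P))).1 hZ
  have hz1' : z ≠ 1 := fun h => hz1 (Subtype.ext h)
  have huniq : ∀ w : ↥P, w ∈ Subgroup.center ↥P → w = 1 ∨ w = z := by
    intro w hw
    by_cases h1 : w = 1
    · exact Or.inl h1
    · refine Or.inr ?_
      have := hzu ⟨w, hw⟩ (fun h => h1 (congrArg Subtype.val h))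
      exact congrArg Subtype.val this
  refine ⟨z, z.2, fun h => hz1' (Subtype.ext h), ?_, ?_, fun h => hz⟩
  · intro g
    let σ := MulAut.conjNormal (H := P) g
    have hσ : σ z ∈ Subgroup.center ↥P := by
      rw [Subgroup.mem_center_iff] at hz ⊢
      intro k
      have h1 := hz (σ.symm k)
      have h2 := congrArg σ h1
      simpa using h2
    have hne : σ z ≠ 1 := fun h => hz1' (σ.injective (by rw [h, map_one]))
    rcases huniq _ hσ with h | h
    · exact absurd h hne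
    · have := congrArg Subtype.val h
      simpa [σ, MulAut.conjNormal_apply] using this
  · intro x hx
    rcases huniq x hx with h | h
    · left; rw [h]; rfl
    · right; rw [h]

theorem index_frattini_ge {P : Type*} [Group P] [Finite P] (hP : ¬ IsMulCommutative P) :
    4 ≤ (frattini P).index := by
  classical
  by_contra hlt
  have hc : IsCyclic (P ⧸ frattini P) := by
    have hcard : Nat.card (P ⧸ frattini P) = (frattini P).index := rfl
    have h0 : (frattini P).index ≠ 0 := Subgroup.index_ne_zero_of_finite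
    have hcases : (frattini P).index = 1 ∨ (frattini P).index = 2 ∨ (frattini P).index = 3 := by omega
    rcases hcases with h | h | h
    · have : Nat.card (P ⧸ frattini P) = 1 := by rw [hcard, h]
      haveI : Subsingleton (P ⧸ frattini P) := (Nat.card_eq_one_iff_unique.1 this).1
      infer_instance
    · haveI : Fact (Nat.Prime 2) := ⟨Nat.prime_two⟩
      exact isCyclic_of_prime_card (p := 2) (by rw [hcard, h])
    · haveI : Fact (Nat.Prime 3) := ⟨Nat.prime_three⟩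
      exact isCyclic_of_prime_card (p := 3) (by rw [hcard, h])
  obtain ⟨q, hq⟩ := hc
  obtain ⟨x, rfl⟩ := QuotientGroup.mk_surjective q
  have hsup : Subgroup.zpowers x ⊔ frattini P = ⊤ := by
    rw [eq_top_iff]
    intro g _
    obtain ⟨k, hk⟩ := hq (g : P ⧸ frattini P)
    have h1 : x ^ k * (x ^ k)⁻¹ * g = g := by group
    rw [← h1, mul_assoc]
    refine Subgroup.mul_mem _ (Subgroup.mem_sup_left (Subgroup.zpow_mem_zpowers x k)) (Subgroup.mem_sup_right ?_)
    have h2 : ((x : P ⧸ frattini P)) ^ k = (g : P ⧸ frattini P) := hk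
    rw [← QuotientGroup.mk_zpow, QuotientGroup.eq] at h2
    exact h2
  have htop := frattini_nongenerating hsup
  apply hP
  refine ⟨⟨fun a b => ?_⟩⟩
  have ha : a ∈ Subgroup.zpowers x := by rw [htop]; trivial
  have hb : b ∈ Subgroup.zpowers x := by rw [htop]; trivial
  obtain ⟨i, rfl⟩ := ha
  obtain ⟨j, rfl⟩ := hb
  simp only [← zpow_add, add_comm]

theorem card_sup_comm' {G : Type*} [Group G] [Finite G] (X Y : Subgroup G)
    (hc : ∀ a ∈ X, ∀ b ∈ Y, a * b = b * a) (hi : X ⊓ Y = ⊥) :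
    Nat.card (X ⊔ Y : Subgroup G) = Nat.card X * Nat.card Y := by
  have hc' : ∀ (m : X) (n : Y), Commute (X.subtype m) (Y.subtype n) := fun a b => hc a a.2 b b.2
  let φ : X × Y →* G := MonoidHom.noncommCoprod X.subtype Y.subtype hc'
  have hinj : Function.Injective φ := by
    rw [injective_iff_map_eq_one]
    rintro ⟨a, b⟩ hab
    have hab' : (a : G) * (b : G) = 1 := hab
    have h1 : (a : G) = (b : G)⁻¹ := eq_inv_of_mul_eq_one_left hab'
    have h2 : (a : G) ∈ X ⊓ Y := ⟨a.2, h1 ▸ Y.inv_mem b.2⟩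
    rw [hi] at h2
    have h3 : (a : G) = 1 := h2
    have h4 : (b : G) = 1 := by
      rw [h3, one_mul] at hab'; exact hab'
    exact Prod.ext (Subtype.ext h3) (Subtype.ext h4)
  have hrange : φ.range = X ⊔ Y := by
    change (MonoidHom.noncommCoprod X.subtype Y.subtype hc').range = _
    rw [MonoidHom.noncommCoprod_range, Subgroup.range_subtype, Subgroup.range_subtype]
  have e1 : Nat.card (X × Y) = Nat.card φ.range := Nat.card_congr (MonoidHom.ofInjective hinj).toEquiv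
  rw [← hrange, ← e1, Nat.card_prod]

theorem mem_sup_comm3 {G : Type*} [Group G] (A B : Subgroup G)
    (h : ∀ a ∈ A, ∀ b ∈ B, a * b = b * a) {x : G} (hx : x ∈ A ⊔ B) :
    ∃ a ∈ A, ∃ b ∈ B, x = a * b := by
  rw [Subgroup.sup_eq_closure] at hx
  induction hx using Subgroup.closure_induction with
  | mem x hx =>
    rcases hx with hx | hx
    · exact ⟨x, hx, 1, B.one_mem, by simp⟩
    · exact ⟨1, A.one_mem, x, hx, by simp⟩
  | one => exact ⟨1, A.one_mem, 1, B.one_mem, by simp⟩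
  | mul x y _ _ ihx ihy =>
    obtain ⟨a, ha, b, hb, rfl⟩ := ihx
    obtain ⟨a', ha', b', hb', rfl⟩ := ihy
    refine ⟨a * a', A.mul_mem ha ha', b * b', B.mul_mem hb hb', ?_⟩
    have : b * a' = a' * b := (h a' ha' b hb).symm
    calc a * b * (a' * b') = a * (b * a') * b' := by group
      _ = a * (a' * b) * b' := by rw [this]
      _ = _ := by group
  | inv x _ ih =>
    obtain ⟨a, ha, b, hb, rfl⟩ := ih
    refine ⟨a⁻¹, A.inv_mem ha, b⁻¹, B.inv_mem hb, ?_⟩
    have : a * b = b * a := h a ha b hb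
    rw [mul_inv_rev]
    calc b⁻¹ * a⁻¹ = (a * b)⁻¹ := by group
      _ = (b * a)⁻¹ := by rw [this]
      _ = _ := by group


/-- Let S be a finite 2-group of sectional 2-rank at most 4, and let P and Q be normal non-abelian subgroups of S whose centres have order 2 and are different. Then P and Q commute elementwise and intersect trivially, and PQ contains its own centralizer in S. -/
theorem result {S : Type*} [Group S] [Finite S] (h2 : IsPGroup 2 S) (hr : Cfsg.SectionalPRankLE 2 4 S)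
    (P Q : Subgroup S) [P.Normal] [Q.Normal] (hP : ¬ IsMulCommutative ↥P) (hQ : ¬ IsMulCommutative ↥Q)
    (hZP : Nat.card ↥(Subgroup.center ↥P) = 2) (hZQ : Nat.card ↥(Subgroup.center ↥Q) = 2)
    (hne : (Subgroup.center ↥P).map P.subtype ≠ (Subgroup.center ↥Q).map Q.subtype) :
    ⁅P, Q⁆ = ⊥ ∧ P ⊓ Q = ⊥ ∧ Subgroup.centralizer ((P ⊔ Q : Subgroup S) : Set S) ≤ P ⊔ Q := by
  classical
  haveI : Fact (Nat.Prime 2) := ⟨Nat.prime_two⟩
  obtain ⟨a, haP, ha1, hacen, haZ, haC⟩ := center_two_gen P hZP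
  obtain ⟨b, hbQ, hb1, hbcen, hbZ, hbC⟩ := center_two_gen Q hZQ
  have hmapP : ∀ (K : Subgroup S) [K.Normal] {z : S} (hz : z ∈ K), z ≠ 1 → (⟨z, hz⟩ : ↥K) ∈ Subgroup.center ↥K →
      (∀ x : ↥K, x ∈ Subgroup.center ↥K → (x : S) = 1 ∨ (x : S) = z) →
      ∀ x : S, x ∈ (Subgroup.center ↥K).map K.subtype ↔ x = 1 ∨ x = z := by
    intro K _ z hz hz1 hzc hall x
    constructor
    · rintro ⟨y, hy, rfl⟩
      exact hall y hy
    · rintro (rfl | rfl)
      · exact Subgroup.one_mem _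
      · exact ⟨⟨x, hz⟩, hzc, rfl⟩
  have hab : a ≠ b := by
    rintro rfl
    apply hne
    ext x
    rw [hmapP P haP ha1 (haC haP) haZ, hmapP Q hbQ hb1 (hbC hbQ) hbZ]
  -- trivial intersection
  have hinf : P ⊓ Q = ⊥ := by
    by_contra hne'
    have hQp : IsPGroup 2 ↥Q := h2.to_subgroup Q
    have hRn : ((P ⊓ Q).subgroupOf Q).Normal := by
      haveI : (P ⊓ Q).Normal := inferInstance
      exact Subgroup.normal_subgroupOf
    have hRne : (P ⊓ Q).subgroupOf Q ≠ ⊥ := by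
      intro h0
      apply hne'
      rw [eq_bot_iff]
      intro x hx
      have : (⟨x, hx.2⟩ : ↥Q) ∈ (P ⊓ Q).subgroupOf Q := by
        rw [Subgroup.mem_subgroupOf]; exact hx
      rw [h0] at this
      have h1 : (⟨x, hx.2⟩ : ↥Q) = 1 := this
      exact congrArg Subtype.val h1
    obtain ⟨x, hxR, hx1, hxc⟩ := PGroupBasic.exists_ne_one_mem_center_of_normal hQp ((P ⊓ Q).subgroupOf Q) hRne
    rcases hbZ x hxc with h | h
    · exact hx1 (Subtype.ext h)
    have hbP : b ∈ P := by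
      rw [Subgroup.mem_subgroupOf] at hxR
      rw [← h]; exact hxR.1
    have hbcP : (⟨b, hbP⟩ : ↥P) ∈ Subgroup.center ↥P := by
      rw [Subgroup.mem_center_iff]
      intro g
      ext
      have := hbcen g
      simp only [Subgroup.coe_mul]
      calc (g : S) * b = (g * b * (g : S)⁻¹) * g := by group
        _ = b * g := by rw [this]
    rcases haZ _ hbcP with h' | h'
    · exact hb1 h'
    · exact hab h'.symm
  have hcomm0 : ⁅P, Q⁆ = ⊥ := by
    rw [eq_bot_iff, ← hinf]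
    exact Subgroup.commutator_le_inf P Q
  have hPQ : ∀ p ∈ P, ∀ q ∈ Q, p * q = q * p := by
    intro p hp q hq
    have h1 : ⁅p, q⁆ ∈ ⁅P, Q⁆ := Subgroup.commutator_mem_commutator hp hq
    rw [hcomm0] at h1
    exact commutatorElement_eq_one_iff_mul_comm.1 h1
  refine ⟨hcomm0, hinf, ?_⟩
  by_contra hnot
  obtain ⟨c₀, hc₀C, hc₀A⟩ := SetLike.not_le_iff_exists.1 hnot
  have hcC : ∀ c ∈ Subgroup.centralizer ((P ⊔ Q : Subgroup S) : Set S), ∀ u ∈ P ⊔ Q, u * c = c * u := by
    intro c hc u hu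
    exact (Subgroup.mem_centralizer_iff.1 hc) u hu
  obtain ⟨c, hcc, hcA, hc2⟩ : ∃ c ∈ Subgroup.centralizer ((P ⊔ Q : Subgroup S) : Set S), c ∉ P ⊔ Q ∧ c ^ 2 ∈ P ⊔ Q := by
    have hex : ∃ k : ℕ, c₀ ^ 2 ^ k ∈ P ⊔ Q := by
      obtain ⟨k, hk⟩ := h2 c₀
      refine ⟨k, ?_⟩
      rw [hk]; exact Subgroup.one_mem _
    have hk0 : Nat.find hex ≠ 0 := by
      intro h0
      have := Nat.find_spec hex
      rw [h0] at this
      simp only [pow_zero, pow_one] at this
      exact hc₀A this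
    obtain ⟨k, hk⟩ := Nat.exists_eq_succ_of_ne_zero hk0
    refine ⟨c₀ ^ 2 ^ k, Subgroup.pow_mem _ hc₀C _, ?_, ?_⟩
    · exact Nat.find_min hex (m := k) (by omega)
    · have := Nat.find_spec hex
      rw [hk, pow_succ, pow_mul] at this
      exact this
  -- Frattini data
  let ΦP : Subgroup S := (frattini ↥P).map P.subtype
  let ΦQ : Subgroup S := (frattini ↥Q).map Q.subtype
  have hΦPle : ΦP ≤ P := by rintro _ ⟨x, -, rfl⟩; exact x.2
  have hΦQle : ΦQ ≤ Q := by rintro _ ⟨x, -, rfl⟩; exact x.2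
  have hFr : ∀ (K : Subgroup S), ¬ IsMulCommutative ↥K → ∃ x ∈ frattini ↥K, x ≠ 1 ∧ x ∈ Subgroup.center ↥K := by
    intro K hK
    have hKp : IsPGroup 2 ↥K := h2.to_subgroup K
    refine PGroupBasic.exists_ne_one_mem_center_of_normal hKp (frattini ↥K) ?_
    intro h0
    apply hK
    have hsq : ∀ x : ↥K, x * x = 1 := by
      intro x
      have := H6PGroup.pow_mem_frattini hKp x
      rw [h0] at this
      rw [← pow_two]; exact this
    refine ⟨⟨fun a b => ?_⟩⟩
    have h1 := hsq (a * b)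
    have h3 := hsq a
    have h4 := hsq b
    have e1 : a⁻¹ = a := by
      rw [inv_eq_iff_mul_eq_one]; exact h3
    have e2 : b⁻¹ = b := by
      rw [inv_eq_iff_mul_eq_one]; exact h4
    calc a * b = (a * b)⁻¹ := eq_inv_of_mul_eq_one_left h1
      _ = b⁻¹ * a⁻¹ := mul_inv_rev _ _
      _ = b * a := by rw [e1, e2]
  have haΦ : a ∈ ΦP := by
    obtain ⟨x, hxF, hx1, hxc⟩ := hFr P hP
    rcases haZ x hxc with h | h
    · exact absurd (Subtype.ext h) hx1
    · exact ⟨x, hxF, h⟩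
  have hbΦ : b ∈ ΦQ := by
    obtain ⟨x, hxF, hx1, hxc⟩ := hFr Q hQ
    rcases hbZ x hxc with h | h
    · exact absurd (Subtype.ext h) hx1
    · exact ⟨x, hxF, h⟩
  let N₀ : Subgroup S := ΦP ⊔ ΦQ
  let H₁ : Subgroup S := (P ⊔ Q) ⊔ Subgroup.zpowers c
  have hAH : P ⊔ Q ≤ H₁ := le_sup_left
  have hN₀A : N₀ ≤ P ⊔ Q := sup_le_sup hΦPle hΦQle
  have hN₀H : N₀ ≤ H₁ := hN₀A.trans hAH
  -- elements of C ∩ A lie in N₀
  have hCA : ∀ x ∈ Subgroup.centralizer ((P ⊔ Q : Subgroup S) : Set S), x ∈ P ⊔ Q → x ∈ N₀ := by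
    intro x hxC hxA
    obtain ⟨p, hp, q, hq, rfl⟩ := mem_sup_comm3 P Q hPQ hxA
    have hpc : (⟨p, hp⟩ : ↥P) ∈ Subgroup.center ↥P := by
      rw [Subgroup.mem_center_iff]
      intro g
      ext
      have h1 := hcC _ hxC (g : S) (Subgroup.mem_sup_left g.2)
      have h3 := hPQ g g.2 q hq
      simp only [Subgroup.coe_mul]
      have : (g : S) * p * q = p * g * q := by
        calc (g : S) * p * q = g * (p * q) := by group
          _ = p * q * g := h1
          _ = p * (q * g) := by group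
          _ = p * (g * q) := by rw [h3]
          _ = _ := by group
      exact mul_right_cancel this
    have hqc : (⟨q, hq⟩ : ↥Q) ∈ Subgroup.center ↥Q := by
      rw [Subgroup.mem_center_iff]
      intro g
      ext
      have h1 := hcC _ hxC (g : S) (Subgroup.mem_sup_right g.2)
      have h3 := hPQ p hp g g.2
      simp only [Subgroup.coe_mul]
      have : p * ((g : S) * q) = p * (q * g) := by
        calc p * ((g : S) * q) = (p * g) * q := by group
          _ = (g * p) * q := by rw [h3]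
          _ = g * (p * q) := by group
          _ = p * q * g := h1
          _ = _ := by group
      exact mul_left_cancel this
    have hpN : p ∈ N₀ := by
      rcases haZ _ hpc with h | h
      · have h' : p = 1 := h
        rw [h']; exact Subgroup.one_mem _
      · have h' : p = a := h
        rw [h']; exact Subgroup.mem_sup_left haΦ
    have hqN : q ∈ N₀ := by
      rcases hbZ _ hqc with h | h
      · have h' : q = 1 := h
        rw [h']; exact Subgroup.one_mem _
      · have h' : q = b := h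
        rw [h']; exact Subgroup.mem_sup_right hbΦ
    exact N₀.mul_mem hpN hqN
  have hc2N : c ^ 2 ∈ N₀ := hCA _ (Subgroup.pow_mem _ hcc _) hc2
  -- squares
  have hsq : ∀ g ∈ H₁, g ^ 2 ∈ N₀ := by
    intro g hg
    have hcom : ∀ u ∈ P ⊔ Q, ∀ v ∈ Subgroup.zpowers c, u * v = v * u := by
      intro u hu v hv
      obtain ⟨k, rfl⟩ := hv
      have h1 : Commute u c := hcC c hcc u hu
      exact h1.zpow_right k
    obtain ⟨u, hu, v, hv, rfl⟩ := mem_sup_comm3 _ _ hcom hg
    obtain ⟨p, hp, q, hq, rfl⟩ := mem_sup_comm3 P Q hPQ hu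
    obtain ⟨k, rfl⟩ := hv
    have hPK : IsPGroup 2 ↥P := h2.to_subgroup P
    have hQK : IsPGroup 2 ↥Q := h2.to_subgroup Q
    have hp2 : p ^ 2 ∈ ΦP := ⟨_, H6PGroup.pow_mem_frattini hPK ⟨p, hp⟩, by simp⟩
    have hq2 : q ^ 2 ∈ ΦQ := ⟨_, H6PGroup.pow_mem_frattini hQK ⟨q, hq⟩, by simp⟩
    have hv2 : ((fun x => c ^ x) k) ^ 2 ∈ N₀ := by
      change (c ^ k) ^ 2 ∈ N₀
      rw [← zpow_natCast, ← zpow_mul, mul_comm, zpow_mul, zpow_natCast]
      exact Subgroup.zpow_mem _ hc2N k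
    have hc1 : Commute p q := hPQ p hp q hq
    have hc3 : Commute (p * q) ((fun x => c ^ x) k) :=
      hcom _ hu _ ⟨k, rfl⟩
    rw [hc3.mul_pow, hc1.mul_pow]
    exact N₀.mul_mem (N₀.mul_mem (Subgroup.mem_sup_left hp2) (Subgroup.mem_sup_right hq2)) hv2
  -- normality of N₀ in H₁ and the quotient
  have hMn : (N₀.subgroupOf H₁).Normal := by
    constructor
    rintro ⟨n, hnH⟩ hn ⟨g, hg⟩
    rw [Subgroup.mem_subgroupOf] at hn ⊢
    have hn' : n ∈ N₀ := hn
    have h1 := hsq (g * n) (H₁.mul_mem hg hnH)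
    have h3 := hsq g⁻¹ (H₁.inv_mem hg)
    have e : g * n * g⁻¹ = (g * n) ^ 2 * n⁻¹ * (g⁻¹) ^ 2 := by
      simp only [pow_two]; group
    change g * n * g⁻¹ ∈ N₀
    rw [e]
    exact N₀.mul_mem (N₀.mul_mem h1 (N₀.inv_mem hn')) h3
  haveI := hMn
  have hq1 : ∀ x : ↥H₁ ⧸ N₀.subgroupOf H₁, x ^ 2 = 1 := by
    intro x
    obtain ⟨⟨g, hg⟩, rfl⟩ := QuotientGroup.mk_surjective x
    rw [← QuotientGroup.mk_pow, QuotientGroup.eq_one_iff, Subgroup.mem_subgroupOf]
    exact hsq g hg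
  have hcommq : IsMulCommutative ↥(⊤ : Subgroup (↥H₁ ⧸ N₀.subgroupOf H₁)) := by
    refine ⟨⟨fun x y => ?_⟩⟩
    apply Subtype.ext
    have h1 := hq1 ((x : ↥H₁ ⧸ N₀.subgroupOf H₁) * y)
    have h3 := hq1 (x : ↥H₁ ⧸ N₀.subgroupOf H₁)
    have h4 := hq1 (y : ↥H₁ ⧸ N₀.subgroupOf H₁)
    rw [pow_two] at h1 h3 h4
    have e1 : (x : ↥H₁ ⧸ N₀.subgroupOf H₁)⁻¹ = x := by
      rw [inv_eq_iff_mul_eq_one]; exact h3
    have e2 : (y : ↥H₁ ⧸ N₀.subgroupOf H₁)⁻¹ = y := by
      rw [inv_eq_iff_mul_eq_one]; exact h4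
    change (x : ↥H₁ ⧸ N₀.subgroupOf H₁) * y = y * x
    calc (x : ↥H₁ ⧸ N₀.subgroupOf H₁) * y = ((x : ↥H₁ ⧸ N₀.subgroupOf H₁) * y)⁻¹ := eq_inv_of_mul_eq_one_left h1
      _ = (y : ↥H₁ ⧸ N₀.subgroupOf H₁)⁻¹ * (x : ↥H₁ ⧸ N₀.subgroupOf H₁)⁻¹ := mul_inv_rev _ _
      _ = y * x := by rw [e1, e2]
  have hb16 := hr H₁ (N₀.subgroupOf H₁) ⊤ hcommq (fun x _ => hq1 x)
  rw [Subgroup.card_top] at hb16
  -- counting
  have hcH : Nat.card H₁ = Nat.card (↥H₁ ⧸ N₀.subgroupOf H₁) * Nat.card N₀ := by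
    rw [Subgroup.card_eq_card_quotient_mul_card_subgroup (N₀.subgroupOf H₁),
      Nat.card_congr (Subgroup.subgroupOfEquivOfLe hN₀H).toEquiv]
  have hΦinf : ΦP ⊓ ΦQ = ⊥ := by
    rw [eq_bot_iff, ← hinf]
    exact inf_le_inf hΦPle hΦQle
  have hcN : Nat.card N₀ = Nat.card ΦP * Nat.card ΦQ :=
    card_sup_comm' ΦP ΦQ (fun x hx y hy => hPQ x (hΦPle hx) y (hΦQle hy)) hΦinf
  have hcA' : Nat.card (P ⊔ Q : Subgroup S) = Nat.card P * Nat.card Q := card_sup_comm' P Q hPQ hinf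
  have hcP : 4 * Nat.card ΦP ≤ Nat.card P := by
    have h1 : Nat.card ΦP = Nat.card (frattini ↥P) := Subgroup.card_map_of_injective P.subtype_injective
    have h3 := Subgroup.card_mul_index (frattini ↥P)
    have h4 := index_frattini_ge hP
    rw [h1, ← h3]
    nlinarith
  have hcQ : 4 * Nat.card ΦQ ≤ Nat.card Q := by
    have h1 : Nat.card ΦQ = Nat.card (frattini ↥Q) := Subgroup.card_map_of_injective Q.subtype_injective
    have h3 := Subgroup.card_mul_index (frattini ↥Q)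
    have h4 := index_frattini_ge hQ
    rw [h1, ← h3]
    nlinarith
  have hlt : 2 * Nat.card (P ⊔ Q : Subgroup S) ≤ Nat.card H₁ := by
    have hd := Subgroup.card_dvd_of_le hAH
    obtain ⟨m, hm⟩ := hd
    have hm0 : m ≠ 0 := by
      rintro rfl
      exact Nat.card_pos.ne' (by simpa using hm)
    have hm1 : m ≠ 1 := by
      rintro rfl
      rw [mul_one] at hm
      have he := Subgroup.eq_of_le_of_card_ge hAH hm.le
      exact hcA (he ▸ Subgroup.mem_sup_right (Subgroup.mem_zpowers c))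
    have hm2 : 2 ≤ m := by omega
    rw [hm, mul_comm]
    exact Nat.mul_le_mul_left _ hm2
  have f1 : 0 < Nat.card ΦP := Nat.card_pos
  have f2 : 0 < Nat.card ΦQ := Nat.card_pos
  have hfin : 32 * (Nat.card ΦP * Nat.card ΦQ) ≤ 16 * (Nat.card ΦP * Nat.card ΦQ) := by
    calc 32 * (Nat.card ΦP * Nat.card ΦQ) = 2 * ((4 * Nat.card ΦP) * (4 * Nat.card ΦQ)) := by ring
      _ ≤ 2 * (Nat.card P * Nat.card Q) := by
        exact Nat.mul_le_mul_left _ (Nat.mul_le_mul hcP hcQ)
      _ = 2 * Nat.card (P ⊔ Q : Subgroup S) := by rw [hcA']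
      _ ≤ Nat.card H₁ := hlt
      _ = Nat.card (↥H₁ ⧸ N₀.subgroupOf H₁) * Nat.card N₀ := hcH
      _ ≤ 16 * Nat.card N₀ := Nat.mul_le_mul_right _ (by simpa using hb16)
      _ = 16 * (Nat.card ΦP * Nat.card ΦQ) := by rw [hcN]
  have hpos : 0 < Nat.card ΦP * Nat.card ΦQ := Nat.mul_pos f1 f2
  omega

end Cfsg.Agent.S4400
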