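import Cfsg.Statements.S4403
import Cfsg.Agent.Lib.Comps
import Cfsg.Agent.Lib.Layer
import Cfsg.Agent.Lib.PComps
import Cfsg.Agent.Lib.PNilpB
import Cfsg.Agent.Lib.SecTransfer
import Cfsg.Agent.Lib.FitCore

set_option autoImplicit false
set_option linter.all false
open Cfsg

namespace Cfsg.Agent.S4403


open Cfsg Cfsg.Agent.Lib
open scoped commutatorElement

theorem cyc_order_p' {C : Type*} [Group C] [Finite C] [IsCyclic C] (p : ℕ) (hp : 0 < p) (a b : C)
    (ha : orderOf a = p) (hb : b ^ p = 1) : b ∈ Subgroup.zpowers a := by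
  classical
  haveI := Fintype.ofFinite C
  have hT := IsCyclic.card_pow_eq_one_le (α := C) hp
  let S : Finset C := Finset.univ.filter (fun y => y ∈ Subgroup.zpowers a)
  let T : Finset C := Finset.univ.filter (fun y => y ^ p = 1)
  have hST : S ⊆ T := by
    intro y hy
    simp only [S, Finset.mem_filter, Finset.mem_univ, true_and] at hy
    obtain ⟨n, rfl⟩ := hy
    simp only [T, Finset.mem_filter, Finset.mem_univ, true_and]
    rw [← zpow_natCast, ← zpow_mul, mul_comm, zpow_mul, zpow_natCast, ← ha, pow_orderOf_eq_one, one_zpow]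
  have hcardS : S.card = p := by
    have h1 : Nat.card (Subgroup.zpowers a) = p := by rw [Nat.card_zpowers, ha]
    rw [Nat.card_eq_fintype_card, Fintype.card_subtype] at h1
    exact h1
  have hST' : S = T := Finset.eq_of_subset_of_card_le hST (by rw [hcardS]; exact hT)
  have hbT : b ∈ T := by simp [T, hb]
  rw [← hST'] at hbT
  simpa [S] using hbT

theorem key_k' {G : Type*} [Group G] (p : ℕ) (hp : p.Prime) (g : G) (a : ℕ) (ho : orderOf g = p ^ a)
    (l m : ℕ) (hm : Nat.Coprime m p) (h : g ^ ((1 + l) ^ m) = g) (hl : p ∣ l) : g ^ (1 + l) = g := by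
  obtain ⟨c, rfl⟩ := hl
  have hS : ∀ m : ℕ, ∃ S t : ℕ, (1 + p * c) ^ m = 1 + (p * c) * S ∧ S = m + p * t := by
    intro m
    induction m with
    | zero => exact ⟨0, 0, by simp, by simp⟩
    | succ m IH =>
      obtain ⟨S, t, h1, h2⟩ := IH
      refine ⟨1 + S + S * (p * c), t + S * c, ?_, ?_⟩
      · rw [pow_succ, h1]; ring
      · subst h2; ring
  obtain ⟨S, t, h1, h2⟩ := hS m
  rw [h1, pow_add, pow_one] at h
  have h3 : g ^ (p * c * S) = 1 := by
    have : g * g ^ (p * c * S) = g * 1 := by rw [h, mul_one]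
    exact mul_left_cancel this
  have h4 : p ^ a ∣ p * c * S := by
    rw [← ho]; exact orderOf_dvd_of_pow_eq_one h3
  have h5 : Nat.Coprime (p ^ a) S := by
    apply Nat.Coprime.pow_left
    rw [h2, Nat.coprime_comm]
    simpa using hm
  have h6 : p ^ a ∣ p * c := h5.dvd_of_dvd_mul_right h4
  have h7 : g ^ (p * c) = 1 := by
    rw [← ho] at h6
    exact orderOf_dvd_iff_pow_eq_one.mp h6
  rw [pow_add, pow_one, h7, mul_one]

theorem cyc_form' {G : Type*} [Group G] [Finite G] (g x : G)
    (hgx : x * g * x⁻¹ ∈ Subgroup.zpowers g) :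
    ∃ l : ℕ, x * g * x⁻¹ = g ^ (1 + l) ∧ ∀ j : ℕ, x ^ j * g * (x ^ j)⁻¹ = g ^ ((1 + l) ^ j) := by
  obtain ⟨l, hl⟩ : ∃ l : ℕ, x * g * x⁻¹ = g ^ (1 + l) := by
    obtain ⟨n, hn⟩ := (mem_powers_iff_mem_zpowers).2 hgx
    refine ⟨n + orderOf g - 1, ?_⟩
    have hpos := orderOf_pos g
    have : 1 + (n + orderOf g - 1) = n + orderOf g := by omega
    rw [this, pow_add, pow_orderOf_eq_one, mul_one]
    exact hn.symm
  refine ⟨l, hl, ?_⟩
  intro j
  induction j with
  | zero => simp
  | succ j IH =>
    have h1 : x ^ (j + 1) * g * (x ^ (j + 1))⁻¹ = x * (x ^ j * g * (x ^ j)⁻¹) * x⁻¹ := by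
      rw [pow_succ']
      group
    rw [h1, IH, ← conj_pow, hl, ← pow_mul, pow_succ']

theorem cyc_dich' {G : Type*} [Group G] [Finite G] (p : ℕ) (hp : p.Prime) (g x : G) (a : ℕ)
    (ho : orderOf g = p ^ a)
    (hgx : x * g * x⁻¹ ∈ Subgroup.zpowers g) (m : ℕ) (hm : m.Coprime p) (hxm : x ^ m * g = g * x ^ m) :
    x * g * x⁻¹ = g ∨ g ∈ Subgroup.zpowers (g⁻¹ * (x * g * x⁻¹)) := by
  obtain ⟨l, hl, hpowk⟩ := cyc_form' g x hgx
  have h1 : g ^ ((1 + l) ^ m) = g := by rw [← hpowk m, hxm]; group
  by_cases hd : p ∣ l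
  · left
    rw [hl]
    exact key_k' p hp g a ho l m hm h1 hd
  · right
    have h2 : g⁻¹ * (x * g * x⁻¹) = g ^ l := by
      rw [hl, pow_add, pow_one, inv_mul_cancel_left]
    rw [h2]
    have hc : Nat.gcd l (orderOf g) = 1 := by
      rw [ho]
      exact Nat.Coprime.pow_right _ ((Nat.coprime_comm).1 ((Nat.Prime.coprime_iff_not_dvd hp).2 hd))
    have hb := Nat.gcd_eq_gcd_ab l (orderOf g)
    rw [hc] at hb
    refine ⟨Nat.gcdA l (orderOf g), ?_⟩
    simp only
    have h3 : g ^ (1 : ℤ) = g ^ ((l : ℤ) * Nat.gcdA l (orderOf g) + (orderOf g : ℤ) * Nat.gcdB l (orderOf g)) := by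
      rw [← hb]; simp
    rw [zpow_one, zpow_add, zpow_mul, zpow_mul, zpow_natCast, zpow_natCast, pow_orderOf_eq_one, one_zpow, mul_one] at h3
    exact h3.symm

theorem cyc_omega' {G : Type*} [Group G] [Finite G] (p : ℕ) (hp : p.Prime) (g x : G) (a : ℕ)
    (ho : orderOf g = p ^ (a + 1))
    (hgx : x * g * x⁻¹ ∈ Subgroup.zpowers g) (m : ℕ) (hm : m.Coprime p) (hxm : x ^ m * g = g * x ^ m)
    (hw : x * g ^ p ^ a * x⁻¹ = g ^ p ^ a) : x * g * x⁻¹ = g := by
  obtain ⟨l, hl, hpowk⟩ := cyc_form' g x hgx
  have h1 : g ^ ((1 + l) ^ m) = g := by rw [← hpowk m, hxm]; group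
  rw [conj_pow.symm, hl, ← pow_mul] at hw
  have h2 : g ^ (p ^ a * l) = 1 := by
    have h3 : (1 + l) * p ^ a = p ^ a + p ^ a * l := by ring
    rw [h3, pow_add] at hw
    exact mul_left_cancel (a := g ^ p ^ a) (by rw [hw, mul_one])
  have h4 : p ^ (a + 1) ∣ p ^ a * l := by
    rw [← ho]; exact orderOf_dvd_of_pow_eq_one h2
  have h5 : p ∣ l := by
    rw [pow_succ] at h4
    exact Nat.dvd_of_mul_dvd_mul_left (pow_pos hp.pos a) h4
  rw [hl]
  exact key_k' p hp g (a + 1) ho l m hm h1 h5

theorem fitting_isPGroup' {K : Type*} [Group K] [Finite K] (p : ℕ) [hpf : Fact p.Prime]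
    (hO : Cfsg.pPrimeCore p K = ⊥) : IsPGroup p (fittingSubgroup K) := by
  classical
  have hq : ∀ q : ℕ, q.Prime → q ∣ Nat.card (fittingSubgroup K) → q = p := by
    intro q hq hd
    by_contra hne
    haveI : Fact q.Prime := ⟨hq⟩
    have h1 : Cfsg.pCore q K ≤ Cfsg.pPrimeCore p K := by
      apply le_sSup
      refine ⟨FitCore.pCore_normal q, ?_⟩
      obtain ⟨n, hn⟩ := IsPGroup.iff_card.mp (FitCore.pCore_isPGroup (G := K) q)
      rw [hn]
      apply Nat.Coprime.pow_left
      exact (Nat.coprime_primes hq hpf.out).2 hne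
    rw [hO, le_bot_iff] at h1
    have h2 := FitCore.relIndex_pCore_not_dvd_fitting (G := K) q
    rw [h1, Subgroup.relIndex_bot_left] at h2
    exact h2 hd
  have h0 : Nat.card (fittingSubgroup K) ≠ 0 := Nat.card_pos.ne'
  have := Nat.eq_prime_pow_of_unique_prime_dvd h0 (fun {d} hd hdd => hq d hd hdd)
  exact IsPGroup.of_card this

theorem lemma_t' {W : Type*} [Group W] [Finite W] (p : ℕ) [hpf : Fact p.Prime] (hperf : commutator W = ⊤)
    (hab : ∀ S : Sylow p W, ∀ a ∈ (S : Subgroup W), ∀ b ∈ (S : Subgroup W), a * b = b * a) :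
    ¬ p ∣ Nat.card (Subgroup.center W) := by
  classical
  intro hd
  obtain ⟨⟨z, hz⟩, hzo⟩ := exists_prime_orderOf_dvd_card' p hd
  rw [Subgroup.orderOf_mk] at hzo
  have hQn : (Subgroup.zpowers z).Normal := by
    refine ⟨?_⟩
    rintro y ⟨i, rfl⟩ x
    simp only
    have h1 : z ^ i ∈ Subgroup.center W := Subgroup.zpow_mem _ hz i
    have h2 := Subgroup.mem_center_iff.mp h1 x
    rw [h2]
    simp
  have hQp : IsPGroup p (Subgroup.zpowers z) := by
    refine IsPGroup.of_card (n := 1) ?_
    rw [Nat.card_zpowers, hzo, pow_one]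
  obtain ⟨S, hS⟩ := hQp.exists_le_sylow
  have h1 : Subgroup.zpowers z ⊓ commutator W ≤
      ⁅(S : Subgroup W), (S : Subgroup W)⁆ ⊔ ⁅Subgroup.zpowers z, (⊤ : Subgroup W)⁆ :=
    SecTransfer.normal_inf_commutator_le S (Subgroup.zpowers z) hS
  have h2 : ⁅(S : Subgroup W), (S : Subgroup W)⁆ = ⊥ := by
    rw [Subgroup.commutator_eq_bot_iff_le_centralizer]
    intro a ha
    rw [Subgroup.mem_centralizer_iff]
    intro b hb
    exact hab S b hb a ha
  have h3 : ⁅Subgroup.zpowers z, (⊤ : Subgroup W)⁆ = ⊥ := by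
    rw [Subgroup.commutator_eq_bot_iff_le_centralizer]
    rintro y ⟨i, rfl⟩
    rw [Subgroup.mem_centralizer_iff]
    intro b _
    exact Subgroup.mem_center_iff.mp (Subgroup.zpow_mem _ hz i) b
  rw [h2, h3, sup_bot_eq, le_bot_iff, hperf, inf_top_eq] at h1
  have hz1 : z = 1 := by
    have : z ∈ Subgroup.zpowers z := Subgroup.mem_zpowers z
    rw [h1] at this
    exact this
  rw [hz1, orderOf_one] at hzo
  exact hpf.out.one_lt.ne hzo

theorem inter_ne_bot' {K : Type*} [Group K] [Finite K] (p : ℕ) [hpf : Fact p.Prime]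
    (hcyc : ∀ R : Subgroup K, IsPGroup p R → IsCyclic R) (A B : Subgroup K)
    (hAB : ∀ a ∈ A, ∀ b ∈ B, a * b = b * a) (hA : p ∣ Nat.card A) (hB : p ∣ Nat.card B) :
    ∃ w, w ∈ A ∧ w ∈ B ∧ orderOf w = p := by
  classical
  obtain ⟨⟨a, haA⟩, hao⟩ := exists_prime_orderOf_dvd_card' p hA
  obtain ⟨⟨b, hbB⟩, hbo⟩ := exists_prime_orderOf_dvd_card' p hB
  rw [Subgroup.orderOf_mk] at hao hbo
  have hpa : IsPGroup p (Subgroup.zpowers a) := by
    refine IsPGroup.of_card (n := 1) ?_
    rw [Nat.card_zpowers, hao, pow_one]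
  have hpb : IsPGroup p (Subgroup.zpowers b) := by
    refine IsPGroup.of_card (n := 1) ?_
    rw [Nat.card_zpowers, hbo, pow_one]
  have hab : Commute a b := hAB a haA b hbB
  have hN : Subgroup.zpowers a ≤ Subgroup.normalizer ((Subgroup.zpowers b : Subgroup K) : Set K) := by
    rw [Subgroup.zpowers_le, Subgroup.mem_normalizer_iff]
    intro h
    constructor
    · rintro ⟨i, rfl⟩
      simp only
      rw [(hab.zpow_right i).eq]
      simpa using Subgroup.zpow_mem _ (Subgroup.mem_zpowers b) i
    · intro h'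
      obtain ⟨i, hi⟩ := h'
      simp only at hi
      refine ⟨i, ?_⟩
      simp only
      have h1 : a * b ^ i * a⁻¹ = b ^ i := by
        rw [(hab.zpow_right i).eq]; simp
      have h2 : a * h * a⁻¹ = a * b ^ i * a⁻¹ := by rw [← hi, h1]
      exact (mul_left_cancel (mul_right_cancel h2)).symm
  have hR : IsPGroup p ↥(Subgroup.zpowers a ⊔ Subgroup.zpowers b) := hpa.to_sup_of_normal_right' hpb hN
  haveI := hcyc _ hR
  let a' : ↥(Subgroup.zpowers a ⊔ Subgroup.zpowers b) :=
    ⟨a, (le_sup_left : Subgroup.zpowers a ≤ _) (Subgroup.mem_zpowers a)⟩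
  let b' : ↥(Subgroup.zpowers a ⊔ Subgroup.zpowers b) :=
    ⟨b, (le_sup_right : Subgroup.zpowers b ≤ _) (Subgroup.mem_zpowers b)⟩
  have hao' : orderOf a' = p := by rw [Subgroup.orderOf_mk]; exact hao
  have hbp : b' ^ p = 1 := by
    apply Subtype.ext
    simp only [b', SubmonoidClass.mk_pow, OneMemClass.coe_one]
    rw [← hbo, pow_orderOf_eq_one]
  have hb' := cyc_order_p' p hpf.out.pos a' b' hao' hbp
  obtain ⟨i, hi⟩ := hb'
  have hi' : a ^ i = b := by
    have := congrArg Subtype.val hi
    simpa [a', b'] using this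
  exact ⟨b, hi' ▸ Subgroup.zpow_mem _ haA i, hbB, hbo⟩

/-- Case of a normal self-centralizing cyclic Sylow subgroup. -/
theorem case_normal {K : Type*} [Group K] [Finite K] (p : ℕ) [hpf : Fact p.Prime] (hp : p ∣ Nat.card K)
    (P : Sylow p K) (hP : IsCyclic ↥(P : Subgroup K)) [hn : (P : Subgroup K).Normal]
    (hC : Subgroup.centralizer ((P : Subgroup K) : Set K) = (P : Subgroup K)) :
    IsCyclic (K ⧸ (P : Subgroup K)) ∧ (P : Subgroup K).index ∣ p - 1 := by
  classical
  have hpp : p.Prime := hpf.out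
  obtain ⟨⟨g, hg⟩, hgen⟩ := hP.exists_generator
  have hPz : (P : Subgroup K) = Subgroup.zpowers g := by
    apply le_antisymm
    · intro y hy
      obtain ⟨n, hn'⟩ := hgen ⟨y, hy⟩
      refine ⟨n, ?_⟩
      have := congrArg Subtype.val hn'
      simpa using this
    · rw [Subgroup.zpowers_le]; exact hg
  obtain ⟨b, hb⟩ := IsPGroup.iff_card.mp P.isPGroup'
  have hord : orderOf g = p ^ b := by
    rw [← hb, hPz, Nat.card_zpowers]
  have hb0 : b ≠ 0 := by
    rintro rfl
    rw [pow_zero] at hb
    exact P.ne_bot_of_dvd_card hp (Subgroup.eq_bot_of_card_eq _ hb)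
  obtain ⟨a, rfl⟩ : ∃ a, b = a + 1 := ⟨b - 1, by omega⟩
  set w := g ^ p ^ a with hw
  have hword : orderOf w = p := by
    rw [hw, orderOf_pow_of_dvd (pow_ne_zero _ hpp.ne_zero) (by rw [hord]; exact pow_dvd_pow p (Nat.le_succ a)), hord,
      pow_succ]
    exact Nat.mul_div_cancel_left p (pow_pos hpp.pos a)
  have hgnorm : ∀ x : K, x * g * x⁻¹ ∈ Subgroup.zpowers g := by
    intro x
    rw [← hPz]
    exact hn.conj_mem g hg x
  haveI hΩn : (Subgroup.zpowers w).Normal := by
    refine ⟨?_⟩
    rintro y ⟨i, rfl⟩ x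
    simp only
    rw [← conj_zpow]
    refine Subgroup.zpow_mem _ ?_ i
    obtain ⟨j, hj⟩ := hgnorm x
    rw [hw, ← conj_pow]
    simp only at hj
    have h9 : (g ^ j) ^ (p ^ a) = (g ^ (p ^ a)) ^ j := by
      rw [← zpow_natCast, ← zpow_mul, mul_comm, zpow_mul, zpow_natCast]
    rw [← hj, h9]
    exact Subgroup.zpow_mem _ (Subgroup.mem_zpowers _) j
  let ψ : K →* MulAut (Subgroup.zpowers w) := MulAut.conjNormal
  have hPab : ∀ u ∈ (P : Subgroup K), ∀ v ∈ (P : Subgroup K), u * v = v * u := by
    intro u hu v hv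
    rw [hPz] at hu hv
    obtain ⟨i, rfl⟩ := hu
    obtain ⟨j, rfl⟩ := hv
    simp only
    exact (Commute.refl g).zpow_zpow i j
  have hwP : w ∈ (P : Subgroup K) := (P : Subgroup K).pow_mem hg _
  have hψP : ∀ x ∈ (P : Subgroup K), ψ x = 1 := by
    intro x hx
    ext ⟨y, hy⟩
    obtain ⟨i, rfl⟩ := hy
    simp only [ψ, MulAut.conjNormal_apply, MulAut.one_apply]
    have : (w ^ i) ∈ (P : Subgroup K) := (P : Subgroup K).zpow_mem hwP i
    rw [hPab x hx _ this]
    group
  let f : K ⧸ (P : Subgroup K) →* MulAut (Subgroup.zpowers w) := QuotientGroup.lift _ ψ hψP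
  have hfinj : Function.Injective f := by
    rw [injective_iff_map_eq_one]
    intro q
    induction q using QuotientGroup.induction_on with
    | H x =>
    intro hx
    have h1 : ψ x = 1 := hx
    have h2 : x * w * x⁻¹ = w := by
      have := congrArg (fun φ : MulAut (Subgroup.zpowers w) => ((φ ⟨w, Subgroup.mem_zpowers w⟩ : Subgroup.zpowers w) : K)) h1
      simpa [ψ, MulAut.conjNormal_apply] using this
    have hm : Nat.Coprime (P : Subgroup K).index p := by
      rw [Nat.coprime_comm, Nat.Prime.coprime_iff_not_dvd hpp]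
      exact P.not_dvd_index
    have hxm : x ^ (P : Subgroup K).index * g = g * x ^ (P : Subgroup K).index :=
      hPab _ (Subgroup.pow_index_mem _ x) _ hg
    have h3 := cyc_omega' p hpp g x a hord (hgnorm x) _ hm hxm h2
    have hxC : x ∈ Subgroup.centralizer ((P : Subgroup K) : Set K) := by
      rw [Subgroup.mem_centralizer_iff]
      intro y hy
      rw [SetLike.mem_coe, hPz] at hy
      obtain ⟨i, rfl⟩ := hy
      have h4 : Commute x g := by
        show x * g = g * x
        calc x * g = (x * g * x⁻¹) * x := by group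
          _ = g * x := by rw [h3]
      exact (h4.zpow_right i).symm.eq
    rw [hC] at hxC
    exact (QuotientGroup.eq_one_iff x).2 hxC
  have hΩcard : Nat.card (Subgroup.zpowers w) = p := by rw [Nat.card_zpowers, hword]
  have hcycU : IsCyclic (ZMod (Nat.card (Subgroup.zpowers w)))ˣ := by
    rw [hΩcard]; infer_instance
  have hcycA : IsCyclic (MulAut (Subgroup.zpowers w)) :=
    isCyclic_of_injective (IsCyclic.mulAutMulEquiv (Subgroup.zpowers w)).toMonoidHom
      (IsCyclic.mulAutMulEquiv (Subgroup.zpowers w)).injective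
  refine ⟨isCyclic_of_injective f hfinj, ?_⟩
  have h1 := Subgroup.card_dvd_of_injective f hfinj
  rw [IsCyclic.card_mulAut, hΩcard, Nat.totient_prime hpp] at h1
  exact h1


/-- Let K be a finite group, p a prime dividing its order with O_{p'}(K) = 1 (no nontrivial normal subgroup of order prime to p), and P a cyclic Sylow p-subgroup of K. Then either P is normal and self-centralizing in K with K/P cyclic of order dividing p − 1 (so K is the semidirect product of P by a group of automorphisms of P of order dividing p − 1), or the generalized Fitting subgroup F*(K) is a non-abelian simple group and p does not divide the index of F*(K) in K. -/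
theorem result {K : Type*} [Group K] [Finite K] (p : ℕ) [Fact p.Prime] (hp : p ∣ Nat.card K) (hO : Cfsg.pPrimeCore p K = ⊥)
    (P : Sylow p K) (hP : IsCyclic ↥(P : Subgroup K)) :
    ((P : Subgroup K).Normal ∧ Subgroup.centralizer ((P : Subgroup K) : Set K) = (P : Subgroup K) ∧
      (∀ (_ : (P : Subgroup K).Normal), IsCyclic (K ⧸ (P : Subgroup K))) ∧ (P : Subgroup K).index ∣ p - 1) ∨
    (IsSimpleGroup ↥(Cfsg.generalizedFittingSubgroup K) ∧ ¬ IsMulCommutative ↥(Cfsg.generalizedFittingSubgroup K) ∧
      ¬ p ∣ (Cfsg.generalizedFittingSubgroup K).index) := by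
  classical
  have hpp : p.Prime := Fact.out
  haveI hFn : (fittingSubgroup K).Normal := FitCore.fitting_normal
  -- every `p`-subgroup is cyclic
  have hcyc : ∀ R : Subgroup K, IsPGroup p R → IsCyclic R := by
    intro R hR
    obtain ⟨Q, hQ⟩ := hR.exists_le_sylow
    have h1 : IsCyclic ↥(Q : Subgroup K) := isCyclic_of_surjective (Sylow.equiv P Q) (Sylow.equiv P Q).surjective
    exact isCyclic_of_injective (Subgroup.inclusion hQ) (Subgroup.inclusion_injective hQ)
  have hFp : IsPGroup p (fittingSubgroup K) := fitting_isPGroup' p hO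
  have hFP : fittingSubgroup K ≤ (P : Subgroup K) :=
    (FitCore.le_pCore p _ hFn hFp).trans (FitCore.pCore_le_sylow p P)
  by_cases hE : layer K = ⊥
  · left
    have hCF : Subgroup.centralizer ((fittingSubgroup K : Subgroup K) : Set K) ≤ fittingSubgroup K := by
      have := Comps.bender (G := K)
      rwa [Comps.genFitting_eq_of_layer_eq_bot hE] at this
    haveI hFc : IsCyclic (fittingSubgroup K) := hcyc _ hFp
    obtain ⟨⟨f, hf⟩, hfgen⟩ := hFc.exists_generator
    have hFz : fittingSubgroup K = Subgroup.zpowers f := by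
      apply le_antisymm
      · intro y hy
        obtain ⟨n, hn'⟩ := hfgen ⟨y, hy⟩
        refine ⟨n, ?_⟩
        have := congrArg Subtype.val hn'
        simpa using this
      · rw [Subgroup.zpowers_le]; exact hf
    have hfnorm : ∀ x : K, ∃ i : ℤ, f ^ i = x * f * x⁻¹ := by
      intro x
      have : x * f * x⁻¹ ∈ Subgroup.zpowers f := by
        rw [← hFz]
        exact hFn.conj_mem f hf x
      exact this
    have hH : ∀ u v : K, (u * v) * f * (u * v)⁻¹ = (v * u) * f * (v * u)⁻¹ := by
      intro u v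
      obtain ⟨i, hi⟩ := hfnorm u
      obtain ⟨j, hj⟩ := hfnorm v
      have h1 : (u * v) * f * (u * v)⁻¹ = u * (v * f * v⁻¹) * u⁻¹ := by group
      have h2 : (v * u) * f * (v * u)⁻¹ = v * (u * f * u⁻¹) * v⁻¹ := by group
      rw [h1, h2, ← hi, ← hj, ← conj_zpow, ← conj_zpow, ← hi, ← hj, ← zpow_mul, ← zpow_mul, mul_comm]
    have hcomm : ∀ x y : K, x * y * x⁻¹ * y⁻¹ ∈ fittingSubgroup K := by
      intro x y
      apply hCF
      rw [Subgroup.mem_centralizer_iff]
      intro h hh
      rw [SetLike.mem_coe, hFz] at hh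
      obtain ⟨i, rfl⟩ := hh
      have h1 : (x * y * x⁻¹ * y⁻¹) * f * (x * y * x⁻¹ * y⁻¹)⁻¹ = f := by
        have h2 := hH x⁻¹ y⁻¹
        have h3 : (x * y * x⁻¹ * y⁻¹) * f * (x * y * x⁻¹ * y⁻¹)⁻¹ =
            (x * y) * ((x⁻¹ * y⁻¹) * f * (x⁻¹ * y⁻¹)⁻¹) * (x * y)⁻¹ := by group
        rw [h3, h2]
        group
      have h4 : Commute (x * y * x⁻¹ * y⁻¹) f := by
        show (x * y * x⁻¹ * y⁻¹) * f = f * (x * y * x⁻¹ * y⁻¹)
        calc (x * y * x⁻¹ * y⁻¹) * f = ((x * y * x⁻¹ * y⁻¹) * f * (x * y * x⁻¹ * y⁻¹)⁻¹) * (x * y * x⁻¹ * y⁻¹) := by group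
          _ = f * (x * y * x⁻¹ * y⁻¹) := by rw [h1]
      exact (h4.zpow_right i).symm.eq
    have hPn : (P : Subgroup K).Normal := by
      refine ⟨?_⟩
      intro y hy x
      have h1 : x * y * x⁻¹ = (x * y * x⁻¹ * y⁻¹) * y := by group
      rw [h1]
      exact (P : Subgroup K).mul_mem (hFP (hcomm x y)) hy
    have hPF : (P : Subgroup K) ≤ fittingSubgroup K :=
      FitCore.le_fitting _ hPn P.isPGroup'.isNilpotent
    have hPeq : (P : Subgroup K) = fittingSubgroup K := le_antisymm hPF hFP
    have hCeq : Subgroup.centralizer ((P : Subgroup K) : Set K) = (P : Subgroup K) := by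
      apply le_antisymm
      · rw [hPeq]; exact hCF
      · intro a ha
        rw [Subgroup.mem_centralizer_iff]
        intro b hb
        rw [SetLike.mem_coe, hPeq, hFz] at hb
        rw [hPeq, hFz] at ha
        obtain ⟨i, rfl⟩ := ha
        obtain ⟨j, rfl⟩ := hb
        exact (Commute.refl f).zpow_zpow j i
    have hcase := case_normal p hp P hP hCeq
    exact ⟨hPn, hCeq, fun _ => hcase.1, hcase.2⟩
  · right
    obtain ⟨L, hL⟩ : ∃ L : Subgroup K, IsComponent L := by
      by_contra hcon
      push Not at hcon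
      apply hE
      rw [layer, le_bot_iff.symm]
      exact sSup_le (fun L hL => absurd hL (hcon L))
    have hdiv : ∀ L : Subgroup K, IsComponent L → p ∣ Nat.card L := by
      intro L hL
      by_contra hnd
      have h2 := PComps.le_pPrimeCore_of_subnormal (p := p) hL.1 (Nat.Coprime.symm ((Nat.Prime.coprime_iff_not_dvd hpp).2 hnd))
      rw [hO, le_bot_iff] at h2
      exact Comps.comp_ne_bot hL h2
    have hZ : ∀ L : Subgroup K, IsComponent L → ¬ p ∣ Nat.card (Subgroup.center L) := by
      intro L hL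
      apply lemma_t' p (Group.isPerfect_def.mp hL.2.1)
      intro S a ha b hb
      have hSm : IsPGroup p ((S : Subgroup L).map L.subtype) := S.isPGroup'.map _
      haveI hSc := hcyc _ hSm
      have hc := (IsCyclic.isMulCommutative (α := ↥((S : Subgroup L).map L.subtype))).is_comm.comm
        ⟨(a : K), ⟨a, ha, rfl⟩⟩ ⟨(b : K), ⟨b, hb, rfl⟩⟩
      have hc' : (a : K) * (b : K) = (b : K) * (a : K) := congrArg Subtype.val hc
      exact Subtype.ext hc'
    -- uniqueness of the component
    have huniq : ∀ L' : Subgroup K, IsComponent L' → L' = L := by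
      intro L' hL'
      rcases Comps.comp_comm_comp hL hL' with h | h
      · exact h.symm
      · exfalso
        rw [Subgroup.commutator_eq_bot_iff_le_centralizer] at h
        have hc : ∀ a ∈ L, ∀ b ∈ L', a * b = b * a := fun a ha b hb =>
          (Subgroup.mem_centralizer_iff.mp (h ha) b hb).symm
        obtain ⟨w, hw1, hw2, hwo⟩ := inter_ne_bot' p hcyc L L' hc (hdiv L hL) (hdiv L' hL')
        have hwc : (⟨w, hw1⟩ : L) ∈ Subgroup.center L := by
          rw [Subgroup.mem_center_iff]
          rintro ⟨a, ha⟩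
          exact Subtype.ext (hc a ha w hw2)
        apply hZ L hL
        have := orderOf_dvd_natCard (⟨⟨w, hw1⟩, hwc⟩ : Subgroup.center L)
        rw [Subgroup.orderOf_mk, Subgroup.orderOf_mk, hwo] at this
        exact this
    have hEL : layer K = L := by
      apply le_antisymm
      · exact sSup_le (fun L' hL' => (huniq L' hL').le)
      · exact le_sSup hL
    haveI hLn : L.Normal := by
      rw [← hEL]
      haveI := Layer.layer_characteristic K
      infer_instance
    -- the centre of `L` is trivial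
    have hZL : Subgroup.center L = ⊥ := by
      have hn : ((Subgroup.center L).map L.subtype).Normal := FitCore.map_subtype_normal_of_char L _
      have hc : (Nat.card ((Subgroup.center L).map L.subtype)).Coprime p := by
        rw [Subgroup.card_map_of_injective L.subtype_injective, Nat.coprime_comm, Nat.Prime.coprime_iff_not_dvd hpp]
        exact hZ L hL
      have h1 : (Subgroup.center L).map L.subtype ≤ pPrimeCore p K := le_sSup ⟨hn, hc⟩
      rw [hO, le_bot_iff] at h1
      exact (Subgroup.map_eq_bot_iff_of_injective _ L.subtype_injective).mp h1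
    have hsimple : IsSimpleGroup ↥L := by
      haveI h1 : IsSimpleGroup (↥L ⧸ Subgroup.center L) := hL.2.2
      let e : (↥L ⧸ Subgroup.center L) ≃* ↥L :=
        (QuotientGroup.quotientMulEquivOfEq hZL).trans QuotientGroup.quotientBot
      exact e.symm.isSimpleGroup
    -- the Fitting subgroup is trivial
    have hF1 : fittingSubgroup K = ⊥ := by
      by_contra hne
      have hd : p ∣ Nat.card (fittingSubgroup K) := by
        rcases hFp.card_eq_or_dvd with h | h
        · exact absurd (Subgroup.eq_bot_of_card_eq _ h) hne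
        · exact h
      have hc0 := Comps.comp_comm_fitting hL
      rw [Subgroup.commutator_eq_bot_iff_le_centralizer] at hc0
      have hc : ∀ a ∈ L, ∀ b ∈ fittingSubgroup K, a * b = b * a := fun a ha b hb =>
        (Subgroup.mem_centralizer_iff.mp (hc0 ha) b hb).symm
      obtain ⟨w, hw1, hw2, hwo⟩ := inter_ne_bot' p hcyc L _ hc (hdiv L hL) hd
      have hwc : (⟨w, hw1⟩ : L) ∈ Subgroup.center L := by
        rw [Subgroup.mem_center_iff]
        rintro ⟨a, ha⟩
        exact Subtype.ext (hc a ha w hw2)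
      rw [hZL, Subgroup.mem_bot] at hwc
      have hw1' : w = 1 := congrArg Subtype.val hwc
      rw [hw1', orderOf_one] at hwo
      exact hpp.one_lt.ne hwo
    have hFs : generalizedFittingSubgroup K = L := by
      rw [generalizedFittingSubgroup, hEL, hF1, sup_bot_eq]
    rw [hFs]
    refine ⟨hsimple, Comps.not_isMulCommutative_of_quasisimple hL.2, ?_⟩
    have hPL : (P : Subgroup K) ≤ L := by
      obtain ⟨⟨g, hg⟩, hgen⟩ := hP.exists_generator
      have hPz : (P : Subgroup K) = Subgroup.zpowers g := by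
        apply le_antisymm
        · intro y hy
          obtain ⟨n, hn'⟩ := hgen ⟨y, hy⟩
          refine ⟨n, ?_⟩
          have := congrArg Subtype.val hn'
          simpa using this
        · rw [Subgroup.zpowers_le]; exact hg
      obtain ⟨b, hb⟩ := IsPGroup.iff_card.mp P.isPGroup'
      have hord : orderOf g = p ^ b := by
        rw [← hb, hPz, Nat.card_zpowers]
      have hPab : ∀ u ∈ (P : Subgroup K), ∀ v ∈ (P : Subgroup K), u * v = v * u := by
        intro u hu v hv
        rw [hPz] at hu hv
        obtain ⟨i, rfl⟩ := hu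
        obtain ⟨j, rfl⟩ := hv
        exact (Commute.refl g).zpow_zpow i j
      set H : Subgroup K := L ⊔ (P : Subgroup K) with hH
      have hLH : L ≤ H := le_sup_left
      have hPH : (P : Subgroup K) ≤ H := le_sup_right
      have hcomm : ∀ x ∈ H, g⁻¹ * (x * g * x⁻¹) ∈ L := by
        intro x hx
        obtain ⟨l, hl, y, hy, rfl⟩ := Subgroup.mem_sup_of_normal_left.1 hx
        have h1 : y * g * y⁻¹ = g := by rw [hPab y hy g hg]; group
        have h3 : g⁻¹ * ((l * y) * g * (l * y)⁻¹) = (g⁻¹ * l * g⁻¹⁻¹) * l⁻¹ := by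
          have h4 : (l * y) * g * (l * y)⁻¹ = l * (y * g * y⁻¹) * l⁻¹ := by group
          rw [h4, h1]; group
        rw [h3]
        exact L.mul_mem (hLn.conj_mem l hl g⁻¹) (L.inv_mem hl)
      by_cases hcase : ∃ x ∈ H, x ∈ Subgroup.normalizer ((P : Subgroup K) : Set K) ∧ x * g * x⁻¹ ≠ g
      · obtain ⟨x, hxH, hxN, hxg⟩ := hcase
        haveI hn0 : ((P : Subgroup K).subgroupOf (Subgroup.normalizer ((P : Subgroup K) : Set K))).Normal :=
          Subgroup.normal_in_normalizer
        set m := ((P : Subgroup K).subgroupOf (Subgroup.normalizer ((P : Subgroup K) : Set K))).index with hmd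
        have hxm : x ^ m ∈ (P : Subgroup K) := by
          have := Subgroup.pow_index_mem ((P : Subgroup K).subgroupOf (Subgroup.normalizer ((P : Subgroup K) : Set K))) (⟨x, hxN⟩ : Subgroup.normalizer ((P : Subgroup K) : Set K))
          rw [Subgroup.mem_subgroupOf] at this
          rw [hmd]
          simpa using this
        have hm : m.Coprime p := by
          rw [Nat.coprime_comm, Nat.Prime.coprime_iff_not_dvd hpp]
          intro h
          exact P.not_dvd_index (h.trans (Subgroup.relIndex_dvd_index_of_le Subgroup.le_normalizer))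
        have hgx : x * g * x⁻¹ ∈ Subgroup.zpowers g := by
          rw [← hPz]
          exact (Subgroup.mem_normalizer_iff.mp hxN g).mp hg
        rcases cyc_dich' p hpp g x b hord hgx m hm (hPab _ hxm _ hg) with h | h
        · exact absurd h hxg
        · rw [hPz, Subgroup.zpowers_le]
          exact (Subgroup.zpowers_le.mpr (hcomm x hxH)) h
      · push Not at hcase
        exfalso
        let P' : Sylow p H := P.subtype hPH
        have hP'c : (P' : Subgroup H) = (P : Subgroup K).subgroupOf H := Sylow.coe_subtype _ _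
        have hN' : Subgroup.normalizer ((P' : Subgroup H) : Set H) ≤ Subgroup.centralizer ((P' : Subgroup H) : Set H) := by
          intro x hx
          rw [Subgroup.mem_centralizer_iff]
          intro y hy
          have hxN : (x : K) ∈ Subgroup.normalizer ((P : Subgroup K) : Set K) := by
            rw [Subgroup.mem_normalizer_iff]
            intro h
            constructor
            · intro hh
              have h1 : (⟨h, hPH hh⟩ : H) ∈ (P' : Subgroup H) := by
                rw [hP'c]; exact Subgroup.mem_subgroupOf.2 hh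
              have h2 := (Subgroup.mem_normalizer_iff.mp hx _).mp h1
              rw [hP'c, Subgroup.mem_subgroupOf] at h2
              simpa using h2
            · intro hh
              have hhH : h ∈ H := by
                have h3 : h = (x : K)⁻¹ * ((x : K) * h * (x : K)⁻¹) * (x : K) := by group
                rw [h3]
                exact H.mul_mem (H.mul_mem (H.inv_mem x.2) (hPH hh)) x.2
              have h1 : x * (⟨h, hhH⟩ : H) * x⁻¹ ∈ (P' : Subgroup H) := by
                rw [hP'c]
                exact Subgroup.mem_subgroupOf.2 hh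
              have h2 := (Subgroup.mem_normalizer_iff.mp hx _).mpr h1
              rw [hP'c, Subgroup.mem_subgroupOf] at h2
              exact h2
          have h1 := hcase x x.2 hxN
          rw [SetLike.mem_coe, hP'c, Subgroup.mem_subgroupOf, hPz] at hy
          obtain ⟨i, hi⟩ := hy
          have h4 : Commute (x : K) g := by
            show (x : K) * g = g * x
            calc (x : K) * g = ((x : K) * g * (x : K)⁻¹) * x := by group
              _ = g * x := by rw [h1]
          have h5 : (y : K) * x = x * y := by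
            rw [← hi]
            exact (h4.zpow_right i).symm.eq
          exact Subtype.ext h5
        obtain ⟨Q, N, hNn, hc⟩ := PNilpB.npc_of_normalizer_le P' hN'
        have hNidx : N.index = Nat.card Q := hc.symm.index_eq_card
        have hNc : (Q : Subgroup H).index = Nat.card N := hc.index_eq_card
        have hqp : IsPGroup p (↥H ⧸ N) := by
          obtain ⟨n, hn⟩ := IsPGroup.iff_card.mp Q.isPGroup'
          refine IsPGroup.of_card (n := n) ?_
          rw [← hn, ← hNidx]
          rfl
        haveI hqn : Group.IsNilpotent (↥H ⧸ N) := hqp.isNilpotent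
        let π' : ↥L →* ↥H ⧸ N := (QuotientGroup.mk' N).comp (Subgroup.inclusion hLH)
        have hRc : ⁅π'.range, π'.range⁆ = π'.range := by
          rw [MonoidHom.range_eq_map, ← Subgroup.map_commutator, ← commutator_def, Group.isPerfect_def.mp hL.2.1]
        have hR1 : π'.range = ⊥ := by
          by_contra hne
          exact (IsSolvable.commutator_lt_of_ne_bot hne).ne hRc
        have hLN : L.subgroupOf H ≤ N := by
          intro y hy
          have hyL : (y : K) ∈ L := Subgroup.mem_subgroupOf.1 hy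
          have h1 : π' ⟨y, hyL⟩ = 1 := MonoidHom.range_eq_bot_iff.mp hR1 ▸ rfl
          exact (QuotientGroup.eq_one_iff _).1 h1
        have hd1 : Nat.card (L.subgroupOf H) ∣ Nat.card N := Subgroup.card_dvd_of_le hLN
        have hd2 : Nat.card (L.subgroupOf H) = Nat.card L :=
          Nat.card_congr (Subgroup.subgroupOfEquivOfLe hLH).toEquiv
        rw [hd2, ← hNc] at hd1
        exact Q.not_dvd_index ((hdiv L hL).trans hd1)
    exact fun hd => P.not_dvd_index (hd.trans (Subgroup.index_dvd_of_le hPL))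

end Cfsg.Agent.S4403
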