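import Mathlib
import Cfsg.Statements.S4406
-- import your own Cfsg.Agent.* helpers here

set_option autoImplicit false
open Cfsg

namespace Cfsg.Agent.S4406


set_option maxRecDepth 100000

abbrev A4x := ↥(alternatingGroup (Fin 4))
abbrev G := A4x × A4x

def P4406 (a b x₁ y₁ x₂ y₂ : A4x) : Prop :=
  (((a * x₁ * a⁻¹ = x₁ ∧ b * x₂ * b⁻¹ = x₂) ∨ (a * x₁ * a⁻¹ = y₁ ∧ b * x₂ * b⁻¹ = y₂) ∨ (a * x₁ * a⁻¹ = x₁ * y₁ ∧ b * x₂ * b⁻¹ = x₂ * y₂)) ∧
     ((a * y₁ * a⁻¹ = x₁ ∧ b * y₂ * b⁻¹ = x₂) ∨ (a * y₁ * a⁻¹ = y₁ ∧ b * y₂ * b⁻¹ = y₂) ∨ (a * y₁ * a⁻¹ = x₁ * y₁ ∧ b * y₂ * b⁻¹ = x₂ * y₂)))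

instance (a b x₁ y₁ x₂ y₂ : A4x) : Decidable (P4406 a b x₁ y₁ x₂ y₂) := by
  unfold P4406; infer_instance

set_option synthInstance.maxHeartbeats 0 in
set_option synthInstance.maxSize 100000 in
theorem check4406 : ∀ a : A4x, a ^ 3 = 1 → a ≠ 1 → ∀ b : A4x, b ^ 3 = 1 → b ≠ 1 →
    ∀ x₁ : A4x, x₁ ^ 2 = 1 → x₁ ≠ 1 → ∀ y₁ : A4x, y₁ ^ 2 = 1 → y₁ ≠ 1 → x₁ ≠ y₁ →
    ∀ x₂ : A4x, x₂ ^ 2 = 1 → x₂ ≠ 1 → ∀ y₂ : A4x, y₂ ^ 2 = 1 → y₂ ≠ 1 → x₂ ≠ y₂ →
    P4406 a b x₁ y₁ x₂ y₂ ∨ P4406 a b⁻¹ x₁ y₁ x₂ y₂ := by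
  decide +kernel

theorem pow2_a4 : ∀ x : A4x, x ^ 4 = 1 → x ^ 2 = 1 := by decide +kernel
theorem pow3_a4 : ∀ x : A4x, x ^ 9 = 1 → x ^ 3 = 1 := by decide +kernel

theorem pow_reduce {q : ℕ} (h : ∀ x : A4x, x ^ (q * q) = 1 → x ^ q = 1) :
    ∀ (k : ℕ) (x : A4x), x ^ (q ^ k) = 1 → x ^ q = 1 := by
  intro k
  induction k with
  | zero => intro x hx; simp at hx; simp [hx]
  | succ k ih =>
    intro x hx
    apply h
    have h2 := ih (x ^ q) (by rw [← pow_mul, ← hx, pow_succ']) 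
    rw [← pow_mul] at h2
    exact h2

theorem card_a4 : Nat.card A4x = 12 := by
  rw [Nat.card_eq_fintype_card]; decide +kernel

theorem sub_card_le (S : Subgroup A4x) (hS : ∀ x ∈ S, x ^ 3 = 1) : Nat.card S ≤ 3 := by
  have h3 : IsPGroup 3 S := by
    intro g
    exact ⟨1, Subtype.ext (by simpa using hS g.1 g.2)⟩
  obtain ⟨k, hk⟩ := IsPGroup.iff_card.1 h3
  have hd : Nat.card S ∣ 12 := card_a4 ▸ Subgroup.card_subgroup_dvd_card S
  rw [hk] at hd ⊢
  have hk2 : k ≤ 1 := by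
    by_contra hk3
    push Not at hk3
    have : 3 ^ 2 ∣ 3 ^ k := pow_dvd_pow 3 hk3
    have := this.trans hd
    omega
  interval_cases k <;> norm_num


/-- In the direct product P = A₄ × A₄, let X be the Sylow 2-subgroup, X₁ and X₂ its intersections with the two direct factors, Q a Sylow 3-subgroup and Q₁, Q₂ its intersections with the two factors. Then every subgroup B of X of order 4 either meets X₁ or X₂ nontrivially, or is normalized by one of the two subgroups of Q of order 3 other than Q₁ and Q₂. -/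
theorem result
    (X : Sylow 2 (↥(alternatingGroup (Fin 4)) × ↥(alternatingGroup (Fin 4))))
    (Q : Sylow 3 (↥(alternatingGroup (Fin 4)) × ↥(alternatingGroup (Fin 4))))
    (B : Subgroup (↥(alternatingGroup (Fin 4)) × ↥(alternatingGroup (Fin 4)))) (hBX : B ≤ (X : Subgroup _)) (hB4 : Nat.card ↥B = 4) :
    B ⊓ ((X : Subgroup _) ⊓ Subgroup.prod ⊤ ⊥) ≠ ⊥ ∨ B ⊓ ((X : Subgroup _) ⊓ Subgroup.prod ⊥ ⊤) ≠ ⊥ ∨
      ∃ R : Subgroup (↥(alternatingGroup (Fin 4)) × ↥(alternatingGroup (Fin 4))), R ≤ (Q : Subgroup _) ∧ Nat.card ↥R = 3 ∧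
        R ≠ (Q : Subgroup _) ⊓ Subgroup.prod ⊤ ⊥ ∧ R ≠ (Q : Subgroup _) ⊓ Subgroup.prod ⊥ ⊤ ∧ R ≤ Subgroup.normalizer (B : Set _) := by
  classical
  have hX2 : ∀ h ∈ (X : Subgroup G), h.1 ^ 2 = 1 ∧ h.2 ^ 2 = 1 := by
    intro h hh
    obtain ⟨k, hk⟩ := X.isPGroup' ⟨h, hh⟩
    have hk' : h ^ (2 ^ k) = 1 := by simpa using congrArg Subtype.val hk
    have hk1 : h.1 ^ (2 ^ k) = 1 := by simpa using congrArg Prod.fst hk'
    have hk2 : h.2 ^ (2 ^ k) = 1 := by simpa using congrArg Prod.snd hk'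
    exact ⟨pow_reduce pow2_a4 k _ hk1, pow_reduce pow2_a4 k _ hk2⟩
  have hQ3 : ∀ h ∈ (Q : Subgroup G), h.1 ^ 3 = 1 ∧ h.2 ^ 3 = 1 := by
    intro h hh
    obtain ⟨k, hk⟩ := Q.isPGroup' ⟨h, hh⟩
    have hk' : h ^ (3 ^ k) = 1 := by simpa using congrArg Subtype.val hk
    have hk1 : h.1 ^ (3 ^ k) = 1 := by simpa using congrArg Prod.fst hk'
    have hk2 : h.2 ^ (3 ^ k) = 1 := by simpa using congrArg Prod.snd hk'
    exact ⟨pow_reduce pow3_a4 k _ hk1, pow_reduce pow3_a4 k _ hk2⟩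
  by_cases hb1 : B ⊓ ((X : Subgroup G) ⊓ Subgroup.prod ⊤ ⊥) ≠ ⊥
  · exact Or.inl hb1
  by_cases hb2 : B ⊓ ((X : Subgroup G) ⊓ Subgroup.prod ⊥ ⊤) ≠ ⊥
  · exact Or.inr (Or.inl hb2)
  right; right
  rw [not_not] at hb1 hb2
  -- components
  have hcomp : ∀ h ∈ B, h ≠ 1 → h.1 ≠ 1 ∧ h.2 ≠ 1 := by
    intro h hh hne
    constructor
    · intro h1
      have : h ∈ B ⊓ ((X : Subgroup G) ⊓ Subgroup.prod ⊥ ⊤) := by
        refine ⟨hh, hBX hh, ?_⟩
        simp [Subgroup.mem_prod, h1]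
      rw [hb2] at this
      exact hne this
    · intro h1
      have : h ∈ B ⊓ ((X : Subgroup G) ⊓ Subgroup.prod ⊤ ⊥) := by
        refine ⟨hh, hBX hh, ?_⟩
        simp [Subgroup.mem_prod, h1]
      rw [hb1] at this
      exact hne this
  -- elements of B
  have hsq : ∀ h ∈ B, h * h = 1 := by
    intro h hh
    have := hX2 h (hBX hh)
    ext1
    · simpa [pow_two] using this.1
    · simpa [pow_two] using this.2
  haveI : Finite ↥B := inferInstance
  have hexT : ∀ T : Finset G, T.card < 4 → ∃ u ∈ B, u ∉ T := by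
    intro T hT
    by_contra h
    push Not at h
    have h1 : (B : Set G) ⊆ (T : Set G) := fun u hu => h u hu
    have h2 : (B : Set G).ncard ≤ T.card := by
      calc _ ≤ (T : Set G).ncard := Set.ncard_le_ncard h1 T.finite_toSet
        _ = T.card := Set.ncard_coe_finset T
    have h3 : Nat.card ↥B = (B : Set G).ncard := Nat.card_coe_set_eq _
    omega
  have hex : ∃ x ∈ B, ∃ y ∈ B, x ≠ 1 ∧ y ≠ 1 ∧ x ≠ y := by
    obtain ⟨x, hx, hx1⟩ := hexT {1} (by simp)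
    obtain ⟨y, hy, hy1⟩ := hexT {1, x} (by
      have := Finset.card_le_two (a := (1 : G)) (b := x)
      omega)
    simp only [Finset.mem_singleton, Finset.mem_insert, not_or] at hx1 hy1
    exact ⟨x, hx, y, hy, hx1, hy1.1, fun h => hy1.2 h.symm⟩
  obtain ⟨x, hx, y, hy, hx1, hy1, hxy⟩ := hex
  have hxy1 : x * y ≠ 1 := by
    intro h
    apply hxy
    have := hsq y hy
    calc x = x * (y * y) := by rw [this, mul_one]
      _ = (x * y) * y := by group
      _ = y := by rw [h, one_mul]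
  have hxyx : x * y ≠ x := by
    intro h
    exact hy1 (by simpa using h)
  have hxyy : x * y ≠ y := by
    intro h
    exact hx1 (by simpa using h)
  have hB4 : ∀ h ∈ B, h = 1 ∨ h = x ∨ h = y ∨ h = x * y := by
    let T : Finset G := {1, x, y, x * y}
    have hT : T.card = 4 := by
      rw [Finset.card_insert_of_notMem, Finset.card_insert_of_notMem, Finset.card_insert_of_notMem, Finset.card_singleton]
      · simpa using hxyy.symm
      · simp only [Finset.mem_insert, Finset.mem_singleton, not_or]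
        exact ⟨hxy, hxyx.symm⟩
      · simp only [Finset.mem_insert, Finset.mem_singleton, not_or]
        exact ⟨hx1.symm, hy1.symm, hxy1.symm⟩
    have hsub : (T : Set G) ⊆ (B : Set G) := by
      intro u hu
      simp only [T, Finset.coe_insert, Finset.coe_singleton, Set.mem_insert_iff, Set.mem_singleton_iff] at hu
      rcases hu with rfl | rfl | rfl | rfl
      · exact B.one_mem
      · exact hx
      · exact hy
      · exact B.mul_mem hx hy
    have heq : (T : Set G) = (B : Set G) := by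
      apply Set.eq_of_subset_of_ncard_le hsub
      rw [Set.ncard_coe_finset, hT]
      have : Nat.card ↥B = (B : Set G).ncard := Nat.card_coe_set_eq _
      omega
    intro h hh
    have : h ∈ (T : Set G) := by rw [heq]; exact hh
    simpa [T] using this
  -- Q
  have hQ9 : 9 ≤ Nat.card ↥(Q : Subgroup G) := by
    have hcG : Nat.card G = 144 := by
      rw [Nat.card_prod, card_a4]
    have h9 : 3 ^ 2 ∣ Nat.card ↥(Q : Subgroup G) :=
      Q.pow_dvd_card_of_pow_dvd_card (by rw [hcG]; norm_num)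
    exact Nat.le_of_dvd Nat.card_pos (by simpa using h9)
  set S₁ := (Q : Subgroup G).map (MonoidHom.fst _ _) with hS₁
  set S₂ := (Q : Subgroup G).map (MonoidHom.snd _ _) with hS₂
  have hS₁3 : Nat.card S₁ ≤ 3 := sub_card_le S₁ (by
    rintro _ ⟨h, hh, rfl⟩
    exact (hQ3 h hh).1)
  have hS₂3 : Nat.card S₂ ≤ 3 := sub_card_le S₂ (by
    rintro _ ⟨h, hh, rfl⟩
    exact (hQ3 h hh).2)
  have hle : (Q : Subgroup G) ≤ Subgroup.prod S₁ S₂ := by
    intro h hh
    exact ⟨⟨h, hh, rfl⟩, ⟨h, hh, rfl⟩⟩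
  have hcard : Nat.card ↥(Subgroup.prod S₁ S₂) = Nat.card S₁ * Nat.card S₂ := by
    rw [Nat.card_congr (Subgroup.prodEquiv S₁ S₂).toEquiv, Nat.card_prod]
  have hle' : Nat.card ↥(Q : Subgroup G) ≤ Nat.card S₁ * Nat.card S₂ := by
    rw [← hcard]
    exact Subgroup.card_le_of_le hle
  have hS₁pos : 0 < Nat.card S₁ := Nat.card_pos
  have hS₂pos : 0 < Nat.card S₂ := Nat.card_pos
  have hS₁eq : Nat.card S₁ = 3 := by
    by_contra hne
    have : Nat.card S₁ ≤ 2 := by omega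
    have : Nat.card S₁ * Nat.card S₂ ≤ 2 * 3 := Nat.mul_le_mul this hS₂3
    omega
  have hS₂eq : Nat.card S₂ = 3 := by
    by_contra hne
    have : Nat.card S₂ ≤ 2 := by omega
    have : Nat.card S₁ * Nat.card S₂ ≤ 3 * 2 := Nat.mul_le_mul hS₁3 this
    omega
  have hQeq : (Q : Subgroup G) = Subgroup.prod S₁ S₂ := by
    apply Subgroup.eq_of_le_of_card_ge hle
    rw [hcard, hS₁eq, hS₂eq]
    exact hQ9
  have hex1 : ∃ a ∈ S₁, a ≠ 1 := by
    have h1 : 1 < Nat.card S₁ := by omega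
    haveI := Finite.one_lt_card_iff_nontrivial.1 h1
    obtain ⟨⟨u, hu⟩, hu1⟩ := exists_ne (1 : ↥S₁)
    exact ⟨u, hu, fun h => hu1 (Subtype.ext h)⟩
  have hex2 : ∃ a ∈ S₂, a ≠ 1 := by
    have h1 : 1 < Nat.card S₂ := by omega
    haveI := Finite.one_lt_card_iff_nontrivial.1 h1
    obtain ⟨⟨u, hu⟩, hu1⟩ := exists_ne (1 : ↥S₂)
    exact ⟨u, hu, fun h => hu1 (Subtype.ext h)⟩
  obtain ⟨a, ha, ha1⟩ := hex1
  obtain ⟨b, hb, hb1'⟩ := hex2
  have ha3 : a ^ 3 = 1 := by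
    obtain ⟨h, hh, rfl⟩ := ha
    exact (hQ3 h hh).1
  have hb3 : b ^ 3 = 1 := by
    obtain ⟨h, hh, rfl⟩ := hb
    exact (hQ3 h hh).2
  have hcompx := hcomp x hx hx1
  have hcompy := hcomp y hy hy1
  have hcompxy := hcomp _ (B.mul_mem hx hy) hxy1
  have hxsq := hX2 x (hBX hx)
  have hysq := hX2 y (hBX hy)
  have hne1 : x.1 ≠ y.1 := by
    intro h
    apply hcompxy.1
    show x.1 * y.1 = 1
    rw [← h, ← pow_two, hxsq.1]
  have hne2 : x.2 ≠ y.2 := by
    intro h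
    apply hcompxy.2
    show x.2 * y.2 = 1
    rw [← h, ← pow_two, hxsq.2]
  have hmain := check4406 a ha3 ha1 b hb3 hb1' x.1 hxsq.1 hcompx.1 y.1 hysq.1 hcompy.1 hne1 x.2 hxsq.2 hcompx.2 y.2 hysq.2 hcompy.2 hne2
  -- final for generic c
  have final : ∀ c : A4x, c ∈ S₂ → c ^ 3 = 1 → c ≠ 1 → P4406 a c x.1 y.1 x.2 y.2 →
      ∃ R : Subgroup G, R ≤ (Q : Subgroup G) ∧ Nat.card ↥R = 3 ∧
        R ≠ (Q : Subgroup G) ⊓ Subgroup.prod ⊤ ⊥ ∧ R ≠ (Q : Subgroup G) ⊓ Subgroup.prod ⊥ ⊤ ∧ R ≤ Subgroup.normalizer (B : Set G) := by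
    intro c hc hc3 hc1 hP
    set g : G := (a, c) with hg
    have hgQ : g ∈ (Q : Subgroup G) := by
      rw [hQeq]; exact ⟨ha, hc⟩
    have hg3 : g ^ 3 = 1 := by
      rw [hg, Prod.pow_mk, ha3, hc3]; rfl
    have hg1 : g ≠ 1 := by
      intro h
      exact ha1 (by simpa [hg] using congrArg Prod.fst h)
    refine ⟨Subgroup.zpowers g, ?_, ?_, ?_, ?_, ?_⟩
    · rw [Subgroup.zpowers_le]; exact hgQ
    · rw [Nat.card_zpowers]
      haveI : Fact (Nat.Prime 3) := ⟨Nat.prime_three⟩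
      exact orderOf_eq_prime hg3 hg1
    · intro h
      have : g ∈ (Q : Subgroup G) ⊓ Subgroup.prod ⊤ ⊥ := by
        rw [← h]; exact Subgroup.mem_zpowers g
      exact hc1 (by simpa [hg, Subgroup.mem_prod] using this.2)
    · intro h
      have : g ∈ (Q : Subgroup G) ⊓ Subgroup.prod ⊥ ⊤ := by
        rw [← h]; exact Subgroup.mem_zpowers g
      exact ha1 (by simpa [hg, Subgroup.mem_prod] using this.2)
    · rw [Subgroup.zpowers_le]
      have hfw : ∀ h ∈ B, g * h * g⁻¹ ∈ B := by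
        have h1 : g * x * g⁻¹ ∈ B := by
          rcases hP.1 with ⟨h1, h2⟩ | ⟨h1, h2⟩ | ⟨h1, h2⟩
          · have : g * x * g⁻¹ = x := by ext1 <;> simpa [hg]
            rw [this]; exact hx
          · have : g * x * g⁻¹ = y := by ext1 <;> simpa [hg]
            rw [this]; exact hy
          · have : g * x * g⁻¹ = x * y := by ext1 <;> simpa [hg]
            rw [this]; exact B.mul_mem hx hy
        have h2 : g * y * g⁻¹ ∈ B := by
          rcases hP.2 with ⟨h1, h2⟩ | ⟨h1, h2⟩ | ⟨h1, h2⟩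
          · have : g * y * g⁻¹ = x := by ext1 <;> simpa [hg]
            rw [this]; exact hx
          · have : g * y * g⁻¹ = y := by ext1 <;> simpa [hg]
            rw [this]; exact hy
          · have : g * y * g⁻¹ = x * y := by ext1 <;> simpa [hg]
            rw [this]; exact B.mul_mem hx hy
        intro h hh
        rcases hB4 h hh with rfl | rfl | rfl | rfl
        · simp [B.one_mem]
        · exact h1
        · exact h2
        · have : g * (x * y) * g⁻¹ = (g * x * g⁻¹) * (g * y * g⁻¹) := by group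
          rw [this]; exact B.mul_mem h1 h2
      rw [Subgroup.mem_normalizer_iff]
      intro h
      refine ⟨hfw h, fun hh => ?_⟩
      have h1 := hfw _ (hfw _ hh)
      have h2 : g * (g * (g * h * g⁻¹) * g⁻¹) * g⁻¹ = h := by
        have h3 : g * (g * g) = 1 := by rw [← hg3, pow_succ, pow_two, mul_assoc]
        have h4 : g⁻¹ * (g⁻¹ * g⁻¹) = 1 := by
          have : g⁻¹ * (g⁻¹ * g⁻¹) = (g * (g * g))⁻¹ := by group
          rw [this, h3, inv_one]
        calc g * (g * (g * h * g⁻¹) * g⁻¹) * g⁻¹ = (g * (g * g)) * h * (g⁻¹ * (g⁻¹ * g⁻¹)) := by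
              simp only [mul_assoc]
          _ = h := by rw [h3, h4]; simp
      rwa [h2] at h1
  rcases hmain with hP | hP
  · exact final b hb hb3 hb1' hP
  · refine final b⁻¹ (S₂.inv_mem hb) ?_ (by simpa using hb1') hP
    rw [inv_pow, hb3, inv_one]

end Cfsg.Agent.S4406
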