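import Cfsg.Statements.S4408
import Cfsg.Agent.Lib.FitSolv

set_option autoImplicit false
set_option linter.all false
open Cfsg

namespace Cfsg.Agent.S4408


universe u

open scoped commutatorElement

theorem odd_root' {G : Type*} [Group G] (x : G) (hx : Odd (orderOf x)) : ∃ k : ℕ, x = (x ^ 2) ^ k := by
  obtain ⟨m, hm⟩ := hx
  refine ⟨m + 1, ?_⟩
  rw [← pow_mul]
  have : 2 * (m + 1) = orderOf x + 1 := by omega
  rw [this, pow_succ, pow_orderOf_eq_one, one_mul]

theorem card_sup_comm' {G : Type*} [Group G] [Finite G] (X Y : Subgroup G)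
    (hc : ∀ a ∈ X, ∀ b ∈ Y, a * b = b * a) (hi : X ⊓ Y = ⊥) :
    Nat.card (X ⊔ Y : Subgroup G) = Nat.card X * Nat.card Y := by
  have hc' : ∀ (m : X) (n : Y), Commute (X.subtype m) (Y.subtype n) := fun a b => hc a a.2 b b.2
  let φ : X × Y →* G := MonoidHom.noncommCoprod X.subtype Y.subtype hc'
  have hinj : Function.Injective φ := by
    rw [injective_iff_map_eq_one]
    rintro ⟨a, b⟩ hab
    have hab' : (a : G) * (b : G) = 1 := hab
    have h1 : (a : G) = (b : G)⁻¹ := eq_inv_of_mul_eq_one_left hab'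
    have h2 : (a : G) ∈ X ⊓ Y := ⟨a.2, h1 ▸ Y.inv_mem b.2⟩
    rw [hi] at h2
    have h3 : (a : G) = 1 := h2
    have h4 : (b : G) = 1 := by
      rw [h3, one_mul] at hab'; exact hab'
    exact Prod.ext (Subtype.ext h3) (Subtype.ext h4)
  have hrange : φ.range = X ⊔ Y := by
    change (MonoidHom.noncommCoprod X.subtype Y.subtype hc').range = _
    rw [MonoidHom.noncommCoprod_range, Subgroup.range_subtype, Subgroup.range_subtype]
  have e1 : Nat.card (X × Y) = Nat.card φ.range := Nat.card_congr (MonoidHom.ofInjective hinj).toEquiv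
  rw [← hrange, ← e1, Nat.card_prod]

/-- The ± dichotomy and the element. -/
theorem lemma_e {S : Type*} [Group S] [Finite S] [Group.IsSolvable S] (F : Subgroup S)
    (hodd : ∀ x ∈ F, Odd (orderOf x))
    (I : Subgroup S) (hI2 : ∀ i ∈ I, i * i = 1) (hIc : ∀ i ∈ I, ∀ j ∈ I, i * j = j * i)
    (t : S) (ht : t ∈ I) (W : Subgroup S) (hWF : W ≤ F)
    (hWI : ∀ i ∈ I, ∀ a ∈ W, i * a * i⁻¹ ∈ W) (hWt : ∃ a ∈ W, t * a * t⁻¹ ≠ a) :
    ∃ x ∈ W, (orderOf x).Prime ∧ t * x * t⁻¹ = x⁻¹ ∧ ∀ i ∈ I, i * x * i⁻¹ = x ∨ i * x * i⁻¹ = x⁻¹ := by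
  classical
  induction W using WellFoundedLT.induction with
  | _ W IH =>
  by_cases hex : ∃ W₁ : Subgroup S, W₁ < W ∧ (∀ i ∈ I, ∀ a ∈ W₁, i * a * i⁻¹ ∈ W₁) ∧ ∃ a ∈ W₁, t * a * t⁻¹ ≠ a
  · obtain ⟨W₁, hlt, hinv, hmv⟩ := hex
    obtain ⟨x, hx, h⟩ := IH W₁ hlt (hlt.le.trans hWF) hinv hmv
    exact ⟨x, hlt.le hx, h⟩
  push Not at hex
  have htinv : t⁻¹ = t := inv_eq_of_mul_eq_one_right (hI2 t ht)
  have hne : W ≠ ⊥ := by
    rintro rfl
    obtain ⟨a, ha, hm⟩ := hWt
    rw [Subgroup.mem_bot] at ha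
    subst ha
    simp at hm
  have hYlt : ⁅W, W⁆ < W := IsSolvable.commutator_lt_of_ne_bot hne
  set Y := ⁅W, W⁆ with hY
  have hYcomm : ∀ a ∈ W, ∀ b ∈ W, a * b * a⁻¹ * b⁻¹ ∈ Y := fun a ha b hb =>
    Subgroup.commutator_mem_commutator ha hb
  have hYnorm : ∀ a ∈ W, ∀ y ∈ Y, a * y * a⁻¹ ∈ Y := by
    intro a ha y hy
    have h1 := hYcomm a ha y (hYlt.le hy)
    have h2 : a * y * a⁻¹ = (a * y * a⁻¹ * y⁻¹) * y := by group
    rw [h2]
    exact Y.mul_mem h1 hy
  have hYI : ∀ i ∈ I, ∀ y ∈ Y, i * y * i⁻¹ ∈ Y := by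
    intro i hi y hy
    have h1 : Y ≤ Y.comap (MulAut.conj i).toMonoidHom := by
      rw [hY, Subgroup.commutator_le]
      intro a ha b hb
      rw [Subgroup.mem_comap]
      have : (MulAut.conj i).toMonoidHom ⁅a, b⁆ = ⁅i * a * i⁻¹, i * b * i⁻¹⁆ := by
        rw [commutatorElement_def, commutatorElement_def]
        show i * _ * i⁻¹ = _
        group
      rw [this]
      exact Subgroup.commutator_mem_commutator (hWI i hi a ha) (hWI i hi b hb)
    exact h1 hy
  have htY : ∀ y ∈ Y, t * y * t⁻¹ = y := hex Y hYlt hYI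
  -- oddness of elements of W
  have hoddW : ∀ a ∈ W, a * a = 1 → a = 1 := by
    intro a ha h
    obtain ⟨k, hk⟩ := odd_root' a (hodd a (hWF ha))
    rw [hk, pow_two, h, one_pow]
  have hconj_mul : ∀ g a b : S, g * (a * b) * g⁻¹ = (g * a * g⁻¹) * (g * b * g⁻¹) := by
    intro g a b; group
  have hconj_inv : ∀ g a : S, g * a⁻¹ * g⁻¹ = (g * a * g⁻¹)⁻¹ := by
    intro g a; group
  have hconj_pow : ∀ (g a : S) (k : ℕ), g * a ^ k * g⁻¹ = (g * a * g⁻¹) ^ k := by
    intro g a k
    exact (conj_pow).symm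
  have hcc : ∀ i ∈ I, ∀ j ∈ I, ∀ a : S, i * (j * a * j⁻¹) * i⁻¹ = j * (i * a * i⁻¹) * j⁻¹ := by
    intro i hi j hj a
    have h1 : i * j = j * i := hIc i hi j hj
    have h2 : j⁻¹ * i⁻¹ = i⁻¹ * j⁻¹ := by
      rw [← mul_inv_rev, ← mul_inv_rev, h1]
    calc i * (j * a * j⁻¹) * i⁻¹ = (i * j) * a * (j⁻¹ * i⁻¹) := by group
      _ = (j * i) * a * (i⁻¹ * j⁻¹) := by rw [h1, h2]
      _ = _ := by group
  -- the dichotomy
  have hdich : ∀ i ∈ I, (∀ a ∈ W, a⁻¹ * (i * a * i⁻¹) ∈ Y) ∨ (∀ a ∈ W, a * (i * a * i⁻¹) ∈ Y) := by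
    intro i hi
    have hiinv : i⁻¹ = i := inv_eq_of_mul_eq_one_right (hI2 i hi)
    have hii : ∀ a : S, i * (i * a * i⁻¹) * i⁻¹ = a := by
      intro a
      have : i * (i * a * i⁻¹) * i⁻¹ = (i * i) * a * (i * i)⁻¹ := by group
      rw [this, hI2 i hi]; group
    let Np : Subgroup S :=
      { carrier := {a | a ∈ W ∧ a⁻¹ * (i * a * i⁻¹) ∈ Y}
        one_mem' := ⟨W.one_mem, by simp⟩
        mul_mem' := by
          rintro a b ⟨ha, ha'⟩ ⟨hb, hb'⟩
          refine ⟨W.mul_mem ha hb, ?_⟩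
          have h1 : (a * b)⁻¹ * (i * (a * b) * i⁻¹) =
              (b⁻¹ * (a⁻¹ * (i * a * i⁻¹)) * b⁻¹⁻¹) * (b⁻¹ * (i * b * i⁻¹)) := by group
          rw [h1]
          exact Y.mul_mem (hYnorm _ (W.inv_mem hb) _ ha') hb'
        inv_mem' := by
          rintro a ⟨ha, ha'⟩
          refine ⟨W.inv_mem ha, ?_⟩
          have h1 : a⁻¹⁻¹ * (i * a⁻¹ * i⁻¹) = a * (a⁻¹ * (i * a * i⁻¹))⁻¹ * a⁻¹ := by group
          rw [h1]
          exact hYnorm _ ha _ (Y.inv_mem ha') }
    let Nm : Subgroup S :=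
      { carrier := {a | a ∈ W ∧ a * (i * a * i⁻¹) ∈ Y}
        one_mem' := ⟨W.one_mem, by simp⟩
        mul_mem' := by
          rintro a b ⟨ha, ha'⟩ ⟨hb, hb'⟩
          refine ⟨W.mul_mem ha hb, ?_⟩
          have hia : i * a * i⁻¹ ∈ W := hWI i hi a ha
          have h1 : (a * b) * (i * (a * b) * i⁻¹) =
              (a * (i * a * i⁻¹)) * ((i * a * i⁻¹)⁻¹ * b * (i * a * i⁻¹)⁻¹⁻¹ * b⁻¹) * (b * (i * b * i⁻¹)) := by
            group
          rw [h1]
          exact Y.mul_mem (Y.mul_mem ha' (hYcomm _ (W.inv_mem hia) _ hb)) hb'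
        inv_mem' := by
          rintro a ⟨ha, ha'⟩
          refine ⟨W.inv_mem ha, ?_⟩
          have h1 : a⁻¹ * (i * a⁻¹ * i⁻¹) = a⁻¹ * (a * (i * a * i⁻¹))⁻¹ * a⁻¹⁻¹ := by group
          rw [h1]
          exact hYnorm _ (W.inv_mem ha) _ (Y.inv_mem ha') }
    by_contra hcon
    push Not at hcon
    obtain ⟨⟨a₁, ha₁, ha₁'⟩, ⟨a₂, ha₂, ha₂'⟩⟩ := hcon
    have hNple : Np < W := by
      refine lt_of_le_of_ne (fun a ha => ha.1) ?_
      intro he
      have : a₁ ∈ Np := he ▸ ha₁
      exact ha₁' this.2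
    have hNmle : Nm < W := by
      refine lt_of_le_of_ne (fun a ha => ha.1) ?_
      intro he
      have : a₂ ∈ Nm := he ▸ ha₂
      exact ha₂' this.2
    have hNpI : ∀ j ∈ I, ∀ a ∈ Np, j * a * j⁻¹ ∈ Np := by
      rintro j hj a ⟨ha, ha'⟩
      refine ⟨hWI j hj a ha, ?_⟩
      have h1 : (j * a * j⁻¹)⁻¹ * (i * (j * a * j⁻¹) * i⁻¹) = j * (a⁻¹ * (i * a * i⁻¹)) * j⁻¹ := by
        rw [hcc i hi j hj a]; group
      rw [h1]
      exact hYI j hj _ ha'
    have hNmI : ∀ j ∈ I, ∀ a ∈ Nm, j * a * j⁻¹ ∈ Nm := by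
      rintro j hj a ⟨ha, ha'⟩
      refine ⟨hWI j hj a ha, ?_⟩
      have h1 : (j * a * j⁻¹) * (i * (j * a * j⁻¹) * i⁻¹) = j * (a * (i * a * i⁻¹)) * j⁻¹ := by
        rw [hcc i hi j hj a]; group
      rw [h1]
      exact hYI j hj _ ha'
    have hfp := hex Np hNple hNpI
    have hfm := hex Nm hNmle hNmI
    obtain ⟨a, ha, hma⟩ := hWt
    apply hma
    have hia : i * a * i⁻¹ ∈ W := hWI i hi a ha
    set b := i * a * i⁻¹ with hb
    have hib : i * b * i⁻¹ = a := hii a
    have hp : a * b ∈ Np := by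
      refine ⟨W.mul_mem ha hia, ?_⟩
      have h1 : (a * b)⁻¹ * (i * (a * b) * i⁻¹) = b⁻¹ * a⁻¹ * b⁻¹⁻¹ * a⁻¹⁻¹ := by
        rw [hconj_mul, ← hb, hib]; group
      rw [h1]
      exact hYcomm _ (W.inv_mem hia) _ (W.inv_mem ha)
    have hq : a * b⁻¹ ∈ Nm := by
      refine ⟨W.mul_mem ha (W.inv_mem hia), ?_⟩
      have h1 : (a * b⁻¹) * (i * (a * b⁻¹) * i⁻¹) = 1 := by
        rw [hconj_mul, ← hb, hconj_inv, hib]; group
      rw [h1]
      exact Y.one_mem
    have hy : b * a⁻¹ * b⁻¹ * a⁻¹⁻¹ ∈ Y := hYcomm _ hia _ (W.inv_mem ha)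
    have hsq : a ^ 2 = (a * b) * (a * b⁻¹) * (b * a⁻¹ * b⁻¹ * a⁻¹⁻¹) := by
      simp only [pow_two]; group
    have hfix : t * a ^ 2 * t⁻¹ = a ^ 2 := by
      rw [hsq, hconj_mul, hconj_mul, hfp _ hp, hfm _ hq, htY _ hy]
    obtain ⟨k, hk⟩ := odd_root' a (hodd a (hWF ha))
    rw [hk, hconj_pow, hfix]
  -- the element
  obtain ⟨a, ha, hma⟩ := hWt
  set u := a⁻¹ * (t * a * t⁻¹) with hu
  have hta : t * a * t⁻¹ ∈ W := hWI t ht a ha
  have huW : u ∈ W := W.mul_mem (W.inv_mem ha) hta
  have hu1 : u ≠ 1 := by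
    intro h
    apply hma
    have : a⁻¹ * (t * a * t⁻¹) = 1 := h
    exact (inv_mul_eq_one.mp this).symm
  have htu : t * u * t⁻¹ = u⁻¹ := by
    have htt : t * (t * a * t⁻¹) * t⁻¹ = a := by
      have : t * (t * a * t⁻¹) * t⁻¹ = (t * t) * a * (t * t)⁻¹ := by group
      rw [this, hI2 t ht]; group
    rw [hu, hconj_mul, hconj_inv, htt]; group
  have huY : ∀ y ∈ Y, u * y = y * u := by
    intro y hy
    have h1 : u * y * u⁻¹ ∈ Y := hYnorm u huW y hy
    have h2 := htY _ h1
    have h3 : t * (u * y * u⁻¹) * t⁻¹ = u⁻¹ * y * u := by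
      rw [hconj_mul, hconj_mul, hconj_inv, htu, htY y hy]; group
    rw [h3] at h2
    have h4 : u ^ 2 * y = y * u ^ 2 := by
      have : u ^ 2 * y = u * (u * y * u⁻¹) * u := by simp only [pow_two]; group
      rw [this, ← h2]
      simp only [pow_two]; group
    obtain ⟨k, hk⟩ := odd_root' u (hodd u (hWF huW))
    have h5 : Commute (u ^ 2) y := h4
    have h6 : Commute ((u ^ 2) ^ k) y := h5.pow_left k
    rw [← hk] at h6
    exact h6
  have hui : ∀ i ∈ I, i * u * i⁻¹ = u ∨ i * u * i⁻¹ = u⁻¹ := by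
    intro i hi
    have hiu : i * u * i⁻¹ ∈ W := hWI i hi u huW
    have hcct := hcc t ht i hi u
    rw [htu, hconj_inv] at hcct
    rcases hdich i hi with h | h
    · left
      have hy := h u huW
      set y := u⁻¹ * (i * u * i⁻¹) with hyd
      have hiu' : i * u * i⁻¹ = u * y := by rw [hyd]; group
      rw [hiu', hconj_mul, htu, htY y hy] at hcct
      have h3 : u * y = y * u := huY y hy
      have h4 : u⁻¹ * y = y * u⁻¹ := by
        rw [← mul_right_inj u, ← mul_assoc, mul_inv_cancel, one_mul, ← mul_assoc, h3]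
        simp [mul_assoc]
      have h2 : y * y = 1 := by
        have h6 : (u * y)⁻¹ = y⁻¹ * u⁻¹ := mul_inv_rev u y
        rw [h4, h6] at hcct
        have h5 := mul_right_cancel hcct
        exact eq_inv_iff_mul_eq_one.mp h5
      have hy1 : y = 1 := hoddW y (hYlt.le hy) h2
      rw [hiu', hy1, mul_one]
    · right
      have hy := h u huW
      set y := u * (i * u * i⁻¹) with hyd
      have hiu' : i * u * i⁻¹ = u⁻¹ * y := by rw [hyd]; group
      rw [hiu', hconj_mul, hconj_inv, htu, htY y hy, inv_inv] at hcct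
      have h3 : u * y = y * u := huY y hy
      have h2 : y * y = 1 := by
        have h6 : (u⁻¹ * y)⁻¹ = y⁻¹ * u := by group
        rw [h6, h3] at hcct
        have h5 := mul_right_cancel hcct
        exact eq_inv_iff_mul_eq_one.mp h5
      have hy1 : y = 1 := hoddW y (hYlt.le hy) h2
      rw [hiu', hy1, mul_one]
  have hord1 : orderOf u ≠ 1 := by
    intro h
    exact hu1 (orderOf_eq_one_iff.mp h)
  obtain ⟨r, hr, hrd⟩ := Nat.exists_prime_and_dvd hord1
  have hx_ord : orderOf (u ^ (orderOf u / r)) = r := by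
    have hpos : orderOf u ≠ 0 := (orderOf_pos u).ne'
    exact orderOf_pow_orderOf_div hpos hrd
  refine ⟨u ^ (orderOf u / r), W.pow_mem huW _, by rw [hx_ord]; exact hr, ?_, ?_⟩
  · rw [hconj_pow, htu, inv_pow]
  · intro i hi
    rw [hconj_pow]
    rcases hui i hi with h | h
    · left; rw [h]
    · right; rw [h, inv_pow]

/-- `A × B`-type lemma: an odd automorphism centralizing `A ≤ F` acts nontrivially on `C_F(A)`. -/
theorem ab_lemma {S : Type*} [Group S] [Finite S] (F : Subgroup S) [hnil : Group.IsNilpotent F]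
    (hodd : ∀ x ∈ F, Odd (orderOf x)) (t : S) (ht2 : t * t = 1) (hFt : ∀ a ∈ F, t * a * t⁻¹ ∈ F)
    (A : Subgroup S) (hAF : A ≤ F) (htA : ∀ a ∈ A, t * a * t⁻¹ = a)
    (hmv : ∃ a ∈ F, t * a * t⁻¹ ≠ a) :
    ∃ y ∈ F, (∀ a ∈ A, y * a = a * y) ∧ t * y * t⁻¹ ≠ y := by
  classical
  by_contra hcon
  push Not at hcon
  let P : Subgroup F := (Subgroup.centralizer ({t} : Set S)).subgroupOf F
  have hPmem : ∀ x : F, x ∈ P ↔ t * (x : S) * t⁻¹ = x := by
    intro x
    simp only [P, Subgroup.mem_subgroupOf, Subgroup.mem_centralizer_singleton_iff]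
    constructor
    · intro h
      rw [← h]; group
    · intro h
      calc (x : S) * t = (t * (x : S) * t⁻¹) * t := by rw [h]
        _ = t * x := by group
  have hPlt : P < ⊤ := by
    obtain ⟨a, ha, hm⟩ := hmv
    refine lt_of_le_of_ne le_top ?_
    intro he
    have : (⟨a, ha⟩ : F) ∈ P := he ▸ Subgroup.mem_top _
    exact hm ((hPmem _).mp this)
  have hcond : NormalizerCondition F := normalizerCondition_of_isNilpotent
  have hlt := hcond P hPlt
  obtain ⟨_, x, hxn, hxP⟩ := SetLike.lt_iff_le_and_exists.mp hlt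
  rw [Subgroup.mem_normalizer_iff] at hxn
  set z : S := (x : S)⁻¹ * (t * (x : S) * t⁻¹) with hz
  have hzF : z ∈ F := F.mul_mem (F.inv_mem x.2) (hFt _ x.2)
  have hzA : ∀ a ∈ A, z * a = a * z := by
    intro a ha
    have ha' : (⟨a, hAF ha⟩ : F) ∈ P := (hPmem _).mpr (htA a ha)
    have h1 := (hxn _).mp ha'
    have h2 := (hPmem _).mp h1
    have h3 : t * ((x : S) * a * (x : S)⁻¹) * t⁻¹ = (x : S) * a * (x : S)⁻¹ := by
      simpa using h2
    have h4 : t * ((x : S) * a * (x : S)⁻¹) * t⁻¹ = (t * (x : S) * t⁻¹) * (t * a * t⁻¹) * (t * (x : S) * t⁻¹)⁻¹ := by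
      group
    rw [h4, htA a ha] at h3
    have h5 : z * a * z⁻¹ = a := by
      rw [hz]
      calc (x : S)⁻¹ * (t * (x : S) * t⁻¹) * a * ((x : S)⁻¹ * (t * (x : S) * t⁻¹))⁻¹
          = (x : S)⁻¹ * ((t * (x : S) * t⁻¹) * a * (t * (x : S) * t⁻¹)⁻¹) * (x : S) := by group
        _ = a := by rw [h3]; group
    calc z * a = z * a * z⁻¹ * z := by group
      _ = a * z := by rw [h5]
  have hfix := hcon z hzF hzA
  have htt : t * (t * (x : S) * t⁻¹) * t⁻¹ = x := by
    have : t * (t * (x : S) * t⁻¹) * t⁻¹ = (t * t) * (x : S) * (t * t)⁻¹ := by group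
    rw [this, ht2]; group
  have hinv : t * z * t⁻¹ = z⁻¹ := by
    rw [hz]
    have : t * ((x : S)⁻¹ * (t * (x : S) * t⁻¹)) * t⁻¹ = (t * (x : S) * t⁻¹)⁻¹ * (t * (t * (x : S) * t⁻¹) * t⁻¹) := by
      group
    rw [this, htt]; group
  rw [hinv] at hfix
  have hzz : z * z = 1 := by
    have := eq_inv_iff_mul_eq_one.mp hfix.symm
    exact this
  obtain ⟨k, hk⟩ := odd_root' z (hodd z hzF)
  have hz1 : z = 1 := by rw [hk, pow_two, hzz, one_pow]
  apply hxP
  rw [hPmem]
  rw [hz] at hz1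
  exact (inv_mul_eq_one.mp hz1).symm



/-- Let S be a finite solvable group whose Fitting subgroup F(S) has odd order, and let I be an elementary abelian 2-subgroup of S of order 2ⁿ with n ≥ 1. Then F(S) contains subgroups A₁, …, Aₙ of prime order, each normalized by I, pairwise commuting and generating a subgroup A of order |A₁|⋯|Aₙ| (their internal direct product), such that no non-identity element of I centralizes A. -/
theorem result {S : Type*} [Group S] [Finite S]
    [Group.IsSolvable S] (hF : Odd (Nat.card ↥(Cfsg.fittingSubgroup S)))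
    (I : Subgroup S) (hI : Cfsg.IsElementaryAbelian 2 I) (n : ℕ) (hn : 1 ≤ n) (hIn : Nat.card ↥I = 2 ^ n) :
    ∃ f : Fin n → Subgroup S, (∀ i, (Nat.card ↥(f i)).Prime) ∧ (∀ i, f i ≤ Cfsg.fittingSubgroup S) ∧
      (∀ i, I ≤ Subgroup.normalizer ((f i) : Set S)) ∧ (∀ i j, i ≠ j → ∀ a ∈ f i, ∀ b ∈ f j, a * b = b * a) ∧
      Nat.card ↥(⨆ i, f i) = ∏ i, Nat.card ↥(f i) ∧ I ⊓ Subgroup.centralizer ((⨆ i, f i : Subgroup S) : Set S) = ⊥ := by
  classical
  obtain ⟨hIab, hI2'⟩ := hI
  have hI2 : ∀ i ∈ I, i * i = 1 := fun i hi => by rw [← pow_two]; exact hI2' i hi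
  have hIc : ∀ i ∈ I, ∀ j ∈ I, i * j = j * i := by
    intro i hi j hj
    have := hIab.is_comm.comm (⟨i, hi⟩ : I) ⟨j, hj⟩
    exact congrArg Subtype.val this
  set F := Cfsg.fittingSubgroup S with hFd
  haveI hFn : F.Normal := Cfsg.Agent.Lib.FitCore.fitting_normal
  haveI hFnil : Group.IsNilpotent F := Cfsg.Agent.Lib.FitCore.fitting_isNilpotent
  have hodd : ∀ x ∈ F, Odd (orderOf x) := by
    intro x hx
    have h1 : orderOf x ∣ Nat.card F := by
      have := orderOf_dvd_natCard (⟨x, hx⟩ : F)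
      rwa [Subgroup.orderOf_mk] at this
    exact Odd.of_dvd_nat hF h1
  have hsq1 : ∀ a ∈ F, a * a = 1 → a = 1 := by
    intro a ha h
    obtain ⟨k, hk⟩ := odd_root' a (hodd a ha)
    rw [hk, pow_two, h, one_pow]
  have hFt : ∀ a ∈ F, ∀ g : S, g * a * g⁻¹ ∈ F := fun a ha g => hFn.conj_mem a ha g
  have hnormI : ∀ H : Subgroup S, (∀ i ∈ I, ∀ a ∈ H, i * a * i⁻¹ ∈ H) →
      I ≤ Subgroup.normalizer (H : Set S) := by
    intro H hH i hi
    rw [Subgroup.mem_normalizer_iff]
    intro h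
    constructor
    · exact hH i hi h
    · intro h'
      have := hH i⁻¹ (I.inv_mem hi) _ h'
      simpa [mul_assoc] using this
  have key : ∀ k, k ≤ n → ∃ f : Fin k → Subgroup S, (∀ i, (Nat.card ↥(f i)).Prime) ∧ (∀ i, f i ≤ F) ∧
      (∀ i, I ≤ Subgroup.normalizer ((f i) : Set S)) ∧
      (∀ i j, i ≠ j → ∀ a ∈ f i, ∀ b ∈ f j, a * b = b * a) ∧
      Nat.card ↥(⨆ i, f i) = ∏ i, Nat.card ↥(f i) ∧
      Nat.card ↥(I ⊓ Subgroup.centralizer ((⨆ i, f i : Subgroup S) : Set S)) * 2 ^ k = 2 ^ n := by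
    intro k
    induction k with
    | zero =>
      intro _
      refine ⟨Fin.elim0, fun i => i.elim0, fun i => i.elim0, fun i => i.elim0, fun i => i.elim0, ?_, ?_⟩
      · simp
      · have h0 : (⨆ i, (Fin.elim0 i : Subgroup S)) = ⊥ := iSup_of_empty _
        have h1 : I ⊓ Subgroup.centralizer (((⨆ i, (Fin.elim0 i : Subgroup S)) : Subgroup S) : Set S) = I := by
          rw [h0]
          apply inf_eq_left.mpr
          intro g _
          rw [Subgroup.mem_centralizer_iff]
          intro h hh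
          have hh' : h = 1 := hh
          rw [hh', one_mul, mul_one]
        rw [h1, hIn]
        simp
    | succ k IH =>
      intro hk
      obtain ⟨f, hf1, hf2, hf3, hf4, hf5, hf6⟩ := IH (by omega)
      set A : Subgroup S := ⨆ i, f i with hA
      set J : Subgroup S := I ⊓ Subgroup.centralizer (A : Set S) with hJ
      have hAF : A ≤ F := iSup_le hf2
      have hAI : ∀ i ∈ I, ∀ a ∈ A, i * a * i⁻¹ ∈ A := by
        intro i hi a ha
        have h1 : A ≤ A.comap (MulAut.conj i).toMonoidHom := by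
          refine iSup_le fun j => ?_
          intro b hb
          rw [Subgroup.mem_comap]
          have h2 : (MulAut.conj i).toMonoidHom b ∈ f j := by
            have := (Subgroup.mem_normalizer_iff.mp (hf3 j hi) b).mp hb
            exact this
          exact (le_iSup f j) h2
        exact h1 ha
      have hJcard : Nat.card J ≠ 1 := by
        intro h
        rw [h, one_mul] at hf6
        have := Nat.pow_right_injective (le_refl 2) hf6
        omega
      obtain ⟨⟨t, htJ⟩, ht1⟩ : ∃ t : J, t ≠ 1 := by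
        by_contra hcon
        push Not at hcon
        apply hJcard
        rw [Nat.card_eq_one_iff_unique]
        exact ⟨⟨fun a b => by rw [hcon a, hcon b]⟩, ⟨1⟩⟩
      have ht1' : t ≠ 1 := fun h => ht1 (Subtype.ext h)
      have htI : t ∈ I := htJ.1
      have htA : ∀ a ∈ A, t * a * t⁻¹ = a := by
        intro a ha
        have := (Subgroup.mem_centralizer_iff.mp htJ.2) a ha
        rw [← this]; group
      have hmv : ∃ a ∈ F, t * a * t⁻¹ ≠ a := by
        by_contra hcon
        push Not at hcon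
        have h1 : t ∈ Subgroup.centralizer (F : Set S) := by
          rw [Subgroup.mem_centralizer_iff]
          intro a ha
          have := hcon a ha
          calc a * t = (t * a * t⁻¹) * t := by rw [this]
            _ = t * a := by group
        have h2 : t ∈ F := Cfsg.Agent.Lib.FitSolv.centralizer_fitting_le h1
        exact ht1' (hsq1 t h2 (hI2 t htI))
      obtain ⟨y, hyF, hyA, hyt⟩ := ab_lemma F hodd t (hI2 t htI) (fun a ha => hFt a ha t) A hAF htA hmv
      have hWI : ∀ i ∈ I, ∀ a ∈ F ⊓ Subgroup.centralizer (A : Set S),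
          i * a * i⁻¹ ∈ F ⊓ Subgroup.centralizer (A : Set S) := by
        intro i hi a ha
        have haF : a ∈ F := ha.1
        have haC : a ∈ Subgroup.centralizer (A : Set S) := ha.2
        refine Subgroup.mem_inf.mpr ⟨hFt a haF i, ?_⟩
        rw [Subgroup.mem_centralizer_iff] at haC ⊢
        intro c hc
        have h1 := haC (i⁻¹ * c * i⁻¹⁻¹) (hAI i⁻¹ (I.inv_mem hi) c hc)
        have h2 : c * (i * a * i⁻¹) = i * ((i⁻¹ * c * i⁻¹⁻¹) * a) * i⁻¹ := by group
        have h3 : (i * a * i⁻¹) * c = i * (a * (i⁻¹ * c * i⁻¹⁻¹)) * i⁻¹ := by group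
        rw [h2, h3, h1]
      obtain ⟨x, hxW, hxp, htx, hix⟩ := lemma_e F hodd I hI2 hIc t htI
        (F ⊓ Subgroup.centralizer (A : Set S)) inf_le_left hWI
        ⟨y, Subgroup.mem_inf.mpr ⟨hyF, by
          rw [Subgroup.mem_centralizer_iff]
          intro a ha
          exact (hyA a ha).symm⟩, hyt⟩
      set B : Subgroup S := Subgroup.zpowers x with hB
      have hBcard : Nat.card B = orderOf x := Nat.card_zpowers x
      have hBF : B ≤ F := by
        rw [hB, Subgroup.zpowers_le]; exact hxW.1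
      have hBC : B ≤ Subgroup.centralizer (A : Set S) := by
        rw [hB, Subgroup.zpowers_le]; exact hxW.2
      have hBinv : ∀ b ∈ B, t * b * t⁻¹ = b⁻¹ := by
        rintro b ⟨m, rfl⟩
        simp only
        rw [← conj_zpow, htx, inv_zpow]
      have hBA : B ⊓ A = ⊥ := by
        rw [eq_bot_iff]
        rintro w ⟨hwB, hwA⟩
        rw [Subgroup.mem_bot]
        have h1 := hBinv w hwB
        rw [htA w hwA] at h1
        exact hsq1 w (hAF hwA) (eq_inv_iff_mul_eq_one.mp h1)
      have hBIinv : ∀ i ∈ I, ∀ b ∈ B, i * b * i⁻¹ ∈ B := by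
        rintro i hi b ⟨m, rfl⟩
        simp only
        rw [← conj_zpow]
        rcases hix i hi with h | h
        · rw [h]; exact ⟨m, rfl⟩
        · rw [h]; exact B.zpow_mem (B.inv_mem (Subgroup.mem_zpowers x)) m
      have hBAc : ∀ b ∈ B, ∀ a ∈ A, b * a = a * b := by
        intro b hb a ha
        exact (Subgroup.mem_centralizer_iff.mp (hBC hb) a ha).symm
      have hcardsup : Nat.card ↥(B ⊔ A) = Nat.card B * Nat.card A := card_sup_comm' B A hBAc hBA
      have hsup : (⨆ i, (Fin.cons B f : Fin (k + 1) → Subgroup S) i) = B ⊔ A := by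
        apply le_antisymm
        · refine iSup_le fun i => ?_
          refine Fin.cases ?_ (fun j => ?_) i
          · simp
          · simp only [Fin.cons_succ]
            exact le_trans (le_iSup f j) le_sup_right
        · refine sup_le ?_ ?_
          · exact le_iSup_of_le 0 (by simp)
          · refine iSup_le fun j => ?_
            exact le_iSup_of_le j.succ (by simp)
      refine ⟨Fin.cons B f, ?_, ?_, ?_, ?_, ?_, ?_⟩
      · intro i
        refine Fin.cases ?_ (fun j => ?_) i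
        · simp only [Fin.cons_zero]; rw [hBcard]; exact hxp
        · simp only [Fin.cons_succ]; exact hf1 j
      · intro i
        refine Fin.cases ?_ (fun j => ?_) i
        · simp only [Fin.cons_zero]; exact hBF
        · simp only [Fin.cons_succ]; exact hf2 j
      · intro i
        refine Fin.cases ?_ (fun j => ?_) i
        · simp only [Fin.cons_zero]; exact hnormI B hBIinv
        · simp only [Fin.cons_succ]; exact hf3 j
      · intro i j
        refine Fin.cases ?_ (fun i' => ?_) i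
        · refine Fin.cases ?_ (fun j' => ?_) j
          · intro h; exact absurd rfl h
          · intro _ a ha b hb
            simp only [Fin.cons_zero, Fin.cons_succ] at ha hb
            exact hBAc a ha b ((le_iSup f j') hb)
        · refine Fin.cases ?_ (fun j' => ?_) j
          · intro _ a ha b hb
            simp only [Fin.cons_zero, Fin.cons_succ] at ha hb
            exact (hBAc b hb a ((le_iSup f i') ha)).symm
          · intro hne a ha b hb
            simp only [Fin.cons_succ] at ha hb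
            exact hf4 i' j' (fun h => hne (by rw [h])) a ha b hb
      · rw [hsup, hcardsup, Fin.prod_univ_succ]
        simp only [Fin.cons_zero, Fin.cons_succ]
        rw [hf5]
      · rw [hsup]
        set J' : Subgroup S := I ⊓ Subgroup.centralizer ((B ⊔ A : Subgroup S) : Set S) with hJ'
        have hJ'mem : ∀ g : S, g ∈ J' ↔ g ∈ J ∧ g * x * g⁻¹ = x := by
          intro g
          constructor
          · intro hg
            have hgI : g ∈ I := hg.1
            have hgC : g ∈ Subgroup.centralizer ((B ⊔ A : Subgroup S) : Set S) := hg.2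
            rw [Subgroup.mem_centralizer_iff] at hgC
            refine ⟨Subgroup.mem_inf.mpr ⟨hgI, ?_⟩, ?_⟩
            · rw [Subgroup.mem_centralizer_iff]
              intro a ha
              exact hgC a ((le_sup_right : A ≤ B ⊔ A) ha)
            · have := hgC x ((le_sup_left : B ≤ B ⊔ A) (Subgroup.mem_zpowers x))
              rw [← this]; group
          · rintro ⟨hg, hgx⟩
            have hgI : g ∈ I := hg.1
            have hgC : g ∈ Subgroup.centralizer (A : Set S) := hg.2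
            refine Subgroup.mem_inf.mpr ⟨hgI, ?_⟩
            rw [Subgroup.mem_centralizer_iff]
            have h1 : B ⊔ A ≤ Subgroup.centralizer ({g} : Set S) := by
              refine sup_le ?_ ?_
              · rw [hB, Subgroup.zpowers_le, Subgroup.mem_centralizer_singleton_iff]
                calc x * g = (g * x * g⁻¹) * g := by rw [hgx]
                  _ = g * x := by group
              · intro a ha
                rw [Subgroup.mem_centralizer_singleton_iff]
                exact (Subgroup.mem_centralizer_iff.mp hgC a ha)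
            intro h hh
            exact Subgroup.mem_centralizer_singleton_iff.mp (h1 hh)
        have hJ'le : J' ≤ J := fun g hg => ((hJ'mem g).mp hg).1
        have hxne : x ≠ x⁻¹ := by
          intro h
          have h1 : x = 1 := hsq1 x hxW.1 (eq_inv_iff_mul_eq_one.mp h)
          rw [h1, orderOf_one] at hxp
          exact Nat.not_prime_one hxp
        have hidx : (J'.subgroupOf J).index = 2 := by
          rw [Subgroup.index_eq_two_iff]
          refine ⟨⟨t, htJ⟩, ?_⟩
          rintro ⟨b, hb⟩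
          have hmem1 : ∀ c : J, c ∈ J'.subgroupOf J ↔ (c : S) * x * (c : S)⁻¹ = x := by
            intro c
            rw [Subgroup.mem_subgroupOf, hJ'mem]
            exact ⟨fun h => h.2, fun h => ⟨c.2, h⟩⟩
          have hbt : (b * t) * x * (b * t)⁻¹ = b * (t * x * t⁻¹) * b⁻¹ := by group
          rw [hmem1, hmem1]
          show Xor' ((b * t) * x * (b * t)⁻¹ = x) (b * x * b⁻¹ = x)
          have hinvb : b * x⁻¹ * b⁻¹ = (b * x * b⁻¹)⁻¹ := by group
          rw [hbt, htx, hinvb]
          have hbI : b ∈ I := hb.1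
          rcases hix b hbI with h | h
          · right
            rw [h]
            exact ⟨rfl, fun h' => hxne h'.symm⟩
          · left
            rw [h, inv_inv]
            exact ⟨rfl, fun h' => hxne h'.symm⟩
        have hc1 : Nat.card J = 2 * Nat.card J' := by
          have h1 := Subgroup.card_mul_index (J'.subgroupOf J)
          have h2 : Nat.card (J'.subgroupOf J) = Nat.card J' :=
            Nat.card_congr (Subgroup.subgroupOfEquivOfLe hJ'le).toEquiv
          rw [hidx, h2] at h1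
          omega
        rw [hc1] at hf6
        rw [pow_succ, ← hf6]
        ring
  obtain ⟨f, hf1, hf2, hf3, hf4, hf5, hf6⟩ := key n le_rfl
  refine ⟨f, hf1, hf2, hf3, hf4, hf5, ?_⟩
  apply Subgroup.eq_bot_of_card_eq
  have h2n : 0 < 2 ^ n := by positivity
  nlinarith

end Cfsg.Agent.S4408
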