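import Cfsg.Statements.S4420
import Cfsg.Agent.Lib.H7Basic

set_option autoImplicit false
set_option linter.all false
open Cfsg

namespace Cfsg.Agent.S4420

/-- Structure of groups in which every element outside some proper subgroup has square 1. Let H be a finite group with a proper subgroup A such that every element outside A has square 1. Then H has an abelian normal subgroup B of index 2 such that every element outside B is an involution inverting every element of B; and if H is not an elementary abelian 2-group, B is the only abelian normal subgroup of index 2 with this property. -/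
theorem result {H : Type*} [Group H] [Finite H] (A : Subgroup H) (hA : A ≠ ⊤) (hD : ∀ x : H, x ∉ A → x ^ 2 = 1) :
    ∃ B : Subgroup H, B.Normal ∧ IsMulCommutative ↥B ∧ B.index = 2 ∧
      (∀ x : H, x ∉ B → x ^ 2 = 1 ∧ ∀ b ∈ B, x * b * x⁻¹ = b⁻¹) ∧
      (¬ (IsMulCommutative H ∧ ∀ x : H, x ^ 2 = 1) →
        ∀ B' : Subgroup H, B'.Normal → IsMulCommutative ↥B' → B'.index = 2 →
          (∀ x : H, x ∉ B' → x ^ 2 = 1 ∧ ∀ b ∈ B', x * b * x⁻¹ = b⁻¹) → B' = B) := by
  classical
  have hinv : ∀ x : H, x ∉ A → ∀ a ∈ A, x * a * x⁻¹ = a⁻¹ := by
    intro x hx a ha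
    have hxa : x * a ∉ A := fun h => hx (by simpa using A.mul_mem h (A.inv_mem ha))
    have h1 := hD _ hxa
    have h2 := hD _ hx
    have hxx : x⁻¹ = x := by
      rw [pow_two] at h2
      exact inv_eq_of_mul_eq_one_left h2
    rw [hxx]
    rw [pow_two, mul_assoc] at h1
    rw [mul_assoc x a x]
    exact eq_inv_of_mul_eq_one_left (by simpa [mul_assoc] using h1)
  obtain ⟨x₀, hx₀⟩ : ∃ x, x ∉ A := by
    by_contra h
    push_neg at h
    exact hA (eq_top_iff.mpr fun x _ => h x)
  have hcommA : ∀ a ∈ A, ∀ b ∈ A, a * b = b * a := by
    intro a ha b hb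
    have h1 := hinv x₀ hx₀ _ (A.mul_mem ha hb)
    have h2 : x₀ * (a * b) * x₀⁻¹ = (x₀ * a * x₀⁻¹) * (x₀ * b * x₀⁻¹) := by group
    rw [h2, hinv x₀ hx₀ a ha, hinv x₀ hx₀ b hb, mul_inv_rev] at h1
    have h3 := congrArg (fun z => z⁻¹) h1
    simpa using h3.symm
  by_cases hidx : A.index = 2
  · -- `B = A`
    have hAn : A.Normal := Subgroup.normal_of_index_eq_two hidx
    refine ⟨A, hAn, ⟨⟨fun a b => Subtype.ext (hcommA a a.2 b b.2)⟩⟩, hidx,
      fun x hx => ⟨hD x hx, hinv x hx⟩, ?_⟩
    intro hne B' hB' hB'c hB'i hB'p
    by_contra hneq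
    apply hne
    -- all squares are trivial
    obtain ⟨x, hxA, hxB⟩ : ∃ x, x ∈ A ∧ x ∉ B' := by
      by_contra h
      push_neg at h
      have hle : A ≤ B' := fun x hx => h x hx
      have : A = B' := by
        apply Subgroup.eq_of_le_of_card_ge hle
        have h1 := A.card_mul_index
        have h2 := B'.card_mul_index
        rw [hidx] at h1
        rw [hB'i] at h2
        omega
      exact hneq this.symm
    have hsq : ∀ z : H, z ^ 2 = 1 := by
      intro z
      by_cases hzA : z ∈ A
      · by_cases hzB : z ∈ B'
        · have h1 := (hB'p x hxB).2 z hzB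
          have h2 : x * z * x⁻¹ = z := by
            rw [hcommA x hxA z hzA]
            simp
          rw [h2] at h1
          rw [pow_two]
          nth_rewrite 1 [h1]
          simp
        · exact (hB'p z hzB).1
      · exact hD z hzA
    have hcomm : ∀ a b : H, a * b = b * a := by
      intro a b
      have h1 : (a * b) * (a * b) = 1 := by simpa [pow_two] using hsq (a * b)
      have h2 : a * a = 1 := by simpa [pow_two] using hsq a
      have h3 : b * b = 1 := by simpa [pow_two] using hsq b
      calc a * b = a * b * ((a * b) * (b * a)) := by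
            have : (a * b) * (b * a) = 1 := by
              rw [mul_assoc, ← mul_assoc b b a, h3, one_mul, h2]
            rw [this, mul_one]
        _ = ((a * b) * (a * b)) * (b * a) := by group
        _ = b * a := by rw [h1, one_mul]
    exact ⟨⟨⟨hcomm⟩⟩, hsq⟩
  · -- index at least three: everything is an involution
    have hidx1 : 1 < A.index := Subgroup.one_lt_index_of_ne_top hA
    have h3 : 3 ≤ A.index := by omega
    obtain ⟨x, y, hx, hy, hxy⟩ : ∃ x y : H, x ∉ A ∧ y ∉ A ∧ x⁻¹ * y ∉ A := by
      by_contra hcon
      push_neg at hcon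
      apply hidx
      rw [Subgroup.index_eq_two_iff]
      refine ⟨x₀, fun b => ?_⟩
      by_cases hb : b ∈ A
      · right
        exact ⟨hb, fun h => hx₀ (by simpa using A.mul_mem (A.inv_mem hb) h)⟩
      · left
        refine ⟨?_, hb⟩
        have h1 := hcon b⁻¹ x₀ (fun h => hb (by simpa using A.inv_mem h)) hx₀
        simpa using h1
    have hsqA : ∀ a ∈ A, a ^ 2 = 1 := by
      intro a ha
      have h1 := hinv x hx a ha
      have h2 := hinv y hy a ha
      have h3 := hinv _ hxy a ha
      have hxinv : x⁻¹ ∉ A := fun h => hx (by simpa using A.inv_mem h)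
      have h4 := hinv _ hxinv (a⁻¹) (A.inv_mem ha)
      have h5 : (x⁻¹ * y) * a * (x⁻¹ * y)⁻¹ = x⁻¹ * (y * a * y⁻¹) * x := by group
      rw [h5, h2] at h3
      have h6 : x⁻¹⁻¹ = x := by simp
      rw [h6] at h4
      rw [h4] at h3
      simp only [inv_inv] at h3
      rw [pow_two]
      nth_rewrite 1 [h3]
      simp
    have hsq : ∀ z : H, z ^ 2 = 1 := by
      intro z
      by_cases hz : z ∈ A
      · exact hsqA z hz
      · exact hD z hz
    have hcomm : ∀ a b : H, a * b = b * a := by
      intro a b
      have h1 : (a * b) * (a * b) = 1 := by simpa [pow_two] using hsq (a * b)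
      have h2 : a * a = 1 := by simpa [pow_two] using hsq a
      have h3 : b * b = 1 := by simpa [pow_two] using hsq b
      calc a * b = a * b * ((a * b) * (b * a)) := by
            have : (a * b) * (b * a) = 1 := by
              rw [mul_assoc, ← mul_assoc b b a, h3, one_mul, h2]
            rw [this, mul_one]
        _ = ((a * b) * (a * b)) * (b * a) := by group
        _ = b * a := by rw [h1, one_mul]
    -- a coatom containing `A`
    obtain htop | ⟨B, hB, hAB⟩ := eq_top_or_exists_le_coatom A
    · exact absurd htop hA
    · have hBn : B.Normal := ⟨fun n hn g => by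
        rw [hcomm g n]
        simpa using hn⟩
      obtain ⟨a, ha⟩ : ∃ a, a ∉ B := by
        by_contra h
        push_neg at h
        exact hB.1 (eq_top_iff.mpr fun x _ => h x)
      have hB2 : B.index = 2 := by
        rw [Subgroup.index_eq_two_iff]
        refine ⟨a, fun b => ?_⟩
        by_cases hb : b ∈ B
        · right
          exact ⟨hb, fun h => ha (by simpa using B.mul_mem (B.inv_mem hb) h)⟩
        · left
          refine ⟨?_, hb⟩
          -- the subgroup generated by `B` and `a` is everything
          have hsup : B ⊔ Subgroup.zpowers a = ⊤ := by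
            apply hB.2
            refine lt_of_le_of_ne le_sup_left (fun h => ha ?_)
            rw [h]
            exact Subgroup.mem_sup_right (Subgroup.mem_zpowers a)
          have hbm : b ∈ ((B ⊔ Subgroup.zpowers a : Subgroup H) : Set H) := by rw [hsup]; trivial
          rw [Subgroup.normal_mul] at hbm
          obtain ⟨n, hn, k, hk, rfl⟩ := Set.mem_mul.mp hbm
          obtain ⟨i, rfl⟩ := Subgroup.mem_zpowers_iff.mp hk
          have ha2 : a ^ 2 = 1 := hsq a
          obtain ⟨j, rfl | rfl⟩ := Int.even_or_odd' i
          · exfalso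
            apply hb
            have : a ^ (2 * j) = 1 := by
              rw [zpow_mul]
              have : a ^ (2 : ℤ) = 1 := by exact_mod_cast ha2
              rw [this, one_zpow]
            simp only [this, mul_one]
            exact hn
          · have h1 : a ^ (2 * j + 1) * a = 1 := by
              rw [zpow_add, zpow_mul]
              have : a ^ (2 : ℤ) = 1 := by exact_mod_cast ha2
              rw [this, one_zpow, one_mul, zpow_one]
              rw [pow_two] at ha2
              exact ha2
            rw [mul_assoc, h1, mul_one]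
            exact hn
      refine ⟨B, hBn, ⟨⟨fun u v => Subtype.ext (hcomm u v)⟩⟩, hB2, ?_, ?_⟩
      · intro u _
        refine ⟨hsq u, fun b _ => ?_⟩
        rw [hcomm u b]
        have hbb : b ⁻¹ = b := by
          have := hsq b
          rw [pow_two] at this
          exact inv_eq_of_mul_eq_one_left this
        rw [hbb]
        simp
      · intro hcon
        exact absurd ⟨⟨⟨hcomm⟩⟩, hsq⟩ hcon

end Cfsg.Agent.S4420
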