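import Cfsg.Statements.S4558
import Cfsg.Agent.Lib.CharKernel
import Cfsg.Agent.Lib.CharGalois

set_option autoImplicit false
set_option linter.style.haveILetI false
set_option linter.unusedVariables false
open Cfsg

namespace Cfsg.Agent.S4558

/-- Let χ be a character of the finite group G and g an element of p-power order for the prime p. If χ g = 0, then p divides the degree of χ. -/
theorem result {G : Type*} [Group G] [Finite G] (p : ℕ) [Fact p.Prime] (χ : G → ℂ) (hχ : Cfsg.IsCharacter G χ) (g : G) (hg : ∃ j : ℕ, orderOf g = p ^ j) (h0 : χ g = 0) : p ∣ Cfsg.charDegree χ := by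
  classical
  cases nonempty_fintype G
  obtain ⟨n, ρ, rfl⟩ := hχ
  have hdeg : Cfsg.charDegree ρ.character = n := by
    have h1 : ρ.character 1 = (Module.finrank ℂ (Fin n → ℂ) : ℂ) := Representation.char_one ρ
    rw [Cfsg.charDegree, h1]
    simp
  rw [hdeg]
  obtain ⟨j, hj⟩ := hg
  rcases j with _ | k
  · have hg1 : g = 1 := by
      rw [pow_zero, orderOf_eq_one_iff] at hj
      exact hj
    subst hg1
    have h1 : ρ.character 1 = (Module.finrank ℂ (Fin n → ℂ) : ℂ) := Representation.char_one ρ
    rw [h1] at h0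
    have : n = 0 := by simpa using h0
    simp [this]
  · have hpow : ρ g ^ (p ^ (k + 1)) = 1 := by
      rw [← map_pow, ← hj, pow_orderOf_eq_one, map_one]
    have hppos : 0 < p ^ (k + 1) := pow_pos (Fact.out : p.Prime).pos _
    obtain ⟨ι, _, b, μ, h1, h2⟩ := Cfsg.Agent.Lib.CharCore.exists_eigenbasis (ρ g) (p ^ (k + 1)) hppos hpow
    have hsum : ρ.character g = ∑ i, μ i := Cfsg.Agent.Lib.CharCore.trace_eq_sum_of_eigenbasis b μ _ h1
    have hprim := Cfsg.Agent.Lib.CharGalois.zeta_prim hppos.ne'
    haveI : NeZero (p ^ (k + 1)) := ⟨hppos.ne'⟩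
    have hex : ∀ i, ∃ a : ℕ, Cfsg.Agent.Lib.CharGalois.zeta (p ^ (k + 1)) ^ a = μ i := by
      intro i
      obtain ⟨a, _, ha⟩ := hprim.eq_pow_of_pow_eq_one (h2 i)
      exact ⟨a, ha⟩
    choose a ha using hex
    let f : Polynomial ℤ := ∑ i, Polynomial.X ^ (a i)
    have hf : Polynomial.aeval (Cfsg.Agent.Lib.CharGalois.zeta (p ^ (k + 1))) f = 0 := by
      simp only [f, map_sum, map_pow, Polynomial.aeval_X, ha]
      rw [← hsum]
      exact h0
    have hint : IsIntegral ℤ (Cfsg.Agent.Lib.CharGalois.zeta (p ^ (k + 1))) := hprim.isIntegral hppos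
    have hdvd := minpoly.isIntegrallyClosed_dvd hint hf
    rw [← Polynomial.cyclotomic_eq_minpoly hprim hppos] at hdvd
    obtain ⟨q, hq⟩ := hdvd
    have h3 := congrArg (Polynomial.eval 1) hq
    rw [Polynomial.eval_mul, Polynomial.eval_one_cyclotomic_prime_pow] at h3
    have h4 : Polynomial.eval 1 f = (Fintype.card ι : ℤ) := by
      simp [f, Polynomial.eval_finsetSum]
    have h5 : Fintype.card ι = n := by
      have := Module.finrank_eq_card_basis b
      simpa using this.symm
    rw [h4, h5] at h3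
    have : (p : ℤ) ∣ (n : ℤ) := ⟨_, h3⟩
    exact_mod_cast this

end Cfsg.Agent.S4558
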