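import Cfsg.Statements.S4566
import Cfsg.Agent.Lib.CharKernel
import Cfsg.Agent.Lib.CharDeg

set_option autoImplicit false
set_option linter.style.haveILetI false
set_option linter.unusedVariables false
open scoped ComplexConjugate
open Cfsg

namespace Cfsg.Agent.S4566

/-- Let N be a central subgroup of the finite group G, ψ a faithful irreducible (hence degree-one) character of N, and χ an irreducible character of G whose restriction to N contains ψ. If g ∈ G and some x ∈ G has commutator x⁻¹ g⁻¹ x g in N but different from 1, then χ g = 0. -/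
theorem result {G : Type*} [Group G] [Fintype G] (N : Subgroup G) [Fintype N] (hN : N ≤ Subgroup.center G) (ψ : Cfsg.IrrCharacter ↥N) (hfaith : ∀ n : ↥N, (ψ : ↥N → ℂ) n = (ψ : ↥N → ℂ) 1 → n = 1) (χ : Cfsg.IrrCharacter G) (hover : Cfsg.classInner (fun n : ↥N => (χ : G → ℂ) n) (ψ : ↥N → ℂ) ≠ 0) (g x : G) (hcomm : x⁻¹ * g⁻¹ * x * g ∈ N) (hne : x⁻¹ * g⁻¹ * x * g ≠ 1) : (χ : G → ℂ) g = 0 := by
  classical
  open Cfsg.Agent.Lib.CharKernel Cfsg.Agent.Lib.CharIrr Cfsg.Agent.Lib.CharOps Cfsg.Agent.Lib.CharCore Cfsg.Agent.Lib.CharClass in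
  obtain ⟨χ, m, ρ, hρ, rfl⟩ := χ
  simp only at hover ⊢
  haveI hNn : N.Normal := by
    constructor
    intro n hn g
    have := (Subgroup.mem_center_iff.mp (hN hn)) g
    rw [this]
    simpa using hn
  have hclif := Cfsg.Agent.Lib.CharNormal.clifford N hNn
    (Cfsg.Agent.Lib.CharBasic.isIrrCharacter_character ρ hρ) ψ.2 hover
  have hset : {φ : N → ℂ | ∃ g : G, φ = fun n : N => (ψ : N → ℂ) ⟨g * n * g⁻¹, hNn.conj_mem n n.2 g⟩} = {(ψ : N → ℂ)} := by
    ext φ
    constructor
    · rintro ⟨g, rfl⟩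
      funext n
      have hh : (⟨g * n * g⁻¹, hNn.conj_mem n n.2 g⟩ : N) = n := by
        apply Subtype.ext
        have := (Subgroup.mem_center_iff.mp (hN n.2)) g
        simp only
        rw [this]
        group
      simp only [hh]
    · rintro rfl
      refine ⟨1, ?_⟩
      funext n
      have hh : (⟨1 * n * 1⁻¹, hNn.conj_mem n n.2 1⟩ : N) = n := by
        apply Subtype.ext
        simp
      simp only [hh]
  rw [hset, finsum_mem_singleton] at hclif
  by_contra hχg
  -- the scalar action of `c⁻¹`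
  haveI := hρ
  have hcN : (x⁻¹ * g⁻¹ * x * g)⁻¹ ∈ N := N.inv_mem hcomm
  obtain ⟨ω, hω⟩ := schur_scalar ρ (ρ (x⁻¹ * g⁻¹ * x * g)⁻¹) (fun h => by
    have hcen : (x⁻¹ * g⁻¹ * x * g)⁻¹ * h = h * (x⁻¹ * g⁻¹ * x * g)⁻¹ := by
      have := (Subgroup.mem_center_iff.mp (hN hcN)) h
      exact this.symm
    have h1 := congrArg ρ hcen
    simp only [map_mul] at h1
    exact h1)
  have hconj : ρ.character (g * (x⁻¹ * g⁻¹ * x * g)⁻¹) = ρ.character g := by
    have h1 : g * (x⁻¹ * g⁻¹ * x * g)⁻¹ = x⁻¹ * g * x⁻¹⁻¹ := by group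
    rw [h1]
    exact Representation.char_conj ρ g x⁻¹
  have hsc : ρ.character (g * (x⁻¹ * g⁻¹ * x * g)⁻¹) = ω * ρ.character g := by
    rw [Representation.character, map_mul, hω]
    have : ρ g * (ω • (LinearMap.id : (Fin m → ℂ) →ₗ[ℂ] (Fin m → ℂ))) = ω • ρ g := by
      ext v
      simp
    rw [this, map_smul, smul_eq_mul]
    rfl
  have hω1 : ω = 1 := by
    rw [hconj] at hsc
    have : (ω - 1) * ρ.character g = 0 := by linear_combination -hsc
    exact sub_eq_zero.mp ((mul_eq_zero.mp this).resolve_right hχg)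
  have hid : ρ (x⁻¹ * g⁻¹ * x * g)⁻¹ = LinearMap.id := by
    rw [hω, hω1, one_smul]
  have hval : ρ.character (x⁻¹ * g⁻¹ * x * g)⁻¹ = ρ.character 1 := by
    rw [Representation.character, hid, Representation.character, map_one]
    rfl
  have h3 := congrFun hclif ⟨_, hcN⟩
  have h4 := congrFun hclif 1
  simp only [Pi.smul_apply, smul_eq_mul] at h3 h4
  rw [show ((1 : N) : G) = 1 from rfl] at h4
  rw [hval, h4] at h3
  have h5 := mul_left_cancel₀ hover h3
  have h6 := hfaith _ h5.symm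
  apply hne
  have h7 : (x⁻¹ * g⁻¹ * x * g)⁻¹ = 1 := congrArg (fun x : N => (x : G)) h6
  exact inv_eq_one.mp h7

end Cfsg.Agent.S4566
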