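import Cfsg.Statements.S4567
import Cfsg.Agent.Lib.CharOps
import Cfsg.Agent.Lib.CharIrr
import Cfsg.Agent.Lib.CharCentral
import Cfsg.Agent.Lib.CharLinear
import Cfsg.Agent.Lib.CharAb

set_option autoImplicit false
set_option linter.all false
open Cfsg

namespace Cfsg.Agent.S4567


open Cfsg.Agent.Lib.CharOps Cfsg.Agent.Lib.CharIrr Cfsg.Agent.Lib.CharCentral Cfsg.Agent.Lib.CharLinear Cfsg.Agent.Lib.CharAb
open scoped ComplexConjugate


/-- Let N be a central subgroup of the finite group G and ψ a faithful irreducible (hence degree-one) character of N. Call a coset g N special when every x ∈ G whose commutator x⁻¹ g⁻¹ x g lies in N actually commutes with g (this depends only on the coset). Then the number of irreducible characters of G whose restriction to N contains ψ equals the number of conjugacy classes of G/N consisting of special cosets. -/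
theorem result {G : Type*} [Group G] [Fintype G] (N : Subgroup G) [N.Normal] [Fintype N] (hN : N ≤ Subgroup.center G) (ψ : Cfsg.IrrCharacter ↥N) (hfaith : ∀ n : ↥N, (ψ : ↥N → ℂ) n = (ψ : ↥N → ℂ) 1 → n = 1) : Nat.card {χ : Cfsg.IrrCharacter G // Cfsg.classInner (fun n : ↥N => (χ : G → ℂ) n) (ψ : ↥N → ℂ) ≠ 0} = Nat.card {C : ConjClasses (G ⧸ N) // ∃ g : G, ConjClasses.mk (g : G ⧸ N) = C ∧ ∀ x : G, x⁻¹ * g⁻¹ * x * g ∈ N → x * g = g * x} := by

  classical
  have hNcm : ∀ (n : N) (g : G), (n : G) * g = g * n := fun n g => (Subgroup.mem_center_iff.1 (hN n.2) g).symm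
  have hψc := IsIrrCharacter.isCharacter' ψ.2
  have hψ1 : (ψ : N → ℂ) 1 = 1 := degree_one_of_comm ψ.2 (fun x y => by
    have hxy : x * y = y * x := Subtype.ext (hNcm x y)
    have : x * y * x⁻¹ * y⁻¹ = 1 := by rw [hxy]; group
    rw [this])
  have hψm : ∀ a b : N, (ψ : N → ℂ) (a * b) = (ψ : N → ℂ) a * (ψ : N → ℂ) b := degree_one_mul hψc hψ1
  have hψcc : ∀ n : N, (ψ : N → ℂ) n * conj ((ψ : N → ℂ) n) = 1 := mul_conj_linear hψc hψ1
  have hψinv : ∀ m : N, conj ((ψ : N → ℂ) m⁻¹) = (ψ : N → ℂ) m := by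
    intro m; rw [character_inv_of_isCharacter hψc m]; simp
  have hNcard : (Nat.card N : ℂ) ≠ 0 := by exact_mod_cast Nat.card_pos.ne'
  have hcen : ∀ (χ : IrrCharacter G) (n : N) (w : G), (χ : G → ℂ) (n * w) * (χ : G → ℂ) 1 = (χ : G → ℂ) n * (χ : G → ℂ) w := by
    intro χ n w
    have h1 := sum_conj_mul_irr χ.2 (n : G) w
    have h2 : ∀ x : G, (χ : G → ℂ) (x * n * x⁻¹ * w) = (χ : G → ℂ) (n * w) := by
      intro x
      have : x * (n : G) * x⁻¹ = n := by rw [← hNcm n x]; group
      rw [this]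
    simp only [h2, Finset.sum_const, Finset.card_univ, nsmul_eq_mul] at h1
    rw [Nat.card_eq_fintype_card] at h1
    have hG' : (Fintype.card G : ℂ) ≠ 0 := by exact_mod_cast Fintype.card_ne_zero
    apply mul_left_cancel₀ hG'
    rw [← mul_assoc, h1]; ring
  let S : IrrCharacter G → ℂ := fun χ => ∑ n : N, (χ : G → ℂ) n * conj ((ψ : N → ℂ) n)
  let P : IrrCharacter G → Prop := fun χ => classInner (fun n : ↥N => (χ : G → ℂ) n) (ψ : ↥N → ℂ) ≠ 0
  have hPS : ∀ χ, P χ ↔ S χ ≠ 0 := by
    intro χ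
    simp only [P, S, classInner]
    simp [hNcard, mul_eq_zero]
  have hshift : ∀ (χ : IrrCharacter G) (m : N), (χ : G → ℂ) m * S χ = (χ : G → ℂ) 1 * ((ψ : N → ℂ) m * S χ) := by
    intro χ m
    have h1 : ∑ n : N, (χ : G → ℂ) ((n * m : N) : G) * conj ((ψ : N → ℂ) n) = (ψ : N → ℂ) m * S χ := by
      have h2 := Equiv.sum_comp (Equiv.mulRight m) (fun n' : N => (χ : G → ℂ) (n' : G) * conj ((ψ : N → ℂ) (n' * m⁻¹)))
      simp only [Equiv.coe_mulRight, mul_inv_cancel_right] at h2
      rw [h2]
      simp only [S]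
      rw [Finset.mul_sum]
      refine Finset.sum_congr rfl (fun n _ => ?_)
      rw [hψm, map_mul, hψinv]; ring
    have hS' : S χ = ∑ n : N, (χ : G → ℂ) n * conj ((ψ : N → ℂ) n) := rfl
    rw [← h1, hS', Finset.mul_sum, Finset.mul_sum]
    refine Finset.sum_congr rfl (fun n _ => ?_)
    have h3 := hcen χ n m
    rw [Subgroup.coe_mul]
    linear_combination (- conj ((ψ : N → ℂ) n)) * h3
  have hPeq : ∀ (χ : IrrCharacter G), P χ → ∀ (n : N) (g : G), (χ : G → ℂ) (n * g) = (ψ : N → ℂ) n * (χ : G → ℂ) g := by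
    intro χ hχ n g
    have hS := (hPS χ).1 hχ
    have h1 := hshift χ n
    have h2 : (χ : G → ℂ) n = (χ : G → ℂ) 1 * (ψ : N → ℂ) n := mul_right_cancel₀ hS (by rw [h1]; ring)
    have h3 := hcen χ n g
    have h4 := degree_ne_zero χ.2
    apply mul_right_cancel₀ h4
    rw [h3, h2]; ring
  let T : IrrCharacter G → G → ℂ := fun χ g => ∑ n : N, (χ : G → ℂ) (n * g) * conj ((ψ : N → ℂ) n)
  have hT : ∀ χ g, T χ g = if P χ then (Nat.card N : ℂ) * (χ : G → ℂ) g else 0 := by
    intro χ g
    split_ifs with h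
    · have h5 : ∀ n : N, (χ : G → ℂ) (n * g) * conj ((ψ : N → ℂ) n) = (χ : G → ℂ) g := by
        intro n; rw [hPeq χ h n g]; linear_combination ((χ : G → ℂ) g) * hψcc n
      simp only [T, h5, Finset.sum_const, Finset.card_univ, nsmul_eq_mul, Nat.card_eq_fintype_card]
    · have hS0 : S χ = 0 := by_contra fun hh => h ((hPS χ).2 hh)
      have h4 := degree_ne_zero χ.2
      have h6 : T χ g * (χ : G → ℂ) 1 = (χ : G → ℂ) g * S χ := by
        simp only [T, S, Finset.sum_mul, Finset.mul_sum]
        refine Finset.sum_congr rfl (fun n _ => ?_)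
        linear_combination (conj ((ψ : N → ℂ) n)) * hcen χ n g
      rw [hS0, mul_zero] at h6
      exact (mul_eq_zero.1 h6).resolve_right h4
  have hK : ∀ g h : G, (Nat.card N : ℂ) * ∑ χ : IrrCharacter G, (if P χ then (χ : G → ℂ) g * conj ((χ : G → ℂ) h) else 0)
      = ∑ n : N, conj ((ψ : N → ℂ) n) * (if IsConj ((n : G) * g) h then (Nat.card (Subgroup.centralizer ({h} : Set G)) : ℂ) else 0) := by
    intro g h
    simp_rw [← column_orthogonality, Finset.mul_sum]
    rw [Finset.sum_comm]
    refine Finset.sum_congr rfl (fun χ _ => ?_)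
    have h7 : ∑ n : N, conj ((ψ : N → ℂ) n) * ((χ : G → ℂ) (n * g) * conj ((χ : G → ℂ) h)) = T χ g * conj ((χ : G → ℂ) h) := by
      simp only [T, Finset.sum_mul]
      refine Finset.sum_congr rfl (fun n _ => ?_)
      ring
    rw [h7, hT]
    split_ifs with hp
    · ring
    · ring
  let Q : ConjClasses (G ⧸ N) → Prop := fun C => ∃ g : G, ConjClasses.mk (g : G ⧸ N) = C ∧ ∀ x : G, x⁻¹ * g⁻¹ * x * g ∈ N → x * g = g * x
  have hQ : ∀ C : {C // Q C}, ∃ g : G, ConjClasses.mk (g : G ⧸ N) = C.1 ∧ ∀ x : G, x⁻¹ * g⁻¹ * x * g ∈ N → x * g = g * x := fun C => C.2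
  choose r hr1 hr2 using hQ
  have hoff : ∀ C C' : {C // Q C}, C ≠ C' → ∀ n : N, ¬ IsConj ((n : G) * r C) (r C') := by
    intro C C' hne n hc
    apply hne
    have h1 : (((n : G) * r C : G) : G ⧸ N) = (r C : G ⧸ N) := by
      rw [hNcm n]; exact QuotientGroup.mk_mul_of_mem _ n.2
    have h2 : IsConj (QuotientGroup.mk' N ((n : G) * r C)) (QuotientGroup.mk' N (r C')) := by
      obtain ⟨c, hc⟩ := isConj_iff.1 hc
      exact isConj_iff.2 ⟨QuotientGroup.mk' N c, by rw [← map_inv, ← map_mul, ← map_mul, hc]⟩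
    have h3 : IsConj ((r C : G) : G ⧸ N) ((r C' : G) : G ⧸ N) := by
      rw [← h1]; exact h2
    have h4 := ConjClasses.mk_eq_mk_iff_isConj.2 h3
    rw [hr1, hr1] at h4
    exact Subtype.ext h4
  have hon : ∀ (C : {C // Q C}) (n : N), IsConj ((n : G) * r C) (r C) → n = 1 := by
    intro C n hc
    obtain ⟨c, hc⟩ := isConj_iff.1 hc
    have h1 : c * r C * c⁻¹ = (n : G)⁻¹ * r C := by
      have h2 : c * ((n : G) * r C) * c⁻¹ = (n : G) * (c * r C * c⁻¹) := by
        rw [show c * ((n : G) * r C) = (c * (n : G)) * r C by group, ← hNcm n c]; group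
      rw [h2] at hc
      exact eq_inv_mul_iff_mul_eq.2 hc
    have h3 : c⁻¹⁻¹ * (r C)⁻¹ * c⁻¹ * r C = (n : G) := by
      have h4 : c * (r C)⁻¹ * c⁻¹ = (c * r C * c⁻¹)⁻¹ := by group
      rw [inv_inv, h4, h1, mul_inv_rev, inv_inv, mul_assoc, hNcm n, inv_mul_cancel_left]
    have h5 := hr2 C c⁻¹ (by rw [h3]; exact n.2)
    have h6 : c * r C * c⁻¹ = r C := by
      have : c * (c⁻¹ * r C) * c⁻¹ = c * (r C * c⁻¹) * c⁻¹ := by rw [h5]
      have h7 : c * (c⁻¹ * r C) * c⁻¹ = r C * c⁻¹ := by group
      rw [h7] at this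
      have h8 : c * (r C * c⁻¹) * c⁻¹ = c * r C * c⁻¹ * c⁻¹ := by group
      rw [h8] at this
      exact (mul_right_cancel this).symm
    rw [h1] at h6
    have h9 : (n : G)⁻¹ = 1 := by simpa using h6
    exact Subtype.ext (by simpa using h9)
  have hK_off : ∀ C C' : {C // Q C}, C ≠ C' →
      ∑ χ : IrrCharacter G, (if P χ then (χ : G → ℂ) (r C) * conj ((χ : G → ℂ) (r C')) else 0) = 0 := by
    intro C C' hne
    have h1 := hK (r C) (r C')
    have h2 : ∑ n : N, conj ((ψ : N → ℂ) n) * (if IsConj ((n : G) * r C) (r C') then (Nat.card (Subgroup.centralizer ({r C'} : Set G)) : ℂ) else 0) = 0 :=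
      Finset.sum_eq_zero (fun n _ => by rw [if_neg (hoff C C' hne n), mul_zero])
    rw [h2] at h1
    exact (mul_eq_zero.1 h1).resolve_left hNcard
  have hK_on : ∀ C : {C // Q C},
      ∑ χ : IrrCharacter G, (if P χ then (χ : G → ℂ) (r C) * conj ((χ : G → ℂ) (r C)) else 0) ≠ 0 := by
    intro C h0
    have h1 := hK (r C) (r C)
    rw [h0, mul_zero, Finset.sum_eq_single (1 : N)] at h1
    · have h2 : IsConj (((1 : N) : G) * r C) (r C) := by
        rw [OneMemClass.coe_one, one_mul]
      rw [if_pos h2] at h1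
      have h3 : (Nat.card (Subgroup.centralizer ({r C} : Set G)) : ℂ) ≠ 0 := by exact_mod_cast Nat.card_pos.ne'
      have h4 : conj ((ψ : N → ℂ) 1) = 1 := by rw [hψ1]; simp
      rw [h4, one_mul] at h1
      exact h3 h1.symm
    · intro n _ hn
      rw [if_neg (fun hc => hn (hon C n hc)), mul_zero]
    · simp
  haveI instA : Fintype {χ : IrrCharacter G // P χ} := Fintype.ofFinite _
  haveI instB : Fintype {C // Q C} := Fintype.ofFinite _
  have hle1 : Fintype.card {C // Q C} ≤ Fintype.card {χ : IrrCharacter G // P χ} := by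
    have hli : LinearIndependent ℂ (fun C : {C // Q C} => fun χ : {χ : IrrCharacter G // P χ} => (χ.1 : G → ℂ) (r C)) := by
      rw [Fintype.linearIndependent_iff]
      intro a ha C0
      have h1 : ∀ χ : {χ : IrrCharacter G // P χ}, ∑ C, a C * (χ.1 : G → ℂ) (r C) = 0 := fun χ => by
        have := congrFun ha χ
        simpa [Finset.sum_apply] using this
      have h2 : ∑ χ : IrrCharacter G, (if P χ then (∑ C, a C * (χ : G → ℂ) (r C)) * conj ((χ : G → ℂ) (r C0)) else 0) = 0 :=
        Finset.sum_eq_zero (fun χ _ => by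
          split_ifs with h
          · rw [h1 ⟨χ, h⟩, zero_mul]
          · rfl)
      have h3 : ∑ χ : IrrCharacter G, (if P χ then (∑ C, a C * (χ : G → ℂ) (r C)) * conj ((χ : G → ℂ) (r C0)) else 0)
          = ∑ C, a C * ∑ χ : IrrCharacter G, (if P χ then (χ : G → ℂ) (r C) * conj ((χ : G → ℂ) (r C0)) else 0) := by
        simp_rw [Finset.mul_sum]
        rw [Finset.sum_comm]
        refine Finset.sum_congr rfl (fun χ _ => ?_)
        split_ifs with h
        · rw [Finset.sum_mul]
          refine Finset.sum_congr rfl (fun C _ => ?_)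
          ring
        · simp
      rw [h3, Finset.sum_eq_single C0] at h2
      · exact (mul_eq_zero.1 h2).resolve_right (hK_on C0)
      · intro C _ hC; rw [hK_off C C0 hC, mul_zero]
      · simp
    have h1 := hli.fintype_card_le_finrank
    rwa [Module.finrank_fintype_fun_eq_card] at h1
  have hle2 : Fintype.card {χ : IrrCharacter G // P χ} ≤ Fintype.card {C // Q C} := by
    have hli : LinearIndependent ℂ (fun χ : {χ : IrrCharacter G // P χ} => fun C : {C // Q C} => (χ.1 : G → ℂ) (r C)) := by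
      rw [Fintype.linearIndependent_iff]
      intro a ha χ0
      let f : G → ℂ := fun g => ∑ χ : {χ : IrrCharacter G // P χ}, a χ * (χ.1 : G → ℂ) g
      have hf0 : ∀ C, f (r C) = 0 := fun C => by
        have := congrFun ha C
        simpa [Finset.sum_apply] using this
      have hfn : ∀ (n : N) (g : G), f (n * g) = (ψ : N → ℂ) n * f g := by
        intro n g
        simp only [f, Finset.mul_sum]
        refine Finset.sum_congr rfl (fun χ _ => ?_)
        rw [hPeq χ.1 χ.2 n g]; ring
      have hfc : ∀ x g : G, f (x * g * x⁻¹) = f g := by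
        intro x g
        simp only [f]
        refine Finset.sum_congr rfl (fun χ _ => ?_)
        rw [classFun_eq_of_isConj (IsCharacter.isClassFunction' (IsIrrCharacter.isCharacter' χ.1.2)) (isConj_conj g x)]
      have hf : ∀ g, f g = 0 := by
        intro g
        by_cases hs : ∀ x : G, x⁻¹ * g⁻¹ * x * g ∈ N → x * g = g * x
        · let C : {C // Q C} := ⟨ConjClasses.mk (g : G ⧸ N), g, rfl, hs⟩
          have h1 : ConjClasses.mk ((r C : G) : G ⧸ N) = ConjClasses.mk (g : G ⧸ N) := hr1 C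
          have h2 := ConjClasses.mk_eq_mk_iff_isConj.1 h1
          obtain ⟨c, hc⟩ := isConj_iff.1 h2
          obtain ⟨y, rfl⟩ := QuotientGroup.mk_surjective c
          have h3 : ((y * r C * y⁻¹ : G) : G ⧸ N) = (g : G ⧸ N) := by simpa using hc
          rw [QuotientGroup.eq] at h3
          let n : N := ⟨_, h3⟩
          have h4 : g = (n : G) * (y * r C * y⁻¹) := by
            rw [hNcm n]
            exact (mul_inv_cancel_left (y * r C * y⁻¹) g).symm
          rw [h4, hfn, hfc, hf0, mul_zero]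
        · push_neg at hs
          obtain ⟨x, hx, hne⟩ := hs
          let n : N := ⟨_, hx⟩
          have hn1 : n⁻¹ ≠ 1 := by
            intro h
            apply hne
            have h5 : x⁻¹ * g⁻¹ * x * g = 1 := by
              have := congrArg Subtype.val (inv_eq_one.1 h)
              simpa [n] using this
            have h6 : x⁻¹ * g⁻¹ * x = g⁻¹ := by
              have h10 : x⁻¹ * g⁻¹ * x * g * g⁻¹ = g⁻¹ := by rw [h5, one_mul]
              simpa using h10
            have h11 : g⁻¹ * x = x * g⁻¹ := by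
              have h12 : x * (x⁻¹ * g⁻¹ * x) = x * g⁻¹ := by rw [h6]
              simpa [mul_assoc] using h12
            have h13 : x * g = g * (g⁻¹ * x) * g := by group
            rw [h13, h11]; group
          have h6 : x⁻¹ * g * x = ((n⁻¹ : N) : G) * g := by
            rw [hNcm]; simp [n]; group
          have h7 : f g = (ψ : N → ℂ) n⁻¹ * f g := by
            have h8 := hfc x⁻¹ g
            rw [inv_inv, h6, hfn] at h8
            exact h8.symm
          have h8 : (ψ : N → ℂ) n⁻¹ ≠ 1 := fun h => hn1 (hfaith _ (by rw [h, hψ1]))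
          have h9 : ((ψ : N → ℂ) n⁻¹ - 1) * f g = 0 := by linear_combination -h7
          exact (mul_eq_zero.1 h9).resolve_left (sub_ne_zero.2 h8)
      have hli' := (irr_linearIndependent (G := G)).comp (Subtype.val : {χ : IrrCharacter G // P χ} → IrrCharacter G) Subtype.val_injective
      rw [Fintype.linearIndependent_iff] at hli'
      refine hli' a ?_ χ0
      ext g
      simpa [Finset.sum_apply] using hf g
    have h1 := hli.fintype_card_le_finrank
    rwa [Module.finrank_fintype_fun_eq_card] at h1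
  change Nat.card {χ : IrrCharacter G // P χ} = Nat.card {C // Q C}
  rw [Nat.card_eq_fintype_card, Nat.card_eq_fintype_card]
  exact le_antisymm hle2 hle1

end Cfsg.Agent.S4567
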