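import Cfsg.Statements.S4574
import Cfsg.Agent.Lib.CharAMGM

set_option autoImplicit false
set_option linter.style.haveILetI false
set_option linter.unusedVariables false
open scoped ComplexConjugate
open Cfsg

namespace Cfsg.Agent.S4574

/-- Let χ be an irreducible character of the finite group G, of degree d, and let Z(χ) be the set of elements g with |χ g| = d (the centre of χ). Then χ vanishes on at least (d ^ 2 - 1) · |Z(χ)| elements of G, with equality when every value |χ g| is 0, 1 or d. -/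
theorem result {G : Type*} [Group G] [Fintype G] [DecidableEq G] (χ : G → ℂ) (hχ : Cfsg.IsIrrCharacter G χ) : (Cfsg.charDegree χ ^ 2 - 1) * (Finset.univ.filter (fun g : G => ‖χ g‖ = (Cfsg.charDegree χ : ℝ))).card ≤ (Finset.univ.filter (fun g : G => χ g = 0)).card ∧ ((∀ g : G, ‖χ g‖ = 0 ∨ ‖χ g‖ = 1 ∨ ‖χ g‖ = (Cfsg.charDegree χ : ℝ)) → (Cfsg.charDegree χ ^ 2 - 1) * (Finset.univ.filter (fun g : G => ‖χ g‖ = (Cfsg.charDegree χ : ℝ))).card = (Finset.univ.filter (fun g : G => χ g = 0)).card) := by
  classical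
  open Cfsg.Agent.Lib.CharAMGM Cfsg.Agent.Lib.CharIrr in
  obtain ⟨n, ρ, hρ, rfl⟩ := hχ
  set d := Module.finrank ℂ (Fin n → ℂ) with hd
  have hdeg : Cfsg.charDegree ρ.character = d := by
    have h1 : ρ.character 1 = (Module.finrank ℂ (Fin n → ℂ) : ℂ) := Representation.char_one ρ
    rw [Cfsg.charDegree, h1]
    simp [hd]
  rw [hdeg]
  let S : Finset G := Finset.univ.filter (fun g => ρ.character g ≠ 0 ∧ ‖ρ.character g‖ ≠ (d : ℝ))
  let Z : Finset G := Finset.univ.filter (fun g => ‖ρ.character g‖ = (d : ℝ))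
  let O : Finset G := Finset.univ.filter (fun g => ρ.character g = 0)
  have hdpos : 0 < d := Cfsg.Agent.Lib.CharBasic.finrank_pos_of_irreducible ρ hρ
  have hdisj : ∀ g ∈ O, ‖ρ.character g‖ ≠ (d : ℝ) := by
    intro g hg h
    have := (Finset.mem_filter.mp hg).2
    rw [this, norm_zero] at h
    have hd0 : (0 : ℝ) < d := by exact_mod_cast hdpos
    linarith
  have hS := card_le_sum_sq ρ S (fun g hg => (Finset.mem_filter.mp hg).2.1) (by
    intro g hg m hm
    have h1 := (Finset.mem_filter.mp hg).2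
    refine Finset.mem_filter.mpr ⟨Finset.mem_univ _, character_pow_ne_zero ρ hm g h1.1, ?_⟩
    intro h2
    exact h1.2 ((norm_pow_eq_finrank_iff ρ hm g).mp h2))
  have hirr := Cfsg.Agent.Lib.CharBasic.isIrrCharacter_character ρ hρ
  have htot : ∑ g, ‖ρ.character g‖ ^ 2 = (Nat.card G : ℝ) := by
    have h1 := classInner_irr hirr hirr
    rw [if_pos rfl, Cfsg.classInner] at h1
    have hG : (Nat.card G : ℂ) ≠ 0 := by exact_mod_cast Nat.card_pos.ne'
    have h2 : ∑ g, ρ.character g * conj (ρ.character g) = (Nat.card G : ℂ) := by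
      field_simp at h1
      exact h1
    have h3 : ((∑ g, ‖ρ.character g‖ ^ 2 : ℝ) : ℂ) = (Nat.card G : ℂ) := by
      rw [← h2]
      push_cast
      exact Finset.sum_congr rfl fun g _ => (Complex.mul_conj' _).symm
    exact_mod_cast h3
  -- split the group
  have hpart : (Finset.univ : Finset G) = Z ∪ O ∪ S := by
    ext g
    simp only [Z, O, S, Finset.mem_univ, Finset.mem_union, Finset.mem_filter, true_and, true_iff]
    by_cases h1 : ‖ρ.character g‖ = (d : ℝ)
    · exact Or.inl (Or.inl h1)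
    · by_cases h2 : ρ.character g = 0
      · exact Or.inl (Or.inr h2)
      · exact Or.inr ⟨h2, h1⟩
  have hd1 : Disjoint Z O := by
    rw [Finset.disjoint_left]
    intro g hg hg'
    exact hdisj g hg' (Finset.mem_filter.mp hg).2
  have hd2 : Disjoint (Z ∪ O) S := by
    rw [Finset.disjoint_left]
    intro g hg hg'
    have h3 := (Finset.mem_filter.mp hg').2
    rcases Finset.mem_union.mp hg with h | h
    · exact h3.2 (Finset.mem_filter.mp h).2
    · exact h3.1 (Finset.mem_filter.mp h).2
  have hsumsplit : ∑ g, ‖ρ.character g‖ ^ 2 = ∑ g ∈ Z, ‖ρ.character g‖ ^ 2 + ∑ g ∈ O, ‖ρ.character g‖ ^ 2 + ∑ g ∈ S, ‖ρ.character g‖ ^ 2 := by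
    rw [hpart, Finset.sum_union hd2, Finset.sum_union hd1]
  have hcardsplit : Z.card + O.card + S.card = Nat.card G := by
    rw [Nat.card_eq_fintype_card, ← Finset.card_univ, hpart, Finset.card_union_of_disjoint hd2, Finset.card_union_of_disjoint hd1]
  have hsZ : ∑ g ∈ Z, ‖ρ.character g‖ ^ 2 = (Z.card : ℝ) * (d : ℝ) ^ 2 := by
    rw [Finset.sum_congr rfl (fun g hg => by rw [(Finset.mem_filter.mp hg).2])]
    simp
  have hsO : ∑ g ∈ O, ‖ρ.character g‖ ^ 2 = 0 := by
    apply Finset.sum_eq_zero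
    intro g hg
    rw [(Finset.mem_filter.mp hg).2]
    simp
  have hcR : (Z.card : ℝ) + O.card + S.card = Nat.card G := by exact_mod_cast hcardsplit
  have hdsq : 1 ≤ d ^ 2 := Nat.one_le_pow _ _ hdpos
  constructor
  · -- the inequality
    have h1 : (Z.card : ℝ) * (d : ℝ) ^ 2 ≤ Z.card + O.card := by
      rw [hsumsplit, hsZ, hsO, add_zero] at htot
      linarith
    have h2 : (d ^ 2 - 1) * Z.card ≤ O.card := by
      have h3 : ((d ^ 2 - 1) * Z.card : ℕ) = (d ^ 2) * Z.card - Z.card := by
        rw [Nat.sub_mul, one_mul]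
      rw [h3]
      have h4 : (d ^ 2 * Z.card : ℝ) ≤ Z.card + O.card := by linarith
      have h5 : d ^ 2 * Z.card ≤ Z.card + O.card := by exact_mod_cast h4
      omega
    exact h2
  · intro hall
    have hone : ∀ g ∈ S, ‖ρ.character g‖ = 1 := by
      intro g hg
      have h3 := (Finset.mem_filter.mp hg).2
      rcases hall g with h | h | h
      · exact absurd (norm_eq_zero.mp h) h3.1
      · exact h
      · exact absurd h h3.2
    have hsS : ∑ g ∈ S, ‖ρ.character g‖ ^ 2 = S.card := by
      rw [Finset.sum_congr rfl (fun g hg => by rw [hone g hg])]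
      simp
    rw [hsumsplit, hsZ, hsO, hsS, add_zero] at htot
    have h1 : (Z.card : ℝ) * (d : ℝ) ^ 2 = Z.card + O.card := by linarith
    have h4 : (d ^ 2 * Z.card : ℝ) = Z.card + O.card := by linarith
    have h5 : d ^ 2 * Z.card = Z.card + O.card := by exact_mod_cast h4
    show (d ^ 2 - 1) * Z.card = O.card
    rw [Nat.sub_mul, one_mul]
    omega

end Cfsg.Agent.S4574
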