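import Cfsg.Statements.S4582
import Mathlib

set_option autoImplicit false
open Cfsg

namespace Cfsg.Agent.S4582

open MulAction Subgroup
open scoped Pointwise commutatorElement

theorem per {G A : Type*} [Group G] [CommGroup A] (H N : Subgroup G) [N.Normal]
    (hNH : ∀ g : G, ∃ n ∈ N, ∃ t ∈ H, n * t = g) (ϕ : H →* A)
    (ha : ∀ q : H, (q : G) ∈ N → ϕ q ^ 2 = 1) (x : H) (k : ℕ) (g : G)
    (h : g⁻¹ * (x : G) ^ k * g ∈ H) :
    ϕ ⟨g⁻¹ * (x : G) ^ k * g, h⟩ ^ 2 = ϕ x ^ (2 * k) := by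
  obtain ⟨n, hn, t, ht, rfl⟩ := hNH g
  set e : H := ⟨(n * t)⁻¹ * (x : G) ^ k * (n * t), h⟩ with he
  have hw : ((x ^ k : H) : G)⁻¹ * n⁻¹ * (x : G) ^ k * n ∈ H := by
    have h1 : (((⟨t, ht⟩ : H) * e * (⟨t, ht⟩ : H)⁻¹ : H) : G) ∈ H := Subtype.property _
    have h2 : (((⟨t, ht⟩ : H) * e * (⟨t, ht⟩ : H)⁻¹ : H) : G) = n⁻¹ * (x : G) ^ k * n := by
      show t * ((n * t)⁻¹ * (x : G) ^ k * (n * t)) * t⁻¹ = _
      group
    have h3 : n⁻¹ * (x : G) ^ k * n ∈ H := h2 ▸ h1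
    have h4 : ((x ^ k : H) : G)⁻¹ * n⁻¹ * (x : G) ^ k * n = ((x ^ k : H) : G)⁻¹ * (n⁻¹ * (x : G) ^ k * n) := by group
    rw [h4]
    exact H.mul_mem (H.inv_mem (x ^ k).2) h3
  have hwN : ((x ^ k : H) : G)⁻¹ * n⁻¹ * (x : G) ^ k * n ∈ N := by
    have h6 : ((x ^ k : H) : G)⁻¹ * n⁻¹ * (x : G) ^ k * n = (((x : G) ^ k)⁻¹ * n⁻¹ * (((x : G) ^ k)⁻¹)⁻¹) * n := by
      show ((x : G) ^ k)⁻¹ * n⁻¹ * (x : G) ^ k * n = _
      group
    rw [h6]
    exact N.mul_mem (‹N.Normal›.conj_mem _ (N.inv_mem hn) _) hn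
  let w : H := ⟨_, hw⟩
  have hz : (⟨t, ht⟩ : H) * e * (⟨t, ht⟩ : H)⁻¹ = (x ^ k) * w := by
    apply Subtype.ext
    show t * ((n * t)⁻¹ * (x : G) ^ k * (n * t)) * t⁻¹ = ((x : G) ^ k) * (((x : G) ^ k)⁻¹ * n⁻¹ * (x : G) ^ k * n)
    group
  have h5 : ϕ e = ϕ ((⟨t, ht⟩ : H) * e * (⟨t, ht⟩ : H)⁻¹) := by
    rw [map_mul, map_mul, map_inv, mul_comm (ϕ _) (ϕ e), mul_assoc, mul_inv_cancel, mul_one]
  rw [h5, hz, map_mul, mul_pow, ha w hwN, mul_one, map_pow, ← pow_mul, mul_comm k 2]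

theorem T_square {G A : Type*} [Group G] [Finite G] [CommGroup A] (H N : Subgroup G) [N.Normal]
    (hNH : ∀ g : G, ∃ n ∈ N, ∃ t ∈ H, n * t = g) (ϕ : H →* A)
    (ha : ∀ q : H, (q : G) ∈ N → ϕ q ^ 2 = 1) (x : H) :
    (ϕ.transfer (x : G)) ^ 2 = ϕ x ^ (2 * H.index) := by
  classical
  letI := Fintype.ofFinite (Quotient (orbitRel (zpowers (x : G)) (G ⧸ H)))
  rw [MonoidHom.transfer_eq_prod_quotient_orbitRel_zpowers_quot, ← Finset.prod_pow,
    Subgroup.index_eq_sum_minimalPeriod H (x : G), pow_mul, ← Finset.prod_pow_eq_pow_sum]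
  refine Finset.prod_congr rfl fun q _ => ?_
  rw [per H N hNH ϕ ha x _ _, pow_mul]

/-- Let N be a normal subgroup of the finite group G, P a Sylow 2-subgroup of G and Q = P ∩ N. Suppose that P/QP' and Q/Q' are elementary abelian (every square of an element of P lies in the subgroup generated by Q and the derived subgroup of P, and every square of an element of Q lies in the derived subgroup of Q), and that the commutator factor group N/N' has odd order. Then P/P' is elementary abelian. -/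
theorem result {G : Type*} [Group G] [Finite G] (N : Subgroup G) [N.Normal] (P : Sylow 2 G)
    (hP : ∀ x ∈ (P : Subgroup G), x ^ 2 ∈ ((P : Subgroup G) ⊓ N) ⊔ ⁅(P : Subgroup G), (P : Subgroup G)⁆)
    (hQ : ∀ x ∈ (P : Subgroup G) ⊓ N, x ^ 2 ∈ ⁅(P : Subgroup G) ⊓ N, (P : Subgroup G) ⊓ N⁆)
    (hodd : Odd (Nat.card (Abelianization N))) :
    ∀ x ∈ (P : Subgroup G), x ^ 2 ∈ ⁅(P : Subgroup G), (P : Subgroup G)⁆ := by
  classical
  intro x hx
  have hPQ : (P : Subgroup G) ≤ N ⊔ (P : Subgroup G) := le_sup_right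
  have hNQ : N ≤ N ⊔ (P : Subgroup G) := le_sup_left
  set K : Subgroup G := N ⊔ (P : Subgroup G) with hK
  let H : Subgroup ↥K := (P : Subgroup G).subgroupOf K
  let N₁ : Subgroup ↥K := N.subgroupOf K
  haveI : N₁.Normal := Subgroup.Normal.subgroupOf ‹_› K
  let A := Abelianization ↥(P : Subgroup G)
  let e : ↥H ≃* ↥(P : Subgroup G) := Subgroup.subgroupOfEquivOfLe hPQ
  let ϕ : ↥H →* A := Abelianization.of.comp e.toMonoidHom
  have hcomm : ∀ y : ↥(P : Subgroup G), Abelianization.of y = 1 ↔ (y : G) ∈ ⁅(P : Subgroup G), (P : Subgroup G)⁆ := by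
    intro y
    rw [← MonoidHom.mem_ker, Abelianization.ker_of, ← Subgroup.map_subtype_commutator]
    constructor
    · intro hy
      exact ⟨y, hy, rfl⟩
    · rintro ⟨y', hy', hyy⟩
      have : y' = y := Subtype.ext hyy
      exact this ▸ hy'
  have hA2 : IsPGroup 2 A := IsPGroup.of_surjective (Sylow.isPGroup' P) Abelianization.of
    (QuotientGroup.mk'_surjective _)
  have hNH : ∀ g : ↥K, ∃ n ∈ N₁, ∃ t ∈ H, n * t = g := by
    rintro ⟨g, hg⟩
    have hg' : g ∈ ((N : Set G) * ((P : Subgroup G) : Set G)) := by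
      rw [← Subgroup.normal_mul]; exact hg
    obtain ⟨n, hn, p, hp, rfl⟩ := Set.mem_mul.1 hg'
    exact ⟨⟨n, hNQ hn⟩, hn, ⟨p, hPQ hp⟩, hp, rfl⟩
  have ha : ∀ q : ↥H, (q : ↥K) ∈ N₁ → ϕ q ^ 2 = 1 := by
    intro q hq
    rw [← map_pow]
    show Abelianization.of (e (q ^ 2)) = 1
    rw [hcomm]
    have hqP : ((q : ↥K) : G) ∈ (P : Subgroup G) := q.2
    have hq2 : ((q : ↥K) : G) ∈ (P : Subgroup G) ⊓ N := Subgroup.mem_inf.2 ⟨hqP, hq⟩
    have h1 := hQ _ hq2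
    have h2 : ⁅(P : Subgroup G) ⊓ N, (P : Subgroup G) ⊓ N⁆ ≤ ⁅(P : Subgroup G), (P : Subgroup G)⁆ :=
      Subgroup.commutator_mono inf_le_left inf_le_left
    exact h2 h1
  -- the transfer
  haveI : H.FiniteIndex := inferInstance
  let τ : ↥K →* A := ϕ.transfer
  have hτN : ∀ n : ↥K, (n : G) ∈ N → τ n = 1 := by
    intro n hn
    let ι : ↥N →* ↥K := Subgroup.inclusion hNQ
    let f : ↥N →* A := τ.comp ι
    obtain ⟨j, hj⟩ := hA2 (τ n)
    have hfn : f ⟨n, hn⟩ = τ n := by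
      show τ (ι ⟨n, hn⟩) = τ n
      congr 1
    have h1 : (τ n) ^ (Nat.card (Abelianization ↥N)) = 1 := by
      rw [← hfn]
      have h2 : f ⟨n, hn⟩ = Abelianization.lift f (Abelianization.of ⟨n, hn⟩) := by simp
      rw [h2, ← map_pow, pow_card_eq_one', map_one]
    have hcop : Nat.Coprime (2 ^ j) (Nat.card (Abelianization ↥N)) :=
      Nat.Coprime.pow_left j (Nat.coprime_two_left.2 hodd)
    have h3 := orderOf_dvd_of_pow_eq_one hj
    have h4 := orderOf_dvd_of_pow_eq_one h1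
    have h5 := Nat.eq_one_of_dvd_coprimes hcop h3 h4
    exact orderOf_eq_one_iff.1 h5
  -- the square lies in the kernel
  have hker : x ^ 2 ∈ (τ.ker).map K.subtype := by
    have hle : ((P : Subgroup G) ⊓ N) ⊔ ⁅(P : Subgroup G), (P : Subgroup G)⁆ ≤ (τ.ker).map K.subtype := by
      refine sup_le ?_ ?_
      · intro q hq
        have hqN := (Subgroup.mem_inf.1 hq).2
        exact ⟨⟨q, hNQ hqN⟩, hτN _ hqN, rfl⟩
      · rw [Subgroup.commutator_le]
        intro a ha' b hb'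
        refine ⟨⁅(⟨a, hPQ ha'⟩ : ↥K), (⟨b, hPQ hb'⟩ : ↥K)⁆, ?_, rfl⟩
        show τ _ = 1
        rw [map_commutatorElement, commutatorElement_eq_one_iff_commute]
        exact mul_comm _ _
    exact hle (hP x hx)
  obtain ⟨y, hy, hyx⟩ := hker
  have hyy : y = (⟨x, hPQ hx⟩ : ↥K) ^ 2 := Subtype.ext hyx
  let xh : ↥H := ⟨⟨x, hPQ hx⟩, hx⟩
  have hT := T_square H N₁ hNH ϕ ha xh
  have hτ1 : (τ (xh : ↥K)) ^ 2 = 1 := by
    rw [← map_pow]
    have : ((xh : ↥K)) ^ 2 = y := hyy.symm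
    rw [this]
    exact hy
  have h1 : ϕ xh ^ (2 * H.index) = 1 := by
    rw [← hT]; exact hτ1
  -- the index is odd
  have hidx : ¬ 2 ∣ H.index := by
    intro hd
    apply Sylow.not_dvd_index P
    have h2 : H.index * K.index = (P : Subgroup G).index := Subgroup.relIndex_mul_index hPQ
    rw [← h2]
    exact Dvd.dvd.mul_right hd _
  have hx2 : ϕ xh ^ 2 = 1 := by
    obtain ⟨j, hj⟩ := hA2 (ϕ xh ^ 2)
    have h3 : (ϕ xh ^ 2) ^ H.index = 1 := by rw [← pow_mul]; exact h1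
    have hcop : Nat.Coprime (2 ^ j) H.index :=
      Nat.Coprime.pow_left j ((Nat.Prime.coprime_iff_not_dvd Nat.prime_two).2 hidx)
    have h5 := Nat.eq_one_of_dvd_coprimes hcop (orderOf_dvd_of_pow_eq_one hj) (orderOf_dvd_of_pow_eq_one h3)
    exact orderOf_eq_one_iff.1 h5
  have h6 : ((⟨x, hx⟩ : ↥(P : Subgroup G)) ^ 2 : ↥(P : Subgroup G)) ∈ (Abelianization.of : ↥(P : Subgroup G) →* A).ker := by
    rw [MonoidHom.mem_ker, map_pow]
    exact hx2
  have h7 := (hcomm _).1 h6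
  exact h7

end Cfsg.Agent.S4582
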