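import Cfsg.Statements.S4584
import Cfsg.Agent.Lib.H7PGroup

set_option autoImplicit false
set_option linter.all false
open Cfsg

namespace Cfsg.Agent.S4584


open Subgroup
open scoped commutatorElement
open Cfsg.Agent.Lib.H7PGroup

theorem pow_four_sub {p : ℕ} (hpp : p.Prime) {n : ℕ} (hd : n ∣ p ^ 4) (hgt : p ^ 3 < n) : n = p ^ 4 := by
  obtain ⟨j, hj, rfl⟩ := (Nat.dvd_prime_pow hpp).mp hd
  have h3 : 3 < j := by
    by_contra h
    have h1 : j ≤ 3 := by omega
    have := Nat.pow_le_pow_right hpp.pos h1
    omega
  have h4 : j = 4 := by omega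
  rw [h4]

theorem center_eq_top_of_cyclic {P : Type*} [Group P] [Finite P] (h : IsCyclic (P ⧸ center P)) : center P = ⊤ := by
  rw [eq_top_iff]
  intro x _
  rw [mem_center_iff]
  intro y
  exact commutative_of_cyclic_center_quotient (QuotientGroup.mk' (center P)) (by
    rw [QuotientGroup.ker_mk']) y x

theorem fwd {P : Type*} [Group P] [Finite P] (p : ℕ) [Fact p.Prime] (hP : Nat.card P = p ^ 4)
    (hc : Nat.card (commutator P) = p) : (center P).index = p ^ 2 := by
  classical
  have hpp : p.Prime := Fact.out
  have hG : IsPGroup p P := IsPGroup.of_card hP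
  have hcen : commutator P ≤ center P := normal_le_center_of_card_prime hG _ hc
  have hZtop : center P ≠ ⊤ := by
    intro h
    have h1 : commutator P = ⊥ := (commutator_eq_bot_iff_center_eq_top P).mpr h
    rw [h1, Subgroup.card_bot] at hc
    exact hpp.one_lt.ne hc
  have hcardZ : Nat.card (center P) * (center P).index = p ^ 4 := by
    rw [← hP]
    exact (center P).card_mul_index
  have hd : (center P).index ∣ p ^ 4 := ⟨_, by rw [← hcardZ, mul_comm]⟩
  obtain ⟨k, hk4, hk⟩ := (Nat.dvd_prime_pow hpp).mp hd
  have hk0 : k ≠ 0 := by
    rintro rfl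
    rw [pow_zero, Subgroup.index_eq_one] at hk
    exact hZtop hk
  have hk1 : k ≠ 1 := by
    rintro rfl
    rw [pow_one] at hk
    apply hZtop
    apply center_eq_top_of_cyclic
    apply isCyclic_of_prime_card (p := p)
    rw [← Subgroup.index_eq_card]
    exact hk
  have hk_4 : k ≠ 4 := by
    rintro rfl
    rw [hk] at hcardZ
    have h1 : Nat.card (center P) = 1 := by
      have hpos : 0 < p ^ 4 := pow_pos hpp.pos 4
      nlinarith [Nat.card_pos (α := center P)]
    haveI : Nonempty P := ⟨1⟩
    haveI : Nontrivial P := by
      apply Finite.one_lt_card_iff_nontrivial.mp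
      rw [hP]
      exact Nat.one_lt_pow (by norm_num) hpp.one_lt
    haveI := hG.center_nontrivial
    have h2 : 1 < Nat.card (center P) := Finite.one_lt_card_iff_nontrivial.mpr inferInstance
    omega
  have hk3 : k ≠ 3 := by
    rintro rfl
    rw [hk] at hcardZ
    have hZc : Nat.card (center P) = p := by
      have hpos : 0 < p ^ 3 := pow_pos hpp.pos 3
      have h1 : Nat.card (center P) * p ^ 3 = p * p ^ 3 := by
        rw [hcardZ]
        ring
      exact Nat.eq_of_mul_eq_mul_right hpos h1
    -- pick `x` outside the centre
    obtain ⟨x, hx⟩ : ∃ x : P, x ∉ center P := by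
      by_contra hcon
      push_neg at hcon
      exact hZtop (eq_top_iff.mpr fun y _ => hcon y)
    set C := centralizer ({x} : Set P) with hC
    have hCge : p ^ 3 ≤ Nat.card C := by
      have h1 := card_le_card_inf_centralizer_mul hcen ⊤ x
      rw [top_inf_eq, Subgroup.card_top, hP, hc] at h1
      have h2 : p ^ 3 * p ≤ Nat.card C * p := by
        calc p ^ 3 * p = p ^ 4 := by ring
          _ ≤ _ := h1
      exact Nat.le_of_mul_le_mul_right h2 hpp.pos
    have hCtop : C ≠ ⊤ := by
      intro h
      apply hx
      rw [mem_center_iff]
      intro y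
      have h1 : y ∈ C := by
        rw [h]
        trivial
      rw [hC, mem_centralizer_singleton_iff] at h1
      exact h1
    have hCcard : Nat.card C = p ^ 3 := by
      have hd : Nat.card C ∣ p ^ 4 := by
        rw [← hP]
        exact Subgroup.card_subgroup_dvd_card C
      by_contra hne
      have h1 : p ^ 3 < Nat.card C := lt_of_le_of_ne hCge (Ne.symm hne)
      have h2 := pow_four_sub hpp hd h1
      apply hCtop
      apply Subgroup.eq_top_of_card_eq
      rw [h2, hP]
    -- `C` is abelian
    have hCab : ∀ u ∈ C, ∀ v ∈ C, u * v = v * u := by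
      let B : Subgroup P := C ⊓ centralizer (C : Set P)
      have hZB : center P ≤ B := by
        intro z hz
        refine ⟨?_, ?_⟩
        · show z ∈ C
          rw [hC, mem_centralizer_singleton_iff]
          exact (mem_center_iff.mp hz x).symm
        · show z ∈ centralizer (C : Set P)
          rw [mem_centralizer_iff]
          intro c _
          exact (mem_center_iff.mp hz c)
      have hxB : x ∈ B := by
        refine ⟨?_, ?_⟩
        · show x ∈ C
          rw [hC, mem_centralizer_singleton_iff]
        · show x ∈ centralizer (C : Set P)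
          rw [mem_centralizer_iff]
          intro c hc'
          have h1 : c ∈ C := hc'
          rw [hC, mem_centralizer_singleton_iff] at h1
          exact h1
      have hBcard : p * p ≤ Nat.card B := by
        have h1 : Nat.card (center P) ∣ Nat.card B := Subgroup.card_dvd_of_le hZB
        rw [hZc] at h1
        obtain ⟨m, hm⟩ := h1
        have hm1 : m ≠ 1 := by
          rintro rfl
          rw [mul_one] at hm
          apply hx
          have h2 : center P = B := Subgroup.eq_of_le_of_card_ge hZB (by rw [hZc, hm])
          rw [h2]
          exact hxB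
        have hm0 : m ≠ 0 := by
          rintro rfl
          rw [mul_zero] at hm
          exact Nat.card_pos.ne' hm
        have hm2 : p ≤ m := by
          have hdvd : p ^ 1 ∣ m ∨ m = 1 := by
            have hm' : m ∣ p ^ 4 := by
              have h3 : Nat.card B ∣ p ^ 4 := by
                rw [← hP]
                exact Subgroup.card_subgroup_dvd_card B
              rw [hm] at h3
              exact dvd_of_mul_left_dvd h3
            obtain ⟨j, _, rfl⟩ := (Nat.dvd_prime_pow hpp).mp hm'
            rcases Nat.eq_zero_or_pos j with rfl | hj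
            · right
              simp
            · left
              exact pow_dvd_pow p hj
          rcases hdvd with h | h
          · rw [pow_one] at h
            exact Nat.le_of_dvd (Nat.pos_of_ne_zero hm0) h
          · exact absurd h hm1
        rw [hm]
        exact Nat.mul_le_mul_left p hm2
      refine comm_of_card_le hpp C B hCcard inf_le_left ?_ ?_
      · intro b hb c hc'
        exact (mem_centralizer_iff.mp hb.2 c hc').symm
      · rw [hCcard]
        calc p ^ 3 = p * (p * p) := by ring
          _ ≤ p * Nat.card B := Nat.mul_le_mul_left p hBcard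
    -- take `g` outside `C`
    obtain ⟨g, hg⟩ : ∃ g : P, g ∉ C := by
      by_contra hcon
      push_neg at hcon
      exact hCtop (eq_top_iff.mpr fun y _ => hcon y)
    have hinf : C ⊓ centralizer ({g} : Set P) ≤ center P := by
      intro a ha
      have h1 : C ≤ centralizer ({a} : Set P) := by
        intro c hc'
        rw [mem_centralizer_singleton_iff]
        exact (hCab a ha.1 c hc').symm
      have h2 : g ∈ centralizer ({a} : Set P) := by
        rw [mem_centralizer_singleton_iff]
        have h3 : a ∈ centralizer ({g} : Set P) := ha.2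
        rw [mem_centralizer_singleton_iff] at h3
        exact h3.symm
      have h3 : p ^ 3 < Nat.card (centralizer ({a} : Set P)) := by
        rw [← hCcard]
        by_contra hle
        push_neg at hle
        have h4 := Subgroup.eq_of_le_of_card_ge h1 hle
        apply hg
        rw [h4]
        exact h2
      have h4 := pow_four_sub hpp (by
        rw [← hP]
        exact Subgroup.card_subgroup_dvd_card (centralizer ({a} : Set P))) h3
      have h5 : centralizer ({a} : Set P) = ⊤ := by
        apply Subgroup.eq_top_of_card_eq
        rw [h4, hP]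
      rw [mem_center_iff]
      intro y
      have h6 : y ∈ centralizer ({a} : Set P) := by
        rw [h5]
        trivial
      rw [mem_centralizer_singleton_iff] at h6
      exact h6
    have h1 := card_le_card_inf_centralizer_mul hcen C g
    rw [hCcard, hc] at h1
    have h2 : Nat.card (C ⊓ centralizer ({g} : Set P) : Subgroup P) ≤ p := by
      rw [← hZc]
      exact Subgroup.card_le_of_le hinf
    have h3 : p ^ 3 ≤ p * p := by
      calc p ^ 3 ≤ _ := h1
        _ ≤ p * p := Nat.mul_le_mul_right p h2
    have h4 : p * p * p ≤ p * p * 1 := by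
      calc p * p * p = p ^ 3 := by ring
        _ ≤ p * p := h3
        _ = p * p * 1 := by ring
    have h5 : p ≤ 1 := Nat.le_of_mul_le_mul_left h4 (Nat.mul_pos hpp.pos hpp.pos)
    exact absurd hpp.one_lt (by omega)
  have hk2 : k = 2 := by omega
  rw [hk, hk2]

theorem bwd {P : Type*} [Group P] [Finite P] (p : ℕ) [Fact p.Prime] (hP : Nat.card P = p ^ 4)
    (hZ : (center P).index = p ^ 2) : Nat.card (commutator P) = p := by
  classical
  have hpp : p.Prime := Fact.out
  have hQ : Nat.card (P ⧸ center P) = p ^ 2 := by
    rw [← Subgroup.index_eq_card]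
    exact hZ
  haveI hQc : IsMulCommutative (P ⧸ center P) := IsPGroup.isMulCommutative_of_card_eq_prime_sq hQ
  have hφ : ∀ z ∈ center P, QuotientGroup.mk' (center P) z = 1 := fun z hz =>
    (QuotientGroup.eq_one_iff z).mpr hz
  have hcen : commutator P ≤ center P := by
    rw [_root_.commutator_def, Subgroup.commutator_le]
    intro a _ b _
    rw [← QuotientGroup.eq_one_iff]
    change QuotientGroup.mk' (center P) _ = 1
    rw [map_commutatorElement, commutatorElement_eq_one_iff_mul_comm]
    exact hQc.is_comm.comm _ _
  have hZtop : center P ≠ ⊤ := by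
    intro h
    rw [h, Subgroup.index_top] at hZ
    have : 1 < p ^ 2 := Nat.one_lt_pow (by norm_num) hpp.one_lt
    omega
  have hpow : ∀ g : P, g ^ p ∈ center P := by
    intro g
    rw [← QuotientGroup.eq_one_iff, QuotientGroup.mk_pow]
    have h1 : orderOf (g : P ⧸ center P) ∣ p ^ 2 := by
      rw [← hQ]
      exact orderOf_dvd_natCard _
    obtain ⟨j, hj, hjo⟩ := (Nat.dvd_prime_pow hpp).mp h1
    have hj2 : j ≠ 2 := by
      rintro rfl
      apply hZtop
      apply center_eq_top_of_cyclic
      exact isCyclic_of_orderOf_eq_card (g : P ⧸ center P) (by rw [hjo, hQ])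
    have hj1 : j ≤ 1 := by omega
    have h2 : orderOf (g : P ⧸ center P) ∣ p := by
      rw [hjo]
      calc p ^ j ∣ p ^ 1 := pow_dvd_pow p hj1
        _ = p := pow_one p
    exact orderOf_dvd_iff_pow_eq_one.mp h2
  obtain ⟨a, ha⟩ : ∃ a : P, a ∉ center P := by
    by_contra hcon
    push_neg at hcon
    exact hZtop (eq_top_iff.mpr fun y _ => hcon y)
  obtain ⟨b, hb⟩ : ∃ b : P, a * b ≠ b * a := by
    by_contra hcon
    push_neg at hcon
    apply ha
    rw [mem_center_iff]
    intro y
    exact (hcon y).symm
  set t : P := ⁅a, b⁆ with ht
  have ht1 : t ≠ 1 := fun h => hb (commutatorElement_eq_one_iff_mul_comm.mp h)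
  have htP : t ∈ commutator P := Subgroup.commutator_mem_commutator (mem_top a) (mem_top b)
  have htZ : t ∈ center P := hcen htP
  have htc : ∀ y : P, y * t = t * y := fun y => mem_center_iff.mp htZ y
  -- powers
  have hconj : ∀ k : ℕ, a * b ^ k * a⁻¹ = t ^ k * b ^ k := by
    intro k
    induction k with
    | zero => simp
    | succ k ih =>
      have h1 : a * b * a⁻¹ = t * b := by
        rw [ht, commutatorElement_def]
        group
      calc a * b ^ (k + 1) * a⁻¹ = (a * b ^ k * a⁻¹) * (a * b * a⁻¹) := by
            rw [pow_succ]
            group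
        _ = t ^ k * b ^ k * (t * b) := by rw [ih, h1]
        _ = t ^ k * (b ^ k * t) * b := by group
        _ = t ^ k * (t * b ^ k) * b := by rw [htc (b ^ k)]
        _ = t ^ (k + 1) * b ^ (k + 1) := by
            rw [pow_succ t, pow_succ b]
            group
  have htp : t ^ p = 1 := by
    have h1 := hconj p
    have h2 := mem_center_iff.mp (hpow b) a
    have h3 : a * b ^ p * a⁻¹ = b ^ p := by
      rw [h2, mul_inv_cancel_right]
    rw [h3] at h1
    exact (mul_eq_right.mp h1.symm)
  have hto : orderOf t = p := orderOf_eq_prime htp ht1
  -- generation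
  let S : Set P := {a, b} ∪ (center P : Set P)
  have hSgen : closure S = ⊤ := by
    set T := closure S with hT
    set A : Subgroup P := zpowers a ⊔ center P with hA
    have hZA : center P ≤ A := le_sup_right
    have hAT : A ≤ T := by
      refine sup_le ?_ ?_
      · rw [zpowers_le]
        exact subset_closure (Or.inl (Or.inl rfl))
      · intro z hz
        exact subset_closure (Or.inr hz)
    have hAa : a ∈ A := (le_sup_left : zpowers a ≤ A) (mem_zpowers a)
    have hAC : A ≤ centralizer ({a} : Set P) := by
      refine sup_le ?_ ?_
      · rw [zpowers_le, mem_centralizer_singleton_iff]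
      · intro z hz
        rw [mem_centralizer_singleton_iff]
        exact (mem_center_iff.mp hz a).symm
    have hbT : b ∈ T := subset_closure (Or.inl (Or.inr rfl))
    have hbA : b ∉ A := by
      intro h
      have := hAC h
      rw [mem_centralizer_singleton_iff] at this
      exact hb this.symm
    have h1 : (center P).relIndex A ≠ 1 := by
      rw [Ne, Subgroup.relIndex_eq_one]
      intro h
      exact ha (h hAa)
    have h2 : A.relIndex T ≠ 1 := by
      rw [Ne, Subgroup.relIndex_eq_one]
      intro h
      exact hbA (h hbT)
    have h3 := Subgroup.relIndex_mul_index hZA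
    have h4 := Subgroup.relIndex_mul_index hAT
    rw [hZ, ← h4] at h3
    -- `x * (y * w) = p ^ 2`
    have hdiv : ∀ n : ℕ, n ∣ p ^ 2 → n ≠ 1 → p ∣ n := by
      intro n hn hn1
      obtain ⟨j, _, rfl⟩ := (Nat.dvd_prime_pow hpp).mp hn
      have hj : j ≠ 0 := by
        rintro rfl
        exact hn1 (pow_zero p)
      exact dvd_pow_self p hj
    obtain ⟨x', hx'⟩ := hdiv _ ⟨_, h3.symm⟩ h1
    obtain ⟨y', hy'⟩ := hdiv _ ⟨(center P).relIndex A * T.index, by rw [← h3]; ring⟩ h2
    rw [hx', hy'] at h3
    have h5 : x' * y' * T.index = 1 := by
      have h6 : p ^ 2 * (x' * y' * T.index) = p ^ 2 * 1 := by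
        calc p ^ 2 * (x' * y' * T.index) = p * x' * (p * y' * T.index) := by ring
          _ = p ^ 2 := h3
          _ = p ^ 2 * 1 := by ring
      exact Nat.eq_of_mul_eq_mul_left (pow_pos hpp.pos 2) h6
    have h6 : T.index = 1 := Nat.eq_one_of_mul_eq_one_left h5
    exact Subgroup.index_eq_one.mp h6
  -- the cyclic subgroup generated by `t`
  set K : Subgroup P := zpowers t with hK
  have hKZ : K ≤ center P := by
    rw [hK, zpowers_le]
    exact htZ
  haveI hKn : K.Normal := by
    constructor
    intro n hn g
    have h1 : n ∈ center P := hKZ hn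
    have h2 := mem_center_iff.mp h1 g
    rw [h2, mul_inv_cancel_right]
    exact hn
  have hle : commutator P ≤ K := by
    apply commutator_le_of_closure S hSgen
    have hcentral : ∀ u v : P, (u ∈ center P ∨ v ∈ center P) → ⁅u, v⁆ ∈ K := by
      intro u v huv
      have : ⁅u, v⁆ = 1 := by
        rw [commutatorElement_eq_one_iff_mul_comm]
        rcases huv with h | h
        · exact (mem_center_iff.mp h v).symm
        · exact mem_center_iff.mp h u
      rw [this]
      exact K.one_mem
    intro u hu v hv
    rcases hu with (rfl | rfl) | hu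
    · rcases hv with (rfl | rfl) | hv
      · rw [commutatorElement_self]
        exact K.one_mem
      · exact mem_zpowers t
      · exact hcentral _ _ (Or.inr hv)
    · rcases hv with (rfl | rfl) | hv
      · rw [← commutatorElement_inv]
        exact K.inv_mem (mem_zpowers t)
      · rw [commutatorElement_self]
        exact K.one_mem
      · exact hcentral _ _ (Or.inr hv)
    · exact hcentral _ _ (Or.inl hu)
  have hge : K ≤ commutator P := by
    rw [hK, zpowers_le]
    exact htP
  have hEq : commutator P = K := le_antisymm hle hge
  rw [hEq, hK, Nat.card_zpowers, hto]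


/-- Let p be a prime and P a group of order p^4. Then the derived subgroup P' has order p if and only if the centre Z(P) has index p^2 in P. -/
theorem result {P : Type*} [Group P] [Finite P] (p : ℕ) [Fact p.Prime] (hP : Nat.card P = p ^ 4) :
    Nat.card (commutator P) = p ↔ (Subgroup.center P).index = p ^ 2 := by
  exact ⟨fwd p hP, bwd p hP⟩

end Cfsg.Agent.S4584
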