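import Cfsg.Statements.S4585
import Cfsg.Agent.S4584

set_option autoImplicit false
set_option linter.all false
open Cfsg

namespace Cfsg.Agent.S4585


open Subgroup
open scoped commutatorElement
open Cfsg.Agent.Lib.H7PGroup
open Cfsg.Agent.S4584

theorem comm_ne {P : Type*} [Group P] [Group.IsNilpotent P] (N : Subgroup P) (hN : N ≠ ⊥) : ⁅N, (⊤ : Subgroup P)⁆ ≠ N := by
  intro h
  have h1 : ∀ n : ℕ, N ≤ Subgroup.lowerCentralSeries (⊤ : Subgroup P) n := by
    intro n
    induction n with
    | zero =>
      rw [Subgroup.lowerCentralSeries_zero]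
      exact le_top
    | succ n ih =>
      calc N = ⁅N, (⊤ : Subgroup P)⁆ := h.symm
        _ ≤ ⁅Subgroup.lowerCentralSeries (⊤ : Subgroup P) n, (⊤ : Subgroup P)⁆ := Subgroup.commutator_mono ih le_rfl
        _ = Subgroup.lowerCentralSeries (⊤ : Subgroup P) (n + 1) := rfl
  obtain ⟨n, hn⟩ := Subgroup.nilpotent_iff_lowerCentralSeries.mp (inferInstance : Group.IsNilpotent P)
  have h2 := h1 n
  rw [hn] at h2
  exact hN (le_bot_iff.mp h2)

theorem result_aux {P : Type*} [Group P] [Finite P] (p : ℕ) [Fact p.Prime] (hP : Nat.card P = p ^ 4) :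
    (commutator P).index = p ^ 2 ↔ Group.nilpotencyClass P = 3 := by
  classical
  have hpp : p.Prime := Fact.out
  have hG : IsPGroup p P := IsPGroup.of_card hP
  haveI : Group.IsNilpotent P := hG.isNilpotent
  set N := commutator P with hN
  set γ := ⁅N, (⊤ : Subgroup P)⁆ with hγ
  have hL1 : Subgroup.lowerCentralSeries (⊤ : Subgroup P) 1 = N := rfl
  have hL2 : Subgroup.lowerCentralSeries (⊤ : Subgroup P) 2 = γ := by
    show ⁅Subgroup.lowerCentralSeries (⊤ : Subgroup P) 1, (⊤ : Subgroup P)⁆ = γ
    rw [hL1]
  have hNn : N.Normal := inferInstance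
  have hγn : γ.Normal := Subgroup.commutator_normal _ _
  have hγN : γ ≤ N := Subgroup.commutator_le_left _ _
  have hcardN : Nat.card N * N.index = p ^ 4 := by
    rw [← hP]
    exact N.card_mul_index
  constructor
  · intro hidx
    have hNc : Nat.card N = p ^ 2 := by
      rw [hidx] at hcardN
      have h1 : Nat.card N * p ^ 2 = p ^ 2 * p ^ 2 := by
        rw [hcardN]
        ring
      exact Nat.eq_of_mul_eq_mul_right (pow_pos hpp.pos 2) h1
    have hNbot : N ≠ ⊥ := by
      intro h
      rw [h, Subgroup.card_bot] at hNc
      have : 1 < p ^ 2 := Nat.one_lt_pow (by norm_num) hpp.one_lt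
      omega
    have hγbot : γ ≠ ⊥ := by
      intro h
      have h1 : N ≤ center P := by
        rw [hγ, Subgroup.commutator_eq_bot_iff_le_centralizer, Subgroup.coe_top, Subgroup.centralizer_univ] at h
        exact h
      -- the index of the centre
      have h2 : (center P).index ∣ N.index := Subgroup.index_dvd_of_le h1
      rw [hidx] at h2
      obtain ⟨j, hj, hjc⟩ := (Nat.dvd_prime_pow hpp).mp h2
      have htop : center P ≠ ⊤ := by
        intro h3
        have := (commutator_eq_bot_iff_center_eq_top P).mpr h3
        exact hNbot this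
      have hj0 : j ≠ 0 := by
        rintro rfl
        rw [pow_zero, Subgroup.index_eq_one] at hjc
        exact htop hjc
      have hj1 : j ≠ 1 := by
        rintro rfl
        rw [pow_one] at hjc
        apply htop
        apply center_eq_top_of_cyclic
        apply isCyclic_of_prime_card (p := p)
        rw [← Subgroup.index_eq_card]
        exact hjc
      have hj2 : j = 2 := by omega
      rw [hj2] at hjc
      have := bwd p hP hjc
      rw [hNc] at this
      have h4 : 1 < p := hpp.one_lt
      nlinarith
    have hne := comm_ne N hNbot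
    have hγc : Nat.card γ = p := by
      have h1 : Nat.card γ ∣ p ^ 2 := by
        rw [← hNc]
        exact Subgroup.card_dvd_of_le hγN
      obtain ⟨j, hj, hjc⟩ := (Nat.dvd_prime_pow hpp).mp h1
      have hj0 : j ≠ 0 := by
        rintro rfl
        rw [pow_zero] at hjc
        exact hγbot (Subgroup.card_eq_one.mp hjc)
      have hj2 : j ≠ 2 := by
        rintro rfl
        apply hne
        apply Subgroup.eq_of_le_of_card_ge hγN
        rw [hNc, hjc]
      have hj1 : j = 1 := by omega
      rw [hjc, hj1, pow_one]
    have hγZ : γ ≤ center P := normal_le_center_of_card_prime hG γ hγc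
    have hL3 : Subgroup.lowerCentralSeries (⊤ : Subgroup P) 3 = ⊥ := by
      show ⁅Subgroup.lowerCentralSeries (⊤ : Subgroup P) 2, (⊤ : Subgroup P)⁆ = ⊥
      rw [hL2, Subgroup.commutator_eq_bot_iff_le_centralizer, Subgroup.coe_top, Subgroup.centralizer_univ]
      exact hγZ
    have h1 : Group.nilpotencyClass P ≤ 3 := Subgroup.lowerCentralSeries_eq_bot_iff_nilpotencyClass_le.mp hL3
    have h2 : ¬ Group.nilpotencyClass P ≤ 2 := by
      intro h
      have := Subgroup.lowerCentralSeries_eq_bot_iff_nilpotencyClass_le.mpr h
      rw [hL2] at this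
      exact hγbot this
    omega
  · intro hclass
    have hγbot : γ ≠ ⊥ := by
      intro h
      have h1 : Subgroup.lowerCentralSeries (⊤ : Subgroup P) 2 = ⊥ := by rw [hL2, h]
      have h2 := Subgroup.lowerCentralSeries_eq_bot_iff_nilpotencyClass_le.mp h1
      omega
    have hNbot : N ≠ ⊥ := by
      intro h
      apply hγbot
      rw [hγ, h]
      exact Subgroup.commutator_bot_left _
    have hne := comm_ne N hNbot
    -- `|N| ≥ p ^ 2`
    have hdN : Nat.card N ∣ p ^ 4 := ⟨_, hcardN.symm⟩
    have hdI : N.index ∣ p ^ 4 := ⟨_, by rw [← hcardN, mul_comm]⟩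
    obtain ⟨a, ha, hac⟩ := (Nat.dvd_prime_pow hpp).mp hdN
    obtain ⟨b, hb, hbc⟩ := (Nat.dvd_prime_pow hpp).mp hdI
    have hsum : a + b = 4 := by
      rw [hac, hbc, ← pow_add] at hcardN
      exact Nat.pow_right_injective hpp.two_le hcardN
    have ha2 : 2 ≤ a := by
      have hdγ : Nat.card γ ∣ p ^ a := by
        rw [← hac]
        exact Subgroup.card_dvd_of_le hγN
      obtain ⟨i, hi, hic⟩ := (Nat.dvd_prime_pow hpp).mp hdγ
      have hi0 : i ≠ 0 := by
        rintro rfl
        rw [pow_zero] at hic
        exact hγbot (Subgroup.card_eq_one.mp hic)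
      have hia : i ≠ a := by
        rintro rfl
        apply hne
        apply Subgroup.eq_of_le_of_card_ge hγN
        rw [hac, hic]
      omega
    have hb2 : 2 ≤ b := by
      by_contra hcon
      have hb1 : b = 0 ∨ b = 1 := by omega
      rcases hb1 with rfl | rfl
      · rw [pow_zero, Subgroup.index_eq_one] at hbc
        apply hne
        calc ⁅N, (⊤ : Subgroup P)⁆ = ⁅(⊤ : Subgroup P), (⊤ : Subgroup P)⁆ := by rw [hbc]
          _ = commutator P := rfl
      · rw [pow_one] at hbc
        obtain ⟨x, hx⟩ : ∃ x : P, x ∉ N := by
          by_contra hcon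
          push_neg at hcon
          have h1 : N = ⊤ := eq_top_iff.mpr fun y _ => hcon y
          rw [h1, Subgroup.index_top] at hbc
          exact hpp.one_lt.ne hbc
        let S : Set P := {x} ∪ (N : Set P)
        have hSgen : closure S = ⊤ := by
          have hNT : N ≤ closure S := fun n hn => subset_closure (Or.inr hn)
          have hxT : x ∈ closure S := subset_closure (Or.inl rfl)
          have h1 := Subgroup.relIndex_mul_index hNT
          rw [hbc] at h1
          have h2 : N.relIndex (closure S) ≠ 1 := by
            rw [Ne, Subgroup.relIndex_eq_one]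
            intro h
            exact hx (h hxT)
          have h3 : N.relIndex (closure S) ∣ p := ⟨_, h1.symm⟩
          rcases (Nat.dvd_prime hpp).mp h3 with h4 | h4
          · exact absurd h4 h2
          · rw [h4] at h1
            have h5 : (closure S).index = 1 := by
              have h6 : p * (closure S).index = p * 1 := by rw [h1, mul_one]
              exact Nat.eq_of_mul_eq_mul_left hpp.pos h6
            exact Subgroup.index_eq_one.mp h5
        have hle : N ≤ γ := by
          apply commutator_le_of_closure S hSgen
          intro u hu v hv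
          rcases hu with rfl | hu
          · rcases hv with rfl | hv
            · rw [commutatorElement_self]
              exact γ.one_mem
            · rw [← commutatorElement_inv]
              exact γ.inv_mem (Subgroup.commutator_mem_commutator hv (mem_top _))
          · exact Subgroup.commutator_mem_commutator hu (mem_top _)
        exact hne (le_antisymm hγN hle)
    have hb_eq : b = 2 := by omega
    rw [hbc, hb_eq]


/-- Let p be a prime and P a group of order p^4. Then P' has index p^2 in P if and only if P has maximal nilpotency class, that is, nilpotency class exactly 3. -/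
theorem result {P : Type*} [Group P] [Finite P] (p : ℕ) [Fact p.Prime] (hP : Nat.card P = p ^ 4) :
    (commutator P).index = p ^ 2 ↔ Group.nilpotencyClass P = 3 := by
  exact result_aux p hP

end Cfsg.Agent.S4585
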