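import Cfsg.Statements.S4586
import Cfsg.Agent.Lib.H7PGroup
import Cfsg.Agent.Lib.H7Basic

set_option autoImplicit false
set_option linter.all false
open Cfsg

namespace Cfsg.Agent.S4586


open Subgroup
open scoped commutatorElement
open Cfsg.Agent.Lib.H7PGroup

theorem mem_normalizer_of_conj_le {G : Type*} [Group G] [Finite G] (H : Subgroup G) (g : G)
    (h : ∀ l ∈ H, g * l * g⁻¹ ∈ H) : g ∈ normalizer (H : Set G) := by
  rw [Cfsg.Agent.Lib.H7Basic.mem_normalizer_iff_map_conj]
  apply Subgroup.eq_of_le_of_card_ge
  · rintro _ ⟨l, hl, rfl⟩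
    exact h l hl
  · rw [Subgroup.card_map_of_injective (MulAut.conj g).injective]

theorem key {P : Type*} [Group P] [Finite P] (p : ℕ) [Fact p.Prime] (N : Subgroup P) [hNn : N.Normal]
    (hN : N.index = p) (x : P) (hx : x ∉ N) :
    (commutator P).index * Nat.card (commutator N) =
      p * Nat.card {n : N // x * n * x⁻¹ * (n : P)⁻¹ ∈ (commutator N).map N.subtype} := by
  classical
  have hpp : p.Prime := Fact.out
  let ι : N ≃* N := MulAut.conjNormal (H := N) x
  have hι : ∀ n : N, ((ι n : N) : P) = x * n * x⁻¹ := fun n => MulAut.conjNormal_apply x n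
  let of : N →* Abelianization N := Abelianization.of
  let φ : N →* Abelianization N := (of.comp ι.toMonoidHom) / of
  have hφ : ∀ m : N, φ m = of (ι m * m⁻¹) := by
    intro m
    show of (ι m) / of m = of (ι m * m⁻¹)
    rw [div_eq_mul_inv, map_mul, map_inv]
  have hofeq : ∀ n : N, of n = 1 ↔ n ∈ commutator N := by
    intro n
    have := Abelianization.ker_of (G := N)
    rw [← this]
    rfl
  have hker : ∀ n : N, n ∈ φ.ker ↔ x * n * x⁻¹ * (n : P)⁻¹ ∈ (commutator N).map N.subtype := by
    intro n
    rw [MonoidHom.mem_ker, hφ, hofeq]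
    constructor
    · intro h
      exact ⟨_, h, by simp [hι]⟩
    · rintro ⟨y, hy, hyeq⟩
      have : y = ι n * n⁻¹ := by
        apply Subtype.ext
        have h1 : (y : P) = x * n * x⁻¹ * (n : P)⁻¹ := hyeq
        rw [h1]
        simp [hι]
      rwa [← this]
  have hcardker : Nat.card {n : N // x * n * x⁻¹ * (n : P)⁻¹ ∈ (commutator N).map N.subtype} = Nat.card φ.ker :=
    Nat.card_congr (Equiv.subtypeEquivRight (fun n => (hker n).symm))
  rw [hcardker]
  -- the candidate for `P'`
  let R : Subgroup (Abelianization N) := φ.range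
  let Ln : Subgroup N := R.comap of
  let L : Subgroup P := Ln.map N.subtype
  have hLmem : ∀ n : N, (n : P) ∈ L ↔ of n ∈ R := by
    intro n
    constructor
    · rintro ⟨k, hk, hkeq⟩
      have : k = n := Subtype.ext hkeq
      rw [← this]
      exact hk
    · intro h
      exact ⟨n, h, rfl⟩
  have hLN : L ≤ N := Subgroup.map_subtype_le _
  have hcom : ∀ m : N, x * m * x⁻¹ * (m : P)⁻¹ ∈ L := by
    intro m
    have h1 : x * m * x⁻¹ * (m : P)⁻¹ = ((ι m * m⁻¹ : N) : P) := by
      simp [hι]
    rw [h1, hLmem, ← hφ]
    exact ⟨m, rfl⟩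
  have hNL : ∀ d ∈ commutator N, (d : P) ∈ L := by
    intro d hd
    rw [hLmem, (hofeq d).mpr hd]
    exact R.one_mem
  -- `L` is normal
  let S : Set P := {x} ∪ (N : Set P)
  have hSgen : closure S = ⊤ := by
    have hNT : N ≤ closure S := fun n hn => subset_closure (Or.inr hn)
    have hxT : x ∈ closure S := subset_closure (Or.inl rfl)
    have h1 := Subgroup.relIndex_mul_index hNT
    rw [hN] at h1
    have h2 : N.relIndex (closure S) ≠ 1 := by
      rw [Ne, Subgroup.relIndex_eq_one]
      intro h
      exact hx (h hxT)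
    have h3 : N.relIndex (closure S) ∣ p := ⟨_, h1.symm⟩
    rcases (Nat.dvd_prime hpp).mp h3 with h4 | h4
    · exact absurd h4 h2
    · rw [h4] at h1
      have h5 : (closure S).index = 1 := by
        have h6 : p * (closure S).index = p * 1 := by rw [h1, mul_one]
        exact Nat.eq_of_mul_eq_mul_left hpp.pos h6
      exact Subgroup.index_eq_one.mp h5
  haveI hLn : L.Normal := by
    rw [← Subgroup.normalizer_eq_top_iff, eq_top_iff, ← hSgen, closure_le]
    rintro g (hg | hg)
    · have hgx : g = x := hg
      rw [hgx]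
      apply mem_normalizer_of_conj_le
      intro l hl
      obtain ⟨k, hk, rfl⟩ := hl
      have h1 : x * (N.subtype k) * x⁻¹ = (x * k * x⁻¹ * (k : P)⁻¹) * (k : P) := by
        simp
      rw [h1]
      exact L.mul_mem (hcom k) ⟨k, hk, rfl⟩
    · apply mem_normalizer_of_conj_le
      intro l hl
      obtain ⟨k, hk, rfl⟩ := hl
      have h1 : g * (N.subtype k) * g⁻¹ = ((⟨g, hg⟩ : N) * k * (⟨g, hg⟩ : N)⁻¹ : N) := by
        simp
      rw [h1, hLmem]
      have h2 : of ((⟨g, hg⟩ : N) * k * (⟨g, hg⟩ : N)⁻¹) = of k := by
        rw [map_mul, map_mul, map_inv, mul_comm (of _) (of k), mul_inv_cancel_right]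
      rw [h2]
      exact hk
  have hPL : commutator P = L := by
    apply le_antisymm
    · apply commutator_le_of_closure S hSgen
      have hmix : ∀ m : N, ⁅x, (m : P)⁆ ∈ L := by
        intro m
        rw [commutatorElement_def]
        exact hcom m
      intro u hu v hv
      rcases hu with rfl | hu
      · rcases hv with rfl | hv
        · rw [commutatorElement_self]
          exact L.one_mem
        · exact hmix ⟨v, hv⟩
      · rcases hv with rfl | hv
        · rw [← commutatorElement_inv]
          exact L.inv_mem (hmix ⟨u, hu⟩)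
        · have h1 : ⁅u, v⁆ = ((⁅(⟨u, hu⟩ : N), (⟨v, hv⟩ : N)⁆ : N) : P) := by
            simp [commutatorElement_def]
          rw [h1]
          apply hNL
          exact Subgroup.commutator_mem_commutator (mem_top _) (mem_top _)
    · rintro _ ⟨k, hk, rfl⟩
      obtain ⟨m, hm⟩ := hk
      have h1 : φ m = of k := hm
      rw [hφ] at h1
      have h2 : (ι m * m⁻¹)⁻¹ * k ∈ commutator N := by
        rw [← hofeq, map_mul, map_inv, ← h1]
        simp
      have h3 : ((commutator N).map N.subtype) ≤ commutator P := by
        rw [Subgroup.map_subtype_commutator]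
        exact Subgroup.commutator_mono le_top le_top
      have h4 : (((ι m * m⁻¹)⁻¹ * k : N) : P) ∈ commutator P := h3 ⟨_, h2, rfl⟩
      have h5 : ((ι m * m⁻¹ : N) : P) ∈ commutator P := by
        have h6 : ((ι m * m⁻¹ : N) : P) = ⁅x, (m : P)⁆ := by
          simp [hι, commutatorElement_def]
        rw [h6]
        exact Subgroup.commutator_mem_commutator (mem_top _) (mem_top _)
      have h7 := (commutator P).mul_mem h5 h4
      have h8 : ((ι m * m⁻¹ : N) : P) * (((ι m * m⁻¹)⁻¹ * k : N) : P) = (k : P) := by
        rw [← Subgroup.coe_mul, mul_inv_cancel_left]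
      rw [h8] at h7
      exact h7
  -- counting
  have hcardL : Nat.card L = Nat.card Ln := Subgroup.card_map_of_injective N.subtype_injective
  have hof : Function.Surjective of := QuotientGroup.mk_surjective
  have hidxLn : Ln.index = R.index := Subgroup.index_comap_of_surjective R hof
  have h1 : Nat.card Ln * R.index = Nat.card N := by
    rw [← hidxLn]
    exact Ln.card_mul_index
  have h2 : Nat.card R * R.index = Nat.card (Abelianization N) := R.card_mul_index
  have h3 : Nat.card (commutator N) * Nat.card (Abelianization N) = Nat.card N :=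
    (commutator N).card_mul_index
  have h4 : Nat.card φ.ker * Nat.card R = Nat.card N := by
    have := φ.ker.card_mul_index
    rwa [Subgroup.index_ker] at this
  have h5 : (commutator P).index * Nat.card L * 1 = p * Nat.card N := by
    have h6 := (commutator P).card_mul_index
    have h7 := N.card_mul_index
    rw [hN] at h7
    rw [← hPL, mul_one, mul_comm, h6, ← h7, mul_comm]
  have hRidx : 0 < R.index := Nat.pos_of_ne_zero (Subgroup.index_ne_zero_of_finite)
  have hLn_card : Nat.card Ln = Nat.card (commutator N) * Nat.card R := by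
    have h6 : Nat.card Ln * R.index = (Nat.card (commutator N) * Nat.card R) * R.index := by
      rw [h1, mul_assoc, h2, h3]
    exact Nat.eq_of_mul_eq_mul_right hRidx h6
  have hRpos : 0 < Nat.card R := Nat.card_pos
  rw [hcardL, hLn_card, mul_one, ← h4] at h5
  have h6 : ((commutator P).index * Nat.card (commutator N)) * Nat.card R = (p * Nat.card φ.ker) * Nat.card R := by
    calc _ = (commutator P).index * (Nat.card (commutator N) * Nat.card R) := by ring
      _ = p * (Nat.card φ.ker * Nat.card R) := h5
      _ = _ := by ring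
  exact Nat.eq_of_mul_eq_mul_right hRpos h6


/-- Let p be a prime, P a finite p-group and N a normal subgroup of P of index p. For x ∈ P write c(x) for the number of elements n of N whose commutator x n x⁻¹ n⁻¹ lies in the derived subgroup N' (so c(x)/#N' is the order of the centralizer of x acting on N/N'). Then [P : P'] = p² if and only if c(x) = p·#N' for every x ∈ P outside N, and also if and only if c(x) = p·#N' for some x ∈ P outside N. -/
theorem result {P : Type*} [Group P] [Finite P] (p : ℕ) [Fact p.Prime] (hP : IsPGroup p P) (N : Subgroup P) [N.Normal] (hN : N.index = p) :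
    ((commutator P).index = p ^ 2 ↔ ∀ x : P, x ∉ N →
        Nat.card {n : N // x * n * x⁻¹ * (n : P)⁻¹ ∈ (commutator N).map N.subtype} = p * Nat.card (commutator N)) ∧
    ((commutator P).index = p ^ 2 ↔ ∃ x : P, x ∉ N ∧
        Nat.card {n : N // x * n * x⁻¹ * (n : P)⁻¹ ∈ (commutator N).map N.subtype} = p * Nat.card (commutator N)) := by
  classical
  have hpp : p.Prime := Fact.out
  have hNtop : ∃ x : P, x ∉ N := by
    by_contra hcon
    push_neg at hcon
    have h1 : N = ⊤ := eq_top_iff.mpr fun y _ => hcon y
    rw [h1, Subgroup.index_top] at hN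
    exact hpp.one_lt.ne hN
  obtain ⟨x₀, hx₀⟩ := hNtop
  have hpos : 0 < Nat.card (commutator N) := Nat.card_pos
  have h1 : ∀ x : P, x ∉ N → (commutator P).index = p ^ 2 →
      Nat.card {n : N // x * n * x⁻¹ * (n : P)⁻¹ ∈ (commutator N).map N.subtype} = p * Nat.card (commutator N) := by
    intro x hx hi
    have h2 := key p N hN x hx
    rw [hi] at h2
    have h3 : p * (p * Nat.card (commutator N)) = p * Nat.card {n : N // x * n * x⁻¹ * (n : P)⁻¹ ∈ (commutator N).map N.subtype} := by
      rw [← h2]
      ring
    exact (Nat.eq_of_mul_eq_mul_left hpp.pos h3).symm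
  have h2 : ∀ x : P, x ∉ N →
      Nat.card {n : N // x * n * x⁻¹ * (n : P)⁻¹ ∈ (commutator N).map N.subtype} = p * Nat.card (commutator N) →
      (commutator P).index = p ^ 2 := by
    intro x hx hc
    have h3 := key p N hN x hx
    rw [hc] at h3
    have h4 : (commutator P).index * Nat.card (commutator N) = p ^ 2 * Nat.card (commutator N) := by
      rw [h3]
      ring
    exact Nat.eq_of_mul_eq_mul_right hpos h4
  refine ⟨⟨fun hi x hx => h1 x hx hi, fun h => h2 x₀ hx₀ (h x₀ hx₀)⟩,
    ⟨fun hi => ⟨x₀, hx₀, h1 x₀ hx₀ hi⟩, ?_⟩⟩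
  rintro ⟨x, hx, hc⟩
  exact h2 x hx hc

end Cfsg.Agent.S4586
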