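import Mathlib
import Cfsg.Prelude
import Cfsg.Statements.S4601
-- import your own Cfsg.Agent.* helpers here

set_option autoImplicit false
open Cfsg

namespace Cfsg.Agent.S4601


open scoped Pointwise commutatorElement

universe u

theorem isPSolvable_quot {G : Type*} [Group G] {p : ℕ} [Fact p.Prime] (hs : IsPSolvable p G) (N : Subgroup G) [hN : N.Normal] :
    IsPSolvable p (G ⧸ N) := by
  obtain ⟨n, H, h0, hl, hmono, hnorm, hc⟩ := hs
  let f := QuotientGroup.mk' N
  have hf : Function.Surjective f := QuotientGroup.mk'_surjective N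
  refine ⟨n, fun i => (H i).map f, ?_, ?_, ?_, ?_, ?_⟩
  · show (H 0).map f = ⊥
    rw [h0, Subgroup.map_bot]
  · show (H (Fin.last n)).map f = ⊤
    rw [hl, Subgroup.map_top_of_surjective f hf]
  · intro i j hij
    exact Subgroup.map_mono (hmono hij)
  · intro i
    haveI := hnorm i
    exact Subgroup.Normal.map inferInstance f hf
  · intro i
    have hK : (H i.castSucc) ≤ H i.succ := hmono (Fin.castSucc_le_succ i)
    haveI : (H i.castSucc).Normal := hnorm _
    haveI : (H i.succ).Normal := hnorm _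
    have hd : ((H i.castSucc).map f).relIndex ((H i.succ).map f) ∣ (H i.castSucc).relIndex (H i.succ) := by
      rw [Subgroup.relIndex_map_map]
      have hN' : (H i.castSucc ⊔ f.ker).Normal := inferInstance
      have e : H i.succ ⊔ f.ker = H i.succ ⊔ (H i.castSucc ⊔ f.ker) := by
        rw [← sup_assoc, sup_eq_left.mpr hK]
      rw [e, Subgroup.relIndex_sup_right]
      exact Subgroup.relIndex_dvd_of_le_left _ le_sup_left
    rcases hc i with ⟨m, hm⟩ | hcop
    · left
      rw [hm] at hd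
      obtain ⟨k, -, hk⟩ := (Nat.dvd_prime_pow (Fact.out)).mp hd
      exact ⟨k, hk⟩
    · right
      exact Nat.Coprime.coprime_dvd_left hd hcop

theorem ri_card {G : Type*} [Group G] (H K : Subgroup G) : H.relIndex K * Nat.card ↥(H ⊓ K) = Nat.card K := by
  have h1 := Subgroup.card_mul_index (H.subgroupOf K)
  have h2 : Nat.card ↥(H.subgroupOf K) = Nat.card ↥(H ⊓ K) := by
    rw [← Subgroup.subgroupOf_map_subtype]
    exact Nat.card_congr (Subgroup.equivMapOfInjective _ _ K.subtype_injective).toEquiv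
  rw [h2, mul_comm] at h1
  exact h1

theorem relIndex_dvd_index {G : Type*} [Group G] [Finite G] (M C : Subgroup G) [M.Normal] : C.relIndex M ∣ C.index := by
  have h0 : C.relIndex (M ⊔ C) * (M ⊔ C).index = C.index := Subgroup.relIndex_mul_index le_sup_right
  have h1 : C.relIndex M = C.relIndex (M ⊔ C) := by
    have a1 := ri_card C M
    have a2 := ri_card M C
    have a3 := ri_card M (M ⊔ C)
    have a4 := ri_card C (M ⊔ C)
    rw [inf_eq_left.mpr le_sup_left, Subgroup.relIndex_sup_left] at a3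
    rw [inf_eq_left.mpr le_sup_right] at a4
    rw [inf_comm] at a2
    have hpos : 0 < M.relIndex C * Nat.card ↥(C ⊓ M) := by
      rw [a2]
      exact Nat.card_pos
    have h5 : C.relIndex (M ⊔ C) * (M.relIndex C * Nat.card ↥(C ⊓ M)) = C.relIndex M * (M.relIndex C * Nat.card ↥(C ⊓ M)) := by
      have a1' : C.relIndex M * Nat.card ↥(C ⊓ M) = Nat.card M := a1
      calc C.relIndex (M ⊔ C) * (M.relIndex C * Nat.card ↥(C ⊓ M)) = C.relIndex (M ⊔ C) * Nat.card C := by rw [a2]
        _ = Nat.card ↥(M ⊔ C) := a4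
        _ = M.relIndex C * Nat.card M := a3.symm
        _ = M.relIndex C * (C.relIndex M * Nat.card ↥(C ⊓ M)) := by rw [a1']
        _ = _ := by ring
    exact (Nat.eq_of_mul_eq_mul_right hpos h5).symm
  rw [h1]
  exact ⟨_, h0.symm⟩

theorem exists_fixed {A X : Type*} [Group A] [MulAction A X] [Finite X] {p : ℕ} [Fact p.Prime] (hA : IsPGroup p A)
    (hX : ¬ p ∣ Nat.card X) : ∃ x : X, ∀ a : A, a • x = x := by
  have hmod := hA.card_modEq_card_fixedPoints X
  by_contra hno
  push Not at hno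
  have hemp : Nat.card (MulAction.fixedPoints A X) = 0 := by
    haveI : IsEmpty (MulAction.fixedPoints A X) := ⟨fun y => by
      obtain ⟨a, ha⟩ := hno y.1
      exact ha (y.2 a)⟩
    exact Nat.card_of_isEmpty
  rw [hemp] at hmod
  exact hX ((Nat.modEq_zero_iff_dvd).mp hmod)

theorem exists_inv_sylow {B M : Type*} [Group B] [Group M] [Finite M] {p q : ℕ} [Fact p.Prime] [Fact q.Prime]
    (f : B →* MulAut M) (hB : IsPGroup q B) (hc : ¬ q ∣ Nat.card (Sylow p M)) :
    ∃ A : Sylow p M, ∀ (b : B) (a : M), a ∈ (A : Subgroup M) → f b a ∈ (A : Subgroup M) := by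
  letI act : MulDistribMulAction B M := MulDistribMulAction.compHom M f
  obtain ⟨A, hA⟩ := exists_fixed (A := B) (X := Sylow p M) hB hc
  refine ⟨A, fun b a ha => ?_⟩
  have h1 : (b • (A : Subgroup M)) = A := by
    rw [← Sylow.pointwise_smul_def, hA b]
  have h2 : b • a ∈ b • (A : Subgroup M) := Subgroup.smul_mem_pointwise_smul a b _ ha
  rw [h1] at h2
  exact h2

theorem lemD {G : Type*} [Group G] [Finite G] {p q : ℕ} [hpf : Fact p.Prime] [hqf : Fact q.Prime] (hpq : p ≠ q)
    (hyp : ∀ y : G, (∃ k : ℕ, orderOf y = q ^ k) → ¬ p ∣ (Subgroup.centralizer ({y} : Set G)).index)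
    (T M : Subgroup G) [hMn : M.Normal] (hMT : M ≤ T) (hMq : (Nat.card M).Coprime q)
    (hTM : ∃ n : ℕ, M.relIndex T = q ^ n) : ¬ p ∣ Nat.card (Sylow q ↥T) := by
  classical
  obtain ⟨Q⟩ : Nonempty (Sylow q ↥T) := inferInstance
  obtain ⟨A₀⟩ : Nonempty (Sylow p ↥M) := inferInstance
  have hcardS : ¬ q ∣ Nat.card (Sylow p ↥M) := by
    rw [Sylow.card_eq_index_normalizer A₀]
    intro h
    have h1 := h.trans (Subgroup.index_dvd_card _)
    have h2 := Nat.dvd_gcd h1 (dvd_refl q)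
    rw [hMq] at h2
    exact hqf.out.one_lt.ne' (Nat.dvd_one.mp h2)
  let f : ↥(Q : Subgroup ↥T) →* MulAut ↥M :=
    (MulAut.conjNormal (H := M)).comp (T.subtype.comp (Q : Subgroup ↥T).subtype)
  obtain ⟨A', hA'⟩ := exists_inv_sylow (p := p) (q := q) f Q.isPGroup' hcardS
  let AG : Subgroup G := (A' : Subgroup ↥M).map M.subtype
  have hAGM : AG ≤ M := by
    rintro _ ⟨a, _, rfl⟩
    exact a.2
  have hQy : ∀ c : ↥(Q : Subgroup ↥T), ∃ k : ℕ, orderOf ((c : ↥T) : G) = q ^ k := by
    intro c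
    obtain ⟨k, hk⟩ := Q.isPGroup' c
    have h1 : ((c : ↥T) : G) ^ (q ^ k) = 1 := by
      have := congrArg (fun t : ↥(Q : Subgroup ↥T) => ((t : ↥T) : G)) hk
      simpa using this
    obtain ⟨m, -, hm⟩ := (Nat.dvd_prime_pow hqf.out).mp (orderOf_dvd_of_pow_eq_one h1)
    exact ⟨m, hm⟩
  have hnormG : ∀ c : ↥(Q : Subgroup ↥T), ∀ a ∈ AG, ((c : ↥T) : G) * a * ((c : ↥T) : G)⁻¹ ∈ AG := by
    rintro c _ ⟨a₀, ha₀, rfl⟩
    refine ⟨f c a₀, hA' c a₀ ha₀, ?_⟩
    exact MulAut.conjNormal_apply _ _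
  have hcen : ∀ c : ↥(Q : Subgroup ↥T), ∀ a ∈ AG, ((c : ↥T) : G) * a = a * ((c : ↥T) : G) := by
    intro c
    obtain ⟨y, hydef⟩ : ∃ y : G, y = ((c : ↥T) : G) := ⟨_, rfl⟩
    rw [← hydef]
    have hnormy : ∀ a ∈ AG, y * a * y⁻¹ ∈ AG := by
      rw [hydef]
      exact hnormG c
    have hyk : ∃ k : ℕ, orderOf y = q ^ k := by
      rw [hydef]
      exact hQy c
    have hp' := hyp y hyk
    have hrel : ¬ p ∣ (Subgroup.centralizer ({y} : Set G)).relIndex M :=
      fun h => hp' (h.trans (relIndex_dvd_index M _))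
    have hcq : ¬ p ∣ Nat.card (↥M ⧸ (Subgroup.centralizer ({y} : Set G)).subgroupOf M) := hrel
    letI actq := MulAction.mulLeftCosetsCompSubtypeVal ((Subgroup.centralizer ({y} : Set G)).subgroupOf M) (A' : Subgroup ↥M)
    obtain ⟨z, hz⟩ := exists_fixed (A := ↥(A' : Subgroup ↥M)) (X := ↥M ⧸ (Subgroup.centralizer ({y} : Set G)).subgroupOf M)
      A'.isPGroup' hcq
    obtain ⟨m, rfl⟩ := QuotientGroup.mk_surjective z
    have hz' : ∀ a ∈ AG, ((m : G)⁻¹ * a * (m : G)) * y = y * ((m : G)⁻¹ * a * (m : G)) := by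
      rintro _ ⟨a, ha, rfl⟩
      have h1 := hz ⟨a, ha⟩
      have h2 : ((a * m : ↥M) : ↥M ⧸ (Subgroup.centralizer ({y} : Set G)).subgroupOf M) = (m : ↥M ⧸ (Subgroup.centralizer ({y} : Set G)).subgroupOf M) := h1
      rw [QuotientGroup.eq, Subgroup.mem_subgroupOf] at h2
      have h3 : ((((a * m)⁻¹ * m : ↥M)) : G) ∈ Subgroup.centralizer ({y} : Set G) := h2
      have h4 : (m : G)⁻¹ * (a : G) * (m : G) ∈ Subgroup.centralizer ({y} : Set G) := by
        have h5 := (Subgroup.centralizer ({y} : Set G)).inv_mem h3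
        have e : (((((a * m)⁻¹ * m : ↥M)) : G))⁻¹ = (m : G)⁻¹ * (a : G) * (m : G) := by
          push_cast
          group
        rwa [e] at h5
      exact Subgroup.mem_centralizer_singleton_iff.mp h4
    -- the conjugate of y centralizes AG
    let e : G := (m : G) * y * (m : G)⁻¹
    have he : ∀ a ∈ AG, a * e = e * a := by
      intro a ha
      have h1 := hz' a ha
      show a * ((m : G) * y * (m : G)⁻¹) = ((m : G) * y * (m : G)⁻¹) * a
      have h2 : a = (m : G) * ((m : G)⁻¹ * a * (m : G)) * (m : G)⁻¹ := by group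
      calc a * ((m : G) * y * (m : G)⁻¹) = (m : G) * (((m : G)⁻¹ * a * (m : G)) * y) * (m : G)⁻¹ := by group
        _ = (m : G) * (y * ((m : G)⁻¹ * a * (m : G))) * (m : G)⁻¹ := by rw [h1]
        _ = ((m : G) * y * (m : G)⁻¹) * a := by group
    let d : G := e * y⁻¹
    have hdM : d ∈ M := by
      have h1 : d = (m : G) * (y * (m : G)⁻¹ * y⁻¹) := by
        show (m : G) * y * (m : G)⁻¹ * y⁻¹ = _
        group
      rw [h1]
      exact M.mul_mem m.2 (hMn.conj_mem _ (M.inv_mem m.2) y)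
    have hform : ∀ a ∈ AG, y * a * y⁻¹ = d⁻¹ * a * d := by
      intro a ha
      have h1 := he a ha
      show y * a * y⁻¹ = (e * y⁻¹)⁻¹ * a * (e * y⁻¹)
      have h2 : a * e = e * a := h1
      calc y * a * y⁻¹ = y * (e⁻¹ * (e * a)) * y⁻¹ := by group
        _ = y * (e⁻¹ * (a * e)) * y⁻¹ := by rw [h2]
        _ = (e * y⁻¹)⁻¹ * a * (e * y⁻¹) := by group
    have hpow : ∀ (n : ℕ) (a : G), a ∈ AG → y ^ n * a * (y ^ n)⁻¹ = (d ^ n)⁻¹ * a * d ^ n := by
      intro n
      induction n with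
      | zero => intro a _; simp
      | succ n ih =>
        intro a ha
        have h1 := ih _ (hnormy a ha)
        have h2 := hform a ha
        calc y ^ (n + 1) * a * (y ^ (n + 1))⁻¹ = y ^ n * (y * a * y⁻¹) * (y ^ n)⁻¹ := by
              rw [pow_succ]
              group
          _ = (d ^ n)⁻¹ * (y * a * y⁻¹) * d ^ n := h1
          _ = (d ^ n)⁻¹ * (d⁻¹ * a * d) * d ^ n := by rw [h2]
          _ = (d ^ (n + 1))⁻¹ * a * d ^ (n + 1) := by
              rw [pow_succ']
              group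
    obtain ⟨k, hk⟩ := hyk
    have hwd : orderOf d ∣ Nat.card M := by
      have h1 := orderOf_dvd_natCard (⟨d, hdM⟩ : ↥M)
      rwa [Subgroup.orderOf_mk] at h1
    have hco : (orderOf y).Coprime (orderOf d) := by
      rw [hk]
      apply Nat.Coprime.pow_left
      exact (Nat.Coprime.coprime_dvd_left hwd hMq).symm
    obtain ⟨n, hn1, hn2⟩ := Nat.chineseRemainder hco 1 0
    have hy1 : y ^ n = y := by
      rw [pow_eq_pow_mod n (pow_orderOf_eq_one y), hn1]
      have := pow_eq_pow_mod 1 (pow_orderOf_eq_one y)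
      rw [pow_one] at this
      exact this.symm
    have hd1 : d ^ n = 1 := orderOf_dvd_iff_pow_eq_one.mp ((Nat.modEq_zero_iff_dvd).mp hn2)
    intro a ha
    have h1 := hpow n a ha
    rw [hy1, hd1] at h1
    simp only [inv_one, one_mul, mul_one] at h1
    rw [mul_inv_eq_iff_eq_mul] at h1
    exact h1
  -- the normalizer has index prime to p
  have hle : AG.subgroupOf T ≤ Subgroup.normalizer ((Q : Subgroup ↥T) : Set ↥T) := by
    intro a ha
    rw [Subgroup.mem_normalizer_iff]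
    intro u
    have ha' : (a : G) ∈ AG := ha
    constructor
    · intro hu
      have h1 := hcen ⟨u, hu⟩ _ ha'
      have h2 : a * u * a⁻¹ = u := by
        apply Subtype.ext
        show (a : G) * (u : G) * (a : G)⁻¹ = u
        have h3 : (u : G) * a = a * u := h1
        rw [← h3]
        group
      rw [h2]
      exact hu
    · intro hu
      have h1 := hcen ⟨a * u * a⁻¹, hu⟩ _ ha'
      have h2 : a * u * a⁻¹ = u := by
        apply Subtype.ext
        have h3 : ((a * u * a⁻¹ : ↥T) : G) * a = a * ((a * u * a⁻¹ : ↥T) : G) := h1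
        have h4 : ((a * u * a⁻¹ : ↥T) : G) = (a : G) * u * (a : G)⁻¹ := rfl
        rw [h4] at h3 ⊢
        have h5 : (a : G) * u = a * ((a : G) * u * (a : G)⁻¹) := by
          calc (a : G) * u = ((a : G) * u * (a : G)⁻¹) * a := by group
            _ = a * ((a : G) * u * (a : G)⁻¹) := h3
        have h6 := mul_left_cancel h5
        exact h6.symm
      rw [h2] at hu
      exact hu
  have hidx : ¬ p ∣ AG.relIndex T := by
    have h1 := Subgroup.relIndex_mul_relIndex AG M T hAGM hMT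
    rw [← h1]
    obtain ⟨n, hn⟩ := hTM
    rw [hn]
    intro h2
    rcases (Nat.Prime.dvd_mul hpf.out).mp h2 with h3 | h3
    · have h4 : AG.relIndex M = (A' : Subgroup ↥M).index := by
        show (AG.subgroupOf M).index = _
        congr 1
        exact Subgroup.comap_map_eq_self_of_injective M.subtype_injective _
      rw [h4] at h3
      exact A'.not_dvd_index h3
    · exact hpq ((Nat.prime_dvd_prime_iff_eq hpf.out hqf.out).mp (hpf.out.dvd_of_dvd_pow h3))
  rw [Sylow.card_eq_index_normalizer Q]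
  intro h
  exact hidx (h.trans (Subgroup.index_dvd_of_le hle))

theorem lemB {G : Type*} [Group G] [Finite G] {p q : ℕ} [hpf : Fact p.Prime] [hqf : Fact q.Prime] (hpq : p ≠ q)
    (T M : Subgroup G) (hMT : M ≤ T) (hMp : (Nat.card M).Coprime p)
    (hTM : ∃ n : ℕ, M.relIndex T = q ^ n) : ¬ p ∣ Nat.card (Sylow q ↥T) := by
  obtain ⟨Q⟩ : Nonempty (Sylow q ↥T) := inferInstance
  rw [Sylow.card_eq_index_normalizer Q]
  intro h
  have h1 := h.trans (Subgroup.index_dvd_card _)
  have h2 := ri_card M T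
  rw [inf_eq_left.mpr hMT] at h2
  obtain ⟨n, hn⟩ := hTM
  rw [← h2, hn] at h1
  rcases (Nat.Prime.dvd_mul hpf.out).mp h1 with h3 | h3
  · exact hpq ((Nat.prime_dvd_prime_iff_eq hpf.out hqf.out).mp (hpf.out.dvd_of_dvd_pow h3))
  · have h4 := Nat.dvd_gcd h3 (dvd_refl p)
    rw [hMp] at h4
    exact hpf.out.one_lt.ne' (Nat.dvd_one.mp h4)

theorem lemC {G : Type*} [Group G] [Finite G] {p q : ℕ} [hpf : Fact p.Prime] [hqf : Fact q.Prime]
    (T : Subgroup G) (hT : IsPGroup q ↥T) : ¬ p ∣ Nat.card (Sylow q ↥T) := by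
  obtain ⟨Q⟩ : Nonempty (Sylow q ↥T) := inferInstance
  have h1 : (⊤ : Subgroup ↥T) = Q := Q.is_maximal' (IsPGroup.of_equiv hT Subgroup.topEquiv.symm) le_top
  have h2 : Subgroup.normalizer (Q : Set ↥T) = ⊤ := by
    rw [eq_top_iff]
    intro x _
    show x ∈ Subgroup.normalizer (((Q : Subgroup ↥T)) : Set ↥T)
    rw [Subgroup.mem_normalizer_iff]
    intro h
    rw [← h1]
    simp
  rw [Sylow.card_eq_index_normalizer Q, h2, Subgroup.index_top]
  intro h3
  exact hpf.out.one_lt.ne' (Nat.dvd_one.mp h3)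

theorem lift_main {G : Type*} [Group G] [Finite G] {p q : ℕ} [hpf : Fact p.Prime] [hqf : Fact q.Prime]
    (M : Subgroup G) [hMn : M.Normal] (Pb : Sylow p (G ⧸ M)) (Qb : Sylow q (G ⧸ M))
    (hN : (Pb : Subgroup (G ⧸ M)) ≤ Subgroup.normalizer ((Qb : Subgroup (G ⧸ M)) : Set (G ⧸ M)))
    (hstar : ¬ p ∣ Nat.card (Sylow q ↥((Qb : Subgroup (G ⧸ M)).comap (QuotientGroup.mk' M)))) :
    ∃ (P : Sylow p G) (Q : Sylow q G), (P : Subgroup G) ≤ Subgroup.normalizer ((Q : Subgroup G) : Set G) := by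
  classical
  have hsurj := QuotientGroup.mk'_surjective M
  obtain ⟨T, hTdef⟩ : ∃ T : Subgroup G, T = (Qb : Subgroup (G ⧸ M)).comap (QuotientGroup.mk' M) := ⟨_, rfl⟩
  obtain ⟨R, hRdef⟩ : ∃ R : Subgroup G, R = (Pb : Subgroup (G ⧸ M)).comap (QuotientGroup.mk' M) := ⟨_, rfl⟩
  rw [← hTdef] at hstar
  have hRT : R ≤ Subgroup.normalizer (T : Set G) := by
    intro r hr
    rw [hRdef] at hr
    have h1 := Subgroup.mem_normalizer_iff.mp (hN hr)
    rw [Subgroup.mem_normalizer_iff]
    intro x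
    rw [hTdef]
    have h2 := h1 (QuotientGroup.mk' M x)
    simpa [Subgroup.mem_comap] using h2
  obtain ⟨A₀⟩ : Nonempty (Sylow p ↥R) := inferInstance
  let A : Subgroup G := (A₀ : Subgroup ↥R).map R.subtype
  have hAp : IsPGroup p ↥A := A₀.isPGroup'.map R.subtype
  have hAidx : ¬ p ∣ A.index := by
    rw [Subgroup.index_map_subtype]
    intro h
    rcases (Nat.Prime.dvd_mul hpf.out).mp h with h1 | h1
    · exact A₀.not_dvd_index h1
    · apply Pb.not_dvd_index
      rw [hRdef, Subgroup.index_comap_of_surjective _ hsurj] at h1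
      exact h1
  have hAT : A ≤ Subgroup.normalizer (T : Set G) := by
    rintro _ ⟨a, _, rfl⟩
    exact hRT a.2
  let f : ↥A →* MulAut ↥T := T.normalizerMonoidHom.comp (Subgroup.inclusion hAT)
  obtain ⟨Q, hQ⟩ := exists_inv_sylow (p := q) (q := p) f hAp hstar
  let QG : Subgroup G := (Q : Subgroup ↥T).map T.subtype
  have hQGp : IsPGroup q ↥QG := Q.isPGroup'.map T.subtype
  have hQGidx : ¬ q ∣ QG.index := by
    rw [Subgroup.index_map_subtype]
    intro h
    rcases (Nat.Prime.dvd_mul hqf.out).mp h with h1 | h1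
    · exact Q.not_dvd_index h1
    · apply Qb.not_dvd_index
      rw [hTdef, Subgroup.index_comap_of_surjective _ hsurj] at h1
      exact h1
  have hfwd : ∀ a ∈ A, ∀ g ∈ QG, a * g * a⁻¹ ∈ QG := by
    rintro a ha _ ⟨t, ht, rfl⟩
    refine ⟨f ⟨a, ha⟩ t, hQ ⟨a, ha⟩ t ht, ?_⟩
    exact Subgroup.normalizerMonoidHom_apply_apply_coe T _ t
  refine ⟨hAp.toSylow hAidx, hQGp.toSylow hQGidx, ?_⟩
  intro a ha
  have ha' : a ∈ A := ha
  show a ∈ Subgroup.normalizer (QG : Set G)
  rw [Subgroup.mem_normalizer_iff]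
  intro g
  refine ⟨hfwd a ha' g, fun h => ?_⟩
  have h1 := hfwd a⁻¹ (A.inv_mem ha') _ h
  have e : a⁻¹ * (a * g * a⁻¹) * a⁻¹⁻¹ = g := by group
  rwa [e] at h1

theorem exists_bottom {G : Type*} [Group G] [Finite G] {r : ℕ} (hs : IsPSolvable r G) (hne : Nontrivial G) :
    ∃ M : Subgroup G, M.Normal ∧ M ≠ ⊥ ∧ ((∃ m : ℕ, Nat.card M = r ^ m) ∨ (Nat.card M).Coprime r) := by
  classical
  obtain ⟨n, H, h0, hn, -, hnorm, hfac⟩ := hs
  have hex : ∃ i : ℕ, ∃ h : i < n + 1, H ⟨i, h⟩ ≠ ⊥ := ⟨n, Nat.lt_succ_self n, by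
    have h1 : H ⟨n, Nat.lt_succ_self n⟩ = ⊤ := hn
    rw [h1]
    exact top_ne_bot⟩
  obtain ⟨hi0, hi1⟩ := Nat.find_spec hex
  have hi0' : Nat.find hex ≠ 0 := by
    intro h3
    have h4 : H ⟨Nat.find hex, hi0⟩ = H 0 := by
      congr 1
      exact Fin.ext h3
    rw [h4, h0] at hi1
    exact hi1 rfl
  obtain ⟨i, hi⟩ : ∃ i, Nat.find hex = i + 1 := ⟨Nat.find hex - 1, by omega⟩
  have hibot : ∀ h : i < n + 1, H ⟨i, h⟩ = ⊥ := by
    intro h
    by_contra h5
    have := Nat.find_min' hex ⟨h, h5⟩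
    omega
  have hin : i < n := by omega
  let i' : Fin n := ⟨i, hin⟩
  have hsucc : i'.succ = ⟨Nat.find hex, hi0⟩ := by
    apply Fin.ext
    show i + 1 = Nat.find hex
    exact hi.symm
  refine ⟨H i'.succ, hnorm _, ?_, ?_⟩
  · rw [hsucc]
    exact hi1
  · have h6 := hfac i'
    have h7 : H i'.castSucc = ⊥ := hibot _
    rw [h7, Subgroup.relIndex_bot_left] at h6
    rcases h6 with ⟨m, hm⟩ | h6
    · exact Or.inl ⟨m, hm⟩
    · exact Or.inr h6

theorem hyp_quot {G : Type*} [Group G] [Finite G] {p q : ℕ} [hpf : Fact p.Prime] [hqf : Fact q.Prime]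
    (hyp : ∀ y : G, (∃ k : ℕ, orderOf y = q ^ k) → ¬ p ∣ (Subgroup.centralizer ({y} : Set G)).index)
    (M : Subgroup G) [hMn : M.Normal] :
    ∀ y : G ⧸ M, (∃ k : ℕ, orderOf y = q ^ k) → ¬ p ∣ (Subgroup.centralizer ({y} : Set (G ⧸ M))).index := by
  classical
  intro yb hyb
  obtain ⟨k, hk⟩ := hyb
  obtain ⟨g, rfl⟩ := QuotientGroup.mk_surjective yb
  -- a lift of q-power order
  have hlift : ∃ y : G, (∃ k : ℕ, orderOf y = q ^ k) ∧ (y : G ⧸ M) = (g : G ⧸ M) := by
    by_cases hk0 : k = 0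
    · refine ⟨1, ⟨0, by simp⟩, ?_⟩
      rw [hk0, pow_zero, orderOf_eq_one_iff] at hk
      rw [hk]
      rfl
    have hq1 : 1 < q ^ k := Nat.one_lt_pow hk0 hqf.out.one_lt
    obtain ⟨e, b, hb, hn⟩ := Nat.exists_eq_pow_mul_and_not_dvd (orderOf_pos g).ne' q hqf.out.one_lt.ne'
    have hco : b.Coprime (q ^ k) := Nat.Coprime.pow_right k ((Nat.Prime.coprime_iff_not_dvd hqf.out).mpr hb).symm
    obtain ⟨c, -, hc⟩ := Nat.exists_mul_mod_eq_one_of_coprime hco hq1
    refine ⟨g ^ (b * c), ?_, ?_⟩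
    · have h1 : (g ^ (b * c)) ^ (q ^ e) = 1 := by
        rw [← pow_mul, show b * c * q ^ e = (q ^ e * b) * c by ring, ← hn, pow_mul, pow_orderOf_eq_one, one_pow]
      obtain ⟨m, -, hm⟩ := (Nat.dvd_prime_pow hqf.out).mp (orderOf_dvd_of_pow_eq_one h1)
      exact ⟨m, hm⟩
    · have h2 : ((g : G ⧸ M)) ^ (q ^ k) = 1 := by
        rw [← hk, pow_orderOf_eq_one]
      rw [QuotientGroup.mk_pow, pow_eq_pow_mod (b * c) h2, hc, pow_one]
  obtain ⟨y, hy, hyg⟩ := hlift
  rw [← hyg]
  intro h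
  apply hyp y hy
  have hle : Subgroup.centralizer ({y} : Set G) ≤
      (Subgroup.centralizer ({(y : G ⧸ M)} : Set (G ⧸ M))).comap (QuotientGroup.mk' M) := by
    intro u hu
    rw [Subgroup.mem_comap, Subgroup.mem_centralizer_singleton_iff]
    have h1 := Subgroup.mem_centralizer_singleton_iff.mp hu
    have h2 := congrArg (QuotientGroup.mk' M) h1
    simpa using h2
  have h3 := Subgroup.index_dvd_of_le hle
  rw [Subgroup.index_comap_of_surjective _ (QuotientGroup.mk'_surjective M)] at h3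
  exact h.trans h3

theorem main_ind {p q : ℕ} [hpf : Fact p.Prime] [hqf : Fact q.Prime] (hpq : p ≠ q) :
    ∀ (n : ℕ) (G : Type u) [Group G] [Finite G], Nat.card G = n →
      (∀ y : G, (∃ k : ℕ, orderOf y = q ^ k) → ¬ p ∣ (Subgroup.centralizer ({y} : Set G)).index) →
      (IsPSolvable p G ∨ IsPSolvable q G) →
      ∃ (P : Sylow p G) (Q : Sylow q G), (P : Subgroup G) ≤ Subgroup.normalizer ((Q : Subgroup G) : Set G) := by
  intro n
  induction n using Nat.strong_induction_on with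
  | _ n ih =>
    intro G _ _ hn hyp hs
    classical
    rcases subsingleton_or_nontrivial G with hsub | hnt
    · obtain ⟨P⟩ : Nonempty (Sylow p G) := inferInstance
      obtain ⟨Q⟩ : Nonempty (Sylow q G) := inferInstance
      refine ⟨P, Q, ?_⟩
      intro x _
      rw [Subgroup.mem_normalizer_iff]
      intro h
      rw [Subsingleton.elim (x * h * x⁻¹) h]
    have key : ∀ (M : Subgroup G) [hMn : M.Normal], M ≠ ⊥ → (IsPSolvable p (G ⧸ M) ∨ IsPSolvable q (G ⧸ M)) →
        (∀ T : Subgroup G, M ≤ T → (∃ n : ℕ, M.relIndex T = q ^ n) → ¬ p ∣ Nat.card (Sylow q ↥T)) →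
        ∃ (P : Sylow p G) (Q : Sylow q G), (P : Subgroup G) ≤ Subgroup.normalizer ((Q : Subgroup G) : Set G) := by
      intro M hMn hM hsQ hstar
      have hlt : Nat.card (G ⧸ M) < n := by
        have h1 := Subgroup.card_eq_card_quotient_mul_card_subgroup M
        have hM1 : 1 < Nat.card M := (Subgroup.one_lt_card_iff_ne_bot M).mpr hM
        have hc : 0 < Nat.card (G ⧸ M) := Nat.card_pos
        rw [hn] at h1
        rw [h1]
        exact lt_mul_of_one_lt_right hc hM1
      obtain ⟨Pb, Qb, hN⟩ := ih _ hlt (G ⧸ M) rfl (hyp_quot hyp M) hsQ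
      apply lift_main M Pb Qb hN
      apply hstar
      · exact QuotientGroup.le_comap_mk' M _
      · have h2 := Subgroup.relIndex_comap (⊥ : Subgroup (G ⧸ M)) (QuotientGroup.mk' M) ((Qb : Subgroup (G ⧸ M)).comap (QuotientGroup.mk' M))
        rw [MonoidHom.comap_bot, QuotientGroup.ker_mk', Subgroup.map_comap_eq_self_of_surjective (QuotientGroup.mk'_surjective M), Subgroup.relIndex_bot_left] at h2
        rw [h2]
        exact IsPGroup.iff_card.mp Qb.isPGroup'
    rcases hs with hs | hs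
    · obtain ⟨M, hMn, hM, hc⟩ := exists_bottom hs hnt
      haveI := hMn
      refine key M hM (Or.inl (isPSolvable_quot hs M)) ?_
      intro T hMT hTM
      rcases hc with ⟨m, hm⟩ | hc
      · refine lemD hpq hyp T M hMT ?_ hTM
        rw [hm]
        exact Nat.Coprime.pow_left m ((Nat.coprime_primes hpf.out hqf.out).mpr hpq)
      · exact lemB hpq T M hMT hc hTM
    · obtain ⟨M, hMn, hM, hc⟩ := exists_bottom hs hnt
      haveI := hMn
      refine key M hM (Or.inr (isPSolvable_quot hs M)) ?_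
      intro T hMT hTM
      rcases hc with ⟨m, hm⟩ | hc
      · apply lemC T
        have h2 := ri_card M T
        rw [inf_eq_left.mpr hMT] at h2
        obtain ⟨n', hn'⟩ := hTM
        rw [hn', hm, ← pow_add] at h2
        exact IsPGroup.of_card h2.symm
      · exact lemD hpq hyp T M hMT hc hTM


/-- Let p and q be primes and G a finite group that is p-solvable or q-solvable, in which no q-element has conjugacy class size divisible by p. Then some Sylow p-subgroup of G normalizes some Sylow q-subgroup of G. -/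
theorem result {G : Type*} [Group G] [Finite G] (p q : ℕ) [Fact p.Prime] [Fact q.Prime] (hsolv : Cfsg.IsPSolvable p G ∨ Cfsg.IsPSolvable q G)
    (h : ∀ y : G, (∃ k : ℕ, orderOf y = q ^ k) → ¬ p ∣ (Subgroup.centralizer ({y} : Set G)).index) :
    ∃ (P : Sylow p G) (Q : Sylow q G), (P : Subgroup G) ≤ Subgroup.normalizer ((Q : Subgroup G) : Set G) := by
  classical
  by_cases hpq : p = q
  · subst hpq
    obtain ⟨P⟩ : Nonempty (Sylow p G) := inferInstance
    exact ⟨P, P, Subgroup.le_normalizer⟩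
  · exact main_ind hpq _ G rfl h hsolv

end Cfsg.Agent.S4601
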