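import Cfsg.Statements.S4602
import Cfsg.Agent.Lib.FitCore
import Cfsg.Agent.Lib.UpperP
import Cfsg.Agent.Lib.FitSolv
import Cfsg.Agent.Lib.CharBlockPSolv

set_option autoImplicit false
set_option linter.all false
open Cfsg

namespace Cfsg.Agent.S4602


theorem exists_sylow_le {G : Type*} [Group G] [Finite G] (p : ℕ) [Fact p.Prime] (M : Subgroup G) (h : ¬ p ∣ M.index) :
    ∃ P : Sylow p G, (P : Subgroup G) ≤ M := by
  obtain ⟨S⟩ : Nonempty (Sylow p M) := inferInstance
  have h1 : IsPGroup p ((S : Subgroup M).map M.subtype) := S.isPGroup'.map M.subtype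
  have h2 : ¬ p ∣ ((S : Subgroup M).map M.subtype).index := by
    rw [Subgroup.index_map_subtype]
    intro h3
    rcases (Fact.out : p.Prime).dvd_mul.1 h3 with h4 | h4
    · exact S.not_dvd_index h4
    · exact h h4
  exact ⟨h1.toSylow h2, Subgroup.map_subtype_le _⟩

theorem sylow_le_of_not_dvd {G : Type*} [Group G] [Finite G] (q : ℕ) [Fact q.Prime] (K : Subgroup G) [K.Normal]
    (h : ¬ q ∣ K.index) (Q : Sylow q G) : (Q : Subgroup G) ≤ K := by
  intro x hx
  obtain ⟨k, hk⟩ := (Q.isPGroup' : IsPGroup q (Q : Subgroup G)) ⟨x, hx⟩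
  have hk' : x ^ (q ^ k) = 1 := by
    have := congrArg Subtype.val hk
    simpa using this
  have hord : orderOf x ∣ q ^ k := orderOf_dvd_of_pow_eq_one hk'
  have hco : K.index.Coprime (orderOf x) := by
    apply Nat.Coprime.coprime_dvd_right hord
    apply Nat.Coprime.pow_right
    exact ((Nat.Prime.coprime_iff_not_dvd (Fact.out : q.Prime)).2 h).symm
  obtain ⟨m, hm⟩ := exists_pow_eq_self_of_coprime hco
  rw [← hm]
  exact K.pow_mem (Subgroup.pow_index_mem K x) m

theorem normalizer_index {G : Type*} [Group G] [Finite G] (p : ℕ) (hp : p.Prime) (K M : Subgroup G) [K.Normal]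
    (hK : ¬ p ∣ Nat.card K) (hsup : M ⊔ K = ⊤) : ¬ p ∣ M.index := by
  have h1 : K.relIndex M = K.index := by
    rw [← Subgroup.relIndex_sup_right, hsup, Subgroup.relIndex_top_right]
  have h2 : Nat.card (K.subgroupOf M) * K.relIndex M = Nat.card M := Subgroup.card_mul_index (K.subgroupOf M)
  have h3 : Nat.card M * M.index = Nat.card G := Subgroup.card_mul_index M
  have h4 : Nat.card K * K.index = Nat.card G := Subgroup.card_mul_index K
  have h5 : 0 < K.index := Nat.pos_of_ne_zero (Subgroup.index_ne_zero_of_finite)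
  rw [h1] at h2
  have h6 : (Nat.card (K.subgroupOf M) * M.index) * K.index = Nat.card K * K.index := by
    rw [h4, ← h3, ← h2]; ring
  have h7 := Nat.eq_of_mul_eq_mul_right h5 h6
  intro h8
  apply hK
  rw [← h7]
  exact h8.mul_left _

/-- The reverse direction, for a later use too. -/
theorem exists_of_not_dvd {G : Type*} [Group G] [Finite G] (p q : ℕ) [Fact p.Prime] [Fact q.Prime]
    (h : ¬ q ∣ (Cfsg.pPrimeCore p G).index) :
    ∃ (P : Sylow p G) (Q : Sylow q G), (P : Subgroup G) ≤ Subgroup.normalizer ((Q : Subgroup G) : Set G) := by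
  haveI := Cfsg.Agent.Lib.FitCore.pPrimeCore_normal (G := G) p
  obtain ⟨Q⟩ : Nonempty (Sylow q G) := inferInstance
  have hQ := sylow_le_of_not_dvd q _ h Q
  have hsup := Q.normalizer_sup_eq_top' hQ
  have hnd := normalizer_index p (Fact.out : p.Prime) (Cfsg.pPrimeCore p G) _
    (Cfsg.Agent.Lib.FitCore.not_dvd_card_pPrimeCore p (Fact.out : p.Prime)) hsup
  obtain ⟨P, hP⟩ := exists_sylow_le p _ hnd
  exact ⟨P, Q, hP⟩

/-- If the image of a Sylow `q`-subgroup centralizes `O_p` of the quotient by `O_{p'}`, then `q` does not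
divide the index of `O_{p'}`. -/
theorem not_dvd_of_central {G : Type*} [Group G] [Finite G] (p q : ℕ) [Fact p.Prime] [Fact q.Prime] (hpq : p ≠ q)
    (hsolv : Cfsg.IsPSolvable p G) (Q : Sylow q G)
    (hc : haveI := Cfsg.Agent.Lib.FitCore.pPrimeCore_normal (G := G) p
      ∀ y ∈ (Q : Subgroup G), ((y : G) : G ⧸ Cfsg.pPrimeCore p G) ∈
        Subgroup.centralizer (Cfsg.pCore p (G ⧸ Cfsg.pPrimeCore p G) : Set (G ⧸ Cfsg.pPrimeCore p G))) :
    ¬ q ∣ (Cfsg.pPrimeCore p G).index := by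
  haveI := Cfsg.Agent.Lib.FitCore.pPrimeCore_normal (G := G) p
  set K := Cfsg.pPrimeCore p G with hK
  have hs' : Cfsg.IsPSolvable p (G ⧸ K) := Cfsg.Agent.Lib.UpperP.isPSolvable_quotient hsolv K
  have hbot : Cfsg.pPrimeCore p (G ⧸ K) = ⊥ := Cfsg.Agent.Lib.FitSolv.pPrimeCore_quotient p
  have hcent := Cfsg.Agent.Lib.CharBlockPSolv.centralizer_pCore_le_of_pSolvable hs' hbot
  have hLp : IsPGroup p (Cfsg.pCore p (G ⧸ K)) := Cfsg.Agent.Lib.FitCore.pCore_isPGroup p
  have hQbar : IsPGroup q ((Q : Subgroup G).map (QuotientGroup.mk' K)) := Q.isPGroup'.map _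
  have hdisj := IsPGroup.disjoint_of_ne p q hpq _ _ hLp hQbar
  have hQK : (Q : Subgroup G) ≤ K := by
    intro y hy
    have h1 : (y : G ⧸ K) ∈ Cfsg.pCore p (G ⧸ K) := hcent (hc y hy)
    have h2 : (y : G ⧸ K) ∈ (Q : Subgroup G).map (QuotientGroup.mk' K) := ⟨y, hy, rfl⟩
    have h3 : (y : G ⧸ K) = 1 := Subgroup.disjoint_def.1 hdisj h1 h2
    exact (QuotientGroup.eq_one_iff y).1 h3
  intro h
  exact Q.not_dvd_index (h.trans (Subgroup.index_dvd_of_le hQK))


/-- Let G be a finite p-solvable group and q a prime different from p. Some Sylow p-subgroup of G normalizes some Sylow q-subgroup of G if and only if q does not divide the order of G/O_{p'}(G), the quotient by the largest normal subgroup of order prime to p. -/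
theorem result {G : Type*} [Group G] [Finite G] (p q : ℕ) [Fact p.Prime] [Fact q.Prime] (hpq : p ≠ q) (hsolv : Cfsg.IsPSolvable p G) :
    (∃ (P : Sylow p G) (Q : Sylow q G), (P : Subgroup G) ≤ Subgroup.normalizer ((Q : Subgroup G) : Set G)) ↔ ¬ q ∣ (Cfsg.pPrimeCore p G).index := by

  classical
  constructor
  · rintro ⟨P, Q, hPQ⟩
    haveI := Cfsg.Agent.Lib.FitCore.pPrimeCore_normal (G := G) p
    apply not_dvd_of_central p q hpq hsolv Q
    intro y hy
    rw [Subgroup.mem_centralizer_iff]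
    intro l hl
    have hLn := Cfsg.Agent.Lib.FitCore.pCore_normal (G := G ⧸ Cfsg.pPrimeCore p G) p
    -- `l` lies in the image of `P`
    have hP1 : IsPGroup p ((P : Subgroup G).map (QuotientGroup.mk' (Cfsg.pPrimeCore p G))) := P.isPGroup'.map _
    have hP2 : ¬ p ∣ ((P : Subgroup G).map (QuotientGroup.mk' (Cfsg.pPrimeCore p G))).index := fun h =>
      P.not_dvd_index (h.trans (Subgroup.index_map_dvd _ (QuotientGroup.mk'_surjective _)))
    have hl2 : l ∈ ((P : Subgroup G).map (QuotientGroup.mk' (Cfsg.pPrimeCore p G))) :=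
      Cfsg.Agent.Lib.FitCore.pCore_le_sylow p (hP1.toSylow hP2) hl
    obtain ⟨a, ha, rfl⟩ := hl2
    have hLp : IsPGroup p (Cfsg.pCore p (G ⧸ Cfsg.pPrimeCore p G)) := Cfsg.Agent.Lib.FitCore.pCore_isPGroup p
    have hQbar : IsPGroup q ((Q : Subgroup G).map (QuotientGroup.mk' (Cfsg.pPrimeCore p G))) := Q.isPGroup'.map _
    have hdisj := IsPGroup.disjoint_of_ne p q hpq _ _ hLp hQbar
    -- the commutator
    have h1 : a * y * a⁻¹ ∈ (Q : Subgroup G) := (Subgroup.mem_normalizer_iff.1 (hPQ ha) y).1 hy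
    set u : G ⧸ Cfsg.pPrimeCore p G := QuotientGroup.mk' (Cfsg.pPrimeCore p G) a with hu
    set v : G ⧸ Cfsg.pPrimeCore p G := (y : G ⧸ Cfsg.pPrimeCore p G) with hv
    have huL : u ∈ Cfsg.pCore p (G ⧸ Cfsg.pPrimeCore p G) := hl
    have h2 : u * v * u⁻¹ * v⁻¹ ∈ Cfsg.pCore p (G ⧸ Cfsg.pPrimeCore p G) := by
      have h3 := hLn.conj_mem u⁻¹ (inv_mem huL) v
      have h4 := mul_mem huL h3
      have e : u * (v * u⁻¹ * v⁻¹) = u * v * u⁻¹ * v⁻¹ := by group
      rwa [e] at h4
    have h5 : u * v * u⁻¹ * v⁻¹ ∈ (Q : Subgroup G).map (QuotientGroup.mk' (Cfsg.pPrimeCore p G)) := by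
      refine ⟨a * y * a⁻¹ * y⁻¹, mul_mem h1 (inv_mem hy), ?_⟩
      simp [hu, hv]
    have h6 := Subgroup.disjoint_def.1 hdisj h2 h5
    have h7 : u * v = v * u := by
      have e : u * v = (u * v * u⁻¹ * v⁻¹) * (v * u) := by group
      rw [e, h6, one_mul]
    exact h7
  · exact exists_of_not_dvd p q

end Cfsg.Agent.S4602
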