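import Cfsg.Statements.S4604
import Cfsg.Agent.Lib.CharBlockConv
import Cfsg.Agent.Lib.CharKernel
import Cfsg.Agent.Lib.CharInt
import Cfsg.Agent.Lib.CharIrr
import Cfsg.Agent.Lib.CharOps
import Cfsg.Agent.Lib.CharCore

set_option autoImplicit false
set_option linter.all false
open Cfsg

namespace Cfsg.Agent.S4604


open Cfsg.Agent.Lib.CharOps Cfsg.Agent.Lib.CharIrr Cfsg.Agent.Lib.CharBlockConv
open scoped ComplexConjugate

universe u

theorem sum_pow_mod' {R ι : Type*} [CommRing R] (p : ℕ) (hp : p.Prime) (n : ℕ) (s : Finset ι) (a : ι → R) :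
    ∃ r : R, (∑ i ∈ s, a i) ^ (p ^ n) = ∑ i ∈ s, a i ^ (p ^ n) + p * r := by
  classical
  induction s using Finset.induction_on with
  | empty => exact ⟨0, by simp [zero_pow (pow_pos hp.pos n).ne']⟩
  | insert i s hi ih =>
    obtain ⟨r, hr⟩ := ih
    obtain ⟨r', hr'⟩ := exists_add_pow_prime_pow_eq hp (a i) (∑ j ∈ s, a j) n
    refine ⟨r + a i * (∑ j ∈ s, a j) * r', ?_⟩
    rw [Finset.sum_insert hi, Finset.sum_insert hi, hr', hr]
    ring

theorem frob_char' {G : Type u} [Group G] [Fintype G] {χ : G → ℂ} (hχ : IsCharacter G χ) (p : ℕ) (hp : p.Prime)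
    (n : ℕ) (g : G) : ∃ γ : AlgInt, χ g ^ (p ^ n) - χ (g ^ (p ^ n)) = (p : ℂ) * (γ : ℂ) := by
  obtain ⟨d, ρ, rfl⟩ := id hχ
  obtain ⟨ι, _, b, μ, h1, h2⟩ := Cfsg.Agent.Lib.CharCore.exists_eigenbasis_rep ρ g
  have hint : ∀ i, IsIntegral ℤ (μ i) := fun i =>
    ⟨Polynomial.X ^ Nat.card G - Polynomial.C 1, Polynomial.monic_X_pow_sub_C _ Nat.card_pos.ne', by
      rw [Polynomial.eval₂_sub, Polynomial.eval₂_pow, Polynomial.eval₂_X, Polynomial.eval₂_C, h2 i]
      simp⟩
  let a : ι → AlgInt := fun i => ⟨μ i, hint i⟩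
  have h3 : ρ.character g = ∑ i, μ i := Cfsg.Agent.Lib.CharCore.trace_eq_sum_of_eigenbasis b μ _ h1
  have h4 : ∀ (k : ℕ) i, ρ (g ^ k) (b i) = μ i ^ k • b i := by
    intro k i
    induction k with
    | zero => simp
    | succ k ih =>
      rw [pow_succ, map_mul, Module.End.mul_apply, h1, map_smul, ih, smul_smul, pow_succ]
      ring_nf
  have h5 : ρ.character (g ^ (p ^ n)) = ∑ i, μ i ^ (p ^ n) :=
    Cfsg.Agent.Lib.CharCore.trace_eq_sum_of_eigenbasis b _ _ (h4 (p ^ n))
  obtain ⟨r, hr⟩ := sum_pow_mod' p hp n Finset.univ a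
  refine ⟨r, ?_⟩
  have h6 := congrArg (fun t : AlgInt => (t : ℂ)) hr
  simp only [AddSubmonoidClass.coe_finset_sum, AddMemClass.coe_add, MulMemClass.coe_mul,
    SubmonoidClass.coe_pow, a] at h6
  rw [h3, h5]
  have h7 : ((p : AlgInt) : ℂ) = (p : ℂ) := by simp
  rw [h7] at h6
  rw [h6]
  ring

theorem pow_q' {G : Type u} [Group G] [Finite G] (p : ℕ) (hp : p.Prime) (x x' : G)
    (h : ∃ k : ℕ, orderOf (x * x'⁻¹) = p ^ k) (hc : Commute (x * x'⁻¹) x') :
    x ^ (p ^ (Nat.card G).factorization p) = x' ^ (p ^ (Nat.card G).factorization p) := by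
  obtain ⟨k, hk⟩ := h
  have h1 : p ^ k ∣ Nat.card G := hk ▸ orderOf_dvd_natCard _
  have h2 : k ≤ (Nat.card G).factorization p := (hp.pow_dvd_iff_le_factorization Nat.card_pos.ne').1 h1
  have h3 : (x * x'⁻¹) ^ (p ^ (Nat.card G).factorization p) = 1 :=
    orderOf_dvd_iff_pow_eq_one.1 (hk ▸ pow_dvd_pow p h2)
  have h4 : x = (x * x'⁻¹) * x' := by group
  conv_lhs => rw [h4, hc.mul_pow, h3, one_mul]

theorem pelt_trivial' {G : Type u} [Group G] (p : ℕ) (hp : p.Prime) {z u : G} (hz : ∃ j, orderOf z = p ^ j)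
    (hc : Commute z u) (hu : ¬ p ∣ orderOf u) (hw : ¬ p ∣ orderOf (z * u)) : z = 1 := by
  obtain ⟨j, hj⟩ := hz
  have hcop : Nat.Coprime (orderOf z) (orderOf u) := by
    rw [hj]; exact Nat.Coprime.pow_left _ ((Nat.Prime.coprime_iff_not_dvd hp).2 hu)
  have h1 := hc.orderOf_mul_eq_mul_orderOf_of_coprime hcop
  rw [h1] at hw
  rcases j with _ | j
  · simpa [orderOf_eq_one_iff] using hj
  · exfalso; apply hw; rw [hj]; exact Dvd.dvd.mul_right (dvd_pow_self p (by omega)) _

theorem orderOf_isConj' {G : Type u} [Group G] {a b : G} (h : IsConj a b) : orderOf a = orderOf b := by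
  obtain ⟨c, rfl⟩ := isConj_iff.mp h
  have : c * a * c⁻¹ = MulAut.conj c a := rfl
  rw [this, MulEquiv.orderOf_eq]

theorem pow_back' {G : Type u} [Group G] (g : G) (q K : ℕ) (hg : orderOf g ∣ K) (hKq : Nat.Coprime q K) (hK : 0 < K) :
    (g ^ q) ^ (q ^ (Nat.totient K - 1)) = g := by
  have h0 : 0 < Nat.totient K := Nat.totient_pos.2 hK
  have h1 : q * q ^ (Nat.totient K - 1) = q ^ Nat.totient K := by
    rw [← pow_succ']; congr 1; omega
  rw [← pow_mul, h1]
  have h2 : q ^ Nat.totient K ≡ 1 [MOD K] := Nat.ModEq.pow_totient hKq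
  have h3 : g ^ (q ^ Nat.totient K) = g ^ 1 := pow_eq_pow_iff_modEq.2 (h2.of_dvd hg)
  rwa [pow_one] at h3

theorem key' {G : Type u} [Group G] [Fintype G] (p : ℕ) (hp : p.Prime) (u v : G) (hu : ¬ p ∣ orderOf u)
    (hv : ¬ p ∣ orderOf v)
    (h : ∀ χ : IrrCharacter G, ∃ γ : AlgInt, (χ : G → ℂ) u - (χ : G → ℂ) v = (p : ℂ) * (γ : ℂ)) : IsConj u v := by
  classical
  by_contra hne
  haveI : Fact p.Prime := ⟨hp⟩
  let C : Subgroup G := Subgroup.centralizer ({u} : Set G)
  let S : Sylow p C := default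
  let P : Subgroup G := (S : Subgroup C).map C.subtype
  let H : Subgroup G := Subgroup.normalizer (P : Set G)
  let N : Subgroup H := P.subgroupOf H
  haveI hNn : N.Normal := Subgroup.normal_in_normalizer
  have hP_comm : ∀ z ∈ P, Commute z u := by
    rintro z ⟨s, hs, rfl⟩
    have := s.2
    rw [Subgroup.mem_centralizer_singleton_iff] at this
    show (s : G) * u = u * (s : G)
    exact this
  have hP_order : ∀ z ∈ P, ∃ j, orderOf z = p ^ j := by
    rintro z ⟨s, hs, rfl⟩
    obtain ⟨k, hk⟩ := (IsPGroup.iff_orderOf.mp S.isPGroup') ⟨s, hs⟩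
    refine ⟨k, ?_⟩
    rw [← hk, ← Subgroup.orderOf_coe (⟨s, hs⟩ : (S : Subgroup C))]
    simp [Subgroup.orderOf_coe]
  have hu_mem : u ∈ H := by
    rw [Subgroup.mem_normalizer_iff]
    intro z
    constructor
    · intro hz
      have h1 : u * z * u⁻¹ = z := by
        rw [(hP_comm z hz).symm.eq]; group
      rw [h1]; exact hz
    · intro hz
      have h1 := (hP_comm _ hz).eq
      have h2 : u * z * u⁻¹ * u = u * z := by group
      rw [h2] at h1
      have h3 : z = u * z * u⁻¹ := mul_left_cancel h1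
      rw [h3]; exact hz
  let uH : H := ⟨u, hu_mem⟩
  have hmemP : ∀ n : N, ((n : H) : G) ∈ P := fun n => Subgroup.mem_subgroupOf.1 n.2
  have hn1 : ∀ n : N, IsConj u (((n : H) : G) * u) → n = 1 := by
    intro n hc
    have h1 : ¬ p ∣ orderOf (((n : H) : G) * u) := by rw [← orderOf_isConj' hc]; exact hu
    have h2 := pelt_trivial' p hp (hP_order _ (hmemP n)) (hP_comm _ (hmemP n)) hu h1
    exact Subtype.ext (Subtype.ext h2)
  have hn2 : ∀ n : N, ¬ IsConj v (((n : H) : G) * u) := by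
    intro n hc
    have h1 : ¬ p ∣ orderOf (((n : H) : G) * u) := by rw [← orderOf_isConj' hc]; exact hv
    have h2 := pelt_trivial' p hp (hP_order _ (hmemP n)) (hP_comm _ (hmemP n)) hu h1
    rw [h2, one_mul] at hc
    exact hne hc.symm
  let β : IrrCharacter G → ℂ := fun χ => (Nat.card N : ℂ)⁻¹ * ∑ n : N, (χ : G → ℂ) (((n : H) : G) * u)
  have hβ : ∀ χ, IsIntegral ℤ (β χ) := by
    intro χ
    have h1 := Cfsg.Agent.Lib.CharKernel.isCharacter_cosetAvg N
      (isCharacter_restrict H (IsIrrCharacter.isCharacter' χ.2))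
    exact isIntegral_character_apply h1 uH
  choose γ hγ using h
  let I : ℂ := ∑ χ : IrrCharacter G, (γ χ : ℂ) * conj (β χ)
  have hI : IsIntegral ℤ I :=
    IsIntegral.sum _ (fun χ _ => IsIntegral.mul (γ χ).2 (map_isIntegral_int (starRingEnd ℂ) (hβ χ)))
  have hNc : (Nat.card N : ℂ) ≠ 0 := by exact_mod_cast Nat.card_pos.ne'
  have hcb : ∀ χ : IrrCharacter G, conj (β χ) = (Nat.card N : ℂ)⁻¹ * ∑ n : N, conj ((χ : G → ℂ) (((n : H) : G) * u)) := by
    intro χ
    simp only [β, map_mul, map_inv₀, map_natCast, map_sum]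
  have hT : ∑ n : N, (∑ χ : IrrCharacter G, ((χ : G → ℂ) u - (χ : G → ℂ) v) * conj ((χ : G → ℂ) (((n : H) : G) * u)))
      = (Nat.card C : ℂ) := by
    rw [Finset.sum_eq_single (1 : N)]
    · simp only [sub_mul, Finset.sum_sub_distrib, column_orthogonality]
      have e1 : (((1 : N) : H) : G) * u = u := by simp
      rw [e1, if_pos (IsConj.refl u), if_neg (fun hc => hne hc.symm)]
      simp [C]
    · intro n _ hn
      simp only [sub_mul, Finset.sum_sub_distrib, column_orthogonality]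
      rw [if_neg (fun hc => hn (hn1 n hc)), if_neg (hn2 n)]
      simp
    · simp
  have hmain : (p : ℂ) * I = (Nat.card N : ℂ)⁻¹ * (Nat.card C : ℂ) := by
    rw [← hT, Finset.sum_comm, Finset.mul_sum]
    simp only [I, Finset.mul_sum]
    refine Finset.sum_congr rfl (fun χ _ => ?_)
    rw [← mul_assoc, ← hγ χ, hcb χ, Finset.mul_sum, Finset.mul_sum]
    refine Finset.sum_congr rfl (fun n _ => ?_)
    ring
  have hle : P ≤ H := Subgroup.le_normalizer
  have hcardN : Nat.card N = Nat.card (S : Subgroup C) := by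
    have h1 : Nat.card N = Nat.card P := Nat.card_congr (Subgroup.subgroupOfEquivOfLe hle).toEquiv
    rw [h1]
    exact Subgroup.card_map_of_injective C.subtype_injective
  have hcardC : Nat.card (S : Subgroup C) * (S : Subgroup C).index = Nat.card C := Subgroup.card_mul_index _
  have hidx : (p : ℂ) * I = ((S : Subgroup C).index : ℂ) := by
    rw [hmain, ← hcardC, ← hcardN]
    push_cast
    field_simp
  have hpc : (p : ℂ) ≠ 0 := by exact_mod_cast hp.ne_zero
  have hdiv : I = ((S : Subgroup C).index : ℂ) / (p : ℂ) := by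
    rw [← hidx]; field_simp
  rw [hdiv] at hI
  exact S.not_dvd_index (Cfsg.Agent.Lib.CharInt.dvd_of_isIntegral_div hp.ne_zero hI)


/-- Let G be a finite group, p a prime and p^a the p-part of the order of G. Let x, y ∈ G and let x′, y′ be their p-regular parts: x′ has order prime to p, commutes with x·x′⁻¹, and x·x′⁻¹ has p-power order (likewise for y). Then x′ and y′ are conjugate in G if and only if for every irreducible character χ of G the algebraic integer χ(x)^(p^a) − χ(y)^(p^a) is p times an algebraic integer. -/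
theorem result {G : Type*} [Group G] [Finite G] (p : ℕ) [Fact p.Prime] (x y x' y' : G)
    (hx : (∃ k : ℕ, orderOf (x * x'⁻¹) = p ^ k) ∧ Commute (x * x'⁻¹) x' ∧ ¬ p ∣ orderOf x')
    (hy : (∃ k : ℕ, orderOf (y * y'⁻¹) = p ^ k) ∧ Commute (y * y'⁻¹) y' ∧ ¬ p ∣ orderOf y') :
    IsConj x' y' ↔ ∀ χ : Cfsg.IrrCharacter G, ∃ γ : Cfsg.AlgInt,
      (χ : G → ℂ) x ^ (p ^ (Nat.card G).factorization p) - (χ : G → ℂ) y ^ (p ^ (Nat.card G).factorization p) = (p : ℂ) * (γ : ℂ) := by

  classical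
  cases nonempty_fintype G
  have hp : p.Prime := Fact.out
  have hxq : x ^ (p ^ (Nat.card G).factorization p) = x' ^ (p ^ (Nat.card G).factorization p) :=
    pow_q' p hp x x' hx.1 hx.2.1
  have hyq : y ^ (p ^ (Nat.card G).factorization p) = y' ^ (p ^ (Nat.card G).factorization p) :=
    pow_q' p hp y y' hy.1 hy.2.1
  have hco : ∀ g : G, ¬ p ∣ orderOf g → ¬ p ∣ orderOf (g ^ (p ^ (Nat.card G).factorization p)) :=
    fun g hg hd => hg (hd.trans (orderOf_pow_dvd _))
  constructor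
  · intro hc χ
    have hχ := IsIrrCharacter.isCharacter' χ.2
    obtain ⟨a, ha⟩ := frob_char' hχ p hp ((Nat.card G).factorization p) x
    obtain ⟨b, hb⟩ := frob_char' hχ p hp ((Nat.card G).factorization p) y
    have hcl : (χ : G → ℂ) (x ^ (p ^ (Nat.card G).factorization p)) = (χ : G → ℂ) (y ^ (p ^ (Nat.card G).factorization p)) :=
      classFun_eq_of_isConj (IsCharacter.isClassFunction' hχ) (by rw [hxq, hyq]; exact hc.pow _)
    refine ⟨a - b, ?_⟩
    push_cast
    linear_combination ha - hb + hcl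
  · intro h
    have hkey : IsConj (x' ^ (p ^ (Nat.card G).factorization p)) (y' ^ (p ^ (Nat.card G).factorization p)) := by
      refine key' p hp _ _ (hco _ hx.2.2) (hco _ hy.2.2) (fun χ => ?_)
      have hχ := IsIrrCharacter.isCharacter' χ.2
      obtain ⟨c, hc⟩ := h χ
      obtain ⟨a, ha⟩ := frob_char' hχ p hp ((Nat.card G).factorization p) x
      obtain ⟨b, hb⟩ := frob_char' hχ p hp ((Nat.card G).factorization p) y
      refine ⟨c - a + b, ?_⟩
      rw [← hxq, ← hyq]
      push_cast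
      linear_combination hc - ha + hb
    have hK : 0 < orderOf x' * orderOf y' := Nat.mul_pos (orderOf_pos _) (orderOf_pos _)
    have hcq : Nat.Coprime (p ^ (Nat.card G).factorization p) (orderOf x' * orderOf y') := by
      apply Nat.Coprime.pow_left
      rw [Nat.Prime.coprime_iff_not_dvd hp, hp.dvd_mul]
      rintro (h1 | h1)
      · exact hx.2.2 h1
      · exact hy.2.2 h1
    have h1 := pow_back' x' _ _ (Dvd.intro _ rfl) hcq hK
    have h2 := pow_back' y' _ _ (Dvd.intro_left _ rfl) hcq hK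
    have h3 := hkey.pow ((p ^ (Nat.card G).factorization p) ^ (Nat.totient (orderOf x' * orderOf y') - 1))
    rwa [h1, h2] at h3

end Cfsg.Agent.S4604
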