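import Cfsg.Statements.S4611
import Cfsg.Agent.Lib.CharOps
import Cfsg.Agent.Lib.CharIrr
import Cfsg.Agent.Lib.CharLinear
import Cfsg.Agent.Lib.H7Basic
import Cfsg.Agent.Lib.CharBlockKer
import Cfsg.Agent.Lib.CharBlockThird
import Cfsg.Agent.Lib.CharBlockPSolv
import Cfsg.Agent.Lib.UpperP
import Cfsg.Agent.Lib.FitSolv
import Cfsg.Agent.Lib.FitCore
import Cfsg.Agent.Lib.CharInflate

set_option autoImplicit false
set_option linter.all false
open Cfsg

namespace Cfsg.Agent.S4611


open Cfsg.Agent.Lib.CharOps Cfsg.Agent.Lib.CharIrr Cfsg.Agent.Lib.CharLinear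
open scoped ComplexConjugate

universe u

theorem extend_psolv {p : ℕ} {A B : Type*} [Group A] [Group B] (f : A →* B) (hf : Function.Surjective f)
    (hs : IsPSolvable p B) (hk : (∃ m : ℕ, Nat.card f.ker = p ^ m) ∨ (Nat.card f.ker).Coprime p) : IsPSolvable p A := by
  obtain ⟨n, H, h0, hl, hmono, hnorm, hc⟩ := hs
  refine ⟨n + 1, Fin.cons ⊥ (fun i => (H i).comap f), ?_, ?_, ?_, ?_, ?_⟩
  · exact Fin.cons_zero _ _
  · rw [← Fin.succ_last, Fin.cons_succ, hl, Subgroup.comap_top]
  · intro i j hij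
    induction i using Fin.cases with
    | zero =>
      rw [Fin.cons_zero]
      exact bot_le
    | succ i =>
      induction j using Fin.cases with
      | zero => exact absurd hij (by simp)
      | succ j =>
        rw [Fin.cons_succ, Fin.cons_succ]
        exact Subgroup.comap_mono (hmono (Fin.succ_le_succ_iff.1 hij))
  · intro i
    induction i using Fin.cases with
    | zero =>
      rw [Fin.cons_zero]
      infer_instance
    | succ i =>
      rw [Fin.cons_succ]
      haveI := hnorm i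
      exact Subgroup.Normal.comap inferInstance f
  · intro i
    induction i using Fin.cases with
    | zero =>
      have e1 : (Fin.cons (⊥ : Subgroup A) (fun i => (H i).comap f) : Fin (n + 2) → Subgroup A) (Fin.castSucc 0) = ⊥ :=
        Fin.cons_zero _ _
      have e2 : (Fin.cons (⊥ : Subgroup A) (fun i => (H i).comap f) : Fin (n + 2) → Subgroup A) (Fin.succ 0) = f.ker := by
        rw [Fin.cons_succ, h0]
        rfl
      rw [e1, e2, Subgroup.relIndex_bot_left]
      rcases hk with ⟨m, hm⟩ | hm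
      · left; exact ⟨m, hm⟩
      · right; exact hm
    | succ j =>
      have e1 : (Fin.cons (⊥ : Subgroup A) (fun i => (H i).comap f) : Fin (n + 2) → Subgroup A) (Fin.castSucc (Fin.succ j)) =
          (H j.castSucc).comap f := by
        rw [← Fin.succ_castSucc, Fin.cons_succ]
      have e2 : (Fin.cons (⊥ : Subgroup A) (fun i => (H i).comap f) : Fin (n + 2) → Subgroup A) (Fin.succ (Fin.succ j)) =
          (H j.succ).comap f := by
        rw [Fin.cons_succ]
      rw [e1, e2, Subgroup.relIndex_comap, Subgroup.map_comap_eq_self_of_surjective hf]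
      exact hc j

theorem solv_psolv (p : ℕ) [Fact p.Prime] : ∀ (n : ℕ) (G : Type u) [Group G] [Finite G], Nat.card G = n → Group.IsSolvable G → IsPSolvable p G := by
  intro n
  induction n using Nat.strong_induction_on with
  | _ n ih =>
    intro G _ _ hn hs
    by_cases hG : Nontrivial G
    · obtain ⟨q, A, hq, hAn, hA1, hAq, _⟩ := Cfsg.Agent.Lib.H7Basic.exists_normal_pGroup hs
      haveI := hAn
      haveI := Fact.mk hq
      have hlt : Nat.card (G ⧸ A) < n := by
        rw [← hn]
        have h1 := Subgroup.card_mul_index A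
        have h2 : 1 < Nat.card A := (Subgroup.one_lt_card_iff_ne_bot A).2 hA1
        have h3 : 0 < A.index := Nat.pos_of_ne_zero Subgroup.index_ne_zero_of_finite
        have h4 : Nat.card (G ⧸ A) = A.index := rfl
        rw [h4, ← h1]; nlinarith
      have hsq : Group.IsSolvable (G ⧸ A) := inferInstance
      have h5 := ih _ hlt (G ⧸ A) rfl hsq
      refine extend_psolv (QuotientGroup.mk' A) (QuotientGroup.mk'_surjective A) h5 ?_
      rw [QuotientGroup.ker_mk']
      obtain ⟨k, hk⟩ := IsPGroup.iff_card.1 hAq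
      by_cases hqp : q = p
      · left; exact ⟨k, by rw [hk, hqp]⟩
      · right; rw [hk]; exact Nat.Coprime.pow_left _ ((Nat.coprime_primes hq Fact.out).2 hqp)
    · rw [not_nontrivial_iff_subsingleton] at hG
      exact ⟨0, fun _ => ⊥, rfl, Subsingleton.elim _ _, fun _ _ _ => le_rfl, fun _ => inferInstance, fun i => i.elim0⟩

theorem principal_iff {G : Type u} [Group G] [Finite G] {p : ℕ} [Fact p.Prime] {M : Ideal AlgInt} (hM : IsPModular p M)
    (hs : IsPSolvable p G) (χ : IrrCharacter G) :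
    χ ∈ principalBlock M G ↔ ∀ n ∈ pPrimeCore p G, (χ : G → ℂ) n = (χ : G → ℂ) 1 := by
  classical
  cases nonempty_fintype G
  haveI : M.IsPrime := hM.2.1.isPrime
  haveI hNn : (pPrimeCore p G).Normal := Cfsg.Agent.Lib.FitCore.pPrimeCore_normal p
  have hNp : ¬ p ∣ Nat.card (pPrimeCore p G) := Cfsg.Agent.Lib.FitCore.not_dvd_card_pPrimeCore p hM.1
  constructor
  · intro hχ
    exact Cfsg.Agent.Lib.CharBlockKer.ker_of_sameBlock hM _ hNp (Cfsg.Agent.Lib.CharBlockThird.triv G).2 χ.2 hχ (fun _ _ => rfl)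
  · intro hχ
    letI : Fintype (G ⧸ pPrimeCore p G) := Fintype.ofFinite _
    obtain ⟨τ, hτ, hτeq⟩ := Cfsg.Agent.Lib.CharInflate.exists_quotient_irr _ χ.2 hχ
    have hτ' : (τ ∘ QuotientGroup.mk) = (χ : G → ℂ) := funext hτeq
    have hsame : SameBlock M (fun _ : G ⧸ pPrimeCore p G => (1 : ℂ)) τ :=
      Cfsg.Agent.Lib.CharBlockPSolv.sameBlock_of_pSolvable hM (Cfsg.Agent.Lib.UpperP.isPSolvable_quotient hs _)
        (Cfsg.Agent.Lib.FitSolv.pPrimeCore_quotient p) (Cfsg.Agent.Lib.CharBlockThird.triv _) ⟨τ, hτ⟩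
    have h1 := Cfsg.Agent.Lib.CharBlockKer.sameBlock_inflate hM _ hsame
    rw [hτ'] at h1
    exact h1


/-- Let G be a finite solvable group and π a nonempty set of primes, each dividing the order of G; fix for each p in π a maximal ideal M p of the algebraic integers containing p. Then the only irreducible character lying in the principal p-block for every p in π is the principal character if and only if G is generated by the subgroups O_{p'}(G), p in π (the largest normal subgroups of order prime to p). -/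
theorem result {G : Type*} [Group G] [Finite G] [Group.IsSolvable G] (π : Set ℕ) (hπ : ∀ p ∈ π, p.Prime ∧ p ∣ Nat.card G) (hne : π.Nonempty) (M : ℕ → Ideal Cfsg.AlgInt) (hM : ∀ p ∈ π, Cfsg.IsPModular p (M p)) :
    (∀ χ : Cfsg.IrrCharacter G, (∀ p ∈ π, χ ∈ Cfsg.principalBlock (M p) G) → (χ : G → ℂ) = fun _ => 1) ↔
      ⨆ p ∈ π, Cfsg.pPrimeCore p G = ⊤ := by

  classical
  cases nonempty_fintype G
  have hsol : ∀ p ∈ π, IsPSolvable p G := fun p hp => by
    haveI : Fact p.Prime := ⟨(hπ p hp).1⟩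
    exact solv_psolv p _ G rfl inferInstance
  have hnorm : ∀ p ∈ π, (pPrimeCore p G).Normal := fun p hp => by
    haveI : Fact p.Prime := ⟨(hπ p hp).1⟩
    exact Cfsg.Agent.Lib.FitCore.pPrimeCore_normal p
  constructor
  · intro h
    by_contra hne
    have hKn : (⨆ p ∈ π, pPrimeCore p G).Normal := Subgroup.biSup_normal π (fun p => pPrimeCore p G) hnorm
    obtain ⟨K, hKdef⟩ : ∃ K : Subgroup G, K = ⨆ p ∈ π, pPrimeCore p G := ⟨_, rfl⟩
    rw [← hKdef] at hKn hne
    have hKle : ∀ p ∈ π, pPrimeCore p G ≤ K := fun p hp => by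
      rw [hKdef]; exact le_iSup₂_of_le p hp le_rfl
    obtain ⟨g, hg⟩ : ∃ g, g ∉ K := by
      by_contra hall
      push_neg at hall
      exact hne (eq_top_iff.2 (fun g _ => hall g))
    haveI := hKn
    letI : Fintype (G ⧸ K) := Fintype.ofFinite _
    have hx : ((g : G ⧸ K)) ≠ 1 := fun h1 => hg ((QuotientGroup.eq_one_iff g).1 h1)
    obtain ⟨τ, hτ⟩ : ∃ τ : IrrCharacter (G ⧸ K), (τ : G ⧸ K → ℂ) (g : G ⧸ K) ≠ (τ : G ⧸ K → ℂ) 1 := by
      by_contra hall
      push_neg at hall
      have h1 := column_orthogonality ((g : G ⧸ K)) (1 : G ⧸ K)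
      have h2 : ¬ IsConj ((g : G ⧸ K)) (1 : G ⧸ K) := by
        rw [isConj_one_left]; exact hx
      rw [if_neg h2] at h1
      have h3 := column_orthogonality (1 : G ⧸ K) (1 : G ⧸ K)
      rw [if_pos (IsConj.refl _)] at h3
      simp only [hall] at h1
      rw [h1] at h3
      have h4 : (Nat.card (Subgroup.centralizer ({1} : Set (G ⧸ K))) : ℂ) ≠ 0 := by
        exact_mod_cast Nat.card_pos.ne'
      exact h4 h3.symm
    let χ : IrrCharacter G := ⟨fun x : G => (τ : G ⧸ K → ℂ) (x : G ⧸ K), Cfsg.Agent.Lib.CharInflate.isIrr_inflate _ τ.2⟩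
    have hχ : ∀ p ∈ π, χ ∈ principalBlock (M p) G := by
      intro p hp
      haveI : Fact p.Prime := ⟨(hπ p hp).1⟩
      refine (principal_iff (hM p hp) (hsol p hp) χ).2 (fun n hn => ?_)
      have h1 : n ∈ K := hKle p hp hn
      show (τ : G ⧸ K → ℂ) (n : G ⧸ K) = (τ : G ⧸ K → ℂ) ((1 : G) : G ⧸ K)
      rw [(QuotientGroup.eq_one_iff n).2 h1]
      rfl
    have h2 := h χ hχ
    apply hτ
    have h3 : (τ : G ⧸ K → ℂ) (g : G ⧸ K) = 1 := congrFun h2 g
    have h4 : (τ : G ⧸ K → ℂ) ((1 : G) : G ⧸ K) = 1 := congrFun h2 1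
    rw [h3]
    exact h4.symm
  · intro htop χ hχ
    obtain ⟨L, hLn, hL⟩ := Cfsg.Agent.Lib.CharBlockKer.exists_ker_subgroup (IsIrrCharacter.isCharacter' χ.2)
    have h1 : (⨆ p ∈ π, pPrimeCore p G) ≤ L := iSup₂_le (fun p hp n hn => by
      haveI : Fact p.Prime := ⟨(hπ p hp).1⟩
      exact (hL n).2 ((principal_iff (hM p hp) (hsol p hp) χ).1 (hχ p hp) n hn))
    rw [htop] at h1
    have hker : ∀ g, (χ : G → ℂ) g = (χ : G → ℂ) 1 := fun g => (hL g).1 (h1 (Subgroup.mem_top g))
    have h2 : (χ : G → ℂ) 1 = 1 := degree_one_of_comm χ.2 (fun x y => hker _)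
    funext g
    rw [hker g, h2]

end Cfsg.Agent.S4611
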