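import Cfsg.Statements.S4619


set_option autoImplicit false
set_option linter.all false
open scoped Pointwise
open Cfsg

namespace Cfsg.Agent.S4619

/-- Let P be a Sylow p-subgroup of the finite group G that is a trivial-intersection set: P meets each conjugate g P g⁻¹ with g outside N_G(P) trivially. Then for every nontrivial subgroup Q of P the normalizer of Q lies in the normalizer of P, and any g ∈ G conjugating Q into P lies in N_G(P). -/
theorem result {G : Type*} [Group G] [Finite G] (p : ℕ) [Fact p.Prime] (P : Sylow p G) (hTI : (∀ g : G, g ∉ Subgroup.normalizer ((P : Subgroup G) : Set G) → (P : Subgroup G) ⊓ (MulAut.conj g • (P : Subgroup G)) = ⊥)) (Q : Subgroup G) (hQ : Q ≤ (P : Subgroup G)) (hQ1 : Q ≠ ⊥) :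
    Subgroup.normalizer (Q : Set G) ≤ Subgroup.normalizer ((P : Subgroup G) : Set G) ∧
      ∀ g : G, MulAut.conj g • Q ≤ (P : Subgroup G) → g ∈ Subgroup.normalizer ((P : Subgroup G) : Set G) := by
  classical
  have hne : ∀ (g : G) (T : Subgroup G), T ≠ ⊥ → T ≤ (P : Subgroup G) ⊓ (MulAut.conj g • (P : Subgroup G)) → g ∈ Subgroup.normalizer ((P : Subgroup G) : Set G) := by
    intro g T hT hg
    by_contra hgn
    rw [hTI g hgn] at hg
    exact hT (le_bot_iff.mp hg)
  refine ⟨?_, ?_⟩
  · intro g hg
    apply hne g Q hQ1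
    refine le_inf hQ ?_
    intro q hq
    rw [Subgroup.mem_pointwise_smul_iff_inv_smul_mem]
    have h1 : g⁻¹ * q * g ∈ Q := by
      have := (Subgroup.mem_normalizer_iff''.mp hg q).mp hq
      exact this
    apply hQ
    simpa [MulAut.smul_def, MulAut.conj_inv_apply] using h1
  · intro g hg
    apply hne g (MulAut.conj g • Q)
    · intro h
      apply hQ1
      have : Q = (MulAut.conj g)⁻¹ • (MulAut.conj g • Q) := by simp
      rw [this, h]
      simp
    · exact le_inf hg (Subgroup.pointwise_smul_le_pointwise_smul_iff.mpr hQ)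

end Cfsg.Agent.S4619
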