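import Cfsg.Statements.S4620
import Cfsg.Agent.Lib.CharP
import Cfsg.Agent.Lib.SolvCore
import Cfsg.Agent.Lib.FitCore
import Cfsg.Agent.Lib.PComps

set_option autoImplicit false
set_option linter.all false
open scoped Pointwise
open Cfsg

namespace Cfsg.Agent.S4620


open scoped Pointwise


/-- Let H be a finite group with no nontrivial normal p-subgroup and no nontrivial normal subgroup of order prime to p, whose Sylow p-subgroup P is nontrivial and a trivial-intersection set (P meets its conjugates by elements outside N_H(P) trivially). Then H has a unique minimal normal subgroup N; N is non-abelian simple with trivial centralizer in H (so H embeds in Aut(N)), and a Sylow p-subgroup of N is again a nontrivial trivial-intersection set in N. -/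
theorem result {H : Type*} [Group H] [Finite H] (p : ℕ) [Fact p.Prime] (hOp : Cfsg.pCore p H = ⊥) (hOp' : Cfsg.pPrimeCore p H = ⊥) (P : Sylow p H) (hP1 : (P : Subgroup H) ≠ ⊥)
    (hTI : ∀ g : H, g ∉ Subgroup.normalizer ((P : Subgroup H) : Set H) → (P : Subgroup H) ⊓ (MulAut.conj g • (P : Subgroup H)) = ⊥) :
    ∃ N : Subgroup H, N.Normal ∧ N ≠ ⊥ ∧ (∀ K : Subgroup H, K.Normal → K ≠ ⊥ → N ≤ K) ∧
      IsSimpleGroup N ∧ ¬ IsMulCommutative N ∧ Subgroup.centralizer (N : Set H) = ⊥ ∧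
      ∀ Q : Sylow p N, (Q : Subgroup N) ≠ ⊥ ∧
        ∀ n : N, n ∉ Subgroup.normalizer ((Q : Subgroup N) : Set N) → (Q : Subgroup N) ⊓ (MulAut.conj n • (Q : Subgroup N)) = ⊥ := by

  classical
  have hp : p.Prime := Fact.out
  -- trivial intersection for every Sylow subgroup
  have hTI' : ∀ (S : Sylow p H) (g y : H), y ∈ (S : Subgroup H) → g⁻¹ * y * g ∈ (S : Subgroup H) → y ≠ 1 →
      g ∈ Subgroup.normalizer ((S : Subgroup H) : Set H) := by
    intro S g y hy hgy hy1
    obtain ⟨a, ha⟩ := MulAction.exists_smul_eq H P S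
    have hmem : ∀ u : H, u ∈ (S : Subgroup H) ↔ a⁻¹ * u * a ∈ (P : Subgroup H) := by
      intro u
      rw [← ha, Sylow.coe_subgroup_smul, Subgroup.mem_pointwise_smul_iff_inv_smul_mem]
      show (MulAut.conj a)⁻¹ u ∈ (P : Subgroup H) ↔ _
      rw [MulAut.conj_inv_apply]
    by_cases hg' : a⁻¹ * g * a ∈ Subgroup.normalizer ((P : Subgroup H) : Set H)
    · rw [Subgroup.mem_normalizer_iff]
      intro u
      rw [hmem, hmem]
      have e : a⁻¹ * (g * u * g⁻¹) * a = (a⁻¹ * g * a) * (a⁻¹ * u * a) * (a⁻¹ * g * a)⁻¹ := by group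
      rw [e]
      exact (Subgroup.mem_normalizer_iff.1 hg') _
    · exfalso
      have h1 := hTI _ hg'
      have h2 : a⁻¹ * y * a ∈ (P : Subgroup H) ⊓ (MulAut.conj (a⁻¹ * g * a) • (P : Subgroup H)) := by
        refine ⟨(hmem y).1 hy, ?_⟩
        show a⁻¹ * y * a ∈ MulAut.conj (a⁻¹ * g * a) • (P : Subgroup H)
        rw [Subgroup.mem_pointwise_smul_iff_inv_smul_mem]
        show (MulAut.conj (a⁻¹ * g * a))⁻¹ (a⁻¹ * y * a) ∈ (P : Subgroup H)
        rw [MulAut.conj_inv_apply]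
        have e : (a⁻¹ * g * a)⁻¹ * (a⁻¹ * y * a) * (a⁻¹ * g * a) = a⁻¹ * (g⁻¹ * y * g) * a := by group
        rw [e]
        exact (hmem _).1 hgy
      rw [h1, Subgroup.mem_bot] at h2
      apply hy1
      calc y = a * (a⁻¹ * y * a) * a⁻¹ := by group
        _ = 1 := by rw [h2]; group
  -- the key claim
  have hA : ∀ C : Subgroup H, C.IsSubnormal → p ∣ Nat.card C → ∀ x : H, x ≠ 1 → (∃ k : ℕ, orderOf x = p ^ k) →
      (∀ c ∈ C, c * x = x * c) → False := by
    intro C hCs hCp x hx1 ⟨k, hk⟩ hcomm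
    have hzp : IsPGroup p (Subgroup.zpowers x) := by
      apply IsPGroup.of_card (n := k)
      rw [Nat.card_zpowers, hk]
    obtain ⟨S, hS⟩ := hzp.exists_le_sylow
    have hxS : x ∈ (S : Subgroup H) := hS (Subgroup.mem_zpowers x)
    have hCN : C ≤ Subgroup.normalizer ((S : Subgroup H) : Set H) := by
      intro c hc
      apply hTI' S c x hxS _ hx1
      have e : c⁻¹ * x * c = x := by
        have h1 := hcomm c hc
        calc c⁻¹ * x * c = c⁻¹ * (x * c) := by group
          _ = c⁻¹ * (c * x) := by rw [h1]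
          _ = x := by group
      rw [e]
      exact hxS
    obtain ⟨y₀, hy₀⟩ := exists_prime_orderOf_dvd_card' p hCp
    have hy₀' : orderOf (y₀ : H) = p := by rw [← hy₀, Subgroup.orderOf_coe]
    have hy1 : (y₀ : H) ≠ 1 := by
      intro h
      rw [h, orderOf_one] at hy₀'
      exact hp.one_lt.ne hy₀'
    have hyzp : IsPGroup p (Subgroup.zpowers (y₀ : H)) := by
      apply IsPGroup.of_card (n := 1)
      rw [Nat.card_zpowers, hy₀', pow_one]
    have hzN : Subgroup.zpowers (y₀ : H) ≤ Subgroup.normalizer ((S : Subgroup H) : Set H) := by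
      rw [Subgroup.zpowers_le]
      exact hCN y₀.2
    have hsupp := IsPGroup.to_sup_of_normal_right' hyzp S.isPGroup' hzN
    have hmax := S.is_maximal' hsupp le_sup_right
    have hyS : (y₀ : H) ∈ (S : Subgroup H) := by
      have : (y₀ : H) ∈ Subgroup.zpowers (y₀ : H) ⊔ (S : Subgroup H) :=
        Subgroup.mem_sup_left (Subgroup.mem_zpowers _)
      rw [hmax] at this
      exact this
    -- the intersection
    let R : Subgroup H := C ⊓ (S : Subgroup H)
    have hRp : IsPGroup p R := S.isPGroup'.to_le inf_le_right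
    have hRn : (R.subgroupOf C).Normal := by
      constructor
      intro r hr c
      rw [Subgroup.mem_subgroupOf] at hr ⊢
      refine ⟨C.mul_mem (C.mul_mem c.2 hr.1) (C.inv_mem c.2), ?_⟩
      exact (Subgroup.mem_normalizer_iff.1 (hCN c.2) _).1 hr.2
    have hRs : R.IsSubnormal := Subgroup.IsSubnormal.step R C inf_le_left hCs hRn
    have hle := Cfsg.Agent.Lib.CharP.le_pCore_of_subnormal hRs hRp
    rw [hOp] at hle
    have hyR : (y₀ : H) ∈ R := ⟨y₀.2, hyS⟩
    exact hy1 (Subgroup.mem_bot.1 (hle hyR))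
  have hsubn : ∀ K : Subgroup H, K.Normal → K.IsSubnormal := by
    intro K hK
    refine Subgroup.IsSubnormal.step K ⊤ le_top Subgroup.IsSubnormal.top ?_
    exact inferInstance
  have hdiv1 : ∀ K : Subgroup H, K.Normal → K ≠ ⊥ → p ∣ Nat.card K := by
    intro K hK hK0
    by_contra hnd
    exact hK0 (Cfsg.Agent.Lib.SolvCore.eq_bot_of_normal_not_dvd hOp' K hK hnd)
  -- a minimal normal subgroup
  haveI : Nonempty {K : Subgroup H // K.Normal ∧ K ≠ ⊥} := ⟨⟨⊤, inferInstance, by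
    intro h
    apply hP1
    exact le_bot_iff.1 (h ▸ le_top)⟩⟩
  obtain ⟨⟨N, hNn, hN0⟩, hNmin⟩ := Finite.exists_min (fun K : {K : Subgroup H // K.Normal ∧ K ≠ ⊥} => Nat.card K.1)
  haveI := hNn
  have hNmin' : ∀ K : Subgroup H, K.Normal → K ≠ ⊥ → Nat.card N ≤ Nat.card K := fun K h1 h2 => hNmin ⟨K, h1, h2⟩
  have hNp := hdiv1 N hNn hN0
  obtain ⟨x₀', hx₀'⟩ := exists_prime_orderOf_dvd_card' p hNp
  have hx₀ord : orderOf (x₀' : H) = p := by rw [← hx₀', Subgroup.orderOf_coe]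
  set x₀ : H := (x₀' : H) with hx₀def
  have hx₀N : x₀ ∈ N := x₀'.2
  have hx₀1 : x₀ ≠ 1 := by
    intro h
    rw [h, orderOf_one] at hx₀ord
    exact hp.one_lt.ne hx₀ord
  have hx₀e : ∃ k : ℕ, orderOf x₀ = p ^ k := ⟨1, by rw [pow_one]; exact hx₀ord⟩
  -- uniqueness
  have hmin : ∀ K : Subgroup H, K.Normal → K ≠ ⊥ → N ≤ K := by
    intro K hK hK0
    haveI := hK
    by_contra hnot
    have hinf : N ⊓ K = ⊥ := by
      by_contra hne
      have h1 := hNmin' (N ⊓ K) inferInstance hne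
      have h2 : N ⊓ K = N := Subgroup.eq_of_le_of_card_ge inf_le_left h1
      exact hnot (inf_eq_left.1 h2)
    apply hA K (hsubn K hK) (hdiv1 K hK hK0) x₀ hx₀1 hx₀e
    intro c hc
    have h1 : c * x₀ * c⁻¹ * x₀⁻¹ ∈ N ⊓ K := by
      refine ⟨N.mul_mem (hNn.conj_mem x₀ hx₀N c) (N.inv_mem hx₀N), ?_⟩
      have h2 := K.mul_mem hc (hK.conj_mem c⁻¹ (K.inv_mem hc) x₀)
      have e : c * (x₀ * c⁻¹ * x₀⁻¹) = c * x₀ * c⁻¹ * x₀⁻¹ := by group
      rwa [e] at h2
    rw [hinf, Subgroup.mem_bot] at h1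
    calc c * x₀ = (c * x₀ * c⁻¹ * x₀⁻¹) * (x₀ * c) := by group
      _ = x₀ * c := by rw [h1, one_mul]
  -- the centralizer
  have hcent : Subgroup.centralizer (N : Set H) = ⊥ := by
    by_contra hne
    apply hA _ (hsubn _ inferInstance) (hdiv1 _ inferInstance hne) x₀ hx₀1 hx₀e
    intro c hc
    exact ((Subgroup.mem_centralizer_iff.1 hc) x₀ hx₀N).symm
  have hnab : ¬ IsMulCommutative N := by
    intro hab
    have h1 : N ≤ Subgroup.centralizer (N : Set H) := by
      intro n hn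
      rw [Subgroup.mem_centralizer_iff]
      intro m hm
      have := hab.is_comm.comm (⟨m, hm⟩ : N) ⟨n, hn⟩
      exact congrArg Subtype.val this
    rw [hcent] at h1
    exact hN0 (le_bot_iff.1 h1)
  -- normal subgroups of N
  have hcoreN : Cfsg.pPrimeCore p ↥N = ⊥ := by
    haveI : (Cfsg.pPrimeCore p ↥N).Characteristic := Cfsg.Agent.Lib.PComps.pPrimeCore_characteristic
    have h1 : ((Cfsg.pPrimeCore p ↥N).map N.subtype).Normal := Cfsg.Agent.Lib.FitCore.map_subtype_normal_of_char N _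
    have h2 : ¬ p ∣ Nat.card ((Cfsg.pPrimeCore p ↥N).map N.subtype) := by
      rw [Subgroup.card_map_of_injective (K := Cfsg.pPrimeCore p ↥N) (f := N.subtype) (Subgroup.subtype_injective N)]
      exact Cfsg.Agent.Lib.FitCore.not_dvd_card_pPrimeCore p hp
    have h3 := Cfsg.Agent.Lib.SolvCore.eq_bot_of_normal_not_dvd hOp' _ h1 h2
    exact (Subgroup.map_eq_bot_iff_of_injective _ (Subgroup.subtype_injective N)).1 h3
  let Nn : Subgroup H → Prop := fun T => T ≤ N ∧ T ≠ ⊥ ∧ ∀ n ∈ N, ∀ t ∈ T, n * t * n⁻¹ ∈ T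
  have hNnsub : ∀ T, Nn T → (T.subgroupOf N).Normal := by
    rintro T ⟨-, -, h3⟩
    constructor
    intro t ht n
    rw [Subgroup.mem_subgroupOf] at ht ⊢
    exact h3 n n.2 t ht
  have hsubnN : ∀ T, Nn T → T.IsSubnormal := fun T hT =>
    Subgroup.IsSubnormal.step T N hT.1 (hsubn N hNn) (hNnsub T hT)
  have hdiv2 : ∀ T, Nn T → p ∣ Nat.card T := by
    intro T hT
    by_contra hnd
    have hcard : Nat.card (T.subgroupOf N) = Nat.card T :=
      Nat.card_congr (Subgroup.subgroupOfEquivOfLe hT.1).toEquiv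
    have h1 := Cfsg.Agent.Lib.SolvCore.eq_bot_of_normal_not_dvd hcoreN (T.subgroupOf N) (hNnsub T hT)
      (by rw [hcard]; exact hnd)
    apply hT.2.1
    rw [eq_bot_iff]
    intro t ht
    have h2 : (⟨t, hT.1 ht⟩ : N) ∈ T.subgroupOf N := by
      rw [Subgroup.mem_subgroupOf]
      exact ht
    rw [h1, Subgroup.mem_bot] at h2
    exact congrArg Subtype.val h2
  haveI : Nonempty {T : Subgroup H // Nn T} := ⟨⟨N, le_rfl, hN0, fun n hn t ht => N.mul_mem (N.mul_mem hn ht) (N.inv_mem hn)⟩⟩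
  obtain ⟨⟨T₀, hT₀⟩, hT₀min⟩ := Finite.exists_min (fun T : {T : Subgroup H // Nn T} => Nat.card T.1)
  have hT₀min' : ∀ T, Nn T → Nat.card T₀ ≤ Nat.card T := fun T hT => hT₀min ⟨T, hT⟩
  obtain ⟨x₁', hx₁'⟩ := exists_prime_orderOf_dvd_card' p (hdiv2 T₀ hT₀)
  have hx₁ord : orderOf (x₁' : H) = p := by rw [← hx₁', Subgroup.orderOf_coe]
  have hx₁1 : (x₁' : H) ≠ 1 := by
    intro h
    rw [h, orderOf_one] at hx₁ord
    exact hp.one_lt.ne hx₁ord
  have hconjle : ∀ h : H, T₀ ≤ T₀.map (MulAut.conj h).toMonoidHom := by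
    intro h
    set Th := T₀.map (MulAut.conj h).toMonoidHom with hTh
    have hmemTh : ∀ u : H, u ∈ Th ↔ h⁻¹ * u * h ∈ T₀ := by
      intro u
      constructor
      · rintro ⟨t, ht, rfl⟩
        have e : h⁻¹ * ((MulAut.conj h).toMonoidHom t) * h = t := by
          show h⁻¹ * (h * t * h⁻¹) * h = t
          group
        rw [e]
        exact ht
      · intro hu
        refine ⟨_, hu, ?_⟩
        show h * (h⁻¹ * u * h) * h⁻¹ = u
        group
    have hThNn : Nn Th := by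
      refine ⟨?_, ?_, ?_⟩
      · intro u hu
        have h1 := hT₀.1 ((hmemTh u).1 hu)
        have h2 := hNn.conj_mem _ h1 h
        have e : h * (h⁻¹ * u * h) * h⁻¹ = u := by group
        rwa [e] at h2
      · intro hb
        apply hT₀.2.1
        have h1 := (Subgroup.map_eq_bot_iff_of_injective _ (MulAut.conj h).injective).1 hb
        exact h1
      · intro n hn t ht
        rw [hmemTh] at ht ⊢
        have h1 := hT₀.2.2 (h⁻¹ * n * h) (hNn.conj_mem' n hn h |> fun z => by simpa using z) _ ht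
        have e : h⁻¹ * (n * t * n⁻¹) * h = (h⁻¹ * n * h) * (h⁻¹ * t * h) * (h⁻¹ * n * h)⁻¹ := by group
        rw [e]
        exact h1
    by_contra hnot
    have hinf : T₀ ⊓ Th = ⊥ := by
      by_contra hne
      have hN' : Nn (T₀ ⊓ Th) := by
        refine ⟨inf_le_left.trans hT₀.1, hne, ?_⟩
        intro n hn t ht
        exact ⟨hT₀.2.2 n hn t ht.1, hThNn.2.2 n hn t ht.2⟩
      have h1 := hT₀min' _ hN'
      have h2 : T₀ ⊓ Th = T₀ := Subgroup.eq_of_le_of_card_ge inf_le_left h1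
      exact hnot (inf_eq_left.1 h2)
    apply hA Th (hsubnN Th hThNn) (hdiv2 Th hThNn) (x₁' : H) hx₁1 ⟨1, by rw [pow_one]; exact hx₁ord⟩
    intro c hc
    have h1 : c * (x₁' : H) * c⁻¹ * (x₁' : H)⁻¹ ∈ T₀ ⊓ Th := by
      constructor
      · have h2 := hT₀.2.2 c (hThNn.1 hc) _ x₁'.2
        exact T₀.mul_mem h2 (T₀.inv_mem x₁'.2)
      · have h2 := hThNn.2.2 (x₁' : H) (hT₀.1 x₁'.2) c⁻¹ (Th.inv_mem hc)
        have h3 := Th.mul_mem hc h2
        have e : c * ((x₁' : H) * c⁻¹ * (x₁' : H)⁻¹) = c * (x₁' : H) * c⁻¹ * (x₁' : H)⁻¹ := by group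
        rwa [e] at h3
    rw [hinf, Subgroup.mem_bot] at h1
    calc c * (x₁' : H) = (c * (x₁' : H) * c⁻¹ * (x₁' : H)⁻¹) * ((x₁' : H) * c) := by group
      _ = (x₁' : H) * c := by rw [h1, one_mul]
  have hT₀normal : T₀.Normal := by
    constructor
    intro t ht h
    have h1 := hconjle h⁻¹ ht
    obtain ⟨t', ht', e⟩ := h1
    have e' : t = h⁻¹ * t' * h := by
      have : (MulAut.conj h⁻¹).toMonoidHom t' = h⁻¹ * t' * h⁻¹⁻¹ := rfl
      rw [← e, this, inv_inv]
    rw [e']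
    have e2 : h * (h⁻¹ * t' * h) * h⁻¹ = t' := by group
    rw [e2]
    exact ht'
  have hT₀N : T₀ = N := by
    have h1 := hNmin' T₀ hT₀normal hT₀.2.1
    exact Subgroup.eq_of_le_of_card_ge hT₀.1 h1
  have hNnN : ∀ T, Nn T → T = N := by
    intro T hT
    have h1 := hT₀min' T hT
    rw [hT₀N] at h1
    exact Subgroup.eq_of_le_of_card_ge hT.1 h1
  -- simplicity
  have hsimple : IsSimpleGroup N := by
    haveI : Nontrivial N := ⟨⟨1, x₀', fun h => hx₀1 (congrArg Subtype.val h).symm⟩⟩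
    refine ⟨?_⟩
    intro K hK
    by_cases hK0 : K = ⊥
    · exact Or.inl hK0
    right
    have h1 : Nn (K.map N.subtype) := by
      refine ⟨Subgroup.map_subtype_le K, ?_, ?_⟩
      · intro hb
        exact hK0 ((Subgroup.map_eq_bot_iff_of_injective _ (Subgroup.subtype_injective N)).1 hb)
      · rintro n hn _ ⟨k, hk, rfl⟩
        exact ⟨(⟨n, hn⟩ : N) * k * (⟨n, hn⟩ : N)⁻¹, hK.conj_mem k hk _, rfl⟩
    have h2 := hNnN _ h1
    rw [eq_top_iff]
    intro n _
    have h3 : (n : H) ∈ K.map N.subtype := by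
      rw [h2]
      exact n.2
    obtain ⟨k, hk, e⟩ := h3
    have h4 : k = n := Subtype.ext e
    rw [← h4]
    exact hk
  refine ⟨N, hNn, hN0, hmin, hsimple, hnab, hcent, ?_⟩
  intro Q
  refine ⟨Q.ne_bot_of_dvd_card hNp, ?_⟩
  intro n hn
  -- Q comes from a Sylow subgroup of H
  have hQ'p : IsPGroup p ((Q : Subgroup N).map N.subtype) := Q.isPGroup'.map N.subtype
  obtain ⟨S, hS⟩ := hQ'p.exists_le_sylow
  have hQS : ((S : Subgroup H).subgroupOf N) = (Q : Subgroup N) := by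
    apply Q.is_maximal' ((S.isPGroup').comap_of_injective N.subtype (Subgroup.subtype_injective N))
    intro q hq
    show (q : H) ∈ (S : Subgroup H)
    exact hS ⟨q, hq, rfl⟩
  have hmemQ : ∀ w : N, w ∈ (Q : Subgroup N) ↔ (w : H) ∈ (S : Subgroup H) := by
    intro w
    rw [← hQS, Subgroup.mem_subgroupOf]
  rw [eq_bot_iff]
  intro z hz
  rw [Subgroup.mem_bot]
  by_contra hz1
  obtain ⟨hz2', hz3'⟩ := hz
  have hz2 : z ∈ (Q : Subgroup N) := hz2'
  have hz3 : z ∈ MulAut.conj n • (Q : Subgroup N) := hz3'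
  rw [Subgroup.mem_pointwise_smul_iff_inv_smul_mem] at hz3
  have hz4 : n⁻¹ * z * n ∈ (Q : Subgroup N) := by
    have : (MulAut.conj n)⁻¹ z = n⁻¹ * z * n := MulAut.conj_inv_apply n z
    rw [← this]
    exact hz3
  have h1 := hTI' S (n : H) (z : H) ((hmemQ z).1 hz2) (by
      have := (hmemQ _).1 hz4
      simpa using this) (fun h => hz1 (Subtype.ext h))
  apply hn
  rw [Subgroup.mem_normalizer_iff]
  intro w
  show w ∈ (Q : Subgroup N) ↔ n * w * n⁻¹ ∈ (Q : Subgroup N)
  rw [hmemQ, hmemQ]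
  have := (Subgroup.mem_normalizer_iff.1 h1) (w : H)
  simpa using this

end Cfsg.Agent.S4620
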