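import Cfsg.Statements.S4742
import Cfsg.Agent.Lib.CharBlockDefect
import Cfsg.Agent.Lib.CharBlockConv
import Cfsg.Agent.Lib.CharInt
import Cfsg.Agent.Lib.CharIso
import Cfsg.Agent.Lib.CharCentral
import Cfsg.Agent.Lib.CharOps
import Cfsg.Agent.Lib.CharIrr

set_option autoImplicit false
set_option linter.all false
open Cfsg

namespace Cfsg.Agent.S4742


open Cfsg.Agent.Lib.CharOps Cfsg.Agent.Lib.CharIrr Cfsg.Agent.Lib.CharBlockDefect Cfsg.Agent.Lib.CharCentral
open scoped ComplexConjugate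


/-- Let p ≠ q be primes dividing the order of the finite group G, and suppose the centralizer of every non-identity p-element of G has order prime to q. Then either G has an irreducible character of p-defect zero, or for every non-identity q-element z of G there are conjugates g, h of z such that g h⁻¹ is a non-identity p-element. -/
theorem result {G : Type*} [Group G] [Finite G] (p q : ℕ) [Fact p.Prime] [Fact q.Prime] (hppq : p ≠ q) (hpG : p ∣ Nat.card G) (hqG : q ∣ Nat.card G) (hC : ∀ g : G, g ≠ 1 → (∃ k : ℕ, orderOf g = p ^ k) → ¬ q ∣ Nat.card ↥(Subgroup.centralizer ({g} : Set G))) : (∃ χ : Cfsg.IrrCharacter G, (Cfsg.charDegree (χ : G → ℂ)).factorization p = (Nat.card G).factorization p) ∨ ∀ z : G, z ≠ 1 → (∃ k : ℕ, orderOf z = q ^ k) → ∃ g h : G, IsConj z g ∧ IsConj z h ∧ g * h⁻¹ ≠ 1 ∧ ∃ k : ℕ, orderOf (g * h⁻¹) = p ^ k := by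

  classical
  cases nonempty_fintype G
  have hp : p.Prime := Fact.out
  have hq : q.Prime := Fact.out
  by_contra hcon
  push_neg at hcon
  obtain ⟨hno, z, hz1, hzq, hzz⟩ := hcon
  obtain ⟨P⟩ : Nonempty (Sylow p G) := inferInstance
  letI : Fintype (P : Subgroup G) := Fintype.ofFinite _
  have hGpos : Nat.card G ≠ 0 := Nat.card_pos.ne'
  have hGne : (Nat.card G : ℂ) ≠ 0 := by exact_mod_cast hGpos
  set c := (Nat.card G).factorization p with hc
  have hP : Nat.card (P : Subgroup G) = p ^ c := P.card_eq_multiplicity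
  have hc1 : 1 ≤ c := by
    have := (hp.pow_dvd_iff_le_factorization hGpos).1 (by rw [pow_one]; exact hpG : p ^ 1 ∣ Nat.card G)
    exact this
  -- p does not divide the order of the centralizer of z
  have hsnd : ¬ p ∣ Nat.card (Subgroup.centralizer ({z} : Set G)) := by
    intro hdvd
    obtain ⟨y, hy⟩ := exists_prime_orderOf_dvd_card' p hdvd
    have hy' : orderOf (y : G) = p := by rw [← hy, Subgroup.orderOf_coe]
    have hy1 : (y : G) ≠ 1 := by
      intro h
      rw [h, orderOf_one] at hy'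
      exact hp.one_lt.ne hy'
    apply hC (y : G) hy1 ⟨1, by rw [pow_one]; exact hy'⟩
    have hyz : (y : G) * z = z * (y : G) := Subgroup.mem_centralizer_singleton_iff.1 y.2
    have hzmem : z ∈ Subgroup.centralizer ({(y : G)} : Set G) :=
      Subgroup.mem_centralizer_singleton_iff.2 hyz.symm
    obtain ⟨k, hk⟩ := hzq
    have hk0 : k ≠ 0 := by
      intro h
      rw [h, pow_zero] at hk
      exact hz1 (orderOf_eq_one_iff.1 hk)
    have h1 : orderOf (⟨z, hzmem⟩ : Subgroup.centralizer ({(y : G)} : Set G)) = q ^ k := by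
      rw [Subgroup.orderOf_mk, hk]
    have h2 := orderOf_dvd_natCard (⟨z, hzmem⟩ : Subgroup.centralizer ({(y : G)} : Set G))
    rw [h1] at h2
    exact (dvd_pow_self q hk0).trans h2
  let g' : ℕ := ordCompl[p] (Nat.card G)
  have hg'nd : ¬ p ∣ g' := Nat.not_dvd_ordCompl hp hGpos
  have hG' : p ^ c * g' = Nat.card G := Nat.ordProj_mul_ordCompl_eq_self _ _
  let N : ℕ := g' * p ^ (c - 1)
  have hdN : ∀ χ : IrrCharacter G, charDegree (χ : G → ℂ) ∣ N := by
    intro χ
    have hd0 := charDegree_ne_zero χ.2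
    have hdG := charDegree_dvd_card χ.2
    have hle : (charDegree (χ : G → ℂ)).factorization p ≤ c :=
      (Nat.factorization_le_iff_dvd hd0 hGpos).2 hdG p
    have hne := hno χ
    set d := charDegree (χ : G → ℂ) with hd
    have h1 : p ^ d.factorization p * ordCompl[p] d = d := Nat.ordProj_mul_ordCompl_eq_self _ _
    have h2 : d.factorization p ≤ c - 1 := by omega
    have h3 : ordCompl[p] d ∣ g' := by
      have h4 : ordCompl[p] d ∣ p ^ c * g' := by
        rw [hG']
        exact (Nat.ordCompl_dvd d p).trans hdG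
      have h5 : (ordCompl[p] d).Coprime (p ^ c) := by
        apply Nat.Coprime.pow_right
        exact ((Nat.Prime.coprime_iff_not_dvd hp).2 (Nat.not_dvd_ordCompl hp hd0)).symm
      exact h5.dvd_of_dvd_mul_left h4
    rw [← h1, mul_comm]
    exact Nat.mul_dvd_mul h3 (pow_dvd_pow p h2)
  let n : IrrCharacter G → ℕ := fun χ => N / charDegree (χ : G → ℂ)
  have hn : ∀ χ : IrrCharacter G, (n χ : ℂ) * (χ : G → ℂ) 1 = N := by
    intro χ
    rw [← charDegree_cast (IsIrrCharacter.isCharacter' χ.2)]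
    have := Nat.div_mul_cancel (hdN χ)
    exact_mod_cast this
  have hm : ∀ χ : IrrCharacter G, ∃ m : ℕ, ∑ y : (P : Subgroup G), conj ((χ : G → ℂ) y) = (Nat.card (P : Subgroup G) : ℂ) * m := by
    intro χ
    obtain ⟨m, hm⟩ := exists_nat_classInner (IsIrrCharacter.isCharacter' (Cfsg.Agent.Lib.CharIso.isIrr_one (G := (P : Subgroup G))))
      (isCharacter_restrict (P : Subgroup G) (IsIrrCharacter.isCharacter' χ.2))
    refine ⟨m, ?_⟩
    rw [← hm, classInner]
    have hPne : (Nat.card (P : Subgroup G) : ℂ) ≠ 0 := by exact_mod_cast Nat.card_pos.ne'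
    simp only [one_mul]
    rw [← mul_assoc, mul_inv_cancel₀ hPne, one_mul]
  choose m hm using hm
  have hkey : ∀ y : G, (Nat.card G : ℂ) * ∑ χ : IrrCharacter G, (n χ : ℂ) * ((χ : G → ℂ) z * (χ : G → ℂ) z⁻¹) * conj ((χ : G → ℂ) y) =
      (N : ℂ) * ∑ x : G, (if IsConj (x * z * x⁻¹ * z⁻¹) y then (Nat.card (Subgroup.centralizer ({y} : Set G)) : ℂ) else 0) := by
    intro y
    have h1 : ∀ χ : IrrCharacter G, (Nat.card G : ℂ) * ((n χ : ℂ) * ((χ : G → ℂ) z * (χ : G → ℂ) z⁻¹) * conj ((χ : G → ℂ) y)) =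
        (N : ℂ) * ∑ x : G, (χ : G → ℂ) (x * z * x⁻¹ * z⁻¹) * conj ((χ : G → ℂ) y) := by
      intro χ
      have h2 := sum_conj_mul_irr χ.2 z z⁻¹
      rw [← Finset.sum_mul, ← hn χ]
      linear_combination (-(n χ : ℂ) * conj ((χ : G → ℂ) y)) * h2
    rw [Finset.mul_sum, Finset.sum_congr rfl (fun χ _ => h1 χ), ← Finset.mul_sum, Finset.sum_comm]
    congr 1
    apply Finset.sum_congr rfl
    intro x _
    rw [column_orthogonality]
  have hzero : ∀ y ∈ (P : Subgroup G), y ≠ 1 → ∀ x : G, ¬ IsConj (x * z * x⁻¹ * z⁻¹) y := by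
    intro y hy hy1 x hconj
    obtain ⟨w, hw⟩ := isConj_iff.1 hconj
    have e : (w * x) * z * (w * x)⁻¹ * (w * z * w⁻¹)⁻¹ = y := by
      rw [← hw]; group
    obtain ⟨k, hk⟩ := IsPGroup.iff_orderOf.1 P.isPGroup' ⟨y, hy⟩
    rw [Subgroup.orderOf_mk] at hk
    apply hzz ((w * x) * z * (w * x)⁻¹) (w * z * w⁻¹)
    · rw [isConj_iff]; exact ⟨w * x, rfl⟩
    · rw [isConj_iff]; exact ⟨w, rfl⟩
    · rw [e]; exact hy1
    · rw [e]; exact hk
  have hz0 : ∀ y ∈ (P : Subgroup G), y ≠ 1 → ∑ χ : IrrCharacter G, (n χ : ℂ) * ((χ : G → ℂ) z * (χ : G → ℂ) z⁻¹) * conj ((χ : G → ℂ) y) = 0 := by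
    intro y hy hy1
    have h1 := hkey y
    have h2 : ∑ x : G, (if IsConj (x * z * x⁻¹ * z⁻¹) y then (Nat.card (Subgroup.centralizer ({y} : Set G)) : ℂ) else 0) = 0 := by
      apply Finset.sum_eq_zero
      intro x _
      rw [if_neg (hzero y hy hy1 x)]
    rw [h2, mul_zero] at h1
    exact (mul_eq_zero.1 h1).resolve_left hGne
  have hiff : ∀ x : G, IsConj (x * z * x⁻¹ * z⁻¹) 1 ↔ x ∈ Subgroup.centralizer ({z} : Set G) := by
    intro x
    rw [Subgroup.mem_centralizer_singleton_iff, isConj_one_left]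
    constructor
    · intro h
      have h1 : x * z * x⁻¹ = z := by
        have h2 : x * z * x⁻¹ * z⁻¹ * z = z := by rw [h, one_mul]
        simpa using h2
      calc x * z = x * z * x⁻¹ * x := by group
        _ = z * x := by rw [h1]
    · intro h
      rw [h]
      group
  have hz1' : ∑ χ : IrrCharacter G, (n χ : ℂ) * ((χ : G → ℂ) z * (χ : G → ℂ) z⁻¹) * conj ((χ : G → ℂ) 1) =
      (N : ℂ) * (Nat.card (Subgroup.centralizer ({z} : Set G)) : ℂ) := by
    have h1 := hkey 1
    have h2 : Subgroup.centralizer ({1} : Set G) = ⊤ := by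
      ext g
      simp [Subgroup.mem_centralizer_singleton_iff]
    have h3 : ∑ x : G, (if IsConj (x * z * x⁻¹ * z⁻¹) 1 then (Nat.card (Subgroup.centralizer ({1} : Set G)) : ℂ) else 0) =
        (Nat.card (Subgroup.centralizer ({z} : Set G)) : ℂ) * (Nat.card G : ℂ) := by
      rw [h2, Subgroup.card_top]
      simp only [hiff]
      rw [Finset.sum_ite, Finset.sum_const_zero, add_zero, Finset.sum_const, nsmul_eq_mul]
      congr 1
      have h4 : Nat.card (Subgroup.centralizer ({z} : Set G)) =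
          (Finset.univ.filter (fun y : G => y ∈ Subgroup.centralizer ({z} : Set G))).card := by
        rw [Nat.card_eq_fintype_card, ← Fintype.card_subtype]
      rw [h4]
    rw [h3] at h1
    have h5 : (Nat.card G : ℂ) * ∑ χ : IrrCharacter G, (n χ : ℂ) * ((χ : G → ℂ) z * (χ : G → ℂ) z⁻¹) * conj ((χ : G → ℂ) 1) =
        (Nat.card G : ℂ) * ((N : ℂ) * (Nat.card (Subgroup.centralizer ({z} : Set G)) : ℂ)) := by
      rw [h1]; ring
    exact mul_left_cancel₀ hGne h5
  have hsum : ∑ y : (P : Subgroup G), ∑ χ : IrrCharacter G, (n χ : ℂ) * ((χ : G → ℂ) z * (χ : G → ℂ) z⁻¹) * conj ((χ : G → ℂ) (y : G)) =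
      (N : ℂ) * (Nat.card (Subgroup.centralizer ({z} : Set G)) : ℂ) := by
    rw [Finset.sum_eq_single (1 : (P : Subgroup G))]
    · exact hz1'
    · intro y _ hy
      exact hz0 y y.2 (fun h => hy (Subtype.ext h))
    · intro h
      exact absurd (Finset.mem_univ _) h
  let A : ℂ := ∑ χ : IrrCharacter G, (n χ : ℂ) * ((χ : G → ℂ) z * (χ : G → ℂ) z⁻¹) * (m χ : ℂ)
  have hA : (Nat.card (P : Subgroup G) : ℂ) * A = (N : ℂ) * (Nat.card (Subgroup.centralizer ({z} : Set G)) : ℂ) := by
    rw [← hsum, Finset.sum_comm, Finset.mul_sum]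
    apply Finset.sum_congr rfl
    intro χ _
    rw [← Finset.mul_sum, hm χ]
    ring
  have hAint : IsIntegral ℤ A := by
    apply IsIntegral.sum
    intro χ _
    have hx1 := Cfsg.Agent.Lib.CharBlockConv.isIntegral_character_apply (IsIrrCharacter.isCharacter' χ.2) z
    have hx2 := Cfsg.Agent.Lib.CharBlockConv.isIntegral_character_apply (IsIrrCharacter.isCharacter' χ.2) z⁻¹
    have hnat : ∀ k : ℕ, IsIntegral ℤ (k : ℂ) := fun k => isIntegral_natCast k
    exact ((hnat _).mul (hx1.mul hx2)).mul (hnat _)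
  have hPne : (Nat.card (P : Subgroup G) : ℂ) ≠ 0 := by exact_mod_cast Nat.card_pos.ne'
  have hdiv : IsIntegral ℤ (((N * Nat.card (Subgroup.centralizer ({z} : Set G)) : ℕ) : ℂ) / ((Nat.card (P : Subgroup G) : ℕ) : ℂ)) := by
    have h1 : (((N * Nat.card (Subgroup.centralizer ({z} : Set G)) : ℕ) : ℂ) / ((Nat.card (P : Subgroup G) : ℕ) : ℂ)) = A := by
      push_cast
      rw [← hA]
      field_simp
    rw [h1]
    exact hAint
  have hdvd := Cfsg.Agent.Lib.CharInt.dvd_of_isIntegral_div (Nat.card_pos.ne') hdiv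
  rw [hP] at hdvd
  set s := Nat.card (Subgroup.centralizer ({z} : Set G)) with hs
  have hc2 : c = (c - 1) + 1 := by omega
  have h9 : p ^ (c - 1) * p ∣ p ^ (c - 1) * (g' * s) := by
    have e1 : p ^ (c - 1) * p = p ^ c := by
      rw [← pow_succ, ← hc2]
    have e2 : p ^ (c - 1) * (g' * s) = N * s := by
      simp only [N]
      ring
    rw [e1, e2]
    exact hdvd
  have h10 : p ∣ g' * s := Nat.dvd_of_mul_dvd_mul_left (pow_pos hp.pos _) h9
  rcases hp.dvd_mul.1 h10 with h | h
  · exact hg'nd h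
  · exact hsnd h

end Cfsg.Agent.S4742
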