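import Cfsg.Statements.S4743
import Cfsg.Agent.S4742
import Cfsg.Agent.Lib.FitCore
import Cfsg.Agent.Lib.UpperP
import Cfsg.Agent.Lib.FitSolv
import Cfsg.Agent.Lib.CharBlockPSolv

set_option autoImplicit false
set_option linter.all false
open Cfsg

namespace Cfsg.Agent.S4743


open Cfsg.Agent.Lib.CharOps Cfsg.Agent.Lib.CharIrr

/-- The symmetric form of the hypothesis. -/
theorem hC_symm {G : Type*} [Group G] [Finite G] (p q : ℕ) [Fact p.Prime] [Fact q.Prime]
    (hC : ∀ g : G, g ≠ 1 → (∃ k : ℕ, orderOf g = p ^ k) → ¬ q ∣ Nat.card ↥(Subgroup.centralizer ({g} : Set G))) :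
    ∀ g : G, g ≠ 1 → (∃ k : ℕ, orderOf g = q ^ k) → ¬ p ∣ Nat.card ↥(Subgroup.centralizer ({g} : Set G)) := by
  have hp : p.Prime := Fact.out
  intro z hz1 hzq hdvd
  obtain ⟨y, hy⟩ := exists_prime_orderOf_dvd_card' p hdvd
  have hy' : orderOf (y : G) = p := by rw [← hy, Subgroup.orderOf_coe]
  have hy1 : (y : G) ≠ 1 := by
    intro h
    rw [h, orderOf_one] at hy'
    exact hp.one_lt.ne hy'
  apply hC (y : G) hy1 ⟨1, by rw [pow_one]; exact hy'⟩
  have hyz : (y : G) * z = z * (y : G) := Subgroup.mem_centralizer_singleton_iff.1 y.2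
  have hzmem : z ∈ Subgroup.centralizer ({(y : G)} : Set G) :=
    Subgroup.mem_centralizer_singleton_iff.2 hyz.symm
  obtain ⟨k, hk⟩ := hzq
  have hk0 : k ≠ 0 := by
    intro h
    rw [h, pow_zero] at hk
    exact hz1 (orderOf_eq_one_iff.1 hk)
  have h1 : orderOf (⟨z, hzmem⟩ : Subgroup.centralizer ({(y : G)} : Set G)) = q ^ k := by
    rw [Subgroup.orderOf_mk, hk]
  have h2 := orderOf_dvd_natCard (⟨z, hzmem⟩ : Subgroup.centralizer ({(y : G)} : Set G))
  rw [h1] at h2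
  exact (dvd_pow_self q hk0).trans h2

/-- The core of the argument, for a `p`-soluble group. -/
theorem core {G : Type*} [Group G] [Finite G] (p q : ℕ) [Fact p.Prime] [Fact q.Prime] (hpq : p ≠ q)
    (hpG : p ∣ Nat.card G) (hsolv : Cfsg.IsPSolvable p G)
    (ha : ∀ z : G, z ≠ 1 → (∃ k : ℕ, orderOf z = q ^ k) → ∃ g h : G, IsConj z g ∧ IsConj z h ∧ g * h⁻¹ ≠ 1 ∧ ∃ k : ℕ, orderOf (g * h⁻¹) = p ^ k)
    (hb : ∀ z : G, z ≠ 1 → (∃ k : ℕ, orderOf z = p ^ k) → ∃ g h : G, IsConj z g ∧ IsConj z h ∧ g * h⁻¹ ≠ 1 ∧ ∃ k : ℕ, orderOf (g * h⁻¹) = q ^ k) :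
    False := by
  classical
  have hp : p.Prime := Fact.out
  have hq : q.Prime := Fact.out
  haveI hMn := Cfsg.Agent.Lib.FitCore.pPrimeCore_normal (G := G) p
  set M := Cfsg.pPrimeCore p G with hM
  have hMp : ¬ p ∣ Nat.card M := Cfsg.Agent.Lib.FitCore.not_dvd_card_pPrimeCore p hp
  -- q does not divide the order of M
  have hMq : ¬ q ∣ Nat.card M := by
    intro hdvd
    obtain ⟨y, hy⟩ := exists_prime_orderOf_dvd_card' q hdvd
    have hy' : orderOf (y : G) = q := by rw [← hy, Subgroup.orderOf_coe]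
    have hy1 : (y : G) ≠ 1 := by
      intro h
      rw [h, orderOf_one] at hy'
      exact hq.one_lt.ne hy'
    obtain ⟨g, h, hg, hh, hne, k, hk⟩ := ha (y : G) hy1 ⟨1, by rw [pow_one]; exact hy'⟩
    have hgM : g ∈ M := by
      obtain ⟨c, hc⟩ := isConj_iff.1 hg
      rw [← hc]
      exact hMn.conj_mem _ y.2 c
    have hhM : h ∈ M := by
      obtain ⟨c, hc⟩ := isConj_iff.1 hh
      rw [← hc]
      exact hMn.conj_mem _ y.2 c
    have hw : g * h⁻¹ ∈ M := mul_mem hgM (inv_mem hhM)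
    have hk0 : k ≠ 0 := by
      intro h0
      rw [h0, pow_zero] at hk
      exact hne (orderOf_eq_one_iff.1 hk)
    have h2 := orderOf_dvd_natCard (⟨g * h⁻¹, hw⟩ : M)
    rw [Subgroup.orderOf_mk, hk] at h2
    exact hMp ((dvd_pow_self p hk0).trans h2)
  -- the quotient
  have hs' : Cfsg.IsPSolvable p (G ⧸ M) := Cfsg.Agent.Lib.UpperP.isPSolvable_quotient hsolv M
  have hbot : Cfsg.pPrimeCore p (G ⧸ M) = ⊥ := Cfsg.Agent.Lib.FitSolv.pPrimeCore_quotient p
  have hcent := Cfsg.Agent.Lib.CharBlockPSolv.centralizer_pCore_le_of_pSolvable hs' hbot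
  have hLn := Cfsg.Agent.Lib.FitCore.pCore_normal (G := G ⧸ M) p
  have hLp : IsPGroup p (Cfsg.pCore p (G ⧸ M)) := Cfsg.Agent.Lib.FitCore.pCore_isPGroup p
  -- the core is nontrivial
  have hLne : Cfsg.pCore p (G ⧸ M) ≠ ⊥ := by
    intro hL
    rw [hL] at hcent
    have htop : Subgroup.centralizer ((⊥ : Subgroup (G ⧸ M)) : Set (G ⧸ M)) = ⊤ := by
      simp
    rw [htop] at hcent
    have h1 : (⊤ : Subgroup (G ⧸ M)) = ⊥ := le_bot_iff.1 hcent
    have h2 : Nat.card (G ⧸ M) = 1 := by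
      have := Subgroup.card_top (G := G ⧸ M)
      rw [h1, Subgroup.card_bot] at this
      exact this.symm
    have h3 : M.index = 1 := by rw [Subgroup.index_eq_card]; exact h2
    have h4 := Subgroup.card_mul_index M
    rw [h3, mul_one] at h4
    rw [← h4] at hpG
    exact hMp hpG
  obtain ⟨b, hb1, hb2⟩ := (Subgroup.bot_or_exists_ne_one (Cfsg.pCore p (G ⧸ M))).resolve_left hLne
  -- lift to a p-element
  obtain ⟨P⟩ : Nonempty (Sylow p G) := inferInstance
  have hP1 : IsPGroup p ((P : Subgroup G).map (QuotientGroup.mk' M)) := P.isPGroup'.map _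
  have hP2 : ¬ p ∣ ((P : Subgroup G).map (QuotientGroup.mk' M)).index := fun h =>
    P.not_dvd_index (h.trans (Subgroup.index_map_dvd _ (QuotientGroup.mk'_surjective _)))
  have hb3 : b ∈ ((P : Subgroup G).map (QuotientGroup.mk' M)) :=
    Cfsg.Agent.Lib.FitCore.pCore_le_sylow p (hP1.toSylow hP2) hb1
  obtain ⟨y, hyP, rfl⟩ := hb3
  have hy1 : y ≠ 1 := by
    intro h
    apply hb2
    rw [h]
    exact map_one _
  obtain ⟨k, hk⟩ := IsPGroup.iff_orderOf.1 P.isPGroup' ⟨y, hyP⟩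
  rw [Subgroup.orderOf_mk] at hk
  obtain ⟨g, h, hg, hh, hne, l, hl⟩ := hb y hy1 ⟨k, hk⟩
  have hgL : QuotientGroup.mk' M g ∈ Cfsg.pCore p (G ⧸ M) := by
    obtain ⟨c, hc⟩ := isConj_iff.1 hg
    rw [← hc, map_mul, map_mul, map_inv]
    exact hLn.conj_mem _ hb1 _
  have hhL : QuotientGroup.mk' M h ∈ Cfsg.pCore p (G ⧸ M) := by
    obtain ⟨c, hc⟩ := isConj_iff.1 hh
    rw [← hc, map_mul, map_mul, map_inv]
    exact hLn.conj_mem _ hb1 _
  have hwL : QuotientGroup.mk' M (g * h⁻¹) ∈ Cfsg.pCore p (G ⧸ M) := by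
    rw [map_mul, map_inv]
    exact mul_mem hgL (inv_mem hhL)
  -- its image has both a p-power and a q-power order
  have h0 : QuotientGroup.mk' M (g * h⁻¹) = 1 := by
    obtain ⟨j, hj⟩ := (IsPGroup.iff_orderOf.1 hLp) ⟨_, hwL⟩
    rw [Subgroup.orderOf_mk] at hj
    have h5 : orderOf (QuotientGroup.mk' M (g * h⁻¹)) ∣ q ^ l := by
      rw [← hl]
      exact orderOf_map_dvd _ _
    rw [hj] at h5
    have h6 : j = 0 := by
      by_contra h7
      have h8 : p ∣ q ^ l := (dvd_pow_self p h7).trans h5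
      have h9 := (Nat.prime_dvd_prime_iff_eq hp hq).1 (hp.dvd_of_dvd_pow h8)
      exact hpq h9
    rw [h6, pow_zero] at hj
    exact orderOf_eq_one_iff.1 hj
  have hwM : g * h⁻¹ ∈ M := by
    have : ((g * h⁻¹ : G) : G ⧸ M) = 1 := h0
    exact (QuotientGroup.eq_one_iff _).1 this
  have hl0 : l ≠ 0 := by
    intro h0'
    rw [h0', pow_zero] at hl
    exact hne (orderOf_eq_one_iff.1 hl)
  have h2 := orderOf_dvd_natCard (⟨g * h⁻¹, hwM⟩ : M)
  rw [Subgroup.orderOf_mk, hl] at h2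
  exact hMq ((dvd_pow_self q hl0).trans h2)


/-- Let p ≠ q be primes dividing the order of the finite group G, suppose the centralizer of every non-identity p-element has order prime to q, and suppose G is p-solvable or q-solvable. Then G has an irreducible character of p-defect zero or an irreducible character of q-defect zero. -/
theorem result {G : Type*} [Group G] [Finite G] (p q : ℕ) [Fact p.Prime] [Fact q.Prime] (hppq : p ≠ q) (hpG : p ∣ Nat.card G) (hqG : q ∣ Nat.card G) (hC : ∀ g : G, g ≠ 1 → (∃ k : ℕ, orderOf g = p ^ k) → ¬ q ∣ Nat.card ↥(Subgroup.centralizer ({g} : Set G))) (hsolv : Cfsg.IsPSolvable p G ∨ Cfsg.IsPSolvable q G) : (∃ χ : Cfsg.IrrCharacter G, (Cfsg.charDegree (χ : G → ℂ)).factorization p = (Nat.card G).factorization p) ∨ (∃ χ : Cfsg.IrrCharacter G, (Cfsg.charDegree (χ : G → ℂ)).factorization q = (Nat.card G).factorization q) := by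

  classical
  by_contra hcon
  push_neg at hcon
  obtain ⟨hno1, hno2⟩ := hcon
  have ha := (Cfsg.Agent.S4742.result p q hppq hpG hqG hC).resolve_left (by
    rintro ⟨χ, hχ⟩
    exact hno1 χ hχ)
  have hb := (Cfsg.Agent.S4742.result q p hppq.symm hqG hpG (hC_symm p q hC)).resolve_left (by
    rintro ⟨χ, hχ⟩
    exact hno2 χ hχ)
  rcases hsolv with hs | hs
  · exact core p q hppq hpG hs ha hb
  · exact core q p hppq.symm hqG hs hb ha

end Cfsg.Agent.S4743
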