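import Cfsg.Statements.S4744
import Cfsg.Agent.S4742

set_option autoImplicit false
set_option linter.all false
open Cfsg

namespace Cfsg.Agent.S4744


open scoped Pointwise

/-- The predicate on the subgroups we maximise over. -/
def Pr {G : Type*} [Group G] (p : ℕ) (R : Subgroup G) : Prop :=
  R ≠ ⊥ ∧ IsPGroup p R ∧ ∃ g : G, orderOf g = 2 ∧ ∀ r ∈ R, g * r * g⁻¹ ∈ R

section
variable {G : Type*} [Group G] [Finite G] (p : ℕ) [Fact p.Prime] (hp2 : p ≠ 2)
  (hC : ∀ g : G, g ≠ 1 → (∃ k : ℕ, orderOf g = p ^ k) → Odd (Nat.card ↥(Subgroup.centralizer ({g} : Set G))))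

include hC in
theorem not_commute {r g : G} (hr : r ≠ 1) (hrp : ∃ k : ℕ, orderOf r = p ^ k) (hg : orderOf g = 2)
    (hc : g * r = r * g) : False := by
  have h1 := hC r hr hrp
  have hmem : g ∈ Subgroup.centralizer ({r} : Set G) := Subgroup.mem_centralizer_singleton_iff.2 hc
  have h2 := orderOf_dvd_natCard (⟨g, hmem⟩ : Subgroup.centralizer ({r} : Set G))
  rw [Subgroup.orderOf_mk, hg] at h2
  rw [← Nat.not_even_iff_odd] at h1
  exact h1 (even_iff_two_dvd.2 h2)

include hC in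
theorem inverts {R : Subgroup G} (hRp : IsPGroup p R) {g : G} (hg : orderOf g = 2)
    (hgR : ∀ r ∈ R, g * r * g⁻¹ ∈ R) : ∀ r ∈ R, g * r * g⁻¹ = r⁻¹ := by
  have hgg : g * g = 1 := by
    rw [← pow_two, ← hg]
    exact pow_orderOf_eq_one g
  have hginv : g⁻¹ = g := inv_eq_of_mul_eq_one_left hgg
  let φ : R →* R :=
    { toFun := fun r => ⟨g * r * g⁻¹, hgR r r.2⟩
      map_one' := Subtype.ext (by simp)
      map_mul' := fun a b => Subtype.ext (by simp only [Subgroup.coe_mul]; group) }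
  have hfix : MonoidHom.FixedPointFree φ := by
    intro r hr
    by_contra hr1
    have hr1' : (r : G) ≠ 1 := fun h => hr1 (Subtype.ext h)
    have h1 : g * (r : G) * g⁻¹ = r := congrArg Subtype.val hr
    have h2 : g * (r : G) = r * g := by
      calc g * (r : G) = g * (r : G) * g⁻¹ * g := by group
        _ = r * g := by rw [h1]
    obtain ⟨k, hk⟩ := IsPGroup.iff_orderOf.1 hRp r
    exact not_commute p hC hr1' ⟨k, by rw [Subgroup.orderOf_coe]; exact hk⟩ hg h2
  have hinvol : Function.Involutive φ := by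
    intro r
    apply Subtype.ext
    show g * (g * (r : G) * g⁻¹) * g⁻¹ = r
    rw [hginv]
    calc g * (g * (r : G) * g) * g = (g * g) * r * (g * g) := by group
      _ = r := by rw [hgg]; group
  have h3 := MonoidHom.FixedPointFree.coe_eq_inv_of_involutive hfix hinvol
  intro r hr
  have h4 := congrFun h3 ⟨r, hr⟩
  exact congrArg Subtype.val h4

include hC hp2 in
/-- The growth step. -/
theorem growth {R T : Subgroup G} (hR0 : R ≠ ⊥) (hRp : IsPGroup p R) {g : G} (hg : orderOf g = 2)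
    (hgR : ∀ r ∈ R, g * r * g⁻¹ ∈ R) (hTp : IsPGroup p T)
    (hT : ∀ t ∈ T, ∀ r ∈ R, t * r * t⁻¹ ∈ R) (hT0 : T ≠ ⊥) :
    ∃ S : Subgroup G, Pr p S ∧ Nat.card T ≤ Nat.card S := by
  classical
  have hgg : g * g = 1 := by
    rw [← pow_two, ← hg]
    exact pow_orderOf_eq_one g
  have hginv : g⁻¹ = g := inv_eq_of_mul_eq_one_left hgg
  have hinv := inverts p hC hRp hg hgR
  have hT' : ∀ t ∈ T, ∀ r ∈ R, t⁻¹ * r * t ∈ R := by
    intro t ht r hr
    have := hT t⁻¹ (T.inv_mem ht) r hr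
    simpa using this
  let X : Subgroup G :=
    { carrier := {x | ∃ t ∈ T, ∀ r ∈ R, x * r * x⁻¹ = t * r * t⁻¹}
      mul_mem' := by
        rintro x y ⟨t, ht, hx⟩ ⟨u, hu, hy⟩
        refine ⟨t * u, T.mul_mem ht hu, fun r hr => ?_⟩
        calc x * y * r * (x * y)⁻¹ = x * (y * r * y⁻¹) * x⁻¹ := by group
          _ = x * (u * r * u⁻¹) * x⁻¹ := by rw [hy r hr]
          _ = t * (u * r * u⁻¹) * t⁻¹ := hx _ (hT u hu r hr)
          _ = t * u * r * (t * u)⁻¹ := by group
      one_mem' := ⟨1, T.one_mem, fun r _ => by simp⟩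
      inv_mem' := by
        rintro x ⟨t, ht, hx⟩
        refine ⟨t⁻¹, T.inv_mem ht, fun r hr => ?_⟩
        have h1 := hx (t⁻¹ * r * t) (hT' t ht r hr)
        have h2 : x * (t⁻¹ * r * t) * x⁻¹ = r := by
          rw [h1]; group
        calc x⁻¹ * r * x⁻¹⁻¹ = x⁻¹ * (x * (t⁻¹ * r * t) * x⁻¹) * x⁻¹⁻¹ := by rw [h2]
          _ = t⁻¹ * r * t := by group
          _ = t⁻¹ * r * t⁻¹⁻¹ := by group }
  have hmemX : ∀ x : G, x ∈ X ↔ ∃ t ∈ T, ∀ r ∈ R, x * r * x⁻¹ = t * r * t⁻¹ := fun x => Iff.rfl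
  have hTX : T ≤ X := fun t ht => ⟨t, ht, fun r _ => rfl⟩
  have hgX : ∀ x ∈ X, g * x * g⁻¹ ∈ X := by
    rintro x ⟨t, ht, hx⟩
    refine ⟨t, ht, fun r hr => ?_⟩
    have h1 : g⁻¹ * r * g = r⁻¹ := by
      rw [hginv]
      have := hinv r hr
      rwa [hginv] at this
    have h2 := hinv (t * r * t⁻¹) (hT t ht r hr)
    calc g * x * g⁻¹ * r * (g * x * g⁻¹)⁻¹ = g * (x * (g⁻¹ * r * g) * x⁻¹) * g⁻¹ := by group
      _ = g * (x * r⁻¹ * x⁻¹) * g⁻¹ := by rw [h1]
      _ = g * (x * r * x⁻¹)⁻¹ * g⁻¹ := by group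
      _ = g * (t * r * t⁻¹)⁻¹ * g⁻¹ := by rw [hx r hr]
      _ = (g * (t * r * t⁻¹) * g⁻¹)⁻¹ := by group
      _ = t * r * t⁻¹ := by rw [h2, inv_inv]
  -- odd order
  have hXodd : Odd (Nat.card X) := by
    rw [← Nat.not_even_iff_odd]
    intro heven
    haveI hf2 : Fact (Nat.Prime 2) := ⟨Nat.prime_two⟩
    obtain ⟨u, hu⟩ := exists_prime_orderOf_dvd_card' (G := X) 2 heven.two_dvd
    have hu' : orderOf (u : G) = 2 := by rw [← hu, Subgroup.orderOf_coe]
    obtain ⟨t, ht, hx⟩ := u.2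
    have hiter : ∀ n : ℕ, ∀ r ∈ R, (u : G) ^ n * r * ((u : G) ^ n)⁻¹ = t ^ n * r * (t ^ n)⁻¹ := by
      intro n
      induction n with
      | zero => intro r _; simp
      | succ n ih =>
        intro r hr
        calc (u : G) ^ (n + 1) * r * ((u : G) ^ (n + 1))⁻¹ = (u : G) ^ n * ((u : G) * r * (u : G)⁻¹) * ((u : G) ^ n)⁻¹ := by
              rw [pow_succ]; group
          _ = (u : G) ^ n * (t * r * t⁻¹) * ((u : G) ^ n)⁻¹ := by rw [hx r hr]
          _ = t ^ n * (t * r * t⁻¹) * (t ^ n)⁻¹ := ih _ (hT t ht r hr)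
          _ = t ^ (n + 1) * r * (t ^ (n + 1))⁻¹ := by rw [pow_succ]; group
    obtain ⟨k, hk⟩ := IsPGroup.iff_orderOf.1 hTp ⟨t, ht⟩
    rw [Subgroup.orderOf_mk] at hk
    have hpodd : Odd (p ^ k) := by
      apply Odd.pow
      exact (Fact.out : p.Prime).odd_of_ne_two hp2
    obtain ⟨j, hj⟩ := hpodd
    have huu : (u : G) ^ (p ^ k) = u := by
      rw [hj, pow_succ, pow_mul, ← hu', pow_orderOf_eq_one, one_pow, one_mul]
    have htt : t ^ (p ^ k) = 1 := by
      rw [← hk]; exact pow_orderOf_eq_one t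
    obtain ⟨r₀, hr₀, hr₀1⟩ := (Subgroup.bot_or_exists_ne_one R).resolve_left hR0
    have h1 := hiter (p ^ k) r₀ hr₀
    rw [huu, htt] at h1
    have h2 : (u : G) * r₀ * (u : G)⁻¹ = r₀ := by rw [h1]; group
    have h3 : (u : G) * r₀ = r₀ * (u : G) := by
      calc (u : G) * r₀ = (u : G) * r₀ * (u : G)⁻¹ * (u : G) := by group
        _ = r₀ * (u : G) := by rw [h2]
    obtain ⟨l, hl⟩ := IsPGroup.iff_orderOf.1 hRp ⟨r₀, hr₀⟩
    rw [Subgroup.orderOf_mk] at hl
    exact not_commute p hC hr₀1 ⟨l, hl⟩ hu' h3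
  -- the action on the Sylow subgroups of X
  let σ : MulAut X :=
    { toFun := fun x => ⟨g * x * g⁻¹, hgX x x.2⟩
      invFun := fun x => ⟨g * x * g⁻¹, hgX x x.2⟩
      left_inv := fun x => Subtype.ext (by
        show g * (g * (x : G) * g⁻¹) * g⁻¹ = x
        rw [hginv]
        calc g * (g * (x : G) * g) * g = (g * g) * x * (g * g) := by group
          _ = x := by rw [hgg]; group)
      right_inv := fun x => Subtype.ext (by
        show g * (g * (x : G) * g⁻¹) * g⁻¹ = x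
        rw [hginv]
        calc g * (g * (x : G) * g) * g = (g * g) * x * (g * g) := by group
          _ = x := by rw [hgg]; group)
      map_mul' := fun a b => Subtype.ext (by simp only [Subgroup.coe_mul]; group) }
  have hσσ : σ * σ = 1 := by
    ext x
    show g * (g * (x : G) * g⁻¹) * g⁻¹ = x
    rw [hginv]
    calc g * (g * (x : G) * g) * g = (g * g) * x * (g * g) := by group
      _ = x := by rw [hgg]; group
  letI : Fintype (Sylow p X) := Fintype.ofFinite _
  let f : Function.End (Sylow p X) := fun S => σ • S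
  have hf1 : f ^ 2 ^ 1 = 1 := by
    funext S
    show σ • σ • S = S
    rw [smul_smul, hσσ, one_smul]
  have hcard := Equiv.Perm.card_fixedPoints_modEq (f := f) (p := 2) (n := 1) hf1
  obtain ⟨S₀⟩ : Nonempty (Sylow p X) := inferInstance
  have hSodd : Odd (Fintype.card (Sylow p X)) := by
    rw [← Nat.card_eq_fintype_card]
    exact hXodd.of_dvd_nat ((Sylow.card_dvd_index S₀).trans (Subgroup.index_dvd_card _))
  have hfix : ∃ S : Sylow p X, f S = S := by
    by_contra hno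
    push_neg at hno
    have h0 : Fintype.card f.fixedPoints = 0 := by
      rw [Fintype.card_eq_zero_iff]
      exact ⟨fun x => hno x.1 x.2⟩
    rw [h0] at hcard
    have h2 : 2 ∣ Fintype.card (Sylow p X) := Nat.modEq_zero_iff_dvd.1 hcard
    rw [← Nat.not_even_iff_odd] at hSodd
    exact hSodd (even_iff_two_dvd.2 h2)
  obtain ⟨S, hS⟩ := hfix
  have hSmem : ∀ s ∈ (S : Subgroup X), σ s ∈ (S : Subgroup X) := by
    intro s hs
    have h1 : σ • s ∈ σ • (S : Subgroup X) := Subgroup.smul_mem_pointwise_smul s σ _ hs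
    have h2 : σ • (S : Subgroup X) = (S : Subgroup X) := congrArg (fun Y : Sylow p X => (Y : Subgroup X)) hS
    rw [h2] at h1
    exact h1
  -- the image in G
  have hcardS : Nat.card ((S : Subgroup X).map X.subtype) = Nat.card (S : Subgroup X) :=
    Subgroup.card_map_of_injective X.subtype_injective
  have hTXp : IsPGroup p (T.subgroupOf X) := hTp.comap_of_injective X.subtype X.subtype_injective
  obtain ⟨Q, hQ⟩ := hTXp.exists_le_sylow
  have hcT : Nat.card (T.subgroupOf X) = Nat.card T := Nat.card_congr (Subgroup.subgroupOfEquivOfLe hTX).toEquiv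
  have hle : Nat.card T ≤ Nat.card ((S : Subgroup X).map X.subtype) := by
    rw [hcardS, ← hcT, Sylow.card_eq_multiplicity S, ← Sylow.card_eq_multiplicity Q]
    exact Subgroup.card_le_of_le hQ
  refine ⟨(S : Subgroup X).map X.subtype, ⟨?_, S.isPGroup'.map X.subtype, g, hg, ?_⟩, hle⟩
  · intro hbot
    have h1 : Nat.card ((S : Subgroup X).map X.subtype) = 1 := by rw [hbot, Subgroup.card_bot]
    rw [h1] at hle
    have h2 : Nat.card T = 1 := le_antisymm hle Nat.card_pos
    have h3 : T = ⊥ := (Subgroup.eq_bot_iff_card T).2 h2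
    exact hT0 h3
  · rintro _ ⟨s, hs, rfl⟩
    exact ⟨σ s, hSmem s hs, rfl⟩

end


/-- Let p be an odd prime and G a finite group of even order divisible by p in which the centralizer of every non-identity p-element has odd order. Then either G has an irreducible character of p-defect zero, or the normalizer of every Sylow p-subgroup P of G has even order and P is abelian. -/
theorem result {G : Type*} [Group G] [Finite G] (p : ℕ) [Fact p.Prime] (hp2 : p ≠ 2) (hpG : p ∣ Nat.card G) (h2G : 2 ∣ Nat.card G) (hC : ∀ g : G, g ≠ 1 → (∃ k : ℕ, orderOf g = p ^ k) → Odd (Nat.card ↥(Subgroup.centralizer ({g} : Set G)))) : (∃ χ : Cfsg.IrrCharacter G, (Cfsg.charDegree (χ : G → ℂ)).factorization p = (Nat.card G).factorization p) ∨ ∀ P : Sylow p G, Even (Nat.card ↥(Subgroup.normalizer ((P : Subgroup G) : Set G))) ∧ IsMulCommutative ↥(P : Subgroup G) := by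

  classical
  by_cases hdz : ∃ χ : Cfsg.IrrCharacter G, (Cfsg.charDegree (χ : G → ℂ)).factorization p = (Nat.card G).factorization p
  · exact Or.inl hdz
  right
  haveI hf2 : Fact (Nat.Prime 2) := ⟨Nat.prime_two⟩
  have hC' : ∀ g : G, g ≠ 1 → (∃ k : ℕ, orderOf g = p ^ k) → ¬ 2 ∣ Nat.card ↥(Subgroup.centralizer ({g} : Set G)) := by
    intro g hg hk h
    have h1 := hC g hg hk
    rw [← Nat.not_even_iff_odd] at h1
    exact h1 (even_iff_two_dvd.2 h)
  have h42 := (Cfsg.Agent.S4742.result p 2 hp2 hpG h2G hC').resolve_left hdz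
  obtain ⟨z, hz⟩ := exists_prime_orderOf_dvd_card' (G := G) 2 h2G
  have hz1 : z ≠ 1 := by
    intro h
    rw [h, orderOf_one] at hz
    omega
  obtain ⟨g, h, hgz, hhz, hne, k, hk⟩ := h42 z hz1 ⟨1, by rw [pow_one]; exact hz⟩
  have hconjord : ∀ a b : G, IsConj a b → orderOf b = orderOf a := by
    intro a b hab
    obtain ⟨c, hc⟩ := isConj_iff.1 hab
    rw [← hc]
    exact orderOf_injective (MulAut.conj c).toMonoidHom (MulAut.conj c).injective a
  have hg2 : orderOf g = 2 := by rw [hconjord z g hgz, hz]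
  have hh2 : orderOf h = 2 := by rw [hconjord z h hhz, hz]
  have hgg : g * g = 1 := by
    rw [← pow_two, ← hg2]
    exact pow_orderOf_eq_one g
  have hhh : h * h = 1 := by
    rw [← pow_two, ← hh2]
    exact pow_orderOf_eq_one h
  have hginv : g⁻¹ = g := inv_eq_of_mul_eq_one_left hgg
  have hhinv : h⁻¹ = h := inv_eq_of_mul_eq_one_left hhh
  have hP0 : Pr p (Subgroup.zpowers (g * h⁻¹)) := by
    refine ⟨?_, ?_, g, hg2, ?_⟩
    · intro hb
      exact hne (Subgroup.zpowers_eq_bot.1 hb)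
    · apply IsPGroup.of_card (n := k)
      rw [Nat.card_zpowers, hk]
    · rintro r ⟨n, rfl⟩
      have e : g * (g * h⁻¹) * g⁻¹ = (g * h⁻¹)⁻¹ := by
        rw [hginv, hhinv]
        calc g * (g * h) * g = (g * g) * h * g := by group
          _ = h * g := by rw [hgg, one_mul]
          _ = h⁻¹ * g⁻¹ := by rw [hginv, hhinv]
          _ = (g * h)⁻¹ := by group
      show g * (g * h⁻¹) ^ n * g⁻¹ ∈ Subgroup.zpowers (g * h⁻¹)
      rw [← conj_zpow, e]
      exact Subgroup.zpow_mem _ (Subgroup.inv_mem _ (Subgroup.mem_zpowers _)) n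
  haveI : Nonempty {R : Subgroup G // Pr p R} := ⟨⟨_, hP0⟩⟩
  obtain ⟨⟨R, hR0, hRp, g₁, hg₁, hg₁R⟩, hmax⟩ := Finite.exists_max (fun R : {R : Subgroup G // Pr p R} => Nat.card R.1)
  have hinv := inverts p hC hRp hg₁ hg₁R
  have hg₁g₁ : g₁ * g₁ = 1 := by
    rw [← pow_two, ← hg₁]
    exact pow_orderOf_eq_one g₁
  have hg₁inv : g₁⁻¹ = g₁ := inv_eq_of_mul_eq_one_left hg₁g₁
  have habel : ∀ a ∈ R, ∀ b ∈ R, a * b = b * a := by
    intro a ha b hb
    have h1 := hinv (a * b) (R.mul_mem ha hb)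
    have h2 := hinv a ha
    have h3 := hinv b hb
    have h4 : g₁ * (a * b) * g₁⁻¹ = (g₁ * a * g₁⁻¹) * (g₁ * b * g₁⁻¹) := by group
    rw [h4, h2, h3] at h1
    have h5 : (a⁻¹ * b⁻¹)⁻¹ = ((a * b)⁻¹)⁻¹ := by rw [h1]
    rw [inv_inv] at h5
    have h6 : (a⁻¹ * b⁻¹)⁻¹ = b * a := by group
    rw [h6] at h5
    exact h5.symm
  have hSyl : ¬ p ∣ R.index := by
    intro hdvd
    obtain ⟨P, hRP⟩ := hRp.exists_le_sylow
    have hRne : ¬ (P : Subgroup G) ≤ R := by
      intro hle
      have heq : R = (P : Subgroup G) := le_antisymm hRP hle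
      rw [heq] at hdvd
      exact P.not_dvd_index hdvd
    haveI : Group.IsNilpotent (P : Subgroup G) := P.isPGroup'.isNilpotent
    have hlt : R.subgroupOf (P : Subgroup G) < ⊤ := by
      apply lt_top_iff_ne_top.2
      intro htop
      exact hRne (Subgroup.subgroupOf_eq_top.1 htop)
    have hN := normalizerCondition_of_isNilpotent _ hlt
    obtain ⟨x, hx, hxH⟩ := SetLike.exists_of_lt hN
    let T : Subgroup G := (Subgroup.normalizer ((R.subgroupOf (P : Subgroup G) : Subgroup (P : Subgroup G)) : Set (P : Subgroup G))).map (P : Subgroup G).subtype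
    have hTP : T ≤ (P : Subgroup G) := Subgroup.map_subtype_le _
    have hTp : IsPGroup p T := P.isPGroup'.to_le hTP
    have hRT : R ≤ T := by
      intro r hr
      refine ⟨⟨r, hRP hr⟩, ?_, rfl⟩
      exact hN.le (by simpa [Subgroup.mem_subgroupOf] using hr)
    have hT : ∀ t ∈ T, ∀ r ∈ R, t * r * t⁻¹ ∈ R := by
      rintro _ ⟨t, ht, rfl⟩ r hr
      have h1 : (⟨r, hRP hr⟩ : (P : Subgroup G)) ∈ R.subgroupOf (P : Subgroup G) := by
        simpa [Subgroup.mem_subgroupOf] using hr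
      have h2 := (Subgroup.mem_normalizer_iff.1 ht _).1 h1
      simpa [Subgroup.mem_subgroupOf] using h2
    have hT0 : T ≠ ⊥ := by
      intro hb
      apply hR0
      exact le_bot_iff.1 (hb ▸ hRT)
    have hxT : (x : G) ∈ T := ⟨x, hx, rfl⟩
    have hxR : (x : G) ∉ R := by
      intro h'
      apply hxH
      simpa [Subgroup.mem_subgroupOf] using h'
    obtain ⟨S, hS, hcard⟩ := growth p hp2 hC hR0 hRp hg₁ hg₁R hTp hT hT0
    have h1 := hmax ⟨S, hS⟩
    have h2 : Nat.card T ≤ Nat.card R := hcard.trans h1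
    have h3 : R = T := Subgroup.eq_of_le_of_card_ge hRT h2
    exact hxR (h3 ▸ hxT)
  intro P
  obtain ⟨a, ha⟩ := MulAction.exists_smul_eq G (hRp.toSylow hSyl) P
  have hmem : ∀ u : G, u ∈ (P : Subgroup G) ↔ a⁻¹ * u * a ∈ R := by
    intro u
    rw [← ha, Sylow.coe_subgroup_smul, Subgroup.mem_pointwise_smul_iff_inv_smul_mem]
    show (MulAut.conj a)⁻¹ u ∈ R ↔ _
    rw [MulAut.conj_inv_apply]
  constructor
  · have hg' : a * g₁ * a⁻¹ ∈ Subgroup.normalizer ((P : Subgroup G) : Set G) := by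
      rw [Subgroup.mem_normalizer_iff]
      intro u
      rw [hmem, hmem]
      have e : a⁻¹ * (a * g₁ * a⁻¹ * u * (a * g₁ * a⁻¹)⁻¹) * a = g₁ * (a⁻¹ * u * a) * g₁⁻¹ := by group
      rw [e]
      constructor
      · exact hg₁R _
      · intro h1
        have h2 := hg₁R _ h1
        have e2 : g₁ * (g₁ * (a⁻¹ * u * a) * g₁⁻¹) * g₁⁻¹ = a⁻¹ * u * a := by
          rw [hg₁inv]
          calc g₁ * (g₁ * (a⁻¹ * u * a) * g₁) * g₁ = (g₁ * g₁) * (a⁻¹ * u * a) * (g₁ * g₁) := by group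
            _ = a⁻¹ * u * a := by rw [hg₁g₁]; group
        rwa [e2] at h2
    have hord : orderOf (a * g₁ * a⁻¹) = 2 := by
      rw [← hg₁]
      exact orderOf_injective (MulAut.conj a).toMonoidHom (MulAut.conj a).injective g₁
    have h1 := orderOf_dvd_natCard (⟨_, hg'⟩ : Subgroup.normalizer ((P : Subgroup G) : Set G))
    rw [Subgroup.orderOf_mk, hord] at h1
    exact even_iff_two_dvd.2 h1
  · refine ⟨⟨fun x y => ?_⟩⟩
    apply Subtype.ext
    have hx := (hmem x).1 x.2
    have hy := (hmem y).1 y.2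
    have h1 := habel _ hx _ hy
    show (x : G) * (y : G) = (y : G) * (x : G)
    have e1 : (x : G) * (y : G) = a * ((a⁻¹ * x * a) * (a⁻¹ * y * a)) * a⁻¹ := by group
    have e2 : (y : G) * (x : G) = a * ((a⁻¹ * y * a) * (a⁻¹ * x * a)) * a⁻¹ := by group
    rw [e1, e2, h1]

end Cfsg.Agent.S4744
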