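import Cfsg.Statements.S4746
import Cfsg.Agent.S4742
import Cfsg.Agent.Lib.CharFS2
import Cfsg.Agent.Lib.BlockDefTwo
import Cfsg.Agent.Lib.OddInv
import Cfsg.Agent.Lib.CharBlockDefect
import Cfsg.Agent.Lib.CharBlockConv
import Cfsg.Agent.Lib.CharInt
import Cfsg.Agent.Lib.CharIso
import Cfsg.Agent.Lib.CharOps
import Cfsg.Agent.Lib.CharIrr
import Cfsg.Agent.Lib.CharBasic

set_option autoImplicit false
set_option linter.all false
open Cfsg

namespace Cfsg.Agent.S4746


open Cfsg.Agent.Lib.CharOps Cfsg.Agent.Lib.CharIrr Cfsg.Agent.Lib.CharBlockDefect Cfsg.Agent.Lib.CharFS2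
  Cfsg.Agent.Lib.CharBasic
open scoped ComplexConjugate

theorem sum_pairs {ι : Type*} [DecidableEq ι] (τ : ι → ι) (f : ι → ℂ) (S : Finset ι)
    (hτS : ∀ x ∈ S, τ x ∈ S) (hττ : ∀ x ∈ S, τ (τ x) = x) (hne : ∀ x ∈ S, τ x ≠ x)
    (hf : ∀ x ∈ S, f (τ x) = f x) (hint : ∀ x ∈ S, IsIntegral ℤ (f x)) :
    ∃ w : ℂ, IsIntegral ℤ w ∧ ∑ x ∈ S, f x = 2 * w := by
  induction S using Finset.strongInduction with
  | H S ih =>
    by_cases hS : S = ∅
    · exact ⟨0, isIntegral_zero, by simp [hS]⟩
    obtain ⟨x, hx⟩ := Finset.nonempty_iff_ne_empty.2 hS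
    have hτx := hτS x hx
    have hxne := hne x hx
    have hmem : τ x ∈ S.erase x := Finset.mem_erase.2 ⟨hxne, hτx⟩
    set S' := (S.erase x).erase (τ x) with hS'
    have hS'mem : ∀ a, a ∈ S' ↔ a ≠ τ x ∧ a ≠ x ∧ a ∈ S := by
      intro a
      simp [hS', Finset.mem_erase]
    have hlt : S' ⊂ S := by
      refine Finset.ssubset_iff_subset_ne.2 ⟨fun a ha => ((hS'mem a).1 ha).2.2, ?_⟩
      intro h
      have : x ∈ S' := h ▸ hx
      exact ((hS'mem x).1 this).2.1 rfl
    obtain ⟨w, hw, hsum⟩ := ih S' hlt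
      (by
        intro a ha
        obtain ⟨h1, h2, h3⟩ := (hS'mem a).1 ha
        refine (hS'mem _).2 ⟨?_, ?_, hτS a h3⟩
        · intro h
          apply h2
          have := congrArg τ h
          rwa [hττ a h3, hττ x hx] at this
        · intro h
          apply h1
          have := congrArg τ h
          rwa [hττ a h3] at this)
      (fun a ha => hττ a ((hS'mem a).1 ha).2.2)
      (fun a ha => hne a ((hS'mem a).1 ha).2.2)
      (fun a ha => hf a ((hS'mem a).1 ha).2.2)
      (fun a ha => hint a ((hS'mem a).1 ha).2.2)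
    refine ⟨f x + w, (hint x hx).add hw, ?_⟩
    rw [← Finset.add_sum_erase S f hx, ← Finset.add_sum_erase (S.erase x) f hmem, hsum, hf x hx]
    ring

theorem char_inv_parity {G : Type*} [Group G] [Fintype G] {χ : G → ℂ} (hχ : IsCharacter G χ) {g : G}
    (hg : orderOf g = 2) : ∃ m : ℕ, χ 1 + χ g = 2 * m := by
  classical
  letI : Fintype (Subgroup.zpowers g) := Fintype.ofFinite _
  have hcard : Nat.card (Subgroup.zpowers g) = 2 := by rw [Nat.card_zpowers, hg]
  have hg1 : (1 : Subgroup.zpowers g) ≠ ⟨g, Subgroup.mem_zpowers g⟩ := by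
    intro h
    have h1 : (1 : G) = g := congrArg Subtype.val h
    rw [← h1, orderOf_one] at hg
    omega
  have hgg : g * g = 1 := by
    rw [← pow_two, ← hg]
    exact pow_orderOf_eq_one g
  have huniv : (Finset.univ : Finset (Subgroup.zpowers g)) = {1, ⟨g, Subgroup.mem_zpowers g⟩} := by
    ext ⟨w, hw⟩
    simp only [Finset.mem_univ, Finset.mem_insert, Finset.mem_singleton, true_iff]
    rcases Cfsg.Agent.Lib.BlockDefTwo.mem_zpowers_two hg hw with h | h
    · left
      exact Subtype.ext h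
    · right
      exact Subtype.ext h
  obtain ⟨m, hm⟩ := exists_nat_classInner (isCharacter_restrict (Subgroup.zpowers g) hχ)
    (IsIrrCharacter.isCharacter' (Cfsg.Agent.Lib.CharIso.isIrr_one (G := Subgroup.zpowers g)))
  refine ⟨m, ?_⟩
  rw [classInner, huniv, Finset.sum_pair hg1, hcard] at hm
  simp only [map_one, mul_one, OneMemClass.coe_one] at hm
  rw [← hm]
  push_cast
  ring


/-- Let p be an odd prime and G a finite group of even order divisible by p in which the centralizer of every non-identity p-element has odd order. Then G has an irreducible character of p-defect zero or an irreducible character of even degree. -/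
theorem result {G : Type*} [Group G] [Finite G] (p : ℕ) [Fact p.Prime] (hp2 : p ≠ 2) (hpG : p ∣ Nat.card G) (h2G : 2 ∣ Nat.card G) (hC : ∀ g : G, g ≠ 1 → (∃ k : ℕ, orderOf g = p ^ k) → Odd (Nat.card ↥(Subgroup.centralizer ({g} : Set G)))) : (∃ χ : Cfsg.IrrCharacter G, (Cfsg.charDegree (χ : G → ℂ)).factorization p = (Nat.card G).factorization p) ∨ ∃ χ : Cfsg.IrrCharacter G, Even (Cfsg.charDegree (χ : G → ℂ)) := by

  classical
  cases nonempty_fintype G
  by_contra hcon
  push_neg at hcon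
  obtain ⟨hno, hodd⟩ := hcon
  haveI hf2 : Fact (Nat.Prime 2) := ⟨Nat.prime_two⟩
  have hC' : ∀ g : G, g ≠ 1 → (∃ k : ℕ, orderOf g = p ^ k) → ¬ 2 ∣ Nat.card ↥(Subgroup.centralizer ({g} : Set G)) := by
    intro g hg hk h
    have h1 := hC g hg hk
    rw [← Nat.not_even_iff_odd] at h1
    exact h1 (even_iff_two_dvd.2 h)
  have h42 := (Cfsg.Agent.S4742.result p 2 hp2 hpG h2G hC').resolve_left (by
    rintro ⟨χ, hχ⟩
    exact hno χ hχ)
  obtain ⟨z, hz⟩ := exists_prime_orderOf_dvd_card' (G := G) 2 h2G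
  have hz1 : z ≠ 1 := by
    intro h
    rw [h, orderOf_one] at hz
    omega
  obtain ⟨g, h, hgz, hhz, hne, k, hk⟩ := h42 z hz1 ⟨1, by rw [pow_one]; exact hz⟩
  have hconjord : ∀ a b : G, IsConj a b → orderOf b = orderOf a := by
    intro a b hab
    obtain ⟨c, hc⟩ := isConj_iff.1 hab
    rw [← hc]
    exact orderOf_injective (MulAut.conj c).toMonoidHom (MulAut.conj c).injective a
  have hg2 : orderOf g = 2 := by rw [hconjord z g hgz, hz]
  have hh2 : orderOf h = 2 := by rw [hconjord z h hhz, hz]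
  have hgg : g * g = 1 := by
    rw [← pow_two, ← hg2]
    exact pow_orderOf_eq_one g
  have hhh : h * h = 1 := by
    rw [← pow_two, ← hh2]
    exact pow_orderOf_eq_one h
  have hginv : g⁻¹ = g := inv_eq_of_mul_eq_one_left hgg
  have hhinv : h⁻¹ = h := inv_eq_of_mul_eq_one_left hhh
  set y := g * h⁻¹ with hy
  have hyinv : g * y * g⁻¹ = y⁻¹ := by
    rw [hy, hginv, hhinv]
    calc g * (g * h) * g = (g * g) * h * g := by group
      _ = h * g := by rw [hgg, one_mul]
      _ = h⁻¹ * g⁻¹ := by rw [hginv, hhinv]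
      _ = (g * h)⁻¹ := by group
  have hyreal : IsConj y y⁻¹ := isConj_iff.2 ⟨g, hyinv⟩
  have hpodd : Odd p := (Fact.out : p.Prime).odd_of_ne_two hp2
  have hyodd : Odd (orderOf y) := by rw [hk]; exact hpodd.pow
  have hCy := hC y hne ⟨k, hk⟩
  -- a unique square root
  have hroot : Nat.card {u : G // u * u = y} = 1 := by
    rw [Nat.card_eq_one_iff_unique]
    refine ⟨⟨?_⟩, ?_⟩
    · rintro ⟨u, hu⟩ ⟨v, hv⟩
      apply Subtype.ext
      have humem : u ∈ Subgroup.centralizer ({y} : Set G) := by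
        rw [Subgroup.mem_centralizer_singleton_iff, ← hu]
        group
      have hvmem : v ∈ Subgroup.centralizer ({y} : Set G) := by
        rw [Subgroup.mem_centralizer_singleton_iff, ← hv]
        group
      exact Cfsg.Agent.Lib.OddInv.sq_inj hCy humem hvmem (by rw [pow_two, pow_two, hu, hv])
    · obtain ⟨l, hl⟩ := Cfsg.Agent.Lib.OddInv.exists_sqrt hyodd
      exact ⟨⟨y ^ l, by rw [← pow_two]; exact hl⟩⟩
  have hsq := card_sqrt_eq y
  rw [hroot] at hsq
  have hdeg : ∀ χ : IrrCharacter G, ∃ e : ℕ, (χ : G → ℂ) 1 = 2 * e + 1 := by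
    intro χ
    have h1 := Nat.not_even_iff_odd.1 (hodd χ)
    obtain ⟨e, he⟩ := h1
    refine ⟨e, ?_⟩
    rw [← charDegree_cast (IsIrrCharacter.isCharacter' χ.2), he]
    push_cast
    ring
  choose e he using hdeg
  have hpar : ∀ χ : IrrCharacter G, ∃ l : ℤ, (χ : G → ℂ) g = 1 + 2 * l := by
    intro χ
    obtain ⟨m, hm⟩ := char_inv_parity (IsIrrCharacter.isCharacter' χ.2) hg2
    refine ⟨(m : ℤ) - (e χ : ℤ) - 1, ?_⟩
    rw [he χ] at hm
    push_cast
    linear_combination hm
  choose l hl using hpar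
  have hcol := column_orthogonality y g
  have hnot : ¬ IsConj y g := by
    intro hc
    have h1 := hconjord y g hc
    rw [hg2] at h1
    rw [← h1] at hyodd
    exact absurd hyodd (by decide)
  rw [if_neg hnot] at hcol
  have hcol2 : ∑ χ : IrrCharacter G, (χ : G → ℂ) y + 2 * ∑ χ : IrrCharacter G, (l χ : ℂ) * (χ : G → ℂ) y = 0 := by
    rw [← hcol, Finset.mul_sum, ← Finset.sum_add_distrib]
    apply Finset.sum_congr rfl
    intro χ _
    rw [hl χ, map_add, map_one, map_mul, map_intCast]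
    simp only [map_ofNat]
    ring
  -- split the sum
  let τ : IrrCharacter G → IrrCharacter G := fun χ => ⟨fun x => conj ((χ : G → ℂ) x), isIrr_conj χ.2⟩
  have hτval : ∀ χ : IrrCharacter G, (τ χ : G → ℂ) y = (χ : G → ℂ) y := by
    intro χ
    show conj ((χ : G → ℂ) y) = (χ : G → ℂ) y
    rw [← character_inv_of_isCharacter (IsIrrCharacter.isCharacter' χ.2) y]
    exact (classFun_eq_of_isConj (IsCharacter.isClassFunction' (IsIrrCharacter.isCharacter' χ.2)) hyreal).symm
  let S := Finset.univ.filter (fun χ : IrrCharacter G => ¬ ∀ x : G, ((χ : G → ℂ) x).im = 0)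
  obtain ⟨W, hWint, hW⟩ := sum_pairs τ (fun χ => (χ : G → ℂ) y) S
    (by
      intro χ hχ
      simp only [S, Finset.mem_filter, Finset.mem_univ, true_and] at hχ ⊢
      intro h
      apply hχ
      intro x
      have := h x
      have h3 : ((τ χ : G → ℂ) x).im = -((χ : G → ℂ) x).im := by
        show (conj ((χ : G → ℂ) x)).im = _
        simp
      rw [h3] at this
      linarith)
    (by
      intro χ _
      apply Subtype.ext
      funext x
      exact Complex.conj_conj _)
    (by
      intro χ hχ h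
      simp only [S, Finset.mem_filter, Finset.mem_univ, true_and] at hχ
      apply hχ
      intro x
      have h3 := congrFun (congrArg Subtype.val h) x
      exact Complex.conj_eq_iff_im.1 h3)
    (fun χ _ => hτval χ)
    (fun χ _ => Cfsg.Agent.Lib.CharBlockConv.isIntegral_character_apply (IsIrrCharacter.isCharacter' χ.2) y)
  have hsplit : ∑ χ : IrrCharacter G, (χ : G → ℂ) y = (1 : ℂ) + 2 * W := by
    rw [← hW, ← Finset.sum_filter_add_sum_filter_not Finset.univ (fun χ : IrrCharacter G => ∀ x : G, ((χ : G → ℂ) x).im = 0)]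
    congr 1
    have h1 : ((1 : ℕ) : ℂ) = ∑ χ : IrrCharacter G, indicator (χ : G → ℂ) * (χ : G → ℂ) y := hsq
    rw [Nat.cast_one] at h1
    rw [h1, ← Finset.sum_filter_add_sum_filter_not Finset.univ (fun χ : IrrCharacter G => ∀ x : G, ((χ : G → ℂ) x).im = 0) (fun χ : IrrCharacter G => indicator (χ : G → ℂ) * (χ : G → ℂ) y)]
    have h2 : ∑ χ ∈ Finset.univ.filter (fun χ : IrrCharacter G => ¬ ∀ x : G, ((χ : G → ℂ) x).im = 0), indicator (χ : G → ℂ) * (χ : G → ℂ) y = 0 := by
      apply Finset.sum_eq_zero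
      intro χ hχ
      simp only [Finset.mem_filter, Finset.mem_univ, true_and] at hχ
      rw [indicator_not_real χ.2 hχ, zero_mul]
    rw [h2, add_zero]
    apply Finset.sum_congr rfl
    intro χ hχ
    simp only [Finset.mem_filter, Finset.mem_univ, true_and] at hχ
    have h3 := Nat.not_even_iff_odd.1 (hodd χ)
    rw [indicator_odd χ.2 hχ _ (charDegree_cast (IsIrrCharacter.isCharacter' χ.2)).symm h3, one_mul]
  -- contradiction
  set W' := ∑ χ : IrrCharacter G, (l χ : ℂ) * (χ : G → ℂ) y with hW'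
  have hW'int : IsIntegral ℤ W' := by
    apply IsIntegral.sum
    intro χ _
    exact (isIntegral_algebraMap (R := ℤ) (A := ℂ) (x := l χ)).mul
      (Cfsg.Agent.Lib.CharBlockConv.isIntegral_character_apply (IsIrrCharacter.isCharacter' χ.2) y)
  have hfinal : (((1 : ℕ) : ℂ) / ((2 : ℕ) : ℂ)) = -(W + W') := by
    rw [hsplit] at hcol2
    push_cast
    field_simp
    linear_combination hcol2
  have hint : IsIntegral ℤ (((1 : ℕ) : ℂ) / ((2 : ℕ) : ℂ)) := by
    rw [hfinal]
    exact (hWint.add hW'int).neg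
  have := Cfsg.Agent.Lib.CharInt.dvd_of_isIntegral_div (by norm_num : (2 : ℕ) ≠ 0) hint
  omega

end Cfsg.Agent.S4746
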