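import Cfsg.Statements.S4754
import Cfsg.Agent.Lib.CharCentral
import Cfsg.Agent.S0136

set_option autoImplicit false
set_option linter.style.haveILetI false
set_option linter.unusedVariables false
open scoped ComplexConjugate
open Cfsg

namespace Cfsg.Agent.S4754

/-- For elements x, y of a finite group G, the conjugacy class of x y equals the set of all products of a conjugate of x with a conjugate of y if and only if χ(1) χ(a x a⁻¹ b y b⁻¹) = χ(x) χ(y) for all a, b ∈ G and every irreducible character χ. -/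
theorem result {G : Type*} [Group G] [Finite G] (x y : G) : (∀ z : G, IsConj (x * y) z ↔ ∃ a b : G, z = a * x * a⁻¹ * (b * y * b⁻¹)) ↔ ∀ (a b : G) (χ : Cfsg.IrrCharacter G), (χ : G → ℂ) 1 * (χ : G → ℂ) (a * x * a⁻¹ * (b * y * b⁻¹)) = (χ : G → ℂ) x * (χ : G → ℂ) y := by
  classical
  cases nonempty_fintype G
  open Cfsg.Agent.Lib.CharCentral Cfsg.Agent.Lib.CharIrr Cfsg.Agent.Lib.CharOps in
  have hG : (Nat.card G : ℂ) ≠ 0 := by exact_mod_cast Nat.card_pos.ne'
  constructor
  · intro h a b χ
    have hcl := IsCharacter.isClassFunction' (IsIrrCharacter.isCharacter' χ.2)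
    have hall : ∀ a b : G, (χ : G → ℂ) (a * x * a⁻¹ * (b * y * b⁻¹)) = (χ : G → ℂ) (x * y) := by
      intro a b
      have hconj := (h _).mpr ⟨a, b, rfl⟩
      exact ((Cfsg.Agent.S0136.result _ _).mp hconj χ).symm
    rw [hall]
    -- double average
    have h1 : ∀ b : G, (∑ a : G, (χ : G → ℂ) (a * x * a⁻¹ * (b * y * b⁻¹))) * (χ : G → ℂ) 1 =
        (Nat.card G : ℂ) * (χ : G → ℂ) x * (χ : G → ℂ) (b * y * b⁻¹) := fun b => sum_conj_mul_irr χ.2 x _
    have h2 := h1 1
    simp only [hall, Finset.sum_const, Finset.card_univ, nsmul_eq_mul] at h2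
    have h3 : (χ : G → ℂ) (1 * y * 1⁻¹) = (χ : G → ℂ) y := by simp
    rw [h3, ← Nat.card_eq_fintype_card] at h2
    have h4 : (Nat.card G : ℂ) * ((χ : G → ℂ) (x * y) * (χ : G → ℂ) 1) =
        (Nat.card G : ℂ) * ((χ : G → ℂ) x * (χ : G → ℂ) y) := by
      linear_combination h2
    have h5 := mul_left_cancel₀ hG h4
    rw [mul_comm]
    exact h5
  · intro h z
    constructor
    · intro hc
      obtain ⟨c, rfl⟩ := isConj_iff.mp hc
      exact ⟨c, c, by group⟩
    · rintro ⟨a, b, rfl⟩
      rw [Cfsg.Agent.S0136.result]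
      intro χ
      have h1 := h 1 1 χ
      have h2 := h a b χ
      simp only [one_mul, inv_one, mul_one] at h1
      have hd := degree_ne_zero χ.2
      apply mul_left_cancel₀ hd
      rw [h1, h2]

end Cfsg.Agent.S4754
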