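import Cfsg.Statements.S4755
import Cfsg.Agent.Lib.CharCentral
import Cfsg.Agent.Lib.CharAb
import Cfsg.Agent.Lib.CharCliff
import Cfsg.Agent.Lib.CharBlockDefect

set_option autoImplicit false
set_option linter.all false
open Cfsg

namespace Cfsg.Agent.S4755


open Cfsg.Agent.Lib.CharOps Cfsg.Agent.Lib.CharIrr Cfsg.Agent.Lib.CharBlockDefect
open scoped ComplexConjugate commutatorElement

theorem isConj_of_irr {G : Type*} [Group G] [Fintype G] {z w : G}
    (h : ∀ χ : IrrCharacter G, (χ : G → ℂ) z = (χ : G → ℂ) w) : IsConj w z := by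
  classical
  by_contra hn
  have h1 := column_orthogonality w w
  rw [if_pos (IsConj.refl w)] at h1
  have h2 := column_orthogonality z w
  rw [if_neg (fun hh => hn hh.symm)] at h2
  have h3 : ∑ χ : IrrCharacter G, (χ : G → ℂ) z * conj ((χ : G → ℂ) w) = ∑ χ : IrrCharacter G, (χ : G → ℂ) w * conj ((χ : G → ℂ) w) :=
    Finset.sum_congr rfl (fun χ _ => by rw [h χ])
  rw [h1, h2] at h3
  have h4 : (Nat.card (Subgroup.centralizer ({w} : Set G)) : ℂ) ≠ 0 := by exact_mod_cast Nat.card_pos.ne'
  exact h4 h3.symm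


/-- Let x, y be non-identity elements of the finite group G such that χ(x' y') = χ(x') χ(y') for all conjugates x' of x, y' of y and every irreducible character χ. Then the conjugacy class of x y is the set of all products of a conjugate of x with a conjugate of y; every irreducible character of degree greater than 1 vanishes at x y; and the conjugacy class of x y is the coset of the commutator subgroup containing x y. -/
theorem result {G : Type*} [Group G] [Finite G] (x y : G) (hx : x ≠ 1) (hy : y ≠ 1) (h : ∀ (a b : G) (χ : Cfsg.IrrCharacter G), (χ : G → ℂ) (a * x * a⁻¹ * (b * y * b⁻¹)) = (χ : G → ℂ) (a * x * a⁻¹) * (χ : G → ℂ) (b * y * b⁻¹)) : (∀ z : G, IsConj (x * y) z ↔ ∃ a b : G, z = a * x * a⁻¹ * (b * y * b⁻¹)) ∧ (∀ χ : Cfsg.IrrCharacter G, (χ : G → ℂ) 1 ≠ 1 → (χ : G → ℂ) (x * y) = 0) ∧ (∀ z : G, IsConj (x * y) z ↔ (x * y)⁻¹ * z ∈ commutator G) := by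

  classical
  cases nonempty_fintype G
  have hcl : ∀ (χ : IrrCharacter G) (a t : G), (χ : G → ℂ) (a * t * a⁻¹) = (χ : G → ℂ) t := fun χ a t =>
    IsCharacter.isClassFunction' (IsIrrCharacter.isCharacter' χ.2) t a
  have hprod : ∀ (a b : G) (χ : IrrCharacter G), (χ : G → ℂ) (a * x * a⁻¹ * (b * y * b⁻¹)) = (χ : G → ℂ) x * (χ : G → ℂ) y := by
    intro a b χ
    rw [h a b χ, hcl, hcl]
  have hxy : ∀ χ : IrrCharacter G, (χ : G → ℂ) (x * y) = (χ : G → ℂ) x * (χ : G → ℂ) y := by
    intro χ
    have := hprod 1 1 χ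
    simpa using this
  have hnl : ∀ χ : IrrCharacter G, (χ : G → ℂ) 1 ≠ 1 → (χ : G → ℂ) (x * y) = 0 := by
    intro χ hχ
    have h1 := Cfsg.Agent.Lib.CharCentral.sum_conj_mul_irr χ.2 x y
    have h2 : ∀ a : G, (χ : G → ℂ) (a * x * a⁻¹ * y) = (χ : G → ℂ) x * (χ : G → ℂ) y := by
      intro a
      have := hprod a 1 χ
      simpa using this
    simp only [h2] at h1
    rw [Finset.sum_const, Finset.card_univ, nsmul_eq_mul, ← Nat.card_eq_fintype_card] at h1
    have hG : (Nat.card G : ℂ) ≠ 0 := by exact_mod_cast Nat.card_pos.ne'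
    rw [hxy]
    have h3 : (Nat.card G : ℂ) * ((χ : G → ℂ) x * (χ : G → ℂ) y) * ((χ : G → ℂ) 1 - 1) = 0 := by
      linear_combination h1
    have h4 := mul_eq_zero.1 h3
    rcases h4 with h4 | h4
    · exact (mul_eq_zero.1 h4).resolve_left hG
    · exact absurd (sub_eq_zero.1 h4) hχ
  have hC : Nat.card (Subgroup.centralizer ({x * y} : Set G)) = (commutator G).index := by
    rw [← Cfsg.Agent.Lib.CharAb.card_linear]
    have h1 := column_orthogonality (x * y) (x * y)
    rw [if_pos (IsConj.refl _)] at h1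
    have h2 : ∀ χ : IrrCharacter G, (χ : G → ℂ) (x * y) * conj ((χ : G → ℂ) (x * y)) = if (χ : G → ℂ) 1 = 1 then 1 else 0 := by
      intro χ
      by_cases hχ : (χ : G → ℂ) 1 = 1
      · rw [if_pos hχ, Complex.mul_conj, Complex.normSq_eq_norm_sq,
          Cfsg.Agent.Lib.CharCliff.norm_eq_one_of_degree_one (IsIrrCharacter.isCharacter' χ.2) hχ]
        simp
      · rw [if_neg hχ, hnl χ hχ]
        simp
    rw [Finset.sum_congr rfl (fun χ _ => h2 χ)] at h1
    rw [Nat.card_eq_fintype_card (α := {χ : IrrCharacter G // (χ : G → ℂ) 1 = 1}), Fintype.card_subtype]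
    have h3 : ∑ χ : IrrCharacter G, (if (χ : G → ℂ) 1 = 1 then (1 : ℂ) else 0) = ((Finset.univ.filter (fun χ : IrrCharacter G => (χ : G → ℂ) 1 = 1)).card : ℂ) := by
      rw [Finset.sum_boole]
    rw [h3] at h1
    exact_mod_cast h1.symm
  refine ⟨?_, hnl, ?_⟩
  · intro z
    constructor
    · intro hz
      obtain ⟨c, hc⟩ := isConj_iff.1 hz
      refine ⟨c, c, ?_⟩
      rw [← hc]
      group
    · rintro ⟨a, b, rfl⟩
      apply isConj_of_irr
      intro χ
      rw [hprod, hxy]
  · set w := x * y with hw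
    have hsub : ∀ z, IsConj w z → w⁻¹ * z ∈ commutator G := by
      intro z hz
      obtain ⟨c, rfl⟩ := isConj_iff.1 hz
      have h1 : w⁻¹ * (c * w * c⁻¹) = ⁅w⁻¹, c⁆ := by
        rw [commutatorElement_def]
        group
      rw [h1, commutator_def]
      exact Subgroup.commutator_mem_commutator (Subgroup.mem_top _) (Subgroup.mem_top _)
    have hcardA : Nat.card {t : G // IsConj t w} = Nat.card (commutator G) := by
      rw [Cfsg.Agent.Lib.CharIrr.card_class_eq_index]
      have h1 := Subgroup.card_mul_index (Subgroup.centralizer ({w} : Set G))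
      have h2 := Subgroup.card_mul_index (commutator G)
      rw [hC] at h1
      rw [← h2, mul_comm] at h1
      exact Nat.eq_of_mul_eq_mul_right (Nat.pos_of_ne_zero Subgroup.index_ne_zero_of_finite) h1
    have hcardB : Nat.card {t : G // w⁻¹ * t ∈ commutator G} = Nat.card (commutator G) := by
      apply Nat.card_congr
      refine ⟨fun t => ⟨w⁻¹ * t.1, t.2⟩, fun u => ⟨w * u.1, by simpa using u.2⟩, ?_, ?_⟩
      · intro t
        apply Subtype.ext
        simp
      · intro u
        apply Subtype.ext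
        simp
    let f : {t : G // IsConj t w} → {t : G // w⁻¹ * t ∈ commutator G} := fun t => ⟨t.1, hsub t.1 t.2.symm⟩
    have hf : Function.Injective f := fun a b hab => Subtype.ext (congrArg (fun u : {t : G // w⁻¹ * t ∈ commutator G} => u.1) hab)
    have hbij : Function.Bijective f := (Nat.bijective_iff_injective_and_card f).2 ⟨hf, by rw [hcardA, hcardB]⟩
    intro z
    constructor
    · exact hsub z
    · intro hz
      obtain ⟨t, ht⟩ := hbij.2 ⟨z, hz⟩
      have : t.1 = z := congrArg (fun u : {t : G // w⁻¹ * t ∈ commutator G} => u.1) ht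
      rw [← this]
      exact t.2.symm

end Cfsg.Agent.S4755
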