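import Cfsg.Statements.S4757
import Cfsg.Agent.S1453
import Cfsg.Agent.Lib.CharAb
import Cfsg.Agent.Lib.CharCliff
import Cfsg.Agent.Lib.CharBlockDefect
import Cfsg.Agent.Lib.CharIso
import Cfsg.Agent.Lib.CharLinear
import Cfsg.Agent.Lib.FitCore

set_option autoImplicit false
set_option linter.all false
open Cfsg

namespace Cfsg.Agent.S4757


open Cfsg.Agent.Lib.CharOps Cfsg.Agent.Lib.CharIrr Cfsg.Agent.Lib.CharBlockDefect
open scoped ComplexConjugate commutatorElement


/-- Let u ≠ 1 be an element of the finite group G and c a complex number such that every non-principal irreducible character χ satisfies χ(1) − χ(u) = c or χ(u) = 0. Then the following are equivalent: (a) u has order 2, G is generated by u together with O(G), the largest normal subgroup of G of odd order, and the centralizer of u is {1, u}; (b) G is not perfect; (c) c = 2. -/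
theorem result {G : Type*} [Group G] [Finite G] (u : G) (hu : u ≠ 1) (c : ℂ) (hyp : ∀ χ : Cfsg.IrrCharacter G, (χ : G → ℂ) ≠ (fun _ => (1 : ℂ)) → ((χ : G → ℂ) 1 - (χ : G → ℂ) u = c ∨ (χ : G → ℂ) u = 0)) : ((orderOf u = 2 ∧ Subgroup.zpowers u ⊔ Cfsg.oddCore G = ⊤ ∧ Subgroup.centralizer ({u} : Set G) = Subgroup.zpowers u) ↔ commutator G ≠ ⊤) ∧ (commutator G ≠ ⊤ ↔ c = 2) := by

  classical
  cases nonempty_fintype G
  haveI hf2 : Fact (Nat.Prime 2) := ⟨Nat.prime_two⟩
  let one : IrrCharacter G := ⟨fun _ => 1, Cfsg.Agent.Lib.CharIso.isIrr_one⟩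
  let d : IrrCharacter G → ℕ := fun χ => charDegree (χ : G → ℂ)
  have hd : ∀ χ : IrrCharacter G, (χ : G → ℂ) 1 = (d χ : ℂ) := fun χ => (charDegree_cast (IsIrrCharacter.isCharacter' χ.2)).symm
  have hdpos : ∀ χ, 0 < d χ := fun χ => Nat.pos_of_ne_zero (charDegree_ne_zero χ.2)
  have hone1 : d one = 1 := by
    have h1 := hd one
    have h2 : (one : G → ℂ) 1 = 1 := rfl
    rw [h2] at h1
    exact_mod_cast h1.symm
  have hne : ∀ χ : IrrCharacter G, χ ≠ one → (χ : G → ℂ) ≠ fun _ => (1 : ℂ) := fun χ h h2 => h (Subtype.ext h2)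
  let A : Finset (IrrCharacter G) := Finset.univ.filter (fun χ => χ ≠ one ∧ (χ : G → ℂ) 1 - (χ : G → ℂ) u = c)
  have hmemA : ∀ χ, χ ∈ A ↔ (χ ≠ one ∧ (χ : G → ℂ) 1 - (χ : G → ℂ) u = c) := by
    intro χ
    simp [A]
  have hcolumn : ∑ χ : IrrCharacter G, (χ : G → ℂ) u * conj ((χ : G → ℂ) 1) = 0 := by
    have h1 := column_orthogonality u (1 : G)
    rw [if_neg] at h1
    · exact h1
    · intro h
      exact hu (isConj_one_right.1 h.symm)
  have hval0 : ∀ χ : IrrCharacter G, χ ≠ one → χ ∉ A → (χ : G → ℂ) u = 0 := by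
    intro χ h1 h2
    rcases hyp χ (hne χ h1) with h3 | h3
    · exact absurd ((hmemA χ).2 ⟨h1, h3⟩) h2
    · exact h3
  have hterm : ∀ χ : IrrCharacter G, (χ : G → ℂ) u * conj ((χ : G → ℂ) 1) =
      (if χ = one then 1 else 0) + (if χ ∈ A then ((d χ : ℂ) - c) * (d χ : ℂ) else 0) := by
    intro χ
    by_cases h1 : χ = one
    · subst h1
      have h2 : one ∉ A := fun h => ((hmemA one).1 h).1 rfl
      rw [if_pos rfl, if_neg h2]
      simp [one]
    · rw [if_neg h1]
      by_cases h2 : χ ∈ A
      · rw [if_pos h2, hd χ, Complex.conj_natCast]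
        have h3 := ((hmemA χ).1 h2).2
        rw [hd χ] at h3
        have h4 : (χ : G → ℂ) u = (d χ : ℂ) - c := by rw [← h3]; ring
        rw [h4]
        ring
      · rw [if_neg h2, hval0 χ h1 h2]
        ring
  have hstar : 1 + ∑ χ ∈ A, ((d χ : ℂ) - c) * (d χ : ℂ) = 0 := by
    rw [Finset.sum_congr rfl (fun χ _ => hterm χ), Finset.sum_add_distrib, Finset.sum_ite_eq'] at hcolumn
    rw [if_pos (Finset.mem_univ _), Finset.sum_ite_mem, Finset.univ_inter] at hcolumn
    exact hcolumn
  let s : ℕ := ∑ χ ∈ A, d χ ^ 2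
  let a : ℕ := ∑ χ ∈ A, d χ
  have hsa : (1 : ℂ) + (s : ℂ) = c * (a : ℂ) := by
    have h1 : ∑ χ ∈ A, ((d χ : ℂ) - c) * (d χ : ℂ) = (s : ℂ) - c * (a : ℂ) := by
      simp only [s, a]
      push_cast
      rw [Finset.mul_sum, ← Finset.sum_sub_distrib]
      refine Finset.sum_congr rfl fun χ _ => ?_
      ring
    rw [h1] at hstar
    linear_combination hstar
  have ha0 : (a : ℂ) ≠ 0 := by
    intro h
    rw [h, mul_zero] at hsa
    have h2 : ((1 + s : ℕ) : ℂ) = 0 := by
      push_cast
      exact hsa
    have h3 : 1 + s = 0 := by exact_mod_cast h2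
    omega
  have hapos : 0 < a := by
    rcases Nat.eq_zero_or_pos a with h | h
    · rw [h] at ha0
      simp at ha0
    · exact h
  -- `c` is a positive real
  obtain ⟨r, hr, hrpos⟩ : ∃ r : ℝ, c = (r : ℂ) ∧ 0 < r := by
    refine ⟨(1 + s : ℝ) / a, ?_, by positivity⟩
    push_cast
    rw [eq_div_iff ha0, ← hsa]
  have hlinval : ∀ μ : IrrCharacter G, μ ≠ one → (μ : G → ℂ) 1 = 1 → (μ : G → ℂ) u = 1 - c := by
    intro μ h1 h2
    rcases hyp μ (hne μ h1) with h3 | h3
    · rw [h2] at h3
      rw [← h3]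
      ring
    · have h4 := Cfsg.Agent.Lib.CharCliff.norm_eq_one_of_degree_one (IsIrrCharacter.isCharacter' μ.2) h2 u
      rw [h3, norm_zero] at h4
      exact absurd h4 (by norm_num)
  have hexμ : commutator G ≠ ⊤ → ∃ μ : IrrCharacter G, μ ≠ one ∧ (μ : G → ℂ) 1 = 1 := by
    intro hG
    by_contra hh
    push_neg at hh
    apply hG
    have h1 := Cfsg.Agent.Lib.CharAb.card_linear (G := G)
    have h2 : Nat.card {χ : IrrCharacter G // (χ : G → ℂ) 1 = 1} = 1 := by
      rw [Nat.card_eq_one_iff_unique]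
      refine ⟨⟨?_⟩, ⟨⟨one, rfl⟩⟩⟩
      rintro ⟨x, hx⟩ ⟨y, hy⟩
      apply Subtype.ext
      have hx' : x = one := by
        by_contra h3
        exact hh x h3 hx
      have hy' : y = one := by
        by_contra h3
        exact hh y h3 hy
      exact hx'.trans hy'.symm
    rw [h2] at h1
    exact Subgroup.index_eq_one.1 h1.symm
  have hforward : commutator G ≠ ⊤ → c = 2 := by
    intro hG
    obtain ⟨μ, hμ1, hμ2⟩ := hexμ hG
    have h1 := hlinval μ hμ1 hμ2
    have h2 := Cfsg.Agent.Lib.CharCliff.norm_eq_one_of_degree_one (IsIrrCharacter.isCharacter' μ.2) hμ2 u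
    rw [h1, hr] at h2
    have h3 : ‖((1 - r : ℝ) : ℂ)‖ = 1 := by
      push_cast
      exact h2
    rw [Complex.norm_real, Real.norm_eq_abs] at h3
    rcases (abs_eq (by norm_num : (0 : ℝ) ≤ 1)).1 h3 with h4 | h4
    · exfalso
      linarith
    · have h5 : r = 2 := by linarith
      rw [hr, h5]
      norm_num
  have hstar2 : c = 2 → 1 + ∑ χ ∈ A, (((d χ : ℝ) - 2) * (d χ : ℝ)) = 0 := by
    intro hc
    rw [hc] at hstar
    have h1 : ((1 + ∑ χ ∈ A, (((d χ : ℝ) - 2) * (d χ : ℝ)) : ℝ) : ℂ) = 0 := by
      push_cast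
      exact hstar
    exact_mod_cast h1
  have hbackward : c = 2 → commutator G ≠ ⊤ := by
    intro hc hG
    have h0 := hstar2 hc
    have h1 := Cfsg.Agent.Lib.CharAb.card_linear (G := G)
    rw [hG, Subgroup.index_top] at h1
    have h2 : ∀ χ : IrrCharacter G, (χ : G → ℂ) 1 = 1 → χ = one := by
      intro χ hχ
      have h3 := (Nat.card_eq_one_iff_unique.1 h1).1
      have h4 : (⟨χ, hχ⟩ : {χ : IrrCharacter G // (χ : G → ℂ) 1 = 1}) = ⟨one, rfl⟩ := Subsingleton.elim _ _
      exact congrArg Subtype.val h4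
    have h3 : 0 ≤ ∑ χ ∈ A, (((d χ : ℝ) - 2) * (d χ : ℝ)) := by
      refine Finset.sum_nonneg fun χ hχ => ?_
      have h4 : d χ ≠ 1 := by
        intro h5
        have h6 : (χ : G → ℂ) 1 = 1 := by rw [hd χ, h5]; simp
        exact ((hmemA χ).1 hχ).1 (h2 χ h6)
      have h5 : 2 ≤ d χ := by
        have := hdpos χ
        omega
      have h6 : (2 : ℝ) ≤ d χ := by exact_mod_cast h5
      exact mul_nonneg (by linarith) (by linarith)
    linarith
  refine ⟨⟨?_, ?_⟩, ⟨hforward, hbackward⟩⟩
  · rintro ⟨ho, hsup, -⟩ hG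
    haveI hOn : (oddCore G).Normal := Cfsg.Agent.Lib.FitCore.pPrimeCore_normal 2
    have hOp : ¬ 2 ∣ Nat.card (oddCore G) := Cfsg.Agent.Lib.FitCore.not_dvd_card_pPrimeCore 2 Nat.prime_two
    have huO : u ∉ oddCore G := by
      intro h
      apply hOp
      have := Subgroup.orderOf_dvd_natCard (oddCore G) h
      rwa [ho] at this
    apply huO
    have hle : commutator G ≤ oddCore G := by
      rw [commutator_def, Subgroup.commutator_le]
      intro a _ b _
      have hquot : ∀ g : G, ∃ i : ℤ, (g : G ⧸ oddCore G) = ((u : G) : G ⧸ oddCore G) ^ i := by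
        intro g
        have hg : g ∈ Subgroup.zpowers u ⊔ oddCore G := by rw [hsup]; exact Subgroup.mem_top g
        obtain ⟨y, hy, z, hz, rfl⟩ := Subgroup.mem_sup_of_normal_right.1 hg
        obtain ⟨i, rfl⟩ := Subgroup.mem_zpowers_iff.1 hy
        refine ⟨i, ?_⟩
        have hz1 : (z : G ⧸ oddCore G) = 1 := (QuotientGroup.eq_one_iff z).2 hz
        rw [QuotientGroup.mk_mul, hz1, mul_one, QuotientGroup.mk_zpow]
      rw [← QuotientGroup.eq_one_iff, commutatorElement_def]
      obtain ⟨i, hi⟩ := hquot a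
      obtain ⟨j, hj⟩ := hquot b
      simp only [QuotientGroup.mk_mul, QuotientGroup.mk_inv]
      rw [hi, hj, zpow_mul_comm]
      group
    rw [hG] at hle
    exact hle (Subgroup.mem_top u)
  · intro hG
    have hc := hforward hG
    have h2 : (1 : ℂ) - c = -1 := by rw [hc]; norm_num
    obtain ⟨l, hl1, hl2⟩ := hexμ hG
    have hlu : (l : G → ℂ) u = -1 := by rw [hlinval l hl1 hl2, h2]
    have huniq : ∀ ν : IrrCharacter G, ν ≠ one → (ν : G → ℂ) 1 = 1 → ν = l := by
      intro ν hν1 hν2
      by_contra hνl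
      have hlc : IsCharacter G (fun g => conj ((l : G → ℂ) g)) := isCharacter_conj (IsIrrCharacter.isCharacter' l.2)
      have hlc1 : (fun g => conj ((l : G → ℂ) g)) 1 = 1 := by
        show conj ((l : G → ℂ) 1) = 1
        rw [hl2]
        simp
      let ξ : IrrCharacter G := ⟨fun g => (ν : G → ℂ) g * conj ((l : G → ℂ) g),
        Cfsg.Agent.Lib.CharLinear.isIrr_mul_linear ν.2 hlc hlc1⟩
      have hξ1 : (ξ : G → ℂ) 1 = 1 := by
        show (ν : G → ℂ) 1 * conj ((l : G → ℂ) 1) = 1
        rw [hν2, hl2]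
        simp
      have hξne : ξ ≠ one := by
        intro h3
        apply hνl
        apply Subtype.ext
        funext g
        have h4 : (ξ : G → ℂ) g = 1 := by rw [h3]
        have h5 : (ν : G → ℂ) g * conj ((l : G → ℂ) g) = 1 := h4
        have h6 := Cfsg.Agent.Lib.CharLinear.mul_conj_linear (IsIrrCharacter.isCharacter' l.2) hl2 g
        calc (ν : G → ℂ) g = (ν : G → ℂ) g * ((l : G → ℂ) g * conj ((l : G → ℂ) g)) := by rw [h6, mul_one]
          _ = ((ν : G → ℂ) g * conj ((l : G → ℂ) g)) * (l : G → ℂ) g := by ring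
          _ = (l : G → ℂ) g := by rw [h5, one_mul]
      have h3 := hlinval ξ hξne hξ1
      rw [h2] at h3
      have h4 : (ξ : G → ℂ) u = (ν : G → ℂ) u * conj ((l : G → ℂ) u) := rfl
      rw [h4, hlu, hlinval ν hν1 hν2, h2] at h3
      norm_num at h3
    have hlA : l ∈ A := (hmemA l).2 ⟨hl1, by rw [hl2, hlu, hc]; norm_num⟩
    have hdl : d l = 1 := by
      have h3 := hd l
      rw [hl2] at h3
      exact_mod_cast h3.symm
    have hzero : ∀ χ : IrrCharacter G, χ ≠ one → χ ≠ l → (χ : G → ℂ) u = 0 := by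
      intro χ h3 h4
      by_cases hχA : χ ∈ A
      · have h0 := hstar2 hc
        rw [← Finset.add_sum_erase A _ hlA, hdl] at h0
        have hsum0 : ∑ χ ∈ A.erase l, (((d χ : ℝ) - 2) * (d χ : ℝ)) = 0 := by
          push_cast at h0
          linarith
        have hnn : ∀ χ ∈ A.erase l, 0 ≤ ((d χ : ℝ) - 2) * (d χ : ℝ) := by
          intro χ hχ
          have h5 := Finset.mem_erase.1 hχ
          have h6 : d χ ≠ 1 := by
            intro h7
            have h8 : (χ : G → ℂ) 1 = 1 := by rw [hd χ, h7]; simp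
            exact h5.1 (huniq χ ((hmemA χ).1 h5.2).1 h8)
          have h7 : 2 ≤ d χ := by
            have := hdpos χ
            omega
          have h8 : (2 : ℝ) ≤ d χ := by exact_mod_cast h7
          exact mul_nonneg (by linarith) (by linarith)
        have h5 := (Finset.sum_eq_zero_iff_of_nonneg hnn).1 hsum0 χ (Finset.mem_erase.2 ⟨h4, hχA⟩)
        have h6 : (d χ : ℝ) ≠ 0 := by
          have := hdpos χ
          positivity
        have h7 : (d χ : ℝ) = 2 := by
          rcases mul_eq_zero.1 h5 with h8 | h8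
          · linarith
          · exact absurd h8 h6
        have h8 := ((hmemA χ).1 hχA).2
        rw [hd χ, hc] at h8
        have h9 : (d χ : ℂ) = 2 := by exact_mod_cast h7
        rw [h9] at h8
        linear_combination -h8
      · exact hval0 χ h3 hχA
    have hl_ne : l ≠ one := hl1
    have hCu : Nat.card (Subgroup.centralizer ({u} : Set G)) = 2 := by
      have h3 := column_orthogonality u u
      rw [if_pos (IsConj.refl u)] at h3
      have h4 : ∀ χ : IrrCharacter G, (χ : G → ℂ) u * conj ((χ : G → ℂ) u) =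
          (if χ = one then 1 else 0) + (if χ = l then 1 else 0) := by
        intro χ
        by_cases h5 : χ = one
        · subst h5
          rw [if_pos rfl, if_neg hl_ne.symm]
          simp [one]
        · rw [if_neg h5]
          by_cases h6 : χ = l
          · subst h6
            rw [if_pos rfl, hlu]
            simp
          · rw [if_neg h6, hzero χ h5 h6]
            simp
      rw [Finset.sum_congr rfl (fun χ _ => h4 χ), Finset.sum_add_distrib, Finset.sum_ite_eq', Finset.sum_ite_eq'] at h3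
      rw [if_pos (Finset.mem_univ _), if_pos (Finset.mem_univ _)] at h3
      have h5 : ((Nat.card (Subgroup.centralizer ({u} : Set G)) : ℕ) : ℂ) = ((2 : ℕ) : ℂ) := by
        rw [← h3]
        norm_num
      exact_mod_cast h5
    have huC : u ∈ Subgroup.centralizer ({u} : Set G) := Subgroup.mem_centralizer_singleton_iff.2 rfl
    have ho : orderOf u = 2 := by
      have h3 := Subgroup.orderOf_dvd_natCard (Subgroup.centralizer ({u} : Set G)) huC
      rw [hCu] at h3
      rcases (Nat.dvd_prime Nat.prime_two).1 h3 with h4 | h4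
      · exact absurd (orderOf_eq_one_iff.1 h4) hu
      · exact h4
    have hCz : Subgroup.centralizer ({u} : Set G) = Subgroup.zpowers u := by
      symm
      apply Subgroup.eq_of_le_of_card_ge (Subgroup.zpowers_le.2 huC)
      rw [hCu, Nat.card_zpowers, ho]
    refine ⟨ho, ?_, hCz⟩
    -- the index of the commutator subgroup
    have hidx : (commutator G).index = 2 := by
      rw [← Cfsg.Agent.Lib.CharAb.card_linear, Nat.card_eq_two_iff]
      refine ⟨⟨one, rfl⟩, ⟨l, hl2⟩, fun h => hl_ne (congrArg Subtype.val h).symm, ?_⟩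
      ext ⟨χ, hχ⟩
      simp only [Set.mem_insert_iff, Set.mem_singleton_iff, Set.mem_univ, iff_true, Subtype.mk.injEq]
      by_cases h5 : χ = one
      · exact Or.inl h5
      · exact Or.inr (huniq χ h5 hχ)
    have hun : u ∉ commutator G := by
      intro h
      let f : G →* ℂˣ := Cfsg.Agent.Lib.CharAb.homOfDegreeOne (IsIrrCharacter.isCharacter' l.2) hl2
      have hle : commutator G ≤ f.ker := by
        rw [commutator_def, Subgroup.commutator_le]
        intro a _ b _
        rw [MonoidHom.mem_ker, commutatorElement_def, map_mul, map_mul, map_mul, map_inv, map_inv, mul_comm (f a)]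
        group
      have h3 : f u = 1 := hle h
      have h4 : ((f u : ℂˣ) : ℂ) = (l : G → ℂ) u := Cfsg.Agent.Lib.CharAb.homOfDegreeOne_apply (IsIrrCharacter.isCharacter' l.2) hl2 u
      rw [h3, hlu] at h4
      norm_num at h4
    have hodd : ¬ 2 ∣ Nat.card (commutator G) := by
      intro h4
      have hcardG : Nat.card G = Nat.card (commutator G) * 2 := by
        rw [← hidx]
        exact (Subgroup.card_mul_index _).symm
      have h5 : 2 ^ 2 ∣ Nat.card G := by
        rw [hcardG, sq]
        exact Nat.mul_dvd_mul_right h4 2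
      have hpg : IsPGroup 2 (Subgroup.zpowers u) := IsPGroup.of_card (n := 1) (by rw [Nat.card_zpowers, ho, pow_one])
      obtain ⟨T, hT⟩ := hpg.exists_le_sylow
      have huT : u ∈ (T : Subgroup G) := hT (Subgroup.mem_zpowers u)
      have h6 : 2 ^ 2 ∣ Nat.card (T : Subgroup G) := T.pow_dvd_card_of_pow_dvd_card h5
      have hTnt : Nontrivial (T : Subgroup G) := by
        refine (Subgroup.nontrivial_iff_exists_ne_one _).2 ⟨u, huT, hu⟩
      have hcen := T.isPGroup'.center_nontrivial
      obtain ⟨⟨z, hzc⟩, hz1⟩ := exists_ne (1 : Subgroup.center (T : Subgroup G))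
      have hz1' : (z : G) ≠ 1 := by
        intro h7
        apply hz1
        apply Subtype.ext
        exact Subtype.ext h7
      have hzu : (z : G) * u = u * (z : G) := by
        have := Subgroup.mem_center_iff.1 hzc ⟨u, huT⟩
        exact (congrArg Subtype.val this).symm
      have hzC : (z : G) ∈ Subgroup.zpowers u := by
        rw [← hCz]
        exact Subgroup.mem_centralizer_singleton_iff.2 hzu
      have huz : u ∈ Subgroup.zpowers (z : G) := Cfsg.Agent.S1453.mem_zpowers_of_ne ho hzC hz1' (Subgroup.mem_zpowers u)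
      have hTC : (T : Subgroup G) ≤ Subgroup.centralizer ({u} : Set G) := by
        intro t ht
        rw [Subgroup.mem_centralizer_singleton_iff]
        obtain ⟨k, hk⟩ := Subgroup.mem_zpowers_iff.1 huz
        rw [← hk]
        have h7 : Commute t (z : G) := by
          have := Subgroup.mem_center_iff.1 hzc ⟨t, ht⟩
          exact congrArg Subtype.val this
        exact h7.zpow_right k
      have h8 := Subgroup.card_dvd_of_le hTC
      rw [hCu] at h8
      have h9 := h6.trans h8
      norm_num at h9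
    have hle : commutator G ≤ oddCore G := by
      apply le_sSup
      exact ⟨inferInstance, Nat.Coprime.symm ((Nat.Prime.coprime_iff_not_dvd Nat.prime_two).2 hodd)⟩
    rw [eq_top_iff]
    intro g _
    by_cases hg : g ∈ commutator G
    · exact Subgroup.mem_sup_right (hle hg)
    · have h3 : u⁻¹ * g ∈ commutator G := by
        rw [Subgroup.mul_mem_iff_of_index_two hidx]
        constructor
        · intro h4
          exact absurd (by simpa using h4) hun
        · intro h4
          exact absurd h4 hg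
      have h4 : g = u * (u⁻¹ * g) := by group
      rw [h4]
      exact Subgroup.mul_mem _ (Subgroup.mem_sup_left (Subgroup.mem_zpowers u)) (Subgroup.mem_sup_right (hle h3))

end Cfsg.Agent.S4757
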