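import Mathlib
import Cfsg.Agent.Lib.ExtraChar
import Cfsg.Agent.Lib.ExtraModel
import Cfsg.Agent.Lib.H7Char
import Cfsg.Agent.Lib.CharDeg
import Cfsg.Agent.Lib.ThompsonFpf
import Cfsg.Agent.Lib.LinChar
import Cfsg.Statements.S4762
-- import your own Cfsg.Agent.* helpers here

set_option autoImplicit false
open Cfsg

namespace Cfsg.Agent.S4762


set_option linter.style.haveILetI false
set_option linter.unusedSectionVars false
set_option linter.unusedVariables false

open scoped ComplexConjugate commutatorElement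
open Module Cfsg Cfsg.Agent.Lib.CharOps Cfsg.Agent.Lib.CharIrr Cfsg.Agent.Lib.CharOrtho
  Cfsg.Agent.Lib.CharAb Cfsg.Agent.Lib.CharLinear Cfsg.Agent.Lib.H7Char

universe u

section inner

variable {A B G : Type u} [Group A] [Group B] [Group G] [Fintype A] [Fintype B] [Fintype G]

/-- The inner product of product functions. -/
theorem inner_prod (e : A × B ≃* G) (α α' : A → ℂ) (β β' : B → ℂ) :
    classInner (fun g => α (e.symm g).1 * β (e.symm g).2) (fun g => α' (e.symm g).1 * β' (e.symm g).2)
      = classInner α α' * classInner β β' := by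
  classical
  unfold classInner
  have hc : (Nat.card G : ℂ) = (Nat.card A : ℂ) * (Nat.card B : ℂ) := by
    rw [← Nat.card_congr e.toEquiv, Nat.card_prod]; push_cast; rfl
  have hs : ∑ g : G, (α (e.symm g).1 * β (e.symm g).2) * conj (α' (e.symm g).1 * β' (e.symm g).2)
      = (∑ a : A, α a * conj (α' a)) * (∑ b : B, β b * conj (β' b)) := by
    rw [← Equiv.sum_comp e.toEquiv, Fintype.sum_prod_type, Finset.sum_mul_sum]
    refine Finset.sum_congr rfl fun a _ => Finset.sum_congr rfl fun b _ => ?_
    have : e.symm (e.toEquiv (a, b)) = (a, b) := e.symm_apply_apply _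
    simp only [this, map_mul]
    ring
  rw [hs, hc, mul_inv]
  ring

/-- Product of irreducibles. -/
theorem isIrr_prod (e : A × B ≃* G) {α : A → ℂ} {β : B → ℂ} (hα : IsIrrCharacter A α)
    (hβ : IsIrrCharacter B β) :
    IsIrrCharacter G (fun g => α (e.symm g).1 * β (e.symm g).2) := by
  apply isIrr_of_norm_one
  · refine isCharacter_mul
      (isCharacter_comp ((MonoidHom.fst A B).comp e.symm.toMonoidHom) (IsIrrCharacter.isCharacter' hα))
      (isCharacter_comp ((MonoidHom.snd A B).comp e.symm.toMonoidHom) (IsIrrCharacter.isCharacter' hβ))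
  · rw [inner_prod]
    rw [Cfsg.Agent.Lib.CharOrtho.classInner_irr hα hα, Cfsg.Agent.Lib.CharOrtho.classInner_irr hβ hβ]
    simp

end inner

section main

variable {G : Type u} [Group G] [Fintype G]

theorem sep_linear {z : G} (hz : z ∉ commutator G) : ∃ l : G →* ℂˣ, l z ≠ 1 := by
  have hc : ∀ a b : Abelianization G, a * b = b * a := fun a b => mul_comm a b
  have hne : Abelianization.of z ∉ (⊥ : Subgroup (Abelianization G)) := by
    intro h
    have h1 : Abelianization.of z = 1 := h
    apply hz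
    have : (QuotientGroup.mk z : G ⧸ commutator G) = 1 := h1
    exact (QuotientGroup.eq_one_iff z).1 this
  obtain ⟨φ, -, hφ⟩ := Cfsg.Agent.Lib.LinChar.exists_char_quot hc ⊥ hne
  exact ⟨φ.comp Abelianization.of, hφ⟩

theorem mul_linear_eq {p : ℕ} (χ₀ : IrrCharacter G) (hp : p ∣ deg χ₀)
    (huniq : ∀ χ : IrrCharacter G, p ∣ deg χ → χ = χ₀) (l : G →* ℂˣ) (g : G) :
    (χ₀ : G → ℂ) g * (l g : ℂ) = (χ₀ : G → ℂ) g := by
  have hl : IsCharacter G (fun g => (l g : ℂ)) := IsIrrCharacter.isCharacter' (isIrrCharacter_of_hom l)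
  have hl1 : (fun g => (l g : ℂ)) 1 = 1 := by simp
  have hirr := isIrr_mul_linear χ₀.2 hl hl1
  have hdeg : deg (⟨_, hirr⟩ : IrrCharacter G) = deg χ₀ := by
    have h1 := apply_one_eq_deg (⟨_, hirr⟩ : IrrCharacter G)
    have h2 := apply_one_eq_deg χ₀
    have h3 : (fun g => (χ₀ : G → ℂ) g * (l g : ℂ)) 1 = (χ₀ : G → ℂ) 1 := by simp
    have h4 : (deg (⟨_, hirr⟩ : IrrCharacter G) : ℂ) = (deg χ₀ : ℂ) := by
      rw [← h1, ← h2]; exact h3
    exact_mod_cast h4
  have h5 := huniq ⟨_, hirr⟩ (by rw [hdeg]; exact hp)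
  have h6 := congrArg Subtype.val h5
  exact congrFun h6 g

theorem vanish_of_not_comm {p : ℕ} (χ₀ : IrrCharacter G) (hp : p ∣ deg χ₀)
    (huniq : ∀ χ : IrrCharacter G, p ∣ deg χ → χ = χ₀) {z : G} (hz : z ∉ commutator G) :
    (χ₀ : G → ℂ) z = 0 := by
  obtain ⟨l, hl⟩ := sep_linear hz
  have h := mul_linear_eq χ₀ hp huniq l z
  by_contra h0
  apply hl
  have h1 : ((l z : ℂˣ) : ℂ) = 1 := by
    apply mul_left_cancel₀ h0
    rw [h, mul_one]
  exact Units.ext h1

theorem ne_zero_of_center (χ₀ : IrrCharacter G) {z : G} (hz : z ∈ Subgroup.center G) :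
    (χ₀ : G → ℂ) z ≠ 0 := by
  obtain ⟨n, ρ, hρ, hχ⟩ := χ₀.2
  obtain ⟨c, hc⟩ := Cfsg.Agent.Lib.CharDeg.center_acts_scalar ρ hρ hz
  have hn := (Cfsg.Agent.Lib.CharCore.norm_character_eq_iff ρ z).2 ⟨c, hc⟩
  have hd : finrank ℂ (Fin n → ℂ) ≠ 0 := by
    intro h0
    have h1 : (χ₀ : G → ℂ) 1 = 0 := by
      rw [← hχ, Representation.char_one, h0]; simp
    exact (degree_ne_zero χ₀.2) h1
  intro h
  rw [← hχ] at h
  rw [h, norm_zero] at hn
  have : ((finrank ℂ (Fin n → ℂ) : ℕ) : ℝ) = 0 := hn.symm
  exact hd (by exact_mod_cast this)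

theorem deg_eq_finrank (χ : IrrCharacter G) : ∃ (n : ℕ) (ρ : Representation ℂ G (Fin n → ℂ)),
    ρ.IsIrreducible ∧ deg χ = finrank ℂ (Fin n → ℂ) := by
  obtain ⟨n, ρ, hρ, hχ⟩ := χ.2
  refine ⟨n, ρ, hρ, ?_⟩
  have h1 : (χ : G → ℂ) 1 = (finrank ℂ (Fin n → ℂ) : ℂ) := by
    rw [← hχ, Representation.char_one]
  have := apply_one_eq_deg χ
  rw [h1] at this
  exact_mod_cast this.symm

theorem deg_dvd_center_index (χ : IrrCharacter G) : deg χ ∣ (Subgroup.center G).index := by
  obtain ⟨n, ρ, hρ, h⟩ := deg_eq_finrank χ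
  rw [h]
  exact Cfsg.Agent.Lib.CharDeg.finrank_dvd_index_center ρ hρ

/-- The `p`-group step. -/
theorem isPGroup_of_unique [Group.IsNilpotent G] (p : ℕ) [hp' : Fact p.Prime] (χ₀ : IrrCharacter G)
    (hp : p ∣ deg χ₀) (huniq : ∀ χ : IrrCharacter G, p ∣ deg χ → χ = χ₀) : IsPGroup p G := by
  classical
  obtain ⟨P, N, hN, hcomp⟩ := Cfsg.Agent.Lib.ThompsonFpf.npc_of_nilpotent (N := G) p
  haveI hPn : (P : Subgroup G).Normal :=
    Sylow.normal_of_normalizerCondition Group.normalizerCondition_of_isNilpotent P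
  have hdis : Disjoint N (P : Subgroup G) := hcomp.disjoint
  have hcm : ∀ (y : ↥N) (x : ↥(P : Subgroup G)), Commute (N.subtype y) ((P : Subgroup G).subtype x) := by
    intro y x
    exact Subgroup.commute_of_normal_of_disjoint _ _ hN hPn hdis y x y.2 x.2
  let θ : ↥N × ↥(P : Subgroup G) →* G := MonoidHom.noncommCoprod N.subtype (P : Subgroup G).subtype hcm
  have hθ : Function.Bijective θ := hcomp
  let e : ↥N × ↥(P : Subgroup G) ≃* G := MulEquiv.ofBijective θ hθ
  letI : Fintype ↥N := Fintype.ofFinite _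
  letI : Fintype ↥(P : Subgroup G) := Fintype.ofFinite _
  -- some irreducible of P has degree divisible by p
  have hex : ∃ α : IrrCharacter ↥(P : Subgroup G), p ∣ deg α := by
    by_contra hno
    push Not at hno
    have hone : ∀ α : IrrCharacter ↥(P : Subgroup G), deg α = 1 := by
      intro α
      have h1 := deg_dvd_card α
      obtain ⟨k, hk⟩ := IsPGroup.iff_card.1 P.isPGroup'
      rw [hk] at h1
      obtain ⟨j, hj, hj2⟩ := (Nat.dvd_prime_pow hp'.out).1 h1
      rcases j with _ | j
      · simpa using hj2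
      · exact absurd (by rw [hj2, pow_succ]; exact dvd_mul_left _ _) (hno α)
    have hab := commutative_iff_deg_one.2 hone
    have hcen : (P : Subgroup G) ≤ Subgroup.center G := by
      intro x hx
      rw [Subgroup.mem_center_iff]
      intro g
      obtain ⟨⟨y, w⟩, rfl⟩ := hθ.2 g
      have h1 : θ (y, w) = (y : G) * (w : G) := rfl
      rw [h1]
      have h2 : (x : G) * (w : G) = (w : G) * x := by
        have := hab ⟨x, hx⟩ w
        exact congrArg Subtype.val this
      have h3 : (y : G) * x = x * y := (hcm y ⟨x, hx⟩).eq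
      calc (y : G) * w * x = y * (w * x) := by group
        _ = y * (x * w) := by rw [h2]
        _ = (y * x) * w := by group
        _ = (x * y) * w := by rw [h3]
        _ = x * (y * w) := by group
    have h1 : deg χ₀ ∣ (P : Subgroup G).index :=
      (deg_dvd_center_index χ₀).trans (Subgroup.index_dvd_of_le hcen)
    exact P.not_dvd_index (hp.trans h1)
  obtain ⟨α, hα⟩ := hex
  -- the complement is trivial
  have hN1 : Nat.card ↥N = 1 := by
    by_contra hne
    have hsub : ¬ Subsingleton (IrrCharacter ↥N) := by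
      intro hs
      have h1 := sum_deg_sq (G := ↥N)
      have h2 : IsIrrCharacter ↥N (fun g => (((1 : ↥N →* ℂˣ) g : ℂˣ) : ℂ)) := isIrrCharacter_of_hom 1
      let τ : IrrCharacter ↥N := ⟨_, h2⟩
      have h3 : deg τ = 1 := by
        have := apply_one_eq_deg τ
        have h4 : (τ : ↥N → ℂ) 1 = 1 := by simp [τ]
        rw [h4] at this
        exact_mod_cast this.symm
      have h5 : (Finset.univ : Finset (IrrCharacter ↥N)) = {τ} := by
        ext χ
        simp only [Finset.mem_univ, Finset.mem_singleton, true_iff]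
        exact Subsingleton.elim _ _
      rw [h5, Finset.sum_singleton, h3] at h1
      exact hne (by omega)
    rw [not_subsingleton_iff_nontrivial] at hsub
    obtain ⟨β, β', hββ'⟩ := hsub.exists_pair_ne
    let F : IrrCharacter ↥N → IrrCharacter G := fun b =>
      ⟨_, isIrr_prod e b.2 α.2⟩
    have hFdeg : ∀ b, p ∣ deg (F b) := by
      intro b
      have h1 := apply_one_eq_deg (F b)
      have h2 : (F b : G → ℂ) 1 = (b : ↥N → ℂ) 1 * (α : ↥(P : Subgroup G) → ℂ) 1 := by
        show (b : ↥N → ℂ) (e.symm 1).1 * (α : ↥(P : Subgroup G) → ℂ) (e.symm 1).2 = _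
        rw [map_one]; rfl
      rw [h2, apply_one_eq_deg, apply_one_eq_deg] at h1
      have h3 : deg b * deg α = deg (F b) := by exact_mod_cast h1
      rw [← h3]
      exact hα.trans (dvd_mul_left _ _)
    have h1 := huniq _ (hFdeg β)
    have h2 := huniq _ (hFdeg β')
    have h3 : classInner (F β : G → ℂ) (F β' : G → ℂ) = 1 := by
      rw [h1, h2, Cfsg.Agent.Lib.CharOrtho.classInner_irr χ₀.2 χ₀.2]; simp
    have h4 : classInner (F β : G → ℂ) (F β' : G → ℂ) = 0 := by
      show classInner (fun g => (β : ↥N → ℂ) (e.symm g).1 * (α : ↥(P : Subgroup G) → ℂ) (e.symm g).2)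
        (fun g => (β' : ↥N → ℂ) (e.symm g).1 * (α : ↥(P : Subgroup G) → ℂ) (e.symm g).2) = 0
      rw [inner_prod, Cfsg.Agent.Lib.CharOrtho.classInner_irr β.2 β'.2, if_neg (fun h => hββ' (Subtype.ext h))]
      simp
    rw [h3] at h4
    exact one_ne_zero h4
  have hcard : Nat.card G = Nat.card ↥(P : Subgroup G) := by
    rw [← Nat.card_congr e.toEquiv, Nat.card_prod, hN1, one_mul]
  obtain ⟨k, hk⟩ := IsPGroup.iff_card.1 P.isPGroup'
  exact IsPGroup.of_card (n := k) (by rw [hcard, hk])

/-- The forward direction. -/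
theorem forward [Group.IsNilpotent G] (p : ℕ) [hp' : Fact p.Prime] (χ₀ : IrrCharacter G)
    (hp : p ∣ deg χ₀) (huniq : ∀ χ : IrrCharacter G, p ∣ deg χ → χ = χ₀) :
    p = 2 ∧ IsExtraspecial 2 G := by
  classical
  have hpg := isPGroup_of_unique p χ₀ hp huniq
  obtain ⟨k, hk⟩ := IsPGroup.iff_card.1 hpg
  have hdpos := deg_pos χ₀
  have hpp := hp'.out
  have hd1 : deg χ₀ ≠ 1 := by
    intro h
    rw [h] at hp
    exact hpp.one_lt.ne' (Nat.dvd_one.1 hp)
  -- others have degree one
  have hoth : ∀ χ : IrrCharacter G, χ ≠ χ₀ → deg χ = 1 := by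
    intro χ hχ
    have h1 := deg_dvd_card χ
    rw [hk] at h1
    obtain ⟨j, hj, hj2⟩ := (Nat.dvd_prime_pow hpp).1 h1
    rcases j with _ | j
    · simpa using hj2
    · exact absurd (huniq χ (by rw [hj2, pow_succ]; exact dvd_mul_left _ _)) hχ
  -- counting
  have hlin : ∀ χ : IrrCharacter G, (χ : G → ℂ) 1 = 1 ↔ deg χ = 1 := by
    intro χ
    rw [apply_one_eq_deg χ]
    exact_mod_cast Iff.rfl
  have hcnt : Nat.card {χ : IrrCharacter G // (χ : G → ℂ) 1 = 1} = (commutator G).index := card_linear
  have hcnt2 : (Finset.univ.filter (fun χ : IrrCharacter G => χ ≠ χ₀)).card = (commutator G).index := by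
    rw [← hcnt, Nat.card_eq_fintype_card, Fintype.card_subtype]
    congr 1
    ext χ
    simp only [Finset.mem_filter, Finset.mem_univ, true_and, hlin]
    constructor
    · exact hoth χ
    · intro h he
      rw [he] at h
      exact hd1 h
  have hsum : Nat.card G = deg χ₀ ^ 2 + (commutator G).index := by
    rw [← sum_deg_sq (G := G), ← Finset.add_sum_erase _ _ (Finset.mem_univ χ₀)]
    congr 1
    have : (Finset.univ.erase χ₀) = Finset.univ.filter (fun χ : IrrCharacter G => χ ≠ χ₀) := by
      ext χ; simp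
    rw [this, ← hcnt2, Finset.card_eq_sum_ones]
    refine Finset.sum_congr rfl fun χ hχ => ?_
    rw [hoth χ (Finset.mem_filter.1 hχ).2]
    norm_num
  have hmul := (commutator G).card_mul_index
  set c := Nat.card ↥(commutator G) with hc
  set m := (commutator G).index with hm
  have hmpos : 0 < m := by
    apply Nat.pos_of_ne_zero
    exact Subgroup.index_ne_zero_of_finite
  -- commutator nontrivial
  have hnc : ¬ ∀ a b : G, a * b = b * a := by
    intro h
    exact hd1 (commutative_iff_deg_one.1 h χ₀)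
  have hc1 : c ≠ 1 := by
    intro h
    apply hnc
    have hbot : commutator G = ⊥ := (Subgroup.card_eq_one).1 h
    intro a b
    have h1 : ⁅a, b⁆ ∈ commutator G := by
      rw [commutator_def]
      exact Subgroup.commutator_mem_commutator (Subgroup.mem_top _) (Subgroup.mem_top _)
    rw [hbot, Subgroup.mem_bot, commutatorElement_eq_one_iff_mul_comm] at h1
    exact h1
  have hcd : c ∣ p ^ k := by
    rw [← hk]; exact Subgroup.card_subgroup_dvd_card _
  obtain ⟨s, hs, hcs⟩ := (Nat.dvd_prime_pow hpp).1 hcd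
  have hs0 : s ≠ 0 := by
    intro h
    rw [h, pow_zero] at hcs
    exact hc1 hcs
  have hdd : deg χ₀ ∣ p ^ k := by
    rw [← hk]; exact deg_dvd_card χ₀
  obtain ⟨b, hb, hdb⟩ := (Nat.dvd_prime_pow hpp).1 hdd
  have hcpos : 0 < c := Nat.card_pos
  have hsum2 : (c - 1) * m = deg χ₀ ^ 2 := by
    have : c * m = deg χ₀ ^ 2 + m := by rw [hmul, hsum]
    obtain ⟨c', hc'⟩ : ∃ c', c = c' + 1 := ⟨c - 1, by omega⟩
    rw [hc'] at this ⊢
    simp only [Nat.add_sub_cancel]
    nlinarith
  have hc2 : c = 2 := by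
    have h1 : (c - 1) ∣ p ^ (b * 2) := by
      rw [pow_mul, ← hdb, ← hsum2]; exact dvd_mul_right _ _
    obtain ⟨t, ht, ht2⟩ := (Nat.dvd_prime_pow hpp).1 h1
    rcases t with _ | t
    · simp only [pow_zero] at ht2
      omega
    · exfalso
      have h2 : p ∣ c - 1 := by rw [ht2, pow_succ]; exact dvd_mul_left _ _
      have h3 : p ∣ c := by rw [hcs]; exact dvd_pow_self p hs0
      have h4 : p ∣ c - (c - 1) := Nat.dvd_sub h3 h2
      have h5 : c - (c - 1) = 1 := by omega
      rw [h5] at h4
      exact hpp.one_lt.ne' (Nat.dvd_one.1 h4)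
  have hp2 : p = 2 := by
    have h1 : p ∣ 2 := by
      rw [← hc2, hcs]; exact dvd_pow_self p hs0
    exact (Nat.prime_dvd_prime_iff_eq hpp Nat.prime_two).1 h1
  refine ⟨hp2, ?_⟩
  -- elements of the commutator
  haveI : Nontrivial ↥(commutator G) := by
    rw [← Finite.one_lt_card_iff_nontrivial]
    omega
  obtain ⟨⟨z, hzc⟩, hz1⟩ := exists_ne (1 : ↥(commutator G))
  have hz1' : z ≠ 1 := fun h => hz1 (Subtype.ext h)
  have hmem : ∀ u ∈ commutator G, u = 1 ∨ u = z := by
    intro u hu
    by_contra hh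
    push Not at hh
    have hT : ({1, z, u} : Finset G).card = 3 := by
      rw [Finset.card_insert_of_notMem, Finset.card_insert_of_notMem, Finset.card_singleton]
      · simpa using fun h => hh.2 h.symm
      · simp only [Finset.mem_insert, Finset.mem_singleton, not_or]
        exact ⟨hz1'.symm, fun h => hh.1 h.symm⟩
    have hle : ({1, z, u} : Finset G).card ≤ c := by
      have hsub : ((({1, z, u} : Finset G)) : Set G) ⊆ (commutator G : Set G) := by
        intro w hw
        simp only [Finset.coe_insert, Finset.coe_singleton, Set.mem_insert_iff, Set.mem_singleton_iff] at hw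
        rcases hw with rfl | rfl | rfl
        · exact Subgroup.one_mem _
        · exact hzc
        · exact hu
      have h1 := Set.ncard_le_ncard hsub (Set.toFinite _)
      rw [Set.ncard_coe_finset] at h1
      rw [hc, show Nat.card ↥(commutator G) = (commutator G : Set G).ncard from Nat.card_coe_set_eq _]
      exact h1
    omega
  have hsqc : ∀ u ∈ commutator G, u * u = 1 := by
    intro u hu
    have hpow : u ^ Nat.card ↥(commutator G) = 1 := by
      have := pow_card_eq_one' (x := (⟨u, hu⟩ : ↥(commutator G)))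
      exact congrArg Subtype.val this
    rw [← hc, hc2, pow_two] at hpow
    exact hpow
  have hzcen : ∀ g, z * g = g * z := by
    intro g
    have h1 : g * z * g⁻¹ ∈ commutator G := (inferInstance : (commutator G).Normal).conj_mem z hzc g
    rcases hmem _ h1 with h | h
    · exfalso
      apply hz1'
      have : g * z * g⁻¹ = 1 := h
      have h3 : z = g⁻¹ * (g * z * g⁻¹) * g := by group
      rw [h3, this]; group
    · have h3 : g * z = z * g := by
        rw [mul_inv_eq_iff_eq_mul] at h
        exact h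
      exact h3.symm
  have hcomcen : ∀ u ∈ commutator G, ∀ g, u * g = g * u := by
    intro u hu g
    rcases hmem u hu with rfl | rfl
    · simp
    · exact hzcen g
  have hcomm_mem : ∀ x y : G, x * y * x⁻¹ * y⁻¹ ∈ commutator G := by
    intro x y
    have h1 : ⁅x, y⁆ ∈ commutator G := by
      rw [commutator_def]
      exact Subgroup.commutator_mem_commutator (Subgroup.mem_top _) (Subgroup.mem_top _)
    exact h1
  have hcenle : ∀ g : G, (∀ h, g * h = h * g) → g ∈ commutator G := by
    intro g hg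
    by_contra hn
    have h0 := vanish_of_not_comm χ₀ hp huniq hn
    refine ne_zero_of_center χ₀ ?_ h0
    rw [Subgroup.mem_center_iff]
    intro h
    exact (hg h).symm
  have hES : Cfsg.Agent.Lib.ExtraPlus.ES' z := by
    refine ⟨hz1', hsqc z hzc, hzcen, ?_, ?_, ?_⟩
    · intro g hg
      exact hmem g (hcenle g hg)
    · intro x
      apply hmem
      apply hcenle
      intro y
      set u := x * y * x⁻¹ * y⁻¹ with hu
      have hum := hcomm_mem x y
      have huu := hsqc u hum
      have hxy : x * y = u * (y * x) := by rw [hu]; group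
      calc x * x * y = x * (x * y) := by group
        _ = x * (u * (y * x)) := by rw [hxy]
        _ = (x * u) * (y * x) := by group
        _ = (u * x) * (y * x) := by rw [(hcomcen u hum x).symm]
        _ = u * (x * y) * x := by group
        _ = u * (u * (y * x)) * x := by rw [hxy]
        _ = (u * u) * y * x * x := by group
        _ = y * (x * x) := by rw [huu]; group
    · intro x y
      exact hmem _ (hcomm_mem x y)
  apply Cfsg.Agent.Lib.ExtraModel.isExtra_of_ES hES
  by_contra hall
  push Not at hall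
  exact hnc hall

/-- The backward direction. -/
theorem backward (hE : IsExtraspecial 2 G) :
    Nat.card {χ : IrrCharacter G // 2 ∣ charDegree (χ : G → ℂ)} = 1 := by
  classical
  haveI : Fact (Nat.Prime 2) := ⟨Nat.prime_two⟩
  have hdich := fun χ : IrrCharacter G => Cfsg.Agent.Lib.ExtraChar.irr_dichotomy hE.2 hE.1.2.2 χ.2
  have hpg := hE.1.1
  obtain ⟨k, hk⟩ := IsPGroup.iff_card.1 hpg
  have hlin : ∀ χ : IrrCharacter G, (χ : G → ℂ) 1 = 1 ↔ deg χ = 1 := by
    intro χ
    rw [apply_one_eq_deg χ]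
    exact_mod_cast Iff.rfl
  have hindex : 2 * (commutator G).index = Nat.card G := by
    have := (commutator G).card_mul_index
    rw [hE.1.2.2] at this ⊢
    rw [hE.2] at this
    exact this
  set h := (commutator G).index with hh
  have hcnt : (Finset.univ.filter (fun χ : IrrCharacter G => deg χ = 1)).card = h := by
    have h1 : Nat.card {χ : IrrCharacter G // (χ : G → ℂ) 1 = 1} = (commutator G).index := card_linear
    rw [← hh] at h1
    rw [← h1, Nat.card_eq_fintype_card, Fintype.card_subtype]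
    congr 1
    ext χ
    simp only [Finset.mem_filter, Finset.mem_univ, true_and, hlin]
  have hdeg2 : ∀ χ : IrrCharacter G, deg χ ≠ 1 → deg χ ^ 2 = h := by
    intro χ hχ
    rcases hdich χ with h1 | ⟨-, h1⟩
    · exact absurd ((hlin χ).1 h1) hχ
    · rw [apply_one_eq_deg χ] at h1
      have h2 : deg χ ^ 2 * 2 = Nat.card G := by exact_mod_cast h1
      omega
  have hsum := sum_deg_sq (G := G)
  rw [← Finset.sum_filter_add_sum_filter_not Finset.univ (fun χ : IrrCharacter G => deg χ = 1)] at hsum
  have hs1 : ∑ χ ∈ Finset.univ.filter (fun χ : IrrCharacter G => deg χ = 1), deg χ ^ 2 = h := by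
    rw [← hcnt, Finset.card_eq_sum_ones]
    refine Finset.sum_congr rfl fun χ hχ => ?_
    rw [(Finset.mem_filter.1 hχ).2]
    norm_num
  have hs2 : ∑ χ ∈ Finset.univ.filter (fun χ : IrrCharacter G => ¬ deg χ = 1), deg χ ^ 2
      = (Finset.univ.filter (fun χ : IrrCharacter G => ¬ deg χ = 1)).card * h := by
    rw [Finset.card_eq_sum_ones, Finset.sum_mul]
    refine Finset.sum_congr rfl fun χ hχ => ?_
    rw [hdeg2 χ (Finset.mem_filter.1 hχ).2, one_mul]
  rw [hs1, hs2] at hsum
  have hhpos : 0 < h := by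
    apply Nat.pos_of_ne_zero
    exact Subgroup.index_ne_zero_of_finite
  have hfin : (Finset.univ.filter (fun χ : IrrCharacter G => ¬ deg χ = 1)).card = 1 := by
    have : ((Finset.univ.filter (fun χ : IrrCharacter G => ¬ deg χ = 1)).card) * h = 1 * h := by omega
    exact Nat.eq_of_mul_eq_mul_right hhpos this
  have hiff : ∀ χ : IrrCharacter G, 2 ∣ charDegree (χ : G → ℂ) ↔ ¬ deg χ = 1 := by
    intro χ
    rw [charDegree_eq_deg]
    constructor
    · intro h1 h2
      rw [h2] at h1
      omega
    · intro h1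
      have h2 := deg_dvd_card χ
      rw [hk] at h2
      obtain ⟨j, hj, hj2⟩ := (Nat.dvd_prime_pow Nat.prime_two).1 h2
      rcases j with _ | j
      · exact absurd (by simpa using hj2) h1
      · rw [hj2, pow_succ]; exact dvd_mul_left _ _
  rw [Nat.card_eq_fintype_card, Fintype.card_subtype, ← hfin]
  congr 1
  ext χ
  simp only [Finset.mem_filter, Finset.mem_univ, true_and, hiff]

end main


/-- Let p be a prime and G a finite nilpotent group. Then G has exactly one irreducible complex character of degree divisible by p if and only if p = 2 and G is an extraspecial 2-group. -/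
theorem result {G : Type*} [Group G] [Finite G] [Group.IsNilpotent G] (p : ℕ) [Fact p.Prime] : Nat.card {χ : Cfsg.IrrCharacter G // p ∣ Cfsg.charDegree (χ : G → ℂ)} = 1 ↔ (p = 2 ∧ Cfsg.IsExtraspecial 2 G) := by
  classical
  letI : Fintype G := Fintype.ofFinite G
  constructor
  · intro hcard
    have hpos : 0 < Nat.card {χ : Cfsg.IrrCharacter G // p ∣ Cfsg.charDegree (χ : G → ℂ)} := by omega
    haveI : Nonempty {χ : Cfsg.IrrCharacter G // p ∣ Cfsg.charDegree (χ : G → ℂ)} :=
      (Nat.card_pos_iff.1 hpos).1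
    obtain ⟨⟨χ₀, hχ₀⟩⟩ := ‹Nonempty {χ : Cfsg.IrrCharacter G // p ∣ Cfsg.charDegree (χ : G → ℂ)}›
    have hsub : Subsingleton {χ : Cfsg.IrrCharacter G // p ∣ Cfsg.charDegree (χ : G → ℂ)} :=
      (Nat.card_eq_one_iff_unique.1 hcard).1
    rw [charDegree_eq_deg] at hχ₀
    refine forward p χ₀ hχ₀ ?_
    intro χ hχ
    have hχ' : p ∣ Cfsg.charDegree (χ : G → ℂ) := by rwa [charDegree_eq_deg]
    have hχ₀' : p ∣ Cfsg.charDegree (χ₀ : G → ℂ) := by rwa [charDegree_eq_deg]
    exact congrArg Subtype.val (hsub.elim ⟨χ, hχ'⟩ ⟨χ₀, hχ₀'⟩)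
  · rintro ⟨rfl, hE⟩
    exact backward hE

end Cfsg.Agent.S4762
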