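import Cfsg.Statements.S4784
import Cfsg.Agent.Lib.CharFS2
import Cfsg.Agent.Lib.CharPerm
import Cfsg.Agent.Lib.CharKernel
import Cfsg.Agent.Lib.CharInflate
import Cfsg.Agent.Lib.CharIso
import Cfsg.Agent.Lib.CharOps
import Cfsg.Agent.Lib.CharIrr

set_option autoImplicit false
set_option linter.all false
open Cfsg

namespace Cfsg.Agent.S4784


open Cfsg.Agent.Lib.CharOps Cfsg.Agent.Lib.CharIrr Cfsg.Agent.Lib.CharFS2
open scoped ComplexConjugate


/-- Let H be a subgroup of the finite group G and consider the permutation character of G on the cosets of H (the function induced from the principal character of H). Then exactly one irreducible constituent of it is real-valued with Frobenius–Schur indicator +1 (namely the principal character) if and only if the normal core of H has odd index in G. -/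
theorem result {G : Type*} [Group G] [Fintype G] (H : Subgroup G) : Nat.card {χ : Cfsg.IrrCharacter G // Cfsg.classInner (Cfsg.indFun H (fun _ : H => (1 : ℂ))) (χ : G → ℂ) ≠ 0 ∧ (∀ g : G, (starRingEnd ℂ) ((χ : G → ℂ) g) = (χ : G → ℂ) g) ∧ (Nat.card G : ℂ)⁻¹ * ∑ g : G, (χ : G → ℂ) (g * g) = 1} = 1 ↔ Odd H.normalCore.index := by

  classical
  letI : Fintype H := Fintype.ofFinite _
  let one : IrrCharacter G := ⟨fun _ => 1, Cfsg.Agent.Lib.CharIso.isIrr_one⟩
  have h1H : IsCharacter H (fun _ : H => (1 : ℂ)) :=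
    IsIrrCharacter.isCharacter' Cfsg.Agent.Lib.CharIso.isIrr_one
  have hπ : IsCharacter G (indFun H (fun _ : H => (1 : ℂ))) := isCharacter_indFun H h1H
  have hHne : (Nat.card H : ℂ) ≠ 0 := by exact_mod_cast Nat.card_pos.ne'
  have hGne : (Nat.card G : ℂ) ≠ 0 := by exact_mod_cast Nat.card_pos.ne'
  have hfrob : ∀ χ : IrrCharacter G, classInner (indFun H (fun _ : H => (1 : ℂ))) (χ : G → ℂ)
      = (Nat.card H : ℂ)⁻¹ * ∑ h : H, conj ((χ : G → ℂ) h) := by
    intro χ
    rw [frobenius_reciprocity H _ (IsCharacter.isClassFunction' (IsIrrCharacter.isCharacter' χ.2))]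
    simp only [classInner, one_mul]
  have hm1 : classInner (indFun H (fun _ : H => (1 : ℂ))) (one : G → ℂ) = 1 := by
    rw [hfrob]
    show (Nat.card H : ℂ)⁻¹ * ∑ h : H, conj (1 : ℂ) = 1
    simp only [map_one, Finset.sum_const, Finset.card_univ, nsmul_eq_mul, mul_one]
    rw [← Nat.card_eq_fintype_card]
    exact inv_mul_cancel₀ hHne
  have hν1 : (Nat.card G : ℂ)⁻¹ * ∑ g : G, (one : G → ℂ) (g * g) = 1 := by
    show (Nat.card G : ℂ)⁻¹ * ∑ g : G, (1 : ℂ) = 1
    simp only [Finset.sum_const, Finset.card_univ, nsmul_eq_mul, mul_one]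
    rw [← Nat.card_eq_fintype_card]
    exact inv_mul_cancel₀ hGne
  have hone : classInner (indFun H (fun _ : H => (1 : ℂ))) (one : G → ℂ) ≠ 0 ∧
      (∀ g : G, conj ((one : G → ℂ) g) = (one : G → ℂ) g) ∧
      (Nat.card G : ℂ)⁻¹ * ∑ g : G, (one : G → ℂ) (g * g) = 1 := by
    refine ⟨by rw [hm1]; exact one_ne_zero, fun g => ?_, hν1⟩
    show conj (1 : ℂ) = 1
    simp
  constructor
  · intro hcard
    obtain ⟨hss, -⟩ := Nat.card_eq_one_iff_unique.1 hcard
    have huniq : ∀ χ : IrrCharacter G, classInner (indFun H (fun _ : H => (1 : ℂ))) (χ : G → ℂ) ≠ 0 →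
        (∀ g : G, conj ((χ : G → ℂ) g) = (χ : G → ℂ) g) →
        (Nat.card G : ℂ)⁻¹ * ∑ g : G, (χ : G → ℂ) (g * g) = 1 → χ = one := by
      intro χ h1 h2 h3
      exact congrArg Subtype.val (hss.elim ⟨χ, h1, h2, h3⟩ ⟨one, hone⟩)
    -- the real parts
    have hre : ∀ χ : IrrCharacter G, χ ≠ one →
        (indicator (χ : G → ℂ) * classInner (indFun H (fun _ : H => (1 : ℂ))) (χ : G → ℂ)).re ≤ 0 := by
      intro χ hχ
      obtain ⟨n, hn⟩ := exists_nat_classInner hπ (IsIrrCharacter.isCharacter' χ.2)
      rw [hn]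
      by_cases hreal : ∀ g, ((χ : G → ℂ) g).im = 0
      · rcases indicator_real χ.2 hreal with h | h
        · by_cases hn0 : n = 0
          · simp [hn0]
          · exfalso
            apply hχ
            apply huniq χ
            · rw [hn]; exact_mod_cast hn0
            · intro g
              exact Complex.conj_eq_iff_im.2 (hreal g)
            · exact h
        · rw [h]
          simp
      · rw [indicator_not_real χ.2 hreal]
        simp
    have hsumH : ∀ χ : IrrCharacter G, ∑ h : H, (χ : G → ℂ) h =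
        (Nat.card H : ℂ) * classInner (indFun H (fun _ : H => (1 : ℂ))) (χ : G → ℂ) := by
      intro χ
      obtain ⟨n, hn⟩ := exists_nat_classInner hπ (IsIrrCharacter.isCharacter' χ.2)
      have h1 := hfrob χ
      have h2 : conj (classInner (indFun H (fun _ : H => (1 : ℂ))) (χ : G → ℂ)) =
          classInner (indFun H (fun _ : H => (1 : ℂ))) (χ : G → ℂ) := by
        rw [hn]; simp
      rw [← h2, h1, map_mul, map_sum]
      simp only [map_inv₀, Complex.conj_conj, map_natCast]
      rw [← mul_assoc, mul_inv_cancel₀ hHne, one_mul]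
    -- the count
    have hcount : (Nat.card {u : G // u * u ∈ H} : ℂ) = (Nat.card H : ℂ) *
        ∑ χ : IrrCharacter G, indicator (χ : G → ℂ) *
          classInner (indFun H (fun _ : H => (1 : ℂ))) (χ : G → ℂ) := by
      have e : {u : G // u * u ∈ H} ≃ (Σ z : H, {u : G // u * u = (z : G)}) :=
        { toFun := fun u => ⟨⟨u.1 * u.1, u.2⟩, ⟨u.1, rfl⟩⟩
          invFun := fun p => ⟨p.2.1, by rw [p.2.2]; exact p.1.2⟩
          left_inv := fun u => rfl
          right_inv := by
            rintro ⟨⟨z, hz⟩, ⟨u, hu⟩⟩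
            dsimp only at hu
            subst hu
            rfl }
      rw [Nat.card_congr e, Nat.card_sigma]
      push_cast
      simp_rw [card_sqrt_eq]
      rw [Finset.sum_comm, Finset.mul_sum]
      apply Finset.sum_congr rfl
      intro χ _
      rw [← Finset.mul_sum, hsumH χ]
      ring
    have hle : Nat.card {u : G // u * u ∈ H} ≤ Nat.card H := by
      have h1 := congrArg Complex.re hcount
      rw [Complex.natCast_re, Complex.mul_re, Complex.natCast_re, Complex.natCast_im, zero_mul, sub_zero, Complex.re_sum] at h1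
      have h2 : ∑ χ : IrrCharacter G, (indicator (χ : G → ℂ) *
          classInner (indFun H (fun _ : H => (1 : ℂ))) (χ : G → ℂ)).re ≤ 1 := by
        calc _ ≤ ∑ χ : IrrCharacter G, (if χ = one then (1 : ℝ) else 0) := by
              apply Finset.sum_le_sum
              intro χ _
              by_cases hχ : χ = one
              · rw [if_pos hχ, hχ, hm1]
                have : indicator (one : G → ℂ) = 1 := hν1
                rw [this]
                simp
              · rw [if_neg hχ]
                exact hre χ hχ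
          _ = 1 := by simp
      have h3 : (Nat.card {u : G // u * u ∈ H} : ℝ) ≤ Nat.card H := by
        rw [h1]
        have h4 : (0 : ℝ) ≤ Nat.card H := Nat.cast_nonneg _
        nlinarith
      exact_mod_cast h3
    have hsq : ∀ x : G, x * x ∈ H → x ∈ H := by
      intro x hx
      let f : H → {u : G // u * u ∈ H} := fun h => ⟨h.1, H.mul_mem h.2 h.2⟩
      have hf : Function.Injective f := by
        intro a b hab
        exact Subtype.ext (congrArg (fun u : {u : G // u * u ∈ H} => u.1) hab)
      have hb := hf.bijective_of_nat_card_le hle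
      obtain ⟨h, hh⟩ := hb.2 ⟨x, hx⟩
      have : (h : G) = x := congrArg (fun u : {u : G // u * u ∈ H} => u.1) hh
      rw [← this]
      exact h.2
    by_contra hnodd
    rw [Nat.not_odd_iff_even] at hnodd
    haveI hf2 : Fact (Nat.Prime 2) := ⟨Nat.prime_two⟩
    have h2 : 2 ∣ Nat.card (G ⧸ H.normalCore) := by
      have := hnodd.two_dvd
      rwa [Subgroup.index_eq_card] at this
    obtain ⟨q, hq⟩ := exists_prime_orderOf_dvd_card' 2 h2
    obtain ⟨x, rfl⟩ := QuotientGroup.mk_surjective q
    have hq2 : ((x : G ⧸ H.normalCore)) ^ 2 = 1 := by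
      rw [← hq]; exact pow_orderOf_eq_one _
    have hxx : x * x ∈ H.normalCore := by
      rw [← QuotientGroup.eq_one_iff]
      rw [pow_two] at hq2
      exact hq2
    have hxK : x ∈ H.normalCore := by
      intro b
      apply hsq
      have h5 := hxx b
      have h6 : b * x * b⁻¹ * (b * x * b⁻¹) = b * (x * x) * b⁻¹ := by group
      rw [h6]
      exact h5
    have : ((x : G ⧸ H.normalCore)) = 1 := (QuotientGroup.eq_one_iff x).2 hxK
    rw [this, orderOf_one] at hq
    omega
  · intro hodd
    rw [Nat.card_eq_one_iff_unique]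
    refine ⟨⟨?_⟩, ⟨⟨one, hone⟩⟩⟩
    have key : ∀ χ : {χ : IrrCharacter G // classInner (indFun H (fun _ : H => (1 : ℂ))) (χ : G → ℂ) ≠ 0 ∧
        (∀ g : G, conj ((χ : G → ℂ) g) = (χ : G → ℂ) g) ∧
        (Nat.card G : ℂ)⁻¹ * ∑ g : G, (χ : G → ℂ) (g * g) = 1}, χ.1 = one := by
      rintro ⟨χ, hχ1, hχ2, -⟩
      have hπk : ∀ k ∈ H.normalCore, indFun H (fun _ : H => (1 : ℂ)) k = indFun H (fun _ : H => (1 : ℂ)) 1 := by
        intro k hk
        rw [indFun_apply, indFun_apply]
        congr 1
        apply Finset.sum_congr rfl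
        intro x _
        have h1 : x⁻¹ * k * x ∈ H := by
          have := hk x⁻¹
          simpa using this
        have h2 : x⁻¹ * 1 * x ∈ H := by
          simp [H.one_mem]
        rw [extendByZero_of_mem H _ h1, extendByZero_of_mem H _ h2]
      have hker : ∀ k ∈ H.normalCore, (χ : G → ℂ) k = (χ : G → ℂ) 1 := fun k hk =>
        Cfsg.Agent.Lib.CharKernel.ker_of_constituent hπ χ.2 hχ1 (hπk k hk)
      obtain ⟨θ, hθ, hθχ⟩ := Cfsg.Agent.Lib.CharInflate.exists_quotient_irr H.normalCore χ.2 hker
      letI : Fintype (G ⧸ H.normalCore) := Fintype.ofFinite _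
      have hoddq : Odd (Nat.card (G ⧸ H.normalCore)) := by
        rwa [Subgroup.index_eq_card] at hodd
      have hreal : ∀ q : G ⧸ H.normalCore, (θ q).im = 0 := by
        intro q
        obtain ⟨g, rfl⟩ := QuotientGroup.mk_surjective q
        rw [hθχ]
        exact Complex.conj_eq_iff_im.1 (hχ2 g)
      have h3 := Cfsg.Agent.Lib.CharPerm.real_trivial hoddq ⟨θ, hθ⟩ hreal
      apply Subtype.ext
      funext g
      show (χ : G → ℂ) g = 1
      rw [← hθχ]
      exact congrFun h3 _
    intro a b
    apply Subtype.ext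
    rw [key a, key b]

end Cfsg.Agent.S4784
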