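import Cfsg.Statements.S4796
import Cfsg.Agent.Lib.CharAb
import Cfsg.Agent.Lib.CharCliff
import Cfsg.Agent.Lib.CharKernel
import Cfsg.Agent.Lib.CharBlockDefect
import Cfsg.Agent.Lib.CharBlockInd
import Cfsg.Agent.Lib.SylowIn
import Cfsg.Agent.Lib.CharOrtho
import Cfsg.Agent.Lib.OrderStatFrob

set_option autoImplicit false
set_option linter.all false
open Cfsg

namespace Cfsg.Agent.S4796


open Cfsg.Agent.Lib.CharOps Cfsg.Agent.Lib.CharIrr Cfsg.Agent.Lib.CharCliff Cfsg.Agent.Lib.CharNormal Cfsg.Agent.Lib.CharBlockDefect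
open scoped ComplexConjugate Pointwise

universe u

theorem deg_sq_le {G : Type u} [Group G] [Fintype G] (χ : IrrCharacter G) : charDegree (χ : G → ℂ) ^ 2 ≤ Nat.card G := by
  classical
  have h1 := Cfsg.Agent.Lib.CharAb.sum_deg_sq (G := G)
  have h2 : charDegree (χ : G → ℂ) = Cfsg.Agent.Lib.CharAb.deg χ := by
    have h3 := charDegree_cast (IsIrrCharacter.isCharacter' χ.2)
    have h4 := Cfsg.Agent.Lib.CharAb.apply_one_eq_deg χ
    rw [h4] at h3
    exact_mod_cast h3
  rw [h2, ← h1]
  exact Finset.single_le_sum (f := fun χ : IrrCharacter G => Cfsg.Agent.Lib.CharAb.deg χ ^ 2) (fun _ _ => Nat.zero_le _) (Finset.mem_univ χ)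

theorem core {G : Type u} [Group G] [Fintype G] (χ : IrrCharacter G) (p : ℕ) [hpf : Fact p.Prime]
    (hcod : Nat.card G = p * charDegree (χ : G → ℂ)) :
    ∃ P : Subgroup G, P.Normal ∧ Nat.card P = p ∧ P.index = charDegree (χ : G → ℂ) ∧ charDegree (χ : G → ℂ) < p ∧
      Subgroup.centralizer (P : Set G) ≤ P := by
  classical
  have hp : p.Prime := hpf.out
  set d := charDegree (χ : G → ℂ) with hd
  have hdpos : 0 < d := Nat.pos_of_ne_zero (charDegree_ne_zero χ.2)
  have hdle : d ≤ p := by
    have h1 := deg_sq_le χ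
    rw [hcod, sq] at h1
    exact Nat.le_of_mul_le_mul_right h1 hdpos
  have hdlt : d < p := by
    refine lt_of_le_of_ne hdle ?_
    intro heq
    have hcard : Nat.card G = p ^ 2 := by rw [hcod, ← heq, sq]
    have hcomm : ∀ a b : G, a * b = b * a := IsPGroup.commutative_of_card_eq_prime_sq hcard
    have h1 := (Cfsg.Agent.Lib.CharAb.commutative_iff_apply_one.1 hcomm) χ
    have h2 := charDegree_cast (IsIrrCharacter.isCharacter' χ.2)
    rw [h1] at h2
    have h3 : d = 1 := by exact_mod_cast h2
    rw [heq] at h3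
    exact hp.one_lt.ne' h3
  have hndvd : ¬ p ∣ d := fun h => absurd (Nat.le_of_dvd hdpos h) (not_le.2 hdlt)
  obtain ⟨P₀⟩ : Nonempty (Sylow p G) := inferInstance
  have hcardP : Nat.card (P₀ : Subgroup G) = p := by
    rw [Sylow.card_eq_multiplicity, hcod, Nat.factorization_mul hp.ne_zero hdpos.ne']
    simp [hp.factorization_self, Nat.factorization_eq_zero_of_not_dvd hndvd]
  have hidx : (P₀ : Subgroup G).index = d := by
    have h1 := Subgroup.card_mul_index (P₀ : Subgroup G)
    rw [hcardP, hcod] at h1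
    exact Nat.eq_of_mul_eq_mul_left hp.pos h1
  have hn : Nat.card (Sylow p G) = 1 := by
    have h1 := card_sylow_modEq_one p G
    have h2 : Nat.card (Sylow p G) ∣ (P₀ : Subgroup G).index := Sylow.card_dvd_index P₀
    rw [hidx] at h2
    have h3 : Nat.card (Sylow p G) < p := lt_of_le_of_lt (Nat.le_of_dvd hdpos h2) hdlt
    have h4 : Nat.card (Sylow p G) % p = 1 % p := h1
    rw [Nat.mod_eq_of_lt h3, Nat.mod_eq_of_lt hp.one_lt] at h4
    exact h4
  haveI : Subsingleton (Sylow p G) := by
    have := (Nat.card_eq_one_iff_unique.1 hn).1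
    exact this
  haveI hPn : (P₀ : Subgroup G).Normal := Sylow.normal_of_subsingleton P₀
  refine ⟨P₀, hPn, hcardP, hidx, hdlt, ?_⟩
  set P : Subgroup G := (P₀ : Subgroup G) with hP
  letI : Fintype P := Fintype.ofFinite _
  obtain ⟨l, hl, hin⟩ := Cfsg.Agent.Lib.CharKernel.exists_constituent_restrict P χ.2
  have hPcomm : ∀ a b : P, a * b = b * a := by
    haveI : Fact (Nat.card P).Prime := ⟨by rw [hcardP]; exact hp⟩
    haveI : IsCyclic P := isCyclic_of_prime_card rfl
    intro a b
    obtain ⟨g, hg⟩ := IsCyclic.exists_generator (α := P)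
    obtain ⟨i, rfl⟩ := Subgroup.mem_zpowers_iff.1 (hg a)
    obtain ⟨j, rfl⟩ := Subgroup.mem_zpowers_iff.1 (hg b)
    exact zpow_mul_comm g i j
  have hl1 : l 1 = 1 := (Cfsg.Agent.Lib.CharAb.commutative_iff_apply_one.1 hPcomm) ⟨l, hl⟩
  obtain ⟨ψ, hψ, hχeq, e, he0, hval⟩ := clifford_corr P χ.2 hl hin
  have hlc := IsCharacter.isClassFunction' (IsIrrCharacter.isCharacter' hl)
  have hle : P ≤ (inertia P l) := le_inertia P hlc
  letI : Fintype (inertia P l) := Fintype.ofFinite _
  have hψ1 : ψ 1 = (e : ℂ) := by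
    have h1 := hval 1 (inertia P l).one_mem
    rw [hl1, mul_one] at h1
    exact h1
  have hd_eq : d = (inertia P l).index * e := by
    have h1 := congrFun hχeq 1
    rw [Cfsg.Agent.Lib.CharBlockInd.indFun_one_eq, hψ1, ← charDegree_cast (IsIrrCharacter.isCharacter' χ.2)] at h1
    exact_mod_cast h1
  have hTpos : 0 < (inertia P l).index := Nat.pos_of_ne_zero Subgroup.index_ne_zero_of_finite
  have hr : P.relIndex (inertia P l) = e := by
    have h1 := Subgroup.relIndex_mul_index hle
    rw [hidx, hd_eq, mul_comm] at h1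
    exact Nat.eq_of_mul_eq_mul_left hTpos h1
  have hTcard : Nat.card (inertia P l) = Nat.card P * e := by
    have h1 := Subgroup.card_mul_index (P.subgroupOf (inertia P l))
    rw [Cfsg.Agent.Lib.SylowIn.card_subgroupOf hle] at h1
    rw [← h1, ← hr]
    rfl
  have hnorm : ∑ x : (inertia P l), ‖ψ x‖ ^ 2 = (Nat.card (inertia P l) : ℝ) := by
    have h1 := Cfsg.Agent.Lib.CharOrtho.classInner_irr_self hψ
    rw [Cfsg.classInner] at h1
    have hT0 : (Nat.card (inertia P l) : ℂ) ≠ 0 := by exact_mod_cast Nat.card_pos.ne'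
    have h2 : ∑ x : (inertia P l), ψ x * conj (ψ x) = (Nat.card (inertia P l) : ℂ) := by
      field_simp at h1
      exact h1
    have h3 : ((∑ x : (inertia P l), ‖ψ x‖ ^ 2 : ℝ) : ℂ) = ((Nat.card (inertia P l) : ℝ) : ℂ) := by
      push_cast
      rw [← h2]
      refine Finset.sum_congr rfl fun x _ => ?_
      rw [Complex.mul_conj, Complex.normSq_eq_norm_sq]
      push_cast
      rfl
    exact_mod_cast h3
  have hle2 : (Nat.card P : ℝ) * (e : ℝ) ^ 2 ≤ (Nat.card (inertia P l) : ℝ) := by
    let ι : P → (inertia P l) := fun a => ⟨a, hle a.2⟩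
    have hι : Function.Injective ι := fun a b h => Subtype.ext (congrArg (fun x : (inertia P l) => (x : G)) h)
    have h1 : ∑ a : P, ‖ψ (ι a)‖ ^ 2 ≤ ∑ x : (inertia P l), ‖ψ x‖ ^ 2 := by
      rw [← Finset.sum_image (s := Finset.univ) (g := ι) (f := fun x : (inertia P l) => ‖ψ x‖ ^ 2) (fun a _ b _ h => hι h)]
      exact Finset.sum_le_univ_sum_of_nonneg (fun x => by positivity)
    have h2 : ∀ a : P, ‖ψ (ι a)‖ ^ 2 = (e : ℝ) ^ 2 := by
      intro a
      have h3 : ψ (ι a) = (e : ℂ) * l a := hval a (hle a.2)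
      rw [h3, norm_mul, Cfsg.Agent.Lib.CharCliff.norm_eq_one_of_degree_one (IsIrrCharacter.isCharacter' hl) hl1 a]
      simp
    rw [Finset.sum_congr rfl (fun a _ => h2 a), Finset.sum_const, Finset.card_univ, nsmul_eq_mul, hnorm] at h1
    simpa [Nat.card_eq_fintype_card] using h1
  have he1 : e = 1 := by
    rw [hTcard] at hle2
    have hPpos : (0 : ℝ) < Nat.card P := by exact_mod_cast Nat.card_pos
    push_cast at hle2
    have h3 : (e : ℝ) ^ 2 ≤ (e : ℝ) := le_of_mul_le_mul_left hle2 hPpos
    have h4 : e ^ 2 ≤ e := by exact_mod_cast h3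
    have h5 : 0 < e := Nat.pos_of_ne_zero he0
    nlinarith
  have hTP : (inertia P l) ≤ P := by
    rw [he1] at hr
    exact Subgroup.relIndex_eq_one.1 hr
  refine le_trans ?_ hTP
  intro x hx
  rw [mem_inertia]
  funext n
  rw [conjFun_apply]
  congr 1
  apply Subtype.ext
  have hcx : n.1 * x = x * n.1 := Subgroup.mem_centralizer_iff.1 hx n.1 n.2
  show x * n.1 * x⁻¹ = n.1
  rw [← hcx]
  group


/-- Let G be a finite group with a faithful irreducible complex character χ whose codegree #G / χ(1) is a prime p (for a faithful character the kernel is trivial, so the codegree is #G / χ(1)). Then either G is cyclic of order p, or G is a Frobenius group whose Frobenius kernel has order p: some proper non-trivial subgroup H satisfies H ∩ gHg⁻¹ = 1 for every element g outside H, and the set of elements lying in no conjugate of H, together with the identity, has exactly p elements. -/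
theorem result {G : Type*} [Group G] [Finite G] (χ : Cfsg.IrrCharacter G) (hfaith : ∀ g : G, (χ : G → ℂ) g = (χ : G → ℂ) 1 → g = 1) (p : ℕ) (hp : p.Prime) (hcod : Nat.card G = p * Cfsg.charDegree (χ : G → ℂ)) : (IsCyclic G ∧ Nat.card G = p) ∨ ∃ H : Subgroup G, Cfsg.IsFrobeniusComplement H ∧ Nat.card ↥(Cfsg.frobeniusKernel H) = p := by

  classical
  cases nonempty_fintype G
  haveI : Fact p.Prime := ⟨hp⟩
  obtain ⟨P, hPn, hcardP, hidx, hdlt, hC⟩ := core χ p hcod
  haveI := hPn
  set d := charDegree (χ : G → ℂ) with hd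
  have hdpos : 0 < d := Nat.pos_of_ne_zero (Cfsg.Agent.Lib.CharBlockDefect.charDegree_ne_zero χ.2)
  by_cases hd1 : d = 1
  · left
    have hcardG : Nat.card G = p := by rw [hcod, hd1, mul_one]
    exact ⟨isCyclic_of_prime_card hcardG, hcardG⟩
  right
  have hndvd : ¬ p ∣ d := fun h => absurd (Nat.le_of_dvd hdpos h) (not_le.2 hdlt)
  have hcop : Nat.Coprime (Nat.card P) P.index := by
    rw [hcardP, hidx]
    exact (Nat.Prime.coprime_iff_not_dvd hp).2 hndvd
  obtain ⟨H, hc⟩ := Subgroup.exists_right_complement'_of_coprime hcop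
  have hcardH : Nat.card H = d := by
    have h1 := hc.card_mul
    rw [hcardP, hcod] at h1
    exact Nat.eq_of_mul_eq_mul_left hp.pos h1
  have hPb : P ≠ ⊥ := by
    rintro rfl
    rw [Subgroup.card_bot] at hcardP
    exact hp.one_lt.ne hcardP
  have hHb : H ≠ ⊥ := by
    rintro rfl
    rw [Subgroup.card_bot] at hcardH
    exact hd1 hcardH.symm
  have hdis : ∀ {x : G}, x ∈ P → x ∈ H → x = 1 := fun {x} => Subgroup.disjoint_def.1 hc.disjoint
  have hcomm : ∀ u ∈ P, ∀ z ∈ H, Commute u z → u = 1 ∨ z = 1 := by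
    intro u hu z hz huz
    by_cases hu1 : u = 1
    · exact Or.inl hu1
    right
    apply hdis _ hz
    apply hC
    rw [Subgroup.mem_centralizer_iff]
    intro a ha
    have h1 : (⟨u, hu⟩ : P) ≠ 1 := fun h => hu1 (congrArg Subtype.val h)
    obtain ⟨k, hk⟩ := Subgroup.mem_zpowers_iff.1 (mem_zpowers_of_prime_card hcardP (g' := (⟨a, ha⟩ : P)) h1)
    have h2 : a = u ^ k := by
      have := congrArg Subtype.val hk
      simpa using this.symm
    rw [h2]
    exact (huz.zpow_left k)
  refine ⟨H, Cfsg.Agent.Lib.OrderStatFrob.frob_of_complement P H hc hPb hHb hcomm, ?_⟩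
  have hker : Cfsg.frobeniusKernel H = (P : Set G) := by
    have hconj : ∀ (x y : G), x ∈ MulAut.conj y • H ↔ y⁻¹ * x * y ∈ H := by
      intro x y
      rw [Subgroup.mem_pointwise_smul_iff_inv_smul_mem]
      have : (MulAut.conj y)⁻¹ • x = y⁻¹ * x * y := by
        change (MulAut.conj y)⁻¹ x = _
        simp [MulAut.conj_inv_apply]
      rw [this]
    ext x
    constructor
    · rintro (rfl | hx)
      · exact P.one_mem
      · by_contra hxP
        have hxP' : x ∉ P := hxP
        obtain ⟨⟨u, h⟩, huh⟩ := hc.2 x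
        have h5 : (u : G) * (h : G) = x := huh
        have hh1 : (h : G) ≠ 1 := by
          intro h0
          apply hxP'
          rw [← h5, h0, mul_one]
          exact u.2
        let f : P → P := fun w => ⟨(w : G) * ((h : G) * (w : G)⁻¹ * (h : G)⁻¹), P.mul_mem w.2 (hPn.conj_mem _ (P.inv_mem w.2) _)⟩
        have hfinj : Function.Injective f := by
          intro w w' hww
          have h6 : (w : G) * ((h : G) * (w : G)⁻¹ * (h : G)⁻¹) = (w' : G) * ((h : G) * (w' : G)⁻¹ * (h : G)⁻¹) := congrArg Subtype.val hww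
          set t := (w' : G)⁻¹ * (w : G) with ht
          have htP : t ∈ P := P.mul_mem (P.inv_mem w'.2) w.2
          have h8 : t = ((h : G) * (w' : G)⁻¹ * (h : G)⁻¹) * ((h : G) * (w : G)⁻¹ * (h : G)⁻¹)⁻¹ := by
            calc t = (w' : G)⁻¹ * ((w : G) * ((h : G) * (w : G)⁻¹ * (h : G)⁻¹)) * ((h : G) * (w : G)⁻¹ * (h : G)⁻¹)⁻¹ := by
                  rw [ht]; group
              _ = (w' : G)⁻¹ * ((w' : G) * ((h : G) * (w' : G)⁻¹ * (h : G)⁻¹)) * ((h : G) * (w : G)⁻¹ * (h : G)⁻¹)⁻¹ := by rw [h6]
              _ = _ := by group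
          have h7 : t = (h : G) * t * (h : G)⁻¹ := by
            calc t = ((h : G) * (w' : G)⁻¹ * (h : G)⁻¹) * ((h : G) * (w : G)⁻¹ * (h : G)⁻¹)⁻¹ := h8
              _ = (h : G) * ((w' : G)⁻¹ * (w : G)) * (h : G)⁻¹ := by group
              _ = (h : G) * t * (h : G)⁻¹ := by rw [ht]
          have h9 : Commute t (h : G) := by
            show t * (h : G) = (h : G) * t
            calc t * (h : G) = ((h : G) * t * (h : G)⁻¹) * (h : G) := by rw [← h7]
              _ = (h : G) * t := by group
          rcases hcomm t htP h h.2 h9 with h10 | h10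
          · have h11 : (w : G) = (w' : G) := by
              rw [ht, inv_mul_eq_one] at h10
              exact h10.symm
            exact Subtype.ext h11
          · exact absurd h10 hh1
        obtain ⟨w, hw⟩ := (Finite.injective_iff_surjective.1 hfinj) u
        have h12 : (w : G) * ((h : G) * (w : G)⁻¹ * (h : G)⁻¹) = (u : G) := congrArg Subtype.val hw
        apply hx w
        rw [hconj]
        have h13 : (w : G)⁻¹ * x * (w : G) = (h : G) := by
          rw [← h5, ← h12]
          group
        rw [h13]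
        exact h.2
    · intro hx
      by_cases hx1 : x = 1
      · exact Or.inl hx1
      right
      intro g hg
      rw [hconj] at hg
      have h1 : g⁻¹ * x * g ∈ P := by
        have := hPn.conj_mem x hx g⁻¹
        simpa using this
      have h2 := hdis h1 hg
      apply hx1
      have h3 : x = g * (g⁻¹ * x * g) * g⁻¹ := by group
      rw [h3, h2]
      group
  rw [hker]
  exact hcardP

end Cfsg.Agent.S4796
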