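import Cfsg.Statements.S4808
import Cfsg.Agent.Lib.CharBlockKer
import Cfsg.Agent.Lib.CharBlockSection
import Cfsg.Agent.Lib.CharInt
import Cfsg.Agent.Lib.CharInflate
import Cfsg.Agent.Lib.CharBlockDefect
import Cfsg.Agent.Lib.CharBlockConv

set_option autoImplicit false
set_option linter.all false
open Cfsg

namespace Cfsg.Agent.S4808


open Cfsg.Agent.Lib.CharOps Cfsg.Agent.Lib.CharIrr
open scoped ComplexConjugate

universe u

theorem exists_faithful {Q : Type u} [Group Q] [Fintype Q] (p : ℕ) (hp : p.Prime) (hpQ : p ∣ Nat.card Q)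
    (hmin : ∀ L : Subgroup Q, L.Normal → L ≠ ⊥ → ¬ p ∣ L.index) :
    ∃ θ : IrrCharacter Q, (∀ g, (θ : Q → ℂ) g = (θ : Q → ℂ) 1 → g = 1) ∧ ¬ p ∣ charDegree (θ : Q → ℂ) := by
  classical
  haveI : Fact p.Prime := ⟨hp⟩
  by_contra hcon
  push_neg at hcon
  obtain ⟨q, hq⟩ := exists_prime_orderOf_dvd_card' p hpQ
  have hq1 : q ≠ 1 := by
    rintro rfl
    rw [orderOf_one] at hq
    exact hp.one_lt.ne hq
  have hqp : q ^ p = 1 := by rw [← hq]; exact pow_orderOf_eq_one q
  let L₀ : Subgroup Q := Subgroup.normalClosure {q}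
  have hqL : q ∈ L₀ := Subgroup.subset_normalClosure (Set.mem_singleton q)
  have hL₀b : L₀ ≠ ⊥ := by
    intro h
    rw [h, Subgroup.mem_bot] at hqL
    exact hq1 hqL
  have hker : ∀ θ : IrrCharacter Q, ¬ (∀ g, (θ : Q → ℂ) g = (θ : Q → ℂ) 1 → g = 1) →
      ∀ n ∈ L₀, (θ : Q → ℂ) n = (θ : Q → ℂ) 1 := by
    intro θ hnf
    obtain ⟨K, hKn, hK⟩ := Cfsg.Agent.Lib.CharBlockKer.exists_ker_subgroup (IsIrrCharacter.isCharacter' θ.2)
    have hKb : K ≠ ⊥ := by
      rintro rfl
      apply hnf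
      intro g hg
      exact (Subgroup.mem_bot).1 ((hK g).2 hg)
    have h1 := hmin K hKn hKb
    haveI := hKn
    have h2 : orderOf ((q : Q) : Q ⧸ K) ∣ p := by
      apply orderOf_dvd_of_pow_eq_one
      rw [← QuotientGroup.mk_pow, hqp, QuotientGroup.mk_one]
    have h3 : orderOf ((q : Q) : Q ⧸ K) ∣ K.index := by
      rw [Subgroup.index_eq_card]
      exact orderOf_dvd_natCard _
    have h4 : orderOf ((q : Q) : Q ⧸ K) = 1 := by
      rcases (Nat.dvd_prime hp).1 h2 with h | h
      · exact h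
      · rw [h] at h3
        exact absurd h3 h1
    have h5 : q ∈ K := (QuotientGroup.eq_one_iff q).1 (orderOf_eq_one_iff.1 h4)
    have h6 : L₀ ≤ K := Subgroup.normalClosure_le_normal (Set.singleton_subset_iff.2 h5)
    intro n hn
    exact (hK n).1 (h6 hn)
  have hiff : ∀ θ : IrrCharacter Q, (∀ n ∈ L₀, (θ : Q → ℂ) n = (θ : Q → ℂ) 1) ↔ (θ : Q → ℂ) q = (θ : Q → ℂ) 1 := by
    intro θ
    constructor
    · intro h
      exact h q hqL
    · intro h
      by_contra hh
      have : ¬ (∀ g, (θ : Q → ℂ) g = (θ : Q → ℂ) 1 → g = 1) := fun hf => hq1 (hf q h)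
      exact hh (hker θ this)
  letI : Fintype L₀ := Fintype.ofFinite _
  have hconjdeg : ∀ θ : IrrCharacter Q, conj ((θ : Q → ℂ) 1) = (charDegree (θ : Q → ℂ) : ℂ) := by
    intro θ
    rw [← Cfsg.Agent.Lib.CharBlockDefect.charDegree_cast (IsIrrCharacter.isCharacter' θ.2)]
    simp
  have hdeg1 : ∀ θ : IrrCharacter Q, (θ : Q → ℂ) 1 = (charDegree (θ : Q → ℂ) : ℂ) := fun θ =>
    (Cfsg.Agent.Lib.CharBlockDefect.charDegree_cast (IsIrrCharacter.isCharacter' θ.2)).symm
  let P : IrrCharacter Q → Prop := fun θ => (θ : Q → ℂ) q = (θ : Q → ℂ) 1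
  let D : ℕ := ∑ θ : IrrCharacter Q, if P θ then charDegree (θ : Q → ℂ) ^ 2 else 0
  have hD : Nat.card L₀ * D = Nat.card Q := by
    have h1 := Cfsg.Agent.Lib.CharBlockSection.sum_deg_sq_ker (G := Q) L₀
    have h2 : ∑ ξ : IrrCharacter Q, (if ∀ n ∈ L₀, (ξ : Q → ℂ) n = (ξ : Q → ℂ) 1 then (ξ : Q → ℂ) 1 * conj ((ξ : Q → ℂ) 1) else 0) = (D : ℂ) := by
      simp only [D]
      push_cast
      refine Finset.sum_congr rfl fun θ _ => ?_
      by_cases hP : P θ
      · rw [if_pos ((hiff θ).2 hP), if_pos hP, hconjdeg, hdeg1]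
        ring
      · rw [if_neg (fun h => hP ((hiff θ).1 h)), if_neg hP]
    rw [h2] at h1
    exact_mod_cast h1
  have hDidx : D = L₀.index := by
    have h1 := Subgroup.card_mul_index L₀
    rw [← hD] at h1
    exact (Nat.eq_of_mul_eq_mul_left Nat.card_pos h1).symm
  have hDp : ¬ p ∣ D := by
    rw [hDidx]
    exact hmin L₀ (Subgroup.normalClosure_normal) hL₀b
  apply hDp
  apply Cfsg.Agent.Lib.CharInt.dvd_of_isIntegral_div hp.ne_zero
  -- the column relation
  have hcol : ∑ θ : IrrCharacter Q, (θ : Q → ℂ) q * conj ((θ : Q → ℂ) 1) = 0 := by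
    have h1 := column_orthogonality q (1 : Q)
    rw [if_neg] at h1
    · exact h1
    · intro h
      exact hq1 (isConj_one_right.1 h.symm)
  let m : IrrCharacter Q → ℕ := fun θ => charDegree (θ : Q → ℂ) / p
  have hsplit : ∀ θ : IrrCharacter Q, (θ : Q → ℂ) q * conj ((θ : Q → ℂ) 1) =
      ((if P θ then charDegree (θ : Q → ℂ) ^ 2 else 0 : ℕ) : ℂ) +
        (p : ℂ) * (if P θ then 0 else (θ : Q → ℂ) q * (m θ : ℂ)) := by
    intro θ
    by_cases hP : P θ
    · rw [if_pos hP, if_pos hP, hconjdeg]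
      have : (θ : Q → ℂ) q = (charDegree (θ : Q → ℂ) : ℂ) := by rw [hP, hdeg1]
      rw [this]
      push_cast
      ring
    · rw [if_neg hP, if_neg hP, hconjdeg]
      have hnf : (∀ g, (θ : Q → ℂ) g = (θ : Q → ℂ) 1 → g = 1) := by
        by_contra hh
        exact hP (hker θ hh q hqL)
      have hdvd := hcon θ hnf
      have hm : (charDegree (θ : Q → ℂ) : ℂ) = (p : ℂ) * (m θ : ℂ) := by
        have : charDegree (θ : Q → ℂ) = p * m θ := (Nat.mul_div_cancel' hdvd).symm
        exact_mod_cast this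
      rw [hm]
      push_cast
      ring
  have hsum : (D : ℂ) = -((p : ℂ) * ∑ θ : IrrCharacter Q, (if P θ then 0 else (θ : Q → ℂ) q * (m θ : ℂ))) := by
    have h1 := hcol
    rw [Finset.sum_congr rfl (fun θ _ => hsplit θ), Finset.sum_add_distrib, ← Finset.mul_sum] at h1
    have h2 : ∑ θ : IrrCharacter Q, ((if P θ then charDegree (θ : Q → ℂ) ^ 2 else 0 : ℕ) : ℂ) = (D : ℂ) := by
      simp only [D]
      push_cast
      rfl
    rw [h2] at h1
    exact eq_neg_of_add_eq_zero_left h1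
  have hp0 : (p : ℂ) ≠ 0 := by exact_mod_cast hp.ne_zero
  have hD' : (D : ℂ) / (p : ℂ) = -(∑ θ : IrrCharacter Q, (if P θ then 0 else (θ : Q → ℂ) q * (m θ : ℂ))) := by
    rw [hsum]
    field_simp
  rw [hD']
  apply IsIntegral.neg
  refine IsIntegral.sum _ fun θ _ => ?_
  by_cases hP : P θ
  · rw [if_pos hP]
    exact isIntegral_zero
  · rw [if_neg hP]
    exact IsIntegral.mul (Cfsg.Agent.Lib.CharBlockConv.isIntegral_character_apply (IsIrrCharacter.isCharacter' θ.2) q) (isIntegral_natCast _)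


/-- The codegree of an irreducible complex character χ of a finite group G is [G : ker χ] / χ(1), where ker χ is the set of elements at which χ takes the value χ(1). A prime divides the order of G if and only if it divides the codegree of some irreducible complex character of G. -/
theorem result {G : Type*} [Group G] [Finite G] (p : ℕ) (hp : p.Prime) : p ∣ Nat.card G ↔ ∃ χ : Cfsg.IrrCharacter G, p ∣ (Nat.card G / (Nat.card {g : G // (χ : G → ℂ) g = (χ : G → ℂ) 1} * Cfsg.charDegree (χ : G → ℂ))) := by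

  classical
  cases nonempty_fintype G
  constructor
  · intro hpG
    let F : Set (Subgroup G) := {N | N.Normal ∧ p ∣ N.index}
    have hne : F.Nonempty := ⟨⊥, inferInstance, by rw [Subgroup.index_bot]; exact hpG⟩
    obtain ⟨N, ⟨hNn, hNp⟩, hmax⟩ := Set.exists_max_image F (fun N => Nat.card N) (Set.toFinite _) hne
    haveI := hNn
    letI : Fintype (G ⧸ N) := Fintype.ofFinite _
    have hmin : ∀ L : Subgroup (G ⧸ N), L.Normal → L ≠ ⊥ → ¬ p ∣ L.index := by
      intro L hL hLb hdvd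
      apply hLb
      let L' : Subgroup G := L.comap (QuotientGroup.mk' N)
      have hL'n : L'.Normal := hL.comap _
      have hidx : L'.index = L.index := Subgroup.index_comap_of_surjective _ (QuotientGroup.mk'_surjective N)
      have hle : N ≤ L' := by
        intro x hx
        show (QuotientGroup.mk' N) x ∈ L
        have : (QuotientGroup.mk' N) x = 1 := (QuotientGroup.eq_one_iff x).2 hx
        rw [this]
        exact L.one_mem
      have hcard := hmax L' ⟨hL'n, by rw [hidx]; exact hdvd⟩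
      have heq : N = L' := Subgroup.eq_of_le_of_card_ge hle hcard
      rw [eq_bot_iff]
      intro q hq
      obtain ⟨x, rfl⟩ := QuotientGroup.mk_surjective q
      have hx : x ∈ L' := hq
      rw [← heq] at hx
      exact (QuotientGroup.eq_one_iff x).2 hx
    have hpQ : p ∣ Nat.card (G ⧸ N) := by
      rw [← Subgroup.index_eq_card]
      exact hNp
    obtain ⟨θ, hθf, hθd⟩ := exists_faithful (Q := G ⧸ N) p hp hpQ hmin
    refine ⟨⟨fun g : G => (θ : G ⧸ N → ℂ) (g : G ⧸ N), Cfsg.Agent.Lib.CharInflate.isIrr_inflate N θ.2⟩, ?_⟩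
    have hker : Nat.card {g : G // (θ : G ⧸ N → ℂ) (g : G ⧸ N) = (θ : G ⧸ N → ℂ) ((1 : G) : G ⧸ N)} = Nat.card N := by
      apply Nat.card_congr
      apply Equiv.subtypeEquivRight
      intro g
      constructor
      · intro h
        exact (QuotientGroup.eq_one_iff g).1 (hθf _ h)
      · intro h
        have : ((g : G) : G ⧸ N) = ((1 : G) : G ⧸ N) := by
          rw [QuotientGroup.mk_one]
          exact (QuotientGroup.eq_one_iff g).2 h
        rw [this]
    show p ∣ Nat.card G / (Nat.card {g : G // (θ : G ⧸ N → ℂ) (g : G ⧸ N) = (θ : G ⧸ N → ℂ) ((1 : G) : G ⧸ N)} *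
      charDegree (fun g : G => (θ : G ⧸ N → ℂ) (g : G ⧸ N)))
    rw [hker]
    have hdeg : charDegree (fun g : G => (θ : G ⧸ N → ℂ) (g : G ⧸ N)) = charDegree (θ : G ⧸ N → ℂ) := rfl
    rw [hdeg]
    obtain ⟨c, hc⟩ := Cfsg.Agent.Lib.CharBlockDefect.charDegree_dvd_card θ.2
    have hcardG : Nat.card G = Nat.card N * (charDegree (θ : G ⧸ N → ℂ) * c) := by
      rw [← hc, ← Subgroup.index_eq_card]
      exact (Subgroup.card_mul_index N).symm
    have hpos : 0 < Nat.card N * charDegree (θ : G ⧸ N → ℂ) :=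
      Nat.mul_pos Nat.card_pos (Nat.pos_of_ne_zero (Cfsg.Agent.Lib.CharBlockDefect.charDegree_ne_zero θ.2))
    have hdiv : Nat.card G / (Nat.card N * charDegree (θ : G ⧸ N → ℂ)) = c := by
      rw [hcardG, ← mul_assoc]
      exact Nat.mul_div_cancel_left c hpos
    rw [hdiv]
    rw [hc] at hpQ
    exact (hp.dvd_mul.1 hpQ).resolve_left hθd
  · rintro ⟨χ, hχ⟩
    obtain ⟨K, hKn, hK⟩ := Cfsg.Agent.Lib.CharBlockKer.exists_ker_subgroup (IsIrrCharacter.isCharacter' χ.2)
    haveI := hKn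
    have hker : Nat.card {g : G // (χ : G → ℂ) g = (χ : G → ℂ) 1} = Nat.card K := by
      apply Nat.card_congr
      apply Equiv.subtypeEquivRight
      intro g
      exact (hK g).symm
    rw [hker] at hχ
    have hd := Cfsg.Agent.Lib.CharInflate.deg_dvd_index K χ (fun n hn => (hK n).1 hn)
    have hdvd : Nat.card K * charDegree (χ : G → ℂ) ∣ Nat.card G := by
      rw [← Subgroup.card_mul_index K]
      exact Nat.mul_dvd_mul_left _ hd
    exact hχ.trans (Nat.div_dvd_of_dvd hdvd)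

end Cfsg.Agent.S4808
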