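import Cfsg.Statements.S4797
import Cfsg.Agent.S4796
import Cfsg.Agent.S4808
import Cfsg.Agent.Lib.Supersolvable

set_option autoImplicit false
set_option linter.all false
open Cfsg

namespace Cfsg.Agent.S4797


open Cfsg.Agent.Lib.CharOps Cfsg.Agent.Lib.CharIrr Cfsg.Agent.Lib.CharBlockDefect

theorem commutator_top_quot {G : Type*} [Group G] (K : Subgroup G) [K.Normal] (h : commutator G = ⊤) :
    commutator (G ⧸ K) = ⊤ := by
  have h1 : Subgroup.map (QuotientGroup.mk' K) (⊤ : Subgroup G) = ⊤ := by
    rw [← MonoidHom.range_eq_map, MonoidHom.range_eq_top]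
    exact QuotientGroup.mk'_surjective K
  rw [commutator_def] at h ⊢
  rw [← h1, ← Subgroup.map_commutator, h, h1]

theorem central_of_perfect {Q : Type*} [Group Q] (hQ : commutator Q = ⊤) (P : Subgroup Q) [hP : P.Normal] [IsCyclic P] :
    ∀ x : Q, ∀ n ∈ P, x * n = n * x := by
  intro x n hn
  let φ : Q →* MulAut P := MulAut.conjNormal
  have hc : commutator Q ≤ φ.ker := by
    rw [commutator_def, Subgroup.commutator_le]
    intro a _ b _
    rw [MonoidHom.mem_ker, commutatorElement_def, map_mul, map_mul, map_mul, map_inv, map_inv]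
    have h1 := Cfsg.Agent.Lib.Supersolvable.mulAut_comm (φ a) (φ b)
    rw [h1]
    group
  rw [hQ] at hc
  have h2 : φ x = 1 := hc (Subgroup.mem_top x)
  have h3 : φ x ⟨n, hn⟩ = ⟨n, hn⟩ := by rw [h2]; rfl
  have h4 : x * n * x⁻¹ = n := congrArg Subtype.val h3
  exact mul_inv_eq_iff_eq_mul.1 h4


/-- The codegree of an irreducible complex character χ of a finite group G is [G : ker χ] / χ(1), where ker χ is the set of elements at which χ takes the value χ(1). A non-trivial finite group is perfect if and only if no irreducible complex character of it has prime codegree. -/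
theorem result {G : Type*} [Group G] [Finite G] [Nontrivial G] : commutator G = ⊤ ↔ ∀ χ : Cfsg.IrrCharacter G, ¬ ((Nat.card G / (Nat.card {g : G // (χ : G → ℂ) g = (χ : G → ℂ) 1} * Cfsg.charDegree (χ : G → ℂ)))).Prime := by

  classical
  cases nonempty_fintype G
  constructor
  · intro hperf χ hprime
    set p := Nat.card G / (Nat.card {g : G // (χ : G → ℂ) g = (χ : G → ℂ) 1} * charDegree (χ : G → ℂ)) with hp
    haveI : Fact p.Prime := ⟨hprime⟩
    obtain ⟨K, hKn, hK⟩ := Cfsg.Agent.Lib.CharBlockKer.exists_ker_subgroup (IsIrrCharacter.isCharacter' χ.2)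
    haveI := hKn
    letI : Fintype (G ⧸ K) := Fintype.ofFinite _
    have hker : Nat.card {g : G // (χ : G → ℂ) g = (χ : G → ℂ) 1} = Nat.card K := by
      apply Nat.card_congr
      apply Equiv.subtypeEquivRight
      intro g
      exact (hK g).symm
    rw [hker] at hp
    have hd := Cfsg.Agent.Lib.CharInflate.deg_dvd_index K χ (fun n hn => (hK n).1 hn)
    obtain ⟨θ, hθ, hval⟩ := Cfsg.Agent.Lib.CharInflate.exists_quotient_irr K χ.2 (fun n hn => (hK n).1 hn)
    have hdeg : charDegree θ = charDegree (χ : G → ℂ) := by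
      have h1 : θ ((1 : G) : G ⧸ K) = (χ : G → ℂ) 1 := hval 1
      rw [QuotientGroup.mk_one] at h1
      simp only [charDegree, h1]
    obtain ⟨c, hc⟩ := hd
    have hdpos : 0 < charDegree (χ : G → ℂ) := Nat.pos_of_ne_zero (charDegree_ne_zero χ.2)
    have hcardG : Nat.card G = Nat.card K * (charDegree (χ : G → ℂ) * c) := by
      rw [← hc]
      exact (Subgroup.card_mul_index K).symm
    have hpc : p = c := by
      rw [hp, hcardG, ← mul_assoc]
      exact Nat.mul_div_cancel_left c (Nat.mul_pos Nat.card_pos hdpos)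
    have hcardQ : Nat.card (G ⧸ K) = p * charDegree θ := by
      rw [← Subgroup.index_eq_card, hc, hdeg, hpc, mul_comm]
    obtain ⟨P, hPn, hcardP, _, _, hC⟩ := Cfsg.Agent.S4796.core (⟨θ, hθ⟩ : IrrCharacter (G ⧸ K)) p hcardQ
    haveI := hPn
    haveI : IsCyclic P := isCyclic_of_prime_card hcardP
    have hQ := commutator_top_quot K hperf
    have hcen := central_of_perfect hQ P
    have hall : ∀ x : G ⧸ K, x ∈ P := by
      intro x
      apply hC
      rw [Subgroup.mem_centralizer_iff]
      intro n hn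
      exact (hcen x n hn).symm
    have hPtop : P = ⊤ := by
      rw [eq_top_iff]
      intro x _
      exact hall x
    have hab : ∀ a b : G ⧸ K, a * b = b * a := by
      intro a b
      obtain ⟨g, hg⟩ := IsCyclic.exists_generator (α := P)
      obtain ⟨i, hi⟩ := Subgroup.mem_zpowers_iff.1 (hg ⟨a, hall a⟩)
      obtain ⟨j, hj⟩ := Subgroup.mem_zpowers_iff.1 (hg ⟨b, hall b⟩)
      have h1 : a = (g : G ⧸ K) ^ i := by
        have := congrArg Subtype.val hi
        simpa using this.symm
      have h2 : b = (g : G ⧸ K) ^ j := by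
        have := congrArg Subtype.val hj
        simpa using this.symm
      rw [h1, h2]
      exact zpow_mul_comm _ i j
    have hbot : commutator (G ⧸ K) = ⊥ := by
      rw [commutator_def, eq_bot_iff, Subgroup.commutator_le]
      intro a _ b _
      rw [Subgroup.mem_bot, commutatorElement_def, hab a b]
      group
    rw [hQ] at hbot
    rw [hPtop, hbot, Subgroup.card_bot] at hcardP
    exact hprime.one_lt.ne hcardP
  · intro h
    by_contra hne
    obtain hc | ⟨N, hN, hle⟩ := eq_top_or_exists_le_coatom (commutator G)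
    · exact hne hc
    haveI hNn : N.Normal := by
      constructor
      intro n hn g
      have h1 : g * n * g⁻¹ * n⁻¹ ∈ commutator G := by
        rw [commutator_def]
        exact Subgroup.commutator_mem_commutator (Subgroup.mem_top g) (Subgroup.mem_top n)
      have h2 := N.mul_mem (hle h1) hn
      simpa using h2
    letI : Fintype (G ⧸ N) := Fintype.ofFinite _
    have hcomm : ∀ a b : G ⧸ N, a * b = b * a := by
      intro a b
      obtain ⟨x, rfl⟩ := QuotientGroup.mk_surjective a
      obtain ⟨y, rfl⟩ := QuotientGroup.mk_surjective b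
      have h1 : x * y * x⁻¹ * y⁻¹ ∈ commutator G := by
        rw [commutator_def]
        exact Subgroup.commutator_mem_commutator (Subgroup.mem_top x) (Subgroup.mem_top y)
      have h2 : ((x * y * x⁻¹ * y⁻¹ : G) : G ⧸ N) = 1 := (QuotientGroup.eq_one_iff _).2 (hle h1)
      simp only [QuotientGroup.mk_mul, QuotientGroup.mk_inv] at h2
      have h3 : (x : G ⧸ N) * y * (x : G ⧸ N)⁻¹ = y := mul_inv_eq_one.1 h2
      exact mul_inv_eq_iff_eq_mul.1 h3
    haveI : IsMulCommutative (G ⧸ N) := ⟨⟨hcomm⟩⟩
    obtain ⟨x₀, hx₀⟩ := SetLike.exists_not_mem_of_ne_top N hN.1 rfl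
    haveI hnt : Nontrivial (G ⧸ N) := ⟨⟨(x₀ : G ⧸ N), 1, fun h0 => hx₀ ((QuotientGroup.eq_one_iff x₀).1 h0)⟩⟩
    haveI hsimple : IsSimpleGroup (G ⧸ N) := by
      constructor
      intro L hL
      have hNL : N ≤ L.comap (QuotientGroup.mk' N) := by
        intro x hx
        show (QuotientGroup.mk' N) x ∈ L
        have : (QuotientGroup.mk' N) x = 1 := (QuotientGroup.eq_one_iff x).2 hx
        rw [this]
        exact L.one_mem
      rcases hNL.lt_or_eq with h1 | h1
      · right
        have h2 := hN.2 _ h1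
        rw [eq_top_iff]
        intro q _
        obtain ⟨x, rfl⟩ := QuotientGroup.mk_surjective q
        have : x ∈ L.comap (QuotientGroup.mk' N) := by rw [h2]; exact Subgroup.mem_top x
        exact this
      · left
        rw [eq_bot_iff]
        intro q hq
        obtain ⟨x, rfl⟩ := QuotientGroup.mk_surjective q
        have : x ∈ L.comap (QuotientGroup.mk' N) := hq
        rw [← h1] at this
        exact (QuotientGroup.eq_one_iff x).2 this
    have hr : (Nat.card (G ⧸ N)).Prime := Group.is_simple_iff_prime_card.1 hsimple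
    have hmin : ∀ L : Subgroup (G ⧸ N), L.Normal → L ≠ ⊥ → ¬ (Nat.card (G ⧸ N)) ∣ L.index := by
      intro L hL hLb hd
      have htop : L = ⊤ := (hsimple.eq_bot_or_eq_top_of_normal L hL).resolve_left hLb
      rw [htop, Subgroup.index_top] at hd
      exact hr.one_lt.ne' (Nat.dvd_one.1 hd)
    obtain ⟨θ, hθf, _⟩ := Cfsg.Agent.S4808.exists_faithful (Q := G ⧸ N) _ hr (dvd_refl _) hmin
    apply h ⟨fun g : G => (θ : G ⧸ N → ℂ) (g : G ⧸ N), Cfsg.Agent.Lib.CharInflate.isIrr_inflate N θ.2⟩
    have hker : Nat.card {g : G // (θ : G ⧸ N → ℂ) (g : G ⧸ N) = (θ : G ⧸ N → ℂ) ((1 : G) : G ⧸ N)} = Nat.card N := by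
      apply Nat.card_congr
      apply Equiv.subtypeEquivRight
      intro g
      constructor
      · intro h
        exact (QuotientGroup.eq_one_iff g).1 (hθf _ h)
      · intro h
        have : ((g : G) : G ⧸ N) = ((1 : G) : G ⧸ N) := by
          rw [QuotientGroup.mk_one]
          exact (QuotientGroup.eq_one_iff g).2 h
        rw [this]
    show (Nat.card G / (Nat.card {g : G // (θ : G ⧸ N → ℂ) (g : G ⧸ N) = (θ : G ⧸ N → ℂ) ((1 : G) : G ⧸ N)} *
      charDegree (fun g : G => (θ : G ⧸ N → ℂ) (g : G ⧸ N)))).Prime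
    have hdeg : charDegree (fun g : G => (θ : G ⧸ N → ℂ) (g : G ⧸ N)) = 1 := by
      have h1 : (θ : G ⧸ N → ℂ) 1 = 1 := (Cfsg.Agent.Lib.CharAb.commutative_iff_apply_one.1 hcomm) θ
      have h2 : charDegree (fun g : G => (θ : G ⧸ N → ℂ) (g : G ⧸ N)) = charDegree (θ : G ⧸ N → ℂ) := rfl
      rw [h2, charDegree, h1]
      simp
    rw [hker, hdeg, mul_one]
    have h3 : Nat.card G / Nat.card N = Nat.card (G ⧸ N) := by
      rw [← Subgroup.index_eq_card, ← Subgroup.card_mul_index N]
      exact Nat.mul_div_cancel_left _ Nat.card_pos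
    rw [h3]
    exact hr

end Cfsg.Agent.S4797
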