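import Cfsg.Statements.S4798
import Cfsg.Agent.Lib.CharAb
import Cfsg.Agent.Lib.CharCliff
import Cfsg.Agent.Lib.CharBlockDefect
import Cfsg.Agent.Lib.CharBlockInd
import Cfsg.Agent.Lib.CharDecomp

set_option autoImplicit false
set_option linter.all false
open Cfsg

namespace Cfsg.Agent.S4798


open Cfsg.Agent.Lib.CharOps Cfsg.Agent.Lib.CharIrr Cfsg.Agent.Lib.CharBlockDefect
open scoped ComplexConjugate


/-- Let p be a prime and χ a faithful irreducible complex character of the finite group G (χ(g) = χ(1) only for g = 1), so that its codegree is #G / χ(1). Then #G / χ(1) is a power of p if and only if χ is induced from a character of a Sylow p-subgroup of G. -/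
theorem result {G : Type*} [Group G] [Fintype G] (p : ℕ) [Fact p.Prime] (χ : Cfsg.IrrCharacter G) (hfaith : ∀ g : G, (χ : G → ℂ) g = (χ : G → ℂ) 1 → g = 1) : (∃ k : ℕ, Nat.card G = p ^ k * Cfsg.charDegree (χ : G → ℂ)) ↔ ∃ (P : Sylow p G) (θ : ↥(P : Subgroup G) → ℂ), Cfsg.IsCharacter ↥(P : Subgroup G) θ ∧ (χ : G → ℂ) = Cfsg.indFun (P : Subgroup G) θ := by

  classical
  have hp : p.Prime := Fact.out
  constructor
  · rintro ⟨k, hk⟩
    obtain ⟨P⟩ : Nonempty (Sylow p G) := inferInstance
    letI : Fintype (P : Subgroup G) := Fintype.ofFinite _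
    set d := charDegree (χ : G → ℂ) with hd
    obtain ⟨a, ha⟩ := IsPGroup.iff_card.1 P.isPGroup'
    set m := (P : Subgroup G).index with hm
    have hmp : ¬ p ∣ m := P.not_dvd_index
    have hcard : p ^ a * m = p ^ k * d := by
      rw [← ha, hm, Subgroup.card_mul_index, hk]
    have hdpos : 0 < d := Nat.pos_of_ne_zero (charDegree_ne_zero χ.2)
    have hka : k ≤ a := by
      by_contra hlt
      push_neg at hlt
      obtain ⟨j, rfl⟩ := Nat.exists_eq_add_of_lt hlt
      have h1 : p ^ a * m = p ^ a * (p ^ (j + 1) * d) := by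
        rw [hcard, ← mul_assoc, ← pow_add]
        rfl
      have h2 : m = p ^ (j + 1) * d := Nat.eq_of_mul_eq_mul_left (pow_pos hp.pos a) h1
      apply hmp
      rw [h2, pow_succ]
      exact Dvd.dvd.mul_right (Dvd.intro_left _ rfl) d
    obtain ⟨b, rfl⟩ := Nat.exists_eq_add_of_le hka
    have hdeq : d = p ^ b * m := by
      have h1 : p ^ k * d = p ^ k * (p ^ b * m) := by
        rw [← hcard, pow_add, mul_assoc]
      exact Nat.eq_of_mul_eq_mul_left (pow_pos hp.pos k) h1
    let α : ↥(P : Subgroup G) → ℂ := fun x => (χ : G → ℂ) x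
    have hχc := IsCharacter.isClassFunction' (IsIrrCharacter.isCharacter' χ.2)
    have hα : IsCharacter (P : Subgroup G) α := isCharacter_restrict _ (IsIrrCharacter.isCharacter' χ.2)
    have hex : ∃ θ : IrrCharacter (P : Subgroup G), classInner α (θ : ↥(P : Subgroup G) → ℂ) ≠ 0 ∧ charDegree (θ : ↥(P : Subgroup G) → ℂ) ≤ p ^ b := by
      by_contra hcon
      push_neg at hcon
      have hexp := congrFun (classFunction_expand (IsCharacter.isClassFunction' hα)) 1
      choose n hn using fun θ : IrrCharacter (P : Subgroup G) => exists_nat_classInner hα (IsIrrCharacter.isCharacter' θ.2)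
      have h1 : (d : ℂ) = ((∑ θ : IrrCharacter (P : Subgroup G), n θ * charDegree (θ : ↥(P : Subgroup G) → ℂ) : ℕ) : ℂ) := by
        push_cast
        have h2 : α 1 = (d : ℂ) := (charDegree_cast (IsIrrCharacter.isCharacter' χ.2)).symm
        rw [← h2, hexp]
        simp only [Finset.sum_apply, Pi.smul_apply, smul_eq_mul]
        refine Finset.sum_congr rfl fun θ _ => ?_
        rw [hn θ, charDegree_cast (IsIrrCharacter.isCharacter' θ.2)]
      have h2 : d = ∑ θ : IrrCharacter (P : Subgroup G), n θ * charDegree (θ : ↥(P : Subgroup G) → ℂ) := by exact_mod_cast h1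
      have h3 : p ^ (b + 1) ∣ d := by
        rw [h2]
        refine Finset.dvd_sum fun θ _ => ?_
        by_cases hn0 : n θ = 0
        · rw [hn0, zero_mul]
          exact dvd_zero _
        · have h4 : classInner α (θ : ↥(P : Subgroup G) → ℂ) ≠ 0 := by
            rw [hn θ]
            exact_mod_cast hn0
          have h5 := hcon θ h4
          have h6 : charDegree (θ : ↥(P : Subgroup G) → ℂ) ∣ p ^ (k + b) := by
            rw [← ha]
            exact charDegree_dvd_card θ.2
          obtain ⟨c, hc, hc2⟩ := (Nat.dvd_prime_pow hp).1 h6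
          have h7 : b < c := by
            by_contra hlt
            push_neg at hlt
            rw [hc2] at h5
            exact absurd (Nat.pow_le_pow_right hp.pos hlt) (not_le.2 h5)
          rw [hc2]
          exact Dvd.dvd.mul_left (pow_dvd_pow p h7) _
      rw [hdeq, pow_succ] at h3
      exact hmp (Nat.dvd_of_mul_dvd_mul_left (pow_pos hp.pos b) h3)
    obtain ⟨θ₀, hθ₀, hθ₀d⟩ := hex
    refine ⟨P, θ₀, IsIrrCharacter.isCharacter' θ₀.2, ?_⟩
    have hφ : IsCharacter G (indFun (P : Subgroup G) (θ₀ : ↥(P : Subgroup G) → ℂ)) := isCharacter_indFun _ (IsIrrCharacter.isCharacter' θ₀.2)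
    obtain ⟨M, hM⟩ := exists_nat_classInner hφ (IsIrrCharacter.isCharacter' χ.2)
    have hM0 : M ≠ 0 := by
      rintro rfl
      apply hθ₀
      rw [frobenius_reciprocity _ _ hχc] at hM
      rw [← classInner_conj]
      have : classInner (θ₀ : ↥(P : Subgroup G) → ℂ) (fun h : (P : Subgroup G) => (χ : G → ℂ) h) = 0 := by simpa using hM
      rw [show (fun h : (P : Subgroup G) => (χ : G → ℂ) h) = α from rfl] at this
      rw [this]
      simp
    have hsub := Cfsg.Agent.Lib.CharAb.sub_isCharacter hφ χ.2 M hM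
    obtain ⟨k', hk'⟩ := exists_degree hsub
    have hφ1 : indFun (P : Subgroup G) (θ₀ : ↥(P : Subgroup G) → ℂ) 1 = ((m * charDegree (θ₀ : ↥(P : Subgroup G) → ℂ) : ℕ) : ℂ) := by
      rw [Cfsg.Agent.Lib.CharBlockInd.indFun_one_eq, ← charDegree_cast (IsIrrCharacter.isCharacter' θ₀.2)]
      push_cast
      rfl
    have heq1 : m * charDegree (θ₀ : ↥(P : Subgroup G) → ℂ) = k' + M * d := by
      have h1 : ((m * charDegree (θ₀ : ↥(P : Subgroup G) → ℂ) : ℕ) : ℂ) = ((k' + M * d : ℕ) : ℂ) := by
        rw [← hφ1]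
        push_cast
        rw [← hk']
        simp only [Pi.sub_apply, Pi.smul_apply, smul_eq_mul]
        rw [← charDegree_cast (IsIrrCharacter.isCharacter' χ.2)]
        ring
      exact_mod_cast h1
    have hle1 : m * charDegree (θ₀ : ↥(P : Subgroup G) → ℂ) ≤ d := by
      rw [hdeq, mul_comm]
      exact Nat.mul_le_mul_right _ hθ₀d
    have hM1 : M = 1 := by
      have h1 : M * d ≤ 1 * d := by
        rw [one_mul]
        omega
      have h2 := Nat.le_of_mul_le_mul_right h1 hdpos
      omega
    have hk0 : k' = 0 := by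
      rw [hM1, one_mul] at heq1
      omega
    have hzero := Cfsg.Agent.Lib.CharCliff.eq_zero_of_degree_zero hsub (by rw [hk', hk0]; simp)
    funext g
    have h3 := congrFun hzero g
    simp only [Pi.sub_apply, Pi.smul_apply, smul_eq_mul, hM1, Nat.cast_one, one_mul, Pi.zero_apply] at h3
    exact (sub_eq_zero.1 h3).symm
  · rintro ⟨P, θ, hθ, heq⟩
    letI : Fintype (P : Subgroup G) := Fintype.ofFinite _
    obtain ⟨t, ht⟩ := exists_degree hθ
    obtain ⟨a, ha⟩ := IsPGroup.iff_card.1 P.isPGroup'
    have hd : charDegree (χ : G → ℂ) = (P : Subgroup G).index * t := by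
      have h1 := charDegree_cast (IsIrrCharacter.isCharacter' χ.2)
      have h1' : (χ : G → ℂ) 1 = indFun (P : Subgroup G) θ 1 := congrFun heq 1
      rw [h1', Cfsg.Agent.Lib.CharBlockInd.indFun_one_eq, ht] at h1
      exact_mod_cast h1
    obtain ⟨c, hc⟩ := charDegree_dvd_card χ.2
    have hidx : 0 < (P : Subgroup G).index := Nat.pos_of_ne_zero Subgroup.index_ne_zero_of_finite
    have h2 : Nat.card (P : Subgroup G) = t * c := by
      have h3 := Subgroup.card_mul_index (P : Subgroup G)
      rw [hc, hd, mul_comm, mul_assoc] at h3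
      exact Nat.eq_of_mul_eq_mul_left hidx h3
    have h4 : c ∣ p ^ a := by
      rw [← ha, h2]
      exact Dvd.intro_left _ rfl
    obtain ⟨k, _, hk⟩ := (Nat.dvd_prime_pow hp).1 h4
    refine ⟨k, ?_⟩
    rw [hc, hk, mul_comm]

end Cfsg.Agent.S4798
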