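import Cfsg.Statements.S4801
import Cfsg.Agent.Lib.CharBlockKer
import Cfsg.Agent.Lib.CharInflate
import Cfsg.Agent.Lib.CharBlockDefect
import Cfsg.Agent.Lib.ThompsonDeg
import Cfsg.Agent.Lib.CharAb
import Cfsg.Agent.Lib.CharIso
import Cfsg.Agent.Lib.CharOrtho

set_option autoImplicit false
set_option linter.all false
open Cfsg

namespace Cfsg.Agent.S4801


open Cfsg.Agent.Lib.CharOps Cfsg.Agent.Lib.CharIrr Cfsg.Agent.Lib.CharBlockDefect
open scoped ComplexConjugate

universe u

theorem cod_dvd {G : Type*} [Group G] [Finite G] (χ : IrrCharacter G) :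
    Nat.card G / (Nat.card {g : G // (χ : G → ℂ) g = (χ : G → ℂ) 1} * charDegree (χ : G → ℂ)) ∣ Nat.card G := by
  classical
  cases nonempty_fintype G
  obtain ⟨K, hKn, hK⟩ := Cfsg.Agent.Lib.CharBlockKer.exists_ker_subgroup (IsIrrCharacter.isCharacter' χ.2)
  haveI := hKn
  have hker : Nat.card {g : G // (χ : G → ℂ) g = (χ : G → ℂ) 1} = Nat.card K := by
    apply Nat.card_congr
    apply Equiv.subtypeEquivRight
    intro g
    exact (hK g).symm
  rw [hker]
  have hd := Cfsg.Agent.Lib.CharInflate.deg_dvd_index K χ (fun n hn => (hK n).1 hn)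
  have hdvd : Nat.card K * charDegree (χ : G → ℂ) ∣ Nat.card G := by
    rw [← Subgroup.card_mul_index K]
    exact Nat.mul_dvd_mul_left _ hd
  exact Nat.div_dvd_of_dvd hdvd

theorem exists_nondvd {S : Type u} [Group S] [Fintype S] (hS : IsSimpleGroup S) (p : ℕ) (hp : p.Prime) (hpS : p ∣ Nat.card S) :
    ∃ χ : IrrCharacter S, (χ : S → ℂ) ≠ (fun _ => 1) ∧ ¬ p ∣ charDegree (χ : S → ℂ) := by
  classical
  haveI : Fact p.Prime := ⟨hp⟩
  by_contra hcon
  push_neg at hcon
  let one : IrrCharacter S := ⟨fun _ => 1, Cfsg.Agent.Lib.CharIso.isIrr_one⟩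
  have hone1 : charDegree (one : S → ℂ) = 1 := by
    have := charDegree_cast (IsIrrCharacter.isCharacter' one.2)
    have h2 : (one : S → ℂ) 1 = 1 := rfl
    rw [h2] at this
    exact_mod_cast this
  have hyp : Cfsg.Agent.Lib.ThompsonDeg.Hyp p S := by
    intro χ hχ
    apply hcon χ
    intro h
    apply hχ
    have h3 : χ = one := Subtype.ext h
    rw [h3, hone1]
  obtain ⟨N, hNn, hNc, j, hj⟩ := Cfsg.Agent.Lib.ThompsonDeg.thompson p hp _ S rfl hyp
  rcases hS.eq_bot_or_eq_top_of_normal N hNn with rfl | rfl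
  · rw [Subgroup.index_bot] at hj
    have hPG : IsPGroup p S := IsPGroup.of_card hj
    haveI : Nontrivial S := hS.toNontrivial
    have hcen : Nontrivial (Subgroup.center S) := hPG.center_nontrivial
    have hct : Subgroup.center S = ⊤ := by
      rcases hS.eq_bot_or_eq_top_of_normal (Subgroup.center S) inferInstance with h | h
      · rw [h] at hcen
        exact absurd hcen (not_nontrivial_iff_subsingleton.2 inferInstance)
      · exact h
    have hcomm : ∀ a b : S, a * b = b * a := by
      intro a b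
      have : b ∈ Subgroup.center S := by rw [hct]; exact Subgroup.mem_top b
      exact (Subgroup.mem_center_iff.1 this a)
    have hall := Cfsg.Agent.Lib.CharAb.commutative_iff_apply_one.1 hcomm
    have hex : ∃ χ : IrrCharacter S, χ ≠ one := by
      by_contra hh
      push_neg at hh
      have h1 := Cfsg.Agent.Lib.CharAb.sum_deg_sq (G := S)
      rw [Finset.sum_eq_single one (fun b _ hb => absurd (hh b) hb) (fun h => absurd (Finset.mem_univ _) h)] at h1
      have h2 : Cfsg.Agent.Lib.CharAb.deg one = 1 := by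
        have h3 := Cfsg.Agent.Lib.CharAb.apply_one_eq_deg one
        have h4 : (one : S → ℂ) 1 = 1 := rfl
        rw [h4] at h3
        exact_mod_cast h3.symm
      rw [h2, one_pow] at h1
      have h5 : Nat.card S ≠ 1 := Finite.one_lt_card.ne'
      exact h5 h1.symm
    obtain ⟨χ, hχ⟩ := hex
    have h1 := hcon χ (fun h => hχ (Subtype.ext h))
    have h2 := charDegree_cast (IsIrrCharacter.isCharacter' χ.2)
    rw [hall χ] at h2
    have h3 : charDegree (χ : S → ℂ) = 1 := by exact_mod_cast h2
    rw [h3] at h1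
    exact hp.one_lt.ne' (Nat.dvd_one.1 h1)
  · rw [Subgroup.card_top] at hNc
    exact (Nat.Prime.coprime_iff_not_dvd hp).1 hNc.symm hpS


/-- The codegree of an irreducible complex character χ of a finite group G is [G : ker χ] / χ(1), where ker χ is the set of elements at which χ takes the value χ(1). Let S be a finite simple group and G a finite group such that every codegree of an irreducible character of S is a codegree of an irreducible character of G. Then the order of S divides the order of G. -/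
theorem result {S : Type*} [Group S] [Finite S] (hS : IsSimpleGroup S) {G : Type*} [Group G] [Finite G] (hsub : ∀ χ : Cfsg.IrrCharacter S, ∃ ψ : Cfsg.IrrCharacter G, (Nat.card S / (Nat.card {g : S // (χ : S → ℂ) g = (χ : S → ℂ) 1} * Cfsg.charDegree (χ : S → ℂ))) = (Nat.card G / (Nat.card {g : G // (ψ : G → ℂ) g = (ψ : G → ℂ) 1} * Cfsg.charDegree (ψ : G → ℂ)))) : Nat.card S ∣ Nat.card G := by

  classical
  cases nonempty_fintype S
  have hSpos : Nat.card S ≠ 0 := Nat.card_pos.ne'
  rw [Nat.dvd_iff_prime_pow_dvd_dvd]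
  intro p k hp hk
  by_cases hk0 : k = 0
  · rw [hk0, pow_zero]
    exact one_dvd _
  have hpS : p ∣ Nat.card S := (dvd_pow_self p hk0).trans hk
  obtain ⟨χ, hχ1, hχd⟩ := exists_nondvd hS p hp hpS
  obtain ⟨K, hKn, hK⟩ := Cfsg.Agent.Lib.CharBlockKer.exists_ker_subgroup (IsIrrCharacter.isCharacter' χ.2)
  have hK1 : K = ⊥ := by
    rcases hS.eq_bot_or_eq_top_of_normal K hKn with h | h
    · exact h
    · exfalso
      have hconst : ∀ g, (χ : S → ℂ) g = (χ : S → ℂ) 1 := fun g => (hK g).1 (by rw [h]; exact Subgroup.mem_top g)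
      have h1 := Cfsg.Agent.Lib.CharOrtho.classInner_irr_self χ.2
      rw [Cfsg.classInner] at h1
      simp only [hconst] at h1
      rw [Finset.sum_const, Finset.card_univ, nsmul_eq_mul, ← Nat.card_eq_fintype_card, ← mul_assoc,
        inv_mul_cancel₀ (by exact_mod_cast hSpos), one_mul, ← charDegree_cast (IsIrrCharacter.isCharacter' χ.2)] at h1
      simp only [map_natCast] at h1
      have h2 : charDegree (χ : S → ℂ) * charDegree (χ : S → ℂ) = 1 := by exact_mod_cast h1
      have h3 : charDegree (χ : S → ℂ) = 1 := Nat.eq_one_of_mul_eq_one_right h2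
      apply hχ1
      funext g
      rw [hconst g, ← charDegree_cast (IsIrrCharacter.isCharacter' χ.2), h3]
      simp
  have hker : Nat.card {g : S // (χ : S → ℂ) g = (χ : S → ℂ) 1} = 1 := by
    have : Nat.card {g : S // (χ : S → ℂ) g = (χ : S → ℂ) 1} = Nat.card K := by
      apply Nat.card_congr
      apply Equiv.subtypeEquivRight
      intro g
      exact (hK g).symm
    rw [this, hK1, Subgroup.card_bot]
  obtain ⟨ψ, hψ⟩ := hsub χ
  have h1 := cod_dvd ψ
  rw [← hψ, hker, one_mul] at h1
  have h2 : Nat.card S / charDegree (χ : S → ℂ) * charDegree (χ : S → ℂ) = Nat.card S :=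
    Nat.div_mul_cancel (charDegree_dvd_card χ.2)
  have h3 : p ^ k ∣ Nat.card S / charDegree (χ : S → ℂ) * charDegree (χ : S → ℂ) := by rw [h2]; exact hk
  have hcop : Nat.Coprime (p ^ k) (charDegree (χ : S → ℂ)) :=
    Nat.Coprime.pow_left k ((Nat.Prime.coprime_iff_not_dvd hp).2 hχd)
  exact (hcop.dvd_of_dvd_mul_right h3).trans h1

end Cfsg.Agent.S4801
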