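import Cfsg.Statements.S4802
import Cfsg.Agent.Lib.CharKernel

set_option autoImplicit false
set_option linter.style.haveILetI false
set_option linter.unusedVariables false
open scoped ComplexConjugate
open Cfsg

namespace Cfsg.Agent.S4802

/-- Let N < M be normal subgroups of the finite group G and g ∈ M ∖ N. Then the conjugacy class of g is exactly M ∖ N if and only if every irreducible complex character of G whose kernel contains N takes the same value at all elements of M ∖ N, and every irreducible complex character of G whose kernel does not contain N vanishes at g. -/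
theorem result {G : Type*} [Group G] [Finite G] (N M : Subgroup G) [N.Normal] [M.Normal] (hNM : N < M) (g : G) (hgM : g ∈ M) (hgN : g ∉ N) : {h : G | IsConj g h} = (M : Set G) \ (N : Set G) ↔ ((∀ χ : Cfsg.IrrCharacter G, (∀ x ∈ N, (χ : G → ℂ) x = (χ : G → ℂ) 1) → ∀ x ∈ M, x ∉ N → ∀ y ∈ M, y ∉ N → (χ : G → ℂ) x = (χ : G → ℂ) y) ∧ (∀ χ : Cfsg.IrrCharacter G, (∃ x ∈ N, (χ : G → ℂ) x ≠ (χ : G → ℂ) 1) → (χ : G → ℂ) g = 0)) := by
  classical
  cases nonempty_fintype G
  open Cfsg.Agent.Lib.CharKernel Cfsg.Agent.Lib.CharIrr Cfsg.Agent.Lib.CharOps in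
  have hMN : ∀ h : G, IsConj g h → h ∈ M ∧ h ∉ N := by
    intro h hc
    obtain ⟨c, rfl⟩ := isConj_iff.mp hc
    refine ⟨‹M.Normal›.conj_mem _ hgM c, fun hn => hgN ?_⟩
    have := ‹N.Normal›.conj_mem _ hn c⁻¹
    simpa [mul_assoc] using this
  constructor
  · intro hset
    have hconj : ∀ x ∈ M, x ∉ N → IsConj g x := by
      intro x hx hxN
      have : x ∈ {h : G | IsConj g h} := by
        rw [hset]
        exact ⟨hx, hxN⟩
      exact this
    constructor
    · intro χ _ x hx hxN y hy hyN
      have hxy : IsConj x y := (hconj x hx hxN).symm.trans (hconj y hy hyN)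
      exact classFun_eq_of_isConj (IsCharacter.isClassFunction' (IsIrrCharacter.isCharacter' χ.2)) hxy
    · intro χ hker
      letI : Fintype N := Fintype.ofFinite _
      have h0 := sum_coset_eq_zero N χ.2 hker g
      have hall : ∀ n : N, (χ : G → ℂ) ((n : G) * g) = (χ : G → ℂ) g := by
        intro n
        apply classFun_eq_of_isConj (IsCharacter.isClassFunction' (IsIrrCharacter.isCharacter' χ.2))
        apply IsConj.symm
        apply hconj
        · exact M.mul_mem (hNM.le n.2) hgM
        · intro h
          apply hgN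
          have := N.mul_mem (N.inv_mem n.2) h
          simpa using this
      simp only [hall, Finset.sum_const, Finset.card_univ, nsmul_eq_mul] at h0
      have hc : (Fintype.card N : ℂ) ≠ 0 := by exact_mod_cast Fintype.card_pos.ne'
      exact (mul_eq_zero.mp h0).resolve_left hc
  · rintro ⟨h1, h2⟩
    ext h
    constructor
    · intro hc
      exact hMN h hc
    · rintro ⟨hhM, hhN⟩
      by_contra hnc
      have hnc' : ¬ IsConj g h := hnc
      have hcol := column_orthogonality g h
      rw [if_neg hnc'] at hcol
      -- each term is `|χ g|^2`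
      have hterm : ∀ χ : Cfsg.IrrCharacter G, (χ : G → ℂ) g * conj ((χ : G → ℂ) h) = ((‖(χ : G → ℂ) g‖ ^ 2 : ℝ) : ℂ) := by
        intro χ
        by_cases hker : ∀ x ∈ N, (χ : G → ℂ) x = (χ : G → ℂ) 1
        · rw [h1 χ hker h hhM hhN g hgM hgN]
          push_cast
          exact Complex.mul_conj' _
        · push Not at hker
          obtain ⟨x, hx, hxne⟩ := hker
          rw [h2 χ ⟨x, hx, hxne⟩]
          simp
      simp only [hterm] at hcol
      have hreal : (∑ χ : Cfsg.IrrCharacter G, ‖(χ : G → ℂ) g‖ ^ 2) = 0 := by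
        exact_mod_cast hcol
      have hzero := (Finset.sum_eq_zero_iff_of_nonneg (fun _ _ => by positivity)).mp hreal
        ⟨fun _ => 1, Cfsg.Agent.Lib.CharIso.isIrr_one⟩ (Finset.mem_univ _)
      simp at hzero

end Cfsg.Agent.S4802
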