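import Cfsg.Statements.S4814
import Cfsg.Agent.Lib.CharCentral
import Cfsg.Agent.Lib.CharIso

set_option autoImplicit false
set_option linter.all false
open Cfsg

namespace Cfsg.Agent.S4814


open Cfsg
open scoped ComplexConjugate
open Cfsg.Agent.Lib.CharCentral Cfsg.Agent.Lib.CharIrr Cfsg.Agent.Lib.CharOps Cfsg.Agent.Lib.CharCore

variable {G : Type*} [Group G] [Fintype G]

theorem norm_le_deg {χ : G → ℂ} (hχ : IsIrrCharacter G χ) (g : G) : ‖χ g‖ ≤ ‖χ 1‖ := by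
  obtain ⟨n, ρ, _, rfl⟩ := hχ
  have h1 := norm_character_le ρ g
  have h2 : ρ.character 1 = (Module.finrank ℂ (Fin n → ℂ) : ℂ) := by
    rw [Representation.char_one]
  rw [h2]
  simpa using h1

/-- `∑_b χ(b) χ(b⁻¹ w) · χ(1) = |G| χ(w)`. -/
theorem sum_mul_inv {χ : G → ℂ} (hχ : IsIrrCharacter G χ) (w : G) :
    (∑ b, χ b * χ (b⁻¹ * w)) * χ 1 = (Nat.card G : ℂ) * χ w := by
  have hc := IsIrrCharacter.isCharacter' hχ
  have hf : IsClassFunction G (fun g => χ g⁻¹) := by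
    intro g h
    have : (h * g * h⁻¹)⁻¹ = h * g⁻¹ * h⁻¹ := by group
    simp only [this]
    exact (IsCharacter.isClassFunction' hc) _ _
  have h1 := sum_mul_irr hχ hf w
  have h2 : ∑ g, χ g⁻¹ * χ (g * w) = ∑ b, χ b * χ (b⁻¹ * w) := by
    apply Fintype.sum_equiv (Equiv.inv G)
    intro g
    simp
  have h3 : ∑ g, χ g⁻¹ * χ g = (Nat.card G : ℂ) := by
    have h4 := classInner_irr hχ hχ
    rw [if_pos rfl, Cfsg.classInner] at h4
    have hG : (Nat.card G : ℂ) ≠ 0 := by exact_mod_cast Nat.card_pos.ne'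
    have h5 : ∑ g, χ g * conj (χ g) = (Nat.card G : ℂ) := by
      field_simp at h4
      exact h4
    rw [← h5]
    apply Finset.sum_congr rfl
    intro g _
    rw [character_inv_of_isCharacter hc]
    ring
  rw [h2, h3] at h1
  exact h1

/-- `∑_{a,b} χ([a,b] w) · χ(1)² = |G|² χ(w)`. -/
theorem sum_comm_mul {χ : G → ℂ} (hχ : IsIrrCharacter G χ) (w : G) :
    (∑ b, ∑ a, χ (a * b * a⁻¹ * b⁻¹ * w)) * (χ 1 * χ 1) = (Nat.card G : ℂ) * (Nat.card G : ℂ) * χ w := by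
  have h1 : ∀ b : G, (∑ a, χ (a * b * a⁻¹ * b⁻¹ * w)) * χ 1 = (Nat.card G : ℂ) * χ b * χ (b⁻¹ * w) := by
    intro b
    have := sum_conj_mul_irr hχ b (b⁻¹ * w)
    rw [← this]
    congr 1
    apply Finset.sum_congr rfl
    intro a _
    congr 1
    group
  calc (∑ b, ∑ a, χ (a * b * a⁻¹ * b⁻¹ * w)) * (χ 1 * χ 1)
      = (∑ b, (∑ a, χ (a * b * a⁻¹ * b⁻¹ * w)) * χ 1) * χ 1 := by
        simp only [Finset.sum_mul, mul_assoc]
    _ = (∑ b, (Nat.card G : ℂ) * χ b * χ (b⁻¹ * w)) * χ 1 := by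
        rw [Finset.sum_congr rfl (fun b _ => h1 b)]
    _ = (Nat.card G : ℂ) * ((∑ b, χ b * χ (b⁻¹ * w)) * χ 1) := by
        simp only [Finset.sum_mul, Finset.mul_sum, mul_assoc]
    _ = _ := by
        rw [sum_mul_inv hχ w]
        ring

/-- The sum over quadruples. -/
theorem sum_quad {χ : G → ℂ} (hχ : IsIrrCharacter G χ) :
    (∑ d, ∑ c, ∑ b, ∑ a, χ ((a * b * a⁻¹ * b⁻¹) * (c * d * c⁻¹ * d⁻¹))) * (χ 1 * χ 1 * χ 1) =
      (Nat.card G : ℂ) ^ 4 := by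
  have hdeg := degree_ne_zero hχ
  have h1 : ∀ w : G, (∑ b, ∑ a, χ ((a * b * a⁻¹ * b⁻¹) * w)) * (χ 1 * χ 1) =
      (Nat.card G : ℂ) * (Nat.card G : ℂ) * χ w := fun w => sum_comm_mul hχ w
  have h2 : (∑ d, ∑ c, χ (c * d * c⁻¹ * d⁻¹)) * (χ 1 * χ 1) =
      (Nat.card G : ℂ) * (Nat.card G : ℂ) * χ 1 := by
    have := sum_comm_mul hχ (1 : G)
    simpa using this
  have h3 : (∑ d, ∑ c, ∑ b, ∑ a, χ ((a * b * a⁻¹ * b⁻¹) * (c * d * c⁻¹ * d⁻¹))) * (χ 1 * χ 1) =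
      (Nat.card G : ℂ) * (Nat.card G : ℂ) * (∑ d, ∑ c, χ (c * d * c⁻¹ * d⁻¹)) := by
    rw [Finset.sum_mul, Finset.mul_sum]
    apply Finset.sum_congr rfl
    intro d _
    rw [Finset.sum_mul, Finset.mul_sum]
    apply Finset.sum_congr rfl
    intro c _
    exact h1 _
  have h4 : (∑ d, ∑ c, χ (c * d * c⁻¹ * d⁻¹)) * χ 1 = (Nat.card G : ℂ) * (Nat.card G : ℂ) := by
    have h5 : ((∑ d, ∑ c, χ (c * d * c⁻¹ * d⁻¹)) * χ 1) * χ 1 = ((Nat.card G : ℂ) * (Nat.card G : ℂ)) * χ 1 := by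
      rw [mul_assoc, h2]
    exact mul_right_cancel₀ hdeg h5
  calc _ = ((∑ d, ∑ c, ∑ b, ∑ a, χ ((a * b * a⁻¹ * b⁻¹) * (c * d * c⁻¹ * d⁻¹))) * (χ 1 * χ 1)) * χ 1 := by ring
    _ = (Nat.card G : ℂ) * (Nat.card G : ℂ) * ((∑ d, ∑ c, χ (c * d * c⁻¹ * d⁻¹)) * χ 1) := by
        rw [h3]
        ring
    _ = _ := by
        rw [h4]
        ring

/-- The Frobenius-type formula for the number of solutions of `[a,b][c,d] = z`. -/
theorem count_formula (z : G) :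
    (Nat.card {p : G × G × G × G // (p.1 * p.2.1 * p.1⁻¹ * p.2.1⁻¹) * (p.2.2.1 * p.2.2.2 * p.2.2.1⁻¹ * p.2.2.2⁻¹) = z} : ℂ) =
      (Nat.card G : ℂ) ^ 3 * ∑ χ : IrrCharacter G, (χ : G → ℂ) z / ((χ : G → ℂ) 1) ^ 3 := by
  classical
  let P : G × G × G × G → Prop := fun _ => True
  let e : G × G × G × G → G := fun p =>
    (p.1 * p.2.1 * p.1⁻¹ * p.2.1⁻¹) * (p.2.2.1 * p.2.2.2 * p.2.2.1⁻¹ * p.2.2.2⁻¹)
  let N : G → ℂ := fun z => (Nat.card {p : G × G × G × G // P p ∧ e p = z} : ℂ)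
  have hG : (Nat.card G : ℂ) ≠ 0 := by exact_mod_cast Nat.card_pos.ne'
  have hN : IsClassFunction G N := by
    intro z h
    simp only [N]
    congr 1
    apply Nat.card_congr
    refine ⟨fun p => ⟨(h⁻¹ * p.1.1 * h, h⁻¹ * p.1.2.1 * h, h⁻¹ * p.1.2.2.1 * h, h⁻¹ * p.1.2.2.2 * h), trivial, ?_⟩,
      fun p => ⟨(h * p.1.1 * h⁻¹, h * p.1.2.1 * h⁻¹, h * p.1.2.2.1 * h⁻¹, h * p.1.2.2.2 * h⁻¹), trivial, ?_⟩, ?_, ?_⟩
    · have h3 := p.2.2
      simp only [e] at h3 ⊢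
      calc _ = h⁻¹ * ((p.1.1 * p.1.2.1 * p.1.1⁻¹ * p.1.2.1⁻¹) * (p.1.2.2.1 * p.1.2.2.2 * p.1.2.2.1⁻¹ * p.1.2.2.2⁻¹)) * h := by group
        _ = z := by rw [h3]; group
    · have h3 := p.2.2
      simp only [e] at h3 ⊢
      calc _ = h * ((p.1.1 * p.1.2.1 * p.1.1⁻¹ * p.1.2.1⁻¹) * (p.1.2.2.1 * p.1.2.2.2 * p.1.2.2.1⁻¹ * p.1.2.2.2⁻¹)) * h⁻¹ := by group
        _ = h * z * h⁻¹ := by rw [h3]
    · intro p
      apply Subtype.ext
      ext <;> simp <;> group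
    · intro p
      apply Subtype.ext
      ext <;> simp <;> group
  have hNz : N z = (Nat.card {p : G × G × G × G // (p.1 * p.2.1 * p.1⁻¹ * p.2.1⁻¹) * (p.2.2.1 * p.2.2.2 * p.2.2.1⁻¹ * p.2.2.2⁻¹) = z} : ℂ) := by
    simp only [N]
    congr 1
    apply Nat.card_congr
    exact Equiv.subtypeEquivRight fun p => by simp [P, e]
  rw [← hNz]
  have hexp := congrFun (classFunction_expand hN) z
  simp only [Finset.sum_apply, Pi.smul_apply, smul_eq_mul] at hexp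
  rw [hexp, Finset.mul_sum]
  refine Finset.sum_congr rfl fun χ _ => ?_
  have hdeg := degree_ne_zero χ.2
  obtain ⟨d, hd0, hd⟩ := exists_degree_pos χ.2
  have hinner : classInner N (χ : G → ℂ) = (Nat.card G : ℂ) ^ 3 / ((χ : G → ℂ) 1) ^ 3 := by
    rw [Cfsg.classInner]
    simp only [N]
    rw [sum_card_fiber P e (fun z => conj ((χ : G → ℂ) z))]
    simp only [P, if_true]
    rw [← map_sum]
    have h1 : ∑ p : G × G × G × G, (χ : G → ℂ) (e p) =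
        ∑ d, ∑ c, ∑ b, ∑ a, (χ : G → ℂ) ((a * b * a⁻¹ * b⁻¹) * (c * d * c⁻¹ * d⁻¹)) := by
      let E : G × G × G × G ≃ G × G × G × G :=
        ⟨fun q => (q.2.2.2, q.2.2.1, q.2.1, q.1), fun p => (p.2.2.2, p.2.2.1, p.2.1, p.1),
          fun _ => rfl, fun _ => rfl⟩
      rw [← Equiv.sum_comp E]
      simp only [Fintype.sum_prod_type]
      rfl
    rw [h1]
    have h2 := sum_quad χ.2
    have hd3 : ((χ : G → ℂ) 1 * (χ : G → ℂ) 1 * (χ : G → ℂ) 1) ≠ 0 := mul_ne_zero (mul_ne_zero hdeg hdeg) hdeg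
    have h3 : ∑ d, ∑ c, ∑ b, ∑ a, (χ : G → ℂ) ((a * b * a⁻¹ * b⁻¹) * (c * d * c⁻¹ * d⁻¹)) =
        (Nat.card G : ℂ) ^ 4 / ((χ : G → ℂ) 1 * (χ : G → ℂ) 1 * (χ : G → ℂ) 1) := eq_div_of_mul_eq hd3 h2
    rw [h3, hd]
    simp only [map_div₀, map_mul, map_pow, Complex.conj_natCast]
    field_simp
  rw [hinner]
  field_simp


/-- Let G be a finite group such that the sum, over the irreducible complex characters χ of G, of 1/χ(1)² is less than 2. Then every element of G is a product of two commutators. -/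
theorem result {G : Type*} [Group G] [Finite G]
    (h : ∑ᶠ χ : Cfsg.IrrCharacter G, 1 / ‖(χ : G → ℂ) 1‖ ^ 2 < (2 : ℝ)) (g : G) :
    ∃ a b c d : G, (a * b * a⁻¹ * b⁻¹) * (c * d * c⁻¹ * d⁻¹) = g := by
  classical
  cases nonempty_fintype G
  have hform := count_formula g
  by_contra hcon
  push_neg at hcon
  haveI : IsEmpty {p : G × G × G × G // (p.1 * p.2.1 * p.1⁻¹ * p.2.1⁻¹) * (p.2.2.1 * p.2.2.2 * p.2.2.1⁻¹ * p.2.2.2⁻¹) = g} :=
    ⟨fun p => hcon _ _ _ _ p.2⟩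
  rw [Nat.card_of_isEmpty, Nat.cast_zero] at hform
  have hG : (Nat.card G : ℂ) ≠ 0 := by exact_mod_cast Nat.card_pos.ne'
  have hsum : ∑ χ : IrrCharacter G, (χ : G → ℂ) g / ((χ : G → ℂ) 1) ^ 3 = 0 := by
    have := hform.symm
    rw [mul_eq_zero] at this
    rcases this with h | h
    · exact absurd h (pow_ne_zero 3 hG)
    · exact h
  let one : IrrCharacter G := ⟨fun _ => 1, Cfsg.Agent.Lib.CharIso.isIrr_one⟩
  rw [finsum_eq_sum_of_fintype] at h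
  rw [← Finset.add_sum_erase _ _ (Finset.mem_univ one)] at hsum h
  have hone1 : (one : G → ℂ) g / ((one : G → ℂ) 1) ^ 3 = 1 := by
    simp [one]
  have hone2 : 1 / ‖(one : G → ℂ) 1‖ ^ 2 = (1 : ℝ) := by
    simp [one]
  rw [hone1] at hsum
  rw [hone2] at h
  have hbound : ‖∑ χ ∈ Finset.univ.erase one, (χ : G → ℂ) g / ((χ : G → ℂ) 1) ^ 3‖ ≤
      ∑ χ ∈ Finset.univ.erase one, 1 / ‖(χ : G → ℂ) 1‖ ^ 2 := by
    apply (norm_sum_le _ _).trans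
    apply Finset.sum_le_sum
    intro χ _
    rw [norm_div, norm_pow]
    have h1 := norm_le_deg χ.2 g
    have hdeg := degree_ne_zero χ.2
    have hpos : 0 < ‖(χ : G → ℂ) 1‖ := norm_pos_iff.mpr hdeg
    rw [div_le_div_iff₀ (by positivity) (by positivity)]
    calc ‖(χ : G → ℂ) g‖ * ‖(χ : G → ℂ) 1‖ ^ 2 ≤ ‖(χ : G → ℂ) 1‖ * ‖(χ : G → ℂ) 1‖ ^ 2 :=
          mul_le_mul_of_nonneg_right h1 (by positivity)
      _ = 1 * ‖(χ : G → ℂ) 1‖ ^ 3 := by ring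
  have h2 : ∑ χ ∈ Finset.univ.erase one, (χ : G → ℂ) g / ((χ : G → ℂ) 1) ^ 3 = -1 := by
    rw [eq_neg_iff_add_eq_zero, add_comm]
    exact hsum
  rw [h2, norm_neg, norm_one] at hbound
  linarith

end Cfsg.Agent.S4814
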