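import Cfsg.Statements.S4856
import Cfsg.Agent.Lib.CharCentral

set_option autoImplicit false
set_option linter.style.haveILetI false
set_option linter.unusedVariables false
open scoped ComplexConjugate
open Cfsg

namespace Cfsg.Agent.S4856

/-- For an element z of a finite group G, the number of pairs (x, y) of elements with x y x⁻¹ y⁻¹ = z equals the order of G times the sum over the irreducible characters χ of χ(z)/χ(1). -/
theorem result {G : Type*} [Group G] [Finite G] (z : G) : (Nat.card {xy : G × G // xy.1 * xy.2 * xy.1⁻¹ * xy.2⁻¹ = z} : ℂ) = (Nat.card G : ℂ) * ∑ᶠ χ : Cfsg.IrrCharacter G, (χ : G → ℂ) z / (χ : G → ℂ) 1 := by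
  classical
  cases nonempty_fintype G
  open Cfsg.Agent.Lib.CharCentral Cfsg.Agent.Lib.CharIrr Cfsg.Agent.Lib.CharOps in
  let P : G × G → Prop := fun _ => True
  let e : G × G → G := fun xy => xy.1 * xy.2 * xy.1⁻¹ * xy.2⁻¹
  let N : G → ℂ := fun z => (Nat.card {p : G × G // P p ∧ e p = z} : ℂ)
  have hG : (Nat.card G : ℂ) ≠ 0 := by exact_mod_cast Nat.card_pos.ne'
  have hN : Cfsg.IsClassFunction G N := by
    intro z h
    simp only [N]
    congr 1
    apply Nat.card_congr
    refine ⟨fun p => ⟨(h⁻¹ * p.1.1 * h, h⁻¹ * p.1.2 * h), trivial, ?_⟩,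
      fun p => ⟨(h * p.1.1 * h⁻¹, h * p.1.2 * h⁻¹), trivial, ?_⟩, ?_, ?_⟩
    · have h3 := p.2.2
      simp only [e] at h3 ⊢
      calc _ = h⁻¹ * (p.1.1 * p.1.2 * p.1.1⁻¹ * p.1.2⁻¹) * h := by group
        _ = z := by rw [h3]; group
    · have h3 := p.2.2
      simp only [e] at h3 ⊢
      calc _ = h * (p.1.1 * p.1.2 * p.1.1⁻¹ * p.1.2⁻¹) * h⁻¹ := by group
        _ = h * z * h⁻¹ := by rw [h3]
    · intro p
      apply Subtype.ext
      ext <;> simp <;> group
    · intro p
      apply Subtype.ext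
      ext <;> simp <;> group
  have hNz : N z = (Nat.card {xy : G × G // xy.1 * xy.2 * xy.1⁻¹ * xy.2⁻¹ = z} : ℂ) := by
    simp only [N]
    congr 1
    apply Nat.card_congr
    exact Equiv.subtypeEquivRight fun p => by simp [P, e]
  rw [← hNz, finsum_eq_sum_of_fintype]
  have hexp := congrFun (classFunction_expand hN) z
  simp only [Finset.sum_apply, Pi.smul_apply, smul_eq_mul] at hexp
  rw [hexp, Finset.mul_sum]
  refine Finset.sum_congr rfl fun χ _ => ?_
  have hdeg := degree_ne_zero χ.2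
  obtain ⟨d, hd0, hd⟩ := exists_degree_pos χ.2
  have hinner : Cfsg.classInner N (χ : G → ℂ) = (Nat.card G : ℂ) / (χ : G → ℂ) 1 := by
    rw [Cfsg.classInner]
    simp only [N]
    rw [sum_card_fiber P e (fun z => conj ((χ : G → ℂ) z))]
    simp only [P, if_true]
    rw [← map_sum, Fintype.sum_prod_type_right]
    have h1 : ∀ y : G, (∑ x : G, (χ : G → ℂ) (e (x, y))) * (χ : G → ℂ) 1 =
        (Nat.card G : ℂ) * ((χ : G → ℂ) y * conj ((χ : G → ℂ) y)) := by
      intro y
      have := sum_conj_mul_irr χ.2 y y⁻¹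
      rw [character_inv_of_isCharacter (IsIrrCharacter.isCharacter' χ.2)] at this
      simp only [e]
      rw [this]
      ring
    have h2 : (∑ y : G, ∑ x : G, (χ : G → ℂ) (e (x, y))) * (χ : G → ℂ) 1 = (Nat.card G : ℂ) * (Nat.card G : ℂ) := by
      rw [Finset.sum_mul, Finset.sum_congr rfl (fun y _ => h1 y), ← Finset.mul_sum]
      have h3 := classInner_irr χ.2 χ.2
      rw [if_pos rfl, Cfsg.classInner] at h3
      congr 1
      field_simp at h3
      exact h3
    have h3 : (∑ y : G, ∑ x : G, (χ : G → ℂ) (e (x, y))) = (Nat.card G : ℂ) * (Nat.card G : ℂ) / (χ : G → ℂ) 1 :=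
      eq_div_of_mul_eq hdeg h2
    rw [h3, hd]
    simp only [map_div₀, map_mul, Complex.conj_natCast]
    field_simp
  rw [hinner]
  field_simp

end Cfsg.Agent.S4856
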