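import Cfsg.Statements.S4969
import Cfsg.Agent.Lib.CharCentral

set_option autoImplicit false
set_option linter.style.haveILetI false
set_option linter.unusedVariables false
open scoped ComplexConjugate
open Cfsg

namespace Cfsg.Agent.S4969

/-- Let G be a finite group with k conjugacy classes, g ∈ G, and N > 0. Then the sum over the irreducible complex characters χ of G with χ(1) ≥ N of |χ(g)|/χ(1) is at most √(k · #C_G(g)) / N. -/
theorem result {G : Type*} [Group G] [Finite G] (g : G) (N : ℝ) (hN : 0 < N) :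
    ∑ᶠ χ : Cfsg.IrrCharacter G, (if N ≤ ‖(χ : G → ℂ) 1‖ then ‖(χ : G → ℂ) g‖ / ‖(χ : G → ℂ) 1‖ else 0) ≤
      Real.sqrt ((Nat.card (ConjClasses G) : ℝ) * (Nat.card ↥(Subgroup.centralizer ({g} : Set G)) : ℝ)) / N := by
  classical
  cases nonempty_fintype G
  open Cfsg.Agent.Lib.CharCentral Cfsg.Agent.Lib.CharIrr Cfsg.Agent.Lib.CharOps in
  rw [finsum_eq_sum_of_fintype]
  have hterm : ∀ χ : Cfsg.IrrCharacter G, (if N ≤ ‖(χ : G → ℂ) 1‖ then ‖(χ : G → ℂ) g‖ / ‖(χ : G → ℂ) 1‖ else 0) ≤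
      ‖(χ : G → ℂ) g‖ / N := by
    intro χ
    split_ifs with h
    · exact div_le_div_of_nonneg_left (norm_nonneg _) hN h
    · positivity
  have hsum := Finset.sum_le_sum (fun χ (_ : χ ∈ Finset.univ) => hterm χ)
  refine hsum.trans ?_
  rw [← Finset.sum_div]
  apply div_le_div_of_nonneg_right _ hN.le
  -- Cauchy-Schwarz
  apply Real.le_sqrt_of_sq_le
  have hcs := sq_sum_le_card_mul_sum_sq (s := (Finset.univ : Finset (Cfsg.IrrCharacter G))) (f := fun χ => ‖(χ : G → ℂ) g‖)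
  refine hcs.trans ?_
  have hcol := column_orthogonality g g
  rw [if_pos (IsConj.refl g)] at hcol
  have h1 : ((∑ χ : Cfsg.IrrCharacter G, ‖(χ : G → ℂ) g‖ ^ 2 : ℝ) : ℂ) = (Nat.card (Subgroup.centralizer ({g} : Set G)) : ℂ) := by
    rw [← hcol]
    push_cast
    exact Finset.sum_congr rfl fun χ _ => (Complex.mul_conj' _).symm
  have h2 : (∑ χ : Cfsg.IrrCharacter G, ‖(χ : G → ℂ) g‖ ^ 2 : ℝ) = (Nat.card (Subgroup.centralizer ({g} : Set G)) : ℝ) := by
    exact_mod_cast h1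
  rw [h2, Finset.card_univ, ← Nat.card_eq_fintype_card, card_irr]

end Cfsg.Agent.S4969
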