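import Cfsg.Statements.S4989
import Cfsg.Agent.Lib.CharAMGM

set_option autoImplicit false
set_option linter.style.haveILetI false
set_option linter.unusedVariables false
open scoped ComplexConjugate
open Cfsg

namespace Cfsg.Agent.S4989

/-- Let H be a subgroup of the finite group G and χ an irreducible complex character of G. Then the inner product of the restriction of χ to H with itself, (1/#H)·Σ_{h ∈ H} |χ(h)|², is at most 1 + #(Z ∖ H)/#H, where Z is the set of zeros of χ in G. -/
theorem result {G : Type*} [Group G] [Finite G] (H : Subgroup G) (χ : Cfsg.IrrCharacter G) : (Nat.card ↥H : ℝ)⁻¹ * ∑ᶠ h : ↥H, ‖(χ : G → ℂ) h‖ ^ 2 ≤ 1 + (Set.ncard ({x : G | (χ : G → ℂ) x = 0} \ (H : Set G)) : ℝ) / (Nat.card ↥H : ℝ) := by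
  classical
  cases nonempty_fintype G
  open Cfsg.Agent.Lib.CharAMGM Cfsg.Agent.Lib.CharIrr in
  obtain ⟨χ, n, ρ, hρ, rfl⟩ := χ
  simp only
  letI : Fintype H := Fintype.ofFinite _
  rw [finsum_eq_sum_of_fintype]
  let S : Finset G := Finset.univ.filter (fun g => g ∉ H ∧ ρ.character g ≠ 0)
  let Z : Finset G := Finset.univ.filter (fun g => g ∉ H ∧ ρ.character g = 0)
  have hS := card_le_sum_sq ρ S (fun g hg => (Finset.mem_filter.mp hg).2.2) (by
    intro g hg m hm
    have h1 := (Finset.mem_filter.mp hg).2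
    refine Finset.mem_filter.mpr ⟨Finset.mem_univ _, ?_, character_pow_ne_zero ρ hm g h1.2⟩
    rw [pow_mem_iff H hm]
    exact h1.1)
  have hirr := Cfsg.Agent.Lib.CharBasic.isIrrCharacter_character ρ hρ
  have htot : ∑ g, ‖ρ.character g‖ ^ 2 = (Nat.card G : ℝ) := by
    have h1 := classInner_irr hirr hirr
    rw [if_pos rfl, Cfsg.classInner] at h1
    have hG : (Nat.card G : ℂ) ≠ 0 := by exact_mod_cast Nat.card_pos.ne'
    have h2 : ∑ g, ρ.character g * conj (ρ.character g) = (Nat.card G : ℂ) := by
      field_simp at h1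
      exact h1
    have h3 : ((∑ g, ‖ρ.character g‖ ^ 2 : ℝ) : ℂ) = (Nat.card G : ℂ) := by
      rw [← h2]
      push_cast
      exact Finset.sum_congr rfl fun g _ => (Complex.mul_conj' _).symm
    exact_mod_cast h3
  -- split the total sum
  have hH : ∑ h : H, ‖ρ.character h‖ ^ 2 = ∑ g ∈ Finset.univ.filter (fun g => g ∈ H), ‖ρ.character g‖ ^ 2 := by
    apply Finset.sum_bij (fun (h : H) _ => (h : G))
    · intro h _
      simp
    · intro a _ b _ h
      exact Subtype.ext h
    · intro g hg
      exact ⟨⟨g, (Finset.mem_filter.mp hg).2⟩, Finset.mem_univ _, rfl⟩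
    · intro _ _
      rfl
  have hsplit : ∑ g, ‖ρ.character g‖ ^ 2 = ∑ g ∈ Finset.univ.filter (fun g => g ∈ H), ‖ρ.character g‖ ^ 2 +
      ∑ g ∈ S, ‖ρ.character g‖ ^ 2 := by
    have h1 := Finset.sum_filter_add_sum_filter_not Finset.univ (fun g => g ∈ H) (fun g => ‖ρ.character g‖ ^ 2)
    rw [← h1]
    congr 1
    have h2 := Finset.sum_filter_add_sum_filter_not (Finset.univ.filter (fun g => g ∉ H)) (fun g => ρ.character g ≠ 0) (fun g => ‖ρ.character g‖ ^ 2)
    rw [← h2]
    have h3 : ∑ g ∈ (Finset.univ.filter (fun g => g ∉ H)).filter (fun g => ¬ ρ.character g ≠ 0), ‖ρ.character g‖ ^ 2 = 0 := by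
      apply Finset.sum_eq_zero
      intro g hg
      have := (Finset.mem_filter.mp hg).2
      push Not at this
      simp [this]
    rw [h3, add_zero, Finset.filter_filter]
  have hcards : (Finset.univ.filter (fun g => g ∈ H)).card + S.card + Z.card = Nat.card G := by
    have h1 := Finset.card_filter_add_card_filter_not (s := (Finset.univ : Finset G)) (fun g => g ∈ H)
    have h2 := Finset.card_filter_add_card_filter_not (s := Finset.univ.filter (fun g => g ∉ H)) (fun g => ρ.character g ≠ 0)
    rw [Finset.filter_filter, Finset.filter_filter] at h2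
    have e1 : (Finset.univ.filter (fun g => g ∉ H ∧ ¬ ρ.character g ≠ 0)) = Z := by
      ext g
      simp [Z]
    rw [e1] at h2
    rw [Nat.card_eq_fintype_card, ← Finset.card_univ, ← h1, ← h2]
    ring
  have hcardH : (Finset.univ.filter (fun g => g ∈ H)).card = Nat.card H := by
    rw [Nat.card_eq_fintype_card, Fintype.card_subtype]
  have hZ : Set.ncard ({x : G | ρ.character x = 0} \ (H : Set G)) = Z.card := by
    have : ({x : G | ρ.character x = 0} \ (H : Set G)) = (Z : Set G) := by
      ext g
      simp [Z, and_comm]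
    rw [this, Set.ncard_coe_finset]
  rw [hZ, hH]
  have hHpos : (0 : ℝ) < Nat.card H := by exact_mod_cast Nat.card_pos
  have hcR : ((Nat.card H : ℕ) : ℝ) + S.card + Z.card = Nat.card G := by
    rw [← hcardH]
    exact_mod_cast hcards
  field_simp
  linarith

end Cfsg.Agent.S4989
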