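import Cfsg.Statements.S4996
import Cfsg.Agent.Lib.CharAMGM
import Cfsg.Agent.Lib.CharCliff
import Cfsg.Agent.Lib.CharIso

set_option autoImplicit false
set_option linter.style.haveILetI false
set_option linter.unusedVariables false
open scoped ComplexConjugate
open Cfsg

namespace Cfsg.Agent.S4996

/-- Let N be a normal subgroup of the finite group G and χ an irreducible complex character of G. Then the restriction of χ to N is not irreducible if and only if χ vanishes on some whole coset Nx of N in G. -/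
theorem result {G : Type*} [Group G] [Finite G] (N : Subgroup G) [N.Normal] (χ : Cfsg.IrrCharacter G) : ¬ Cfsg.IsIrrCharacter ↥N (fun n : ↥N => (χ : G → ℂ) n) ↔ ∃ x : G, ∀ n : ↥N, (χ : G → ℂ) ((n : G) * x) = 0 := by
  classical
  cases nonempty_fintype G
  letI : Fintype N := Fintype.ofFinite _
  open Cfsg.Agent.Lib.CharAMGM Cfsg.Agent.Lib.CharIrr Cfsg.Agent.Lib.CharOps Cfsg.Agent.Lib.CharKernel Cfsg.Agent.Lib.CharAb in
  obtain ⟨χ, hχ⟩ := χ
  simp only
  have hχc := IsIrrCharacter.isCharacter' hχ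
  have hNc : (Nat.card N : ℝ) ≠ 0 := by exact_mod_cast Nat.card_pos.ne'
  have hNcC : (Nat.card N : ℂ) ≠ 0 := by exact_mod_cast Nat.card_pos.ne'
  have hGcC : (Nat.card G : ℂ) ≠ 0 := by exact_mod_cast Nat.card_pos.ne'
  let α : G → ℂ := fun g => χ g * conj (χ g)
  have hα : Cfsg.IsCharacter G α := isCharacter_mul hχc (isCharacter_conj hχc)
  have hf := isCharacter_cosetAvg N hα
  let a : G → ℝ := fun x => (Nat.card N : ℝ)⁻¹ * ∑ n : N, ‖χ ((n : G) * x)‖ ^ 2
  have hfa : ∀ x, (Nat.card N : ℂ)⁻¹ * ∑ n : N, α ((n : G) * x) = (a x : ℂ) := by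
    intro x
    simp only [a, α]
    push_cast
    congr 1
    exact Finset.sum_congr rfl fun n _ => Complex.mul_conj' _
  have htot : ∑ g, ‖χ g‖ ^ 2 = (Nat.card G : ℝ) := by
    have h1 := classInner_irr hχ hχ
    rw [if_pos rfl, Cfsg.classInner] at h1
    have h2 : ∑ g, χ g * conj (χ g) = (Nat.card G : ℂ) := by
      field_simp at h1
      exact h1
    have h3 : ((∑ g, ‖χ g‖ ^ 2 : ℝ) : ℂ) = (Nat.card G : ℂ) := by
      rw [← h2]
      push_cast
      exact Finset.sum_congr rfl fun g _ => (Complex.mul_conj' _).symm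
    exact_mod_cast h3
  have hsuma : ∑ x, a x = (Nat.card G : ℝ) := by
    simp only [a]
    rw [← Finset.mul_sum, Finset.sum_comm]
    have h1 : ∀ n : N, ∑ x, ‖χ ((n : G) * x)‖ ^ 2 = (Nat.card G : ℝ) := by
      intro n
      rw [← htot]
      exact Equiv.sum_comp (Equiv.mulLeft (n : G)) (fun x => ‖χ x‖ ^ 2)
    simp only [h1, Finset.sum_const, Finset.card_univ, nsmul_eq_mul]
    rw [← Nat.card_eq_fintype_card]
    field_simp
  have hinner : Cfsg.classInner (fun n : N => χ n) (fun n : N => χ n) = (a 1 : ℂ) := by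
    rw [← hfa, Cfsg.classInner]
    simp only [α, mul_one]
  constructor
  · intro hnot
    by_contra hcon
    push Not at hcon
    apply hnot
    apply isIrr_of_norm_one (isCharacter_restrict N hχc)
    rw [hinner]
    -- positivity of `a`
    have hpos : ∀ x, 0 < a x := by
      intro x
      obtain ⟨n, hn⟩ := hcon x
      have h1 : 0 < ∑ n : N, ‖χ ((n : G) * x)‖ ^ 2 :=
        Finset.sum_pos' (fun _ _ => by positivity) ⟨n, Finset.mem_univ _, by positivity⟩
      simp only [a]
      exact mul_pos (inv_pos.mpr (by exact_mod_cast Nat.card_pos)) h1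
    obtain ⟨m, σ, hσ⟩ := hf
    have hσa : ∀ x, σ.character x = (a x : ℂ) := by
      intro x
      rw [← hfa, hσ]
    have hne : ∀ g ∈ (Finset.univ : Finset G), σ.character g ≠ 0 := by
      intro g _
      rw [hσa]
      exact_mod_cast (hpos g).ne'
    have h1 := one_le_prod_norm σ Finset.univ hne (fun g _ m _ => Finset.mem_univ _)
    have h2 : ∏ x, ‖σ.character x‖ = ∏ x, a x := by
      refine Finset.prod_congr rfl fun x _ => ?_
      rw [hσa, Complex.norm_real, Real.norm_of_nonneg (hpos x).le]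
    rw [h2] at h1
    have h3 := all_eq_one_of_prod a hpos h1 (by rw [hsuma, Nat.card_eq_fintype_card]) 1
    rw [h3]
    simp
  · rintro ⟨x, hx⟩ hirr
    have h1 := classInner_irr hirr hirr
    rw [if_pos rfl, hinner] at h1
    have ha1 : a 1 = 1 := by exact_mod_cast h1
    have hinner1 : Cfsg.classInner (fun x => (Nat.card N : ℂ)⁻¹ * ∑ n : N, α ((n : G) * x)) (fun _ => (1 : ℂ)) = ((1 : ℕ) : ℂ) := by
      rw [Cfsg.classInner]
      simp only [hfa, map_one, mul_one]
      rw [← Complex.ofReal_sum, hsuma]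
      push_cast
      field_simp
    have hsub := sub_isCharacter hf Cfsg.Agent.Lib.CharIso.isIrr_one 1 hinner1
    have h0 := Cfsg.Agent.Lib.CharCliff.eq_zero_of_degree_zero hsub (by
      simp only [Pi.sub_apply, Pi.smul_apply, smul_eq_mul, hfa, ha1]
      simp)
    have h2 := congrFun h0 x
    simp only [Pi.sub_apply, Pi.smul_apply, smul_eq_mul, Pi.zero_apply] at h2
    have h3 : ∑ n : N, α ((n : G) * x) = 0 := by
      apply Finset.sum_eq_zero
      intro n _
      simp only [α, hx n]
      simp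
    rw [h3] at h2
    simp at h2

end Cfsg.Agent.S4996
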