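import Cfsg.Statements.S5011
import Mathlib

set_option autoImplicit false
open Cfsg

namespace Cfsg.Agent.S5011


/-- Let G be a finite non-abelian simple group and ρ an irreducible complex representation of G on a space of dimension greater than one (irreducible in the sense that the only subspaces invariant under every ρ(x) are 0 and the whole space). Then for every non-identity element g of G, the centralizer of g does not act irreducibly: there is a non-zero proper subspace invariant under ρ(c) for every c commuting with g. -/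
theorem result {G : Type*} [Group G] [Finite G] [IsSimpleGroup G]
    (hG : ¬ IsMulCommutative G) {V : Type*} [AddCommGroup V] [Module ℂ V] [FiniteDimensional ℂ V]
    (ρ : Representation ℂ G V)
    (hirr : ∀ W : Submodule ℂ V, (∀ x : G, ∀ v ∈ W, ρ x v ∈ W) → W = ⊥ ∨ W = ⊤)
    (hdim : 1 < Module.finrank ℂ V) (g : G) (hg : g ≠ 1) :
    ∃ W : Submodule ℂ V, W ≠ ⊥ ∧ W ≠ ⊤ ∧ ∀ c ∈ Subgroup.centralizer ({g} : Set G), ∀ v ∈ W, ρ c v ∈ W := by
  by_contra hcon
  simp only [not_exists, not_and] at hcon
  -- the centralizer acts irreducibly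
  have hirrC : ∀ W : Submodule ℂ V, (∀ c ∈ Subgroup.centralizer ({g} : Set G), ∀ v ∈ W, ρ c v ∈ W) → W = ⊥ ∨ W = ⊤ := by
    intro W hW
    by_cases h1 : W = ⊥
    · exact Or.inl h1
    · by_cases h2 : W = ⊤
      · exact Or.inr h2
      · exact absurd hW (hcon W h1 h2)
  haveI : Nontrivial V := Module.nontrivial_of_finrank_pos (R := ℂ) (by omega)
  -- `ρ g` has an eigenvalue
  obtain ⟨μ, hμ⟩ := Module.End.exists_eigenvalue (ρ g)
  set E := Module.End.eigenspace (ρ g) μ with hE
  have hEne : E ≠ ⊥ := hμ
  have hEinv : ∀ c ∈ Subgroup.centralizer ({g} : Set G), ∀ v ∈ E, ρ c v ∈ E := by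
    intro c hc v hv
    rw [hE, Module.End.mem_eigenspace_iff] at hv ⊢
    rw [Subgroup.mem_centralizer_iff] at hc
    have h1 := hc g rfl
    have h2 : ρ g (ρ c v) = ρ (g * c) v := by
      rw [map_mul]
      rfl
    rw [h2, h1, map_mul, Module.End.mul_apply, hv, map_smul]
  have hEtop : E = ⊤ := (hirrC E hEinv).resolve_left hEne
  have hscalar : ∀ v, ρ g v = μ • v := by
    intro v
    have : v ∈ E := by rw [hEtop]; exact Submodule.mem_top
    exact Module.End.mem_eigenspace_iff.mp this
  -- the kernel
  have hcommall : ∀ x : G, ρ (g * x * g⁻¹ * x⁻¹) = 1 := by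
    intro x
    have hμ0 : μ ≠ 0 := by
      intro h0
      obtain ⟨v, hv⟩ := exists_ne (0 : V)
      apply hv
      have h1 : ρ g v = 0 := by rw [hscalar, h0, zero_smul]
      have h2 : ρ g⁻¹ (ρ g v) = v := by
        rw [← Module.End.mul_apply, ← map_mul]
        simp
      rw [← h2, h1, map_zero]
    ext v
    have hgi : ∀ w, ρ g⁻¹ w = μ⁻¹ • w := by
      intro w
      have h1 : ρ g (ρ g⁻¹ w) = w := by
        rw [← Module.End.mul_apply, ← map_mul]
        simp
      rw [hscalar] at h1
      have h2 : μ⁻¹ • (μ • ρ g⁻¹ w) = μ⁻¹ • w := by rw [h1]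
      rwa [smul_smul, inv_mul_cancel₀ hμ0, one_smul] at h2
    simp only [map_mul, Module.End.mul_apply, hscalar, hgi, map_smul, smul_smul, Module.End.one_apply]
    rw [inv_mul_cancel₀ hμ0, one_smul, ← Module.End.mul_apply, ← map_mul]
    simp
  have hker := (IsSimpleGroup.eq_bot_or_eq_top_of_normal (MonoidHom.ker ρ) inferInstance)
  rcases hker with hbot | htop
  · -- faithful: `g` is central
    have hcen : g ∈ Subgroup.center G := by
      rw [Subgroup.mem_center_iff]
      intro x
      have h1 : g * x * g⁻¹ * x⁻¹ ∈ MonoidHom.ker ρ := hcommall x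
      rw [hbot, Subgroup.mem_bot] at h1
      have h2 : g * x * g⁻¹ = x := mul_inv_eq_one.mp h1
      calc x * g = g * x * g⁻¹ * g := by rw [h2]
        _ = g * x := by group
    have hcne : Subgroup.center G ≠ ⊥ := fun h => hg (by rw [h] at hcen; simpa using hcen)
    have hct := (IsSimpleGroup.eq_bot_or_eq_top_of_normal (Subgroup.center G) inferInstance).resolve_left hcne
    apply hG
    refine ⟨⟨fun a b => ?_⟩⟩
    have : a ∈ Subgroup.center G := by rw [hct]; exact Subgroup.mem_top a
    exact (Subgroup.mem_center_iff.mp this b).symm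
  · -- trivial action
    obtain ⟨v, hv⟩ := exists_ne (0 : V)
    have htriv : ∀ x : G, ρ x = 1 := by
      intro x
      have : x ∈ MonoidHom.ker ρ := by rw [htop]; exact Subgroup.mem_top x
      exact this
    have h1 := hirr (Submodule.span ℂ {v}) (by
      intro x w hw
      rw [htriv]
      exact hw)
    rcases h1 with h1 | h1
    · rw [Submodule.span_singleton_eq_bot] at h1
      exact hv h1
    · have h2 := finrank_span_singleton (K := ℂ) hv
      rw [h1, finrank_top] at h2
      omega

end Cfsg.Agent.S5011
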