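import Cfsg.Statements.S5120
import Cfsg.Agent.Lib.FusionPIdx
import Cfsg.Agent.Lib.BisetTate

set_option autoImplicit false
open Cfsg

namespace Cfsg.Agent.S5120


/-- Let F be a saturated fusion system over a finite p-group S and T a subgroup of S containing the hyperfocal subgroup of F and normal in S. Then every saturated subsystem of F over T of p-power index is a normal subsystem of F. -/
theorem result {Ω : Type*} [Group Ω] {S : Subgroup Ω} [Finite S] (p : ℕ) [Fact p.Prime] (hS : IsPGroup p S) (F : Cfsg.FusionSystem S) (hF : F.IsSaturated p) (T : Subgroup Ω) (hTS : T ≤ S) (hTn : (T.subgroupOf S).Normal) (hT : F.hyperfocalSubgroup p ≤ T) (E : Cfsg.FusionSystem T) (hEs : E.IsSaturated p) (hEi : E.HasPPowerIndexIn F p) : E.IsNormalIn F p := by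
  have hstr : F.StronglyClosed T := by
    refine ⟨hTS, fun R hR φ hφ x => ?_⟩
    obtain ⟨s, hs, he⟩ := Cfsg.Agent.Lib.BisetTate.exists_color hS hF hφ
    have h1 := hT (he x)
    have h2 : s * (x : Ω) * s⁻¹ ∈ T := by
      have h3 := hTn.conj_mem ⟨x, hTS (hR x.2)⟩ (Subgroup.mem_subgroupOf.2 (hR x.2)) ⟨s, hs⟩
      exact Subgroup.mem_subgroupOf.1 h3
    have h4 := T.mul_mem h2 h1
    rwa [mul_inv_cancel_left] at h4
  exact Cfsg.Agent.Lib.FusionPIdx.isNormalIn_of_index hS hF hstr hEs hEi

end Cfsg.Agent.S5120
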