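import Cfsg.Statements.S5125
import Cfsg.Agent.Lib.FusionNormal

set_option autoImplicit false
open Cfsg

namespace Cfsg.Agent.S5125


/-- Let F be a saturated fusion system over a finite p-group S and Q a subgroup strongly closed in F. If Q has a subgroup Q₁ that is normal in F, with Q/Q₁ abelian and Aut_F(Q₁) a p-group, then Q is normal in F. -/
theorem result {Ω : Type*} [Group Ω] {S : Subgroup Ω} [Finite S] (p : ℕ) [Fact p.Prime] (hS : IsPGroup p S) (F : Cfsg.FusionSystem S) (hF : F.IsSaturated p) (Q Q₁ : Subgroup Ω) (hQ : F.StronglyClosed Q) (hQ₁Q : Q₁ ≤ Q) (hQ₁ : F.IsNormal Q₁) (hab : ⁅Q, Q⁆ ≤ Q₁) (hAut : IsPGroup p ↥(F.autGroup Q₁)) : F.IsNormal Q := by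
  open Cfsg.Agent.Lib.FusionNormal Cfsg.Agent.Lib.FusionAut Cfsg.Agent.Lib.FusionSat Cfsg.Agent.Lib.FusionBasic in
  open scoped commutatorElement in
  refine isNormal_of_stronglyClosed_of_le hS hF hQ fun P hc hr => ?_
  have hPS : P ≤ S := hc.1
  have hQ₁P : Q₁ ≤ P := IsNormal.le_of_centric_radical hS hQ₁ hc hr
  have hQ₁sc := IsNormal.stronglyClosed hQ₁
  have hQ₁w := StronglyClosed.weaklyClosed hQ₁sc
  have hQn := StronglyClosed.le_normalizer hQ
  let B : ℕ → Subgroup ↥P := fun i =>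
    match i with
    | 0 => Q₁.subgroupOf P
    | 1 => Q.subgroupOf P
    | _ + 2 => ⊤
  refine le_of_stab hS hc hr hQ.1 hQn 2 B ?_ rfl ?_ ⊤ (fun _ _ _ _ => trivial) ?_ ?_
  · intro i hi
    match i, hi with
    | 0, _ => exact Subgroup.comap_mono hQ₁Q
    | 1, _ => exact le_top
  · intro i hi α hα x hx
    match i, hi with
    | 0, _ => exact StronglyClosed.map_autGroup_mem hQ₁sc hPS hα x hx
    | 1, _ => exact StronglyClosed.map_autGroup_mem hQ hPS hα x hx
    | 2, _ => trivial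
  · intro β hβ _ _
    have hφ := restrict_mem F ((mem_autGroup_iff F hPS).mp hβ) hQ₁P
    have hrange := hQ₁w.2 _ hφ
    let γ := isoOfRange hφ hrange
    have hγ : γ ∈ F.autGroup Q₁ := isoOfRange_mem_autGroup hφ hrange
    have hγv : ∀ x : Q₁, ((γ x : Q₁) : Ω) = ((β (Subgroup.inclusion hQ₁P x) : ↥P) : Ω) := fun _ => rfl
    obtain ⟨k, hk⟩ := hAut ⟨γ, hγ⟩
    have hk' : γ ^ p ^ k = 1 := congrArg Subtype.val hk
    have hpow : ∀ j : ℕ, ∀ x : Q₁, (((γ ^ j) x : Q₁) : Ω) = (((β ^ j) (Subgroup.inclusion hQ₁P x) : ↥P) : Ω) := by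
      intro j
      induction j with
      | zero =>
        intro x
        rfl
      | succ j ih =>
        intro x
        have e1 : (γ ^ (j + 1)) x = γ ((γ ^ j) x) := by
          rw [pow_succ']
          rfl
        have e2 : (β ^ (j + 1)) (Subgroup.inclusion hQ₁P x) = β ((β ^ j) (Subgroup.inclusion hQ₁P x)) := by
          rw [pow_succ']
          rfl
        rw [e1, e2, hγv]
        congr 2
        exact Subtype.ext (ih x)
    refine ⟨k, fun b hb => ?_⟩
    have h1 := hpow (p ^ k) ⟨b, hb⟩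
    rw [hk'] at h1
    exact Subtype.ext h1.symm
  · intro r hrQ hrn
    refine ⟨trivial, fun i hi y hy => ?_⟩
    have e : ((y⁻¹ * conjAut P ⟨r, hrn⟩ y : ↥P) : Ω) = ⁅(y : Ω)⁻¹, r⁆ := by
      show (y : Ω)⁻¹ * (r * y * r⁻¹) = (y : Ω)⁻¹ * r * (y : Ω)⁻¹⁻¹ * r⁻¹
      group
    match i, hi with
    | 0, _ =>
      have hy' : (y : Ω) ∈ Q := hy
      show y⁻¹ * conjAut P ⟨r, hrn⟩ y ∈ Q₁.subgroupOf P
      rw [Subgroup.mem_subgroupOf, e]
      exact hab (Subgroup.commutator_mem_commutator (Q.inv_mem hy') hrQ)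
    | 1, _ =>
      show y⁻¹ * conjAut P ⟨r, hrn⟩ y ∈ Q.subgroupOf P
      rw [Subgroup.mem_subgroupOf, e]
      have h1 := (Subgroup.mem_normalizer_iff.mp (hQn (S.inv_mem (hPS y.2))) r).mp hrQ
      exact Q.mul_mem h1 (Q.inv_mem hrQ)

end Cfsg.Agent.S5125
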