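import Cfsg.Statements.S5135
import Cfsg.Agent.Lib.SylowIn
import Cfsg.Agent.Lib.FusionFactor

set_option autoImplicit false
open Cfsg

namespace Cfsg.Agent.S5135


/-- Let G be a finite group, S a Sylow p-subgroup and H a normal subgroup of G. Then the fusion system of G/H on the image SH/H of S is the factor system of the fusion system of G on S modulo S ∩ H, read through the quotient map restricted to S: for each subgroup P' of SH/H, the conjugation maps by elements of G/H defined on P' with values in SH/H are exactly the homomorphisms induced by the conjugation maps by elements of G defined on the full preimage of P' in S with values in S. -/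
theorem result {G : Type*} [Group G] [Finite G] (p : ℕ) [Fact p.Prime] (S : Sylow p G) (H : Subgroup G) [H.Normal] : (Cfsg.groupFusionSystem (S : Subgroup G)).IsFactorSystem ((S : Subgroup G) ⊓ H) ((QuotientGroup.mk' H).comp (S : Subgroup G).subtype) (Cfsg.groupFusionSystem ((S : Subgroup G).map (QuotientGroup.mk' H))) := by
  open Cfsg.FusionSystem Cfsg.Agent.Lib.FusionFactor Cfsg.Agent.Lib.SylowIn in
  have hrange : ((QuotientGroup.mk' H).comp (S : Subgroup G).subtype).range = (S : Subgroup G).map (QuotientGroup.mk' H) := by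
    ext y
    constructor
    · rintro ⟨s, rfl⟩
      exact ⟨s, s.2, rfl⟩
    · rintro ⟨s, hs, rfl⟩
      exact ⟨⟨s, hs⟩, rfl⟩
  refine ⟨inf_le_left, fun s => ?_, hrange, fun P' φ' => ?_⟩
  · show ((s : G) : G ⧸ H) = 1 ↔ _
    rw [QuotientGroup.eq_one_iff]
    exact ⟨fun h => ⟨s.2, h⟩, fun h => h.2⟩
  · constructor
    · rintro ⟨hP', hv, γ, hγ⟩
      refine ⟨hP', ?_⟩
      obtain ⟨g₀, rfl⟩ := QuotientGroup.mk_surjective γ
      let θ := (QuotientGroup.mk' H).comp (S : Subgroup G).subtype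
      have hR : preimageAlong θ P' ≤ (S : Subgroup G) := preimageAlong_le θ P'
      have hmem : ∀ x ∈ preimageAlong θ P', g₀ * x * g₀⁻¹ ∈ (S : Subgroup G) ⊔ H := by
        intro x hx
        obtain ⟨hxS, hxP⟩ := (mem_preimageAlong θ P' x).mp hx
        have h1 := hγ ⟨_, hxP⟩
        have h2 := hv ⟨_, hxP⟩
        rw [h1] at h2
        obtain ⟨s, hs, e⟩ := h2
        have e' : (s : G ⧸ H) = ((g₀ * x * g₀⁻¹ : G) : G ⧸ H) := e
        have h3 : s⁻¹ * (g₀ * x * g₀⁻¹) ∈ H := QuotientGroup.eq.mp e'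
        have : g₀ * x * g₀⁻¹ = s * (s⁻¹ * (g₀ * x * g₀⁻¹)) := by group
        rw [this]
        exact mul_mem (Subgroup.mem_sup_left hs) (Subgroup.mem_sup_right h3)
      obtain ⟨n, hn, hS⟩ := exists_conj_into_sylow_of_le_sup S H (preimageAlong θ P')
        (S.isPGroup'.to_le hR) g₀ hmem
      have hval : ∀ x : ↥(preimageAlong θ P'), conjHom _ (n * g₀) x ∈ (S : Subgroup G) := by
        intro x
        have := hS x x.2
        have e : conjHom (preimageAlong θ P') (n * g₀) x = n * (g₀ * x * g₀⁻¹) * n⁻¹ := by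
          show n * g₀ * x * (n * g₀)⁻¹ = _
          group
        rw [e]
        exact this
      refine ⟨conjHom _ (n * g₀), ⟨hR, hval, n * g₀, fun x => rfl⟩, hR, hval, fun x => ?_, fun x => ?_⟩
      · exact ((mem_preimageAlong θ P' x).mp x.2).2
      · rw [hγ]
        have hn1 : (n : G ⧸ H) = 1 := (QuotientGroup.eq_one_iff n).mpr hn
        show ((g₀ : G ⧸ H)) * ((x : G) : G ⧸ H) * (g₀ : G ⧸ H)⁻¹ = ((n * g₀ * x * (n * g₀)⁻¹ : G) : G ⧸ H)
        simp only [mul_inv_rev, QuotientGroup.mk_mul, QuotientGroup.mk_inv, hn1, one_mul, inv_one, mul_one]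
    · rintro ⟨hP', φ, ⟨hR, hφS, g, hg⟩, hPle, hφS', hPm, hind⟩
      let θ := (QuotientGroup.mk' H).comp (S : Subgroup G).subtype
      have hlift : ∀ y : P', ∃ (x : G) (hx : x ∈ (S : Subgroup G)) (hxp : x ∈ preimageAlong θ P'), θ ⟨x, hx⟩ = y := by
        intro y
        exact exists_lift θ (hrange.symm ▸ hP') y
      have hfor : ∀ y : P', φ' y ∈ (S : Subgroup G).map (QuotientGroup.mk' H) ∧ φ' y = (g : G ⧸ H) * y * (g : G ⧸ H)⁻¹ := by
        intro y
        obtain ⟨x, hx, hxp, e⟩ := hlift y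
        have e2 : (⟨θ ⟨x, hx⟩, hPm ⟨x, hxp⟩⟩ : P') = y := Subtype.ext e
        have h1' : φ' ⟨θ ⟨x, hx⟩, hPm ⟨x, hxp⟩⟩ = θ ⟨φ ⟨x, hxp⟩, hφS' ⟨x, hxp⟩⟩ := hind ⟨x, hxp⟩
        rw [e2] at h1'
        constructor
        · rw [h1', ← hrange]
          exact ⟨_, rfl⟩
        · rw [h1', ← e]
          show ((φ ⟨x, hxp⟩ : G) : G ⧸ H) = (g : G ⧸ H) * (x : G ⧸ H) * (g : G ⧸ H)⁻¹
          rw [hg ⟨x, hxp⟩]
          simp only [QuotientGroup.mk_mul, QuotientGroup.mk_inv]
      exact ⟨hP', fun y => (hfor y).1, (g : G ⧸ H), fun y => (hfor y).2⟩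

end Cfsg.Agent.S5135
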