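import Cfsg.Statements.S5136
import Cfsg.Agent.Lib.FusionBasic

set_option autoImplicit false
open Cfsg

namespace Cfsg.Agent.S5136


/-- Let F₁ and F₂ be fusion systems over finite p-groups S₁ and S₂ (inside ambient groups Ω₁ and Ω₂). Then their direct product exists: there is a fusion system over S₁ × S₂ inside Ω₁ × Ω₂ whose maps with source P ≤ S₁ × S₂ are exactly the restrictions to P of the homomorphisms (x₁, x₂) ↦ (φ₁ x₁, φ₂ x₂) with φ₁ a map of F₁ on the first projection of P and φ₂ a map of F₂ on the second projection. -/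
theorem result {Ω₁ Ω₂ : Type*} [Group Ω₁] [Group Ω₂] {S₁ : Subgroup Ω₁} {S₂ : Subgroup Ω₂} [Finite S₁] [Finite S₂] (p : ℕ) [Fact p.Prime] (h₁ : IsPGroup p S₁) (h₂ : IsPGroup p S₂) (F₁ : Cfsg.FusionSystem S₁) (F₂ : Cfsg.FusionSystem S₂) : ∃ E : Cfsg.FusionSystem (S₁.prod S₂), Cfsg.FusionSystem.IsProductSystem F₁ F₂ E := by
  open Cfsg.Agent.Lib.FusionBasic in
  -- projection of a subgroup
  have hfst : ∀ {P : Subgroup (Ω₁ × Ω₂)} (x : P), (x : Ω₁ × Ω₂).1 ∈ P.map (MonoidHom.fst Ω₁ Ω₂) :=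
    fun x => ⟨x, x.2, rfl⟩
  have hsnd : ∀ {P : Subgroup (Ω₁ × Ω₂)} (x : P), (x : Ω₁ × Ω₂).2 ∈ P.map (MonoidHom.snd Ω₁ Ω₂) :=
    fun x => ⟨x, x.2, rfl⟩
  refine ⟨{
    Hom := fun P => {φ | P ≤ S₁.prod S₂ ∧
      ∃ φ₁ ∈ F₁.Hom (P.map (MonoidHom.fst Ω₁ Ω₂)), ∃ φ₂ ∈ F₂.Hom (P.map (MonoidHom.snd Ω₁ Ω₂)),
        ∀ (x : P) (h₁ : (x : Ω₁ × Ω₂).1 ∈ P.map (MonoidHom.fst Ω₁ Ω₂))
          (h₂ : (x : Ω₁ × Ω₂).2 ∈ P.map (MonoidHom.snd Ω₁ Ω₂)),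
          φ x = (φ₁ ⟨(x : Ω₁ × Ω₂).1, h₁⟩, φ₂ ⟨(x : Ω₁ × Ω₂).2, h₂⟩)}
    le_of_mem := ?_
    injective_of_mem := ?_
    conj_mem := ?_
    comp_mem := ?_
    inv_mem := ?_ }, fun P φ => Iff.rfl⟩
  · rintro P φ ⟨hP, φ₁, hφ₁, φ₂, hφ₂, h⟩
    refine ⟨hP, fun x => ?_⟩
    rw [h x (hfst x) (hsnd x)]
    exact ⟨map_mem_S F₁ hφ₁ _, map_mem_S F₂ hφ₂ _⟩
  · rintro P φ ⟨hP, φ₁, hφ₁, φ₂, hφ₂, h⟩ a b hab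
    rw [h a (hfst a) (hsnd a), h b (hfst b) (hsnd b)] at hab
    have h1 := F₁.injective_of_mem hφ₁ (Prod.ext_iff.mp hab).1
    have h2 := F₂.injective_of_mem hφ₂ (Prod.ext_iff.mp hab).2
    exact Subtype.ext (Prod.ext (Subtype.mk.inj h1) (Subtype.mk.inj h2))
  · intro P g hP hg
    have hP1 : P.map (MonoidHom.fst Ω₁ Ω₂) ≤ S₁ := by
      rintro _ ⟨x, hx, rfl⟩
      exact (hP hx).1
    have hP2 : P.map (MonoidHom.snd Ω₁ Ω₂) ≤ S₂ := by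
      rintro _ ⟨x, hx, rfl⟩
      exact (hP hx).2
    exact ⟨hP, conjHom _ g.1, F₁.conj_mem hP1 hg.1, conjHom _ g.2, F₂.conj_mem hP2 hg.2,
      fun x h₁ h₂ => rfl⟩
  · rintro P Q φ ψ ⟨hP, φ₁, hφ₁, φ₂, hφ₂, hφe⟩ ⟨hQ, ψ₁, hψ₁, ψ₂, hψ₂, hψe⟩ h
    have h1 : ∀ x : ↥(P.map (MonoidHom.fst Ω₁ Ω₂)), φ₁ x ∈ Q.map (MonoidHom.fst Ω₁ Ω₂) := by
      rintro ⟨_, x, hx, rfl⟩
      have := hφe ⟨x, hx⟩ (hfst _) (hsnd _)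
      refine ⟨φ ⟨x, hx⟩, h _, ?_⟩
      rw [this]
      rfl
    have h2 : ∀ x : ↥(P.map (MonoidHom.snd Ω₁ Ω₂)), φ₂ x ∈ Q.map (MonoidHom.snd Ω₁ Ω₂) := by
      rintro ⟨_, x, hx, rfl⟩
      have := hφe ⟨x, hx⟩ (hfst _) (hsnd _)
      refine ⟨φ ⟨x, hx⟩, h _, ?_⟩
      rw [this]
      rfl
    obtain ⟨χ₁, hχ₁, hχ₁e⟩ := exists_comp F₁ hφ₁ hψ₁ h1
    obtain ⟨χ₂, hχ₂, hχ₂e⟩ := exists_comp F₂ hφ₂ hψ₂ h2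
    refine ⟨hP, χ₁, hχ₁, χ₂, hχ₂, fun x h₁ h₂ => ?_⟩
    rw [hχ₁e, hχ₂e]
    have e : (ψ.comp (φ.codRestrict Q h)) x = ψ ⟨φ x, h x⟩ := rfl
    rw [e, hψe _ (hfst _) (hsnd _)]
    have e3 := hφe x h₁ h₂
    ext
    · show ψ₁ _ = ψ₁ _
      congr 1
      apply Subtype.ext
      show (φ x).1 = _
      rw [e3]
    · show ψ₂ _ = ψ₂ _
      congr 1
      apply Subtype.ext
      show (φ x).2 = _
      rw [e3]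
  · rintro P φ ⟨hP, φ₁, hφ₁, φ₂, hφ₂, hφe⟩
    -- the projections of the image
    have hR1 : φ₁.range = φ.range.map (MonoidHom.fst Ω₁ Ω₂) := by
      ext y
      constructor
      · rintro ⟨⟨_, x, hx, rfl⟩, rfl⟩
        refine ⟨φ ⟨x, hx⟩, ⟨_, rfl⟩, ?_⟩
        rw [hφe ⟨x, hx⟩ (hfst _) (hsnd _)]
        rfl
      · rintro ⟨_, ⟨x, rfl⟩, rfl⟩
        refine ⟨⟨(x : Ω₁ × Ω₂).1, hfst x⟩, ?_⟩
        rw [hφe x (hfst _) (hsnd _)]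
        rfl
    have hR2 : φ₂.range = φ.range.map (MonoidHom.snd Ω₁ Ω₂) := by
      ext y
      constructor
      · rintro ⟨⟨_, x, hx, rfl⟩, rfl⟩
        refine ⟨φ ⟨x, hx⟩, ⟨_, rfl⟩, ?_⟩
        rw [hφe ⟨x, hx⟩ (hfst _) (hsnd _)]
        rfl
      · rintro ⟨_, ⟨x, rfl⟩, rfl⟩
        refine ⟨⟨(x : Ω₁ × Ω₂).2, hsnd x⟩, ?_⟩
        rw [hφe x (hfst _) (hsnd _)]
        rfl
    obtain ⟨ψ₁, hψ₁, h11, h12, h13⟩ := exists_inverse F₁ hφ₁ hR1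
    obtain ⟨ψ₂, hψ₂, h21, h22, h23⟩ := exists_inverse F₂ hφ₂ hR2
    -- the inverse map
    let p₁ : φ.range →* ↥(φ.range.map (MonoidHom.fst Ω₁ Ω₂)) :=
      { toFun := fun y => ⟨(y : Ω₁ × Ω₂).1, hfst y⟩
        map_one' := rfl
        map_mul' := fun _ _ => rfl }
    let p₂ : φ.range →* ↥(φ.range.map (MonoidHom.snd Ω₁ Ω₂)) :=
      { toFun := fun y => ⟨(y : Ω₁ × Ω₂).2, hsnd y⟩
        map_one' := rfl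
        map_mul' := fun _ _ => rfl }
    have hψv : ∀ x : P, (ψ₁.comp p₁).prod (ψ₂.comp p₂) ⟨φ x, ⟨x, rfl⟩⟩ = (x : Ω₁ × Ω₂) := by
      intro x
      have e := hφe x (hfst _) (hsnd _)
      ext
      · show ψ₁ ⟨(φ x).1, _⟩ = _
        have hh : (⟨(φ x).1, hfst (⟨φ x, ⟨x, rfl⟩⟩ : φ.range)⟩ : ↥(φ.range.map (MonoidHom.fst Ω₁ Ω₂))) =
            ⟨φ₁ ⟨(x : Ω₁ × Ω₂).1, hfst x⟩, hR1 ▸ ⟨_, rfl⟩⟩ := Subtype.ext (congrArg Prod.fst e)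
        rw [hh, h11]
      · show ψ₂ ⟨(φ x).2, _⟩ = _
        have hh : (⟨(φ x).2, hsnd (⟨φ x, ⟨x, rfl⟩⟩ : φ.range)⟩ : ↥(φ.range.map (MonoidHom.snd Ω₁ Ω₂))) =
            ⟨φ₂ ⟨(x : Ω₁ × Ω₂).2, hsnd x⟩, hR2 ▸ ⟨_, rfl⟩⟩ := Subtype.ext (congrArg Prod.snd e)
        rw [hh, h21]
    refine ⟨(ψ₁.comp p₁).prod (ψ₂.comp p₂), ⟨?_, ψ₁, hψ₁, ψ₂, hψ₂, fun x h₁ h₂ => rfl⟩, hψv⟩
    rintro _ ⟨x, rfl⟩
    rw [hφe x (hfst _) (hsnd _)]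
    exact ⟨map_mem_S F₁ hφ₁ _, map_mem_S F₂ hφ₂ _⟩

end Cfsg.Agent.S5136
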