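import Cfsg.Statements.S5153
import Cfsg.Agent.Lib.FusionSat
import Cfsg.Agent.Lib.FusionBasic

set_option autoImplicit false
open Cfsg

namespace Cfsg.Agent.S5153

open Cfsg Cfsg.FusionSystem Cfsg.Agent.Lib.FusionBasic Cfsg.Agent.Lib.FusionSat in
theorem step_aux {Ω : Type*} [Group Ω] {S U : Subgroup Ω} [Finite S] (p : ℕ) [Fact p.Prime]
    (hS : IsPGroup p S) (F : Cfsg.FusionSystem S) (hF : F.IsSaturated p) (D : Cfsg.FusionSystem U)
    (hsub : D.IsSubsystemOf F) (hcl : F.StronglyClosed U) (P : Subgroup Ω) (hPU : P ≤ U)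
    (hP : F.IsFullyNormalized P) : D.IsFullyNormalized P := by
  refine ⟨hPU, ?_⟩
  rintro Q ⟨φ, hφ, hQ⟩
  have hconj : F.IsConj P Q := ⟨φ, hsub _ hφ, hQ⟩
  obtain ⟨ψ, hψ, hval, -, -⟩ := IsSaturated.exists_normalizer_map hS hF hP (isConj_symm F hconj)
  have hUS : U ≤ S := hcl.1
  have hle : normalizerIn U Q ≤ normalizerIn S Q := inf_le_inf_right _ hUS
  have hleU : normalizerIn U Q ≤ U := inf_le_left
  have hψ' := restrict_mem F hψ hle
  have hfinU : Finite (normalizerIn U P) := by
    have : Finite U := Finite.of_injective _ (Subgroup.inclusion_injective hUS)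
    exact Finite.of_injective _ (Subgroup.inclusion_injective (inf_le_left : normalizerIn U P ≤ U))
  let f : normalizerIn U Q → normalizerIn U P := fun c =>
    ⟨ψ (Subgroup.inclusion hle c), by
      refine ⟨?_, (hval _).2⟩
      exact hcl.2 (normalizerIn U Q) hleU _ hψ' c⟩
  have hf : Function.Injective f := by
    intro a b hab
    have h1 := F.injective_of_mem hψ (congrArg Subtype.val hab)
    exact Subgroup.inclusion_injective hle h1
  exact Nat.card_le_card_of_injective f hf

open Cfsg Cfsg.FusionSystem in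
theorem main_aux {Ω : Type*} [Group Ω] {T : Subgroup Ω} {E : Cfsg.FusionSystem T} {S : Subgroup Ω}
    {F : Cfsg.FusionSystem S} {p : ℕ} (hE : E.IsSubnormalIn F p) :
    ∀ (_ : Finite S) (_ : Fact p.Prime) (_ : IsPGroup p S) (_ : F.IsSaturated p),
      T ≤ S ∧ ∀ P : Subgroup Ω, P ≤ T → F.IsFullyNormalized P → E.IsFullyNormalized P := by
  induction hE with
  | refl F p =>
    intro _ _ _ _
    exact ⟨le_rfl, fun P _ hP => hP⟩
  | @step U S E D F p _ hD ih =>
    intro hfin hfp hS hF
    have hcl : F.StronglyClosed U := hD.1.2.2.2.1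
    have hUS : U ≤ S := hcl.1
    have hfinU : Finite U := Finite.of_injective _ (Subgroup.inclusion_injective hUS)
    have hSU : IsPGroup p U := hS.to_le hUS
    obtain ⟨hTU, h2⟩ := ih hfinU hfp hSU hD.1.1
    refine ⟨hTU.trans hUS, fun P hP hPF => h2 P hP ?_⟩
    exact step_aux p hS F hF D hD.1.2.2.1 hcl P (hP.trans hTU) hPF

/-- Let F be a saturated fusion system over a finite p-group S and E a subnormal subsystem of F over T. Then every subgroup of T that is fully normalized in F is fully normalized in E. -/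
theorem result {Ω : Type*} [Group Ω] {S : Subgroup Ω} [Finite S] (p : ℕ) [Fact p.Prime] (hS : IsPGroup p S) (F : Cfsg.FusionSystem S) (hF : F.IsSaturated p) {T : Subgroup Ω} (E : Cfsg.FusionSystem T) (hE : E.IsSubnormalIn F p) (P : Subgroup Ω) (hPT : P ≤ T) (hP : F.IsFullyNormalized P) : E.IsFullyNormalized P := by
  exact (main_aux hE inferInstance inferInstance hS hF).2 P hPT hP

end Cfsg.Agent.S5153
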