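import Cfsg.Statements.S5219
import Cfsg.Agent.Lib.FusionPower

set_option autoImplicit false
open Cfsg

namespace Cfsg.Agent.S5219


/-- Let p be a prime, n a natural number, S a nontrivial finite p-group of nilpotence class at most n(p−1)+1, and F a saturated fusion system over S with no nontrivial normal subgroup (O_p(F) = 1). Then S has exponent dividing p^(n²(p−1)+n). -/
theorem result {Ω : Type*} [Group Ω] {S : Subgroup Ω} [Finite S] (p : ℕ) [Fact p.Prime] (hS : IsPGroup p S) (F : Cfsg.FusionSystem S) (hF : F.IsSaturated p) (n : ℕ) (hS1 : S ≠ ⊥) (hcl : Subgroup.lowerCentralSeries S (n * (p - 1) + 1) = ⊥) (hcore : F.core = ⊥) : Monoid.exponent ↥S ∣ p ^ (n ^ 2 * (p - 1) + n) := by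
  have hN := Cfsg.Agent.Lib.FusionPower.isNormal_powerClosure hS hF n hcl
  have hle := Cfsg.Agent.Lib.FusionBasic.IsNormal.le_core hN
  rw [hcore] at hle
  have he : ∀ z ∈ Subgroup.center ↥S, z ^ p ^ n = 1 := by
    intro z hz
    have h1 : ((z : Ω)) ∈ S ⊓ Subgroup.centralizer (S : Set Ω) := by
      refine ⟨z.2, Subgroup.mem_centralizer_iff.mpr fun s hs => ?_⟩
      have := Subgroup.mem_center_iff.mp hz ⟨s, hs⟩
      exact congrArg Subtype.val this
    have h2 : ((z : Ω)) ^ p ^ n ∈ Cfsg.powerClosure p n (S ⊓ Subgroup.centralizer (S : Set Ω)) :=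
      Subgroup.subset_closure ⟨_, h1, rfl⟩
    have h3 := hle h2
    rw [Subgroup.mem_bot] at h3
    exact Subtype.ext h3
  have hc : Subgroup.upperCentralSeries ↥S (n * (p - 1) + 1) = ⊤ := by
    rw [← Subgroup.lowerCentralSeries_eq_bot_iff_upperCentralSeries_eq_top]
    have h1 := Subgroup.top_subtype_lowerCentralSeries S (n * (p - 1) + 1)
    rw [hcl] at h1
    exact (Subgroup.map_eq_bot_iff_of_injective _ (Subgroup.subtype_injective _)).mp h1
  have hpow := Cfsg.Agent.Lib.FusionPower.pow_eq_one_of_center (p ^ n) _ he hc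
  refine Monoid.exponent_dvd_of_forall_pow_eq_one fun x => ?_
  have := hpow x
  rwa [← pow_mul, show n * (n * (p - 1) + 1) = n ^ 2 * (p - 1) + n by ring] at this

end Cfsg.Agent.S5219
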