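import Cfsg.Statements.S5223
import Cfsg.Agent.Lib.FusionNormal

set_option autoImplicit false
open Cfsg

namespace Cfsg.Agent.S5223


/-- Let F be a saturated fusion system over a finite p-group S. Suppose there are subgroups Q₀ = S, Q₁, …, Qₙ = 1 (not required to be nested) such that for each i < n the focal subgroup of Qᵢ (generated by the elements x⁻¹φ(x), x ∈ Qᵢ, φ a map of F defined on the cyclic group generated by x) lies in Qᵢ₊₁. Then F is the inner fusion system of S. -/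
theorem result {Ω : Type*} [Group Ω] {S : Subgroup Ω} [Finite S] (p : ℕ) [Fact p.Prime] (hS : IsPGroup p S) (F : Cfsg.FusionSystem S) (hF : F.IsSaturated p) (n : ℕ) (Q : Fin (n + 1) → Subgroup Ω) (hQ0 : Q 0 = S) (hQn : Q (Fin.last n) = ⊥) (hstep : ∀ i : Fin n, Subgroup.closure {y : Ω | ∃ x ∈ Q i.castSucc, ∃ φ ∈ F.Hom (Subgroup.zpowers x), y = x⁻¹ * φ ⟨x, Subgroup.mem_zpowers x⟩} ≤ Q i.succ) : ∀ P : Subgroup Ω, F.Hom P = (Cfsg.innerFusionSystem S).Hom P := by
  open Cfsg.FusionSystem Cfsg.Agent.Lib.FusionBasic Cfsg.Agent.Lib.FusionNormal Cfsg.Agent.Lib.FusionAlperin Cfsg.Agent.Lib.FusionAut Cfsg.Agent.Lib.FusionSat in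
  -- the descending chain
  let T : ℕ → Subgroup Ω := fun i => Nat.rec S (fun _ Ti => Subgroup.closure
    {y : Ω | ∃ x ∈ Ti, ∃ φ ∈ F.Hom (Subgroup.zpowers x), y = x⁻¹ * φ ⟨x, Subgroup.mem_zpowers x⟩}) i
  have hT0 : T 0 = S := rfl
  have hTs : ∀ i, T (i + 1) = Subgroup.closure
    {y : Ω | ∃ x ∈ T i, ∃ φ ∈ F.Hom (Subgroup.zpowers x), y = x⁻¹ * φ ⟨x, Subgroup.mem_zpowers x⟩} :=
    fun _ => rfl
  -- maps on cyclic subgroups
  have hgen : ∀ (R : Subgroup Ω) (φ : R →* Ω), φ ∈ F.Hom R → ∀ x : R, ∀ i, (x : Ω) ∈ T i →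
      (x : Ω)⁻¹ * φ x ∈ T (i + 1) := by
    intro R φ hφ x i hx
    rw [hTs]
    apply Subgroup.subset_closure
    have hle : Subgroup.zpowers (x : Ω) ≤ R := (Subgroup.zpowers_le).mpr x.2
    exact ⟨x, hx, _, restrict_mem F hφ hle, rfl⟩
  have hanti : ∀ i, T (i + 1) ≤ T i := by
    intro i
    induction i with
    | zero =>
      rw [hTs, Subgroup.closure_le]
      rintro _ ⟨x, hx, φ, hφ, rfl⟩
      exact S.mul_mem (S.inv_mem hx) (map_mem_S F hφ _)
    | succ i ih =>
      rw [hTs (i + 1), Subgroup.closure_le]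
      rintro _ ⟨x, hx, φ, hφ, rfl⟩
      exact hgen _ φ hφ ⟨x, Subgroup.mem_zpowers x⟩ i (ih hx)
  have hTQ : ∀ i : Fin (n + 1), T i ≤ Q i := by
    intro i
    induction i using Fin.induction with
    | zero =>
      show T 0 ≤ Q 0
      rw [hT0, hQ0]
    | succ i ih =>
      refine le_trans ?_ (hstep i)
      show T ((i : ℕ) + 1) ≤ _
      rw [hTs]
      apply Subgroup.closure_mono
      rintro _ ⟨x, hx, φ, hφ, rfl⟩
      exact ⟨x, ih hx, φ, hφ, rfl⟩
  have hTn : T n = ⊥ := by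
    have := hTQ (Fin.last n)
    rw [hQn] at this
    exact le_bot_iff.mp this
  have hanti' : ∀ j i, j ≤ i → T i ≤ T j := fun j i h => antitone_nat_of_succ_le hanti h
  have hp : ∀ P : Subgroup Ω, P ≤ S → IsPGroup p (F.autGroup P) := by
    intro P hPS
    have hfinP : Finite P := finite_of_le hPS
    have hPp : IsPGroup p P := hS.to_le hPS
    rintro ⟨β, hβ⟩
    have hm := (mem_autGroup_iff F hPS).mp hβ
    let B : ℕ → Subgroup ↥P := fun j => (T (n - j)).subgroupOf P
    obtain ⟨k, hk⟩ := pow_fix_of_chain hPp β B n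
      (fun i hi => Subgroup.comap_mono (hanti' _ _ (by omega)))
      (fun i hi y hy => by
        have h1 := hgen _ _ hm y (n - (i + 1)) hy
        have e : n - (i + 1) + 1 = n - i := by omega
        rw [e] at h1
        exact h1) 0 (fun b hb => by
        have hb' : (b : Ω) ∈ T (n - 0) := hb
        rw [Nat.sub_zero, hTn] at hb'
        have : b = 1 := Subtype.ext (Subgroup.mem_bot.mp hb')
        rw [this, map_one])
    refine ⟨k, ?_⟩
    apply Subtype.ext
    show β ^ (p ^ k) = 1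
    ext y
    have := hk y (by
      show (y : Ω) ∈ T (n - n)
      rw [Nat.sub_self, hT0]
      exact hPS y.2)
    rw [this]
    rfl
  have := eq_inner_of_isPGroup hS hF hp
  intro P
  rw [← this]

end Cfsg.Agent.S5223
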