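import Cfsg.Statements.S5236
import Cfsg.Agent.Lib.FusionNormal
import Cfsg.Agent.Lib.FusionFoc
import Cfsg.Agent.Lib.FusionSat

set_option autoImplicit false
open Cfsg

namespace Cfsg.Agent.S5236

open scoped commutatorElement

theorem omegaOne_le' {Ω : Type*} [Group Ω] (p : ℕ) (P : Subgroup Ω) : Cfsg.omegaOne p P ≤ P :=
  (Subgroup.closure_le _).mpr fun _ hx => hx.1

theorem conj_mem_omegaOne' {Ω : Type*} [Group Ω] (p : ℕ) {P : Subgroup Ω} {b x : Ω} (hb : b ∈ P)
    (hx : x ∈ Cfsg.omegaOne p P) : b * x * b⁻¹ ∈ Cfsg.omegaOne p P := by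
  unfold Cfsg.omegaOne at *
  induction hx using Subgroup.closure_induction with
  | mem y hy =>
    refine Subgroup.subset_closure ⟨P.mul_mem (P.mul_mem hb hy.1) (P.inv_mem hb), ?_⟩
    rw [conj_pow, hy.2]
    group
  | one => simp [one_mem]
  | mul a c _ _ ha hc =>
    have : b * (a * c) * b⁻¹ = (b * a * b⁻¹) * (b * c * b⁻¹) := by group
    rw [this]
    exact Subgroup.mul_mem _ ha hc
  | inv a _ ha =>
    have : b * a⁻¹ * b⁻¹ = (b * a * b⁻¹)⁻¹ := by group
    rw [this]
    exact Subgroup.inv_mem _ ha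

theorem char_omegaOne {Ω : Type*} [Group Ω] (p : ℕ) (P : Subgroup Ω) :
    ((Cfsg.omegaOne p P).subgroupOf P).Characteristic := by
  rw [Subgroup.characteristic_iff_le_comap]
  intro ϕ x hx
  have hx' : (x : Ω) ∈ Cfsg.omegaOne p P := hx
  let W : Subgroup Ω := (((Cfsg.omegaOne p P).subgroupOf P).comap ϕ.toMonoidHom).map P.subtype
  have hW : Cfsg.omegaOne p P ≤ W := by
    unfold Cfsg.omegaOne
    rw [Subgroup.closure_le]
    intro y hy
    refine ⟨⟨y, hy.1⟩, ?_, rfl⟩
    show ((ϕ ⟨y, hy.1⟩ : P) : Ω) ∈ Subgroup.closure _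
    refine Subgroup.subset_closure ⟨(ϕ ⟨y, hy.1⟩).2, ?_⟩
    have h1 : (⟨y, hy.1⟩ : P) ^ p = 1 := Subtype.ext hy.2
    have h2 : (ϕ ⟨y, hy.1⟩) ^ p = 1 := by rw [← map_pow, h1, map_one]
    exact congrArg Subtype.val h2
  obtain ⟨y, hy, e⟩ := hW hx'
  have : y = x := Subtype.ext e
  rw [← this]
  exact hy

theorem fix_of_pow_fix {H X : Type*} [Group H] [MulAction H X] {γ : H} {y : X} {a b : ℕ}
    (ha : γ ^ a • y = y) (hb : γ ^ b • y = y) (hab : a.Coprime b) : γ • y = y := by
  have h1 : γ ^ a ∈ MulAction.stabilizer H y := ha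
  have h2 : γ ^ b ∈ MulAction.stabilizer H y := hb
  have h3 : γ = (γ ^ a) ^ (Nat.gcdA a b) * (γ ^ b) ^ (Nat.gcdB a b) := by
    rw [← zpow_natCast, ← zpow_natCast, ← zpow_mul, ← zpow_mul, ← zpow_add, ← Nat.gcd_eq_gcd_ab,
      hab.gcd_eq_one]
    simp
  have h4 : γ ∈ MulAction.stabilizer H y := by
    rw [h3]
    exact Subgroup.mul_mem _ (Subgroup.zpow_mem _ h1 _) (Subgroup.zpow_mem _ h2 _)
  exact h4


/-- Let p be an odd prime, F a saturated fusion system over a finite p-group S and P a subgroup of S strongly closed in F. Then P is normal in F if and only if Ω₁(P) (the subgroup generated by the elements of order p of P) has a chain of subgroups 1 = Q₀ ≤ Q₁ ≤ ⋯ ≤ Qₙ = Ω₁(P), each strongly closed in F, with [Qᵢ₊₁, P] ≤ Qᵢ for all i. -/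
theorem result {Ω : Type*} [Group Ω] {S : Subgroup Ω} [Finite S] (p : ℕ) [Fact p.Prime] (hS : IsPGroup p S) (F : Cfsg.FusionSystem S) (hF : F.IsSaturated p) (hp : p ≠ 2) (P : Subgroup Ω) (hP : F.StronglyClosed P) : F.IsNormal P ↔ ∃ (n : ℕ) (Q : Fin (n + 1) → Subgroup Ω), Q 0 = ⊥ ∧ Q (Fin.last n) = Cfsg.omegaOne p P ∧ Monotone Q ∧ (∀ i : Fin (n + 1), F.StronglyClosed (Q i)) ∧ ∀ i : Fin n, ⁅Q i.succ, P⁆ ≤ Q i.castSucc := by
  open Cfsg.Agent.Lib.FusionNormal Cfsg.Agent.Lib.FusionBasic Cfsg.Agent.Lib.FusionFoc Cfsg.Agent.Lib.FusionAut in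
  constructor
  · intro hN
    obtain ⟨n, Qs, h0, hl, hm, hn, hc⟩ := IsNormal.exists_chain hS hN
    have hO : F.IsNormal (Cfsg.omegaOne p P) :=
      IsNormal.of_characteristic hN (omegaOne_le' p P) (char_omegaOne p P)
    have hOs := IsNormal.stronglyClosed hO
    refine ⟨n, fun i => Qs i ⊓ Cfsg.omegaOne p P, ?_, ?_, ?_, ?_, ?_⟩
    · show Qs 0 ⊓ _ = ⊥
      rw [h0, bot_inf_eq]
    · show Qs _ ⊓ _ = _
      rw [hl]
      exact inf_eq_right.mpr (omegaOne_le' p P)
    · intro i j hij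
      exact inf_le_inf_right _ (hm hij)
    · intro i
      have h1 := IsNormal.stronglyClosed (hn i)
      refine ⟨inf_le_left.trans h1.1, fun R hR φ hφ x => ?_⟩
      exact ⟨h1.2 R (hR.trans inf_le_left) φ hφ x, hOs.2 R (hR.trans inf_le_right) φ hφ x⟩
    · intro i
      rw [Subgroup.commutator_le]
      intro a ha b hb
      refine ⟨hc i (Subgroup.commutator_mem_commutator ha.1 hb), ?_⟩
      have h1 : ⁅a, b⁆ = a * (b * a⁻¹ * b⁻¹) := by
        rw [commutatorElement_def]; group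
      rw [h1]
      exact Subgroup.mul_mem _ ha.2
        (conj_mem_omegaOne' p hb (Subgroup.inv_mem _ ha.2))
  · rintro ⟨n, Q, h0, hl, hm, hsc, hc⟩
    refine isNormal_of_stronglyClosed_of_le hS hF hP fun R hRc hRr => ?_
    have hRS := hRc.1
    haveI hfinR : Finite R := finite_of_le hRS
    have hRp : IsPGroup p R := hS.to_le hRS
    have hpp : p.Prime := Fact.out
    let C' : ℕ → Subgroup R := fun t => if h : t < n + 1 then (Q ⟨t, h⟩).subgroupOf R else ⊤
    have hC' : ∀ t (h : t < n + 1), C' t = (Q ⟨t, h⟩).subgroupOf R := fun t h => dif_pos h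
    have hC'mono : ∀ i < n, C' i ≤ C' (i + 1) := by
      intro i hi
      rw [hC' i (by omega), hC' (i + 1) (by omega)]
      exact Subgroup.comap_mono (hm (Fin.mk_le_mk.mpr (Nat.le_succ i)))
    let B : ℕ → Subgroup R := fun t => if t = 0 then P.subgroupOf R else ⊤
    have hB0 : B 0 = P.subgroupOf R := if_pos rfl
    have hB1 : B 1 = ⊤ := if_neg (by omega)
    have hC'inv : ∀ t, t < n + 1 → ∀ α ∈ F.autGroup R, ∀ x ∈ C' t, α x ∈ C' t := by
      intro t ht α hα x hx
      rw [hC' t ht] at hx ⊢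
      exact StronglyClosed.map_autGroup_mem (hsc _) hRS hα x hx
    refine le_of_stab hS hRc hRr hP.1 (StronglyClosed.le_normalizer hP) 1 B ?_ hB1 ?_
      (stabSubmonoid C' n hC'mono) ?_ ?_ ?_
    · intro i hi
      obtain rfl : i = 0 := by omega
      rw [hB1]
      exact le_top
    · intro i hi α hα x hx
      obtain rfl | rfl : i = 0 ∨ i = 1 := by omega
      · rw [hB0] at hx ⊢
        exact StronglyClosed.map_autGroup_mem hP hRS hα x hx
      · rw [hB1]
        trivial
    · intro α hα β hβ i hi y hy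
      have hz : α⁻¹ y ∈ C' (i + 1) :=
        hC'inv (i + 1) (by omega) α⁻¹ (Subgroup.inv_mem _ hα) y hy
      have hb := hβ i hi _ hz
      have hαb := hC'inv i (by omega) α hα _ hb
      have e : y⁻¹ * (α * β * α⁻¹) y = α ((α⁻¹ y)⁻¹ * β (α⁻¹ y)) := by
        simp [MulAut.mul_apply]
      rw [e]
      exact hαb
    · intro β hβA hβ _
      haveI : Finite (MulAut R) := Cfsg.Agent.Lib.FusionSat.mulAut_finite
      obtain ⟨a, c, hc1, hc2⟩ := Nat.exists_eq_pow_mul_and_not_dvd (orderOf_pos β).ne' p hpp.ne_one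
      have hcop0 : c.Coprime p := ((Nat.Prime.coprime_iff_not_dvd hpp).mpr hc1).symm
      refine ⟨a, fun b hb => ?_⟩
      set γ := β ^ (p ^ a) with hγ
      have hγord : orderOf γ = c := by
        rw [hγ, orderOf_pow' _ (pow_ne_zero _ hpp.ne_zero), hc2]
        rw [Nat.gcd_eq_right (Dvd.intro _ rfl)]
        exact Nat.mul_div_cancel_left _ (pow_pos hpp.pos _)
      have hγA : γ ∈ F.autGroup R := Subgroup.pow_mem _ hβA _
      have hγst : γ ∈ stabSubmonoid C' n hC'mono := Submonoid.pow_mem _ hβ _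
      have hγord' : (orderOf γ).Coprime p := hγord ▸ hcop0
      refine ito_aut (X := R) γ hγord' (P.subgroupOf R) ?_ ?_ ?_ b (hB0 ▸ hb)
      · exact hRp.to_subgroup _
      · intro q hq
        exact StronglyClosed.map_autGroup_mem hP hRS hγA q hq
      · intro E hE _ hexp e he
        have hep : e ^ p = 1 := by
          rcases hexp e he with h | ⟨h2, -⟩
          · exact h
          · exact absurd h2 hp
        have heΩ : (e : Ω) ∈ Cfsg.omegaOne p P :=
          Subgroup.subset_closure ⟨hE he, congrArg Subtype.val hep⟩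
        have heC : e ∈ C' n := by
          rw [hC' n (by omega)]
          have : (⟨n, by omega⟩ : Fin (n + 1)) = Fin.last n := rfl
          rw [this, hl]
          exact heΩ
        obtain ⟨k', hk'⟩ := pow_fix_of_chain hRp γ C' n hC'mono hγst 0 (by
          intro b hb
          rw [hC' 0 (by omega)] at hb
          have hb' : (b : Ω) ∈ Q ⟨0, by omega⟩ := hb
          have e0 : (⟨0, by omega⟩ : Fin (n + 1)) = 0 := rfl
          rw [e0, h0] at hb'
          have : b = 1 := Subtype.ext (Subgroup.mem_bot.mp hb')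
          rw [this, map_one])
        have h1 : (γ ^ (p ^ k')) • e = e := hk' e heC
        have h2 : (γ ^ (orderOf γ)) • e = e := by
          rw [pow_orderOf_eq_one, one_smul]
        exact fix_of_pow_fix h2 h1 (Nat.Coprime.pow_right _ hγord')
    · intro r hr hrn
      constructor
      · intro i hi y hy
        rw [hC' (i + 1) (by omega)] at hy
        rw [hC' i (by omega), Subgroup.mem_subgroupOf]
        have hy' : (y : Ω) ∈ Q ⟨i + 1, by omega⟩ := hy
        have e : ((y⁻¹ * conjAut R ⟨r, hrn⟩ y : ↥R) : Ω) = ⁅(y : Ω)⁻¹, r⁆ := by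
          show (y : Ω)⁻¹ * (r * y * r⁻¹) = (y : Ω)⁻¹ * r * (y : Ω)⁻¹⁻¹ * r⁻¹
          group
        rw [e]
        exact hc ⟨i, hi⟩ (Subgroup.commutator_mem_commutator (Subgroup.inv_mem _ hy') hr)
      · intro i hi y _
        obtain rfl : i = 0 := by omega
        rw [hB0, Subgroup.mem_subgroupOf]
        have e : ((y⁻¹ * conjAut R ⟨r, hrn⟩ y : ↥R) : Ω) = ((y : Ω)⁻¹ * r * y) * r⁻¹ := by
          show (y : Ω)⁻¹ * (r * y * r⁻¹) = _
          group
        rw [e]
        have hyS : (y : Ω)⁻¹ ∈ S := S.inv_mem (hRS y.2)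
        have h1 := (Subgroup.mem_normalizer_iff.mp (StronglyClosed.le_normalizer hP hyS) r).mp hr
        rw [inv_inv] at h1
        exact P.mul_mem h1 (P.inv_mem hr)

end Cfsg.Agent.S5236
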