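import Cfsg.Statements.S5255
import Cfsg.Agent.Lib.FusionPuig

set_option autoImplicit false
open Cfsg

namespace Cfsg.Agent.S5255


/-- Let F be a saturated fusion system over a finite p-group S and T a subgroup of S strongly closed in F. Then T·C_S(T) is strongly closed in F. -/
theorem result {Ω : Type*} [Group Ω] {S : Subgroup Ω} [Finite S] (p : ℕ) [Fact p.Prime] (hS : IsPGroup p S) (F : Cfsg.FusionSystem S) (hF : F.IsSaturated p) (T : Subgroup Ω) (hT : F.StronglyClosed T) : F.StronglyClosed (T ⊔ Cfsg.FusionSystem.centralizerIn S T) := by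
  open Cfsg.FusionSystem Cfsg.Agent.Lib.FusionBasic Cfsg.Agent.Lib.FusionNormal Cfsg.Agent.Lib.FusionPuig in
  open scoped Pointwise in
  have hTn := StronglyClosed.le_normalizer hT
  have hCS : centralizerIn S T ≤ S := inf_le_left
  have hCT : centralizerIn S T ≤ Subgroup.normalizer (T : Set Ω) := hCS.trans hTn
  refine ⟨sup_le hT.1 hCS, fun R hR φ hφ x => ?_⟩
  obtain ⟨ψ, hψ, hc⟩ := extMod hS hF hT hφ
  have hx : (x : Ω) ∈ centralizerIn S T ⊔ T := by
    rw [sup_comm]
    exact hR x.2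
  have hxm : (x : Ω) ∈ ((centralizerIn S T : Set Ω) * (T : Set Ω)) := by
    rw [← Subgroup.coe_mul_of_left_le_normalizer_right _ T hCT]
    exact hx
  obtain ⟨c, hcC, t, ht, e⟩ := hxm
  have hxR : (x : Ω) ∈ R ⊔ T := Subgroup.mem_sup_left x.2
  have htR : t ∈ R ⊔ T := Subgroup.mem_sup_right ht
  have hcR : c ∈ R ⊔ T := by
    have : c = (x : Ω) * t⁻¹ := by
      rw [← e]
      group
    rw [this]
    exact Subgroup.mul_mem _ hxR (Subgroup.inv_mem _ htR)
  have hψt : ψ ⟨t, htR⟩ ∈ T := map_mem_of_le hT le_sup_right hψ _ ht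
  -- `ψ c` centralizes `T`
  have hψc : ψ ⟨c, hcR⟩ ∈ centralizerIn S T := by
    refine ⟨map_mem_S F hψ _, ?_⟩
    show _ ∈ Subgroup.centralizer (T : Set Ω)
    rw [Subgroup.mem_centralizer_iff]
    intro u hu
    obtain ⟨w, hw, e'⟩ := exists_preimage_of_le hT (le_sup_right : T ≤ R ⊔ T) hψ hu
    rw [← e', ← map_mul, ← map_mul]
    congr 1
    apply Subtype.ext
    exact Subgroup.mem_centralizer_iff.mp hcC.2 w hw
  have e2 : (Subgroup.inclusion le_sup_left x : ↥(R ⊔ T)) = ⟨c, hcR⟩ * ⟨t, htR⟩ :=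
    Subtype.ext e.symm
  have hx3 : ψ (Subgroup.inclusion le_sup_left x) ∈ T ⊔ centralizerIn S T := by
    rw [e2, map_mul]
    exact Subgroup.mul_mem _ (Subgroup.mem_sup_right hψc) (Subgroup.mem_sup_left hψt)
  have e3 : φ x = ψ (Subgroup.inclusion le_sup_left x) *
      ((ψ (Subgroup.inclusion le_sup_left x))⁻¹ * φ x) := by group
  rw [e3]
  exact Subgroup.mul_mem _ hx3 (Subgroup.mem_sup_left (hc x))

end Cfsg.Agent.S5255
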