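import Cfsg.Statements.S5290
import Cfsg.Agent.Lib.FusionInv

set_option autoImplicit false
open Cfsg

namespace Cfsg.Agent.S5290


/-- Let F be a saturated fusion system over a finite p-group S and Q a subgroup of S. Then Q is normal in F (F = N_F(Q)) if and only if the inner fusion system of Q, consisting of the conjugations by elements of Q on subgroups of Q, is a weakly normal subsystem of F (both saturated, Q strongly closed, invariant under F-conjugation, with the Frattini property). -/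
theorem result {Ω : Type*} [Group Ω] {S : Subgroup Ω} [Finite S] (p : ℕ) [Fact p.Prime] (hS : IsPGroup p S)
    (F : Cfsg.FusionSystem S) (hF : F.IsSaturated p)
    (Q : Subgroup Ω) (hQ : Q ≤ S) :
    F.IsNormal Q ↔ (Cfsg.innerFusionSystem Q).IsWeaklyNormalIn F p := by
  open Cfsg.FusionSystem Cfsg.Agent.Lib.FusionBasic Cfsg.Agent.Lib.FusionNormal Cfsg.Agent.Lib.FusionAlperin Cfsg.Agent.Lib.FusionAut Cfsg.Agent.Lib.FusionSat Cfsg.Agent.Lib.FusionInv in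
  have hfinQ : Finite Q := finite_of_le hQ
  constructor
  · intro h
    refine ⟨isSaturated_inner (hS.to_le hQ), hF, ?_, IsNormal.stronglyClosed h, ?_, ?_⟩
    · rintro P φ ⟨hP, g, hg, hact⟩
      exact hom_of_eq (F.conj_mem (hP.trans hQ) (hQ hg)) hact
    · rintro P hPT φ ⟨-, g, hg, hact⟩ α hα
      refine ⟨conjHom _ ((α ⟨g, hg⟩ : Q) : Ω), ⟨?_, _, (α ⟨g, hg⟩).2, fun _ => rfl⟩, fun x hφx hαx => ?_⟩
      · rintro _ ⟨z, -, rfl⟩
        exact (α z).2
      · show ((α ⟨g, hg⟩ : Q) : Ω) * ((α ⟨x, hPT x.2⟩ : Q) : Ω) * ((α ⟨g, hg⟩ : Q) : Ω)⁻¹ = _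
        have e : (⟨φ x, hφx⟩ : Q) = ⟨g, hg⟩ * ⟨x, hPT x.2⟩ * ⟨g, hg⟩⁻¹ := Subtype.ext (hact x)
        rw [e, map_mul, map_mul, map_inv]
        rfl
    · intro P hPT φ hφ
      obtain ⟨α, hα, hval⟩ := IsNormal.star h P hPT φ hφ
      refine ⟨α, hα, P.subtype, ⟨hPT, 1, one_mem _, fun x => by simp⟩, fun x hx => ?_⟩
      exact (hval x).symm
  · rintro ⟨-, -, hsub, hsc, hinv, hfr⟩
    refine isNormal_of_star hS hF hQ fun P hP φ hφ => ?_
    obtain ⟨α, hα, φ₀, ⟨-, g, hg, hφ₀⟩, he⟩ := hfr P hP φ hφ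
    refine ⟨α * MulAut.conj (⟨g, hg⟩ : Q), mul_mem hα (inn_le_autGroup F hQ ⟨_, rfl⟩), fun x => ?_⟩
    have hx : φ₀ x ∈ Q := by
      rw [hφ₀]
      exact Q.mul_mem (Q.mul_mem hg (hP x.2)) (Q.inv_mem hg)
    have e : (MulAut.conj (⟨g, hg⟩ : Q)) (Subgroup.inclusion hP x) = ⟨φ₀ x, hx⟩ :=
      Subtype.ext (hφ₀ x).symm
    show ((α ((MulAut.conj (⟨g, hg⟩ : Q)) (Subgroup.inclusion hP x)) : Q) : Ω) = _
    rw [e, he x hx]

end Cfsg.Agent.S5290
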