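import Cfsg.Statements.S5291
import Cfsg.Agent.Lib.FusionInv

set_option autoImplicit false
open Cfsg

namespace Cfsg.Agent.S5291


/-- Let F be a saturated fusion system over a finite p-group S and E a weakly normal subsystem of F over a subgroup T. Suppose a subgroup R of T is normal in E (E = N_E(R)), and let R* be the subgroup of T generated by the images of R under all maps of F with source R. Then R* is normal in F (F = N_F(R*)). -/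
theorem result {Ω : Type*} [Group Ω] {S : Subgroup Ω} [Finite S] (p : ℕ) [Fact p.Prime] (hS : IsPGroup p S)
    (F : Cfsg.FusionSystem S) (hF : F.IsSaturated p)
    {T : Subgroup Ω} (E : Cfsg.FusionSystem T) (hE : E.IsWeaklyNormalIn F p)
    (R : Subgroup Ω) (hR : E.IsNormal R) :
    F.IsNormal (Subgroup.closure {x : Ω | ∃ φ ∈ F.Hom R, ∃ r : R, x = φ r}) := by
  open Cfsg.FusionSystem Cfsg.Agent.Lib.FusionBasic Cfsg.Agent.Lib.FusionNormal Cfsg.Agent.Lib.FusionAlperin Cfsg.Agent.Lib.FusionAut Cfsg.Agent.Lib.FusionSat Cfsg.Agent.Lib.FusionInv in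
  obtain ⟨hEsat, -, hsub, hTsc, hinv, hfr⟩ := hE
  have hTS : T ≤ S := hTsc.1
  have hfinT : Finite T := finite_of_le hTS
  have hTp : IsPGroup p T := hS.to_le hTS
  have hRT : R ≤ T := hR.1
  have hRS : R ≤ S := hRT.trans hTS
  -- images of `R` under `Aut_F(T)` are normal in `E`
  have hA : ∀ α ∈ F.autGroup T, E.IsNormal ((R.subgroupOf T).map (T.subtype.comp α.toMonoidHom)) := by
    intro α hα
    have hle : (R.subgroupOf T).map (T.subtype.comp α.toMonoidHom) ≤ T := by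
      rintro _ ⟨z, -, rfl⟩
      exact (α z).2
    refine isNormal_of_star hTp hEsat hle fun P' hP' ψ hψ => ?_
    have hP'T : P' ≤ T := hP'.trans hle
    obtain ⟨χ, hχ, hχe⟩ := hinv P' hP'T ψ hψ α⁻¹ (inv_mem hα)
    have hle2 : (P'.subgroupOf T).map (T.subtype.comp (α⁻¹ : MulAut T).toMonoidHom) ≤ R := by
      rintro _ ⟨z, hz, rfl⟩
      obtain ⟨w, hw, e⟩ := hP' hz
      have e' : α w = z := Subtype.ext e
      show (((α⁻¹ : MulAut T) z : T) : Ω) ∈ R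
      rw [← e']
      have e2 : (α⁻¹ : MulAut T) (α w) = w := by simp
      rw [e2]
      exact hw
    obtain ⟨β₀, hβ₀, hβ₀e⟩ := IsNormal.star hR _ hle2 χ hχ
    have hβm := (mem_autGroup_iff E hRT).mp hβ₀
    obtain ⟨χ₂, hχ₂, hχ₂e⟩ := hinv R hRT _ hβm α hα
    have hχ₂e' : ∀ (r : R) (h₂ : ((α ⟨r, hRT r.2⟩ : T) : Ω) ∈ (R.subgroupOf T).map (T.subtype.comp α.toMonoidHom)),
        χ₂ ⟨((α ⟨r, hRT r.2⟩ : T) : Ω), h₂⟩ = ((α ⟨((β₀ r : R) : Ω), hRT (β₀ r).2⟩ : T) : Ω) :=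
      fun r h₂ => hχ₂e r (hRT (β₀ r).2) h₂
    have hrange : χ₂.range = (R.subgroupOf T).map (T.subtype.comp α.toMonoidHom) := by
      ext y
      constructor
      · rintro ⟨⟨_, z, hz, rfl⟩, rfl⟩
        have h1 := hχ₂e' ⟨z, hz⟩ ⟨z, hz, rfl⟩
        refine ⟨⟨((β₀ ⟨z, hz⟩ : R) : Ω), hRT (β₀ ⟨z, hz⟩).2⟩, (β₀ ⟨z, hz⟩).2, ?_⟩
        exact h1.symm
      · rintro ⟨z, hz, rfl⟩
        have h1 := hχ₂e' (β₀⁻¹ ⟨z, hz⟩) ⟨_, (β₀⁻¹ ⟨z, hz⟩).2, rfl⟩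
        refine ⟨_, h1.trans ?_⟩
        simp
    refine ⟨isoOfRange hχ₂ hrange, isoOfRange_mem_autGroup hχ₂ hrange, fun x => ?_⟩
    -- evaluate
    have hxT : (x : Ω) ∈ T := hP'T x.2
    have hr : (((α⁻¹ : MulAut T) ⟨x, hxT⟩ : T) : Ω) ∈ R := hle2 ⟨⟨x, hxT⟩, x.2, rfl⟩
    have hm : ((α⁻¹ : MulAut T) ⟨x, hxT⟩ : T) ∈ R.subgroupOf T := hr
    have hmm : ((α⁻¹ : MulAut T) ⟨x, hxT⟩ : Ω) ∈ (P'.subgroupOf T).map (T.subtype.comp (α⁻¹ : MulAut T).toMonoidHom) :=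
      ⟨⟨x, hxT⟩, x.2, rfl⟩
    have hψx : ψ x ∈ T := (E.le_of_mem hψ).2 x
    have h1 := hχ₂e' ⟨_, hr⟩ ⟨_, hm, rfl⟩
    have h2 : ((α ⟨((α⁻¹ : MulAut T) ⟨x, hxT⟩ : Ω), hRT hr⟩ : T) : Ω) = x := by simp
    have h3 := hβ₀e ⟨_, hmm⟩
    have h4 : χ ⟨_, hmm⟩ = (((α⁻¹ : MulAut T) ⟨ψ x, hψx⟩ : T) : Ω) := hχe x hψx hmm
    show χ₂ ⟨x, _⟩ = ψ x
    have e5 : (β₀ ⟨_, hr⟩ : R) = ⟨(((α⁻¹ : MulAut T) ⟨ψ x, hψx⟩ : T) : Ω), by
        rw [← h4, ← h3]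
        exact (β₀ _).2⟩ := by
      apply Subtype.ext
      rw [← h4, ← h3]
      rfl
    have h6 : χ₂ ⟨x, by rw [← h2]; exact ⟨_, hm, rfl⟩⟩ =
        χ₂ ⟨((α ⟨((α⁻¹ : MulAut T) ⟨x, hxT⟩ : Ω), hRT hr⟩ : T) : Ω), ⟨_, hm, rfl⟩⟩ := by
      congr 1
      exact Subtype.ext h2.symm
    rw [h6, h1, e5]
    simp
  -- the subgroup `R*`
  set Rs : Subgroup Ω := Subgroup.closure {x : Ω | ∃ φ ∈ F.Hom R, ∃ r : R, x = φ r} with hRs
  have hRsT : Rs ≤ T := by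
    rw [hRs, Subgroup.closure_le]
    rintro _ ⟨φ, hφ, r, rfl⟩
    exact hTsc.2 R hRT φ hφ r
  have hgen : ∀ φ ∈ F.Hom R, ∀ r : R, φ r ∈ Rs := fun φ hφ r =>
    Subgroup.subset_closure ⟨φ, hφ, r, rfl⟩
  -- `Rα ≤ R*`
  have hAle : ∀ α ∈ F.autGroup T, (R.subgroupOf T).map (T.subtype.comp α.toMonoidHom) ≤ Rs := by
    rintro α hα _ ⟨z, hz, rfl⟩
    have hres := restrict_mem F ((mem_autGroup_iff F hTS).mp hα) hRT
    exact hgen _ hres ⟨z, hz⟩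
  -- `R*` is normal in `E`
  let N : Set (Subgroup Ω) := {Q | E.IsNormal Q ∧ Q ≤ Rs}
  have hNmem : sSup N ∈ N := by
    refine sSup_mem_of_sup_closed (fun Q hQ => hQ.1.1) ⟨isNormal_bot E, bot_le⟩ ?_
    rintro A ⟨hA1, hA2⟩ B ⟨hB1, hB2⟩
    exact ⟨IsNormal.sup hA1 hB1, sup_le hA2 hB2⟩
  have hRsN : Rs ≤ sSup N := by
    rw [hRs, Subgroup.closure_le]
    rintro _ ⟨φ, hφ, r, rfl⟩
    obtain ⟨α, hα, φ₀, hφ₀, he⟩ := hfr R hRT φ hφ
    have h1 : φ₀ r ∈ R := (IsNormal.stronglyClosed hR).2 R le_rfl φ₀ hφ₀ r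
    have h2 := he r (hRT h1)
    show φ r ∈ sSup N
    rw [h2]
    refine (le_sSup (show _ ∈ N from ⟨hA α hα, hAle α hα⟩)) ?_
    exact ⟨⟨φ₀ r, hRT h1⟩, h1, rfl⟩
  have hRsE : E.IsNormal Rs := by
    have : sSup N = Rs := le_antisymm hNmem.2 hRsN
    rw [← this]
    exact hNmem.1
  -- `α` preserves `R*`
  have hinvar : ∀ α ∈ F.autGroup T, ∀ x : T, (x : Ω) ∈ Rs → ((α x : T) : Ω) ∈ Rs := by
    intro α hα x hx
    have hle : Rs ≤ ((Rs.subgroupOf T).comap α.toMonoidHom).map T.subtype := by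
      rw [hRs, Subgroup.closure_le]
      rintro _ ⟨φ, hφ, r, rfl⟩
      have hφT : φ r ∈ T := hTsc.2 R hRT φ hφ r
      refine ⟨⟨φ r, hφT⟩, ?_, rfl⟩
      show ((α ⟨φ r, hφT⟩ : T) : Ω) ∈ Rs
      have hv : ∀ z : R, φ z ∈ T := fun z => hTsc.2 R hRT φ hφ z
      obtain ⟨χ, hχ, hχe⟩ := exists_comp F hφ ((mem_autGroup_iff F hTS).mp hα) hv
      have := hgen χ hχ r
      rwa [hχe] at this
    obtain ⟨y, hy, hyx⟩ := hle hx
    have : y = x := Subtype.ext hyx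
    rw [← this]
    exact hy
  -- the star property in `F`
  have hRsS : Rs ≤ S := hRsT.trans hTS
  have hfinRs : Finite Rs := finite_of_le hRsS
  refine isNormal_of_star hS hF hRsS fun P hP φ hφ => ?_
  have hPT : P ≤ T := hP.trans hRsT
  obtain ⟨α, hα, φ₀, hφ₀, he⟩ := hfr P hPT φ hφ
  obtain ⟨β, hβ, hβe⟩ := IsNormal.star hRsE P hP φ₀ hφ₀
  have hβF : β ∈ F.autGroup Rs := by
    rw [mem_autGroup_iff F hRsS]
    exact hsub _ ((mem_autGroup_iff E hRsT).mp hβ)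
  have hres := restrict_mem F ((mem_autGroup_iff F hTS).mp hα) hRsT
  have hrr : ((T.subtype.comp α.toMonoidHom).comp (Subgroup.inclusion hRsT)).range = Rs := by
    apply Subgroup.eq_of_le_of_card_ge
    · rintro _ ⟨z, rfl⟩
      exact hinvar α hα _ z.2
    · exact (card_range_eq F hres).ge
  refine ⟨isoOfRange hres hrr * β, mul_mem (isoOfRange_mem_autGroup hres hrr) hβF, fun x => ?_⟩
  have hx : φ₀ x ∈ T := (E.le_of_mem hφ₀).2 x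
  have e : (⟨((β (Subgroup.inclusion hP x) : Rs) : Ω), hRsT (β _).2⟩ : T) = ⟨φ₀ x, hx⟩ :=
    Subtype.ext (hβe x)
  show ((α ⟨((β (Subgroup.inclusion hP x) : Rs) : Ω), hRsT (β _).2⟩ : T) : Ω) = _
  rw [e, he x hx]

end Cfsg.Agent.S5291
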