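import Cfsg.Statements.S5294
import Cfsg.Agent.Lib.FusionGrun

set_option autoImplicit false
universe u
open Cfsg

namespace Cfsg.Agent.S5294


/-- Let F be a saturated fusion system over a finite p-group S whose centre Z(S) lies in the largest subgroup O_p(F) normal in F. Then the centre Z(F) of F is a direct factor of Z(S): there is a subgroup K of Z(S) with Z(F) ∩ K = 1 and Z(F)K = Z(S). -/
theorem result {Ω : Type u} [Group Ω] {S : Subgroup Ω} [Finite S] (p : ℕ) [Fact p.Prime] (hS : IsPGroup p S)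
    (F : Cfsg.FusionSystem S) (hF : F.IsSaturated p) (hZ : (S ⊓ Subgroup.centralizer (S : Set Ω)) ≤ F.core) :
    ∃ K : Subgroup Ω, K ≤ (S ⊓ Subgroup.centralizer (S : Set Ω)) ∧ F.center ⊓ K = ⊥ ∧ F.center ⊔ K = (S ⊓ Subgroup.centralizer (S : Set Ω)) := by
  classical
  open Cfsg.FusionSystem Cfsg.Agent.Lib.FusionGrun Cfsg.Agent.Lib.FusionBasic Cfsg.Agent.Lib.FusionNormal Cfsg.Agent.Lib.FusionSat Cfsg.Agent.Lib.FusionAut in
  have hQn : F.IsNormal F.core := isNormal_core F
  have hQS : F.core ≤ S := hQn.1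
  haveI hfin : Finite F.core := finite_of_le hQS
  have hQsc := IsNormal.stronglyClosed hQn
  have hfn : F.IsFullyNormalized F.core := by
    refine ⟨hQS, fun Q hQ => ?_⟩
    obtain ⟨φ, hφ, hr⟩ := hQ
    have := (StronglyClosed.weaklyClosed hQsc).2 φ hφ
    rw [← hr, this]
  obtain ⟨-, R, hR⟩ := (IsSaturated.fullyNormalized hS hF hfn).1
  haveI hfinM : Finite (MulAut F.core) := mulAut_finite
  have hidx : ¬ p ∣ ((autInducedBy S F.core).subgroupOf (F.autGroup F.core)).index := by
    rw [← hR]
    exact R.not_dvd_index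
  let φ : F.autGroup F.core →* MulAut (Subgroup.center F.core) := (centerAct F.core).comp (F.autGroup F.core).subtype
  let ι : Subgroup.center F.core →* Ω := F.core.subtype.comp (Subgroup.center F.core).subtype
  have hι : ∀ z, ι z = ((z : F.core) : Ω) := fun z => rfl
  have hinj : Function.Injective ι := fun a b h => Subtype.ext (Subtype.ext h)
  have hcen : ∀ x ∈ S ⊓ Subgroup.centralizer (S : Set Ω), ∃ z : Subgroup.center F.core, ι z = x := by
    intro x hx
    have hxQ := hZ hx
    refine ⟨⟨⟨x, hxQ⟩, Subgroup.mem_center_iff.mpr fun q => ?_⟩, rfl⟩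
    apply Subtype.ext
    exact (Subgroup.mem_centralizer_iff.mp hx.2 q (hQS q.2))
  have hC : (fixedSub φ ((autInducedBy S F.core).subgroupOf (F.autGroup F.core))).map ι = S ⊓ Subgroup.centralizer (S : Set Ω) := by
    apply le_antisymm
    · rintro _ ⟨z, hz, rfl⟩
      refine ⟨hQS (z : F.core).2, ?_⟩
      show ι z ∈ Subgroup.centralizer (S : Set Ω)
      rw [Subgroup.mem_centralizer_iff]
      intro s hs
      let g : ↥(Subgroup.normalizer (F.core : Set Ω)) := ⟨s, StronglyClosed.le_normalizer hQsc hs⟩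
      have hα : conjAut F.core g ∈ autInducedBy S F.core := conjAut_mem_autInducedBy hs
      have h1 := hz ⟨conjAut F.core g, autInducedBy_le_autGroup F hQS hα⟩ (Subgroup.mem_subgroupOf.mpr hα)
      have h2 : s * ((z : F.core) : Ω) * s⁻¹ = ((z : F.core) : Ω) := congrArg (fun w : Subgroup.center F.core => ((w : F.core) : Ω)) h1
      rw [hι]
      calc s * ((z : F.core) : Ω) = s * ((z : F.core) : Ω) * s⁻¹ * s := by group
        _ = _ := by rw [h2]
    · intro x hx
      obtain ⟨z, rfl⟩ := hcen x hx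
      refine ⟨z, fun t ht => ?_, rfl⟩
      have ht' := Subgroup.mem_subgroupOf.mp ht
      obtain ⟨g, hg, e⟩ := mem_autInducedBy_iff.mp ht'
      apply Subtype.ext
      apply Subtype.ext
      have h3 : (((t : MulAut F.core) (z : F.core) : F.core) : Ω) = g * ((z : F.core) : Ω) * g⁻¹ := e _
      have h4 := Subgroup.mem_centralizer_iff.mp hx.2 g hg
      rw [hι] at h4
      show (((t : MulAut F.core) (z : F.core) : F.core) : Ω) = _
      rw [h3, h4]
      group
  have hFx : (fixedSub φ ⊤).map ι = F.center := by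
    apply le_antisymm
    · apply IsCentral.le_center
      have hWQ : (fixedSub φ ⊤).map ι ≤ F.core := by
        rintro _ ⟨z, -, rfl⟩
        exact (z : F.core).2
      refine ⟨hWQ.trans hQS, fun P φ' hφ' => ?_⟩
      obtain ⟨ψ, hψ, h1, -⟩ := hQn.2 P φ' hφ'
      have hle : P ⊔ (fixedSub φ ⊤).map ι ≤ P ⊔ F.core := sup_le_sup_left hWQ P
      refine ⟨ψ.comp (Subgroup.inclusion hle), restrict_mem F hψ hle, fun x => h1 x, fun x => ?_⟩
      obtain ⟨z, hz, e⟩ := x.2
      have hres := restrict_mem F hψ (le_sup_right : F.core ≤ P ⊔ F.core)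
      have hr := (StronglyClosed.weaklyClosed hQsc).2 _ hres
      have hα := isoOfRange_mem_autGroup hres hr
      have h2 := hz ⟨isoOfRange hres hr, hα⟩ (Subgroup.mem_top _)
      have h3 : ((isoOfRange hres hr (z : F.core) : F.core) : Ω) = ((z : F.core) : Ω) :=
        congrArg (fun w : Subgroup.center F.core => ((w : F.core) : Ω)) h2
      rw [isoOfRange_apply] at h3
      have e' : (Subgroup.inclusion hle (Subgroup.inclusion le_sup_right x)) = Subgroup.inclusion le_sup_right (z : F.core) := by
        apply Subtype.ext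
        exact e.symm
      show ψ (Subgroup.inclusion hle (Subgroup.inclusion le_sup_right x)) = x
      rw [e']
      rw [← e]
      exact h3
    · intro x hx
      have hx' : x ∈ S ⊓ Subgroup.centralizer (S : Set Ω) :=
        ⟨(isCentral_center F).1 hx, F.center_le_centralizer hx⟩
      obtain ⟨z, rfl⟩ := hcen x hx'
      refine ⟨z, fun l _ => ?_, rfl⟩
      apply Subtype.ext
      apply Subtype.ext
      have h5 : F.core.subtype.comp (l : MulAut F.core).toMonoidHom ∈ F.Hom F.core := (mem_autGroup_iff F hQS).mp l.2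
      exact Cfsg.Agent.Lib.FusionGrun.IsCentral.fix (isCentral_center F) h5 (z : F.core) hx
  have hp : IsPGroup p (fixedSub φ ((autInducedBy S F.core).subgroupOf (F.autGroup F.core))) := by
    intro z
    have hzS : ι z ∈ S := hQS (z : Subgroup.center F.core).1.2
    obtain ⟨k, hk⟩ := hS ⟨ι z, hzS⟩
    refine ⟨k, ?_⟩
    apply Subtype.ext
    apply hinj
    have h6 : (ι z) ^ (p ^ k) = 1 := congrArg Subtype.val hk
    simpa [map_pow] using h6
  obtain ⟨K, hK1, hK2, hK3⟩ := exists_complement (fun a b => Subtype.ext (Subgroup.mem_center_iff.mp a.2 b).symm) φ _ hidx hp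
  refine ⟨K.map ι, ?_, ?_, ?_⟩
  · rw [← hC]
    exact Subgroup.map_mono hK1
  · rw [← hFx, ← Subgroup.map_inf _ _ _ hinj, hK2, Subgroup.map_bot]
  · rw [← hFx, ← Subgroup.map_sup, hK3, hC]

end Cfsg.Agent.S5294
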