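import Cfsg.Statements.S5301
import Cfsg.Agent.Lib.FusionNormal

set_option autoImplicit false
universe u
open Cfsg

namespace Cfsg.Agent.S5301


/-- Let F be a saturated fusion system over a finite p-group S. If for every subgroup P of S that is fully normalized, centric and radical in F the automorphism group that F induces on P has a normal Sylow p-subgroup, then S is normal in F. -/
theorem result {Ω : Type u} [Group Ω] {S : Subgroup Ω} [Finite S] (p : ℕ) [Fact p.Prime] (hS : IsPGroup p S)
    (F : Cfsg.FusionSystem S) (hF : F.IsSaturated p)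
    (hcl : ∀ P : Subgroup Ω, F.IsFullyNormalized P → F.IsCentric P → F.IsRadical p P →
      ∃ R : Sylow p ↥(F.autGroup P), (R : Subgroup ↥(F.autGroup P)).Normal) :
    F.IsNormal S := by
  open Cfsg.FusionSystem Cfsg.Agent.Lib.FusionBasic Cfsg.Agent.Lib.FusionNormal Cfsg.Agent.Lib.FusionAlperin Cfsg.Agent.Lib.FusionAut Cfsg.Agent.Lib.FusionSat in
  refine isNormal_of_autGroup hS hF fun P hP => ?_
  have hPS : P ≤ S := by
    rcases hP with rfl | h
    · exact le_rfl
    · exact h.1.1
  refine ⟨?_, fun α _ x _ => hPS (α x).2⟩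
  rcases hP with rfl | hess
  · exact le_rfl
  have hfinP : Finite P := finite_of_le hPS
  have hfinA : Finite (MulAut P) := mulAut_finite
  have hrad := isRadical_of_isEssential hS hess
  obtain ⟨hcen, hfull, -⟩ := hess
  obtain ⟨R, hR⟩ := hcl P hfull hcen hrad
  obtain ⟨hauto, -⟩ := IsSaturated.fullyNormalized hS hF hfull
  obtain ⟨R₀, hR₀⟩ := hauto.2
  have hRle : (R : Subgroup (F.autGroup P)) ≤ R₀ := by
    have := hR
    exact R.isPGroup'.le_sylow_of_normal R₀
  have hRe : (R₀ : Subgroup (F.autGroup P)) = R := R.is_maximal' R₀.isPGroup' hRle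
  have hXn : ((autInducedBy S P).subgroupOf (F.autGroup P)).Normal := by
    rw [← hR₀, hRe]
    exact hR
  have hXp : IsPGroup p ((autInducedBy S P).subgroupOf (F.autGroup P)) := by
    rw [← hR₀]
    exact R₀.isPGroup'
  have hle : (autInducedBy S P).subgroupOf (F.autGroup P) ≤ pCore p (F.autGroup P) := le_sSup ⟨hXn, hXp⟩
  have hN : normalizerIn S P ≤ P := by
    intro s hs
    have h1 : conjAut P ⟨s, hs.2⟩ ∈ autInducedBy S P := conjAut_mem_autInducedBy hs.1
    have h2 : conjAut P ⟨s, hs.2⟩ ∈ F.autGroup P := autInducedBy_le_autGroup F hPS h1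
    have h3 : conjAut P ⟨s, hs.2⟩ ∈ (pCore p (F.autGroup P)).map (F.autGroup P).subtype :=
      ⟨⟨_, h2⟩, hle h1, rfl⟩
    rw [hrad.2] at h3
    exact mem_of_conjAut_mem_inn hcen hs.1 hs.2 h3
  by_contra hne
  have hlt : P < S := lt_of_le_of_ne hPS (fun e => hne e.ge)
  obtain ⟨x, hx, hxP, hxn⟩ := exists_mem_normalizer_of_lt' hS hlt
  exact hxP (hN ⟨hx, hxn⟩)

end Cfsg.Agent.S5301
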