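import Cfsg.Statements.S5330
import Cfsg.Agent.Lib.FusionAbelian

set_option autoImplicit false
open Cfsg

namespace Cfsg.Agent.S5330


/-- Let F be a saturated fusion system over a finite abelian p-group S. Then S is the internal direct product of the centre of the system and the focal subgroup: Z(F) ∩ foc(F) = 1 and Z(F)·foc(F) = S. -/
theorem result {Ω : Type*} [Group Ω] {S : Subgroup Ω} [Finite S] (p : ℕ) [Fact p.Prime] (hS : IsPGroup p S) (F : Cfsg.FusionSystem S) (hF : F.IsSaturated p) (hab : ∀ x ∈ S, ∀ y ∈ S, x * y = y * x) : F.center ⊓ F.focalSubgroup = ⊥ ∧ F.center ⊔ F.focalSubgroup = S := by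
  open Cfsg.FusionSystem Cfsg.Agent.Lib.FusionBasic Cfsg.Agent.Lib.FusionAut Cfsg.Agent.Lib.FusionAbelian in
  have hab' : ∀ a b : S, a * b = b * a := fun a b => Subtype.ext (hab a a.2 b b.2)
  obtain ⟨h1, h2⟩ := coprime_decomp hab' hS (F.autGroup S) (coprime_autGroup hF hab)
  have hcS : F.center ≤ S := (isCentral_center F).1
  have hfS : F.focalSubgroup ≤ S := by
    apply (Subgroup.closure_le _).mpr
    rintro _ ⟨P, φ, x, hφ, rfl⟩
    exact mul_mem (inv_mem (source_le F hφ x.2)) (map_mem_S F hφ x)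
  -- the closure in `S` against the focal subgroup
  have hfoc1 : ∀ y (hy : y ∈ F.focalSubgroup), (⟨y, hfS hy⟩ : S) ∈ Subgroup.closure {y : S | ∃ (w : S) (α : MulAut S), α ∈ F.autGroup S ∧ y = w⁻¹ * α w} := by
    intro y hy
    unfold focalSubgroup at hy
    induction hy using Subgroup.closure_induction with
    | mem y hy =>
      obtain ⟨P, φ, x, hφ, rfl⟩ := hy
      obtain ⟨α, hα, hx⟩ := exists_aut hS hF hab hφ
      refine Subgroup.subset_closure ⟨⟨x, source_le F hφ x.2⟩, α, hα, Subtype.ext ?_⟩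
      show (x : Ω)⁻¹ * φ x = (x : Ω)⁻¹ * ((α ⟨x, source_le F hφ x.2⟩ : S) : Ω)
      rw [hx x]
    | one => exact one_mem _
    | mul a b ha hb iha ihb =>
      have := mul_mem (iha) (ihb)
      exact this
    | inv a ha iha =>
      have := inv_mem iha
      exact this
  have hfoc2 : ∀ c ∈ Subgroup.closure {y : S | ∃ (w : S) (α : MulAut S), α ∈ F.autGroup S ∧ y = w⁻¹ * α w}, (c : Ω) ∈ F.focalSubgroup := by
    intro c hc
    induction hc using Subgroup.closure_induction with
    | mem y hy =>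
      obtain ⟨w, α, hα, rfl⟩ := hy
      refine Subgroup.subset_closure ⟨S, S.subtype.comp α.toMonoidHom, w, (mem_autGroup_iff F le_rfl).mp hα, rfl⟩
    | one => exact one_mem _
    | mul a b _ _ iha ihb => exact mul_mem iha ihb
    | inv a _ iha => exact inv_mem iha
  constructor
  · rw [eq_bot_iff]
    rintro x ⟨hxc, hxf⟩
    have h3 := h1 ⟨x, hcS hxc⟩ (fun α hα => fixed_of_mem_center hα hxc) (hfoc1 x hxf)
    exact congrArg Subtype.val h3
  · apply le_antisymm (sup_le hcS hfS)
    intro s hs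
    obtain ⟨z, c, hz, hc, he⟩ := h2 ⟨s, hs⟩
    have hzc : (z : Ω) ∈ F.center := by
      have hle : Subgroup.zpowers (z : Ω) ≤ S := (Subgroup.zpowers_le).mpr z.2
      have hcen : F.IsCentral (Subgroup.zpowers (z : Ω)) := by
        refine isCentral_of_fixed hS hF hab hle fun α hα y => ?_
        obtain ⟨y, k, rfl⟩ := y
        have e : (⟨(z : Ω) ^ k, hle ⟨k, rfl⟩⟩ : S) = z ^ k := rfl
        show ((α ⟨(z : Ω) ^ k, hle ⟨k, rfl⟩⟩ : S) : Ω) = (z : Ω) ^ k
        rw [e, map_zpow, hz α hα]
        rfl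
      exact IsCentral.le_center hcen (Subgroup.mem_zpowers _)
    have e : s = (z : Ω) * c := congrArg Subtype.val he
    rw [e]
    exact mul_mem (Subgroup.mem_sup_left hzc) (Subgroup.mem_sup_right (hfoc2 c hc))

end Cfsg.Agent.S5330
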