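import Cfsg.Statements.S5331
import Cfsg.Agent.Lib.FusionAbelian

set_option autoImplicit false
open Cfsg

namespace Cfsg.Agent.S5331

/-- Coordinates with an element of order at most two and divisible by `2 ^ j`. -/
def tt {a : ℕ} (j : ℕ) (x : ZMod (2 ^ a)) : Prop := 2 * x = 0 ∧ ∃ w : ZMod (2 ^ a), (2 : ZMod (2 ^ a)) ^ j * w = x

theorem two_pow_self (a : ℕ) : (2 : ZMod (2 ^ a)) ^ a = 0 := by
  have h := ZMod.natCast_self (2 ^ a)
  push_cast at h
  exact h

theorem exists_of_two_mul {a : ℕ} (ha : 1 ≤ a) {x : ZMod (2 ^ a)} (h : 2 * x = 0) :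
    ∃ y : ZMod (2 ^ a), x = 2 ^ (a - 1) * y := by
  obtain ⟨b, rfl⟩ : ∃ b, a = b + 1 := ⟨a - 1, by omega⟩
  haveI : NeZero (2 ^ (b + 1)) := ⟨by positivity⟩
  have h1 : ((2 * x.val : ℕ) : ZMod (2 ^ (b + 1))) = 0 := by
    push_cast
    rw [ZMod.natCast_zmod_val]
    exact h
  have h2 := (ZMod.natCast_eq_zero_iff _ _).mp h1
  have h3 : 2 ^ b ∣ x.val := by
    have h2' : 2 * 2 ^ b ∣ 2 * x.val := (dvd_of_eq (by ring)).trans h2
    exact Nat.dvd_of_mul_dvd_mul_left (by norm_num) h2'
  obtain ⟨c, hc⟩ := h3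
  refine ⟨(c : ZMod (2 ^ (b + 1))), ?_⟩
  have h4 : x = ((x.val : ℕ) : ZMod (2 ^ (b + 1))) := (ZMod.natCast_zmod_val x).symm
  rw [h4, hc]
  push_cast
  simp

/-- A coordinate leaving the filtration. -/
theorem tt_succ {a j : ℕ} (ha : 1 ≤ a) {x : ZMod (2 ^ a)} (h : tt j x) (hne : ¬ tt (j + 1) x) :
    a = j + 1 ∧ x ≠ 0 := by
  have h0 : ∀ k : ℕ, tt k (0 : ZMod (2 ^ a)) := fun k => ⟨by simp, 0, by simp⟩
  obtain ⟨h2, w, hw⟩ := h
  by_cases hle : a ≤ j
  · exfalso
    apply hne
    have : (2 : ZMod (2 ^ a)) ^ j = 0 := by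
      obtain ⟨c, hc⟩ := Nat.exists_eq_add_of_le hle
      rw [hc, pow_add, two_pow_self]
      simp
    rw [this, zero_mul] at hw
    rw [← hw]
    exact h0 _
  · by_cases heq : a = j + 1
    · refine ⟨heq, fun hx => hne ?_⟩
      rw [hx]
      exact h0 _
    · exfalso
      apply hne
      refine ⟨h2, ?_⟩
      obtain ⟨y, hy⟩ := exists_of_two_mul ha h2
      refine ⟨2 ^ (a - 1 - (j + 1)) * y, ?_⟩
      rw [hy, ← mul_assoc, ← pow_add]
      congr 2
      omega

/-- Two coordinates leaving the filtration add to zero. -/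
theorem add_eq_zero_of_top {j : ℕ} {x y : ZMod (2 ^ (j + 1))} (hx : tt j x) (hy : tt j y) (hx0 : x ≠ 0)
    (hy0 : y ≠ 0) : x + y = 0 := by
  haveI : NeZero (2 ^ (j + 1)) := ⟨by positivity⟩
  have key : ∀ z : ZMod (2 ^ (j + 1)), tt j z → z ≠ 0 → z = 2 ^ j := by
    rintro z ⟨-, w, rfl⟩ hz
    have hw : w = ((w.val : ℕ) : ZMod (2 ^ (j + 1))) := (ZMod.natCast_zmod_val w).symm
    rcases Nat.even_or_odd' w.val with ⟨c, hc | hc⟩
    · exfalso
      apply hz
      rw [hw, hc]
      push_cast
      rw [← mul_assoc, ← pow_succ, two_pow_self]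
      simp
    · rw [hw, hc]
      push_cast
      rw [mul_add, ← mul_assoc, ← pow_succ, two_pow_self]
      simp
  rw [key x hx hx0, key y hy hy0, ← two_mul, ← pow_succ', two_pow_self]

theorem add_eq_zero_of_top' {b j : ℕ} (hb : b = j + 1) {x y : ZMod (2 ^ b)} (hx : tt j x) (hy : tt j y)
    (hx0 : x ≠ 0) (hy0 : y ≠ 0) : x + y = 0 := by
  subst hb
  exact add_eq_zero_of_top hx hy hx0 hy0

/-- The abstract statement: an additive map of odd order on the product is trivial. -/
theorem eq_self_of_odd {n : ℕ} {a : Fin n → ℕ} (ha : StrictMono a) (ha1 : ∀ i, 1 ≤ a i)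
    (f : ((i : Fin n) → ZMod (2 ^ a i)) →+ ((i : Fin n) → ZMod (2 ^ a i))) {m : ℕ} (hm : Odd m)
    (hf : ∀ v, f^[m] v = v) (v : (i : Fin n) → ZMod (2 ^ a i)) : f v = v := by
  classical
  let V := (i : Fin n) → ZMod (2 ^ a i)
  have hnsmul : ∀ (k : ℕ) (v : V) (i : Fin n), (k • v) i = (k : ZMod (2 ^ a i)) * v i := by
    intro k v i
    show k • (v i) = _
    rw [nsmul_eq_mul]
  -- the intrinsic description of the filtration
  have hT : ∀ (j : ℕ) (v : V), (∀ i, tt j (v i)) ↔ (2 • v = 0 ∧ ∃ w : V, 2 ^ j • w = v) := by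
    intro j v
    constructor
    · intro h
      refine ⟨funext fun i => ?_, ?_⟩
      · rw [hnsmul]
        exact_mod_cast (h i).1
      · choose w hw using fun i => (h i).2
        refine ⟨w, funext fun i => ?_⟩
        rw [hnsmul, ← hw i]
        push_cast
        rfl
    · rintro ⟨h1, w, hw⟩ i
      refine ⟨?_, w i, ?_⟩
      · have := congrFun h1 i
        rw [hnsmul] at this
        exact_mod_cast this
      · rw [← hw, hnsmul]
        push_cast
        rfl
  have hpres : ∀ (j : ℕ) (v : V), (∀ i, tt j (v i)) → ∀ i, tt j (f v i) := by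
    intro j v hv
    obtain ⟨h1, w, hw⟩ := (hT j v).mp hv
    refine (hT j _).mpr ⟨?_, f w, ?_⟩
    · rw [← map_nsmul, h1, map_zero]
    · rw [← map_nsmul, hw]
  -- iterates
  have hit : ∀ (z v : V), f z = z → f v = v + z → ∀ k : ℕ, f^[k] v = v + k • z := by
    intro z v hz hv k
    induction k with
    | zero => simp
    | succ k ih =>
      rw [Function.iterate_succ_apply', ih, map_add, map_nsmul, hz, hv, succ_nsmul]
      abel
  -- a fixed element of order at most two with odd multiple zero vanishes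
  have hodd : ∀ z : V, 2 • z = 0 → m • z = 0 → z = 0 := by
    intro z h2 hmz
    obtain ⟨c, hc⟩ := hm
    rw [hc, add_nsmul, mul_nsmul, h2, nsmul_zero, zero_add, one_nsmul] at hmz
    exact hmz
  have hfixfrom : ∀ (z v : V), f z = z → 2 • z = 0 → f v = v + z → f v = v := by
    intro z v hz h2 hv
    have h3 := hit z v hz hv m
    rw [hf] at h3
    have h4 : m • z = 0 := by
      have := h3
      exact add_eq_left.mp this.symm
    rw [hv, hodd z h2 h4, add_zero]
  have hadd : ∀ (j : ℕ) (u w : V), (∀ i, tt j (u i)) → (∀ i, tt j (w i)) → ∀ i, tt j (u i + w i) := by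
    rintro j u w hu hw i
    obtain ⟨h1, x, hx⟩ := hu i
    obtain ⟨h2, y, hy⟩ := hw i
    refine ⟨by rw [mul_add, h1, h2, add_zero], x + y, ?_⟩
    rw [mul_add, hx, hy]
  -- the downward induction
  have hstep : ∀ (j : ℕ), (∀ v : V, (∀ i, tt (j + 1) (v i)) → f v = v) → ∀ v : V, (∀ i, tt j (v i)) → f v = v := by
    intro j hj v hv
    have hfv := hpres j v hv
    by_cases h1 : ∀ i, tt (j + 1) (v i)
    · exact hj v h1
    by_cases h2 : ∀ i, tt (j + 1) (f v i)
    · have h3 := hj (f v) h2
      have hinj : Function.Injective f := by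
        intro x y hxy
        have hm0 : m ≠ 0 := by
          rintro rfl
          simp at hm
        obtain ⟨m', hm'⟩ := Nat.exists_eq_succ_of_ne_zero hm0
        have h4 := hf x
        have h5 := hf y
        rw [hm', Function.iterate_succ_apply] at h4 h5
        rw [← h4, ← h5, hxy]
      exact hinj h3
    simp only [not_forall] at h1 h2
    obtain ⟨k, hk⟩ := h1
    obtain ⟨k', hk'⟩ := h2
    obtain ⟨e1, e2⟩ := tt_succ (ha1 k) (hv k) hk
    obtain ⟨e3, e4⟩ := tt_succ (ha1 k') (hfv k') hk'
    have hkk : k = k' := ha.injective (e1.trans e3.symm)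
    subst hkk
    -- the sum lies one step deeper
    have hsum : ∀ i, tt (j + 1) (v i + f v i) := by
      intro i
      by_cases hi : i = k
      · subst hi
        have hz : v i + f v i = 0 := add_eq_zero_of_top' e1 (hv i) (hfv i) e2 e4
        rw [hz]
        exact ⟨by simp, 0, by simp⟩
      · have h7 : tt (j + 1) (v i) := by
          by_contra h
          exact hi (ha.injective ((tt_succ (ha1 i) (hv i) h).1.trans e1.symm))
        have h8 : tt (j + 1) (f v i) := by
          by_contra h
          exact hi (ha.injective ((tt_succ (ha1 i) (hfv i) h).1.trans e1.symm))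
        obtain ⟨h1, x, hx⟩ := h7
        obtain ⟨h2, y, hy⟩ := h8
        refine ⟨by rw [mul_add, h1, h2, add_zero], x + y, ?_⟩
        rw [mul_add, hx, hy]
    have hz := hj (v + f v) (fun i => hsum i)
    have h2v : 2 • v = 0 := ((hT j v).mp hv).1
    have h2fv : 2 • f v = 0 := ((hT j _).mp hfv).1
    have hvv : f v = v + (v + f v) := by
      have h6 : v + v = 0 := by rw [← two_nsmul]; exact h2v
      rw [← add_assoc, h6, zero_add]
    exact hfixfrom _ _ hz (by rw [nsmul_add, h2v, h2fv, add_zero]) hvv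
  -- from high to low
  have hbig : ∀ c : ℕ, ∀ j : ℕ, (∑ i, a i) ≤ j + c → ∀ v : V, (∀ i, tt j (v i)) → f v = v := by
    intro c
    induction c with
    | zero =>
      intro j hj v hv
      have hv0 : v = 0 := by
        funext i
        show v i = (0 : ZMod _)
        obtain ⟨-, w, hw⟩ := hv i
        have hle : a i ≤ j := by
          have := Finset.single_le_sum (f := a) (fun _ _ => Nat.zero_le _) (Finset.mem_univ i)
          omega
        obtain ⟨c, hc⟩ := Nat.exists_eq_add_of_le hle
        rw [← hw, hc, pow_add, two_pow_self]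
        simp
      rw [hv0, map_zero]
    | succ c ih =>
      intro j hj
      exact hstep j (ih (j + 1) (by omega))
  have hom1 := hbig (∑ i, a i) 0 (by omega)
  -- from elements of order two to all elements
  have horder : ∀ k : ℕ, ∀ v : V, 2 ^ k • v = 0 → f v = v := by
    intro k
    induction k with
    | zero =>
      intro v hv
      have hv0 : v = 0 := by simpa using hv
      rw [hv0, map_zero]
    | succ k ih =>
      intro v hv
      have h1 : 2 ^ k • (2 • v) = 0 := by
        rw [← mul_nsmul', ← pow_succ]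
        exact hv
      have h2 := ih _ h1
      rw [map_nsmul] at h2
      have hz : 2 • (f v - v) = 0 := by
        rw [nsmul_sub, h2, sub_self]
      have h3 : ∀ i, tt 0 ((f v - v) i) := by
        intro i
        have := congrFun hz i
        rw [hnsmul] at this
        exact ⟨by exact_mod_cast this, (f v - v) i, by simp⟩
      exact hfixfrom _ _ (hom1 _ h3) hz (by abel)
  refine horder (∑ i, a i) v (funext fun i => ?_)
  show _ = (0 : ZMod _)
  rw [hnsmul]
  have hle : a i ≤ ∑ i, a i := Finset.single_le_sum (f := a) (fun _ _ => Nat.zero_le _) (Finset.mem_univ i)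
  obtain ⟨c, hc⟩ := Nat.exists_eq_add_of_le hle
  push_cast
  rw [hc, pow_add, two_pow_self]
  simp

/-- Let S be a finite abelian 2-group that is a direct product of cyclic groups of pairwise distinct orders 2^{a_1} < 2^{a_2} < ⋯ < 2^{a_n} (all a_i ≥ 1). Then every saturated fusion system over S is the inner one: its maps are exactly the conjugations by elements of S. -/
theorem result {Ω : Type*} [Group Ω] {S : Subgroup Ω} [Finite S] (n : ℕ) (a : Fin n → ℕ) (ha : StrictMono a) (ha1 : ∀ i, 1 ≤ a i) (e : ↥S ≃* Multiplicative ((i : Fin n) → ZMod (2 ^ a i))) (F : Cfsg.FusionSystem S) (hF : F.IsSaturated 2) (P : Subgroup Ω) : F.Hom P = (Cfsg.innerFusionSystem S).Hom P := by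
  open Cfsg.FusionSystem Cfsg.Agent.Lib.FusionBasic Cfsg.Agent.Lib.FusionAut Cfsg.Agent.Lib.FusionAbelian Cfsg.Agent.Lib.FusionSat in
  haveI : Fact (Nat.Prime 2) := ⟨Nat.prime_two⟩
  have hS : IsPGroup 2 S := by
    obtain ⟨N, hN⟩ : ∃ N : ℕ, ∀ v : ((i : Fin n) → ZMod (2 ^ a i)), 2 ^ N • v = 0 := by
      refine ⟨∑ i, a i, fun v => funext fun i => ?_⟩
      show _ = (0 : ZMod _)
      show (2 ^ ∑ i, a i) • (v i) = _
      rw [nsmul_eq_mul]
      have hle : a i ≤ ∑ i, a i := Finset.single_le_sum (f := a) (fun _ _ => Nat.zero_le _) (Finset.mem_univ i)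
      obtain ⟨c, hc⟩ := Nat.exists_eq_add_of_le hle
      push_cast
      rw [hc, pow_add, two_pow_self]
      simp
    intro x
    refine ⟨N, e.injective ?_⟩
    rw [map_pow, map_one]
    have := hN (Multiplicative.toAdd (e x))
    exact Multiplicative.toAdd.injective (by rw [toAdd_pow]; exact this)
  have hab : ∀ x ∈ S, ∀ y ∈ S, x * y = y * x := by
    intro x hx y hy
    have h1 : e (⟨x, hx⟩ * ⟨y, hy⟩) = e (⟨y, hy⟩ * ⟨x, hx⟩) := by
      rw [map_mul, map_mul, mul_comm]
    exact congrArg Subtype.val (e.injective h1)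
  have hcop := coprime_autGroup hF hab
  -- `Aut_F(S)` is trivial
  have hfin : Finite (MulAut S) := mulAut_finite
  have htriv : ∀ α ∈ F.autGroup S, α = 1 := by
    intro α hα
    have hord : Odd (orderOf α) := by
      have h1 : orderOf (⟨α, hα⟩ : F.autGroup S) ∣ Nat.card (F.autGroup S) := orderOf_dvd_natCard _
      rw [Subgroup.orderOf_mk] at h1
      have h2 : Odd (Nat.card (F.autGroup S)) := Nat.coprime_two_right.mp hcop
      exact h2.of_dvd_nat h1
    let f : ((i : Fin n) → ZMod (2 ^ a i)) →+ ((i : Fin n) → ZMod (2 ^ a i)) :=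
      { toFun := fun v => Multiplicative.toAdd (e (α (e.symm (Multiplicative.ofAdd v))))
        map_zero' := by simp
        map_add' := by
          intro u v
          simp [ofAdd_add] }
    have hit : ∀ (k : ℕ) (v : (i : Fin n) → ZMod (2 ^ a i)),
        f^[k] v = Multiplicative.toAdd (e ((α ^ k) (e.symm (Multiplicative.ofAdd v)))) := by
      intro k v
      induction k with
      | zero => simp
      | succ k ih =>
        rw [Function.iterate_succ_apply', ih, pow_succ']
        simp [f, MulAut.mul_apply]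
    have hf : ∀ v, f^[orderOf α] v = v := by
      intro v
      rw [hit, pow_orderOf_eq_one]
      simp
    refine MulEquiv.ext fun x => ?_
    have h1 := eq_self_of_odd ha ha1 f hord hf (Multiplicative.toAdd (e x))
    have h2 : Multiplicative.toAdd (e (α x)) = Multiplicative.toAdd (e x) := by
      simpa [f] using h1
    exact e.injective (Multiplicative.toAdd.injective h2)
  ext φ
  constructor
  · intro hφ
    obtain ⟨α, hα, h⟩ := exists_aut hS hF hab hφ
    refine ⟨source_le F hφ, 1, one_mem _, fun x => ?_⟩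
    rw [← h, htriv α hα]
    simp
  · rintro ⟨hP, g, hg, h⟩
    exact hom_of_eq (F.conj_mem hP hg) h

end Cfsg.Agent.S5331
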