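import Cfsg.Statements.S5521
import Cfsg.Agent.Lib.GolayTrans

set_option autoImplicit false
open Cfsg

namespace Cfsg.Agent.S5521

open Cfsg.Agent.Lib.GolayChain Cfsg.Agent.Lib.GolayCode in
theorem aux1 (B : Finset Cfsg.GolayPt) (hB : B.card = 6) : ∃ g ∈ Cfsg.M24, g ≠ 1 ∧ ∀ b ∈ B, g b = b := by
  classical
  obtain ⟨e⟩ : Nonempty (Fin 6 ≃ B) :=
    ⟨(Fintype.equivFinOfCardEq (by simpa using hB)).symm⟩
  let x : ℕ → Cfsg.GolayPt := fun i => if h : i < 6 then (e ⟨i, h⟩ : Cfsg.GolayPt) else none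
  have hx : ∀ a < 5, ∀ b < 5, a ≠ b → x a ≠ x b := by
    intro a ha b hb hab h
    have ha' : a < 6 := by omega
    have hb' : b < 6 := by omega
    simp only [x, ha', hb', dif_pos] at h
    have := e.injective (Subtype.ext h)
    simp only [Fin.mk.injEq] at this
    exact hab this
  obtain ⟨h, hh, hhx⟩ := Cfsg.Agent.Lib.GolayTrans.exists_tuple 5 (le_refl _) x hx
  -- pigeonhole inside `G 5`
  have hcard : Nat.card (G 5) = 48 := card_G5
  haveI : Finite (G 5) := Nat.finite_of_card_ne_zero (by omega)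
  have : ¬ Function.Injective (fun g : G 5 => (g : Equiv.Perm Cfsg.GolayPt) (h⁻¹ (x 5))) := by
    intro hinj
    have := Nat.card_le_card_of_injective _ hinj
    rw [hcard] at this
    have h24 : Nat.card Cfsg.GolayPt = 24 := by
      rw [Nat.card_eq_fintype_card]; decide
    omega
  simp only [Function.Injective, not_forall] at this
  obtain ⟨g₁, g₂, heq, hne⟩ := this
  have hne' : (g₁ : Equiv.Perm Cfsg.GolayPt) ≠ g₂ := fun h' => hne (Subtype.ext h')
  let u : Equiv.Perm Cfsg.GolayPt := (g₂ : Equiv.Perm Cfsg.GolayPt)⁻¹ * g₁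
  have hu1 : u ≠ 1 := by
    intro h1
    apply hne'
    have : (g₂ : Equiv.Perm Cfsg.GolayPt)⁻¹ * g₁ = 1 := h1
    exact (inv_mul_eq_one.mp this).symm
  have hu : u ∈ G 5 := mul_mem (inv_mem g₂.2) g₁.2
  refine ⟨h * u * h⁻¹, mul_mem (mul_mem hh (mem_G.mp hu).1) (inv_mem hh), ?_, ?_⟩
  · intro h1
    apply hu1
    have : u = h⁻¹ * (h * u * h⁻¹) * h := by group
    rw [this, h1]; group
  · intro b hb
    obtain ⟨i, hi⟩ := e.surjective ⟨b, hb⟩
    have hxi : x i = b := by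
      simp only [x, i.2, dif_pos]
      have : (⟨(i : ℕ), i.2⟩ : Fin 6) = i := rfl
      rw [this, hi]
    rcases (show (i : ℕ) < 5 ∨ (i : ℕ) = 5 by omega) with hlt | h5
    · have h1 := hhx i hlt
      rw [hxi] at h1
      have h2 : u (idxPt (bs i)) = idxPt (bs i) := (mem_G.mp hu).2 i hlt
      show h (u (h⁻¹ b)) = b
      have h3 : h⁻¹ b = idxPt (bs i) := by rw [← h1]; simp
      rw [h3, h2, h1]
    · have h3 : x 5 = b := by rw [← h5]; exact hxi
      show h (u (h⁻¹ b)) = b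
      rw [← h3]
      have : u (h⁻¹ (x 5)) = h⁻¹ (x 5) := by
        show (g₂ : Equiv.Perm Cfsg.GolayPt)⁻¹ ((g₁ : Equiv.Perm Cfsg.GolayPt) (h⁻¹ (x 5))) = _
        have heq' : (g₁ : Equiv.Perm Cfsg.GolayPt) (h⁻¹ (x 5)) = (g₂ : Equiv.Perm Cfsg.GolayPt) (h⁻¹ (x 5)) := heq
        rw [heq']; simp
      rw [this]; simp


/-- The Mathieu group M₂₄ in its natural action on the 24 coordinate positions of the binary Golay code has minimal base size exactly 7: every set of at most 6 positions is fixed pointwise by some non-identity element of M₂₄, while some set of 7 positions is fixed pointwise only by the identity. -/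
theorem result :
    (∀ B : Finset Cfsg.GolayPt, B.card ≤ 6 → ∃ g ∈ Cfsg.M24, g ≠ 1 ∧ ∀ b ∈ B, g b = b) ∧
    (∃ B : Finset Cfsg.GolayPt, B.card = 7 ∧ ∀ g ∈ Cfsg.M24, (∀ b ∈ B, g b = b) → g = 1) := by
  classical
  constructor
  · intro B hB
    obtain ⟨B', hBB', hc⟩ := Finset.exists_superset_card_eq hB (by decide)
    obtain ⟨g, hg, hg1, hfix⟩ := aux1 B' hc
    exact ⟨g, hg, hg1, fun b hb => hfix b (hBB' hb)⟩
  · refine ⟨(Finset.range 7).image (fun j => Cfsg.Agent.Lib.GolayCode.idxPt (Cfsg.Agent.Lib.GolayChain.bs j)), by decide +kernel, ?_⟩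
    intro g hg hfix
    apply Cfsg.Agent.Lib.GolayChain.eq_one_of_fix_base
    refine Cfsg.Agent.Lib.GolayChain.mem_G.mpr ⟨hg, fun j hj => ?_⟩
    exact hfix _ (Finset.mem_image.mpr ⟨j, Finset.mem_range.mpr hj, rfl⟩)

end Cfsg.Agent.S5521
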