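import Cfsg.Statements.S5562


set_option autoImplicit false
open Cfsg

namespace Cfsg.Agent.S5562

/-- Let G be a finite group, d an involution of G whose conjugates pairwise have products of odd order, and x any involution of G. Then the conjugacy class of d is the disjoint union, over the conjugates a of d commuting with x, of the sets of conjugates of d commuting with ax: every conjugate of d commutes with ax for exactly one conjugate a of d that commutes with x. -/
theorem result {G : Type*} [Group G] [Finite G] (d : G) (hd : orderOf d = 2)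
    (hodd : ∀ a ∈ conjugatesOf d, ∀ b ∈ conjugatesOf d, Odd (orderOf (a * b)))
    (x : G) (hx : orderOf x = 2) :
    ∀ e ∈ conjugatesOf d,
      ∃! a : G, a ∈ conjugatesOf d ∧ Commute a x ∧ Commute e (a * x) := by
  classical
  intro e he
  have hd2 : d * d = 1 := by
    have := pow_orderOf_eq_one d
    rwa [hd, pow_two] at this
  have hconj : ∀ b ∈ conjugatesOf d, b * b = 1 := by
    intro b hb
    obtain ⟨c, rfl⟩ := isConj_iff.mp hb
    calc c * d * c⁻¹ * (c * d * c⁻¹) = c * (d * d) * c⁻¹ := by group
      _ = 1 := by rw [hd2]; group
  have hconj_mem : ∀ b ∈ conjugatesOf d, ∀ c : G, c * b * c⁻¹ ∈ conjugatesOf d := by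
    intro b hb c
    exact IsConj.trans hb (isConj_iff.mpr ⟨c, rfl⟩)
  have hx2 : x * x = 1 := by
    have := pow_orderOf_eq_one x
    rwa [hx, pow_two] at this
  have he2 := hconj e he
  have hxi : x⁻¹ = x := inv_eq_of_mul_eq_one_left hx2
  have hei : e⁻¹ = e := inv_eq_of_mul_eq_one_left he2
  set u := e * x with hu
  have hui : u⁻¹ = x * e := by rw [hu, mul_inv_rev, hxi, hei]
  have hinv_e : ∀ s : ℕ, e * u ^ s * e = (u ^ s)⁻¹ := by
    intro s
    have h1 : e * u * e⁻¹ = u⁻¹ := by
      rw [hui, hei, hu]
      calc e * (e * x) * e = (e * e) * (x * e) := by group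
        _ = x * e := by rw [he2, one_mul]
    have h2 := conj_pow (a := e) (b := u) (i := s)
    rw [h1, hei] at h2
    rw [← h2, inv_pow]
  have hinv_x : ∀ s : ℕ, x * u ^ s * x = (u ^ s)⁻¹ := by
    intro s
    have h1 : x * u * x⁻¹ = u⁻¹ := by
      rw [hui, hxi, hu]
      calc x * (e * x) * x = x * e * (x * x) := by group
        _ = x * e := by rw [hx2, mul_one]
    have h2 := conj_pow (a := x) (b := u) (i := s)
    rw [h1, hxi] at h2
    rw [← h2, inv_pow]
  have key : ∀ s : ℕ, u ^ s * e * (u ^ s)⁻¹ = u ^ (2 * s) * e := by
    intro s
    rw [← hinv_e s, two_mul, pow_add]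
    calc u ^ s * e * (e * u ^ s * e) = u ^ s * (e * e) * u ^ s * e := by group
      _ = u ^ s * u ^ s * e := by rw [he2, mul_one]
  -- uniqueness data
  have huniq : ∀ a : G, a ∈ conjugatesOf d → Commute a x → Commute e (a * x) →
      ∃ k : ℕ, Odd k ∧ u ^ (k * 1) = a * x ∧ ∀ j : ℕ, Odd j → k ∣ j → u ^ j = a * x := by
    intro a ha hax hey
    have ha2 := hconj a ha
    set r := e * a with hr
    have hodd1 := hodd e he a ha
    set y := a * x with hy
    have hy2 : y * y = 1 := by
      calc y * y = a * (x * a) * x := by rw [hy]; group
        _ = a * (a * x) * x := by rw [hax.eq.symm]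
        _ = (a * a) * (x * x) := by group
        _ = 1 := by rw [ha2, hx2, one_mul]
    have hru : u = r * y := by
      rw [hu, hr, hy]
      calc e * x = e * (a * a) * x := by rw [ha2, mul_one]
        _ = e * a * (a * x) := by group
    have hcomm : Commute r y := by
      have h1 : y * e = e * y := hey.eq.symm
      show r * y = y * r
      rw [← hru, hu, hr]
      calc e * x = e * (a * a) * x := by rw [ha2, mul_one]
        _ = (e * (a * x)) * a := by
            have : x * a = a * x := hax.eq.symm
            calc e * (a * a) * x = e * a * (a * x) := by group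
              _ = e * a * (x * a) := by rw [this]
              _ = (e * (a * x)) * a := by group
        _ = (y * e) * a := by rw [h1]
        _ = y * (e * a) := by group
    have hmain : ∀ j : ℕ, Odd j → orderOf r ∣ j → u ^ j = y := by
      intro j hj hdvd
      rw [hru, hcomm.mul_pow, orderOf_dvd_iff_pow_eq_one.mp hdvd, one_mul]
      obtain ⟨t, rfl⟩ := hj
      rw [pow_succ, pow_mul, pow_two, hy2, one_pow, one_mul]
    exact ⟨orderOf r, hodd1, hmain _ (by simpa using hodd1) (by simp), hmain⟩
  refine existsUnique_of_exists_of_unique ?_ ?_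
  · -- existence
    have hNpos : 0 < orderOf u := orderOf_pos u
    rcases Nat.even_or_odd (orderOf u) with hev | hod
    · obtain ⟨m, hm⟩ := hev
      have hm' : orderOf u = 2 * m := by omega
      set w := u ^ m with hw
      have hw2 : w * w = 1 := by
        rw [hw, ← pow_add, ← two_mul, ← hm']
        exact pow_orderOf_eq_one u
      have hw1 : w ≠ 1 := by
        intro h
        have := orderOf_dvd_of_pow_eq_one h
        rw [hm'] at this
        have := Nat.le_of_dvd (by omega) this
        omega
      have hwi : w⁻¹ = w := inv_eq_of_mul_eq_one_left hw2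
      have hwe : e * w * e = w := by rw [hw, hinv_e, ← hw, hwi]
      have hwx : x * w * x = w := by rw [hw, hinv_x, ← hw, hwi]
      have hwxc : Commute w x := by
        show w * x = x * w
        calc w * x = (x * w * x) * x := by rw [hwx]
          _ = x * w * (x * x) := by group
          _ = x * w := by rw [hx2, mul_one]
      have hwec : Commute e w := by
        show e * w = w * e
        calc e * w = e * (e * w * e) := by rw [hwe]
          _ = (e * e) * w * e := by group
          _ = w * e := by rw [he2, one_mul]
      rcases Nat.even_or_odd m with hme | hmo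
      · -- m even: contradiction
        exfalso
        obtain ⟨k, hk⟩ := hme
        have hmk : m = 2 * k := by omega
        have h1 := hconj_mem e he (u ^ k)
        rw [key, ← hmk, ← hw] at h1
        have h2 := hodd _ h1 e he
        have h3 : w * e * e = w := by rw [mul_assoc, he2, mul_one]
        rw [h3] at h2
        have h4 : orderOf w = 2 := orderOf_eq_prime (by rw [pow_two]; exact hw2) hw1
        rw [h4] at h2
        exact absurd h2 (by decide)
      · obtain ⟨k, hk⟩ := hmo
        refine ⟨w * x, ⟨?_, hwxc.mul_left (Commute.refl x), ?_⟩⟩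
        · have h1 := hconj_mem e he (u ^ k)
          rw [key] at h1
          have h2 : u ^ (2 * k) * e = w * x := by
            rw [hw, hk, pow_succ, mul_assoc]
            congr 1
            rw [hu, mul_assoc, hx2, mul_one]
          rwa [h2] at h1
        · have h1 : (w * x) * x = w := by rw [mul_assoc, hx2, mul_one]
          rw [h1]
          exact hwec
    · -- N odd : x conjugate to e
      obtain ⟨k, hk⟩ := hod
      have h1 := hconj_mem e he (u ^ k)
      rw [key] at h1
      have h2 : u ^ (2 * k) * e = x := by
        have h3 : u ^ (2 * k) * u = 1 := by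
          rw [← pow_succ, ← hk]; exact pow_orderOf_eq_one u
        have h4 : u ^ (2 * k) = u⁻¹ := eq_inv_of_mul_eq_one_left h3
        rw [h4, hui, mul_assoc, he2, mul_one]
      rw [h2] at h1
      refine ⟨x, h1, Commute.refl x, ?_⟩
      rw [hx2]
      exact Commute.one_right e
  · -- uniqueness
    rintro a a' ⟨ha, hax, hey⟩ ⟨ha', hax', hey'⟩
    obtain ⟨k, hk, -, hk'⟩ := huniq a ha hax hey
    obtain ⟨l, hl, -, hl'⟩ := huniq a' ha' hax' hey'
    have h1 := hk' (k * l) (hk.mul hl) (Dvd.intro _ rfl)
    have h2 := hl' (k * l) (hk.mul hl) (Dvd.intro_left _ rfl)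
    rw [h1] at h2
    exact mul_right_cancel h2

end Cfsg.Agent.S5562
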