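import Cfsg.Statements.S5729


set_option autoImplicit false
open Cfsg

namespace Cfsg.Agent.S5729

/-- Let a finite group G act faithfully and transitively on a set with n ≥ 3 points. Then either G is a Frobenius permutation group (Frobenius as a permutation group: transitive, some non-identity element fixes a point, and no non-identity element fixes two points) of order n(n − 1) and exactly |G|/n of its elements are derangements (fix no point), or the number of derangements is greater than |G|/n. -/
theorem result {G Ω : Type*} [Group G] [Finite G] [MulAction G Ω] [FaithfulSMul G Ω] [Fintype Ω] (htr : MulAction.IsPretransitive G Ω) (hn : 3 ≤ Fintype.card Ω) :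
    ((MulAction.IsPretransitive G Ω ∧ (∃ g : G, g ≠ 1 ∧ ∃ ω : Ω, g • ω = ω) ∧ ∀ g : G, g ≠ 1 → Nat.card (MulAction.fixedBy Ω g) ≤ 1) ∧ Nat.card G = Fintype.card Ω * (Fintype.card Ω - 1) ∧ Fintype.card Ω * Nat.card {g : G // ∀ ω : Ω, g • ω ≠ ω} = Nat.card G) ∨
    Nat.card G < Fintype.card Ω * Nat.card {g : G // ∀ ω : Ω, g • ω ≠ ω} := by
  classical
  haveI : Fintype G := Fintype.ofFinite G
  set n := Fintype.card Ω with hn'
  -- fixed point counts
  let f : G → ℕ := fun g => Fintype.card (MulAction.fixedBy Ω g)
  have hfN : ∀ g, Nat.card (MulAction.fixedBy Ω g) = f g := fun g => Nat.card_eq_fintype_card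
  have hbs := MulAction.sum_card_fixedBy_eq_card_orbits_mul_card_group G Ω
  have hsub : Subsingleton (MulAction.orbitRel.Quotient G Ω) :=
    (MulAction.pretransitive_iff_subsingleton_quotient G Ω).mp htr
  have hne : Nonempty Ω := Fintype.card_pos_iff.mp (by omega)
  have hone : Fintype.card (MulAction.orbitRel.Quotient G Ω) = 1 := by
    obtain ⟨ω⟩ := hne
    haveI : Nonempty (MulAction.orbitRel.Quotient G Ω) := ⟨Quotient.mk _ ω⟩
    exact Fintype.card_eq_one_iff_nonempty_unique.mpr ((unique_iff_subsingleton_and_nonempty _).mpr ⟨hsub, inferInstance⟩)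
  rw [hone, one_mul] at hbs
  have h1 : ∑ g, f g = Fintype.card G := hbs
  -- pairs
  have hbs2 := MulAction.sum_card_fixedBy_eq_card_orbits_mul_card_group G (Ω × Ω)
  have hf2 : ∀ g : G, Fintype.card (MulAction.fixedBy (Ω × Ω) g) = f g * f g := by
    intro g
    rw [← Fintype.card_prod]
    refine Fintype.card_congr ?_
    exact
      { toFun := fun p => (⟨p.1.1, by
            have := p.2
            rw [MulAction.mem_fixedBy] at this ⊢
            exact congrArg Prod.fst this⟩, ⟨p.1.2, by
            have := p.2
            rw [MulAction.mem_fixedBy] at this ⊢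
            exact congrArg Prod.snd this⟩)
        invFun := fun p => ⟨(p.1.1, p.2.1), by
            rw [MulAction.mem_fixedBy]
            exact Prod.ext p.1.2 p.2.2⟩
        left_inv := fun p => rfl
        right_inv := fun p => rfl }
  -- at least two orbits on pairs
  have hr : 2 ≤ Fintype.card (MulAction.orbitRel.Quotient G (Ω × Ω)) := by
    obtain ⟨a, b, hab⟩ := Fintype.exists_pair_of_one_lt_card (α := Ω) (by omega)
    have hdiff : (Quotient.mk _ (a, a) : MulAction.orbitRel.Quotient G (Ω × Ω)) ≠ Quotient.mk _ (a, b) := by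
      intro h
      have h' : ((a, a) : Ω × Ω) ∈ MulAction.orbit G ((a, b) : Ω × Ω) := MulAction.orbitRel_apply.mp (Quotient.exact h)
      obtain ⟨g, hg⟩ := h'
      have e1 : g • a = a := congrArg Prod.fst hg
      have e2 : g • b = a := congrArg Prod.snd hg
      exact hab (MulAction.injective g (e1.trans e2.symm))
    exact Fintype.one_lt_card_iff.mpr ⟨_, _, hdiff⟩
  set r := Fintype.card (MulAction.orbitRel.Quotient G (Ω × Ω)) with hrdef
  set N := Fintype.card G with hN
  have h2 : ∑ g, f g * f g = r * N := by
    rw [← hbs2]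
    exact Finset.sum_congr rfl (fun g _ => (hf2 g).symm)
  have hle : ∀ g, f g ≤ n := fun g => Fintype.card_subtype_le _
  have hfn : ∀ g, f g = n → g = 1 := by
    intro g hg
    apply FaithfulSMul.eq_of_smul_eq_smul (α := Ω)
    intro x
    rw [one_smul]
    by_contra hx
    have hlt : f g < n := Fintype.card_subtype_lt (x := x) hx
    omega
  have hf1 : f 1 = n := by
    have : f 1 = Fintype.card (Set.univ : Set Ω) := by
      simp only [f]
      congr! 2
      ext x
      simp
    rw [this]
    simp [hn']
  have hf0 : ∀ g, f g = 0 ↔ ∀ ω : Ω, g • ω ≠ ω := by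
    intro g
    constructor
    · intro h ω hω
      have : 0 < f g := Fintype.card_pos_iff.mpr ⟨⟨ω, hω⟩⟩
      omega
    · intro h
      by_contra h0
      have : 0 < f g := Nat.pos_of_ne_zero h0
      obtain ⟨⟨ω, hω⟩⟩ := Fintype.card_pos_iff.mp this
      exact h ω hω
  -- the key identity
  let t : G → ℤ := fun g => ((f g : ℤ) - 1) * ((f g : ℤ) - n)
  have hid : ∑ g, t g = ((r : ℤ) - 1) * N := by
    have e : ∀ g, t g = ((f g * f g : ℕ) : ℤ) - (n + 1) * (f g : ℤ) + n := by
      intro g
      simp only [t]
      push_cast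
      ring
    rw [Finset.sum_congr rfl (fun g _ => e g), Finset.sum_add_distrib, Finset.sum_sub_distrib,
      ← Finset.mul_sum, Finset.sum_const, Finset.card_univ, nsmul_eq_mul, ← Nat.cast_sum, ← Nat.cast_sum, h1, h2]
    push_cast
    ring
  let D : Finset G := Finset.univ.filter (fun g => f g = 0)
  have hd : Nat.card {g : G // ∀ ω : Ω, g • ω ≠ ω} = D.card := by
    rw [Nat.card_eq_fintype_card, Fintype.card_subtype]
    congr 1
    ext g
    simp only [Finset.mem_filter, Finset.mem_univ, true_and, D, hf0]
  have hsplit := Finset.sum_filter_add_sum_filter_not (Finset.univ : Finset G) (fun g => f g = 0) t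
  have hD : ∑ g ∈ Finset.univ.filter (fun g => f g = 0), t g = (n : ℤ) * D.card := by
    rw [Finset.sum_congr rfl (fun g hg => ?_ : ∀ g ∈ Finset.univ.filter (fun g => f g = 0), t g = (n : ℤ))]
    · rw [Finset.sum_const, nsmul_eq_mul, mul_comm]
    · have h0 : f g = 0 := (Finset.mem_filter.mp hg).2
      simp [t, h0]
  set S := ∑ g ∈ Finset.univ.filter (fun g => ¬ f g = 0), t g with hS
  have htle : ∀ g ∈ Finset.univ.filter (fun g => ¬ f g = 0), t g ≤ 0 := by
    intro g hg
    have h0 : f g ≠ 0 := (Finset.mem_filter.mp hg).2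
    have h3 : (1 : ℤ) ≤ f g := by exact_mod_cast Nat.pos_of_ne_zero h0
    have h4 : (f g : ℤ) ≤ n := by exact_mod_cast hle g
    exact mul_nonpos_of_nonneg_of_nonpos (by linarith) (by linarith)
  have hSle : S ≤ 0 := Finset.sum_nonpos htle
  rw [hd, Nat.card_eq_fintype_card (α := G)]
  rw [hD, hid] at hsplit
  have hNpos : (0 : ℤ) < N := by exact_mod_cast Fintype.card_pos
  have hr' : (2 : ℤ) ≤ r := by exact_mod_cast hr
  by_cases hlt : N < n * D.card
  · exact Or.inr hlt
  left
  have hlt' : ((n : ℤ) * D.card) ≤ N := by exact_mod_cast not_lt.mp hlt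
  have hge : (N : ℤ) ≤ ((r : ℤ) - 1) * N := by nlinarith
  have heq : (n : ℤ) * D.card = N := by linarith
  have hS0 : S = 0 := by linarith
  have hnD : n * D.card = N := by exact_mod_cast heq
  have hall : ∀ g ∈ Finset.univ.filter (fun g => ¬ f g = 0), t g = 0 :=
    (Finset.sum_eq_zero_iff_of_nonpos htle).mp hS0
  have hval : ∀ g, f g ≠ 0 → f g = 1 ∨ f g = n := by
    intro g h0
    have := hall g (Finset.mem_filter.mpr ⟨Finset.mem_univ _, h0⟩)
    simp only [t] at this
    rcases mul_eq_zero.mp this with h | h
    · left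
      have : (f g : ℤ) = 1 := by linarith
      exact_mod_cast this
    · right
      have : (f g : ℤ) = n := by linarith
      exact_mod_cast this
  have hval2 : ∀ g, g ≠ 1 → f g ≠ 0 → f g = 1 := by
    intro g hg h0
    rcases hval g h0 with h | h
    · exact h
    · exact absurd (hfn g h) hg
  -- count
  have hn3 : 3 ≤ n := hn
  have h1D : (1 : G) ∉ D := by
    simp only [D, Finset.mem_filter, Finset.mem_univ, true_and, hf1]
    omega
  have hUcard : (Finset.univ.filter (fun g => ¬ f g = 0)).card = N - D.card := by
    have := Finset.card_filter_add_card_filter_not (s := (Finset.univ : Finset G)) (fun g => f g = 0)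
    rw [Finset.card_univ] at this
    have hDdef : (Finset.univ.filter (fun g => f g = 0)).card = D.card := rfl
    omega
  have hsumf : ∑ g ∈ Finset.univ.filter (fun g => ¬ f g = 0), f g = (N - D.card) + (n - 1) := by
    have e : ∀ g ∈ Finset.univ.filter (fun g => ¬ f g = 0), f g = 1 + (if g = 1 then n - 1 else 0) := by
      intro g hg
      have h0 : f g ≠ 0 := (Finset.mem_filter.mp hg).2
      by_cases hg1 : g = 1
      · subst hg1
        rw [if_pos rfl, hf1]
        omega
      · rw [if_neg hg1, hval2 g hg1 h0]
    rw [Finset.sum_congr rfl e, Finset.sum_add_distrib, Finset.sum_const, smul_eq_mul, mul_one, hUcard,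
      Finset.sum_ite_eq']
    rw [if_pos]
    refine Finset.mem_filter.mpr ⟨Finset.mem_univ _, ?_⟩
    rw [hf1]
    omega
  have hsum0 : ∑ g ∈ Finset.univ.filter (fun g => f g = 0), f g = 0 :=
    Finset.sum_eq_zero (fun g hg => (Finset.mem_filter.mp hg).2)
  have hsplit2 := Finset.sum_filter_add_sum_filter_not (Finset.univ : Finset G) (fun g => f g = 0) f
  rw [hsum0, hsumf, zero_add, h1] at hsplit2
  have hDle : D.card ≤ N := by
    rw [hN, ← Finset.card_univ]
    exact Finset.card_le_card (Finset.filter_subset _ _)
  have hdval : D.card = n - 1 := by omega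
  have hNval : N = n * (n - 1) := by rw [← hnD, hdval]
  refine ⟨⟨htr, ?_, ?_⟩, ?_, ?_⟩
  · by_contra hcon
    push Not at hcon
    -- every non-identity element is a derangement
    have hallD : ∀ g : G, g ≠ 1 → g ∈ D := by
      intro g hg
      refine Finset.mem_filter.mpr ⟨Finset.mem_univ _, (hf0 g).mpr (fun ω => ?_)⟩
      exact fun h => (hcon g hg ω) h
    have hcard : N - 1 ≤ D.card := by
      have hsub : (Finset.univ.erase (1 : G)) ⊆ D := by
        intro g hg
        exact hallD g (Finset.ne_of_mem_erase hg)
      have := Finset.card_le_card hsub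
      rw [Finset.card_erase_of_mem (Finset.mem_univ _), Finset.card_univ] at this
      exact this
    rw [hdval, hNval] at hcard
    have h5 : n - 1 ≥ 2 := by omega
    have h6 : n * (n - 1) ≥ 3 * (n - 1) := Nat.mul_le_mul_right _ hn3
    omega
  · intro g hg
    rw [hfN]
    by_cases h0 : f g = 0
    · omega
    · exact (hval2 g hg h0).le
  · exact hNval
  · exact hnD

end Cfsg.Agent.S5729
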