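import Cfsg.Statements.S5754


set_option autoImplicit false
open Cfsg

namespace Cfsg.Agent.S5754

/-- Let V be a finite-dimensional vector space over a finite field F carrying an anisotropic quadratic form Q (Q(v) = 0 only for v = 0). Then the group of all maps v ↦ φ(v) + c, with φ an isometry of Q and c ∈ V, acts on V as a binary permutation group: given n ≥ 2 and two n-tuples u, u' of vectors such that every pair of corresponding entries of u is carried to that of u' by such a map, one such map carries u to u'. -/
theorem result {F V : Type*} [Field F] [Finite F] [AddCommGroup V] [Module F V] [Module.Finite F V]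
    (Q : QuadraticForm F V) (hQ : Q.Anisotropic) (n : ℕ) (hn : 2 ≤ n) (u u' : Fin n → V)
    (h2 : ∀ i j : Fin n, i ≠ j → ∃ (φ : Q.IsometryEquiv Q) (c : V), φ (u i) + c = u' i ∧ φ (u j) + c = u' j) :
    ∃ (φ : Q.IsometryEquiv Q) (c : V), ∀ i, φ (u i) + c = u' i := by
  classical
  have hdiff : ∀ (φ : Q.IsometryEquiv Q) (x y : V), Q (φ x - φ y) = Q (x - y) := by
    intro φ x y
    rw [← map_sub]
    exact φ.map_app _
  have hsub : ∀ x y : V, Q (x - y) = Q x + Q y - QuadraticMap.polar Q x y := by
    intro x y
    have := QuadraticMap.polar_neg_right Q x y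
    simp only [QuadraticMap.polar, QuadraticMap.map_neg, ← sub_eq_add_neg] at this
    simp only [QuadraticMap.polar]
    linear_combination this
  have hpolar : ∀ (φ : Q.IsometryEquiv Q) (x y : V),
      QuadraticMap.polar Q (φ x) (φ y) = QuadraticMap.polar Q x y := by
    intro φ x y
    simp only [QuadraticMap.polar, ← map_add, φ.map_app]
  -- base point
  let i₀ : Fin n := ⟨0, by omega⟩
  let v : Fin n → V := fun i => u i - u i₀
  let v' : Fin n → V := fun i => u' i - u' i₀
  have hpair : ∀ i j, Q (u i - u j) = Q (u' i - u' j) := by
    intro i j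
    by_cases hij : i = j
    · subst hij; simp
    · obtain ⟨φ, c, h1, h2⟩ := h2 i j hij
      rw [← h1, ← h2, add_sub_add_right_eq_sub, hdiff]
  have hQv : ∀ i, Q (v i) = Q (v' i) := fun i => hpair i i₀
  have hpv : ∀ i j, QuadraticMap.polar Q (v i) (v j) = QuadraticMap.polar Q (v' i) (v' j) := by
    intro i j
    have h1 : Q (v i - v j) = Q (v' i - v' j) := by
      have e1 : v i - v j = u i - u j := by simp only [v]; abel
      have e2 : v' i - v' j = u' i - u' j := by simp only [v']; abel
      rw [e1, e2, hpair]
    rw [hsub (v i) (v j), hsub (v' i) (v' j), hQv i, hQv j] at h1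
    linear_combination -h1
  -- Witt extension by reflections
  have hind : ∀ A : Finset (Fin n), ∃ φ : Q.IsometryEquiv Q, ∀ i ∈ A, φ (v i) = v' i := by
    intro A
    induction A using Finset.induction_on with
    | empty => exact ⟨QuadraticMap.IsometryEquiv.refl Q, by simp⟩
    | insert i A hi ih =>
      obtain ⟨φ₀, hφ₀⟩ := ih
      by_cases hw : φ₀ (v i) = v' i
      · refine ⟨φ₀, fun j hj => ?_⟩
        rcases Finset.mem_insert.mp hj with rfl | hj
        · exact hw
        · exact hφ₀ j hj
      · set w := φ₀ (v i) with hwdef
        set a := w - v' i with ha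
        have ha0 : a ≠ 0 := sub_ne_zero.mpr hw
        have hQa : Q a ≠ 0 := fun h => ha0 (hQ a h)
        have hQw : Q w = Q (v' i) := by rw [hwdef, φ₀.map_app, hQv]
        -- reflection
        let f : V →ₗ[F] F := (Q a)⁻¹ • (QuadraticMap.polarBilin Q).flip a
        have hfa : f a = 2 := by
          simp only [f, LinearMap.smul_apply, LinearMap.flip_apply, QuadraticMap.polarBilin_apply_apply,
            QuadraticMap.polar_self, smul_eq_mul, nsmul_eq_mul, Nat.cast_ofNat]
          field_simp
        have hfv : ∀ x, f x * Q a = QuadraticMap.polar Q x a := by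
          intro x
          simp only [f, LinearMap.smul_apply, LinearMap.flip_apply, QuadraticMap.polarBilin_apply_apply, smul_eq_mul]
          field_simp
        let r : V ≃ₗ[F] V := Module.reflection hfa
        have hr : ∀ x, r x = x - f x • a := fun x => Module.reflection_apply _ _
        have hrQ : ∀ x, Q (r x) = Q x := by
          intro x
          rw [hr, hsub, QuadraticMap.map_smul, QuadraticMap.polar_smul_right, ← hfv]
          simp only [smul_eq_mul]
          ring
        let ρ : Q.IsometryEquiv Q := { r with map_app' := hrQ }
        have hρ : ∀ x, ρ x = x - f x • a := hr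
        have hfix : ∀ j ∈ A, f (v' j) = 0 := by
          intro j hj
          have h1 : f (v' j) * Q a = 0 := by
            rw [hfv, ha, QuadraticMap.polar_sub_right, hwdef, ← hφ₀ j hj, hpolar, hφ₀ j hj, hpv]
            ring
          exact (mul_eq_zero.mp h1).resolve_right hQa
        have hone : f w = 1 := by
          have h1 : f w * Q a = Q a := by
            rw [hfv, ha, hsub, QuadraticMap.polar_sub_right, QuadraticMap.polar_self, ← hQw]
            ring
          field_simp at h1
          linear_combination h1
        refine ⟨φ₀.trans ρ, fun j hj => ?_⟩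
        change ρ (φ₀ (v j)) = v' j
        rcases Finset.mem_insert.mp hj with rfl | hj
        · rw [← hwdef, hρ, hone, one_smul, ha]
          abel
        · rw [hφ₀ j hj, hρ, hfix j hj, zero_smul, sub_zero]
  obtain ⟨φ, hφ⟩ := hind Finset.univ
  refine ⟨φ, u' i₀ - φ (u i₀), fun i => ?_⟩
  have h := hφ i (Finset.mem_univ _)
  have h3 : φ (v i) = φ (u i) - φ (u i₀) := by simp only [v]; exact map_sub _ _ _
  rw [h3] at h
  simp only [v'] at h
  linear_combination (norm := module) h

end Cfsg.Agent.S5754
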