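import Cfsg.Statements.S5885

set_option autoImplicit false
open Cfsg
open scoped Pointwise

namespace Cfsg.Agent.S5885

theorem exists_cycle3 {Ω : Type*} [Fintype Ω] [DecidableEq Ω] (a b c : Ω)
    (hab : a ≠ b) (hac : a ≠ c) (hbc : b ≠ c) :
    ∃ σ : Equiv.Perm Ω, Equiv.Perm.sign σ = 1 ∧ σ a = b ∧ σ b = c ∧ σ c = a ∧
      ∀ x, x ≠ a → x ≠ b → x ≠ c → σ x = x := by
  refine ⟨Equiv.swap a b * Equiv.swap b c, ?_, ?_, ?_, ?_, ?_⟩
  · simp [Equiv.Perm.sign_swap hab, Equiv.Perm.sign_swap hbc]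
  · simp [Equiv.swap_apply_of_ne_of_ne hab hac]
  · simp [Equiv.swap_apply_of_ne_of_ne hac.symm hbc.symm]
  · simp
  · intro x h1 h2 h3
    simp [Equiv.swap_apply_of_ne_of_ne h2 h3, Equiv.swap_apply_of_ne_of_ne h1 h2]

theorem exists_double_swap {Ω : Type*} [Fintype Ω] [DecidableEq Ω] (a b c d : Ω)
    (hab : a ≠ b) (hcd : c ≠ d) (hac : a ≠ c) (had : a ≠ d) (hbc : b ≠ c) (hbd : b ≠ d) :
    ∃ σ : Equiv.Perm Ω, Equiv.Perm.sign σ = 1 ∧ σ a = b ∧ σ b = a ∧ σ c = d ∧ σ d = c ∧
      ∀ x, x ≠ a → x ≠ b → x ≠ c → x ≠ d → σ x = x := by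
  refine ⟨Equiv.swap a b * Equiv.swap c d, ?_, ?_, ?_, ?_, ?_, ?_⟩
  · simp [Equiv.Perm.sign_swap hab, Equiv.Perm.sign_swap hcd]
  · simp [Equiv.swap_apply_of_ne_of_ne hac had]
  · simp [Equiv.swap_apply_of_ne_of_ne hbc hbd]
  · simp [Equiv.swap_apply_of_ne_of_ne had.symm hbd.symm]
  · simp [Equiv.swap_apply_of_ne_of_ne hac.symm hbc.symm]
  · intro x h1 h2 h3 h4
    simp [Equiv.swap_apply_of_ne_of_ne h3 h4, Equiv.swap_apply_of_ne_of_ne h1 h2]

section Core

variable {G Ω : Type*} [Group G] [MulAction G Ω] [Fintype Ω] [DecidableEq Ω]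

theorem core
    (hev : ∀ σ : Equiv.Perm Ω, Equiv.Perm.sign σ = 1 → ∃ g : G, ∀ ω : Ω, g • ω = σ ω)
    (hodd : Odd (Fintype.card Ω)) (α : Ω) (M H K L : Subgroup G)
    (hMα : ∀ g, g ∈ M ↔ g • α = α)
    (hcoat : ∀ S : Subgroup G, H ≤ S → S ≤ M → S = H ∨ S = M)
    (hHM : H ≤ M)
    (hinter : ∀ g, g ∈ K → g • α = α → g ∈ H) (hHL : H ≤ L) (hLK : L ≤ K)
    (hLH : L ≠ H) (hLK' : L ≠ K) : False := by
  classical
  obtain ⟨l, hl, hlα⟩ : ∃ l ∈ L, l • α ≠ α := by
    by_contra hcon
    push Not at hcon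
    apply hLH
    apply le_antisymm _ hHL
    intro x hx
    exact hinter x (hLK hx) (hcon x hx)
  let B : Set Ω := {ω | ∃ l ∈ L, l • α = ω}
  have hαB : α ∈ B := ⟨1, L.one_mem, one_smul _ _⟩
  have hyB : l • α ∈ B := ⟨l, hl, rfl⟩
  have hblock : ∀ k ∈ K, ∀ l₁ ∈ L, ∀ l₂ ∈ L, k • l₁ • α = l₂ • α → k ∈ L := by
    intro k hk l₁ hl₁ l₂ hl₂ h
    have h1 : l₂⁻¹ * k * l₁ ∈ H :=
      hinter _ (K.mul_mem (K.mul_mem (K.inv_mem (hLK hl₂)) hk) (hLK hl₁)) (by
        simp [mul_smul, h])
    have h2 := L.mul_mem (L.mul_mem hl₂ (hHL h1)) (L.inv_mem hl₁)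
    convert h2 using 1
    group
  -- the setwise stabiliser of `B` in `M`
  let S : Subgroup G := M ⊓ MulAction.stabilizer G B
  have hSmem : ∀ g, g • α = α → (∀ ω, g • ω ∈ B ↔ ω ∈ B) → g ∈ S := by
    intro g hg hg'
    refine ⟨(hMα g).2 hg, ?_⟩
    change g ∈ MulAction.stabilizer G B
    rw [MulAction.mem_stabilizer_iff]
    ext ω
    rw [Set.mem_smul_set_iff_inv_smul_mem, ← hg' (g⁻¹ • ω)]
    simp
  have hHS : H ≤ S := by
    intro h hh
    refine hSmem h ((hMα h).1 (hHM hh)) ?_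
    intro ω
    constructor
    · rintro ⟨l', hl', e⟩
      refine ⟨h⁻¹ * l', L.mul_mem (L.inv_mem (hHL hh)) hl', ?_⟩
      rw [mul_smul, e, inv_smul_smul]
    · rintro ⟨l', hl', rfl⟩
      exact ⟨h * l', L.mul_mem (hHL hh) hl', mul_smul _ _ _⟩
  have hSM : S ≤ M := inf_le_left
  have hkey : ∀ z z' : Ω, z ∉ B → z' ∉ B → z ≠ z' →
      ∀ g, g • α = α → (∀ ω, g • ω ∈ B ↔ ω ∈ B) → g ∈ H := by
    intro z z' hz hz' hzz' g hg hg'
    have hS : S = H := by
      rcases hcoat S hHS hSM with h | h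
      · exact h
      · exfalso
        have hyz : l • α ≠ z := fun e => hz (e ▸ hyB)
        have hyz' : l • α ≠ z' := fun e => hz' (e ▸ hyB)
        obtain ⟨σ, hσ, h1, h2, h3, h4⟩ := exists_cycle3 (l • α) z z' hyz hyz' hzz'
        obtain ⟨t, ht⟩ := hev σ hσ
        have htα : t • α = α := by
          rw [ht, h4 α hlα.symm (fun e => hz (e ▸ hαB)) (fun e => hz' (e ▸ hαB))]
        have htM : t ∈ S := h ▸ (hMα t).2 htα
        have this : t ∈ MulAction.stabilizer G B := htM.2
        rw [MulAction.mem_stabilizer_iff] at this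
        have h5 : t • (l • α) ∈ B := by
          have h6 : t • (l • α) ∈ t • B := Set.smul_mem_smul_set hyB
          rwa [this] at h6
        rw [ht, h1] at h5
        exact hz h5
    rw [← hS]
    exact hSmem g hg hg'
  by_cases hΔ : ∀ ω : Ω, ∃ k ∈ K, k • α = ω
  · -- transitive case
    have hBne : ∃ z, z ∉ B := by
      by_contra hcon
      push Not at hcon
      apply hLK'
      apply le_antisymm hLK
      intro k hk
      obtain ⟨l', hl', e⟩ := hcon (k • α)
      have : k • (1 : G) • α = l' • α := by rw [one_smul, e]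
      exact hblock k hk 1 L.one_mem l' hl' this
    obtain ⟨z₀, hz₀⟩ := hBne
    obtain ⟨k, hk, hkα⟩ := hΔ z₀
    -- the translate `B₂ = k • B`
    let B₂ : Set Ω := (fun ω => k • ω) '' B
    have hdisj : Disjoint B B₂ := by
      rw [Set.disjoint_left]
      rintro ω ⟨l₂, hl₂, e₂⟩ ⟨ω', ⟨l₁, hl₁, rfl⟩, e₁⟩
      have h1 : k • l₁ • α = l₂ • α := by
        simp only at e₁
        rw [e₁, e₂]
      have h2 := hblock k hk l₁ hl₁ l₂ hl₂ h1
      exact hz₀ (hkα ▸ ⟨k, h2, rfl⟩)
    have hcard : (B ∪ B₂).ncard = 2 * B.ncard := by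
      rw [Set.ncard_union_eq hdisj (Set.toFinite _) (Set.toFinite _),
        Set.ncard_image_of_injective _ (MulAction.injective k)]
      ring
    have hne : B ∪ B₂ ≠ Set.univ := by
      intro h
      rw [h, Set.ncard_univ, Nat.card_eq_fintype_card] at hcard
      rw [hcard] at hodd
      exact (Nat.not_even_iff_odd.2 hodd) (even_two_mul _)
    obtain ⟨z, hz⟩ : ∃ z, z ∉ B ∪ B₂ := by
      by_contra hcon
      push Not at hcon
      exact hne (Set.eq_univ_of_forall hcon)
    have hz1 : z ∉ B := fun h => hz (Or.inl h)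
    have hz2 : z ∉ B₂ := fun h => hz (Or.inr h)
    have hy₁B₂ : k • α ∈ B₂ := ⟨α, hαB, rfl⟩
    have hy₂B₂ : k • (l • α) ∈ B₂ := ⟨l • α, hyB, rfl⟩
    have hy₁B : k • α ∉ B := fun h => Set.disjoint_left.1 hdisj h hy₁B₂
    have hy₂B : k • (l • α) ∉ B := fun h => Set.disjoint_left.1 hdisj h hy₂B₂
    have hy₁₂ : k • α ≠ k • (l • α) := fun e => hlα (MulAction.injective k e).symm
    have hy₁z : k • α ≠ z := fun e => hz2 (e ▸ hy₁B₂)
    have hy₂z : k • (l • α) ≠ z := fun e => hz2 (e ▸ hy₂B₂)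
    obtain ⟨σ, hσ, h1, h2, h3, h4⟩ := exists_cycle3 (k • α) (k • (l • α)) z hy₁₂ hy₁z hy₂z
    obtain ⟨g, hg⟩ := hev σ hσ
    have hfixB : ∀ ω ∈ B, g • ω = ω := by
      intro ω hω
      rw [hg, h4 ω (fun e => hy₁B (e ▸ hω)) (fun e => hy₂B (e ▸ hω)) (fun e => hz1 (e ▸ hω))]
    have hgH : g ∈ H := by
      refine hkey _ _ hy₁B hy₂B hy₁₂ g (hfixB α hαB) ?_
      intro ω
      constructor
      · intro h
        have := hfixB _ h
        have h5 : g • (g • ω) = g • ω := this
        have := MulAction.injective g h5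
        rwa [this] at h
      · intro h
        rwa [hfixB ω h]
    have hgK := hLK (hHL hgH)
    -- `k⁻¹ g k` lies in `L`
    have h6 : k⁻¹ * g * k ∈ L := by
      refine hblock _ (K.mul_mem (K.mul_mem (K.inv_mem hk) hgK) hk) 1 L.one_mem l hl ?_
      rw [one_smul, mul_smul, mul_smul, hg, h1, inv_smul_smul]
    have h7 : g • (k • (l • α)) ∈ B₂ := by
      refine ⟨(k⁻¹ * g * k * l) • α, ⟨_, L.mul_mem h6 hl, rfl⟩, ?_⟩
      simp [mul_smul]
    rw [hg, h2] at h7
    exact hz2 h7
  · -- intransitive case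
    push Not at hΔ
    obtain ⟨w, hw⟩ := hΔ
    have hBΔ : ∀ ω ∈ B, ∃ k ∈ K, k • α = ω := by
      rintro ω ⟨l', hl', e⟩
      exact ⟨l', hLK hl', e⟩
    obtain ⟨y', hy'⟩ : ∃ k ∈ K, k • α ∉ B := by
      by_contra hcon
      push Not at hcon
      apply hLK'
      apply le_antisymm hLK
      intro k hk
      obtain ⟨l', hl', e⟩ := hcon k hk
      have : k • (1 : G) • α = l' • α := by rw [one_smul, e]
      exact hblock k hk 1 L.one_mem l' hl' this
    obtain ⟨hy'K, hy'B⟩ := hy'
    have hwB : w ∉ B := fun h => by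
      obtain ⟨k, hk, e⟩ := hBΔ w h
      exact hw k hk e
    have hy'w : y' • α ≠ w := fun e => hw y' hy'K e
    have hmain : ∀ g : G, (∀ ω, g • ω ∈ B ↔ ω ∈ B) → g • α = α → g • (y' • α) = w → False := by
      intro g hg hgα hgy
      have hgH : g ∈ H := hkey _ _ hy'B hwB hy'w g hgα hg
      exact hw (g * y') (K.mul_mem (hLK (hHL hgH)) hy'K) (by rw [mul_smul, hgy])
    by_cases hc : ∃ c, c ∉ B ∧ c ≠ y' • α ∧ c ≠ w
    · obtain ⟨c, hc1, hc2, hc3⟩ := hc
      obtain ⟨σ, hσ, h1, h2, h3, h4⟩ := exists_cycle3 (y' • α) w c hy'w hc2.symm hc3.symm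
      obtain ⟨g, hg⟩ := hev σ hσ
      have hfixB : ∀ ω ∈ B, g • ω = ω := by
        intro ω hω
        rw [hg, h4 ω (fun e => hy'B (e ▸ hω)) (fun e => hwB (e ▸ hω)) (fun e => hc1 (e ▸ hω))]
      refine hmain g ?_ (hfixB α hαB) (by rw [hg, h1])
      intro ω
      constructor
      · intro h
        have h5 : g • (g • ω) = g • ω := hfixB _ h
        have := MulAction.injective g h5
        rwa [this] at h
      · intro h
        rwa [hfixB ω h]
    · push Not at hc
      -- the complement of `B` is exactly `{y', w}`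
      have hun : Set.univ = B ∪ {y' • α, w} := by
        symm
        apply Set.eq_univ_of_forall
        intro c
        by_cases h : c ∈ B
        · exact Or.inl h
        · right
          by_cases h' : c = y' • α
          · exact Or.inl h'
          · exact Or.inr (hc c h h')
      have hd : Disjoint B {y' • α, w} := by
        rw [Set.disjoint_left]
        rintro ω hω (h | h)
        · exact hy'B (h ▸ hω)
        · exact hwB (h ▸ hω)
      have hcard : Fintype.card Ω = B.ncard + 2 := by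
        rw [← Nat.card_eq_fintype_card, ← Set.ncard_univ, hun,
          Set.ncard_union_eq hd (Set.toFinite _) (Set.toFinite _), Set.ncard_pair hy'w]
      have hBodd : Odd B.ncard := by
        rw [hcard] at hodd
        rcases Nat.even_or_odd B.ncard with h | h
        · exact absurd hodd (Nat.not_odd_iff_even.2 (h.add (by decide)))
        · exact h
      have h2 : 1 < (B \ {α}).ncard := by
        have h3 : (B \ {α}).ncard = B.ncard - 1 := by
          rw [Set.ncard_sdiff_singleton_of_mem hαB]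
        rw [h3]
        have h4 : 1 < B.ncard := by
          rw [Set.one_lt_ncard (Set.toFinite _)]
          exact ⟨α, hαB, l • α, hyB, hlα.symm⟩
        obtain ⟨m, hm⟩ := hBodd
        omega
      obtain ⟨b₁, hb₁, b₂, hb₂, hb₁₂⟩ := (Set.one_lt_ncard (Set.toFinite _)).1 h2
      have hb₁B : b₁ ∈ B := hb₁.1
      have hb₂B : b₂ ∈ B := hb₂.1
      have hb₁α : b₁ ≠ α := hb₁.2
      have hb₂α : b₂ ≠ α := hb₂.2
      obtain ⟨σ, hσ, h1, h2', h3, h4, h5⟩ := exists_double_swap (y' • α) w b₁ b₂ hy'w hb₁₂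
        (fun e => hy'B (e ▸ hb₁B)) (fun e => hy'B (e ▸ hb₂B))
        (fun e => hwB (e ▸ hb₁B)) (fun e => hwB (e ▸ hb₂B))
      obtain ⟨g, hg⟩ := hev σ hσ
      have hfix : ∀ ω ∈ B, ω ≠ b₁ → ω ≠ b₂ → g • ω = ω := by
        intro ω hω h6 h7
        rw [hg, h5 ω (fun e => hy'B (e ▸ hω)) (fun e => hwB (e ▸ hω)) h6 h7]
      have hαfix : g • α = α := hfix α hαB hb₁α.symm hb₂α.symm
      have hBfwd : ∀ ω ∈ B, g • ω ∈ B := by
        intro ω hω
        by_cases h6 : ω = b₁
        · rw [h6, hg, h3]; exact hb₂B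
        by_cases h7 : ω = b₂
        · rw [h7, hg, h4]; exact hb₁B
        rw [hfix ω hω h6 h7]; exact hω
      refine hmain g ?_ hαfix (by rw [hg, h1])
      intro ω
      constructor
      · intro h
        by_contra hω
        have h6 : ω = y' • α ∨ ω = w := by
          by_cases h' : ω = y' • α
          · exact Or.inl h'
          · exact Or.inr (hc ω hω h')
        rcases h6 with rfl | rfl
        · rw [hg, h1] at h; exact hwB h
        · rw [hg, h2'] at h; exact hy'B h
      · exact hBfwd ω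

end Core

theorem coatom_realize {G : Type*} [Group G] [Finite G] (n : ℕ)
    (hA : ∀ P : Subgroup (Equiv.Perm (Fin n)), MulAction.IsPreprimitive P (Fin n) →
      alternatingGroup (Fin n) ≤ P)
    (M : Subgroup G) (hM : IsCoatom M) (hn : M.index = n)
    [Fintype (G ⧸ M)] [DecidableEq (G ⧸ M)] (σ : Equiv.Perm (G ⧸ M))
    (hσ : Equiv.Perm.sign σ = 1) : ∃ g : G, ∀ ω : G ⧸ M, g • ω = σ ω := by
  classical
  have hcard : Nat.card (G ⧸ M) = n := hn
  let e : (G ⧸ M) ≃ Fin n := Finite.equivFinOfCardEq hcard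
  let φ : G →* Equiv.Perm (Fin n) := (e.permCongrHom.toMonoidHom).comp (MulAction.toPermHom G (G ⧸ M))
  let P := φ.range
  have hnt : Nontrivial (G ⧸ M) := QuotientGroup.nontrivial_iff.2 hM.1
  have hprim0 : MulAction.IsPreprimitive G (G ⧸ M) := by
    rw [← MulAction.isCoatom_stabilizer_iff_preprimitive G ((1 : G) : G ⧸ M)]
    rwa [MulAction.stabilizer_quotient]
  let f : (G ⧸ M) →ₑ[(fun g : G => (⟨φ g, g, rfl⟩ : P))] Fin n :=
    { toFun := e
      map_smul' := by
        intro g x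
        simp [φ, Subgroup.mk_smul, Equiv.permCongrHom] }
  have hprim : MulAction.IsPreprimitive P (Fin n) :=
    MulAction.IsPreprimitive.of_surjective (f := f) e.surjective
  have hmem : e.permCongrHom σ ∈ alternatingGroup (Fin n) := by
    rw [Equiv.Perm.mem_alternatingGroup]
    simpa [Equiv.permCongrHom] using hσ
  obtain ⟨g, hg⟩ := hA P hprim hmem
  refine ⟨g, fun ω => ?_⟩
  have h1 := congrArg (fun τ : Equiv.Perm (Fin n) => τ (e ω)) hg
  simpa [φ, Equiv.permCongrHom] using h1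

/-- Let n be an odd positive integer such that every primitive permutation group of degree n contains the alternating group (so the symmetric and alternating groups are the only primitive groups of degree n). Let G be a finite group, M a maximal subgroup of G of index n, and H a maximal subgroup of M. Then H is a second maximal subgroup of G: H is maximal in every maximal subgroup K of G containing H. -/
theorem result {G : Type*} [Group G]
    [Finite G] (n : ℕ) (hodd : Odd n)
    (hA : ∀ P : Subgroup (Equiv.Perm (Fin n)), MulAction.IsPreprimitive P (Fin n) → alternatingGroup (Fin n) ≤ P)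
    (M : Subgroup G) (hM : IsCoatom M) (hn : M.index = n) (H : Subgroup G) (hHM : H ≤ M)
    (hmax : IsCoatom (H.subgroupOf M)) (K : Subgroup G) (hK : IsCoatom K) (hHK : H ≤ K) :
    IsCoatom (H.subgroupOf K) := by
  classical
  by_cases hKM : K = M
  · subst hKM
    exact hmax
  -- `K ⊓ M` is `H`
  have hKnotM : ¬ K ≤ M := fun h => hKM ((hK.le_iff_eq hM.1).1 h).symm
  have hMnotK : ¬ M ≤ K := fun h => hKM ((hM.le_iff_eq hK.1).1 h)
  have hcoat : ∀ S : Subgroup G, H ≤ S → S ≤ M → S = H ∨ S = M := by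
    intro S hS hSM
    by_cases h : S = M
    · exact Or.inr h
    left
    have h1 : S.subgroupOf M ≠ ⊤ := by
      intro h2
      exact h (le_antisymm hSM (Subgroup.subgroupOf_eq_top.1 h2))
    have h2 : H.subgroupOf M ≤ S.subgroupOf M := Subgroup.subgroupOf_mono M hS
    have h3 : S.subgroupOf M = H.subgroupOf M := by
      rcases eq_or_lt_of_le h2 with h4 | h4
      · exact h4.symm
      · exact absurd (hmax.2 _ h4) h1
    apply le_antisymm _ hS
    intro x hx
    have : (⟨x, hSM hx⟩ : M) ∈ S.subgroupOf M := hx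
    rw [h3] at this
    exact this
  have hinf : H = K ⊓ M := by
    rcases hcoat (K ⊓ M) (le_inf hHK hHM) inf_le_right with h | h
    · exact h.symm
    · exfalso
      apply hMnotK
      rw [← h]
      exact inf_le_left
  let _ : Fintype (G ⧸ M) := Fintype.ofFinite _
  have hcard : Fintype.card (G ⧸ M) = n := by
    rw [← Nat.card_eq_fintype_card]; exact hn
  have hev := fun σ hσ => coatom_realize (G := G) n hA M hM hn σ hσ
  have hα : ∀ g : G, g ∈ M ↔ g • ((1 : G) : G ⧸ M) = ((1 : G) : G ⧸ M) := by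
    intro g
    rw [← MulAction.mem_stabilizer_iff, MulAction.stabilizer_quotient]
  have hinter : ∀ g, g ∈ K → g • ((1 : G) : G ⧸ M) = ((1 : G) : G ⧸ M) → g ∈ H := by
    intro g hg hg'
    rw [hinf]
    exact ⟨hg, (hα g).2 hg'⟩
  refine ⟨?_, ?_⟩
  · intro h
    apply hKnotM
    exact (Subgroup.subgroupOf_eq_top.1 h).trans hHM
  · intro L' hL'
    by_contra hne
    let L : Subgroup G := L'.map K.subtype
    have hLK : L ≤ K := by
      rintro _ ⟨x, _, rfl⟩
      exact x.2
    have hHL : H ≤ L := by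
      intro x hx
      exact ⟨⟨x, hHK hx⟩, hL'.le hx, rfl⟩
    refine core hev (by rw [hcard]; exact hodd) ((1 : G) : G ⧸ M) M H K L hα hcoat hHM hinter hHL hLK ?_ ?_
    · intro h
      apply hL'.not_ge
      intro x hx
      have : (x : G) ∈ L := ⟨x, hx, rfl⟩
      rw [h] at this
      exact this
    · intro h
      apply hne
      rw [eq_top_iff]
      intro x _
      have hx : (x : G) ∈ L := by
        rw [h]
        exact x.2
      obtain ⟨y, hy, e⟩ := hx
      have : y = x := Subtype.ext e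
      exact this ▸ hy

end Cfsg.Agent.S5885
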