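import Cfsg.Statements.S5904


set_option autoImplicit false
open scoped Pointwise
open Cfsg

namespace Cfsg.Agent.S5904

/-- Let Ω be a finite set with more than two elements and O ⊆ Ω a subset with exactly as many elements as its complement. Then the setwise stabilizer of O in the symmetric group on Ω is not a maximal subgroup (it is properly contained in the stabilizer of the partition {O, Ω ∖ O}, which is proper). -/
theorem result {Ω : Type*} [Fintype Ω] [DecidableEq Ω] (hΩ : 2 < Fintype.card Ω)
    (O : Set Ω) (hO : Nat.card O = Nat.card ↥Oᶜ) :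
    ¬ IsCoatom (MulAction.stabilizer (Equiv.Perm Ω) O) := by
  intro hc
  classical
  have hcard : Nat.card O + Nat.card ↥Oᶜ = Fintype.card Ω := by
    rw [Nat.card_eq_fintype_card, Nat.card_eq_fintype_card]
    have := Fintype.card_congr (Equiv.Set.sumCompl O)
    rw [Fintype.card_sum] at this
    exact this
  obtain ⟨e⟩ : Nonempty (O ≃ ↥Oᶜ) := Finite.card_eq.mp hO
  have h2 : 2 ≤ Nat.card O := by omega
  -- the swap
  let σ : Equiv.Perm Ω := (Equiv.Set.sumCompl O).symm.trans
    (((Equiv.sumCongr e e.symm).trans (Equiv.sumComm _ _)).trans (Equiv.Set.sumCompl O))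
  have hσ1 : ∀ x (hx : x ∈ O), σ x = e ⟨x, hx⟩ := by
    intro x hx
    simp [σ, Equiv.Set.sumCompl_symm_apply_of_mem hx]
  have hσ2 : ∀ x (hx : x ∉ O), σ x = e.symm ⟨x, hx⟩ := by
    intro x hx
    simp [σ, Equiv.Set.sumCompl_symm_apply_of_notMem hx]
  have hσO : σ • O = Oᶜ := by
    ext y
    rw [Set.mem_smul_set_iff_inv_smul_mem]
    constructor
    · intro hy
      have h3 : σ (σ⁻¹ • y) = y := by
        change σ (σ⁻¹ y) = y
        simp
      rw [← h3, hσ1 _ hy]
      exact (e _).2
    · intro hy
      have hy' : y ∉ O := hy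
      by_contra hcon
      have h3 : σ (σ⁻¹ • y) = y := by
        change σ (σ⁻¹ y) = y
        simp
      rw [hσ2 _ hcon] at h3
      have := (e.symm ⟨_, hcon⟩).2
      rw [h3] at this
      exact hy' this
  -- the partition stabilizer
  have hcompl : ∀ g : Equiv.Perm Ω, g • Oᶜ = (g • O)ᶜ := fun g => Set.smul_set_compl
  let K : Subgroup (Equiv.Perm Ω) :=
    { carrier := {g | g • O = O ∨ g • O = Oᶜ}
      one_mem' := Or.inl (one_smul _ _)
      mul_mem' := by
        intro a b ha hb
        simp only [Set.mem_setOf_eq] at ha hb ⊢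
        rw [mul_smul]
        rcases hb with hb | hb
        · rw [hb]; exact ha
        · rw [hb, hcompl]
          rcases ha with ha | ha
          · right; rw [ha]
          · left; rw [ha, compl_compl]
      inv_mem' := by
        intro a ha
        simp only [Set.mem_setOf_eq] at ha ⊢
        rcases ha with ha | ha
        · left
          conv_lhs => rw [← ha]
          rw [inv_smul_smul]
        · right
          have : a⁻¹ • Oᶜ = O := by rw [← ha, inv_smul_smul]
          rw [hcompl] at this
          rw [← compl_compl (a⁻¹ • O), this] }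
  have hle : MulAction.stabilizer (Equiv.Perm Ω) O ≤ K := fun g hg => Or.inl hg
  have hnot : σ ∉ MulAction.stabilizer (Equiv.Perm Ω) O := by
    intro hs
    have hs' : σ • O = O := hs
    rw [hσO] at hs'
    have hne : (O : Set Ω).Nonempty := by
      rw [← Set.nonempty_coe_sort]
      exact (Nat.card_pos_iff.mp (by omega)).1
    obtain ⟨x, hx⟩ := hne
    have : x ∈ Oᶜ := by rw [hs']; exact hx
    exact this hx
  have hlt : MulAction.stabilizer (Equiv.Perm Ω) O < K :=
    lt_of_le_of_ne hle (fun h => hnot (h ▸ (Or.inr hσO : σ ∈ K)))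
  have htop := hc.2 K hlt
  -- a transposition not in K
  obtain ⟨⟨a, ha⟩, ⟨a', ha'⟩, haa⟩ : ∃ a a' : O, a ≠ a' := by
    have : 1 < Nat.card O := by omega
    have hnt := (Finite.one_lt_card_iff_nontrivial).mp this
    exact exists_pair_ne _
  have hbne : 0 < Nat.card ↥Oᶜ := by omega
  obtain ⟨⟨b, hb⟩⟩ := (Nat.card_pos_iff.mp hbne).1
  have hb' : b ∉ O := hb
  have hmem : Equiv.swap a b ∈ K := by rw [htop]; trivial
  have haa' : a ≠ a' := fun h => haa (by simp [h])
  have hab : a' ≠ b := fun h => hb' (h ▸ ha')
  have hab2 : a' ≠ a := fun h => haa' h.symm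
  have hs1 : Equiv.swap a b a' = a' := Equiv.swap_apply_of_ne_of_ne hab2 hab
  have hs2 : Equiv.swap a b a = b := Equiv.swap_apply_left _ _
  rcases hmem with h | h
  · have : b ∈ O := by
      rw [← h]
      exact ⟨a, ha, hs2⟩
    exact hb' this
  · have : a' ∈ Oᶜ := by
      rw [← h]
      exact ⟨a', ha', hs1⟩
    exact this ha'

end Cfsg.Agent.S5904
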