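import Mathlib
import Cfsg.Agent.Lib.PSU32b
import Cfsg.Statements.S5908
-- import your own Cfsg.Agent.* helpers here

set_option autoImplicit false
open Cfsg

namespace Cfsg.Agent.S5908


theorem q8_fact : ∀ y : QuaternionGroup 2, y ≠ 1 → y = QuaternionGroup.a 2 ∨ y * y = QuaternionGroup.a 2 := by
  decide

theorem q8_two : (QuaternionGroup.a 2 : QuaternionGroup 2) * QuaternionGroup.a 2 = 1 := by decide
theorem q8_two_ne : (QuaternionGroup.a 2 : QuaternionGroup 2) ≠ 1 := by decide
theorem q8_one : (QuaternionGroup.a 1 : QuaternionGroup 2) * QuaternionGroup.a 1 ≠ 1 := by decide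


/-- The subgroup lattice of PSU₃(2) (the solvable group of order 72, realised over the field with 4 elements) is not complemented: some subgroup H has no subgroup X with H ⊔ X = ⊤ and H ⊓ X = ⊥. -/
theorem result {F : Type*} [Field F] [Fintype F] (hF : Fintype.card F = 4) :
    ¬ ComplementedLattice (Subgroup (Cfsg.PSU 3 F 2)) := by
  intro hC
  obtain ⟨N, hN, -, -, ⟨e⟩⟩ := Cfsg.Agent.Lib.PSU32b.result_gen hF
  let π : Cfsg.PSU 3 F 2 →* QuaternionGroup 2 := e.toMonoidHom.comp (QuotientGroup.mk' N)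
  have hπ : Function.Surjective π := e.surjective.comp (QuotientGroup.mk'_surjective N)
  let zb : QuaternionGroup 2 := QuaternionGroup.a 2
  let H : Subgroup (Cfsg.PSU 3 F 2) := (Subgroup.zpowers zb).comap π
  obtain ⟨X, hX⟩ := hC.exists_isCompl H
  have hdis : H ⊓ X = ⊥ := hX.disjoint.eq_bot
  have hcod : H ⊔ X = ⊤ := hX.codisjoint.eq_top
  -- an element of `X` with nontrivial image
  have hex : ∃ y ∈ X, π y ≠ 1 := by
    by_contra hno
    push Not at hno
    have hle : X ≤ H := by
      intro x hx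
      show π x ∈ Subgroup.zpowers zb
      rw [hno x hx]
      exact Subgroup.one_mem _
    have htop : H = ⊤ := by
      rw [← hcod]
      exact (sup_eq_left.2 hle).symm
    obtain ⟨g, hg⟩ := hπ (QuaternionGroup.a 1)
    have hgH : g ∈ H := by rw [htop]; trivial
    have h1 : π g ∈ Subgroup.zpowers zb := hgH
    rw [hg] at h1
    obtain ⟨k, hk⟩ := h1
    apply q8_one
    have h2 : (QuaternionGroup.a 1 : QuaternionGroup 2) * QuaternionGroup.a 1 = (zb * zb) ^ k := by
      have hk' : zb ^ k = QuaternionGroup.a 1 := hk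
      rw [(Commute.refl zb).mul_zpow k, hk']
    rw [h2]
    have : zb * zb = 1 := q8_two
    rw [this, one_zpow]
  obtain ⟨y, hyX, hy⟩ := hex
  have hw : ∃ w ∈ X, π w = zb := by
    rcases q8_fact _ hy with h | h
    · exact ⟨y, hyX, h⟩
    · exact ⟨y * y, X.mul_mem hyX hyX, by rw [map_mul]; exact h⟩
  obtain ⟨w, hwX, hwz⟩ := hw
  have hwH : w ∈ H := by
    show π w ∈ Subgroup.zpowers zb
    rw [hwz]
    exact Subgroup.mem_zpowers zb
  have hw1 : w ∈ H ⊓ X := ⟨hwH, hwX⟩
  rw [hdis, Subgroup.mem_bot] at hw1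
  rw [hw1, map_one] at hwz
  exact q8_two_ne hwz.symm

end Cfsg.Agent.S5908
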