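import Cfsg.Statements.S5913


set_option autoImplicit false
open Cfsg

namespace Cfsg.Agent.S5913

/-- Let S be a non-abelian simple group and n a natural number. Every normal subgroup N of the direct power S^n (functions Fin n → S) is a subproduct: there is a set T of coordinates such that N consists exactly of the elements whose coordinates outside T are trivial. In particular the minimal normal subgroups of S^n are its n factors. -/
theorem result {S : Type*} [Group S] [IsSimpleGroup S] (hS : ¬ IsMulCommutative S) (n : ℕ)
    (N : Subgroup (Fin n → S)) [N.Normal] :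
    ∃ T : Finset (Fin n), ∀ x : Fin n → S, x ∈ N ↔ ∀ i, i ∉ T → x i = 1 := by
  classical
  -- coordinates witnessing nontriviality
  let T : Finset (Fin n) := Finset.univ.filter (fun i => ∃ x ∈ N, x i ≠ 1)
  have hcen : ∀ a : S, (∀ s : S, s * a = a * s) → a = 1 := by
    intro a ha
    -- the centre is normal, hence trivial or everything
    rcases (inferInstance : (Subgroup.center S).Normal).eq_bot_or_eq_top with hz | hz
    · have : a ∈ Subgroup.center S := Subgroup.mem_center_iff.mpr ha
      rwa [hz, Subgroup.mem_bot] at this
    · exfalso
      apply hS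
      refine ⟨⟨fun u v => ?_⟩⟩
      have : v ∈ Subgroup.center S := by rw [hz]; trivial
      exact Subgroup.mem_center_iff.mp this u
  refine ⟨T, fun x => ⟨fun hx i hi => ?_, fun hx => ?_⟩⟩
  · by_contra hne
    exact hi (Finset.mem_filter.mpr ⟨Finset.mem_univ _, x, hx, hne⟩)
  · -- every `single` in a coordinate of T lies in N
    have hsingle : ∀ i ∈ T, ∀ y : S, (Pi.mulSingle i y : Fin n → S) ∈ N := by
      intro i hi y
      obtain ⟨-, z, hz, hzi⟩ := Finset.mem_filter.mp hi
      let L : Subgroup S := N.comap (MonoidHom.mulSingle (fun _ : Fin n => S) i)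
      have hLn : L.Normal := by
        constructor
        intro a ha g
        change (Pi.mulSingle i (g * a * g⁻¹) : Fin n → S) ∈ N
        have : (Pi.mulSingle i (g * a * g⁻¹) : Fin n → S) =
            (Pi.mulSingle i g) * (Pi.mulSingle i a) * (Pi.mulSingle i g)⁻¹ := by
          rw [← Pi.mulSingle_inv, ← Pi.mulSingle_mul, ← Pi.mulSingle_mul]
        rw [this]
        exact ‹N.Normal›.conj_mem _ ha _
      rcases hLn.eq_bot_or_eq_top with hL | hL
      · -- z i would be central
        exfalso
        apply hzi
        apply hcen
        intro s
        -- the commutator of `z` and `single i s` lies in N and is `single i [z i, s]`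
        have hcomm : (Pi.mulSingle i ((z i) * s * (z i)⁻¹ * s⁻¹) : Fin n → S) ∈ N := by
          have h1 : (Pi.mulSingle i ((z i) * s * (z i)⁻¹ * s⁻¹) : Fin n → S) =
              (z * Pi.mulSingle i s * z⁻¹) * (Pi.mulSingle i s)⁻¹ := by
            funext j
            by_cases hj : j = i
            · subst hj; simp
            · simp [Pi.mulSingle_eq_of_ne hj]
          rw [h1]
          have h2 : (Pi.mulSingle i (s⁻¹) : Fin n → S) = (Pi.mulSingle i s)⁻¹ := Pi.mulSingle_inv _ _
          have h3 : (z * Pi.mulSingle i s * z⁻¹) * (Pi.mulSingle i s)⁻¹ =
              z * (Pi.mulSingle i s * z⁻¹ * (Pi.mulSingle i s)⁻¹) := by group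
          rw [h3]
          exact N.mul_mem hz (‹N.Normal›.conj_mem _ (N.inv_mem hz) _)
        have hb : (z i) * s * (z i)⁻¹ * s⁻¹ ∈ L := hcomm
        rw [hL, Subgroup.mem_bot] at hb
        have h4 : (z i) * s * (z i)⁻¹ = s := mul_inv_eq_one.mp hb
        have h5 : (z i) * s = s * (z i) := mul_inv_eq_iff_eq_mul.mp h4
        exact h5.symm
      · have : y ∈ L := by rw [hL]; trivial
        exact this
    have hind : ∀ A : Finset (Fin n), (fun j => if j ∈ A then x j else 1) ∈ N := by
      intro A
      induction A using Finset.induction_on with
      | empty =>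
        have : (fun j : Fin n => if j ∈ (∅ : Finset (Fin n)) then x j else 1) = 1 := by
          funext j; simp
        rw [this]; exact N.one_mem
      | insert i A hi ih =>
        have : (fun j => if j ∈ insert i A then x j else 1) =
            (fun j => if j ∈ A then x j else 1) * (Pi.mulSingle i (x i) : Fin n → S) := by
          funext j
          by_cases hj : j = i
          · subst hj; simp [hi]
          · simp [hj, Pi.mulSingle_eq_of_ne hj]
        rw [this]
        refine N.mul_mem ih ?_
        by_cases hiT : i ∈ T
        · exact hsingle i hiT _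
        · rw [hx i hiT, Pi.mulSingle_one]
          exact N.one_mem
    have := hind Finset.univ
    simpa using this

end Cfsg.Agent.S5913
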