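import Cfsg.Statements.S5946


set_option autoImplicit false
open Cfsg

namespace Cfsg.Agent.S5946

/-- Let F ⊆ K be finite fields with [K : F] = n ≥ 2 and regard K as an n-dimensional F-vector space. The Singer group M ≤ GL_F(K) of multiplications by the non-zero elements of K is self-centralizing: every F-linear automorphism of K commuting with all of M lies in M. -/
theorem result {F K : Type*} [Field F] [Fintype F] [Field K] [Fintype K] [Algebra F K] (n : ℕ) (hn : 2 ≤ n) (hdim : Module.finrank F K = n) :
    Subgroup.centralizer (((Units.map ((Algebra.lmul F K : K →ₐ[F] Module.End F K) : K →* Module.End F K)).range : Subgroup (Module.End F K)ˣ) : Set (Module.End F K)ˣ) = (Units.map ((Algebra.lmul F K : K →ₐ[F] Module.End F K) : K →* Module.End F K)).range := by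
  classical
  have hinj : ∀ (φ : (Module.End F K)ˣ) (x y : K), (φ : Module.End F K) x = (φ : Module.End F K) y → x = y := by
    intro φ x y h
    have h2 : ((φ⁻¹ * φ : (Module.End F K)ˣ) : Module.End F K) x = ((φ⁻¹ * φ : (Module.End F K)ˣ) : Module.End F K) y := by
      simp only [Units.val_mul, Module.End.mul_apply, h]
    simpa using h2
  ext φ
  constructor
  · intro hφ
    rw [Subgroup.mem_centralizer_iff] at hφ
    -- value at 1
    set k : K := (φ : Module.End F K) 1 with hk
    have hk0 : k ≠ 0 := by
      intro h0
      have : (φ : Module.End F K) 1 = (φ : Module.End F K) 0 := by rw [← hk, h0, map_zero]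
      exact one_ne_zero (hinj φ _ _ this)
    refine ⟨Units.mk0 k hk0, ?_⟩
    ext x
    by_cases hx : x = 0
    · subst hx; simp
    · have h1 := hφ (Units.map ((Algebra.lmul F K : K →ₐ[F] Module.End F K) : K →* Module.End F K) (Units.mk0 x hx))
        ⟨Units.mk0 x hx, rfl⟩
      have h2 := congrArg (fun f : (Module.End F K)ˣ => (f : Module.End F K) 1) h1
      simp only [Units.val_mul, Module.End.mul_apply, Units.coe_map, MonoidHom.coe_coe, Algebra.coe_lmul_eq_mul, Units.val_mk0, LinearMap.mul_apply', mul_one] at h2
      simp only [Units.coe_map, MonoidHom.coe_coe, Algebra.coe_lmul_eq_mul, Units.val_mk0, LinearMap.mul_apply']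
      rw [← h2, hk, mul_comm]
  · rintro ⟨u, rfl⟩
    rw [Subgroup.mem_centralizer_iff]
    rintro _ ⟨v, rfl⟩
    ext x
    simp only [Units.val_mul, Module.End.mul_apply, Units.coe_map, MonoidHom.coe_coe, Algebra.coe_lmul_eq_mul, LinearMap.mul_apply']
    ring

end Cfsg.Agent.S5946
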